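import Cfsg.Agent.H8.ReeG3
import Cfsg.Agent.H3.MaxDih

/-! The structure of `PSL₂(q)`, `q ≡ ±3 (mod 8)`, in abstract form. -/

set_option autoImplicit false
set_option linter.unusedSectionVars false

namespace Cfsg.GJ

open Subgroup Cfsg.L0 Cfsg.H8

local notation "𝒩" X:max => Subgroup.normalizer (SetLike.coe X)

/-- `q = p ^ k > 5`, `{2 n, 4 m} = {q + 1, q - 1}` with `n`, `m` odd -/
structure Num (q p n m : ℕ) : Prop where
  pp : p.Prime
  qp : ∃ k, q = p ^ k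
  on : Odd n
  om : Odd m
  rel : (2 * n = q + 1 ∧ 4 * m + 1 = q) ∨ (2 * n + 1 = q ∧ 4 * m = q + 1)
  big : 5 < q
  p3 : p ≠ 3

variable {G : Type*} [Group G]

/-- a cyclic torus `T` of order `N` of `K` with an inverting involution -/
structure Tor (K T : Subgroup G) (u : G) (N : ℕ) : Prop where
  le : T ≤ K
  uK : u ∈ K
  card : Nat.card T = N
  cyc : IsCyclic T
  uu : u * u = 1
  nu : u ∉ T
  inv : ∀ d ∈ T, u * d * u = d⁻¹
  nrm : ∀ k ∈ K, ∀ d ∈ T, d ≠ 1 → k⁻¹ * d * k ∈ T → k ∈ T ∨ u * k ∈ T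
  cnj : ∀ k ∈ K, k ^ N = 1 → ∃ y ∈ K, y * k * y⁻¹ ∈ T

/-- a Borel subgroup `P D` with its Bruhat decomposition -/
structure Bor (K P D : Subgroup G) (w : G) (q : ℕ) : Prop where
  PK : P ≤ K
  DK : D ≤ K
  wK : w ∈ K
  cP : Nat.card P = q
  big : 1 < q
  ab : ∀ x ∈ P, ∀ y ∈ P, x * y = y * x
  nrm : ∀ d ∈ D, ∀ x ∈ P, d * x * d⁻¹ ∈ P
  fpf : ∀ d ∈ D, ∀ x ∈ P, d * x = x * d → d = 1 ∨ x = 1
  ww : w * w = 1
  inv : ∀ d ∈ D, w * d * w = d⁻¹
  sep : ∀ x ∈ P, ∀ y ∈ P, ∀ d ∈ D, w * x * w = y * d → x = 1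
  bru : ∀ k ∈ K, (∃ x ∈ P, ∃ d ∈ D, k = x * d) ∨ ∃ x ∈ P, ∃ y ∈ P, ∃ d ∈ D, k = x * w * (y * d)

/-- Borel subgroup for `q = 4 m + 1` -/
structure BT (K P D : Subgroup G) (w : G) (q p m : ℕ) : Prop where
  bor : Bor K P D w q
  tor : Tor K D w (2 * m)
  pw : ∀ x ∈ P, x ^ p = 1
  cnj : ∀ k ∈ K, k ^ p = 1 → ∃ y ∈ K, y * k * y⁻¹ ∈ P

/-- `K` looks like `PSL₂(q)` -/
structure LS (K : Subgroup G) (q p n m : ℕ) : Prop where
  card : Nat.card K = 4 * (q * n * m)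
  tT : ∃ T u, Tor K T u n
  tW : ∃ W w, Tor K W w (2 * m)
  ord : ∀ k ∈ K, k ^ p = 1 ∨ k ^ n = 1 ∨ k ^ (2 * m) = 1
  bt : 4 * m + 1 = q → ∃ P D w, BT K P D w q p m

section map

variable {H : Type*} [Group H] {K T P D : Subgroup G} {u : G} {N q p n m : ℕ} (f : G →* H)
  (hf : Function.Injective f)
include hf

theorem cnj_map (h : ∀ k ∈ K, k ^ N = 1 → ∃ y ∈ K, y * k * y⁻¹ ∈ T) :
    ∀ k ∈ K.map f, k ^ N = 1 → ∃ y ∈ K.map f, y * k * y⁻¹ ∈ T.map f := by
  rintro _ ⟨k, hk, rfl⟩ e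
  rw [← map_pow, map_eq_one_iff f hf] at e
  obtain ⟨y, hy, e1⟩ := h k hk e
  exact ⟨_, mem_map_of_mem f hy, _, e1, by simp⟩

theorem Tor.map (h : Tor K T u N) : Tor (K.map f) (T.map f) (f u) N where
  le := map_mono h.le
  uK := mem_map_of_mem f h.uK
  card := by rw [card_map_of_injective hf, h.card]
  cyc := by
    have := h.cyc
    exact isCyclic_of_surjective _ (T.equivMapOfInjective f hf).surjective
  uu := by rw [← map_mul, h.uu, map_one]
  nu := fun e => h.nu ((mem_map_iff_mem hf).1 e)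
  inv := by
    rintro _ ⟨d, hd, rfl⟩
    rw [← map_mul, ← map_mul, h.inv d hd, map_inv]
  nrm := by
    rintro _ ⟨k, hk, rfl⟩ _ ⟨d, hd, rfl⟩ h1 e
    rw [← map_inv, ← map_mul, ← map_mul, mem_map_iff_mem hf] at e
    rw [← map_mul, mem_map_iff_mem hf, mem_map_iff_mem hf]
    exact h.nrm k hk d hd (fun e => h1 (by rw [e, map_one])) e
  cnj := cnj_map f hf h.cnj

theorem Bor.map (h : Bor K P D u q) : Bor (K.map f) (P.map f) (D.map f) (f u) q where
  PK := map_mono h.PK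
  DK := map_mono h.DK
  wK := mem_map_of_mem f h.wK
  cP := by rw [card_map_of_injective hf, h.cP]
  big := h.big
  ab := by
    rintro _ ⟨x, hx, rfl⟩ _ ⟨y, hy, rfl⟩
    rw [← map_mul, h.ab x hx y hy, map_mul]
  nrm := by
    rintro _ ⟨d, hd, rfl⟩ _ ⟨x, hx, rfl⟩
    exact ⟨_, h.nrm d hd x hx, by simp⟩
  fpf := by
    rintro _ ⟨d, hd, rfl⟩ _ ⟨x, hx, rfl⟩ e
    rw [← map_mul, ← map_mul] at e
    exact (h.fpf d hd x hx (hf e)).imp (fun e => by rw [e, map_one]) fun e => by rw [e, map_one]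
  ww := by rw [← map_mul, h.ww, map_one]
  inv := by
    rintro _ ⟨d, hd, rfl⟩
    rw [← map_mul, ← map_mul, h.inv d hd, map_inv]
  sep := by
    rintro _ ⟨x, hx, rfl⟩ _ ⟨y, hy, rfl⟩ _ ⟨d, hd, rfl⟩ e
    rw [← map_mul, ← map_mul, ← map_mul] at e
    rw [h.sep x hx y hy d hd (hf e), map_one]
  bru := by
    rintro _ ⟨k, hk, rfl⟩
    rcases h.bru k hk with ⟨x, hx, d, hd, rfl⟩ | ⟨x, hx, y, hy, d, hd, rfl⟩
    · exact Or.inl ⟨_, mem_map_of_mem f hx, _, mem_map_of_mem f hd, by simp⟩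
    · exact Or.inr ⟨_, mem_map_of_mem f hx, _, mem_map_of_mem f hy, _, mem_map_of_mem f hd, by simp⟩

theorem BT.map (h : BT K P D u q p m) : BT (K.map f) (P.map f) (D.map f) (f u) q p m :=
  ⟨h.bor.map f hf, h.tor.map f hf, by
    rintro _ ⟨x, hx, rfl⟩
    rw [← map_pow, h.pw x hx, map_one], cnj_map f hf h.cnj⟩

theorem LS.map (h : LS K q p n m) : LS (K.map f) q p n m where
  card := by rw [card_map_of_injective hf, h.card]
  tT := let ⟨_, _, e⟩ := h.tT; ⟨_, _, e.map f hf⟩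
  tW := let ⟨_, _, e⟩ := h.tW; ⟨_, _, e.map f hf⟩
  ord := by
    rintro _ ⟨k, hk, rfl⟩
    simpa only [← map_pow, map_eq_one_iff f hf] using h.ord k hk
  bt := fun e => let ⟨_, _, _, e⟩ := h.bt e; ⟨_, _, _, e.map f hf⟩

end map

namespace Bor

variable {K P D : Subgroup G} {w d e x y k : G} {q : ℕ} (h : Bor K P D w q)
include h

theorem winv : w⁻¹ = w := inv_self_of h.ww

theorem wl (g : G) : w * (w * g) = g := by rw [← mul_assoc, h.ww, one_mul]

theorem PD (hx : x ∈ P) (hd : x ∈ D) : x = 1 := (h.fpf x hd x hx rfl).elim id id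

theorem uniq (hx : x ∈ P) (hy : y ∈ P) (hd : d ∈ D) (he : e ∈ D) (h1 : x * d = y * e) :
    x = y ∧ d = e := by
  have e1 : y⁻¹ * x = e * d⁻¹ := by
    rw [inv_mul_eq_iff_eq_mul, ← mul_assoc, ← h1, mul_inv_cancel_right]
  have e2 := h.PD (mul_mem (inv_mem hy) hx) (e1 ▸ mul_mem he (inv_mem hd))
  obtain rfl : x = y := (inv_mul_eq_one.1 e2).symm
  exact ⟨rfl, mul_left_cancel h1⟩

variable [Finite G]

theorem DN : D ≤ 𝒩 P := fun d hd => mem_normalizer_of_forall (h.nrm d hd)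

theorem memB : k ∈ P ⊔ D ↔ ∃ x ∈ P, ∃ d ∈ D, x * d = k := mem_sup_of_le_normalizer_left h.DN

theorem BK : P ⊔ D ≤ K := sup_le h.PK h.DK

theorem BN : P ⊔ D ≤ 𝒩 P := sup_le le_normalizer h.DN

theorem cardB : Nat.card ↥(P ⊔ D) = q * Nat.card D := by
  have := card_sup_mul_card_inf h.DN
  rw [show D ⊓ P = ⊥ from eq_bot_iff.2 fun x hx => h.PD hx.2 hx.1, card_bot, mul_one, sup_comm,
    h.cP, mul_comm] at this
  exact this

theorem exists_ne : ∃ x ∈ P, x ≠ 1 :=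
  FT.exists_ne_one ((one_lt_card_iff_ne_bot P).1 (h.cP ▸ h.big))

theorem nw : w ∉ P ⊔ D := fun e => by
  obtain ⟨x, hx, h1⟩ := h.exists_ne
  have := conj_mem_of_mem_normalizer (h.BN e) hx
  rw [h.winv] at this
  exact h1 (h.sep x hx _ this 1 (one_mem _) (mul_one _).symm)

theorem bru' (hk : k ∈ K) : k ∈ P ⊔ D ∨ ∃ x ∈ P, ∃ b ∈ P ⊔ D, k = x * w * b :=
  (h.bru k hk).imp (fun ⟨x, hx, d, hd, e⟩ => h.memB.2 ⟨x, hx, d, hd, e.symm⟩)
    fun ⟨x, hx, _, hy, _, hd, e⟩ => ⟨x, hx, _, mul_mem (mem_sup_left hy) (mem_sup_right hd), e⟩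

theorem sepB (hk : k ∈ P ⊔ D) (h1 : w * k * w ∈ P ⊔ D) : k ∈ D := by
  obtain ⟨x, hx, d, hd, rfl⟩ := h.memB.1 hk
  have : w * x * w ∈ P ⊔ D := by
    have := mul_mem h1 (mem_sup_right hd)
    rwa [show w * (x * d) * w * d = w * x * w * (w * d * w * d) by simp [mul_assoc, h.wl],
      h.inv d hd, inv_mul_cancel, mul_one] at this
  obtain ⟨y, hy, e, he, e1⟩ := h.memB.1 this
  rw [h.sep x hx y hy e he e1.symm, one_mul]
  exact hd

theorem conjP (hk : k ∈ K) (hx : x ∈ P) (h1 : x ≠ 1) (h2 : k⁻¹ * x * k ∈ P ⊔ D) : k ∈ P ⊔ D := by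
  refine (h.bru' hk).resolve_right ?_
  rintro ⟨y, hy, b, hb, rfl⟩
  have := mul_mem (mul_mem hb h2) (inv_mem hb)
  rw [show b * ((y * w * b)⁻¹ * x * (y * w * b)) * b⁻¹ = w⁻¹ * (y⁻¹ * (x * y)) * w by group,
    h.ab x hx y hy, inv_mul_cancel_left, h.winv] at this
  exact h1 (h.PD hx (h.sepB (mem_sup_left hx) this))

theorem eq_one_of_conjD (hx : x ∈ P) (hd : d ∈ D) (h1 : d ≠ 1) (h2 : x⁻¹ * d * x ∈ D) : x = 1 := by
  have e := h.uniq (mul_mem (inv_mem hx) (h.nrm d hd x hx)) (one_mem P) hd h2 (by group)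
  exact (h.fpf d hd x hx (mul_inv_eq_iff_eq_mul.1 (inv_mul_eq_one.1 e.1).symm)).resolve_left h1

theorem conjD (hk : k ∈ K) (hd : d ∈ D) (h1 : d ≠ 1) (h2 : k⁻¹ * d * k ∈ P ⊔ D) :
    k ∈ P ⊔ D ∨ w * k ∈ P ⊔ D := by
  refine (h.bru' hk).imp_right ?_
  rintro ⟨y, hy, b, hb, rfl⟩
  have := mul_mem (mul_mem hb h2) (inv_mem hb)
  rw [show b * ((y * w * b)⁻¹ * d * (y * w * b)) * b⁻¹ = w⁻¹ * (y⁻¹ * d * y) * w by group,
    h.winv] at this
  have e := h.sepB (mul_mem (mul_mem (inv_mem (mem_sup_left hy)) (mem_sup_right hd))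
    (mem_sup_left hy)) this
  rw [h.eq_one_of_conjD hy hd h1 e, one_mul, h.wl]
  exact hb

theorem memD_of (hk : k ∈ P ⊔ D) (hd : d ∈ D) (h1 : d ≠ 1) (h2 : k⁻¹ * d * k ∈ D) : k ∈ D := by
  obtain ⟨x, hx, e, he, rfl⟩ := h.memB.1 hk
  have := mul_mem (mul_mem he h2) (inv_mem he)
  rw [show e * ((x * e)⁻¹ * d * (x * e)) * e⁻¹ = x⁻¹ * d * x by group] at this
  rw [h.eq_one_of_conjD hx hd h1 this, one_mul]
  exact he

theorem conjDD (hk : k ∈ K) (hd : d ∈ D) (h1 : d ≠ 1) (h2 : k⁻¹ * d * k ∈ D) :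
    k ∈ D ∨ w * k ∈ D := by
  refine (h.conjD hk hd h1 (mem_sup_right h2)).imp (fun e => h.memD_of e hd h1 h2) fun e =>
    h.memD_of e (inv_mem hd) (inv_ne_one.2 h1) ?_
  rw [← h.inv d hd, mul_inv_rev, h.winv]
  simpa [mul_assoc, h.wl] using h2

theorem centP (hk : k ∈ K) (hx : x ∈ P) (h1 : x ≠ 1) (h2 : k * x = x * k) : k ∈ P := by
  have e : k⁻¹ * x * k = x := by rw [mul_assoc, ← h2, inv_mul_cancel_left]
  obtain ⟨y, hy, d, hd, rfl⟩ := h.memB.1 (h.conjP hk hx h1 (by rw [e]; exact mem_sup_left hx))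
  rw [mul_assoc, ← mul_assoc x, h.ab x hx y hy, mul_assoc, mul_left_cancel_iff] at h2
  rw [(h.fpf d hd x hx h2).resolve_right h1, mul_one]
  exact hy

theorem conj_xd (hx : x ∈ P) (hd : d ∈ D) (h1 : d ≠ 1) : ∃ y ∈ P, y * d * y⁻¹ = x * d := by
  let f : P → P := fun y => ⟨y * (d * y⁻¹ * d⁻¹), mul_mem y.2 (h.nrm d hd _ (inv_mem y.2))⟩
  have hf : Function.Injective f := by
    rintro ⟨a, ha⟩ ⟨b, hb⟩ e
    have e1 : a * (d * a⁻¹ * d⁻¹) = b * (d * b⁻¹ * d⁻¹) := congrArg Subtype.val e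
    have e2 : d * (b⁻¹ * a) = b⁻¹ * a * d := by
      calc _ = b⁻¹ * (b * (d * b⁻¹ * d⁻¹)) * d * a := by group
        _ = _ := by rw [← e1]; group
    exact Subtype.ext (inv_mul_eq_one.1 ((h.fpf d hd _ (mul_mem (inv_mem hb) ha) e2).resolve_left
      h1)).symm
  obtain ⟨y, e⟩ := Finite.surjective_of_injective hf ⟨x, hx⟩
  refine ⟨y, y.2, ?_⟩
  rw [← (show (y : G) * (d * y⁻¹ * d⁻¹) = x from congrArg Subtype.val e)]
  simp [mul_assoc]

end Bor

theorem cnj_of_prime [Finite G] {K T : Subgroup G} {u : G} {N : ℕ}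
    (inv : ∀ d ∈ T, u * d * u = d⁻¹) (uu : u * u = 1)
    (nrm : ∀ k ∈ K, ∀ d ∈ T, d ≠ 1 → k⁻¹ * d * k ∈ T → k ∈ T ∨ u * k ∈ T)
    (h : ∀ r : ℕ, r.Prime → r ∣ N → ∀ k ∈ K, k ^ r = 1 → ∃ y ∈ K, y * k * y⁻¹ ∈ T) :
    ∀ k ∈ K, k ^ N = 1 → ∃ y ∈ K, y * k * y⁻¹ ∈ T := fun k hk e => by
  by_cases k1 : k = 1
  · exact ⟨1, one_mem _, by simp [k1]⟩
  by_cases k2 : k ^ 2 = 1
  · exact h 2 Nat.prime_two (orderOf_eq_prime k2 k1 ▸ orderOf_dvd_of_pow_eq_one e) k hk k2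
  obtain ⟨r, j, hr, h1, h2, h3⟩ := exists_prime_pow k1
  obtain ⟨y, hy, e1⟩ := h r hr (h1.trans (orderOf_dvd_of_pow_eq_one e)) _ (pow_mem hk j) h3
  refine ⟨y, hy, (nrm _ (mul_mem (mul_mem hy hk) (inv_mem hy)) _ e1 (by simpa) (by
    rwa [show (y * k * y⁻¹)⁻¹ * (y * k ^ j * y⁻¹) * (y * k * y⁻¹) = y * k ^ j * y⁻¹ by
      group])).resolve_right fun e2 => k2 ?_⟩
  have := inv _ e2
  rw [← mul_assoc, uu, one_mul, mul_inv_rev, inv_self_of uu, mul_left_inj,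
    eq_inv_iff_mul_eq_one] at this
  simpa [mul_assoc, sq] using conj_sq this y⁻¹

section L2

open scoped MatrixGroups
open H3 MulAction

variable {F : Type*} [Field F] [Fintype F]

theorem card_psl (h2 : (2 : F) ≠ 0) {a b : ℕ} (ha : 2 * a = Fintype.card F + 1)
    (hb : 2 * b + 1 = Fintype.card F) : Nat.card PSL(2, F) = 2 * (Fintype.card F * a * b) := by
  have e1 := card_PSL2_mul (F := F)
  rw [gcd_two_of_two_ne_zero h2] at e1
  generalize Fintype.card F = q at *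
  subst hb
  obtain rfl : a = b + 1 := by omega
  rw [show (2 * b + 1) ^ 2 - 1 = 4 * ((b + 1) * b) from Nat.sub_eq_of_eq_add (by ring)] at e1
  apply Nat.eq_of_mul_eq_mul_right two_pos
  rw [e1]; ring

theorem exists_tor (p : ℕ) [Fact p.Prime] [CharP F p] (h2 : (2 : F) ≠ 0) {N N' : ℕ}
    (hN : (2 * N = Fintype.card F + 1 ∧ 2 * N' + 1 = Fintype.card F) ∨
      (2 * N + 1 = Fintype.card F ∧ 2 * N' = Fintype.card F + 1)) (h3 : 3 ≤ N) :
    ∃ T u, Tor (⊤ : Subgroup PSL(2, F)) T u N := by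
  have cN : N.Coprime N' := by
    rcases hN with e | e
    · rw [show N = N' + 1 by omega]; simp
    · rw [show N' = N + 1 by omega]; simp
  have cp : (2 * N).Coprime p := coprime_card_add_sub (F := F) p (by
    rcases hN with e | e
    · exact Or.inl (e.1 ▸ dvd_rfl)
    · exact Or.inr (by rw [← e.1]; simp))
  have cK : Nat.card PSL(2, F) = N * (2 * Fintype.card F * N') := by
    rcases hN with e | e
    · rw [card_psl h2 e.1 e.2]; ring
    · rw [card_psl h2 e.2 e.1]; ring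
  obtain ⟨A, hA⟩ : ∃ A : SL(2, F), orderOf A = 2 * N := by
    rcases hN with e | e
    · exact e.1 ▸ exists_order_add_one
    · rw [show 2 * N = Fintype.card F - 1 by omega]; exact exists_order_sub_one
  have og : orderOf (A : PSL(2, F)) = N := by
    rw [orderOf_mk A (by rw [gcd_two_of_two_ne_zero h2, hA]; simp), gcd_two_of_two_ne_zero h2, hA]
    simp
  have gp : (A : PSL(2, F)) ^ p ≠ 1 := fun e => by
    have := (Nat.Coprime.coprime_mul_left cp).eq_one_of_dvd (og ▸ orderOf_dvd_of_pow_eq_one e)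
    omega
  have M := mobPK (F := F) p
  obtain ⟨x, hx⟩ := M.one A
  obtain ⟨y, hy, yx⟩ : ∃ y, (A : PSL(2, F)) • y = y ∧ y ≠ x := by
    by_contra hn
    push Not at hn
    exact gp (M.pow x _ ⟨hx, Or.inr hn⟩)
  obtain ⟨c1, c2⟩ := tame_stabilizer p (stabilizer PSL(2, F) y) (x := x) (eq_bot_iff.2 fun g hg =>
    Subtype.ext (Par.eq_one ((par_coe_iff g x).1 hg) g.2 yx))
  let f := (stabilizer PSL(2, F) y).subtype.comp (stabilizer (stabilizer PSL(2, F) y) x).subtype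
  have hf : Function.Injective f := Subtype.val_injective.comp Subtype.val_injective
  have mT : ∀ k, k ∈ f.range ↔ k • x = x ∧ k • y = y := fun k =>
    ⟨by rintro ⟨g, rfl⟩; exact ⟨g.2, g.1.2⟩, fun e => ⟨⟨⟨k, e.2⟩, e.1⟩, rfl⟩⟩
  have cT : Nat.card f.range = N := by
    have a1 : N ∣ Nat.card f.range := og ▸ orderOf_dvd_natCard _ ((mT _).2 ⟨hx, hy⟩)
    have a2 := card_cyclic_dvd p f hf c2
    rw [gcd_two_of_two_ne_zero h2, Nat.card_congr (MonoidHom.ofInjective hf).toEquiv] at a2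
    refine Nat.dvd_antisymm ?_ a1
    have a3 : ¬ Nat.card f.range ∣ N' := fun e => by
      have := cN.eq_one_of_dvd (a1.trans e); omega
    rcases hN with e | e
    · rw [show (Fintype.card F + 1) / 2 = N by omega,
        show (Fintype.card F - 1) / 2 = N' by omega] at a2
      exact a2.resolve_right a3
    · rw [show (Fintype.card F + 1) / 2 = N' by omega,
        show (Fintype.card F - 1) / 2 = N by omega] at a2
      exact a2.resolve_left a3
  have zT : f.range = zpowers (A : PSL(2, F)) := (eq_of_le_of_card_ge (zpowers_le.2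
    ((mT _).2 ⟨hx, hy⟩)) (by rw [cT, Nat.card_zpowers, og])).symm
  obtain ⟨w, w1, w2⟩ := exists_inverter A fun e => gp (mk_pow_char_of_tr p e)
  have sq : ∀ B : SL(2, F), tr B = 0 → (B : PSL(2, F)) * B = 1 := fun B e => by
    rw [← QuotientGroup.mk_mul, mul_self_of_trace_eq_zero e]
    exact mk_eq_one_SL2.2 (Or.inr rfl)
  have uu := sq w w1
  have ug : (w : PSL(2, F)) * A * (w : PSL(2, F))⁻¹ = (A : PSL(2, F))⁻¹ := by
    rw [inv_self_of uu, eq_inv_iff_mul_eq_one, mul_assoc]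
    exact sq _ w2
  have inv : ∀ d ∈ f.range, (w : PSL(2, F)) * d * w = d⁻¹ := fun d hd => by
    rw [← inv_zpowers ug (zT ▸ hd), inv_self_of uu]
  have nu : (w : PSL(2, F)) ∉ f.range := fun e => by
    rw [zT] at e
    rw [← comm_zpowers rfl e, mul_inv_cancel_right, eq_inv_iff_mul_eq_one, ← pow_two] at ug
    have := Nat.le_of_dvd two_pos (og ▸ orderOf_dvd_of_pow_eq_one ug)
    omega
  have sw : ∀ k : PSL(2, F), ∀ d ∈ f.range, d ≠ 1 → k⁻¹ * d * k ∈ f.range →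
      k ∈ f.range ∨ (k • x = y ∧ k • y = x) := fun k d hd d1 e => by
    obtain ⟨a1, a2⟩ := (mT _).1 hd
    obtain ⟨b1, b2⟩ := (mT _).1 e
    rw [mul_smul, mul_smul, inv_smul_eq_iff] at b1 b2
    have t : ∀ z, d • z = z → z = x ∨ z = y := fun z hz => by
      by_contra hn
      push Not at hn
      exact d1 (M.three d x y z yx.symm hn.1.symm hn.2.symm a1 a2 hz)
    have ne : k • x ≠ k • y := fun e => yx (smul_left_cancel k e).symm
    rcases t _ b1 with e1 | e1 <;> rcases t _ b2 with e2 | e2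
    · exact absurd (e1.trans e2.symm) ne
    · exact Or.inl ((mT k).2 ⟨e1, e2⟩)
    · exact Or.inr ⟨e1, e2⟩
    · exact absurd (e1.trans e2.symm) ne
  have hA1 : (A : PSL(2, F)) ∈ f.range := (mT _).2 ⟨hx, hy⟩
  have su := (sw w _ hA1 (fun e => gp (by rw [e, one_pow])) (by
    rw [inv_self_of uu, inv _ hA1]; exact inv_mem hA1)).resolve_left nu
  have nrm : ∀ k ∈ (⊤ : Subgroup PSL(2, F)), ∀ d ∈ f.range, d ≠ 1 → k⁻¹ * d * k ∈ f.range →
      k ∈ f.range ∨ (w : PSL(2, F)) * k ∈ f.range := fun k _ d hd d1 e =>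
    (sw k d hd d1 e).imp_right fun e => (mT _).2
      ⟨by rw [mul_smul, e.1, su.2], by rw [mul_smul, e.2, su.1]⟩
  refine ⟨f.range, w, le_top, mem_top _, cT, isCyclic_of_surjective _ f.rangeRestrict_surjective,
    uu, nu, inv, nrm, cnj_of_prime inv uu nrm fun r hr h1 k _ e => ?_⟩
  have : Fact r.Prime := ⟨hr⟩
  by_cases r2 : r = 2
  · subst r2
    obtain ⟨v, hv, e1⟩ := exists_orderOf_eq_of_dvd_card (p := 2) (H := f.range) (cT ▸ h1)
    obtain ⟨B, rfl⟩ := QuotientGroup.mk_surjective k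
    obtain ⟨C, rfl⟩ := QuotientGroup.mk_surjective v
    rcases tr_of_pow_two e with e2 | e2
    · exact ⟨1, mem_top _, by simp [e2]⟩
    obtain ⟨g, rfl⟩ := exists_conj_of_tr h2 e2 ((tr_of_pow_two (e1 ▸ pow_orderOf_eq_one _)).resolve_left
      fun e => by simp [e] at e1)
    exact ⟨g, mem_top _, hv⟩
  obtain ⟨S, hS⟩ := exists_isSyl r f.range
  obtain ⟨g, -, e1⟩ := (hS.trans le_top fun e2 => by
    have e3 := card_mul_relIndex (le_top : f.range ≤ ⊤)
    rw [cT, card_top, cK] at e3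
    rw [Nat.eq_of_mul_eq_mul_left (by omega) e3] at e2
    rcases hr.dvd_mul.1 e2 with e4 | e4
    · rcases hr.dvd_mul.1 e4 with e5 | e5
      · exact r2 ((Nat.prime_dvd_prime_iff_eq hr Nat.prime_two).1 e5)
      · obtain ⟨j, -, hj⟩ := FiniteField.card F p
        rw [hj] at e5
        exact hr.one_lt.ne' (Nat.eq_one_of_dvd_coprimes cp (h1.mul_left 2) (hr.dvd_of_dvd_pow e5))
    · exact hr.one_lt.ne' (Nat.eq_one_of_dvd_coprimes cN h1 e4)).exists_conj_mem (mem_top k)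
      ⟨1, by simpa⟩
  exact ⟨g, mem_top _, hS.le e1⟩

theorem bor_psl :
    Bor (⊤ : Subgroup PSL(2, F)) (H3.uHom F).range (dHom F).range ((wSL : SL(2, F)) : PSL(2, F))
      (Fintype.card F) := by
  have mD : ∀ {g : PSL(2, F)}, g ∈ (dHom F).range ↔ ∃ a : Fˣ, g = dgSL a :=
    ⟨fun ⟨a, e⟩ => ⟨a, e.symm⟩, fun ⟨a, e⟩ => ⟨a, e.symm⟩⟩
  refine ⟨le_top, le_top, mem_top _, by rw [H3.card_uHom_range, Nat.card_eq_fintype_card],
    Fintype.one_lt_card, ?_, ?_, ?_, ?_, ?_, ?_, ?_⟩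
  · intro x hx y hy
    obtain ⟨b, rfl⟩ := H3.mem_uHom_range.1 hx
    obtain ⟨c, rfl⟩ := H3.mem_uHom_range.1 hy
    rw [← QuotientGroup.mk_mul, ← QuotientGroup.mk_mul, ← U_add, ← U_add, add_comm]
  · intro d hd x hx
    obtain ⟨a, rfl⟩ := mD.1 hd
    exact (mem_normalizer_iff.1 (borel_le_normalizer (mk_mem_borel.2
      (by simp [dgSL, mkSL_coe]))) x).1 hx
  · intro d hd x hx e
    obtain ⟨a, rfl⟩ := mD.1 hd
    obtain ⟨b, rfl⟩ := H3.mem_uHom_range.1 hx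
    have e1 := conj_U_of_upper (dgSL a) (by simp [dgSL, mkSL_coe]) b
    have e2 : ((U ((dgSL a) 0 0 ^ 2 * b) : SL(2, F)) : PSL(2, F)) = (U b : SL(2, F)) := by
      rw [← e1, QuotientGroup.mk_mul, QuotientGroup.mk_mul, e, QuotientGroup.mk_inv,
        mul_inv_cancel_right]
    have e3 := mk_U_injective e2
    by_cases hb : b = 0
    · right; rw [hb, U_zero]; rfl
    · left
      have e4 : (a : F) ^ 2 = 1 := by
        apply mul_right_cancel₀ hb
        simpa [dgSL, mkSL_coe] using e3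
      rw [mk_eq_one_SL2]
      rcases mul_self_eq_one_iff.1 (by rw [← sq, e4] : (a : F) * a = 1) with e5 | e5
      · left
        obtain rfl : a = 1 := Units.ext e5
        exact SL2_ext (by simp [dgSL, mkSL_coe])
      · right
        obtain rfl : a = -1 := Units.ext e5
        exact SL2_ext (by simp [dgSL, mkSL_coe])
  · rw [← QuotientGroup.mk_mul, mk_eq_one_SL2]
    exact Or.inr (SL2_ext (by simp [wSL, mkSL_coe]))
  · intro d hd
    obtain ⟨a, rfl⟩ := mD.1 hd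
    rw [eq_inv_iff_mul_eq_one, ← QuotientGroup.mk_mul, ← QuotientGroup.mk_mul,
      ← QuotientGroup.mk_mul, mk_eq_one_SL2]
    exact Or.inr (SL2_ext (by simp [wSL, dgSL, mkSL_coe]))
  · intro x hx y hy d hd e
    obtain ⟨a, rfl⟩ := mD.1 hd
    obtain ⟨b, rfl⟩ := H3.mem_uHom_range.1 hx
    obtain ⟨c, rfl⟩ := H3.mem_uHom_range.1 hy
    rw [← QuotientGroup.mk_mul, ← QuotientGroup.mk_mul, ← QuotientGroup.mk_mul, mk_eq_mk_SL2] at e
    have : b = 0 := by
      rcases e with e | e <;>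
        simpa [wSL, dgSL, mkSL_coe, U_coe] using congrArg (fun A : SL(2, F) => A 1 0) e
    rw [this, U_zero]; rfl
  · intro k _
    obtain ⟨A, rfl⟩ := QuotientGroup.mk_surjective k
    have hd := det_SL2 A
    by_cases hA : A 1 0 = 0
    · have h0 : A 0 0 ≠ 0 := fun e => by simp [e, hA] at hd
      refine Or.inl ⟨_, H3.mem_uHom_range.2 ⟨A 0 1 * A 0 0, rfl⟩, _, mD.2 ⟨Units.mk0 _ h0, rfl⟩, ?_⟩
      rw [← QuotientGroup.mk_mul]
      congr 1
      refine SL2_ext ?_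
      simp [dgSL, mkSL_coe, U_coe, hA, h0]
      field_simp
      linear_combination hd + A 0 1 * hA
    · refine Or.inr ⟨_, H3.mem_uHom_range.2 ⟨A 0 0 / A 1 0, rfl⟩, _,
        H3.mem_uHom_range.2 ⟨A 1 1 * A 1 0, rfl⟩, _, mD.2 ⟨Units.mk0 _ hA, rfl⟩, ?_⟩
      rw [← QuotientGroup.mk_mul, ← QuotientGroup.mk_mul, ← QuotientGroup.mk_mul, mk_eq_mk_SL2]
      refine Or.inr (SL2_ext ?_)
      simp [wSL, dgSL, mkSL_coe, U_coe, hA]
      field_simp
      linear_combination -hd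

theorem ls_psl {p n m : ℕ} [Fact p.Prime] [CharP F p] (h : Num (Fintype.card F) p n m) :
    LS (⊤ : Subgroup PSL(2, F)) (Fintype.card F) p n m := by
  have big := h.big
  have on := Nat.odd_iff.1 h.on
  have om := Nat.odd_iff.1 h.om
  have rel := h.rel
  have h2 : (2 : F) ≠ 0 := fun e => by
    have := FiniteField.even_card_of_char_two (F := F) (CharP.ringChar_of_prime_eq_zero
      Nat.prime_two (by exact_mod_cast e))
    omega
  have cK : Nat.card (⊤ : Subgroup PSL(2, F)) = 4 * (Fintype.card F * n * m) := by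
    rw [card_top]
    rcases rel with e | e
    · rw [card_psl h2 e.1 (b := 2 * m) (by omega)]; ring
    · rw [card_psl h2 (a := 2 * m) (by omega) e.1]; ring
  have tW : ∃ W w, Tor (⊤ : Subgroup PSL(2, F)) W w (2 * m) :=
    exists_tor p h2 (N' := n) (by omega) (by omega)
  refine ⟨cK, exists_tor p h2 (N' := 2 * m) (by omega) (by omega), tW, fun k _ => ?_,
    fun e => ⟨_, _, _, bor_psl, ?_, ?_, ?_⟩⟩
  · have := PSL2_order p k
    rw [gcd_two_of_two_ne_zero h2] at this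
    rcases rel with e | e
    · rwa [show (Fintype.card F + 1) / 2 = n by omega,
        show (Fintype.card F - 1) / 2 = 2 * m by omega] at this
    · rw [show (Fintype.card F + 1) / 2 = 2 * m by omega,
        show (Fintype.card F - 1) / 2 = n by omega] at this
      tauto
  · obtain ⟨W, w, t⟩ := tW
    have b := bor_psl (F := F)
    have cD : Nat.card (dHom F).range = 2 * m := by have := card_dHom h2; omega
    have cyc := isCyclic_of_surjective _ (dHom F).rangeRestrict_surjective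
    refine ⟨le_top, mem_top _, cD, cyc, b.ww, fun e => b.nw (mem_sup_right e), b.inv,
      fun k hk d hd => b.conjDD hk hd, fun k hk e => ?_⟩
    obtain ⟨⟨g, hg⟩, e1⟩ := IsCyclic.exists_ofOrder_eq_natCard (α := (dHom F).range)
    rw [Subgroup.orderOf_mk, cD] at e1
    obtain ⟨y, -, e2⟩ := t.cnj g (mem_top _) (e1 ▸ pow_orderOf_eq_one g)
    obtain ⟨z, -, e3⟩ := t.cnj k hk e
    rw [← eq_of_le_of_card_ge (zpowers_le.2 e2) (by
      rw [t.card, Nat.card_zpowers, orderOf_conj', e1])] at e3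
    obtain ⟨i, e4⟩ := e3
    refine ⟨y⁻¹ * z, mem_top _, ?_⟩
    rw [show y⁻¹ * z * k * (y⁻¹ * z)⁻¹ = y⁻¹ * (z * k * z⁻¹) * y by group, ← e4]
    simp only []
    rw [conj_zpow]
    simpa only [mul_assoc, inv_mul_cancel_left, inv_mul_cancel, mul_one] using zpow_mem hg i
  · intro x hx
    obtain ⟨b, rfl⟩ := H3.mem_uHom_range.1 hx
    rw [← QuotientGroup.mk_pow, U_pow]
    simp [U_zero]
  · intro k hk e1
    obtain ⟨j, hj⟩ := h.qp
    have b := bor_psl (F := F)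
    refine IsSyl.exists_conj_mem (p := p) ⟨le_top, IsPGroup.of_card (b.cP.trans hj), fun e2 => ?_⟩ hk
      ⟨1, by simpa⟩
    have e3 := card_mul_relIndex b.PK
    rw [b.cP, cK, show 4 * (Fintype.card F * n * m) = Fintype.card F * (2 * n * (2 * m)) by ring]
      at e3
    rw [Nat.eq_of_mul_eq_mul_left (by omega) e3] at e2
    exact h.pp.one_lt.ne' (Nat.eq_one_of_dvd_coprimes (Nat.Coprime.mul_left
      (coprime_card_add_sub (F := F) p (Or.inl (by rw [show 2 * n = Fintype.card F + 1 by omega])))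
      (coprime_card_add_sub (F := F) p (Or.inr ⟨2, by omega⟩))) e2 dvd_rfl)

end L2

end Cfsg.GJ
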