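import Cfsg.Agent.GS.N1
import Cfsg.Agent.GS.Sz3

/-! The rank one groups `L₂(q)`, `Sz(q)`, `U₃(q)`: consequences of the basic facts `B0`. -/

set_option autoImplicit false
set_option linter.unusedSectionVars false

namespace Cfsg.GS.Nx

open Subgroup Cfsg.L0 Cfsg.H8 Cfsg.FT Cfsg.BS Cfsg.BS.R Cfsg.GS.T3 Cfsg.GS.T4
open scoped commutatorElement

/-- the basic facts from which `BenP` follows -/
structure B0 {G : Type} [Group G] (L T : Subgroup G) (k w : G) : Prop where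
  smp : Smp L
  syl : IsSyl 2 T L
  el : Elem 2 (Om 2 T)
  four : 4 ≤ ♯(Om 2 T)
  ty : Ty (Om 2 T) T k
  ti : ∀ g ∈ L, ∀ x ∈ T, x ≠ 1 → g * x * g⁻¹ ∈ T → g ∈ 𝒩 T
  two : ∀ g ∈ L, ∀ h ∈ L, g ∉ 𝒩 T → h ∉ 𝒩 T → ∃ x ∈ T, g⁻¹ * x * h ∈ 𝒩 T
  kL : k ∈ L
  bor : L ⊓ 𝒩 T = T ⊔ zpowers k
  wL : w ∈ L
  ww : w * w = 1
  wT : w ∉ 𝒩 T
  wk : w ∈ 𝒩 (zpowers k)

/-- the elements normalizing `T`, centralizing `A` and `T / A` -/
def stb {G : Type*} [Group G] (A T : Subgroup G) : Subgroup G where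
  carrier := {g | g ∈ 𝒩 T ∧ g ∈ 𝒞 A ∧ ∀ x ∈ T, g * x * g⁻¹ * x⁻¹ ∈ A}
  one_mem' := ⟨one_mem _, one_mem _, by simp⟩
  mul_mem' := fun {a b} ha hb => ⟨mul_mem ha.1 hb.1, mul_mem ha.2.1 hb.2.1, fun x hx => by
    convert mul_mem (conj_mem_of_norm (cent_le_norm A ha.2.1) (hb.2.2 x hx)) (ha.2.2 x hx) using 1
    group⟩
  inv_mem' := fun {a} ha => ⟨inv_mem ha.1, inv_mem ha.2.1, fun x hx => by
    convert inv_mem (ha.2.2 _ (conj_mem_of_norm' ha.1 hx)) using 1; group⟩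

theorem stb_conj {G : Type*} [Group G] {A T : Subgroup G} {g k : G} (hg : g ∈ stb A T)
    (h1 : k ∈ 𝒩 T) (h2 : k ∈ 𝒩 A) : k * g * k⁻¹ ∈ stb A T :=
  ⟨mul_mem (mul_mem h1 hg.1) (inv_mem h1), conj_mem_of_norm (norm_le_norm_cent _ h2) hg.2.1,
    fun x hx => by
      convert conj_mem_of_norm h2 (hg.2.2 _ (conj_mem_of_norm' h1 hx)) using 1; group⟩

theorem stb_odd {G : Type*} [Group G] [Finite G] {A T : Subgroup G} {g : G} (hT : IsPGroup 2 T)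
    (hg : g ∈ stb A T) (ho : Odd (orderOf g)) : g ∈ 𝒞 T :=
  zpowers_le.1 (cent_of_stable (H := A) (zpowers_le.2 hg.1) (cop_of_pgroup Nat.prime_two hT
    (by rw [card_zpow]; exact ho.not_two_dvd_nat)) (commutator_le.2 fun x hx a ha => by
      simpa [commutatorElement_def, mul_assoc] using inv_mem ((zpowers_le.2 hg ha).2.2 x hx))
    (zpowers_le.2 hg.2.1))

theorem b0_of {G : Type} [Group G] {L T : Subgroup G} {k : G} (h : BenP L T k) :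
    ∃ w, B0 L T k w :=
  let ⟨w, a, b, c, d⟩ := h.wl
  ⟨w, h.smp, h.syl, h.el, h.four, h.ty, h.ti, h.two, h.kL, h.bor, a, b, c, d⟩

namespace B0
variable {G : Type} [Group G] [Finite G] {L T S S' Y : Subgroup G} {g k w x y z : G}
  (h : B0 L T k w)
include h

theorem mem_om : x ∈ Om 2 T ↔ x ∈ T ∧ x * x = 1 :=
  ⟨fun e => ⟨Om_le 2 T e, mul_self_of_elem h.el e⟩, fun e => mem_Om e.1 ((sq x).trans e.2)⟩

theorem kT : k ∈ 𝒩 T := ty_kT h.ty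

theorem cA : T ≤ 𝒞 (Om 2 T) := ty_cA h.ty h.el

theorem exA : ∃ a ∈ Om 2 T, a ≠ 1 := Ax.exists_ne1 (by have := h.four; omega)

/-- a Sylow subgroup normalized by a nontrivial element of `T` is `T` -/
theorem eq_of_norm (hS : IsSyl 2 S L) (hx : x ∈ T) (x1 : x ≠ 1) (hn : x ∈ 𝒩 S) : S = T := by
  have m := hS.mem_of_mem_normalizer (h.syl.le hx) (isPGroup_iff_forall.1 h.syl.isPGroup x hx) hn
  obtain ⟨g, hg, rfl⟩ := h.syl.exists_cj_eq hS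
  exact cj_eq_iff.2 (inv_mem_iff.1 (h.ti _ (inv_mem hg) x hx x1 (by simpa using mem_cj.1 m)))

theorem ti' (hg : g ∈ 𝒩 L) (hx : x ∈ T) (x1 : x ≠ 1) (e : g * x * g⁻¹ ∈ T) : g ∈ 𝒩 T :=
  cj_eq_iff.1 (h.eq_of_norm (h.syl.cj_of_mem hg) e (conj_ne_one x1 g) (le_norm _ (conj_mem_cj hx)))

theorem cz (hx : x ∈ T) (x1 : x ≠ 1) : 𝒩 L ⊓ 𝒞₁ x ≤ 𝒩 T := fun g hg =>
  h.ti' hg.1 hx x1 (by rwa [mem_cent1.1 hg.2, mul_inv_cancel_right])

theorem nY (h1 : Y ≤ T) (h0 : Y ≠ ⊥) : 𝒩 L ⊓ 𝒩 Y ≤ 𝒩 T := fun _ hg =>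
  let ⟨_, a, b⟩ := exists_ne_one h0
  h.ti' hg.1 (h1 a) b (h1 (conj_mem_of_norm hg.2 a))

theorem nA : 𝒩 L ⊓ 𝒩 (Om 2 T) ≤ 𝒩 T :=
  h.nY (Om_le 2 T) (ne_bot_of_card (by have := h.four; omega))

theorem sylw : IsSyl 2 (cj w T) L := h.syl.cj_of_mem (le_norm L h.wL)

theorem new : cj w T ≠ T := fun e => h.wT (cj_eq_iff.1 e)

/-- `T` is transitive on the other Sylow subgroups -/
theorem trans (hS : IsSyl 2 S L) (hS' : IsSyl 2 S' L) (n : S ≠ T) (n' : S' ≠ T) :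
    ∃ x ∈ T, cj x S' = S := by
  obtain ⟨g, hg, rfl⟩ := h.syl.exists_cj_eq hS
  obtain ⟨l, hl, rfl⟩ := h.syl.exists_cj_eq hS'
  obtain ⟨x, hx, e⟩ := h.two g hg l hl (fun e => n (cj_eq_iff.2 e)) fun e => n' (cj_eq_iff.2 e)
  exact ⟨x, hx, by rw [← cj_mul, ← mul_inv_cancel_left g (x * l), cj_mul g, ← mul_assoc,
    cj_eq_iff.2 e]⟩

theorem bru (hg : g ∈ L) (n : g ∉ 𝒩 T) : ∃ s ∈ T, ∃ b ∈ 𝒩 T, g = s * w * b := by
  obtain ⟨x, hx, e⟩ := h.two g hg w h.wL n h.wT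
  exact ⟨x, hx, _, inv_mem e, by group⟩

theorem idx : (𝒩 T).relIndex L = ♯T + 1 := by
  let φ : Option T → L ⧸ (𝒩 T).subgroupOf L := fun o =>
    o.elim ((1 : L) : _) fun s => ((⟨s * w, mul_mem (h.syl.le s.2) h.wL⟩ : L) : _)
  have n : ∀ s : T, φ none ≠ φ (some s) := fun s e => h.wT
    ((mul_mem_cancel_left (le_norm T s.2)).1 (by simpa [mem_subgroupOf] using QuotientGroup.eq.1 e))
  rw [← Finite.card_option]
  refine (Nat.card_congr (Equiv.ofBijective φ ⟨fun a b e => ?_, fun q => ?_⟩)).symm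
  · rcases a with _ | s <;> rcases b with _ | t
    · rfl
    · exact absurd e (n t)
    · exact absurd e.symm (n s)
    · have a : (s * w)⁻¹ * (t * w) ∈ 𝒩 T := mem_subgroupOf.1 (QuotientGroup.eq.1 e)
      by_contra i
      refine h.new (h.eq_of_norm h.sylw (s⁻¹ * t).2 (fun e => i (congrArg some
        (Subtype.ext (inv_mul_eq_one.1 e)))) ?_)
      rw [← cj_norm, mem_cj]
      convert a using 1
      simp [mul_assoc]
  · obtain ⟨g, rfl⟩ := QuotientGroup.mk_surjective q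
    by_cases e : (g : G) ∈ 𝒩 T
    · exact ⟨none, QuotientGroup.eq.2 (by simpa [mem_subgroupOf] using e)⟩
    · obtain ⟨s, hs, b, hb, e⟩ := h.bru g.2 e
      exact ⟨some ⟨s, hs⟩, QuotientGroup.eq.2 (show (s * w)⁻¹ * g ∈ 𝒩 T by
        rwa [e, inv_mul_cancel_left])⟩

theorem mx (h1 : T ≤ Y) (h2 : Y ≤ L) : Y ≤ 𝒩 T ∨ Y = L := by
  refine or_iff_not_imp_left.2 fun e => le_antisymm h2 ?_
  obtain ⟨y, hy, n⟩ := SetLike.not_le_iff_exists.1 e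
  refine ((h.smp.simple _ (Kx.ncl_nrm h.syl.le)).resolve_left
    (ne_bot_of_le (h.syl.ne_bot h.smp.even) (le_ncl L T))).ge.trans (ncl_le_iff.2 fun g hg => ?_)
  by_cases i : cj g T = T
  · exact i.le.trans h1
  obtain ⟨x, hx, e⟩ := h.trans (h.syl.cj_of_mem (le_norm L hg))
    (h.syl.cj_of_mem (le_norm L (h2 hy))) i fun e => n (cj_eq_iff.1 e)
  rw [← e, ← cj_mul, ← cj_eq_of_mem (mul_mem (h1 hx) hy)]
  exact cj_mono _ h1

/-- an element of `N(L)` normalizing all Sylow subgroups centralizes `L` -/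
theorem cent_of_all (hg : g ∈ 𝒩 L) (all : ∀ S, IsSyl 2 S L → g ∈ 𝒩 S) : g ∈ 𝒞 L := by
  refine mem_cent.2 fun l hl => ?_
  have m := mul_mem (inv_mem hl) (conj_mem_of_norm hg hl)
  have e : ncl L (zpowers (l⁻¹ * (g * l * g⁻¹))) = ⊥ :=
    (h.smp.simple _ (Kx.ncl_nrm (zpowers_le.2 m))).resolve_right fun e => h.smp.not_norm h.syl
      (e.ge.trans (ncl_le_iff.2 fun n hn => by
        rw [cj_zpowers', zpowers_le]
        have a := all _ (h.syl.cj_of_mem (le_norm L (inv_mem (mul_mem hn (inv_mem hl)))))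
        have b := all _ (h.syl.cj_of_mem (le_norm L (inv_mem hn)))
        rw [← cj_norm, mem_cj] at a b
        convert mul_mem a (inv_mem b) using 1; group))
  have := mem_bot.1 (e.le (le_ncl L _ (mem_zpowers _)))
  rwa [inv_mul_eq_one, eq_mul_inv_iff_mul_eq] at this

theorem cent_of_fix (hg : g ∈ 𝒩 L) (h1 : g ∈ 𝒩 (cj w T)) (h2 : g ∈ 𝒞 T) : g ∈ 𝒞 L :=
  h.cent_of_all hg fun S hS => by
    by_cases e : S = T
    · exact e ▸ cent_le_norm T h2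
    obtain ⟨x, hx, rfl⟩ := h.trans hS h.sylw e h.new
    rw [← cj_norm, mem_cj]
    rwa [mem_cent.1 h2 _ (inv_mem hx), inv_mul_cancel_right]

theorem kw : k ∈ 𝒩 (cj w T) := by
  rw [← cj_norm, mem_cj]
  exact zpowers_le.2 h.kT (conj_mem_of_norm' h.wk (mem_zpowers k))

/-- the stabilizer of two points -/
theorem stab2 : L ⊓ 𝒩 T ⊓ 𝒩 (cj w T) = zpowers k := by
  refine le_antisymm (fun g hg => ?_) (zpowers_le.2 ⟨⟨h.kL, h.kT⟩, h.kw⟩)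
  obtain ⟨t, ht, c, hc, rfl⟩ := (mem_sup_l (zpowers_le.2 h.kT)).1 (h.bor.le hg.1)
  by_cases e : t = 1
  · rwa [e, one_mul]
  · exact absurd (h.eq_of_norm h.sylw ht e
      ((mul_mem_cancel_right (zpowers_le.2 h.kw hc)).1 hg.2)) h.new

theorem reduce (hg : g ∈ 𝒩 L) (h1 : g ∈ 𝒩 T) : ∃ x ∈ T, x⁻¹ * g ∈ 𝒩 (cj w T) := by
  obtain ⟨x, hx, e⟩ := h.trans (h.sylw.cj_of_mem hg) h.sylw
    (fun i => h.new ((cj_inj g).1 (i.trans (cj_eq_of_mem_norm h1).symm))) h.new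
  exact ⟨x, hx, cj_eq_iff.1 (by rw [cj_mul, ← e, cj_inv_cj])⟩

theorem odd_k : Odd ♯(zpowers k) := by rw [card_zpow]; exact h.ty.1.odd

/-- an automorphism fixing two points and centralizing `A` and `T/A` centralizes the torus -/
theorem key (hg : g ∈ 𝒩 L) (h1 : g ∈ 𝒩 (cj w T)) (h2 : g ∈ 𝒞 (Om 2 T))
    (h3 : ∀ x ∈ T, g * x * g⁻¹ * x⁻¹ ∈ Om 2 T) : g * k = k * g := by
  obtain ⟨a, a1, a2⟩ := h.exA
  have n : g ∈ 𝒩 T := h.cz (Om_le 2 T a1) a2 ⟨hg, cent_le_cent1 a1 h2⟩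
  have kA := h.ty.1.kA
  have cm : ∀ K : Subgroup G, k ∈ K → g ∈ K → k⁻¹ * (g * k * g⁻¹) ∈ K := fun K a b =>
    mul_mem (inv_mem a) (mul_mem (mul_mem b a) (inv_mem b))
  have m : k⁻¹ * (g * k * g⁻¹) ∈ L ⊓ 𝒩 T ⊓ 𝒩 (cj w T) :=
    ⟨⟨L.mul_mem (L.inv_mem h.kL) (conj_mem_of_norm hg h.kL), cm _ h.kT n⟩, cm _ h.kw h1⟩
  have gK : g ∈ stb (Om 2 T) T := ⟨n, h2, h3⟩
  have c : k⁻¹ * (g * k * g⁻¹) ∈ 𝒞 T := stb_odd h.syl.isPGroup (by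
    simpa [mul_assoc] using mul_mem (stb_conj gK (inv_mem h.kT) (inv_mem kA)) (inv_mem gK))
    (odd_of_mem h.odd_k (h.stab2.le m))
  have := h.smp.eq_one m.1.1 (h.cent_of_fix (le_norm L m.1.1) m.2 c)
  rw [inv_mul_eq_one, eq_mul_inv_iff_mul_eq] at this
  exact this.symm

/-- reduction to an element fixing two points -/
theorem red2 (hg : g ∈ 𝒩 L) (h2 : g ∈ 𝒞 (Om 2 T)) (h3 : ∀ x ∈ T, g * x * g⁻¹ * x⁻¹ ∈ Om 2 T) :
    ∃ x ∈ T, ∃ τ ∈ 𝒩 L, τ ∈ 𝒩 (cj w T) ∧ τ ∈ 𝒞 (Om 2 T) ∧ (∀ y ∈ T, τ * y * τ⁻¹ * y⁻¹ ∈ Om 2 T) ∧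
      τ * k = k * τ ∧ g = x * τ := by
  obtain ⟨a, a1, a2⟩ := h.exA
  have n : g ∈ 𝒩 T := h.cz (Om_le 2 T a1) a2 ⟨hg, cent_le_cent1 a1 h2⟩
  obtain ⟨x, hx, e⟩ := h.reduce hg n
  have b1 := mul_mem (le_norm L (inv_mem (h.syl.le hx))) hg
  have b2 := mul_mem (inv_mem (h.cA hx)) h2
  have b3 : ∀ y ∈ T, x⁻¹ * g * y * (x⁻¹ * g)⁻¹ * y⁻¹ ∈ Om 2 T := fun y hy => by
    convert mul_mem (ty_comm h.ty (inv_mem hx) (conj_mem_of_norm n hy)) (h3 y hy) using 1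
    rw [commutatorElement_def]; group
  exact ⟨x, hx, _, b1, e, b2, b3, h.key b1 e b2 b3, by group⟩

theorem autT (hg : g ∈ 𝒩 L) (hc : g ∈ 𝒞 T) : g ∈ Om 2 T ⊔ 𝒞 L := by
  obtain ⟨x, hx, τ, a1, a2, -, -, a5, rfl⟩ := h.red2 hg (cent_anti (Om_le 2 T) hc) fun x hx => by
    rw [← mem_cent.1 hc x hx]; simp
  have xA : x ∈ Om 2 T := ty_fix h.ty h.el (by have := h.four; omega) hx
    (ty_ctr h.ty (mul_mem (conj_mem_of_norm h.kT hx) (inv_mem hx)) (by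
      convert mul_mem (conj_mem_of_norm (norm_le_norm_cent T h.kT) hc) (inv_mem hc) using 1
      rw [mul_assoc k x, mul_assoc k (x * τ), mul_assoc x τ,
        (show Commute τ k from a5).inv_right.eq]; group))
  exact mul_mem_sup xA (h.cent_of_fix a1 a2 ((mul_mem_cancel_left (cent_symm h.cA xA)).1 hc))

theorem aut_u3 (hu : U3G (Om 2 T) T k) (hg : g ∈ 𝒩 L) (h2 : g ∈ 𝒞 (Om 2 T))
    (h3 : ∀ x ∈ T, g * x * g⁻¹ * x⁻¹ ∈ Om 2 T) : g ∈ T ⊔ 𝒞 L := by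
  obtain ⟨x, hx, τ, a1, a2, a3, a4, a5, rfl⟩ := h.red2 hg h2 h3
  obtain ⟨F, _, _, π, ι, l, c⟩ := co3_of hu
  refine mul_mem_sup hx (h.cent_of_fix a1 a2 (mem_cent.2 fun y hy => ?_))
  obtain ⟨u, hu, a, ha, rfl⟩ := c.w_onto h.four hy
  have e1 := mem_cent.1 c.w_cent _ (a4 u hu)
  have e2 : Commute τ (k ^ (♯(Om 2 T) - 1)) := (show Commute τ k from a5).pow_right _
  have e3 := mem_cent.1 (h.cA (mul_mem (conj_mem_of_norm (pow_mem h.kT (♯(Om 2 T) - 1)) hu)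
    (inv_mem hu))) _ (a4 u hu)
  have e4 := mem_cent.1 a3 a ha
  generalize k ^ (♯(Om 2 T) - 1) = v at *
  obtain ⟨b, hb⟩ : ∃ b, b = τ * u * τ⁻¹ * u⁻¹ := ⟨_, rfl⟩
  rw [← hb] at e1 e3
  symm
  calc τ * (a * (v * u * v⁻¹ * u⁻¹))
      = τ * a * τ⁻¹ * ((τ * v * τ⁻¹) * b * u * (τ * v * τ⁻¹)⁻¹ * u⁻¹ * b⁻¹) * τ := by rw [hb]; group
    _ = a * (b * (v * u * v⁻¹ * u⁻¹) * b⁻¹) * τ := by
      rw [← e4, e2.eq, mul_inv_cancel_right, mul_inv_cancel_right, ← e1]; group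
    _ = _ := by rw [e3, mul_inv_cancel_right]

theorem autO_ab (e : T = Om 2 T) (hg : g ∈ 𝒩 L) (ho : Odd (orderOf g)) (hc : g ∈ 𝒞 (Om 2 T)) :
    g ∈ 𝒞 L := by
  obtain ⟨a, ha, c, c1, rfl⟩ := (mem_sup_r (((Om_le 2 T).trans h.syl.le).trans
    (le_norm_cent (le_norm L)))).1 (h.autT hg (e.symm ▸ hc))
  have aL := h.syl.le (Om_le 2 T ha)
  have cm : Commute a c := mem_cent.1 c1 a aL
  have i := pow_orderOf_eq_one (a * c)
  rw [cm.mul_pow, mul_eq_one_iff_eq_inv] at i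
  rw [eq_one_of_pow_coprime (Nat.coprime_two_right.2 ho) (h.smp.eq_one (pow_mem aL _)
    (i ▸ inv_mem (pow_mem c1 _))) (h.el.pow ha), one_mul]
  exact c1

theorem odd_le (ho : Odd ♯Y) (h1 : Y ≤ 𝒩 L) (hn : Om 2 T ≤ 𝒩 Y) : Y ≤ 𝒩 T :=
  gen_cent1 h.el.abel (Kx.not_cyc h.el h.four) hn
    (cop_of_pgroup Nat.prime_two h.el.pgroup ho.not_two_dvd_nat).symm fun _ b c =>
      (inf_le_inf_right _ h1).trans (h.cz (Om_le 2 T b) c)

/-- a subgroup of odd order normalized by `A` centralizes `A` -/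
theorem odd_cA (ho : Odd ♯Y) (h1 : Y ≤ 𝒩 L) (hn : Om 2 T ≤ 𝒩 Y) : Y ≤ 𝒞 (Om 2 T) :=
  le_cent_of_inf_eq_bot ((h.odd_le ho h1 hn).trans (norm_le_norm_Om 2 T)) hn
    (inf_eq_bot_of_cop (cop_of_pgroup Nat.prime_two h.el.pgroup ho.not_two_dvd_nat).symm)

theorem gen_sz (hi : Lie.IsoSuzuki L) (h1 : Om 2 T ≤ Y) (h2 : Y ≤ L)
    (hk : k ∈ 𝒩 Y) : Y ≤ 𝒩 T ∨ Y = L := by
  rcases ty_irr h.ty h.four (le_inf h1 (Om_le 2 T)) inf_le_right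
    (le_norm_inf (zpowers_le.2 hk) (zpowers_le.2 h.kT) (mem_zpowers k)) with e | e
  · obtain ⟨a, a1, a2⟩ := h.exA
    obtain ⟨P, hP, p1⟩ := exists_isSyl_ge h.el.pgroup h1
    obtain ⟨S, hS, p2⟩ := exists_isSyl_ge hP.isPGroup (hP.le.trans h2)
    obtain rfl := h.eq_of_norm hS (Om_le 2 T a1) a2 (le_norm S (p2 (p1 a1)))
    obtain rfl : P = Om 2 S := le_antisymm ((le_inf hP.le p2).trans e.le) p1
    have s : SzG Y := fun X _ _ i a b => sz3 X a b fun c => not_three_of_sz hi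
      (c.trans ((Involves.card_dvd i).trans (card_dvd h2)))
    exact .inl ((le_inf (h2.trans (le_norm L)) ((Kx.kAb G Y _ oddOrder s hP h.el.abel).1.trans
      (sup_le ((h.odd_le (odd_O2 Y) (((Op_le _ Y).trans h2).trans (le_norm L))
        (h1.trans (Op_nrm _ Y).norm)).trans (norm_le_norm_Om 2 S)) le_rfl))).trans h.nA)
  · exact h.mx (e.ge.trans inf_le_left) h2

theorem benP (iso : (∃ (F : Type) (_ : Field F) (_ : Fintype F), Fintype.card F = ♯(Om 2 T) ∧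
      T = Om 2 T ∧ Nonempty (L ≃* Matrix.SpecialLinearGroup (Fin 2) F)) ∨
    (Lie.IsoSuzuki L ∧ SzP L T k) ∨
    (∃ (F : Type) (_ : Field F) (_ : Fintype F), Fintype.card F = ♯(Om 2 T) ^ 2 ∧
      U3G (Om 2 T) T k ∧ Nonempty (L ≃* PSU 3 F ♯(Om 2 T)))) : BenP L T k := by
  refine ⟨h.smp, h.syl, h.el, h.four, h.ty, h.ti, h.two, h.kL, h.bor, h.idx, fun _ => h.mx,
    fun Y a b c => ?_, ⟨w, h.wL, h.ww, h.wT, h.wk⟩, fun g a b c => ?_, fun _ => h.autT,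
    fun g a b c => ?_, iso⟩
  · rcases iso with ⟨_, _, _, -, e, -⟩ | ⟨e, -⟩ | ⟨_, _, _, -, e, -⟩
    · exact (h.mx (e.le.trans a) b).imp_right .inl
    · exact (h.gen_sz e a b c).imp_right .inl
    · exact .inr (.inr e)
  · rcases iso with ⟨_, _, _, -, e, -⟩ | ⟨-, e⟩ | ⟨_, _, _, -, e, -⟩
    · exact .inl (sup_le_sup_right (Om_le 2 T) _ (h.autT a (e.symm ▸ c)))
    · obtain ⟨l, l1, d, d1, rfl⟩ := (mem_sup_l (cent_le_norm L)).1 (e.aut2 g a b)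
      obtain ⟨z, z1, z2⟩ := h.exA
      exact .inl (mul_mem_sup (e.cz z (Kx.szp_om e ▸ z1) z2 ⟨l1, (mul_mem_cancel_right
        (cent_le_cent1 (h.syl.le (Om_le 2 T z1)) d1)).1 (cent_le_cent1 z1 c)⟩) d1)
    · refine or_iff_not_imp_right.2 fun n => h.aut_u3 e a c fun x hx => by_contra fun i =>
        n ⟨e, x, hx, i⟩
  · rcases iso with ⟨_, _, _, -, e, -⟩ | ⟨-, e⟩ | ⟨_, _, _, -, e, -⟩
    · exact .inl (h.autO_ab e a b c)
    · exact .inl (e.autO g a b (Kx.szp_om e ▸ c))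
    · exact .inr e

end B0

section
variable {G : Type} [Group G] [Finite G] {A B L T : Subgroup G} {k : G}

/-- a nontrivial abelian subgroup of `T` normalized by the torus is `A` -/
theorem ty_abel (h : Ty A T k) (he : Elem 2 A) (h4 : 4 ≤ ♯A) (hB : B ≤ T) (h0 : B ≠ ⊥)
    (ha : Abel B) (hk : k ∈ 𝒩 B) : B = A := by
  refine tor_irr h.1 ?_ h0 hk
  rcases ty_irr h h4 le_sup_right (sup_le hB (ty_le h))
    (zpowers_le.1 (le_norm_sup (zpowers_le.2 hk) (zpowers_le.2 h.1.kA))) with e | e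
  · exact le_sup_left.trans e.le
  · refine fun x hx => ty_ctr h (hB hx) ?_
    rw [← e, cent_sup]
    exact ⟨ha hx, ty_cA h he (hB hx)⟩

theorem smp_cj {G : Type*} [Group G] {L : Subgroup G} (h : Smp L) (g : G) : Smp (cj g L) :=
  h.map (MulAut.conj g).toMonoidHom (by
    rw [(MonoidHom.ker_eq_bot_iff _).2 (MulAut.conj g).injective, inf_bot_eq])

end

end Cfsg.GS.Nx

namespace Cfsg.GS.T4.BenP

open Subgroup Cfsg.L0 Cfsg.H8 Cfsg.FT Cfsg.BS Cfsg.BS.R Cfsg.GS.T3 Cfsg.GS.Nx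

variable {G : Type} [Group G] [Finite G] {B L T S S' Y : Subgroup G} {g k x y z : G}
  (h : BenP L T k)
include h

theorem mem_om : x ∈ Om 2 T ↔ x ∈ T ∧ x * x = 1 := (b0_of h).elim fun _ b => b.mem_om

theorem kT : k ∈ 𝒩 T := ty_kT h.ty

theorem kA : k ∈ 𝒩 (Om 2 T) := h.ty.1.kA

theorem cA : T ≤ 𝒞 (Om 2 T) := ty_cA h.ty h.el

theorem ctr : 𝒵 T = Om 2 T := le_antisymm (fun _ a => ty_ctr h.ty a.1 a.2)
  (le_inf (Om_le 2 T) (cent_symm h.cA))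

theorem exA : ∃ a ∈ Om 2 T, a ≠ 1 := (b0_of h).elim fun _ b => b.exA

theorem not_le : ¬ L ≤ 𝒩 T := h.smp.not_norm h.syl

/-- a Sylow subgroup normalized by a nontrivial element of `T` is `T` -/
theorem eq_of_norm (hS : IsSyl 2 S L) (hx : x ∈ T) (x1 : x ≠ 1) (hn : x ∈ 𝒩 S) : S = T :=
  (b0_of h).elim fun _ b => b.eq_of_norm hS hx x1 hn

theorem ti' (hg : g ∈ 𝒩 L) (hx : x ∈ T) (x1 : x ≠ 1) (e : g * x * g⁻¹ ∈ T) : g ∈ 𝒩 T :=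
  (b0_of h).elim fun _ b => b.ti' hg hx x1 e

theorem cz (hx : x ∈ T) (x1 : x ≠ 1) : 𝒩 L ⊓ 𝒞₁ x ≤ 𝒩 T := (b0_of h).elim fun _ b => b.cz hx x1

theorem nY (h1 : Y ≤ T) (h0 : Y ≠ ⊥) : 𝒩 L ⊓ 𝒩 Y ≤ 𝒩 T := (b0_of h).elim fun _ b => b.nY h1 h0

theorem nA : 𝒩 L ⊓ 𝒩 (Om 2 T) ≤ 𝒩 T := (b0_of h).elim fun _ b => b.nA

/-- `T` is transitive on the other Sylow subgroups -/
theorem trans (hS : IsSyl 2 S L) (hS' : IsSyl 2 S' L) (n : S ≠ T) (n' : S' ≠ T) :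
    ∃ x ∈ T, cj x S' = S := (b0_of h).elim fun _ b => b.trans hS hS' n n'

theorem cent_of_all (hg : g ∈ 𝒩 L) (all : ∀ S, IsSyl 2 S L → g ∈ 𝒩 S) : g ∈ 𝒞 L :=
  (b0_of h).elim fun _ b => b.cent_of_all hg all

/-- an element centralizing `T` and fixing a second point centralizes `L` -/
theorem cent_of_fix (hS : IsSyl 2 S L) (n : S ≠ T) (hg : g ∈ 𝒩 L) (h1 : g ∈ 𝒩 S) (h2 : g ∈ 𝒞 T) :
    g ∈ 𝒞 L := by
  obtain ⟨w, b⟩ := b0_of h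
  obtain ⟨x, hx, rfl⟩ := b.trans hS b.sylw n b.new
  rw [← cj_norm, mem_cj, mem_cent.1 h2 _ (inv_mem hx), inv_mul_cancel_right] at h1
  exact b.cent_of_fix hg h1 h2

theorem eq_om (hB : B ≤ T) (h0 : B ≠ ⊥) (ha : Abel B) (hk : k ∈ 𝒩 B) : B = Om 2 T :=
  ty_abel h.ty h.el h.four hB h0 ha hk

theorem odd_le (ho : Odd ♯Y) (h1 : Y ≤ 𝒩 L) (hn : Om 2 T ≤ 𝒩 Y) : Y ≤ 𝒩 T :=
  (b0_of h).elim fun _ b => b.odd_le ho h1 hn

theorem odd_cA (ho : Odd ♯Y) (h1 : Y ≤ 𝒩 L) (hn : Om 2 T ≤ 𝒩 Y) : Y ≤ 𝒞 (Om 2 T) :=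
  (b0_of h).elim fun _ b => b.odd_cA ho h1 hn

/-- a subgroup of odd order normalized by `A` centralizes `L`, except in `U₃` -/
theorem odd (ho : Odd ♯Y) (h1 : Y ≤ 𝒩 L) (hn : Om 2 T ≤ 𝒩 Y) : Y ≤ 𝒞 L ∨ U3G (Om 2 T) T k :=
  or_iff_not_imp_right.2 fun n _ hy =>
    (h.autO _ (h1 hy) (odd_of_mem ho hy) (h.odd_cA ho h1 hn hy)).resolve_right n

/-- a subgroup of odd order normalized by `T` centralizes `L` -/
theorem oddT (ho : Odd ♯Y) (h1 : Y ≤ 𝒩 L) (hn : T ≤ 𝒩 Y) : Y ≤ 𝒞 L := fun y hy => by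
  have c : Y ≤ 𝒞 T := le_cent_of_inf_eq_bot (h.odd_le ho h1 ((Om_le 2 T).trans hn)) hn
    (inf_eq_bot_of_cop (cop_of_pgroup Nat.prime_two h.syl.isPGroup ho.not_two_dvd_nat).symm)
  obtain ⟨a, ha, d, d1, rfl⟩ := (mem_sup_r (((Om_le 2 T).trans h.syl.le).trans
    (le_norm_cent (le_norm L)))).1 (h.autT y (h1 hy) (c hy))
  have aL := h.syl.le (Om_le 2 T ha)
  have cm : Commute a d := mem_cent.1 d1 a aL
  have i := pow_orderOf_eq_one (a * d)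
  rw [cm.mul_pow, mul_eq_one_iff_eq_inv] at i
  rw [eq_one_of_pow_coprime (Nat.coprime_two_right.2 (odd_of_mem ho hy)) (h.smp.eq_one
    (pow_mem aL _) (i ▸ inv_mem (pow_mem d1 _))) (h.el.pow ha), one_mul]
  exact d1

theorem cent_le : 𝒞 L ≤ 𝒩 T := le_norm_of_cent le_rfl h.syl.le

theorem top [L.Normal] : L ⊔ 𝒩 T = ⊤ := eq_top_iff.2 fun g _ => by
  obtain ⟨l, hl, n, hn, rfl⟩ := h.syl.frattini (g := g) (Ax.top_le_norm (mem_top g))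
  exact mul_mem_sup hl hn

/-- `N(T)` is a maximal subgroup -/
theorem max [L.Normal] (h1 : 𝒩 T ≤ Y) (h2 : Y ≠ ⊤) : Y = 𝒩 T := by
  rcases h.mx (L ⊓ Y) (le_inf h.syl.le ((le_norm T).trans h1)) inf_le_left with e | e
  · refine le_antisymm (fun y hy => ?_) h1
    obtain ⟨l, hl, n, hn, rfl⟩ := h.syl.frattini (g := y) (Ax.top_le_norm (mem_top y))
    exact mul_mem (e ⟨hl, (mul_mem_cancel_right (h1 hn)).1 hy⟩) hn
  · exact absurd (eq_top_iff.2 (h.top.ge.trans (sup_le (e.ge.trans inf_le_right) h1))) h2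

theorem idx_top [L.Normal] : (𝒩 T).relIndex ⊤ = ♯T + 1 := by
  rw [← h.top, ri_sup' Ax.top_le_norm, h.idx]

/-- a `2`-element of `T C(L)` is a product of `2`-elements -/
theorem split' (e : T = S ⊓ L) (hx : x ∈ S) (h1 : x ∈ T ⊔ 𝒞 L) :
    ∃ l ∈ S ⊓ L, ∃ c ∈ S ⊓ 𝒞 L, l * c = x := by
  obtain ⟨l, hl, c, hc, rfl⟩ := (mem_sup_l h.cent_le).1 h1
  rw [e] at hl
  exact ⟨l, hl, c, ⟨(S.mul_mem_cancel_left hl.1).1 hx, hc⟩, rfl⟩

/-- the elements of `S` centralizing `A` split or are graph automorphisms -/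
theorem split (hS : IsPGroup 2 S) (e : T = S ⊓ L) (hx : x ∈ S) (h1 : x ∈ 𝒩 L)
    (h2 : x ∈ 𝒞 (Om 2 T)) : (∃ l ∈ S ⊓ L, ∃ c ∈ S ⊓ 𝒞 L, l * c = x) ∨ Gr (Om 2 T) T k x :=
  (h.aut2 x h1 (isPGroup_iff_forall.1 hS x hx) h2).imp_left (h.split' e hx)

/-- the stabilizer of two points is conjugate to the torus -/
theorem stab2 (hS : IsSyl 2 S L) (n : S ≠ T) : ∃ x ∈ T, L ⊓ 𝒩 T ⊓ 𝒩 S = zpowers (x * k * x⁻¹) := by
  obtain ⟨w, b⟩ := b0_of h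
  obtain ⟨x, hx, rfl⟩ := b.trans hS b.sylw n b.new
  exact ⟨x, hx, by rw [← cj_zpowers', ← b.stab2, cj_inf, cj_inf, cj_norm, cj_norm,
    cj_eq_of_mem hx, cj_eq_of_mem (h.syl.le hx)]⟩

/-- an element of odd order of the Borel subgroup is conjugate into the torus -/
theorem odd_mem (hg : g ∈ L) (hn : g ∈ 𝒩 T) (ho : Odd (orderOf g)) :
    ∃ x ∈ T, g ∈ zpowers (x * k * x⁻¹) := by
  have o : ¬ 2 ∣ ♯(zpowers k) := by rw [card_zpow]; exact h.ty.1.odd.not_two_dvd_nat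
  have n := zpowers_le.2 h.kT
  obtain ⟨_, m, e⟩ := ((mk_sd n (inf_eq_bot_of_cop (cop_of_pgroup Nat.prime_two h.syl.isPGroup
    o))).hall_right (π := {2}ᶜ) (by rw [compl_compl]; exact (piG_single Nat.prime_two).2 h.syl.isPGroup)
    ((piG_compl_single Nat.prime_two).2 o)).exists_le_cj (sol_sup (sol_of_pgroup Nat.prime_two
      h.syl.isPGroup) (cyc_zpowers k).abel.sol n) (K := zpowers g) ((piG_compl_single Nat.prime_two).2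
      (by rw [card_zpow]; exact ho.not_two_dvd_nat)) (zpowers_le.2 (h.bor.le ⟨hg, hn⟩))
  obtain ⟨x, hx, c, hc, rfl⟩ := (mem_sup_l n).1 m
  rw [cj_mul, cj_eq_of_mem hc, cj_zpowers'] at e
  exact ⟨x, hx, e (mem_zpowers g)⟩

theorem sol_bor : Sol (L ⊓ 𝒩 T) := h.bor ▸ sol_sup (sol_of_pgroup Nat.prime_two h.syl.isPGroup)
  (cyc_zpowers k).abel.sol (zpowers_le.2 h.kT)

/-- centralizers of involutions are solvable -/
theorem sol_cent (hx : x ∈ L) (h1 : Ivo x) : Sol (L ⊓ 𝒞₁ x) := by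
  obtain ⟨g, hg, e⟩ := h.syl.exists_conj_mem hx ⟨1, (sq x).trans h1.2⟩
  have := (h.sol_bor.mono (le_inf inf_le_left ((inf_le_inf_right _ (le_norm L)).trans
    (h.cz e (conj_ne_one h1.1 g))))).cj g⁻¹
  rwa [← cj_cent1, ← cj_eq_of_mem hg, ← cj_inf, cj_inv_cj] at this

/-- all involutions of `L` are conjugate -/
theorem conj_inv (hx : x ∈ L) (hy : y ∈ L) (h1 : Ivo x) (h2 : Ivo y) : ∃ g ∈ L, g * x * g⁻¹ = y := by
  obtain ⟨a, ha, e⟩ := h.syl.exists_conj_mem hx ⟨1, (sq x).trans h1.2⟩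
  obtain ⟨b, hb, e'⟩ := h.syl.exists_conj_mem hy ⟨1, (sq y).trans h2.2⟩
  obtain ⟨n, i⟩ := h.ty.1.tr _ (mem_Om e (conj_sq ((sq x).trans h1.2) a)) _
    (mem_Om e' (conj_sq ((sq y).trans h2.2) b)) (conj_ne_one h1.1 a) (conj_ne_one h2.1 b)
  exact ⟨b⁻¹ * k ^ n * a, mul_mem (mul_mem (inv_mem hb) (pow_mem h.kL n)) ha, by
    rw [← inv_mul_cancel_left b y, ← inv_mul_cancel_right (b * y) b, ← i]; group⟩

end Cfsg.GS.T4.BenP
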