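import Cfsg.Agent.GS.Y1
import Cfsg.Agent.GS.N2
import Cfsg.Agent.GS.J1

/-! The uniqueness case of Goldschmidt's theorem, 2: data on the Goldschmidt groups. -/

set_option autoImplicit false

namespace Cfsg.GS.Yx

open Subgroup Cfsg.L0 Cfsg.H8 Cfsg.FT Cfsg.BS Cfsg.BS.R Cfsg.GS.T3 Cfsg.GS.T4
open scoped commutatorElement MatrixGroups

/-- an involution of a group of Ree type or of `J₁` -/
structure I3 {X : Type*} [Group X] (L : Subgroup X) (t : X) : Prop where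
  ne : t ≠ 1
  sq : t * t = 1
  mem : t ∈ L
  c8 : ∃ m, Odd m ∧ ♯(L ⊓ 𝒞₁ t) = 8 * m
  o : ∀ N, N ⊴ L ⊓ 𝒞₁ t → Odd ♯N → N = ⊥
  c : ∀ P, P ≤ L ⊓ 𝒞₁ t → IsPGroup 2 P → ♯P = 8 → ∀ y ∈ L ⊓ 𝒞 P, Odd (orderOf y) → y = 1

theorem I3.map {X Q : Type*} [Group X] [Group Q] {L : Subgroup X} {t : X} (h : I3 L t) {f : X →* Q}
    (hf : Function.Injective f) : I3 (L.map f) (f t) := by
  have e : L.map f ⊓ 𝒞₁ (f t) = (L ⊓ 𝒞₁ t).map f := le_antisymm
    (by rintro _ ⟨⟨x, a, rfl⟩, b⟩; exact ⟨x, ⟨a, mem_cent1.2 (hf (by simpa using mem_cent1.1 b))⟩, rfl⟩)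
    (by rintro _ ⟨x, a, rfl⟩
        exact ⟨⟨x, a.1, rfl⟩, mem_cent1.2 (by rw [← map_mul, mem_cent1.1 a.2, map_mul])⟩)
  have m : ∀ N, N ≤ (L ⊓ 𝒞₁ t).map f → ∃ M, M ≤ L ⊓ 𝒞₁ t ∧ M.map f = N := fun N a =>
    ⟨N.comap f, (comap_mono a).trans (comap_map_eq_self_of_injective hf _).le,
      map_comap_eq_self (a.trans (map_le_range _ _))⟩
  refine ⟨fun i => h.ne (hf (i.trans (map_one f).symm)), by rw [← map_mul, h.sq, map_one],
    mem_map_of_mem f h.mem, by rw [e, card_map_of_injective hf]; exact h.c8, fun N a b => ?_,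
    fun P a b c y d o => ?_⟩
  · rw [e] at a
    obtain ⟨M, i, rfl⟩ := m N a.le
    rw [h.o M ⟨i, fun g k => (mem_normalizer_iff.2 fun x => by
      simpa only [← map_inv, ← map_mul, mem_map_iff_mem hf] using
        mem_normalizer_iff.1 (a.norm (mem_map_of_mem f k)) (f x))⟩ (by rwa [card_map_of_injective hf] at b),
      Subgroup.map_bot]
  · obtain ⟨M, i, rfl⟩ := m P (e ▸ a)
    obtain ⟨⟨y, j, rfl⟩, k⟩ := d
    rw [h.c M i ((b.comap_of_injective f hf).to_le (le_comap_map _ _))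
      (by rwa [card_map_of_injective hf] at c) y ⟨j, mem_cent.2 fun x l => hf (by
        simpa using mem_cent.1 k _ (mem_map_of_mem f l))⟩ (by rwa [orderOf_injective f hf] at o),
      map_one]

theorem i3_120 {G : Type*} [Group G] [Finite G] {t : G} (h1 : t ≠ 1) (h2 : t * t = 1)
    (h3 : ♯(𝒞₁ t) = 120) (h4 : ¬ Sol (𝒞₁ t)) : I3 ⊤ t := by
  have o : ∀ N, N ⊴ 𝒞₁ t → Odd ♯N → N = ⊥ := fun N a b => by_contra fun e => h4 (by
    obtain ⟨Q, _, _, f, -, hk⟩ := exists_quo a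
    refine sol_of_down (f := f) le_rfl (solvable_of_odd _ (odd_of_le b (hk ▸ inf_le_left))) ?_
    have i := card_down_mul' (f := f) le_rfl (up_le _ _)
    obtain ⟨p, hp, j, hj⟩ := exists_prime_dvd e
    rw [hk, h3, hj] at i
    have k : p ∣ 2 ^ 3 * (3 * 5) := ⟨_, i.symm.trans (mul_assoc _ _ _)⟩
    have l : p ≠ 2 := fun m => b.not_two_dvd_nat (m ▸ ⟨j, hj⟩)
    have k := ((Nat.coprime_primes hp Nat.prime_two).2 l).pow_right 3 |>.dvd_of_dvd_mul_left k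
    rcases (Nat.Prime.dvd_mul hp).1 k with m | m
    · rw [(Nat.prime_dvd_prime_iff_eq hp Nat.prime_three).1 m] at i
      exact H5.isSolvable_of_card_dvd_pow_mul_pow Nat.prime_two Nat.prime_five (a := 3) (b := 1)
        ⟨j, by nlinarith⟩
    · rw [(Nat.prime_dvd_prime_iff_eq hp Nat.prime_five).1 m] at i
      exact H5.isSolvable_of_card_dvd_pow_mul_pow Nat.prime_two Nat.prime_three (a := 3) (b := 1)
        ⟨j, by nlinarith⟩)
  refine ⟨h1, h2, trivial, ⟨15, by decide, by rw [top_inf_eq, h3]⟩, by rwa [top_inf_eq],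
    fun P a b c y d e => by_contra fun y1 => ?_⟩
  rw [top_inf_eq] at a
  have s : IsSyl 2 P (𝒞₁ t) := ⟨a, b, by have := card_mul_ri a; rw [c, h3] at this; omega⟩
  have tP := s.mem_of_mem_normalizer (self_mem_cent1 t) ⟨1, (pow_two t).trans h2⟩
    (cent_le_norm P (le_cent1_iff.1 a))
  obtain ⟨p, hp, i⟩ := exists_prime_dvd (ne_bot_of_mem (mem_zpowers y) y1)
  obtain ⟨z, hz, j⟩ := exists_orderOf_eq hp i
  have := Fact.mk hp
  have zP : zpowers z ≤ 𝒞 P := zpowers_le.2 (zpowers_le.2 d.2 hz)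
  have zt := zP.trans (cent_le_cent1 tP)
  have l : ¬ 2 ∣ p := fun m => e.not_two_dvd_nat (m.trans (card_zpow y ▸ i))
  have cz := (card_zpow z).trans j
  have k := card_dvd (le_inf (sup_le a zt) (sup_le (le_norm_of_le_cent (cent_symm zP)) (le_norm _)))
  rw [card_sup_of_inf (le_norm_of_le_cent zP)
    (inf_eq_bot_of_cop (cop_of_pgroup Nat.prime_two b (cz ▸ l))), c, cz, inf_comm] at k
  have m := card_inf_mul_ri (𝒩 (zpowers z)) (𝒞₁ t)
  have n := card_mul_ri zt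
  obtain ⟨k, hk⟩ := k
  rw [h3] at m n
  rw [hk] at m
  rw [cz] at n
  have q : p ∣ 3 * 5 := ⟨k * (𝒩 (zpowers z)).relIndex (𝒞₁ t), by linarith⟩
  have s' : IsSyl p (zpowers z) (𝒞₁ t) := ⟨zt, isPGroup_of_card cz, fun ⟨r, hr⟩ => by
    rw [hr] at n
    rcases (Nat.Prime.dvd_mul hp).1 q with u | u <;>
      rw [(Nat.prime_dvd_prime_iff_eq hp (by norm_num)).1 u] at n <;> omega⟩
  have u := card_sylow_modEq_one p (𝒞₁ t)
  rw [s'.toSylow.card_eq_index_normalizer] at u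
  replace u : (𝒩 (zpowers z)).relIndex (𝒞₁ t) ≡ 1 [MOD p] := by
    rwa [relIndex, subgroupOf_normalizer_eq zt]
  refine hp.one_lt.ne' (cz.symm.trans (card_eq_one_iff.2 (o _ ⟨zt, relIndex_eq_one.1 ?_⟩
    (cz ▸ Nat.odd_iff.2 (by omega)))))
  generalize (𝒩 (zpowers z)).relIndex (𝒞₁ t) = r at m u
  rw [Nat.ModEq] at u
  rcases (Nat.Prime.dvd_mul hp).1 q with v | v <;>
    rw [(Nat.prime_dvd_prime_iff_eq hp (by norm_num)).1 v] at m u
  · have : r ∣ 5 := ⟨k, by nlinarith⟩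
    rcases (Nat.dvd_prime Nat.prime_five).1 this with v | v <;> omega
  · have : r ∣ 3 := ⟨k, by nlinarith⟩
    rcases (Nat.dvd_prime Nat.prime_three).1 this with v | v <;> omega

open H6 H4.J1 in
theorem i3_j1 : I3 ⊤ (ev 5) := by
  have := finite
  have o : ∀ w, fixB img 8 bs w = true → evL ev w = 1 := main.2.2
  have t1 : ev 5 ≠ 1 := evL_singleton ev 5 ▸ hφ.ne_one (p := 100) (by decide +kernel)
  have a1 : ev 1 ≠ 1 := evL_singleton ev 1 ▸ hφ.ne_one (p := 100) (by decide +kernel)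
  have e1 := o [1, 1, 1] (by decide +kernel)
  have e3 := o [3, 3] (by decide +kernel)
  have e4 := o [4, 4] (by decide +kernel)
  have e5 := o [5, 5] (by decide +kernel)
  have e6 := o [1, 5, 1, 1, 5] (by decide +kernel)
  have e7 := o [3, 5, 3, 5] (by decide +kernel)
  have e8 := o [4, 5, 4, 5] (by decide +kernel)
  have e9 := o [1, 1, 3, 1, 1, 3, 1, 1, 3] (by decide +kernel)
  have e10 := o [3, 4, 3, 4, 3, 4] (by decide +kernel)
  have e11 := o [4, 1, 4, 1] (by decide +kernel)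
  simp only [evL_cons, evL_nil, mul_one] at e1 e3 e4 e5 e6 e7 e8 e9 e10 e11
  have i1 : (ev 1)⁻¹ = ev 1 * ev 1 := (eq_inv_of_mul_eq_one_right e1).symm
  have i3 := inv_self_of e3
  have i4 := inv_self_of e4
  have i5 := inv_self_of e5
  have c : ∀ x, ⁅x, ev 5⁆ = 1 → x ∈ 𝒞₁ (ev 5) := fun x e =>
    mem_cent1.2 (commutatorElement_eq_one_iff_mul_comm.1 e)
  have c1 := c (ev 1) (by simpa only [commutatorElement_def, i1, i5, mul_assoc] using e6)
  have c3 := c (ev 3) (by simpa only [commutatorElement_def, i3, i5, mul_assoc] using e7)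
  have c4 := c (ev 4) (by simpa only [commutatorElement_def, i4, i5, mul_assoc] using e8)
  have e : gen ev Ws = 𝒞₁ (ev 5) := by
    refine (coatom.le_iff.1 (gen_le ?_)).resolve_left (fun e => t1 ?_) |>.symm
    · simp only [Ws, List.forall_mem_cons, evL_singleton]
      exact ⟨c1, c3, c4, self_mem_cent1 _, by simp⟩
    · have := simple
      refine mem_bot.1 (((IsSimpleGroup.eq_bot_or_eq_top_of_normal (center Grp)
        inferInstance).resolve_right fun i => a1 ?_).le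
          (mem_center_iff.2 fun g => mem_cent1.1 (e.ge (mem_top g))))
      have := mem_center_iff.1 (i.ge (mem_top (ev 1))) (ev 4)
      rw [← mul_assoc, ← mul_assoc, this, mul_assoc (ev 1), e4, mul_one] at e11
      rwa [e11, mul_one] at e1
  refine i3_120 t1 e5 (le_antisymm (e ▸ (UB.bot.cover (C2.cover hev hR)).2) ?_) fun s => ?_
  · have := cover.finite_card.2
    rw [card_top, main.1, e] at this
    omega
  set F := closure {ev 1, ev 3, ev 4}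
  have m1 : ev 1 ∈ F := subset_closure (by simp)
  have m3 : ev 3 ∈ F := subset_closure (by simp)
  have m4 : ev 4 ∈ F := subset_closure (by simp)
  have l : ∀ K : Subgroup Grp, ev 1 ∈ K → ev 3 ∈ K → ev 4 ∈ K → F ≤ K := fun K a b c =>
    (closure_le _).2 (by rintro x (rfl | rfl | rfl) <;> assumption)
  have d3 : ev 3 ∈ ⁅F, F⁆ := by
    convert commutator_mem_commutator m1 (mul_mem (mul_mem m1 m3) (inv_mem m1))
    rw [← i3, eq_comm, eq_inv_iff_mul_eq_one, ← e9, commutatorElement_def]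
    simp only [mul_inv_rev, inv_inv, i3, mul_assoc, inv_mul_cancel_left]
    simp only [i1, mul_assoc]
  refine ((s.mono (l _ c1 c3 c4)).der_lt (ne_bot_of_mem m1 a1)).not_ge (l _ ?_ d3 ?_)
  · convert commutator_mem_commutator m4 m1
    rw [commutatorElement_def, i4, eq_comm, mul_inv_eq_iff_eq_mul, ← i1, eq_inv_iff_mul_eq_one]
    simpa only [mul_assoc] using e11
  · convert (der_nrm F).conj_mem (mul_mem m3 m4) d3
    rw [mul_inv_rev, i3, i4]
    exact i4.symm.trans (eq_inv_of_mul_eq_one_left (by simpa only [mul_assoc] using e10)).symm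

theorem i3_ree {G : Type*} [Group G] [Finite G] (h : IsReeType G) :
    ∃ t : G, I3 ⊤ t ∧ Odd (𝒞₁ t).index := by
  obtain ⟨-, -, t, K, n, hn, h1, h2, ⟨-, -, a1, a2, a3⟩, F, _, _, hF, ⟨e⟩⟩ := h
  have tt : t * t = 1 := by rw [← pow_two, ← h1, pow_orderOf_eq_one]
  have k := (ks_psl hn hF).map (K.subtype.comp e.symm.toMonoidHom)
    (K.subtype_injective.comp e.symm.injective)
  rw [← map_map, map_top_of_surjective _ e.symm.surjective, ← MonoidHom.range_eq_map,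
    range_subtype] at k
  have d : DP (zpowers t) K (𝒞₁ t) := ⟨a3, fun b hb => mem_cent.2 fun a ha => a1 a ha b hb, a2⟩
  have cz := (card_zpow t).trans h1
  have q : Fintype.card F % 8 = 3 := by rw [hF, pow_succ, pow_mul, Nat.mul_mod, Nat.pow_mod]; simp
  have q3 : 3 ^ 3 ≤ Fintype.card F := hF ▸ Nat.pow_le_pow_right (by norm_num) (by omega)
  obtain ⟨m, m1, m2⟩ : ∃ m, Odd m ∧ ♯K = 4 * m := by
    obtain ⟨r, hr⟩ : ∃ r, Fintype.card F = 8 * r + 3 := ⟨Fintype.card F / 8, by omega⟩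
    have := k.cD
    have i := k.cK
    generalize ♯((dHom F).range.map (K.subtype.comp e.symm.toMonoidHom)) = D at this i
    obtain rfl : D = 4 * r + 1 := by omega
    exact ⟨(8 * r + 3) * (4 * r + 1) * (2 * r + 1),
      ((by grind : Odd _).mul (by grind)).mul (by grind), by rw [i, hr]; ring⟩
  have od : ∀ y ∈ 𝒞₁ t, Odd (orderOf y) → y ∈ K := fun y a b => mem_of_cop_ri d.nrm_right.norm a
    (by rw [d.sd.ri', cz]; exact Nat.coprime_two_right.2 b)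
  refine ⟨t, ⟨fun i => by simp [i] at h1, tt, trivial,
    ⟨m, m1, by rw [top_inf_eq, d.card, cz, m2]; ring⟩, fun N a b => ?_, fun P a b c y i j => ?_⟩, h2⟩
  · rw [top_inf_eq] at a
    have i : N ≤ K := fun y hy => od y (a.le hy) (b.of_dvd_nat (orderOf_dvd hy))
    have := Matrix.ProjectiveSpecialLinearGroup.rank_two_simple (F := F)
      (by rw [Nat.card_eq_fintype_card]; omega)
    have := e.isSimpleGroup
    rcases (a.mono i d.le_right).normal.eq_bot_or_eq_top with j | j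
    · exact (inf_eq_left.2 i).symm.trans (disjoint_iff.1 (subgroupOf_eq_bot.1 j))
    · rw [le_antisymm i (subgroupOf_eq_top.1 j), m2] at b
      exact absurd b (by grind)
  rw [top_inf_eq] at a
  have s : IsSyl 2 P (𝒞₁ t) := ⟨a, b, fun ⟨r, hr⟩ => by
    have := card_mul_ri a
    rw [d.card, cz, m2, c, hr] at this
    grind⟩
  have tP := s.mem_of_mem_normalizer (self_mem_cent1 t) ⟨1, (pow_two t).trans tt⟩
    (cent_le_norm P (le_cent1_iff.1 a))
  have c4 : 2 < ♯(K ⊓ P) := by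
    have := (d.sd.inf_of_le (zpowers_le.2 tP) a).card
    rw [c, cz] at this
    omega
  have two : ∀ x ∈ K ⊓ P, x * x = 1 := fun x hx =>
    (isPGroup_iff_forall.1 b x hx.2).elim fun j => k.two x hx.1 j
  obtain ⟨u, hu, u1⟩ := exists_ne_one (ne_bot_of_card (by omega : ♯(K ⊓ P) ≠ 1))
  obtain ⟨v, hv, v1⟩ := SetLike.not_le_iff_exists.1 fun l : K ⊓ P ≤ zpowers u => by
    have := card_le l
    have := orderOf_le_of_pow_eq_one two_pos ((pow_two u).trans (two u hu))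
    rw [card_zpow] at *
    omega
  exact k.c4 y (od y (cent_le_cent1 tP i.2) j) u hu.1 v hv.1 j (two u hu) (two v hv) u1
    (fun l => v1 (l ▸ one_mem _)) (fun l => v1 (l ▸ mem_zpowers u)) (comm_of_sq two u hu v hv)
    (mem_cent.1 i.2 u hu.2).symm (mem_cent.1 i.2 v hv.2).symm

theorem two_mul_inv' {G : Type*} [Group G] {n y : G} (h1 : (y⁻¹ * (n * y * n⁻¹)) ^ 2 = 1)
    (h2 : y⁻¹ * (n * y * n⁻¹) * y = y * (y⁻¹ * (n * y * n⁻¹))) (h3 : Odd (orderOf y)) :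
    n * y * n⁻¹ = y := by
  have : (y * (y⁻¹ * (n * y * n⁻¹))) ^ orderOf y = 1 := by
    rw [mul_inv_cancel_left, conj_pow, pow_orderOf_eq_one]; group
  rw [(show Commute y _ from h2.symm).mul_pow, pow_orderOf_eq_one, one_mul] at this
  exact (inv_mul_eq_one.1 (eq_one_of_pow_coprime (Nat.coprime_two_left.2 h3) h1 this)).symm

variable {X : Type} [Group X]

/-- `L ≅ L₂(q)`, `q ≡ ±3 (8)` -/
def Two (L : Subgroup X) : Prop := ∃ (F : Type) (_ : Field F) (_ : Fintype F), 5 ≤ Fintype.card F ∧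
  (Fintype.card F % 8 = 3 ∨ Fintype.card F % 8 = 5) ∧ Nonempty (L ≃* PSL(2, F))

/-- data on a Goldschmidt group -/
structure GD (L T : Subgroup X) : Prop where
  smp : Smp L
  syl : IsSyl 2 T L
  el : Elem 2 (Om 2 T)
  four : 4 ≤ ♯(Om 2 T)
  tr : ∀ x ∈ Om 2 T, ∀ y ∈ Om 2 T, x ≠ 1 → y ≠ 1 → ∃ g ∈ L ⊓ 𝒩 T, g * x * g⁻¹ = y
  ty : (∃ k, BenP L T k ∧ (T ≤ Om 2 T ∨ RB L T) ∧ (8 ≤ ♯(Om 2 T) ∨ U3G (Om 2 T) T k)) ∨
    (♯T = 4 ∧ T ≤ Om 2 T ∧ Two L) ∨ (♯T = 8 ∧ T ≤ Om 2 T ∧ ∀ t ∈ T, t ≠ 1 → ∀ Y, Odd ♯Y →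
      Y ≤ 𝒩 L → Y ≤ 𝒞₁ t → L ⊓ 𝒞₁ t ≤ 𝒩 Y → Y ≤ 𝒞 L)

variable [Finite X] {B L M T Y : Subgroup X} {k t x y : X}

theorem four_le (hL : Smp L) (hT : IsSyl 2 T L) (hB : SC B T L) (h0 : B ≠ ⊥) (ha : Abel B) :
    4 ≤ ♯B := by
  by_contra! e
  have := dvd_card_of_pgroup Nat.prime_two (hT.isPGroup.to_le hB.le) h0
  have := card_pos' B
  obtain ⟨x, hx, x1⟩ := exists_ne_one h0
  refine x1 (hL.eq_one (hT.le (hB.le hx)) (mem_cent.2 fun g hg => ?_))
  rw [← commutatorElement_eq_one_iff_mul_comm, ← mem_bot, ← hL.Op']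
  exact hB.zstar hT ha hx (fun n hn => mem_cent1.2 (mul_inv_eq_iff_eq_mul.1 (eq_of_card_two
    (by omega) (conj_mem_of_norm hn.2 hx) hx (conj_ne_one x1 n) x1))) g hg

theorem tr_small (hG : GB L) (hT : IsSyl 2 T L) (he : Elem 2 T) (hc : ♯T = 4 ∨ ♯T = 8) (hx : x ∈ T)
    (hy : y ∈ T) (x1 : x ≠ 1) (y1 : y ≠ 1) : ∃ g ∈ L ⊓ 𝒩 T, g * x * g⁻¹ = y := by
  have n : ∀ g : L, g ∈ 𝒩 (T.subgroupOf L) ↔ (g : X) ∈ 𝒩 T := fun g => by
    rw [← subgroupOf_normalizer_eq hT.le, mem_subgroupOf]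
  have i : Irr (T.subgroupOf L) := fun D a b => by
    refine or_iff_not_imp_left.2 fun e => le_antisymm a fun z hz => ?_
    have l : D.map L.subtype ≤ T := map_le_iff_le_comap.2 a
    refine (mem_map_iff_mem L.subtype_injective).1 ((hG T _ hT ⟨l, ?_⟩
      (mt (map_eq_bot_iff_of_injective _ L.subtype_injective).1 e) (he.abel.mono l)).2.1.ge
        (he.Om_eq.ge hz))
    rintro _ ⟨u, hu, rfl⟩ g hg j
    obtain ⟨m, hm, k⟩ := (show SC T T L from ⟨le_rfl, fun _ _ _ _ => id⟩).fusion hT he.abel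
      (a hu) hg j
    exact k ▸ ⟨_, conj_mem_of_norm (b ((n ⟨m, hm.1⟩).2 hm.2)) hu, rfl⟩
  have el : Elem 2 (T.subgroupOf L) := ⟨fun u hu => mem_cent.2 fun v hv =>
    Subtype.ext (he.abel.comm hv hu), fun u hu => Subtype.ext (he.pow hu)⟩
  have c : ♯(T.subgroupOf L) = ♯T := Nat.card_congr (subgroupOfEquivOfLe hT.le).toEquiv
  have a : (⟨x, hT.le hx⟩ : L) ∈ sharp (T.subgroupOf L) := ⟨hx, fun e => x1 (congrArg Subtype.val e)⟩
  have b : (⟨y, hT.le hy⟩ : L) ∈ sharp (T.subgroupOf L) := ⟨hy, fun e => y1 (congrArg Subtype.val e)⟩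
  obtain ⟨g, hg, e⟩ : ∃ g ∈ 𝒩 (T.subgroupOf L), g * ⟨x, hT.le hx⟩ * g⁻¹ = ⟨y, hT.le hy⟩ := by
    rcases hc with hc | hc
    · have l := zpowers_le.2 b.1
      have j := card_mul_ri l
      rw [card_zpow, el.orderOf_eq Nat.prime_two b.1 b.2] at j
      obtain ⟨g, hg, e⟩ := SFx.meet i (by omega) a (SFx.hy_of_dvd l ⟨1, by omega⟩)
      exact ⟨g, hg, (Ux.zpow_cases (el.pow b.1) e).resolve_left (conj_ne_one a.2 g)⟩
    · exact SFx.tr8 i el (c.trans hc) a b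
  exact ⟨g, ⟨g.2, (n g).1 hg⟩, congrArg Subtype.val e⟩

theorem gd_ti (hK : KB) (hL : Smp L) (hT : IsSyl 2 T L) (h4 : 4 ≤ ♯(Om 2 T))
    (h : T ≤ Om 2 T ∨ RB L T) (ti : ∀ g ∈ L, ∀ x ∈ T, x ≠ 1 → g * x = x * g → g ∈ 𝒩 T) :
    GD L T := by
  obtain ⟨k, b⟩ := hK X L T (L ⊓ 𝒩 T) hL hT (H9.spe_of_centralizer inf_le_left
    (fun e => hL.not_norm hT (e.ge.trans inf_le_right)) ((syl_iff7 Nat.prime_two).1
      (hT.mono (le_inf hT.le (le_norm T)) inf_le_left)) le_rfl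
    fun x hx x1 _ g hg => ⟨hg.1, ti g hg.1 x hx x1 (mem_cent1.1 hg.2)⟩) h4
  refine ⟨hL, hT, b.el, h4, fun x hx y hy x1 y1 => ?_, ?_⟩
  · obtain ⟨n, e⟩ := b.ty.1.tr x hx y hy x1 y1
    exact ⟨_, pow_mem (mem_inf.2 ⟨b.kL, b.kT⟩) n, e⟩
  by_cases e : 8 ≤ ♯(Om 2 T)
  · exact .inl ⟨k, b, h, .inl e⟩
  rcases b.iso with ⟨F, _, _, c, i, ⟨φ⟩⟩ | ⟨-, s⟩ | ⟨_, _, _, -, u, -⟩
  · obtain ⟨n, hn⟩ := b.el.exists_card Nat.prime_two
    have c4 : ♯(Om 2 T) = 4 := by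
      rw [hn] at h4 e ⊢
      rcases n with _ | _ | _ | n <;> omega
    have z : center SL(2, F) = ⊥ := card_eq_one.1 (by rw [H3.card_center_SL2, c, c4]; rfl)
    have : Fact (Nat.Prime 5) := ⟨Nat.prime_five⟩
    obtain ⟨ψ⟩ := GW.B.psl_equiv_A5 (.inl (c.trans c4))
    obtain ⟨χ⟩ := GW.B.psl_equiv_A5 (F := ZMod 5) (.inr (ZMod.card 5))
    exact .inr (.inl ⟨i ▸ c4, i.le, ZMod 5, _, _, (ZMod.card 5).ge, .inr (by rw [ZMod.card]),
      ⟨φ.trans (((QuotientGroup.quotientMulEquivOfEq z).trans QuotientGroup.quotientBot).symm.trans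
        (ψ.trans χ.symm))⟩⟩)
  · exact (e (b.ctr ▸ Ux.eight s)).elim
  · exact .inl ⟨k, b, h, .inr u⟩

theorem gd_three (hK : KB) (hL : Smp L) (hG : GB L) (hT : IsSyl 2 T L) (he : Elem 2 T)
    (h : I3 L t) (ho : Odd ((𝒞₁ t).relIndex L)) : GD L T := by
  have cj' : ∀ t, I3 L t → ∀ g ∈ L, I3 L (g * t * g⁻¹) := fun t h g hg => by
    have := h.map (f := (MulAut.conj g).toMonoidHom) (MulAut.conj g).injective
    rwa [show L.map _ = L from cj_eq_of_mem_norm (le_norm L hg)] at this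
  obtain ⟨m, m1, m2⟩ := h.c8
  have c8 : ♯T = 8 := by
    obtain ⟨n, hn⟩ := he.exists_card Nat.prime_two
    have i := card_mul_ri hT.le
    rw [← card_inf_mul_ri (𝒞₁ t) L, inf_comm, m2, hn, mul_assoc] at i
    have j : Odd (T.relIndex L) := Nat.not_even_iff_odd.1 fun e => hT.not_dvd e.two_dvd
    rw [hn, Nat.dvd_antisymm ((Nat.Coprime.pow_left n (Nat.coprime_two_left.2 (m1.mul ho))
      ).dvd_of_dvd_mul_right ⟨_, i.symm⟩) ((Nat.Coprime.pow_left 3 (Nat.coprime_two_left.2 j)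
      ).dvd_of_dvd_mul_right ⟨_, i⟩)]
  have tr := fun x hx y hy => tr_small (x := x) (y := y) hG hT he (.inr c8) hx hy
  obtain ⟨g, hg, i⟩ := hT.exists_conj_mem h.mem ⟨1, (pow_two t).trans h.sq⟩
  have all : ∀ e ∈ T, e ≠ 1 → I3 L e := fun e a b => by
    obtain ⟨n, hn, rfl⟩ := tr _ i e a (conj_ne_one h.ne g) b
    exact cj' _ (cj' t h g hg) n hn.1
  have h4 : 4 ≤ ♯(Om 2 T) := by rw [he.Om_eq]; omega
  refine ⟨hL, hT, he.Om_eq.symm ▸ he, h4, he.Om_eq.symm ▸ tr,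
    .inr (.inr ⟨c8, he.Om_eq.ge, fun u hu u1 Y y1 y2 y3 y4 => ?_⟩)⟩
  have a := all u hu u1
  have tu := le_inf hT.le (he.abel.trans (cent_le_cent1 hu))
  have c1 : Y ≤ 𝒞 (L ⊓ 𝒞₁ u) := le_cent_of_inf_eq_bot (le_norm_inf y2 (le_norm_cent1 y3)) y4
    (a.o _ ⟨inf_le_right, le_norm_inf y4 (le_norm _)⟩ (odd_of_le y1 inf_le_left))
  have c2 := c1.trans (cent_anti tu)
  have c3 : L ⊓ 𝒞 T ≤ T := fun z hz => by
    obtain ⟨v, w, i, j, k, l, rfl⟩ := exists_pPart 2 z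
    rw [a.c T tu hT.isPGroup c8 w (zpowers_le.2 hz j) (Nat.coprime_two_right.1 l), mul_one]
    exact hT.mem_of_mem_normalizer (zpowers_le.2 hz i).1 k (cent_le_norm T (zpowers_le.2 hz i).2)
  have c4 : L ⊓ 𝒩 T ≤ 𝒞 Y := fun n hn => mem_cent.2 fun y hy => by
    have j : y⁻¹ * (n * y * n⁻¹) ∈ T := c3 (mem_inf.2 ⟨by
      simpa [mul_assoc] using mul_mem (conj_mem_of_norm' (y2 hy) hn.1) (inv_mem (mem_inf.1 hn).1),
      mul_mem (inv_mem (c2 hy)) (conj_mem_of_norm (norm_le_norm_cent T hn.2) (c2 hy))⟩)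
    have := two_mul_inv' (he.pow j) (mem_cent.1 (c2 hy) _ j) (y1.of_dvd_nat (orderOf_dvd hy))
    rw [← mul_inv_eq_iff_eq_mul.1 this]
  by_cases e : L ⊓ 𝒞 Y = L
  · exact cent_symm (e.ge.trans inf_le_right)
  obtain ⟨k, b⟩ := hK X L T _ hL hT (H9.spe_of_centralizer inf_le_left e ((syl_iff7 Nat.prime_two).1
    (hT.mono (le_inf hT.le (cent_symm c2)) inf_le_left)) (le_inf inf_le_left c4)
    fun x hx x1 _ => by
      obtain ⟨n, hn, rfl⟩ := tr u hu x hx u1 x1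
      rw [← cj_cent1, ← cj_eq_of_mem_norm (le_norm L hn.1), ← cj_inf,
        cj_eq_of_mem_norm (le_norm L hn.1)]
      exact cj_le_of_mem ⟨hn.1, c4 hn⟩ (le_inf inf_le_left (cent_symm c1))) h4
  exact b.oddT y1 y2 (le_norm_of_le_cent (cent_symm c2))

theorem gd (hK : KB) (hL : Smp L) (hG : GB L) (hT : IsSyl 2 T L) (hB : SC B T L) (h0 : B ≠ ⊥)
    (ha : Abel B) : B = Om 2 T ∧ GD L T := by
  obtain ⟨g, rfl, h⟩ := hG T B hT hB h0 ha
  have h4 := four_le hL hT hB h0 ha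
  have rb : RB L T → GD L T := fun r => gd_ti hK hL hT h4 (.inr r)
    fun g hg x hx x1 e => r.ti g hg x hx x1 (by rwa [e, mul_inv_cancel_right])
  refine ⟨rfl, h.elim (fun h => ?_) rb⟩
  have he : Elem 2 T := (elem_Om ha).mono h
  have rL : (⊤ : Subgroup L).map L.subtype = L := by rw [← MonoidHom.range_eq_map, range_subtype]
  have rb' : RB ⊤ (T.subgroupOf L) → GD L T := fun r => rb (by
    simpa [rL, hT.le] using r.map_inj L.subtype_injective)
  have i3 : ∀ t : L, I3 ⊤ t → Odd (𝒞₁ t).index → GD L T := fun t a b =>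
    gd_three hK hL hG hT he (rL ▸ a.map L.subtype_injective) (by
      rwa [relIndex, show (𝒞₁ (L.subtype t)).subgroupOf L = 𝒞₁ t from Subgroup.ext fun g => by
        rw [mem_subgroupOf, mem_cent1, mem_cent1, Subtype.ext_iff]; rfl])
  rcases g with g | ⟨F, _, _, n, -, h2, ⟨φ⟩⟩ | ⟨F, _, _, n, h1, h2, ⟨φ⟩⟩ |
    ⟨F, _, _, n, h1, h2, ⟨φ⟩⟩ | ⟨F, _, _, n, h1, h2, h3, ⟨φ⟩⟩ | ⟨⟨φ⟩⟩
  · obtain ⟨t, a, b⟩ := i3_ree g
    exact i3 t a b
  · have : CharP F 2 := charP_of_card_eq_prime_pow h2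
    obtain ⟨P, hP⟩ := H3.exists_sylow_eq (F := F) 2
    obtain ⟨u, -, e⟩ := (hT.subgroupOf_top.map φ.toMonoidHom).exists_cj_eq
      ((map_top_of_surjective φ.toMonoidHom φ.surjective).symm ▸ isSyl_sylow P)
    refine gd_ti hK hL hT h4 (.inl h) fun g hg x hx x1 i => le_norm T ?_
    have := (GJ.bor_psl (F := F)).centP (k := u * φ ⟨g, hg⟩ * u⁻¹) (x := u * φ ⟨x, hT.le hx⟩ * u⁻¹)
      trivial (hP ▸ e ▸ conj_mem_cj (mem_map_of_mem _ hx)) (conj_ne_one (fun j => x1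
        (congrArg Subtype.val ((map_eq_one_iff φ φ.injective).1 j))) u) (by
      rw [conj_mul, conj_mul, ← map_mul, ← map_mul]
      exact congrArg (fun z => u * φ z * u⁻¹) (Subtype.ext i))
    rw [← hP, ← e, mem_cj] at this
    exact (mem_map_iff_mem (f := φ.toMonoidHom) (x := ⟨g, hg⟩) φ.injective).1
      (by simpa [mul_assoc] using this)
  · obtain ⟨_, θ, _, h0⟩ := H7.Suz.exists_tits h2
    revert φ
    rw [H7.Suz.Sz_eq h0]
    refine fun φ => rb' (rb_of_equiv φ isSyl_szU (rb_sz ?_) hT.subgroupOf_top)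
    have : 2 ^ 3 ≤ 2 ^ (2 * n + 1) := Nat.pow_le_pow_right (by norm_num) (by omega)
    omega
  · obtain ⟨P, hP, h3⟩ := rb_psu h1 h2
    exact rb' (rb_of_equiv φ hP h3 hT.subgroupOf_top)
  · have c : ♯T = 4 := by
      have i := not8_psl (F := F) (h1 ▸ h3)
      obtain ⟨m, hm⟩ := he.exists_card Nat.prime_two
      rw [← Nat.card_congr φ.toEquiv] at i
      have j : ¬ 8 ∣ ♯T := fun j => i (j.trans (card_dvd hT.le))
      rw [he.Om_eq, hm] at h4
      rw [hm] at j ⊢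
      rcases m with _ | _ | _ | m <;> omega
    exact ⟨hL, hT, elem_Om ha, h4, he.Om_eq.symm ▸ fun x hx y hy => tr_small hG hT he (.inl c) hx hy,
      .inr (.inl ⟨c, h, F, _, _, h1 ▸ h2, h1 ▸ h3, ⟨φ⟩⟩)⟩
  · obtain ⟨ψ⟩ := H4.J1.iso
    have χ := ψ.trans φ.symm
    have a := i3_j1.map (f := χ.toMonoidHom) χ.injective
    rw [map_top_of_surjective _ χ.surjective] at a
    refine i3 _ a ?_
    obtain ⟨m, m1, m2⟩ := a.c8
    have := card_mul_index (𝒞₁ (χ.toMonoidHom (H4.J1.ev 5)))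
    rw [top_inf_eq] at m2
    rw [← Nat.card_congr χ.toEquiv, H4.J1.main.1, m2] at this
    refine Nat.not_even_iff_odd.1 fun ⟨r, hr⟩ => ?_
    rw [hr] at this
    have : 8 * m * (r + r) = 16 * (m * r) := by ring
    omega

end Cfsg.GS.Yx
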