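import Cfsg.Agent.GS.G3
import Cfsg.Agent.GS.Y2

/-! The normalized uniqueness case: `T4.G1`. -/

set_option autoImplicit false
set_option linter.unusedSectionVars false

namespace Cfsg.GS.Gx

open Subgroup Cfsg.L0 Cfsg.H8 Cfsg.FT Cfsg.BS Cfsg.BS.R Cfsg.GS.T3 Cfsg.GS.T4 Cfsg.GS.Ax MulAction
open Cfsg.GS.Nx Cfsg.GS.Kx
open scoped commutatorElement

section
variable {Q : Type} [Group Q] [Finite Q] {A H L O S T : Subgroup Q} {a o y z : Q}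

/-- an involution centralizing an abelian Sylow `2`-subgroup acts as an inner automorphism -/
theorem inner_inv (hL : Smp L) (hT : IsSyl 2 T L) (ha : Abel T) (h1 : y ∈ 𝒩 L) (h2 : y ∈ 𝒞 T)
    (y2 : y * y = 1) : ∃ a ∈ T, y * a ∈ 𝒞 L := by
  have n : zpowers y ≤ 𝒩 L := zpowers_le.2 h1
  obtain ⟨V, v1, v2⟩ := exists_isSyl_ge (H := L ⊔ zpowers y)
    (pgroup_sup (zpowers_le.2 (cent_le_norm T h2)) hT.isPGroup (card_zp2 y2))
    (sup_le_sup_right hT.le _)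
  have e1 : V ⊓ L = T := hT.eq_of_le v1.isPGroup.to_inf_left
    (le_inf (le_sup_left.trans v2) hT.le) inf_le_right
  have e2 : V ≤ T ⊔ zpowers y := fun x hx => by
    obtain ⟨l, hl, c, hc, rfl⟩ := (mem_sup_l n).1 (v1.le hx)
    exact mul_mem_sup (e1 ▸ ⟨(mul_mem_cancel_right (v2 (mem_sup_right hc))).1 hx, hl⟩) hc
  have ab : Abel V := (abel_sup ha (cyc_zpowers y).abel (cent_symm (zpowers_le.2 h2))).mono e2
  obtain ⟨X, x1, x2⟩ := exists_sd_syl Nat.prime_two (syl_norm v1) inf_le_right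
  have c1 : ⁅V, X⁆ ≤ T := e1 ▸ le_inf (comm_le_left x1.norm) ((comm_mono v1.le
    (x1.le_right.trans inf_le_left)).trans ((der_sup_le n).trans (by
      rw [comm_eq_bot_iff.2 (cyc_zpowers y).abel, sup_bot_eq])))
  obtain ⟨a, h3, c, hc, e⟩ := (mem_sup_l (inf_le_left.trans (ab.le_norm
    (comm_le_left x1.norm)))).1 ((mkCA_p' Nat.prime_two x1.norm v1.isPGroup x2).comm_sup_cent.ge
      (v2 (mem_sup_right (mem_zpowers y))))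
  refine ⟨a⁻¹, inv_mem (c1 h3), ?_⟩
  rw [← mem_cent.1 h2 _ (inv_mem (c1 h3)), ← e, inv_mul_cancel_left]
  have nY : L ⊔ zpowers y ≤ 𝒩 L := sup_le (le_norm L) n
  refine mem_cent.2 fun g hg => commutatorElement_eq_one_iff_mul_comm.1 (eq_one_of_mem
    ((hL.simple (L ⊓ O2 (L ⊔ zpowers y)) ⟨inf_le_left, le_norm_inf (le_norm L)
      (le_sup_left.trans (Op_nrm _ _).norm)⟩).resolve_right fun i => not_dvd_Op_compl Nat.prime_two _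
        (hL.even.trans (card_dvd_of_le (i.ge.trans inf_le_right)))) ⟨?_, ?_⟩)
  · rw [commutatorElement_def, mul_assoc, mul_assoc, ← mul_assoc c]
    exact L.mul_mem hg (conj_mem_of_norm (nY (v1.le hc.1)) (inv_mem hg))
  · exact (show SC V V _ from ⟨le_rfl, fun _ _ _ _ => id⟩).zstar v1 ab hc.1
      (x1.sup.ge.trans (sup_le (le_cent1_iff.2 (ab hc.1)) (le_cent1_iff.2 hc.2))) g (mem_sup_left hg)

/-- if `N_H(A)` is transitive on `A#`, `A` acts faithfully on the components it moves -/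
theorem faith_cp (st : St H S A) (hL : Cp L H) (n : ¬ A ≤ 𝒞 L)
    (tr : ∀ a ∈ A, ∀ b ∈ A, a ≠ 1 → b ≠ 1 → ∃ g ∈ H, g * a * g⁻¹ = b) : A ⊓ 𝒞 L = ⊥ := by
  have LK := (st.le_iff hL).2 n
  have z0 : 𝒵 L = ⊥ := hL.ctr_eq_bot st.o st.syl fun z z1 z2 => by_contra fun z3 => by
    have a : A ≤ Op {2} H := fun b hb => by
      by_cases e : b = 1
      · exact e ▸ one_mem _
      obtain ⟨g, g1, rfl⟩ := tr z (st.om z1.1 (LK z1.2.1) z2) b hb z3 e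
      exact (Op_nrm _ H).conj_mem g1 (hL.ctr_le st.o z1.2)
    exact hL.not_sol ((sol_of_pgroup Nat.prime_two (Op_pgroup Nat.prime_two H)).mono
      (LK.trans (ncl_le a (Op_nrm _ H).norm)))
  obtain ⟨z, z1, z2, z3⟩ := hL.exists_inv st.syl
  have zA := st.om z1.1 (LK z1.2) z2
  refine eq_bot_iff.2 fun a ha => by_contra fun a1 => ?_
  obtain ⟨a2, a3⟩ := mem_inf.1 ha
  have z4 := (mem_inf.1 z1).2
  have b : z * a ≠ 1 := fun e => z3 (eq_one_of_mem z0 (mem_inf.2 ⟨z4, by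
    rw [eq_inv_of_mul_eq_one_left e]; exact inv_mem a3⟩))
  obtain ⟨g, g1, e⟩ := tr z zA _ (mul_mem zA ha.1) z3 b
  have c : z * a ∈ cj g L := e ▸ conj_mem_cj z1.2
  by_cases i : cj g L = L
  · exact a1 (eq_one_of_mem z0 ⟨(mul_mem_cancel_left z4).1 (i ▸ c), a3⟩)
  · exact z3 (eq_one_of_mem z0 ⟨z4, (mul_mem_cancel_right a3).1
      ((hL.cj (le_norm H g1)).cent hL i c)⟩)

theorem modO (hi : A ⊓ O = ⊥) (hA : A ≤ 𝒩 O) (h1 : z ∈ 𝒩 O) (h2 : z ∈ 𝒩 A) (ho : o ∈ O) (ha : a ∈ A)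
    (e : o * a * o⁻¹ ∈ 𝒞₁ z) : a ∈ 𝒞₁ z := by
  have e := mem_cent1.1 e
  have m1 : a⁻¹ * o * a * o⁻¹ ∈ O := mul_mem (conj_mem_of_norm' (hA ha) ho) (inv_mem ho)
  have := eq_one_of_mem hi (x := a⁻¹ * (z * a * z⁻¹))
    ⟨A.mul_mem (A.inv_mem ha) (conj_mem_of_norm h2 ha), by
      have := mul_mem m1 (inv_mem (conj_mem_of_norm h1 m1))
      rwa [show a⁻¹ * o * a * o⁻¹ * (z * (a⁻¹ * o * a * o⁻¹) * z⁻¹)⁻¹ =
        a⁻¹ * (o * a * o⁻¹ * z) * (o * a * o⁻¹)⁻¹ * a * z⁻¹ by group, e,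
        show a⁻¹ * (z * (o * a * o⁻¹)) * (o * a * o⁻¹)⁻¹ * a * z⁻¹ = a⁻¹ * (z * a * z⁻¹) by group]
        at this⟩
  rw [inv_mul_eq_one, eq_mul_inv_iff_mul_eq] at this
  exact mem_cent1.2 this

theorem modO_card (hi : A ⊓ O = ⊥) (hA : A ≤ 𝒩 O) (h1 : z ∈ 𝒩 O) (h2 : z ∈ 𝒩 A) (ho : o ∈ O) :
    ♯(cj o A ⊓ 𝒞₁ z) ≤ ♯(A ⊓ 𝒞₁ z) := by
  rw [← card_cj o (A ⊓ 𝒞₁ z)]
  refine card_le_of_le fun x hx => mem_cj.2 ⟨mem_cj.1 hx.1, modO hi hA h1 h2 ho (mem_cj.1 hx.1) ?_⟩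
  rw [show o * (o⁻¹ * x * o) * o⁻¹ = x by group]; exact hx.2

end

namespace GG
variable {G Ω : Type} [Group G] [Finite G] [MulAction G Ω] {A S : Subgroup G}
  {a v z : G} {α : Ω} (h : GG S A α)
include h

theorem infO : A ⊓ O2 (𝒮 α) = ⊥ := inf_eq_bot_of_cop (cop_of_pgroup Nat.prime_two h.elem.pgroup
  (not_dvd_Op_compl Nat.prime_two (𝒮 α)))

theorem fld (hON : 𝒮 α ≤ O2 (𝒮 α) ⊔ 𝒩 A) (hz : z ∈ 𝒩 A) (h2 : z * z = 1) :
    z ∈ 𝒞 A ∨ ♯A = ♯(A ⊓ 𝒞₁ z) ^ 2 := by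
  by_cases z1 : z = 1
  · exact .inl (z1 ▸ one_mem _)
  by_cases zA : z ∈ A
  · exact .inl (h.elem.abel zA)
  obtain ⟨m, hm, q0, q⟩ := h.cent_conj ⟨z1, h2⟩ (h.not_I zA hz) (h.nA hz)
  have nr := Op_nrm {2}ᶜ (𝒮 α)
  obtain ⟨o, ho, n, hn, rfl⟩ := (mem_sup_l (h.nA.trans nr.norm)).1 (hON hm)
  rw [cj_mul, cj_eq_of_mem_norm hn] at q q0
  have zO := nr.norm (h.nA hz)
  refine q.imp (fun q => le_cent1_iff.1 fun a ha => modO h.infO (h.AM.trans nr.norm) zO hz ho ha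
    (le_cent1_iff.2 q (conj_mem_cj ha))) fun q => ?_
  have h' := h.cj o
  rw [mem_St.1 (nr.le ho)] at h'
  have := modO_card h'.infO (h'.AM.trans nr.norm) zO q0 (inv_mem ho)
  rw [cj_inv_cj] at this
  rw [q, le_antisymm this (modO_card h.infO (h.AM.trans nr.norm) zO hz ho)]

theorem ex_v (h8 : ♯A ≤ 8) (hz : Ivo z) (hI : ¬ InI A z) : ∃ v, Ivo v ∧ v ∉ A ∧ v ∈ 𝒞 A := by
  obtain ⟨β, hβ⟩ := h.ex_fix hz.2
  obtain ⟨g, rfl⟩ := h.tr β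
  obtain ⟨m, -, q0, q⟩ := (h.cj g).cent_conj hz (fun e => hI ((inI_cj _).1 e)) hβ
  replace q : z ∈ 𝒞 (L0.cj m (L0.cj g A)) := by_contra fun n => by
    have a := ((h.cj g).cj m).eight q0 hz.2 n
    have b := q.resolve_left n
    rw [card_cj, card_cj] at a
    rw [card_cj, le_antisymm h8 a] at b
    generalize ♯(L0.cj m (L0.cj g A) ⊓ 𝒞₁ z) = r at b
    rcases (by omega : r ≤ 2 ∨ 3 ≤ r) with c | c <;> nlinarith
  rw [← cj_mul, ← cj_cent, mem_cj] at q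
  have i := hz.conj (m * g)⁻¹
  rw [inv_inv] at i
  exact ⟨_, i, fun e => hI (inI_conj' (g := (m * g)⁻¹) (by rw [inv_inv]; exact inI_of_mem e i.1)), q⟩

theorem cent_le_ON (hz : Ivo z) (hI : ¬ InI A z) (ha : a ∈ A) (a1 : a ≠ 1) :
    𝒞₁ a ≤ O2 (𝒮 α) ⊔ 𝒩 A := by
  obtain ⟨Q, _, _, f, hf, hk⟩ := exists_quo0 (Op_nrm {2}ᶜ (𝒮 α))
  have st := st_down (h.ih _ h.ne) hk h.sylM (h.sc.mono h.sc.le le_rfl le_top) h.elem.abel
  have ca := ca_ker hk h.AM h.elem.pgroup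
  have cA := card_down_eq h.AM (inf_eq_bot_of_cop ca.cop')
  by_cases e : ∃ L, Cp L (down f (𝒮 α)) ∧ ¬ down f A ≤ 𝒞 L
  swap
  · exact (h.cA a ha a1).trans (down_norm hk h.AM h.elem.pgroup
      (st.gen' inf_le_right fun L hL n => (e ⟨L, hL, n⟩).elim))
  obtain ⟨L, hL, n⟩ := e
  have h0 : down f A ≠ ⊥ := ne_bot_of_card (by have := h.four; omega)
  obtain ⟨n1, sm, AL, -⟩ := st_one st hL h0 (faith_cp st hL n (by
    rintro _ ⟨a, a1, rfl⟩ _ ⟨b, b1, rfl⟩ a2 b2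
    obtain ⟨n, hn, e⟩ := h.trA a1 b1 (fun e => a2 (by rw [show a = 1 from Subtype.ext e, map_one]))
      fun e => b2 (by rw [show b = 1 from Subtype.ext e, map_one])
    refine ⟨f ⟨n, h.nA hn⟩, mem_down_of_mem (h.nA hn), ?_⟩
    rw [← map_inv, ← map_mul, ← map_mul]; exact congrArg f (Subtype.ext e)))
  have sy := hL.syl st.syl
  obtain ⟨e, g⟩ := Yx.gd kB sm (st.gold.hg Q L sm (involves_of_le hL.le)) sy
    (st.sc.mono AL inf_le_left hL.le) h0 st.ab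
  have small : ♯(down f S ⊓ L) ≤ 8 → down f S ⊓ L ≤ Om 2 (down f S ⊓ L) → False := fun c1 c2 => by
    obtain ⟨v, v0, v1, v2⟩ := h.ex_v (by rw [← cA]; exact (card_le_of_le AL).trans c1) hz hI
    rw [← e] at c2
    have y1 : f ⟨v, h.CM v2⟩ ∈ 𝒞 (down f A) := down_le_cent f le_rfl (mem_down_of_mem v2)
    obtain ⟨b', hb, i⟩ := inner_inv sm sy (st.ab.mono c2) (y := f ⟨v, h.CM v2⟩)
      (n1 (mem_down_of_mem (h.CM v2))) (cent_anti c2 y1)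
      (by rw [← map_mul, ← map_one f]; exact congrArg f (Subtype.ext v0.2))
    obtain ⟨b, b1, rfl⟩ := mem_down.1 (c2 hb)
    obtain ⟨u0, u1, u2⟩ := h.coset v0 v1 v2 b1
    obtain ⟨S1, s1, s2⟩ := exists_isSyl_ge h.elem.pgroup (le_cent1_iff.2 u2)
    obtain ⟨T, R, k, l⟩ := h.lnv u0 u1 u2 s1 s2
    have nO := (le_cent1_iff.2 u2).trans (Op_nrm {2}ᶜ (𝒞₁ (v * b))).norm
    have so : Sol (A ⊔ O2 (𝒞₁ (v * b))) := by
      rw [sup_comm]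
      exact sol_sup (solvable_of_odd _ (odd_O2 _)) h.elem.abel.sol nO
    rw [← map_mul] at i
    have n3 : 𝒮 α ⊓ 𝒞₁ (v * b) ≤ 𝒩 (A ⊔ O2 (𝒞₁ (v * b))) := by rw [inf_comm]; exact l.stab
    have n5 := down_cent1 hk (b := ⟨v, h.CM v2⟩ * b) u0.2
    have n6 := down_le_norm f n3
    have n2 : L ≤ 𝒩 (down f (A ⊔ O2 (𝒞₁ (v * b)))) := fun x hx =>
      n6 (n5.ge ⟨hL.le hx, le_cent1_iff.2 i hx⟩)
    have n4 : down f A ≤ down f (A ⊔ O2 (𝒞₁ (v * b))) := down_mono f le_sup_left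
    replace so := so.down f
    generalize down f (A ⊔ O2 (𝒞₁ (v * b))) = Y at so n2 n4
    exact sm.not_sol (so.mono (((sm.simple (L ⊓ Y) ⟨inf_le_left,
      le_norm_inf (le_norm L) n2⟩).resolve_left (ne_bot_of_le h0 (le_inf (AL.trans inf_le_right)
        n4))).ge.trans inf_le_right))
  rcases g.ty with ⟨k, b, -⟩ | ⟨c1, c2, -⟩ | ⟨c1, c2, -⟩
  · refine fun c hc => ?_
    have cM := h.cA a ha a1 hc
    have m : f ⟨a, h.AM ha⟩ ∈ down f A := mem_down_of_mem ha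
    have m1 : f ⟨a, h.AM ha⟩ ≠ 1 := fun i => a1 (eq_one_of_mem h.infO
      ⟨ha, hk.le (coe_mem_up.2 (show f ⟨a, h.AM ha⟩ ∈ ⊥ from i))⟩)
    have m2 : f ⟨c, cM⟩ ∈ 𝒞₁ (f ⟨a, h.AM ha⟩) := mem_cent1.2 (by
      rw [← map_mul, ← map_mul]; exact congrArg f (Subtype.ext (mem_cent1.1 hc)))
    have m3 := norm_le_norm_Om 2 _ (b.cz (AL m) m1 ⟨n1 (mem_down_of_mem cM), m2⟩)
    rw [← e] at m3
    have := (ca.down_norm_ker h.AM le_rfl (up_le _ _)).ge ⟨mem_down_of_mem cM, m3⟩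
    have := (up_down f inf_le_left).le (mem_up.2 ⟨cM, this⟩)
    rw [hk, sup_comm] at this
    exact (sup_le_sup_left inf_le_right _ : _ ⊔ 𝒮 α ⊓ 𝒩 A ≤ _) this
  · exact (small (by omega) c2).elim
  · exact (small c1.le c2).elim

theorem u2 (hON : 𝒮 α ≤ O2 (𝒮 α) ⊔ 𝒩 A) : U2 S A (𝒮 α) :=
  ⟨h.toUG, hON, fun _ ha _ hb => h.trA ha hb, h.allL, fun _ => h.fld hON⟩

end GG

theorem taskG1 : T4.G1 := fun G _ _ S A M h ⟨z, hz, hI⟩ => by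
  obtain ⟨g, e⟩ := gg_of h
  have nr := Op_nrm {2}ᶜ M
  have le : O2 M ⊔ 𝒩 A ≤ M := sup_le nr.le h.nA
  obtain ⟨g', e'⟩ := gg_of (M := O2 M ⊔ 𝒩 A) ⟨h.toMg, fun i => h.ne (eq_top_iff.2 (i ▸ le)),
    le_sup_right, fun a ha a1 => e ▸ g.cent_le_ON hz hI ha a1⟩
  exact ⟨_, g'.u2 (by
    rw [e']
    exact sup_le_sup_right (le_O2 (odd_O2 M) ⟨le_sup_left, le.trans nr.norm⟩) _)⟩

end Cfsg.GS.Gx
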