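import Cfsg.Agent.GS.N2

/-! Doubly transitive affine groups without translations whose point stabilizer normalizes a
Singer cycle. -/

set_option autoImplicit false

namespace Cfsg.GS.Xx

open Subgroup Cfsg.L0 Cfsg.H8 Cfsg.FT Cfsg.BS Cfsg.BS.R Cfsg.GS.T3 Cfsg.GS.T4 MulAction
open scoped commutatorElement

section perm
variable {Γ X : Type} [Group Γ] [Finite Γ] [MulAction Γ X] [Finite X] [FaithfulSMul Γ X]

/-- `κ` fixes `x`, is transitive on the other points, and is normalized by the stabilizer -/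
structure Sg (κ : Γ) (x : X) : Prop where
  fix : κ • x = x
  tr : ∀ y z, y ≠ x → z ≠ x → ∃ i : ℕ, κ ^ i • y = z
  nk : ∀ g : Γ, g • x = x → ∃ i : ℕ, g * κ * g⁻¹ = κ ^ i

namespace Sg
variable {κ g g' ρ : Γ} {x y z : X}

omit [Finite Γ] [Finite X] [FaithfulSMul Γ X] in
theorem cj (h : Sg κ x) (g : Γ) : Sg (g * κ * g⁻¹) (g • x) where
  fix := by rw [← mul_smul, inv_mul_cancel_right, mul_smul, h.fix]
  tr := fun y z hy hz => by
    obtain ⟨i, e⟩ := h.tr (g⁻¹ • y) (g⁻¹ • z) (fun e => hy (by rw [← e, smul_inv_smul]))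
      (fun e => hz (by rw [← e, smul_inv_smul]))
    exact ⟨i, by rw [conj_pow, mul_smul, mul_smul, e, smul_inv_smul]⟩
  nk := fun s hs => by
    obtain ⟨i, e⟩ := h.nk (g⁻¹ * s * g) (by rw [mul_smul, mul_smul, hs, inv_smul_smul])
    exact ⟨i, by rw [conj_pow, ← e]; group⟩

omit [Finite Γ] [Finite X] [FaithfulSMul Γ X] in
theorem pfix (h : Sg κ x) (i : ℕ) : κ ^ i • x = x := pow_mem (show κ ∈ stabilizer Γ x from h.fix) i

omit [Finite Γ] [Finite X] in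
theorem eq_one (h : Sg κ x) (hc : g * κ = κ * g) (h1 : g • x = x) (hy : y ≠ x) (h2 : g • y = y) :
    g = 1 := eq_of_smul_eq_smul fun z : X => by
  by_cases e : z = x
  · rw [e, h1, one_smul]
  obtain ⟨i, rfl⟩ := h.tr y z hy e
  rw [← mul_smul, (Commute.pow_right hc i).eq, mul_smul, h2, one_smul]

omit [Finite Γ] [Finite X] in
/-- two point stabilizers are abelian -/
theorem comm (h : Sg κ x) (hy : y ≠ x) (h1 : g • x = x) (h2 : g • y = y) (h3 : g' • x = x)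
    (h4 : g' • y = y) : g * g' = g' * g := by
  obtain ⟨i, e⟩ := h.nk g h1
  obtain ⟨j, e'⟩ := h.nk g' h3
  have a : g * g' * κ * (g * g')⁻¹ = g' * g * κ * (g' * g)⁻¹ := by
    rw [show g * g' * κ * (g * g')⁻¹ = g * (g' * κ * g'⁻¹) * g⁻¹ by group,
      show g' * g * κ * (g' * g)⁻¹ = g' * (g * κ * g⁻¹) * g'⁻¹ by group, e, e', ← conj_pow,
      ← conj_pow, e, e', ← pow_mul, ← pow_mul, mul_comm]
  refine (inv_mul_eq_one.1 (h.eq_one ?_ ?_ hy ?_)).symm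
  · rw [show (g' * g)⁻¹ * (g * g') * κ = (g' * g)⁻¹ * (g * g' * κ * (g * g')⁻¹) * (g * g') by group,
      a]; group
  · rw [mul_smul, mul_smul, h3, h1, inv_smul_eq_iff, mul_smul, h1, h3]
  · rw [mul_smul, mul_smul, h4, h2, inv_smul_eq_iff, mul_smul, h2, h4]

omit [Finite Γ] [Finite X] in
theorem move (h : Sg κ x) (hy : y ≠ x) (hz : z ≠ x) (h1 : ρ • x = x) (h2 : ρ • y = y)
    (h3 : ρ • z = z) : ∃ g : Γ, ρ * g = g * ρ ∧ g • x = x ∧ g • y = z := by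
  obtain ⟨i, e⟩ := h.tr y z hy hz
  obtain ⟨j, e'⟩ := h.nk ρ h1
  have a : ρ * κ ^ i * ρ⁻¹ = κ ^ (j * i) := by rw [← conj_pow, e', pow_mul]
  refine ⟨κ ^ i, ?_, h.pfix i, e⟩
  have := h.eq_one (g := (κ ^ i)⁻¹ * κ ^ (j * i)) (((Commute.refl κ).pow_left i).inv_left.mul_left
    ((Commute.refl κ).pow_left _)) (by rw [mul_smul, h.pfix, inv_smul_eq_iff, h.pfix]) hy
    (by rw [← a, mul_smul, inv_smul_eq_iff, mul_smul, mul_smul, inv_smul_eq_iff.2 h2.symm, e, h3])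
  rw [← a, inv_mul_eq_one] at this
  exact (eq_mul_inv_iff_mul_eq.1 this).symm

theorem card (h : Sg κ x) (hy : y ≠ x) : ♯(zpowers κ) = Nat.card X - 1 := by
  rw [← Set.ncard_univ X, ← Set.ncard_sdiff_singleton_of_mem (Set.mem_univ x), ← Nat.card_coe_set_eq]
  refine Nat.card_congr (Equiv.ofBijective (fun s => ⟨s.1 • y, trivial, fun e => hy ?_⟩)
    ⟨fun s t e => Subtype.ext ?_, fun z => ?_⟩)
  · exact smul_left_cancel s.1 (e.trans (zpowers_le.2 (show κ ∈ stabilizer Γ x from h.fix) s.2).symm)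
  · have m : t.1⁻¹ * s.1 ∈ zpowers κ := mul_mem (inv_mem t.2) s.2
    refine (inv_mul_eq_one.1 (h.eq_one ?_
      (zpowers_le.2 (show κ ∈ stabilizer Γ x from h.fix) m) hy ?_)).symm
    · obtain ⟨n, e⟩ := m
      rw [← e]; exact (Commute.refl κ).zpow_left n
    · rw [mul_smul, inv_smul_eq_iff]; exact congrArg Subtype.val e
  · obtain ⟨i, e⟩ := h.tr y z hy z.2.2
    exact ⟨⟨κ ^ i, pow_mem (mem_zpowers κ) i⟩, Subtype.ext e⟩

end Sg

theorem affP {x0 : X} {κ : Γ} {n : ℕ} (hc : Nat.card X = 2 ^ n) (hn : n ≠ 0)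
    (tr : ∀ x, ∃ g : Γ, g • x0 = x) (h : Sg κ x0) (o2 : pCore 2 Γ = ⊥) :
    ¬ 3 ∣ Nat.card X - 1 ∧ ∃ τ ρ : Γ, τ * τ = 1 ∧ ρ ≠ 1 ∧ Odd (orderOf ρ) ∧ τ * ρ * τ⁻¹ = ρ⁻¹ ∧
      ρ • x0 = x0 ∧ τ • x0 ≠ x0 ∧ ∀ x, ρ • x = x → x = x0 ∨ x = τ • x0 := by
  have sg : ∀ x : X, ∃ κ' : Γ, Sg κ' x := fun x => by
    obtain ⟨g, rfl⟩ := tr x
    exact ⟨_, h.cj g⟩
  have : IsPretransitive Γ X := ⟨fun x y => by
    obtain ⟨g, rfl⟩ := tr x
    obtain ⟨g', rfl⟩ := tr y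
    exact ⟨g' * g⁻¹, by rw [mul_smul, inv_smul_smul]⟩⟩
  have idx : ∀ x : X, (stabilizer Γ x).relIndex ⊤ = 2 ^ n := fun x => by
    rw [relIndex_top_right, index_stabilizer_of_transitive, hc]
  obtain ⟨S, hS⟩ := exists_isSyl 2 (⊤ : Subgroup Γ)
  have S0 : S ≠ ⊥ := fun e => hS.not_dvd_of_le (K := stabilizer Γ x0) (e ▸ bot_le)
    (idx x0 ▸ dvd_pow_self 2 hn)
  obtain ⟨w, hw, w1⟩ := exists_ne_one
    (inf_cent_ne_bot_of_pgroup Nat.prime_two hS.isPGroup hS.isPGroup (le_norm S) S0)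
  obtain ⟨z, hz, z1, z2⟩ := exists_ivo_zpowers (x := w) fun e => by
    obtain ⟨m, hm⟩ := isPGroup_iff_forall.1 hS.isPGroup w hw.1
    exact w1 (orderOf_eq_one_iff.1 (Nat.Coprime.eq_one_of_dvd
      ((Nat.coprime_two_right.2 e).pow_right m) (orderOf_dvd_of_pow_eq_one hm)))
  have zf : ∀ x : X, z • x ≠ x := fun x e => z1 (eq_of_smul_eq_smul fun y : X => by
    obtain ⟨g, rfl⟩ := exists_smul_eq Γ x y
    obtain ⟨s, hs, t, ht, rfl⟩ := exists_mul_of_cop_ri hS.le (le_top : stabilizer Γ x ≤ ⊤)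
      (idx x ▸ hS.coprime.pow_right _) (mem_top g)
    rw [mul_smul, show t • x = x from ht, ← mul_smul, ← mem_cent.1 (zpowers_le.2 hw hz).2 s hs,
      mul_smul, e, one_smul])
  obtain ⟨r, r1, r2, r3⟩ := exists_inverted_of_not_mem_pCore z2 (o2 ▸ z1)
  obtain ⟨p, m, hp, p1, p2, p3⟩ := exists_prime_pow r1
  have : Fact p.Prime := ⟨hp⟩
  obtain ⟨x, hx⟩ := (isPGroup_iff_forall.2 (fun y hy => ⟨1, by
      obtain ⟨i, rfl⟩ := hy
      simp only [pow_one]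
      rw [← zpow_natCast, ← zpow_mul, mul_comm, zpow_mul, zpow_natCast, p3, one_zpow]⟩) :
      IsPGroup p (zpowers (r ^ m))).nonempty_fixed_point_of_prime_not_dvd_card X (fun e => by
    rw [hc] at e
    have := (Nat.prime_dvd_prime_iff_eq hp Nat.prime_two).1 (hp.dvd_of_dvd_pow e)
    exact (Nat.not_even_iff_odd.2 r2) (even_iff_two_dvd.2 (this ▸ p1)))
  obtain ⟨g, rfl⟩ := tr x
  have f0 : (g⁻¹ * r ^ m * g) • x0 = x0 := by
    rw [mul_smul, mul_smul, show r ^ m • g • x0 = g • x0 from hx ⟨_, mem_zpowers _⟩, inv_smul_smul]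
  have iv : g⁻¹ * z * g * (g⁻¹ * r ^ m * g) * (g⁻¹ * z * g)⁻¹ = (g⁻¹ * r ^ m * g)⁻¹ := by
    rw [show g⁻¹ * z * g * (g⁻¹ * r ^ m * g) * (g⁻¹ * z * g)⁻¹ = g⁻¹ * (z * r ^ m * z⁻¹) * g by group,
      inverts_pow r3]; group
  have od : Odd (orderOf (g⁻¹ * r ^ m * g)) := by
    have := (MulAut.conj g⁻¹).orderOf_eq (r ^ m)
    simp only [MulAut.conj_apply, inv_inv] at this
    exact this ▸ r2.of_dvd_nat (orderOf_pow_dvd m)
  have n1 : g⁻¹ * r ^ m * g ≠ 1 := fun e => p2 (by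
    rw [show r ^ m = g * (g⁻¹ * r ^ m * g) * g⁻¹ by group, e]; group)
  have t2 : g⁻¹ * z * g * (g⁻¹ * z * g) = 1 := by
    rw [show g⁻¹ * z * g * (g⁻¹ * z * g) = g⁻¹ * (z * z) * g by group, z2]; group
  have tf : (g⁻¹ * z * g) • x0 ≠ x0 := fun e => zf (g • x0) (by
    rwa [mul_smul, mul_smul, inv_smul_eq_iff] at e)
  generalize g⁻¹ * r ^ m * g = ρ at *
  generalize g⁻¹ * z * g = τ at *
  have f1 : ρ • τ • x0 = τ • x0 := by
    rw [← mul_smul, show ρ * τ = τ * (τ * ρ * τ⁻¹) by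
      rw [inv_eq_of_mul_eq_one_right t2, ← mul_assoc, ← mul_assoc, t2, one_mul], iv, mul_smul,
      inv_smul_eq_iff.2 f0.symm]
  have two : ∀ x, ρ • x = x → x = x0 ∨ x = τ • x0 := fun x hx => by
    by_contra q
    push Not at q
    obtain ⟨κ1, s1⟩ := sg x
    obtain ⟨κ2, s2⟩ := sg (τ • x0)
    obtain ⟨g1, a1, a2, a3⟩ := s1.move q.1.symm q.2.symm hx f0 f1
    obtain ⟨g2, b1, b2, b3⟩ := s2.move (y := g1 • τ • x0)
      (fun e => tf (smul_left_cancel g1 (e.trans a3.symm))) tf.symm f1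
      (by rw [← mul_smul, a1, mul_smul, f1]) f0
    have tt : τ • τ • x0 = x0 := by rw [← mul_smul, t2, one_smul]
    have c := h.comm tf f0 f1 (g' := τ * (g2 * g1))
      (by rw [mul_smul, mul_smul, a3, b2, tt]) (by rw [mul_smul, mul_smul, b3])
    have c2 : Commute ρ (g2 * g1) := Commute.mul_right b1 a1
    refine n1 (eq_one_of_inverts_of_commute od iv ?_)
    rw [mul_assoc, ← c2.eq, ← mul_assoc, ← mul_assoc τ] at c
    exact (mul_right_cancel c).symm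
  refine ⟨fun e => ?_, τ, ρ, t2, n1, od, iv, f0, tf, two⟩
  have : Fact (Nat.Prime 3) := ⟨Nat.prime_three⟩
  obtain ⟨⟨c, hc⟩, c3⟩ := exists_prime_orderOf_dvd_card' 3 (h.card tf ▸ e)
  rw [← orderOf_coe] at c3
  simp only at c3
  obtain ⟨j, e'⟩ := h.nk ρ f0
  obtain ⟨i, rfl⟩ : ∃ i : ℕ, κ ^ i = c := mem_powers_iff_mem_zpowers.2 hc
  have a : ρ * κ ^ i * ρ⁻¹ = (κ ^ i) ^ j := by rw [← conj_pow, e', ← pow_mul, ← pow_mul, mul_comm]
  have c1 : κ ^ i ≠ 1 := fun q => by rw [q, orderOf_one] at c3; omega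
  have a2 : ρ ^ 2 * κ ^ i * (ρ ^ 2)⁻¹ = κ ^ i := by
    rw [show ρ ^ 2 * κ ^ i * (ρ ^ 2)⁻¹ = ρ * (ρ * κ ^ i * ρ⁻¹) * ρ⁻¹ by rw [sq]; group, a,
      ← conj_pow, a, ← pow_mul, ← pow_mod_orderOf (κ ^ i), c3]
    have : j % 3 ≠ 0 := fun q => c1 (by
      rw [← pow_mod_orderOf (κ ^ i), c3, q, pow_zero] at a
      rw [show κ ^ i = ρ⁻¹ * (ρ * κ ^ i * ρ⁻¹) * ρ by group, a]; group)
    rw [show j * j % 3 = 1 by
      rw [Nat.mul_mod]; rcases (by omega : j % 3 = 1 ∨ j % 3 = 2) with q | q <;> rw [q], pow_one]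
  obtain ⟨l, hl⟩ := exists_pow_eq_self_of_coprime (x := ρ) (n := 2) (Nat.coprime_two_left.2 od)
  have a3 : ρ * κ ^ i = κ ^ i * ρ := by
    rw [← hl]; exact Commute.pow_left (mul_inv_eq_iff_eq_mul.1 a2) l
  rcases two (κ ^ i • τ • x0) (by rw [← mul_smul, a3, mul_smul, f1]) with q | q
  · exact tf (smul_left_cancel _ (q.trans (h.pfix i).symm))
  · exact c1 (h.eq_one ((Commute.refl κ).pow_left i) (h.pfix i) tf q)

end perm

variable {G : Type} [Group G] {A Y : Subgroup G} {d : G → G} {k : G}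

/-- a cocycle `d : Y → A` without translations -/
structure Coc (A Y : Subgroup G) (d : G → G) (k : G) : Prop where
  el : Elem 2 A
  four : 4 ≤ ♯A
  nA : Y ≤ 𝒩 A
  mem : ∀ y ∈ Y, d y ∈ A
  mul : ∀ y ∈ Y, ∀ y' ∈ Y, d (y * y') = d y * (y * d y' * y⁻¹)
  cen : ∀ y ∈ Y, y ∈ 𝒞 A → d y = 1
  kY : k ∈ Y
  dk : d k = 1
  tor : Tor A k
  ex : ∃ y ∈ Y, d y ≠ 1
  nk : ∀ g ∈ Y, d g = 1 → ∃ n : ℕ, g * k * g⁻¹ * (k ^ n)⁻¹ ∈ 𝒞 A

/-- the affine action -/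
def Coc.hom (h : Coc A Y d k) : Y →* Equiv.Perm A :=
  MonoidHom.toHomPerm
    { toFun := fun y x => ⟨d y * (y * x * (y : G)⁻¹),
        mul_mem (h.mem y y.2) (conj_mem_of_norm (h.nA y.2) x.2)⟩
      map_one' := funext fun x => Subtype.ext (by
        show d 1 * (1 * x * (1 : G)⁻¹) = x
        simp [h.cen 1 (one_mem _) (one_mem _)])
      map_mul' := fun y y' => funext fun x => Subtype.ext (by
        show d (y * y') * (y * y' * x * (y * y' : G)⁻¹) =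
          d y * (y * (d y' * (y' * x * (y' : G)⁻¹)) * (y : G)⁻¹)
        rw [h.mul y y.2 y' y'.2]; group) }

theorem Coc.hom_apply (h : Coc A Y d k) (y : Y) (x : A) :
    (h.hom y x : G) = d y * (y * x * (y : G)⁻¹) := rfl

theorem Coc.ker (h : Coc A Y d k) (y : Y) : h.hom y = 1 ↔ (y : G) ∈ 𝒞 A := by
  refine ⟨fun e => mem_cent.2 fun a ha => ?_, fun e => Equiv.ext fun x => Subtype.ext ?_⟩
  · have e1 := h.hom_apply y 1
    have e2 := h.hom_apply y ⟨a, ha⟩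
    rw [e] at e1 e2
    simp only [Equiv.Perm.coe_one, id, coe_one, mul_one, mul_inv_cancel] at e1 e2
    rw [← e1, one_mul] at e2
    exact eq_mul_inv_iff_mul_eq.1 e2
  · rw [h.hom_apply, h.cen y y.2 e, ← mem_cent.1 e x x.2]; simp

/-- **Aff0** -/
theorem Coc.aff [Finite G] (h : Coc A Y d k) : ¬ 3 ∣ ♯A - 1 ∧ ∃ τ ∈ Y, ∃ ρ ∈ Y, τ * τ ∈ 𝒞 A ∧
    Odd (orderOf ρ) ∧ ρ ∉ 𝒞 A ∧ τ * ρ * τ⁻¹ * ρ ∈ 𝒞 A ∧ d ρ = 1 ∧ d τ ≠ 1 ∧
    ∀ a ∈ A, ρ * a = a * ρ → a = 1 ∨ a = d τ := by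
  have : Fact (Nat.Prime 2) := ⟨Nat.prime_two⟩
  obtain ⟨n, hn⟩ := IsPGroup.iff_card.1 h.el.pgroup
  let f := h.hom.rangeRestrict
  have sf : Function.Surjective f := h.hom.rangeRestrict_surjective
  have ap : ∀ (y : Y) (x : A), ((f y • x : A) : G) = d y * (y * x * (y : G)⁻¹) := fun _ _ => rfl
  have ap1 : ∀ y : Y, ((f y • (1 : A) : A) : G) = d y := fun y => by simp [ap]
  have ker : ∀ y : Y, f y = 1 ↔ (y : G) ∈ 𝒞 A := fun y => by
    rw [← h.ker, Subtype.ext_iff]; rfl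
  have kp : ∀ (i : ℕ) (x : A), ((f ⟨k, h.kY⟩ ^ i • x : A) : G) = k ^ i * x * (k ^ i)⁻¹ := fun i x => by
    induction i with
    | zero => simp
    | succ i ih => rw [pow_succ', mul_smul, ap, ih, h.dk]; simp only; group
  have sg : Sg (f ⟨k, h.kY⟩) (1 : A) := ⟨Subtype.ext (by rw [ap1, h.dk]; rfl), fun y z hy hz => by
    obtain ⟨i, e⟩ := h.tor.tr y y.2 z z.2 (fun e => hy (Subtype.ext e)) (fun e => hz (Subtype.ext e))
    exact ⟨i, Subtype.ext ((kp i y).trans e)⟩, fun g hg => by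
    obtain ⟨g, rfl⟩ := sf g
    obtain ⟨i, e⟩ := h.nk g g.2 (by rw [← ap1, hg]; rfl)
    refine ⟨i, mul_inv_eq_one.1 ?_⟩
    rw [← map_pow, ← map_inv, ← map_inv, ← map_mul, ← map_mul, ← map_mul, ker]; exact e⟩
  obtain ⟨h3, τ, ρ, q1, q2, q3, q4, q5, q6, q7⟩ := affP (Γ := h.hom.range) (x0 := (1 : A)) hn
    (fun e => by have := h.four; rw [hn, e] at this; omega) (fun x => by
      by_cases e : x = 1
      · exact ⟨1, by rw [e, one_smul]⟩
      obtain ⟨y, hy, y1⟩ := h.ex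
      obtain ⟨i, q⟩ := sg.tr (f ⟨y, hy⟩ • 1) x (fun q => y1 (by rw [← ap1 ⟨y, hy⟩, q]; rfl)) e
      exact ⟨_, by rw [mul_smul, q]⟩) sg (by
      let O := (pCore 2 h.hom.range).comap f
      let g : Y →* MulAut A := A.normalizerMonoidHom.comp (inclusion h.nA)
      have pg : IsPGroup 2 (O.map g) := isPGroup_iff_forall.2 (by
        rintro _ ⟨o, ho, rfl⟩
        obtain ⟨j, hj⟩ := isPGroup_iff_forall.1 (isPGroup_pCore 2 _) _ ho
        rw [← map_pow, ker] at hj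
        exact ⟨j, by
          rw [← map_pow]
          exact MulEquiv.ext fun x => Subtype.ext
            (mul_inv_eq_iff_eq_mul.2 (mem_cent.1 hj x x.2).symm)⟩)
      obtain ⟨b, hb, b1⟩ := pg.exists_fixed_point_of_prime_dvd_card_of_fixed_point A
        (hn ▸ dvd_pow_self 2 fun e => by have := h.four; rw [hn, e] at this; omega) (a := 1)
        (fun s => smul_one s)
      have e := Nx.tor_irr h.tor (B := A ⊓ 𝒞 (O.map Y.subtype)) inf_le_left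
        (ne_bot_of_mem (x := (b : G)) ⟨b.2, mem_cent.2 (by
          rintro _ ⟨o, ho, rfl⟩
          exact mul_inv_eq_iff_eq_mul.1 (congrArg Subtype.val (hb ⟨g o, o, ho, rfl⟩)))⟩
          fun e => b1 (Subtype.ext e.symm))
        (le_norm_inf h.nA (le_trans (fun y hy => mem_normalizer_of_forall (by
          rintro _ ⟨o, ho, rfl⟩
          exact ⟨_, (inferInstance : O.Normal).conj_mem o ho ⟨y, hy⟩, rfl⟩)) (norm_le_norm_cent _))
          h.kY)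
      refine eq_bot_iff.2 fun s hs => ?_
      obtain ⟨o, rfl⟩ := sf s
      exact (ker o).2 (cent_symm (e.ge.trans inf_le_right) ⟨o, hs, rfl⟩))
  obtain ⟨τ, rfl⟩ := sf τ
  obtain ⟨l, rfl⟩ := sf ρ
  obtain ⟨j, hj⟩ := exists_two_pow_odd (l : G)
  obtain ⟨m, hm⟩ := exists_pow_eq_self_of_coprime (x := f l) (n := 2 ^ j)
    ((Nat.coprime_two_left.2 q3).pow_left j)
  rw [← map_pow, ← map_pow] at hm
  have od : Odd (orderOf (((l ^ 2 ^ j) ^ m : Y) : G)) := hj.of_dvd_nat (orderOf_pow_dvd m)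
  rw [← hm] at q2 q4 q5 q7
  generalize (l ^ 2 ^ j) ^ m = r at *
  have d1 : d r = 1 := by rw [← ap1, q5]; rfl
  refine ⟨h3, τ, τ.2, r, r.2, (ker (τ * τ)).1 (by rw [map_mul, q1]), od, fun e => q2 ((ker r).2 e),
    (ker (τ * r * τ⁻¹ * r)).1 (by rw [map_mul, map_mul, map_mul, map_inv, q4, inv_mul_cancel]), d1,
    fun e => q6 (Subtype.ext ((ap1 τ).trans e)), fun a ha e => ?_⟩
  exact (q7 ⟨a, ha⟩ (Subtype.ext (by rw [ap, d1, e]; simp))).imp (congrArg Subtype.val)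
    fun q => (congrArg Subtype.val q).trans (ap1 τ)

end Cfsg.GS.Xx
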