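import Cfsg.Agent.GS.G5
import Cfsg.Agent.GS.XA

/-! Task `G2` of `GS/T4`, part 2. -/

set_option autoImplicit false
set_option linter.unusedSectionVars false

namespace Cfsg.GS.Gx

open Subgroup Cfsg.L0 Cfsg.H8 Cfsg.FT Cfsg.BS Cfsg.BS.R Cfsg.GS.T3 Cfsg.GS.T4 Cfsg.GS.Ax MulAction
open Cfsg.GS.Nx Cfsg.GS.Xx
open scoped commutatorElement

variable {G : Type} [Group G] [Finite G] {A P P' T T' R R' H C : Subgroup G}
  {a b c g k k' r s t u v x y z : G}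

/-- the kernel of `G₂` on `A` and, in type `U₃`, on `T / A` -/
def C3 (A P T : Subgroup G) (k : G) : Subgroup G where
  carrier := {g | g ∈ Bx.G2 A P ∧ g ∈ 𝒞 A ∧ (U3G A T k → ∀ t ∈ T, g * t * g⁻¹ * t⁻¹ ∈ A)}
  one_mem' := ⟨one_mem _, one_mem _, fun _ x _ => by simp⟩
  mul_mem' := fun {g g'} h h' => ⟨mul_mem h.1 h'.1, mul_mem h.2.1 h'.2.1, fun u x hx => by
    have := mul_mem (conj_mem_of_norm h.1.2.1 (h'.2.2 u x hx)) (h.2.2 u x hx)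
    convert this using 1; group⟩
  inv_mem' := fun {g} h => ⟨inv_mem h.1, inv_mem h.2.1, fun u x hx => by
    have := conj_mem_of_norm' h.1.2.1 (inv_mem (h.2.2 u x hx))
    convert this using 1; group⟩

theorem pow_mul_mem (hk : k ∈ 𝒩 C) (hc : c ∈ C) (n : ℕ) : (c * k) ^ n * (k ^ n)⁻¹ ∈ C := by
  induction n with
  | zero => simp
  | succ n ih =>
    have := mul_mem hc (conj_mem_of_norm hk ih)
    convert this using 1
    rw [pow_succ', pow_succ']; group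

theorem cj_cent_eq (hc : c ∈ 𝒞 A) (hk : k ∈ 𝒩 A) (ha : a ∈ A) :
    c * k * a * (c * k)⁻¹ = k * a * k⁻¹ := by
  rw [show c * k * a * (c * k)⁻¹ = c * (k * a * k⁻¹) * c⁻¹ by group,
    ← mem_cent.1 hc _ (conj_mem_of_norm hk ha), mul_inv_cancel_right]

theorem tor_mul (h : Tor A k) (hc : c ∈ 𝒞 A) (ho : Odd (orderOf (c * k))) : Tor A (c * k) :=
  ⟨ho, mul_mem (cent_le_norm _ hc) h.kA, fun a ha b hb a1 b1 => by
    obtain ⟨n, hn⟩ := h.tr a ha b hb a1 b1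
    exact ⟨n, by rw [Bx.pow_act h.kA (fun a ha => cj_cent_eq hc h.kA ha) n a ha, hn]⟩⟩

theorem u3g_mul (h : U3G A T k) (hc : c ∈ 𝒞 A) (hT : c ∈ 𝒩 T)
    (h1 : ∀ t ∈ T, c * t * c⁻¹ * t⁻¹ ∈ A) : U3G A T (c * k) := by
  obtain ⟨F, _, _, π, ι, l, o⟩ := co3_of h
  refine Co3.u3g (π := π) (ι := ι) (l := l) { o with
    kT := mul_mem hT o.kT
    kπ := fun x hx => ?_
    kι := fun a ha => by rw [cj_cent_eq hc o.kA ha, o.kι a ha] }
  have m := conj_mem_of_norm o.kT hx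
  rw [show c * k * x * (c * k)⁻¹ = c * (k * x * k⁻¹) * c⁻¹ by group,
    (o.eq_iff (conj_mem_of_norm hT m) m).2 (h1 _ m), o.kπ x hx]

theorem mul_mem_two (h : H.relIndex C ≤ 2) (ha : a ∈ C) (hb : b ∈ C) (a1 : a ∉ H) (b1 : b ∉ H) :
    a * b ∈ H := by
  have h0 : H.relIndex C ≠ 0 := index_ne_zero_of_finite
  have h1 : H.relIndex C ≠ 1 := fun e => a1 (relIndex_eq_one.1 e ha)
  exact (mul_mem_iff_of_index_two (H := H.subgroupOf C) (show H.relIndex C = 2 by omega)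
    (a := ⟨a, ha⟩) (b := ⟨b, hb⟩)).2 (iff_of_false a1 b1)

theorem br_mem (he : Elem 2 A) (hz : z ∈ 𝒩 A) (h2 : z * z ∈ 𝒞 A) (ha : a ∈ A) :
    a * z * a⁻¹ * z⁻¹ ∈ A ⊓ 𝒞₁ z := by
  have m : z * a * z⁻¹ ∈ A := conj_mem_of_norm hz ha
  rw [inv_eq_of_mul_eq_one_right (sq1 he ha), mul_assoc a, mul_assoc a]
  refine ⟨mul_mem ha m, mem_cent1.2 ?_⟩
  calc a * (z * a * z⁻¹) * z = z * a * z⁻¹ * a * z := by rw [he.abel.comm ha m]
    _ = z * a * z⁻¹ * (a * (z * z)) * z⁻¹ := by group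
    _ = _ := by rw [mem_cent.1 h2 a ha]; group

theorem tor_reg (ht : Tor A k) (hc : c ∈ A) (c1 : c ≠ 1) {m i : ℕ}
    (e : k ^ m * c * (k ^ m)⁻¹ = k ^ i * c * (k ^ i)⁻¹) (hx : x ∈ A) :
    k ^ m * x * (k ^ m)⁻¹ = k ^ i * x * (k ^ i)⁻¹ := by
  by_cases x1 : x = 1
  · simp [x1]
  obtain ⟨j, rfl⟩ := ht.tr c hc x hx c1 x1
  calc _ = k ^ j * (k ^ m * c * (k ^ m)⁻¹) * (k ^ j)⁻¹ := by group
    _ = _ := by rw [e]; group

theorem sq_of_onto (he : Elem 2 A) (hz : z ∈ 𝒩 A) (h2 : z * z ∈ 𝒞 A)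
    (h : ∀ b ∈ A ⊓ 𝒞₁ z, ∃ a ∈ A, a * z * a⁻¹ * z⁻¹ = b) : ♯A = ♯(A ⊓ 𝒞₁ z) ^ 2 := by
  have cd := card_inf_mul_ri (𝒞₁ z) A
  rw [inf_comm] at cd
  rw [← cd, le_antisymm (ri_le_card fun _ => br_mem he hz h2) (card_le_ri h), sq]

/-- an involution normalizing the torus is a field automorphism -/
theorem tor_onto (he : Elem 2 A) (ht : Tor A k) (hz : z ∈ 𝒩 A) (h2 : z * z ∈ 𝒞 A) (hc : z ∉ 𝒞 A)
    {n : ℕ} (nk : z * k * z⁻¹ * (k ^ n)⁻¹ ∈ 𝒞 A) (hb : b ∈ A ⊓ 𝒞₁ z) :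
    ∃ a ∈ A, a * z * a⁻¹ * z⁻¹ = b := by
  by_cases b1 : b = 1
  · exact ⟨1, one_mem _, by rw [b1]; group⟩
  obtain ⟨a, ha, a1⟩ : ∃ a ∈ A, a * z * a⁻¹ * z⁻¹ ≠ 1 := by
    by_contra e
    push Not at e
    exact hc (mem_cent.2 fun a ha => by
      have := e a ha; rwa [mul_inv_eq_one, mul_inv_eq_iff_eq_mul] at this)
  have m := br_mem he hz h2 ha
  obtain ⟨i, hi⟩ := ht.tr _ m.1 b hb.1 a1 b1
  have p := pow_mul_mem (norm_le_norm_cent _ (pow_mem ht.kA n)) nk i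
  rw [inv_mul_cancel_right, conj_pow, ← pow_mul] at p
  have e : ∀ x ∈ A, z * k ^ i * z⁻¹ * x * (z * k ^ i * z⁻¹)⁻¹ = k ^ (n * i) * x * (k ^ (n * i))⁻¹ :=
    fun x hx => by rw [← cj_cent_eq p (pow_mem ht.kA _) hx, inv_mul_cancel_right]
  have e1 := e _ m.1
  generalize hd : a * z * a⁻¹ * z⁻¹ = d at *
  rw [show z * k ^ i * z⁻¹ * d * (z * k ^ i * z⁻¹)⁻¹ = z * (k ^ i * (z⁻¹ * (d * z)) * (k ^ i)⁻¹) * z⁻¹
    by group, mem_cent1.1 m.2, inv_mul_cancel_left, hi, ← mem_cent1.1 hb.2, mul_inv_cancel_right,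
    ← hi] at e1
  have m' := conj_mem_of_norm hz (inv_mem ha)
  refine ⟨_, conj_mem_of_norm (pow_mem ht.kA i) ha, ?_⟩
  have e2 := (e _ m').trans (tor_reg ht m.1 a1 e1.symm m')
  rw [← hi, ← hd]
  calc _ = k ^ i * a * (k ^ i)⁻¹ * (z * k ^ i * z⁻¹ * (z * a⁻¹ * z⁻¹) * (z * k ^ i * z⁻¹)⁻¹) := by group
    _ = _ := by rw [e2]; group

theorem three_dvd (he : Elem 2 A) (h : ♯A = ♯(A ⊓ 𝒞₁ z) ^ 2) : 3 ∣ ♯A - 1 := by
  obtain ⟨j, hj⟩ := (he.mono (inf_le_left : A ⊓ 𝒞₁ z ≤ A)).exists_card Nat.prime_two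
  rw [h, hj, ← pow_mul, mul_comm, pow_mul]
  simpa using Nat.sub_dvd_pow_sub_pow 4 1 j

namespace Lg
variable (l : T4.Loc A P T R v k) (he : Elem 2 A)
include l he

theorem kC : k ∈ 𝒩 (C3 A P T k) := mem_normalizer_of_forall fun g hg =>
  ⟨mul_mem (mul_mem (kG l he) hg.1) (inv_mem (kG l he)),
    conj_mem_of_norm (norm_le_norm_cent _ (Lc.kA l)) hg.2.1, fun u t ht => by
      have := conj_mem_of_norm (Lc.kA l) (hg.2.2 u _ (conj_mem_of_norm' (ty_kT l.ty) ht))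
      convert this using 1; group⟩

theorem PC : P ≤ C3 A P T k := fun _ hg =>
  ⟨PG l he hg, Lc.PA l he hg, fun _ _ ht => comm l hg (Lc.TP l ht)⟩

theorem two_mem (hx : x ∈ C3 A P T k) (hv : x ∈ 𝒞₁ v) (h2 : ∃ n, x ^ 2 ^ n = 1) : x ∈ P :=
  (l.top x ⟨⟨hv, hx.2.1⟩, hx.1.1⟩ h2).elim id fun ⟨u, t, ht, n⟩ => (n (hx.2.2 u t ht)).elim

theorem CR (hx : x ∈ C3 A P T k) (hv : x ∈ 𝒞₁ v) : x ∈ 𝒞 R := by
  have : Fact (Nat.Prime 2) := ⟨Nat.prime_two⟩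
  obtain ⟨a, b, ha, hb, h1, h2, e⟩ := exists_pPart 2 x
  have bC := zpowers_le.2 hx hb
  rw [e]
  refine mul_mem (cent_symm (Lc.RcP l) (two_mem l he (zpowers_le.2 hx ha) (zpowers_le.2 hv ha) h1))
    (mem_cent.2 fun r hr => ?_)
  have m := bC.1.2.2 r (Lc.RP l hr) (Lc.rr l hr)
  exact (Bx.odd_fix (Bx.odd_of_cop2 h2) rfl (mem_cent.1 bC.2.1 _ m).symm (sq1 he m)).symm

theorem loc_mul (h4 : 4 ≤ ♯A) (hc : c ∈ C3 A P T k) (hv : c ∈ 𝒞₁ v) (ho : Odd (orderOf (c * k))) :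
    T4.Loc A P T R v (c * k) ∧ (U3G A T (c * k) → U3G A T k) := by
  have cT := l.nT ⟨hv, hc.1.1⟩
  have u : U3G A T k → U3G A T (c * k) := fun u => u3g_mul u hc.2.1 cT (hc.2.2 u)
  have t := tor_mul l.ty.1 hc.2.1 ho
  refine ⟨{ l with
    ty := ⟨t, l.ty.2.imp_right fun e => e.imp (fun e => { e with
      odd := ho
      kT := mul_mem cT e.kT
      tr := t.tr }) u⟩
    kR := mul_mem (CR l he hc hv) l.kR
    nk := fun g hg => ?_
    top := fun g hg h2 => (l.top g hg h2).imp_right fun e => ⟨u e.1, e.2⟩ },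
    fun e => u3 l h4 (u3g_card e).ge⟩
  obtain ⟨n, hn⟩ := l.nk g hg
  have := mul_mem (mul_mem (conj_mem_of_norm (norm_le_norm_cent _ hg.2) hc.2.1) hn)
    (inv_mem (pow_mul_mem (norm_le_norm_cent _ (Lc.kA l)) hc.2.1 n))
  exact ⟨n, by convert this using 1; group⟩

/-- the case that `C₃` moves `v` -/
theorem caseA (h4 : 4 ≤ ♯A) (hc : c ∈ C3 A P T k) (hv : c ∉ 𝒞₁ v) :
    ∃ S2 k', T4.Loc2 A P T R S2 v k' := by
  have : Fact (Nat.Prime 2) := ⟨Nat.prime_two⟩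
  obtain ⟨e, hq⟩ := he.exists_card Nat.prime_two
  have on : ∀ a ∈ A, ∃ s ∈ C3 A P T k, s * v * s⁻¹ = v * a := fun a ha => by
    by_cases a1 : a = 1
    · exact ⟨1, one_mem _, by simp [a1]⟩
    obtain ⟨n, hn⟩ := move l (conj_v l he hc.1) ha (fun e => hv (mem_cent1.2 (by
      rw [inv_mul_eq_one] at e; exact mul_inv_eq_iff_eq_mul.1 e.symm))) a1
    refine ⟨_, conj_mem_of_norm (pow_mem (kC l he) n) hc, ?_⟩
    have e := mem_cent.1 (inv_mem (pow_mem l.kR n)) v l.vR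
    rw [← hn]
    calc _ = k ^ n * c * ((k ^ n)⁻¹ * v) * k ^ n * c⁻¹ * (k ^ n)⁻¹ := by group
      _ = _ := by rw [← e]; group
  have ri : (𝒞₁ v).relIndex (C3 A P T k) = 2 ^ e := by
    rw [← hq, ← Bx.ncard_coset v]
    refine Bx.card_orbit _ _ _ fun z => ⟨?_, fun hz => ?_⟩
    · rintro ⟨y, hy, rfl⟩
      exact conj_v l he hy.1
    · obtain ⟨s, hs, e⟩ := on _ hz
      exact ⟨s, hs, by simpa using e⟩
  obtain ⟨S2, hS, hle⟩ := exists_isSyl_ge (Lc.pg l he) (PC l he)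
  have on2 : ∀ a ∈ A, ∃ s ∈ S2, s * v * s⁻¹ = v * a := fun a ha => by
    obtain ⟨s, hs, e⟩ := on a ha
    obtain ⟨x, hx, y, hy, rfl⟩ := exists_mul_of_cop_ri hS.le (inf_le_right : 𝒞₁ v ⊓ _ ≤ _)
      (by rw [inf_relIndex_right, ri]; exact hS.coprime.pow_right _) hs
    refine ⟨x, hx, ?_⟩
    rw [← e, mul_assoc x y, mem_cent1.1 hy.1]; group
  obtain ⟨c1, hc1, n, hn, e1⟩ := hS.frattini (kC l he)
  have nG : n ∈ Bx.G2 A P := by
    rw [show n = c1⁻¹ * k by rw [e1]; group]; exact mul_mem (inv_mem hc1.1) (kG l he)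
  obtain ⟨s, hs, e2⟩ := on2 _ (conj_v l he nG)
  rw [mul_inv_cancel_left] at e2
  have c2C : s⁻¹ * c1⁻¹ ∈ C3 A P T k := mul_mem (inv_mem (hS.le hs)) (inv_mem hc1)
  have e3 : s⁻¹ * c1⁻¹ * k = s⁻¹ * n := by rw [e1]; group
  generalize s⁻¹ * c1⁻¹ = c2 at c2C e3
  have mv : c2 * k ∈ 𝒞₁ v := mem_cent1.2 (by
    rw [e3]
    calc _ = s⁻¹ * (n * v * n⁻¹) * n := by group
      _ = _ := by rw [← e2]; group)
  have kv' : k ∈ 𝒞₁ v := mem_cent1.2 (Lc.kv l)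
  obtain ⟨x, y, hx, hy, ⟨j, h1⟩, h2, e⟩ := exists_pPart 2 (c2 * k)
  have m2 : c2 * k ∈ 𝒩 S2 := e3 ▸ mul_mem (le_norm _ (inv_mem hs)) hn
  have xC : x ∈ C3 A P T k := by
    refine mem_of_pow_mem (Nat.coprime_two_right.2 l.ty.1.odd |>.pow_right j) ?_ (h1 ▸ one_mem _)
    obtain ⟨i, rfl⟩ := hx
    have := pow_mul_mem (kC l he) c2C (orderOf k)
    rw [pow_orderOf_eq_one, inv_one, mul_one] at this
    show ((c2 * k) ^ i) ^ _ ∈ _
    rw [← zpow_natCast, ← zpow_mul, mul_comm, zpow_mul, zpow_natCast]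
    exact zpow_mem this i
  have ey : y = x⁻¹ * c2 * k := by rw [mul_assoc, e]; group
  obtain ⟨l', u⟩ := loc_mul l he h4 (mul_mem (inv_mem xC) c2C) (mul_mem (inv_mem (zpowers_le.2 mv hx))
    (((𝒞₁ v).mul_mem_cancel_right kv').1 mv)) (ey ▸ Bx.odd_of_cop2 h2)
  refine ⟨S2, _, { l' with
    le := hle
    p2 := hS.isPGroup
    cA := fun s hs => (hS.le hs).2.1
    n1 := fun s hs => (hS.le hs).1.1
    kS := ey ▸ zpowers_le.2 m2 hy
    cv := fun s hs => two_mem l he (hS.le hs.1) hs.2 (isPGroup_iff_forall.1 hS.isPGroup s hs.1)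
    comm := fun s hs r hr => ?_
    onto := on2
    u3 := fun e s hs t ht => ?_ }⟩
  · have := inv_mem ((hS.le hs).1.2.2 r (Lc.RP l hr) (Lc.rr l hr))
    convert this using 1
    rw [commutatorElement_def]; group
  · have := inv_mem ((hS.le hs).2.2 (u e) t ht)
    convert this using 1
    rw [commutatorElement_def]; group

theorem T_eq (h4 : 4 ≤ ♯A) (l' : T4.Loc A P T' R' u k') (h : U3G A T k) : T' = T := by
  have c := card_proj (l'.sup ▸ Lc.TP l) (Lc.nR l') (ty_inf l.ty (Lc.infA l'))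
  obtain ⟨F, _, _, π, ι, m, o⟩ := co3_of (u3 l' h4 ((u3g_card h).ge.trans c))
  have wV : k' ^ (♯A - 1) ∈ 𝒞 (A ⊔ R') := cent_sup A R' ▸ ⟨o.w_cent, pow_mem l'.kR _⟩
  have wT := l.nT ⟨cent_le_cent1 (memV l' (vP l) (Lc.vv l)) wV, pow_mem (kP l') _⟩
  refine eq_of_card_le (fun y hy => ?_) c
  obtain ⟨x, hx, a, ha, rfl⟩ := o.w_onto h4 hy
  obtain ⟨t, ht, r, hr, rfl⟩ := Lc.mem l (Lc.TP l' hx)
  have e := mem_cent.1 wV r (memV l' (Lc.RP l hr) (Lc.rr l hr))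
  generalize k' ^ (♯A - 1) = w at e wT
  rw [show w * (t * r) * w⁻¹ * (t * r)⁻¹ = w * t * w⁻¹ * (w * r) * w⁻¹ * r⁻¹ * t⁻¹ by group, ← e]
  have := mul_mem (Lc.AT l ha) (mul_mem (conj_mem_of_norm wT ht) (inv_mem ht))
  convert this using 1; group

theorem tr_v (h4 : 4 ≤ ♯A) (al : AllL A) (ha : a ∈ A) :
    ∃ g ∈ Bx.G2 A P, (U3G A T k → g ∈ 𝒩 T) ∧ g * v * g⁻¹ = v * a := by
  obtain ⟨c, hc, c1, c2⟩ := Bx.exists_third (A := A) (by omega) 1 a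
  obtain ⟨T', R', k', l'⟩ := coset l he h4 al hc
  obtain ⟨n, hn⟩ := move l' (inv_mem hc) (mul_mem (inv_mem hc) ha) (inv_ne_one.2 c1)
    (fun e => c2 (inv_mul_eq_one.1 e))
  exact ⟨_, pow_mem (kG l' he) n, fun u => T_eq l he h4 l' u ▸ pow_mem (ty_kT l'.ty) n,
    by simpa [mul_assoc] using hn⟩

theorem caseU (h4 : 4 ≤ ♯A) (al : AllL A) (h : U3G A T k) : ¬ C3 A P T k ≤ 𝒞₁ v := fun hC => by
  have : Fact (Nat.Prime 2) := ⟨Nat.prime_two⟩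
  obtain ⟨F, _, _, π, ι, m, o⟩ := co3_of h
  let Y : Subgroup G :=
    { carrier := {g | g ∈ Bx.G2 A P ∧ g ∈ 𝒩 T ∧ ∃ c, ∀ x ∈ T, π (g * x * g⁻¹) = c * π x}
      one_mem' := ⟨one_mem _, one_mem _, 1, fun x _ => by simp⟩
      mul_mem' := fun {g g'} ⟨a1, a2, c, a3⟩ ⟨b1, b2, d, b3⟩ =>
        ⟨mul_mem a1 b1, mul_mem a2 b2, c * d, fun x hx => by
          rw [show g * g' * x * (g * g')⁻¹ = g * (g' * x * g'⁻¹) * g⁻¹ by group,
            a3 _ (conj_mem_of_norm b2 hx), b3 x hx, mul_assoc]⟩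
      inv_mem' := fun {g} ⟨a1, a2, c, a3⟩ => ⟨inv_mem a1, inv_mem a2, c⁻¹, fun x hx => by
        have k := fun x hx => a3 _ (conj_mem_of_norm (inv_mem a2) (x := x) hx)
        simp only [inv_inv, mul_assoc, mul_inv_cancel, mul_one, mul_inv_cancel_left] at k ⊢
        obtain ⟨y, hy, y1⟩ := o.onto 1
        have c0 : c ≠ 0 := fun e => by simpa [e, y1] using k y hy
        rw [k x hx, inv_mul_cancel_left₀ c0]⟩ }
  have kY : k ∈ Y := ⟨kG l he, o.kT, m, o.kπ⟩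
  obtain ⟨a, ha, a1⟩ := exists_ne1 (A := A) (by omega)
  obtain ⟨g, g1, g2, g3⟩ := tr_v l he h4 al ha
  obtain ⟨c, hc⟩ := co_semi o (inv_mem (g2 h)) m
  have y1 : g⁻¹ * k * g ∈ Y := ⟨mul_mem (mul_mem (inv_mem g1) (kG l he)) g1,
    mul_mem (mul_mem (inv_mem (g2 h)) o.kT) (g2 h), c, fun x hx => by
      have m := conj_mem_of_norm (g2 h) hx
      have := hc _ m _ (conj_mem_of_norm o.kT m) (o.kπ _ m)
      convert this using 2 <;> [skip; congr 1] <;> group⟩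
  have y2 : v⁻¹ * (g⁻¹ * k * g * v * (g⁻¹ * k * g)⁻¹) ≠ 1 := fun e => a1 (tor_fix l.ty.1 (by omega) ha (by
    have e1 : k * (g * v * g⁻¹) = g * v * g⁻¹ * k := by
      calc _ = g * (g⁻¹ * k * g * v * (g⁻¹ * k * g)⁻¹) * g⁻¹ * k := by group
        _ = _ := by rw [← inv_mul_eq_one.1 e]
    rw [g3, ← mul_assoc, Lc.kv l, mul_assoc, mul_assoc] at e1
    exact mul_left_cancel e1))
  have ri : (𝒞₁ v).relIndex Y = ♯A := by
    rw [← Bx.ncard_coset v]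
    refine Bx.card_orbit _ _ _ fun z => ⟨?_, fun hz => ?_⟩
    · rintro ⟨y, hy, rfl⟩
      exact conj_v l he hy.1
    by_cases z1 : v⁻¹ * z = 1
    · exact ⟨1, one_mem _, by simpa using inv_mul_eq_one.1 z1⟩
    obtain ⟨n, hn⟩ := move l (conj_v l he y1.1) hz y2 z1
    refine ⟨_, mul_mem (pow_mem kY n) y1, ?_⟩
    rw [mul_inv_cancel_left, mul_inv_cancel_left] at hn
    rw [← hn]; group
  obtain ⟨Q, hQ⟩ := exists_isSyl 2 Y
  have : Q ≤ 𝒞₁ v := fun s hs => by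
    obtain ⟨s1, s2, d, s3⟩ := hQ.le hs
    have s4 := fun x hx => co_two o s2 s3 (isPGroup_iff_forall.1 hQ.isPGroup s hs) (x := x) hx
    refine hC ⟨s1, mem_cent.2 fun a ha => ?_, fun _ => s4⟩
    obtain ⟨x, hx, rfl⟩ := o.exists_sq l.ty.1 ha
    have m := conj_mem_of_norm s2 hx
    have := (co_sq o m hx).1 (by rw [(o.eq_iff m hx).2 (s4 x hx)])
    calc x * x * s = s * x * s⁻¹ * (s * x * s⁻¹) * s := by rw [this]
      _ = _ := by group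
  obtain ⟨n, n1, hn⟩ := o.exists_pow
  exact hQ.not_dvd ((dvd_pow_self 2 (by omega)).trans (hn ▸ ri ▸ ri_dvd_of_le_left this Y))

theorem sz_inj (e : S2G A T k) (hx : x ∈ P) (hy : y ∈ P) (h : x * x = y * y) : x * y⁻¹ ∈ A ⊔ R := by
  obtain ⟨t, ht, r, hr, rfl⟩ := Lc.mem l hx
  obtain ⟨t', ht', r', hr', rfl⟩ := Lc.mem l hy
  rw [Lc.sqe l ht hr, Lc.sqe l ht' hr'] at h
  have := mul_mem (mem_sup_left (e.inj t ht t' ht' h)) (conj_mem_of_norm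
    (nV l he (le_norm _ (Lc.TP l ht'))) (mem_sup_right (mul_mem hr (inv_mem hr'))))
  convert this using 1; group

/-- no involution acts on the Suzuki `2`-group as a field automorphism -/
theorem noSz (h4 : 4 ≤ ♯A) (e : S2G A T k) (h1 : z ∈ 𝒩 P) (h3 : z * z ∈ 𝒞 A) :
    z ∈ 𝒞 A := by
  refine mem_cent.2 fun a ha => ?_
  obtain ⟨x, hx, rfl⟩ := Ux.S2.exists_sq e (by omega) ha
  replace hx := Lc.TP l hx
  have x1 := conj_mem_of_norm h1 hx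
  have hc := mul_mem x1 (inv_mem hx)
  have sV : ∀ w ∈ A ⊔ R, ∀ y ∈ P, w * y * (w * y) = y * y := fun w hw y hy => by
    rw [mul_assoc, ← mul_assoc y, mem_cent.1 (VcP l he hw) y hy, mul_assoc, ← mul_assoc, Vsq l he hw,
      one_mul]
  by_cases cV : z * x * z⁻¹ * x⁻¹ ∈ A ⊔ R
  · have := sV _ cV x hx
    rw [inv_mul_cancel_right] at this
    calc x * x * z = z * x * z⁻¹ * (z * x * z⁻¹) * z := by rw [this]
      _ = _ := by group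
  exfalso
  have hw : z * (z * x * z⁻¹ * x⁻¹) * z⁻¹ * (z * x * z⁻¹ * x⁻¹)⁻¹ ∈ A ⊔ R := by
    have := mul_mem (sz_inj l he e (conj_mem_of_norm (mul_mem h1 h1) hx) hx (by
      rw [show z * z * x * (z * z)⁻¹ * (z * z * x * (z * z)⁻¹) = z * z * (x * x) * (z * z)⁻¹ by group,
        ← mem_cent.1 h3 _ ha, mul_inv_cancel_right]))
      (mem_sup_left (sqA l (mul_mem hx (inv_mem x1))))
    convert this using 1; group
  generalize hd : z * x * z⁻¹ * x⁻¹ = c at hc cV hw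
  have cA : ∀ b ∈ A, ∀ y ∈ P, y * b = b * y := fun b hb y hy => (mem_cent.1 (Lc.PA l he hy) b hb).symm
  let H : Subgroup G :=
    { carrier := {w | ∃ y ∈ P, y * c * y⁻¹ * c⁻¹ = w}
      one_mem' := ⟨1, one_mem _, by group⟩
      mul_mem' := by
        rintro _ _ ⟨y, hy, rfl⟩ ⟨y', hy', rfl⟩
        refine ⟨_, mul_mem hy' hy, ?_⟩
        calc _ = y' * (y * c * y⁻¹ * c⁻¹) * c * y'⁻¹ * c⁻¹ := by group
          _ = _ := by rw [cA _ (comm l hy hc) _ hy']; group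
      inv_mem' := by
        rintro _ ⟨y, hy, rfl⟩
        refine ⟨_, inv_mem hy, ?_⟩
        calc _ = y⁻¹ * (y * c * y⁻¹ * c⁻¹)⁻¹ * y := by group
          _ = _ := by rw [cA _ (inv_mem (comm l hy hc)) _ (inv_mem hy)]; group }
  have HA : H ≤ A := by rintro _ ⟨y, hy, rfl⟩; exact comm l hy hc
  have sq : ∀ y ∈ P, c * y * (c * y) = c * c * (y * c * y⁻¹ * c⁻¹) * (y * y) := fun y hy => by
    rw [mul_assoc c c, cA _ (comm l hy hc) _ hc]; group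
  have cH : c * c ∉ H := fun ⟨y, hy, q⟩ => cV (by
    simpa using sz_inj l he e (mul_mem hc hy) hy (by rw [sq y hy, q, sq1 he (sqA l hc), one_mul]))
  have ri : H.relIndex A ≤ 2 := by
    obtain ⟨t, ht, r, hr, rfl⟩ := Lc.mem l hc
    have a1 : (𝒞₁ (t * r)).relIndex T ≤ ♯H := ri_le_card fun y hy => ⟨y, Lc.TP l hy, rfl⟩
    have a2 : ♯(𝒞₁ (t * r) ⊓ T) ≤ ♯A + ♯A := by
      have : ((𝒞₁ (t * r) ⊓ T : Subgroup G) : Set G) ⊆ A ∪ {w | t⁻¹ * w ∈ A} := fun y hy => by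
        have q := mem_cent1.1 hy.1
        rw [mul_assoc t, ← mem_cent.1 (l.cm hr) y hy.2, ← mul_assoc, ← mul_assoc] at q
        refine (e.cen t ht (fun i => cV (mul_mem_sup i hr)) y hy.2 (mul_right_cancel q).symm).imp id
          fun i => ?_
        have := conj_mem_of_norm' (cent_le_norm _ (ty_cA l.ty he ht)) (inv_mem i)
        show _ ∈ A
        convert this using 1; group
      have := (Set.ncard_le_ncard this).trans (Set.ncard_union_le _ _)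
      rwa [Bx.ncard_coset] at this
    have a3 := card_inf_mul_ri (𝒞₁ (t * r)) T
    have a4 := card_inf_mul_ri H A
    rw [inf_eq_left.2 HA] at a4
    rw [e.card] at a3
    by_contra n
    have a5 : ♯A ^ 2 ≤ (♯A + ♯A) * ♯H := a3 ▸ Nat.mul_le_mul a2 a1
    nlinarith
  have zc : z * c * z⁻¹ = z * c * z⁻¹ * c⁻¹ * c := by group
  generalize z * c * z⁻¹ * c⁻¹ = w at hw zc
  have zH : ∀ b ∈ H, z * b * z⁻¹ ∈ H := by
    rintro _ ⟨y, hy, rfl⟩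
    have m := conj_mem_of_norm h1 hy
    refine ⟨_, m, ?_⟩
    rw [cj_br, zc]
    generalize z * y * z⁻¹ = y' at m
    calc _ = y' * c * y'⁻¹ * c⁻¹ * w * w⁻¹ := by group
      _ = _ := by
        rw [mem_cent.1 (VcP l he hw) _ (Lc.AP l (comm l m hc)), ← mul_assoc y' w,
          mem_cent.1 (VcP l he hw) _ m]; group
  have z2 : z * (c * c) * z⁻¹ = c * c := by
    calc _ = z * c * z⁻¹ * (z * c * z⁻¹) := by group
      _ = _ := by rw [zc, sV w hw c hc]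
  have z3 : z * (x * x) * z⁻¹ * (x * x)⁻¹ ∈ H := by
    by_cases i : x * x ∈ H
    · exact mul_mem (zH _ i) (inv_mem i)
    have j := mul_mem_two ri ha (sqA l hc) i cH
    have := mul_mem (zH _ j) (inv_mem j)
    rwa [show z * (x * x * (c * c)) * z⁻¹ = z * (x * x) * z⁻¹ * (z * (c * c) * z⁻¹) by group, z2,
      mul_inv_rev, mul_assoc, mul_inv_cancel_left] at this
  rw [show z * (x * x) * z⁻¹ = z * x * z⁻¹ * x⁻¹ * x * (z * x * z⁻¹ * x⁻¹ * x) by group, hd, sq x hx,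
    mul_inv_cancel_right] at z3
  exact cH ((H.mul_mem_cancel_right ⟨x, hx, rfl⟩).1 z3)

theorem caseB (h4 : 4 ≤ ♯A) (al : AllL A) (fl : ∀ z ∈ 𝒩 A, z * z = 1 → z ∈ 𝒞 A ∨ ♯A = ♯(A ⊓ 𝒞₁ z) ^ 2)
    (hn : ¬ U3G A T k) : ¬ C3 A P T k ≤ 𝒞₁ v := fun hC => by
  have : Fact (Nat.Prime 2) := ⟨Nat.prime_two⟩
  have hC' : ∀ y ∈ Bx.G2 A P, y ∈ 𝒞 A → y ∈ 𝒞₁ v := fun y h1 h2 => hC ⟨h1, h2, fun u => (hn u).elim⟩
  have iv := (Lc.ivo l).inv
  have dm : ∀ y ∈ Bx.G2 A P, y * v * y⁻¹ * v⁻¹ ∈ A := fun y hy => hy.2.2 v (vP l) (Lc.vv l)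
  have d1 : ∀ y, y * v * y⁻¹ * v⁻¹ = 1 ↔ y ∈ 𝒞₁ v := fun y => by
    rw [mem_cent1, mul_inv_eq_one, mul_inv_eq_iff_eq_mul]
  obtain ⟨a, ha, a1⟩ := exists_ne1 (A := A) (by omega)
  obtain ⟨g, g1, -, g3⟩ := tr_v l he h4 al ha
  have co : Coc A (Bx.G2 A P) (fun y => y * v * y⁻¹ * v⁻¹) k :=
    ⟨he, h4, fun _ h => h.2.1, dm, fun y hy y' hy' => by
      rw [he.abel.comm (dm y hy) (conj_mem_of_norm hy.2.1 (dm y' hy'))]; group,
      fun y hy hc => (d1 y).2 (hC' y hy hc), kG l he, (d1 k).2 (mem_cent1.2 (Lc.kv l)), l.ty.1,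
      ⟨g, g1, fun e => a1 (by rw [g3, mul_inv_eq_one] at e; simpa using e)⟩,
      fun g hg e => l.nk g ⟨(d1 g).1 e, hg.2.1⟩⟩
  obtain ⟨h3, τ, hτ, ρ, hρ, t2, ro, rc, tr, -, dt, fx⟩ := co.aff
  obtain ⟨y, o, hy, ho, ⟨j, y2⟩, oo, e⟩ := exists_pPart 2 τ
  have oC : o ∈ 𝒞 A := mem_of_pow_mem oo (pow_orderOf_eq_one o ▸ one_mem _) (by
    obtain ⟨i, rfl⟩ := ho
    show (τ ^ i) ^ 2 ∈ _
    rw [← zpow_natCast, ← zpow_mul, mul_comm, zpow_mul, zpow_natCast, sq]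
    exact zpow_mem t2 i)
  have yG := zpowers_le.2 hτ hy
  have yA := yG.2.1
  have yy : y * y ∈ 𝒞 A := by
    obtain ⟨i, rfl⟩ := hy
    show τ ^ i * τ ^ i ∈ _
    rw [← (Commute.refl τ).mul_zpow]
    exact zpow_mem t2 i
  have ed : τ * v * τ⁻¹ * v⁻¹ = y * v * y⁻¹ * v⁻¹ := by
    rw [e, mul_assoc y o, mem_cent1.1 (hC' o (zpowers_le.2 hτ ho) oC)]; group
  simp only [ed] at dt fx
  have yc : y ∉ 𝒞 A := fun i => dt ((d1 y).2 (hC' y yG i))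
  have yP : y * y ∈ P := two_mem l he ⟨mul_mem yG yG, yy, fun u => (hn u).elim⟩
    (hC' _ (mul_mem yG yG) yy) ⟨j, by rw [← sq, ← pow_mul, mul_comm, pow_mul, y2, one_pow]⟩
  rcases l.ty.2 with rfl | s | s
  rotate_left
  · exact yc (noSz l he h4 s yG.1 yy)
  · exact hn s
  have nf : ∀ u ∈ P, u ∉ T → y ∉ 𝒞₁ u := fun u hu uA i => by
    obtain ⟨_, _, _, κ, l', -⟩ := al u ⊥ ⟨fun e => uA (e ▸ one_mem _), Vsq l he (l.sup ▸ hu)⟩ uA
      (Lc.PA l he hu) IsPGroup.of_bot bot_le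
    obtain ⟨n, hn⟩ := l'.nk y ⟨i, yA⟩
    exact h3 (three_dvd he (sq_of_onto he yA yy fun b => tor_onto he l'.ty.1 yA yy yc hn))
  have y0 : y * y ∈ T := by_contra fun i => nf _ yP i (mem_cent1.2 (mul_assoc _ _ _).symm)
  have fl' : ∀ x ∈ P, y * x * y⁻¹ * x ≠ y * y := fun x hx e => by
    have m := Lc.PA l he hx
    refine (fl (y * x) (mul_mem yA (cent_le_norm _ m)) ?_).elim
      (fun i => yc (((𝒞 T).mul_mem_cancel_right m).1 i)) fun i => h3 (three_dvd he i)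
    calc _ = y * x * y⁻¹ * (y * y * x) := by group
      _ = _ := by rw [mem_cent.1 m _ y0, ← mul_assoc, e, sq1 he y0]
  have rA := hρ.2.1
  have ty : ∀ x ∈ T, y * (ρ * x * ρ⁻¹) * y⁻¹ = ρ⁻¹ * (y * x * y⁻¹) * ρ := fun x hx => by
    have q : ∀ x ∈ T, y * x * y⁻¹ = τ * x * τ⁻¹ := fun x hx => by
      rw [e, mul_assoc y o, ← mem_cent.1 oC x hx]; group
    have m := conj_mem_of_norm' rA (conj_mem_of_norm hτ.2.1 hx)
    rw [q x hx, q _ (conj_mem_of_norm rA hx)]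
    calc _ = τ * ρ * τ⁻¹ * ρ * (ρ⁻¹ * (τ * x * τ⁻¹) * ρ) * (τ * ρ * τ⁻¹ * ρ)⁻¹ := by group
      _ = _ := by rw [← mem_cent.1 tr _ m, mul_inv_cancel_right]
  let I : Set G := {w | ∃ x ∈ T, x * y * x⁻¹ * y⁻¹ = w}
  have IC : ∀ w ∈ I, w ∈ T ⊓ 𝒞₁ y := by rintro _ ⟨x, hx, rfl⟩; exact br_mem he yA yy hx
  let ψ : G → G := fun c => ρ * c * ρ⁻¹ * (ρ⁻¹ * c * ρ)
  have ψI : ∀ c ∈ T ⊓ 𝒞₁ y, ψ c ∈ I := fun c hc => ⟨_, conj_mem_of_norm rA hc.1, by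
    rw [inv_eq_of_mul_eq_one_right (sq1 he (conj_mem_of_norm rA hc.1)), mul_assoc _ y, mul_assoc,
      ty c hc.1, ← mem_cent1.1 hc.2, mul_inv_cancel_right]⟩
  have ker : ∀ c ∈ T, ∀ c' ∈ T, ψ c = ψ c' → c * c' = 1 ∨ c * c' = y * v * y⁻¹ * v⁻¹ :=
    fun c hc c' hc' e => fx _ (mul_mem hc hc') (by
      have m := fun c (hc : c ∈ T) => conj_mem_of_norm rA hc
      have m' := fun c (hc : c ∈ T) => conj_mem_of_norm' rA hc
      have q : ρ * (c * c') * ρ⁻¹ * (ρ⁻¹ * (c * c') * ρ) = 1 := by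
        calc _ = ρ * c * ρ⁻¹ * (ρ * c' * ρ⁻¹ * (ρ⁻¹ * c * ρ)) * (ρ⁻¹ * c' * ρ) := by group
          _ = ψ c * ψ c' := by rw [he.abel.comm (m c' hc') (m' c hc)]; simp only [ψ]; group
          _ = 1 := by rw [e]; exact sq1 he (mul_mem (m c' hc') (m' c' hc'))
      rw [mul_eq_one_iff_eq_inv, inv_eq_of_mul_eq_one_right (sq1 he (m' _ (mul_mem hc hc')))] at q
      have : ρ ^ 2 ∈ 𝒞₁ (c * c') := mem_cent1.2 (by
        calc _ = ρ * (ρ * (c * c') * ρ⁻¹) * ρ := by rw [sq]; group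
          _ = _ := by rw [q, sq]; group)
      exact mem_cent1.1 (mem_of_pow_mem (Nat.coprime_two_right.2 ro)
        (pow_orderOf_eq_one ρ ▸ one_mem _) this))
  have br : ∀ x ∈ T, x * y * x⁻¹ * y⁻¹ = y * x * y⁻¹ * x := fun x hx => by
    rw [inv_eq_of_mul_eq_one_right (sq1 he hx), ← he.abel.comm hx (conj_mem_of_norm yA hx)]; group
  have bv : ∀ x ∈ T, y * (x * v) * y⁻¹ * (x * v) = x * y * x⁻¹ * y⁻¹ * (y * v * y⁻¹ * v⁻¹) :=
    fun x hx => by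
      rw [br x hx, iv]
      calc _ = y * x * y⁻¹ * (y * v * y⁻¹ * x) * v := by group
        _ = _ := by rw [← mem_cent.1 (Lc.PA l he (conj_mem_of_norm yG.1 (vP l))) x hx]; group
  have xv : ∀ x ∈ T, x * v ∈ P := fun x hx => mul_mem (Lc.TP l hx) (vP l)
  have inj : Set.InjOn ψ I := by
    rintro _ ⟨x, hx, rfl⟩ _ ⟨x', hx', rfl⟩ e
    have m := (br_mem he yA yy hx).1
    have m' := (br_mem he yA yy hx').1
    rcases ker _ m _ m' e with i | i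
    · exact (mul_eq_one_iff_eq_inv.1 i).trans (inv_eq_of_mul_eq_one_right (sq1 he m'))
    refine (nf _ (xv _ (mul_mem hx hx')) (fun j => Lc.vA l
      ((T.mul_mem_cancel_left (mul_mem hx hx')).1 j)) (mem_cent1.2 ?_)).elim
    have q := bv _ (mul_mem hx hx')
    rw [show x * x' * y * (x * x')⁻¹ * y⁻¹ = x * (x' * y * x'⁻¹ * y⁻¹) * (y * x⁻¹ * y⁻¹) by group,
      he.abel.comm hx m', show ∀ w, w * x * (y * x⁻¹ * y⁻¹) = w * (x * y * x⁻¹ * y⁻¹) by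
        intro w; group, ← he.abel.comm m m', i, sq1 he (dm y yG), mul_eq_one_iff_eq_inv,
      inv_eq_of_mul_eq_one_right (Vsq l he (x := x * x' * v) (l.sup ▸ xv _ (mul_mem hx hx')))] at q
    exact mul_inv_eq_iff_eq_mul.1 q
  have cy : y * y ∈ T ⊓ 𝒞₁ y := ⟨y0, mem_cent1.2 (mul_assoc _ _ _)⟩
  obtain ⟨_, ⟨x, hx, rfl⟩, q⟩ := ((Set.toFinite I).injOn_iff_bijOn_of_mapsTo
    (fun w hw => ψI w (IC w hw))).1 inj |>.surjOn (ψI _ cy)
  have m := (br_mem he yA yy hx).1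
  rcases ker _ m _ y0 q with i | i
  · exact fl' x (Lc.TP l hx) (by
      rw [← br x hx, mul_eq_one_iff_eq_inv.1 i, inv_eq_of_mul_eq_one_right (sq1 he y0)])
  · exact fl' _ (xv x hx) (by rw [bv x hx, ← i, ← mul_assoc, sq1 he m, one_mul])

end Lg

theorem taskG2 : T4.G2 := fun G _ _ S A M u P T R v k l => by
  obtain ⟨c, hc, hv⟩ := SetLike.not_le_iff_exists.1 (show ¬ C3 A P T k ≤ 𝒞₁ v from
    (em (U3G A T k)).elim (Lg.caseU l u.elem u.four u.all) (Lg.caseB l u.elem u.four u.all u.fld))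
  exact Lg.caseA l u.elem u.four hc hv

end Cfsg.GS.Gx
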