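import Cfsg.Agent.GS.G7

/-! Task `Fld` of `GS/T4`, part 2. -/

set_option autoImplicit false
set_option linter.unusedSectionVars false

namespace Cfsg.GS.Gx

open Subgroup Cfsg.L0 Cfsg.H8 Cfsg.FT Cfsg.BS Cfsg.BS.R Cfsg.GS.T3 Cfsg.GS.T4 Cfsg.GS.Ax MulAction
open Cfsg.GS.Nx
open scoped commutatorElement

namespace GG
variable {G Ω : Type} [Group G] [Finite G] [MulAction G Ω] {A B S T T1 R X : Subgroup G}
  {a b c e f g k t t' x z : G} {α β γ δ : Ω} (h : GG S A α)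
include h

theorem T1_cent (mo : 𝒮 α ≤ O2 (𝒮 α) ⊔ 𝒩 A) (hz : Ivo z) (hS : z ∈ S) (h1 : T1 ≤ S)
    (kz : k ∈ 𝒞₁ z) (ko : Odd (orderOf k)) (h4 : 4 ≤ ♯(A ⊓ 𝒞₁ z)) (u : U3G (A ⊓ 𝒞₁ z) T1 k) :
    T1 ≤ 𝒞 A := fun y hy => by
  obtain ⟨F, _, _, π, ι, m, o⟩ := co3_of u
  obtain ⟨Q, _, _, f, -, hk⟩ := exists_quo0 (Op_nrm {2}ᶜ (𝒮 α))
  have SM := h.sylM.le
  have hi : up f ⊥ ⊓ S = ⊥ := hk ▸ inf_eq_bot_of_cop
    (cop_of_pgroup Nat.prime_two h.syl.isPGroup (not_dvd_Op_compl Nat.prime_two _)).symm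
  have nA : ∀ g, f g ∈ 𝒩 (down f A) := fun g => by
    obtain ⟨p, hp, n, hn, e⟩ := (mem_sup_l (h.nA.trans (Op_nrm {2}ᶜ (𝒮 α)).norm)).1 (mo g.2)
    obtain ⟨p1, p2⟩ := mem_up.1 (hk.ge hp)
    rw [show g = ⟨p, p1⟩ * ⟨n, h.nA hn⟩ from Subtype.ext e.symm, map_mul, mem_bot.1 p2, one_mul]
    exact down_le_norm f le_rfl (mem_down_of_mem (x := ⟨n, h.nA hn⟩) hn)
  have wM : k ^ (♯(A ⊓ 𝒞₁ z) - 1) ∈ 𝒮 α :=
    h.nB inf_le_left (ne_bot_of_card (by omega)) (pow_mem o.kA _)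
  have he := h.elem.down f
  have wB : f ⟨_, wM⟩ ∈ 𝒞 (down f A ⊓ 𝒞₁ (f ⟨z, SM hS⟩)) := mem_cent.2 (by
    rintro _ ⟨⟨a, ha, rfl⟩, e⟩
    have := Ax.eq_of_f hi (x := a * ⟨z, SM hS⟩) (y := ⟨z, SM hS⟩ * a) (mul_mem (h.sc.le ha) hS)
      (mul_mem hS (h.sc.le ha)) (by rw [map_mul, map_mul]; exact mem_cent1.1 e)
    rw [← map_mul, ← map_mul]
    exact congrArg f (Subtype.ext (mem_cent.1 o.w_cent a ⟨ha, mem_cent1.2 this⟩)))
  have wA : f ⟨_, wM⟩ ∈ 𝒞 (down f A) := mem_cent.2 fun a ha => by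
    have q := stab_br he (nA _) (by
      rw [← map_mul, show (⟨z, SM hS⟩ : 𝒮 α) * ⟨z, SM hS⟩ = 1 from Subtype.ext hz.2, map_one]
      exact one_mem _) (nA _) (mem_cent1.2 (by
        rw [← map_mul, ← map_mul]
        exact congrArg f (Subtype.ext (mem_cent1.1 (pow_mem kz _))))) wB ha
    exact (Bx.odd_fix (ko.of_dvd_nat ((orderOf_map_dvd f _).trans
      ((orderOf_coe _).symm.dvd.trans (orderOf_pow_dvd _)))) rfl (mem_cent.1 wB _ q).symm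
      (sq1 he q.1)).symm
  obtain ⟨x, hx, b, hb, e⟩ := o.w_onto h4 hy
  have yA : f ⟨y, SM (h1 hy)⟩ ∈ 𝒞 (down f A) := by
    rw [show (⟨y, SM (h1 hy)⟩ : 𝒮 α) = ⟨b, h.AM hb.1⟩ * (⟨_, wM⟩ * (⟨x, SM (h1 hx)⟩ * (⟨_, wM⟩)⁻¹ *
      (⟨x, SM (h1 hx)⟩)⁻¹)) from Subtype.ext (e.trans (by simp only [coe_mul, coe_inv, mul_assoc]))]
    simp only [map_mul, map_inv]
    exact mul_mem (he.abel (mem_down_of_mem (x := ⟨b, h.AM hb.1⟩) hb.1)) (mul_mem wA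
      (conj_mem_of_norm (norm_le_norm_cent _ (nA _)) (inv_mem wA)))
  refine mem_cent.2 fun a ha => Ax.eq_of_f hi (x := ⟨a, h.AM ha⟩ * ⟨y, SM (h1 hy)⟩)
    (y := ⟨y, SM (h1 hy)⟩ * ⟨a, h.AM ha⟩) (mul_mem (h.sc.le ha) (h1 hy))
    (mul_mem (h1 hy) (h.sc.le ha)) ?_
  rw [map_mul, map_mul]
  exact mem_cent.1 yA _ (mem_down_of_mem (x := ⟨a, h.AM ha⟩) ha)

theorem semireg (h0 : ∀ v ∈ 𝒞 A, v * v = 1 → v ∈ A) (hX : IsPGroup 2 X) (h1 : X ≤ 𝒞 A) {n : ℕ}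
    (hn : Nat.card Ω = n + 1) : ♯X ∣ n := by
  have := h.finite
  simpa using Xx.burn X ∅ 0 n hn (fun _ e => e.elim) fun x hx x1 _ => by
    obtain ⟨j, hj⟩ := isPGroup_iff_forall.1 hX x hx
    obtain ⟨y, hy, i⟩ := exists_ivo_zpowers (x := x) fun o => x1 (mem_bot.1 (mem_of_pow_mem
      ((Nat.coprime_two_right.2 o).pow_right j) (pow_orderOf_eq_one x ▸ one_mem _) (hj ▸ one_mem _)))
    rw [← Set.ncard_singleton α]
    congr 1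
    ext β
    exact ⟨fun e => h.uq0 (h0 y (zpowers_le.2 (h1 hx) hy) i.2) i.1 (zpowers_le.2 (mem_St.2 e) hy),
      fun e => e ▸ h.CM (h1 hx)⟩

theorem many_sq (hB : B ≤ A) (h4 : 4 ≤ ♯B) (u : U3G B T1 k) (h1 : T1 ≤ 𝒞 A) (h2 : T1 ⊓ A ≤ B)
    (hX : IsSyl 2 X (𝒞 A)) (h3 : T1 ⊔ A ≤ X) : 3 * ♯A * (♯A - 1) ≤ ♯X := by
  have : Fact (Nat.Prime 2) := ⟨Nat.prime_two⟩
  obtain ⟨F, _, _, π, ι, m, o⟩ := co3_of u
  have c1 := o.w_ne h4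
  have c2 := o.norm_w
  generalize m ^ (♯B - 1) = c at c1 c2
  have c0 : c ≠ 0 := fun e => by rw [e] at c2; simp at c2
  have c3 : c * c ≠ 1 := fun e => c1 (by
    have : (c + 1) ^ 2 = 0 := by linear_combination e + o.add_self c + o.add_self 1
    linear_combination (pow_eq_zero_iff two_ne_zero).1 this - o.add_self 1)
  obtain ⟨t0, m0, e0⟩ := o.onto 1
  obtain ⟨t1, m1, e1⟩ := o.onto c
  obtain ⟨t2, m2, e2⟩ := o.onto (c * c)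
  have s1 : t1 * t1 = t0 * t0 := (co_sq o m1 m0).1 (by rw [e1, e0, c2, one_pow])
  have s2 : t2 * t2 = t0 * t0 := (co_sq o m2 m0).1 (by rw [e2, e0, mul_pow, c2, one_pow, one_mul])
  have bA := hB (o.sq t0 m0)
  have b1 : t0 * t0 ≠ 1 := fun e => one_ne_zero (e0 ▸ (o.ker t0 m0).2 (o.mem_of_sq m0 e))
  have sub : ∀ t ∈ T1, t * t = t0 * t0 → {w | t⁻¹ * w ∈ A} ⊆ {x | x ∈ X ∧ x * x = t0 * t0} :=
    fun t ht e w hw => by
      have q : w = t * (t⁻¹ * w) := (mul_inv_cancel_left _ _).symm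
      change t⁻¹ * w ∈ A at hw
      generalize t⁻¹ * w = a at hw q
      subst q
      exact ⟨h3 (mul_mem_sup ht hw), by
        rw [mul_assoc, ← mul_assoc a, mem_cent.1 (h1 ht) a hw, mul_assoc t a, sq1 h.elem hw, mul_one, e]⟩
  have dj : ∀ t ∈ T1, ∀ t' ∈ T1, π t ≠ π t' → Disjoint {w | t⁻¹ * w ∈ A} {w | t'⁻¹ * w ∈ A} :=
    fun t ht t' ht' n => Set.disjoint_left.2 fun w hw hw' => n (by
      have := (o.eq_iff (inv_mem ht) (inv_mem ht')).2 (h2 ⟨T1.mul_mem (T1.inv_mem ht)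
        (T1.inv_mem (T1.inv_mem ht')),
        by simpa using A.mul_mem hw (A.inv_mem hw')⟩)
      rwa [o.π_inv ht, o.π_inv ht'] at this)
  have lb : 3 * ♯A ≤ {x | x ∈ X ∧ x * x = t0 * t0}.ncard := by
    have := Set.ncard_le_ncard (Set.union_subset (Set.union_subset (sub t0 m0 rfl) (sub t1 m1 s1))
      (sub t2 m2 s2))
    rw [Set.ncard_union_eq (Set.disjoint_union_left.2 ⟨dj _ m0 _ m2 (by rw [e0, e2]; exact c3.symm),
      dj _ m1 _ m2 (by rw [e1, e2]; exact fun e => c1 (mul_left_cancel₀ c0 (by rw [← e, mul_one])))⟩),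
      Set.ncard_union_eq (dj _ m0 _ m1 (by rw [e0, e1]; exact c1.symm)), Bx.ncard_coset,
      Bx.ncard_coset, Bx.ncard_coset] at this
    omega
  have cf := Xx.card_fib {x | x ∈ X ∧ x * x ∈ A ∧ x * x ≠ 1} {z | z ∈ A ∧ z ≠ 1}
    (fun x a => x * x = a) {x | x ∈ X ∧ x * x = t0 * t0}.ncard (fun x hx => ⟨_, hx.2, rfl⟩)
    (fun x _ a _ b _ e e' => e.symm.trans e') fun a ha => by
      obtain ⟨n, hn, e⟩ := h.trA bA ha.1 b1 ha.2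
      obtain ⟨d, hd, g, hg, rfl⟩ := hX.frattini (norm_le_norm_cent A hn)
      have e' : g * (t0 * t0) * g⁻¹ = a := by
        calc _ = d⁻¹ * (d * g * (t0 * t0) * (d * g)⁻¹ * d) := by group
          _ = _ := by rw [e, mem_cent.1 hd a ha.1, inv_mul_cancel_left]
      refine Xx.ncard_cj g fun x => ?_
      have q : g * x * g⁻¹ * (g * x * g⁻¹) = a ↔ x * x = t0 * t0 := by
        rw [← e', show g * x * g⁻¹ * (g * x * g⁻¹) = g * (x * x) * g⁻¹ by group, mul_left_inj,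
          mul_right_inj]
      exact ⟨fun ⟨⟨a1, _⟩, a2⟩ => ⟨by simpa [mul_assoc] using conj_mem_of_norm' hg a1, q.1 a2⟩,
        fun ⟨a1, a2⟩ => ⟨⟨conj_mem_of_norm hg a1, q.2 a2 ▸ ha⟩, q.2 a2⟩⟩
  rw [Bx.ncard_sharp] at cf
  exact (Nat.mul_le_mul_right _ lb).trans (cf ▸ Set.ncard_le_ncard fun x hx => hx.1)

theorem fld0 (mo : 𝒮 α ≤ O2 (𝒮 α) ⊔ 𝒩 A)
    (fl : ∀ z ∈ 𝒩 A, z * z = 1 → z ∈ 𝒞 A ∨ ♯A = ♯(A ⊓ 𝒞₁ z) ^ 2)
    (h0 : ∀ v ∈ 𝒞 A, v * v = 1 → v ∈ A) (hz : Ivo z) (hI : ¬ InI A z) (hS : z ∈ S)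
    (hT : IsSyl 2 (S ⊓ 𝒞₁ z) (𝒞₁ z)) : False := by
  have : Fact (Nat.Prime 2) := ⟨Nat.prime_two⟩
  have := h.finite
  have zA := h.SN' hS
  have zc : z ∉ 𝒞 A := fun e => hI (inI_of_mem (h0 z e hz.2) hz.1)
  have hq := (fl z zA hz.2).resolve_left zc
  have h8 := h.eight zA hz.2 zc
  obtain ⟨j, hj⟩ := (h.elem.mono (inf_le_left : A ⊓ 𝒞₁ z ≤ A)).exists_card Nat.prime_two
  have h4 : 4 ≤ ♯(A ⊓ 𝒞₁ z) := by
    rw [hq, hj] at h8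
    rw [hj]
    rcases j with _ | _ | j
    · omega
    · omega
    · rw [pow_add, pow_add]; have := Nat.one_le_two_pow (n := j); omega
  obtain ⟨T1, R, k, l⟩ := h.ln kG (h.cent1_ne hz.1) hT inf_le_left (h.sc.inf (le_top : 𝒞₁ z ≤ ⊤)) h4
    (h.cent_not_le hz hI α)
  obtain ⟨b, hb, b1⟩ := exists_ne1 (A := A ⊓ 𝒞₁ z) (by omega)
  obtain ⟨a, -, e⟩ := onto_of_sq h.elem zA (hz.2 ▸ one_mem _) hq hb
  have c := Xx.GB.cnt ⟨h.toUG, h.tr⟩ mo hz hI zA hb.1 b1 (mem_cent1.1 hb.2) (g := a)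
    (by rw [← mem_cent1.1 hb.2, ← e, inv_mul_cancel_right])
  have c2 := Set.ncard_add_ncard_compl {γ : Ω | z • γ = γ}
  rw [h.ncard_fix hz.2 (h.nA zA), l.idx] at c c2
  change _ + {γ : Ω | z • γ ≠ γ}.ncard = _ at c2
  generalize {γ : Ω | z • γ ≠ γ}.ncard = x at c c2
  obtain ⟨p, hp⟩ : ∃ p, ♯(A ⊓ 𝒞₁ z) = p + 1 := ⟨♯(A ⊓ 𝒞₁ z) - 1, by omega⟩
  have po : Odd p := Nat.not_even_iff_odd.1 (Nat.even_add_one.1 (hp ▸ hj ▸
    (Nat.even_pow' fun i => by rw [hj, i] at h4; omega).2 even_two))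
  rw [hq, hp, show (p + 1) ^ 2 - 1 = p * (p + 2) by rw [show (p + 1) ^ 2 = p * (p + 2) + 1 by ring]; rfl,
    Nat.add_sub_cancel, Nat.add_sub_cancel] at c
  replace c : x * (p + 2) = ♯T1 * (♯T1 + 1) * p :=
    Nat.eq_of_mul_eq_mul_left (show 0 < p by omega) (by linear_combination c)
  rcases l.ty.2 with e | e | e
  · rw [e, hp] at c c2
    have : x = (p + 1) * p := Nat.eq_of_mul_eq_mul_right (show 0 < p + 2 by omega)
      (by linear_combination c)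
    exact (h.l2c mo (by rw [← c2, hq, hp, this]; ring)).main fl hz hI hS l
  · rw [e.card, hp] at c
    have d : p + 2 ∣ 8 := by
      have d1 : ((p + 2 : ℕ) : ℤ) ∣ ((p + 1) ^ 2 * ((p + 1) ^ 2 + 1) * p : ℕ) :=
        Int.natCast_dvd_natCast.2 ⟨x, by rw [← c, mul_comm]⟩
      have d2 : ((p + 2 : ℕ) : ℤ) ∣ ((p + 1) ^ 2 * ((p + 1) ^ 2 + 1) * p : ℕ) + 4 :=
        ⟨p ^ 4 + 2 * p ^ 3 + 3 * p ^ 2 + 2, by push_cast; ring⟩
      exact Int.natCast_dvd_natCast.1 (((dvd_add_right d1).1 d2).mul_right 2)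
    have := ((Nat.coprime_two_right.2 (po.add_even even_two)).pow_right 3).eq_one_of_dvd d
    omega
  · have T1S : T1 ≤ S := l.TS.trans inf_le_left
    have tc := h.T1_cent mo hz hS T1S l.kH l.ty.1.odd h4 e
    obtain ⟨X, x1, x2⟩ := exists_isSyl_ge (H := 𝒞 A) (h.syl.isPGroup.to_le (sup_le T1S h.sc.le))
      (sup_le tc h.elem.abel)
    have lb := h.many_sq inf_le_left h4 e tc (fun y hy => ⟨hy.2, (l.TS hy.1).2⟩) x1 x2
    rw [u3g_card e, hp] at c c2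
    have : x = (p + 1) ^ 3 * (p ^ 2 + p + 1) * p := Nat.eq_of_mul_eq_mul_right
      (show 0 < p + 2 by omega) (by linear_combination c)
    obtain ⟨s, rfl⟩ := po
    have d := h.semireg h0 x1.isPGroup x1.le (n := 2 * (2 * s + 1 + 1) ^ 4 * (2 * (s ^ 2 + s) + 1))
      (by rw [← c2, this]; ring)
    obtain ⟨i, hi⟩ := IsPGroup.iff_card.1 x1.isPGroup
    rw [hi] at d lb
    have := Nat.le_of_dvd (by positivity)
      (((Nat.coprime_two_left.2 ⟨_, rfl⟩).pow_left i).dvd_of_dvd_mul_right d)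
    rw [hq, hp] at lb h8
    generalize hr : (2 * s + 1 + 1) ^ 2 = q at *
    rw [show (2 * s + 1 + 1) ^ 4 = q ^ 2 by rw [← hr]; ring] at this
    obtain ⟨q, rfl⟩ : ∃ q', q = q' + 1 := ⟨q - 1, by omega⟩
    rw [Nat.add_sub_cancel] at lb
    nlinarith

end GG

theorem taskFld : T4.Fld := fun G _ _ S A M u h0 z hz => by
  have : Fact (Nat.Prime 2) := ⟨Nat.prime_two⟩
  by_contra hI
  obtain ⟨h, e⟩ := gg_of u.toUG
  obtain ⟨T, t1, t2⟩ := exists_isSyl_ge (card_zp2 hz.2) (zpowers_le.2 (self_mem_cent1 z))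
  obtain ⟨g, -, q⟩ := u.syl.exists_cj_le t1.isPGroup le_top
  have t3 := cj_cent1 g z ▸ t1.cj g
  exact h.fld0 (e.symm ▸ u.mo) u.fld h0 (hz.conj g) (fun i => hI (inI_conj' i))
    (q (conj_mem_cj (t2 (mem_zpowers z))))
    (t3.of_ge u.syl.isPGroup.to_inf_left (le_inf q t3.le) inf_le_right)

end Cfsg.GS.Gx
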