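import Cfsg.Agent.GS.T6

/-! `RK2`: the fixed points of a non-cyclic elementary `2`-group `A` on `[Y,A]`. -/

set_option autoImplicit false

namespace Cfsg.GS.IRx

open Subgroup Cfsg.L0 Cfsg.H8 Cfsg.FT Cfsg.BS Cfsg.BS.R Cfsg.GS.T3 Cfsg.GS.T4 Cfsg.GS.SFx
open scoped commutatorElement

/-- the hypotheses of `RK2` -/
structure Rk {G : Type} [Group G] (A Y D : Subgroup G) : Prop where
  el : Elem 2 A
  big : 2 < ♯A
  odd : Odd ♯Y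
  nY : A ≤ 𝒩 Y
  nD : Y ⊓ 𝒞 A ≤ 𝒩 D
  loc : ∀ a ∈ A, a ≠ 1 → ⁅Y ⊓ 𝒞₁ a, A⁆ ⊓ 𝒞 A ≤ D

variable {G : Type} [Group G] [Finite G] {A D M N Y : Subgroup G} {a : G}

omit [Finite G] in
theorem nCa (hA : Elem 2 A) (hn : A ≤ 𝒩 Y) (ha : a ∈ A) : A ≤ 𝒩 (Y ⊓ 𝒞₁ a) :=
  le_norm_inf hn (le_norm_cent1 (hA.abel.trans (cent_le_cent1 ha)))

/-- `[Y,A]` is generated by the `[C_Y(a),A]` -/
theorem genY (hA : Elem 2 A) (h2 : 2 < ♯A) (ho : Odd ♯Y) (hn : A ≤ 𝒩 Y)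
    (h : ∀ a ∈ A, a ≠ 1 → ⁅Y ⊓ 𝒞₁ a, A⁆ ≤ M) : ⁅Y, A⁆ ≤ M := by
  set W := closure {x | ∃ a ∈ A, a ≠ 1 ∧ x ∈ ⁅Y ⊓ 𝒞₁ a, A⁆} with hW
  have nW : ∀ H, (∀ a ∈ A, H ≤ 𝒩 ⁅Y ⊓ 𝒞₁ a, A⁆) → H ≤ 𝒩 W := fun H hH =>
    le_norm_closure fun g hg x ⟨a, a1, a2, a3⟩ => ⟨a, a1, a2, conj_mem_of_norm (hH a a1 hg) a3⟩
  have aW : A ≤ 𝒩 W := nW A fun a _ => right_le_norm_comm _ _
  have cW : Y ⊓ 𝒞 A ≤ 𝒩 W := nW _ fun a ha => le_norm_comm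
    (le_norm_of_le (inf_le_inf_left _ (cent_le_cent1 ha))) (le_norm_of_le_cent inf_le_right)
  have e : Y ≤ W ⊔ (Y ⊓ 𝒞 A) := gen1 hA h2 ho hn fun a ha =>
    (caE hA (odd_of_le ho inf_le_left) (nCa hA hn ha.1)).comm_sup_cent.ge.trans
      (sup_le_sup (fun x hx => subset_closure ⟨a, ha.1, ha.2, hx⟩) (inf_le_inf_right _ inf_le_left))
  refine (comm_mono e le_rfl).trans ((sup_comm_of_cent inf_le_right
    (le_norm_comm cW (le_norm_of_le_cent inf_le_right))).le.trans ((comm_le_left aW).trans ?_))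
  exact (closure_le _).2 fun x ⟨a, a1, a2, a3⟩ => h a a1 a2 a3

namespace Rk

omit [Finite G] in
theorem sub (h : Rk A Y D) (h1 : M ≤ Y) (h2 : A ≤ 𝒩 M) : Rk A M D :=
  ⟨h.el, h.big, odd_of_le h.odd h1, h2, (inf_le_inf_right _ h1).trans h.nD, fun a ha a1 =>
    (inf_le_inf_right _ (comm_mono (inf_le_inf_right _ h1) le_rfl)).trans (h.loc a ha a1)⟩

omit [Finite G] in
theorem cut (h : Rk A Y D) : Rk A Y (D ⊓ (Y ⊓ 𝒞 A)) :=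
  ⟨h.el, h.big, h.odd, h.nY, le_norm_inf h.nD (le_norm _), fun a ha a1 => le_inf (h.loc a ha a1)
    (inf_le_inf_right _ ((comm_le_left (nCa h.el h.nY ha)).trans inf_le_left))⟩

theorem quo (h : Rk A Y D) {Q : Type} [Group Q] [Finite Q] {H : Subgroup G} (f : H →* Q)
    (hA : A ≤ H) (hY : Y ≤ H) (hk : up f ⊥ ≤ Y) : Rk (down f A) (down f Y) (down f D) := by
  refine ⟨h.el.down f, ?_, odd_down f h.odd, down_le_norm f h.nY, ?_, fun b hb b1 => ?_⟩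
  · rw [card_down_eq hA (inf_eq_bot_of_cop (cop2 h.el (odd_of_le h.odd hk)))]; exact h.big
  · rw [← (caE h.el h.odd h.nY).down_cent f hA]; exact down_le_norm f h.nD
  obtain ⟨a, ha, rfl⟩ := mem_down.1 hb
  have a1 : (a : G) ≠ 1 := fun q => b1 (by rw [show a = 1 from Subtype.ext q, map_one])
  have z : zpowers (a : G) ≤ A := zpowers_le.2 ha
  have l : ⁅Y ⊓ 𝒞₁ (a : G), A⁆ ≤ Y := (comm_le_left (nCa h.el h.nY ha)).trans inf_le_left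
  rw [← cent_zpowers, ← down_zpowers, ← ((caE h.el h.odd h.nY).subl z).down_cent f (z.trans hA),
    cent_zpowers, ← down_commutator f (inf_le_left.trans hY) hA,
    ← (caE h.el (odd_of_le h.odd l) (right_le_norm_comm _ _)).down_cent f hA]
  exact down_mono f (h.loc a ha a1)

/-- abelian normal subgroups -/
theorem ab (h : Rk A Y D) (hN : N ⊴ Y) (hn : A ≤ 𝒩 N) (ab : Abel N) (ha : a ∈ A) (a1 : a ≠ 1) :
    ⁅N, ⁅Y ⊓ 𝒞₁ a, A⁆⁆ ≤ (N ⊓ D) ⊔ ⁅N, A⁆ := by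
  have z : zpowers a ≤ A := zpowers_le.2 ha
  have l : ⁅Y ⊓ 𝒞₁ a, A⁆ ≤ Y ⊓ 𝒞₁ a := comm_le_left (nCa h.el h.nY ha)
  have oN := odd_of_le h.odd hN.le
  have n0 : N ≤ 𝒩 ((N ⊓ D) ⊔ ⁅N, A⁆) := ab.le_norm (sup_le inf_le_left (comm_le_left hn))
  have lN : ⁅Y ⊓ 𝒞₁ a, A⁆ ≤ 𝒩 N := l.trans (inf_le_left.trans hN.norm)
  refine (comm_mono ((caE h.el oN hn).subl z).comm_sup_cent.ge le_rfl).trans
    (H7.sup_commutator_le ((comm_le_left (z.trans hn)).trans n0) (inf_le_left.trans n0) ?_ ?_)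
  · refine (comm_le_left (le_norm_comm lN (le_norm_of_le_cent ?_))).trans
      ((comm_mono le_rfl z).trans le_sup_right)
    rw [cent_zpowers]; exact l.trans inf_le_right
  rw [cent_zpowers]
  have u : ⁅N ⊓ 𝒞₁ a, ⁅Y ⊓ 𝒞₁ a, A⁆⁆ ≤ N ⊓ ⁅Y ⊓ 𝒞₁ a, A⁆ :=
    le_inf ((comm_mono inf_le_left le_rfl).trans (comm_le_left lN))
      (comm_le_right ((inf_le_inf_right _ hN.le).trans (left_le_norm_comm _ _)))
  refine u.trans ((caE h.el (odd_of_le oN inf_le_left)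
    (le_norm_inf hn (right_le_norm_comm _ _))).comm_sup_cent.ge.trans (sup_le ?_ ?_))
  · exact (comm_mono inf_le_left le_rfl).trans le_sup_right
  · exact (le_inf (inf_le_left.trans inf_le_left)
      ((inf_le_inf_right _ inf_le_right).trans (h.loc a ha a1))).trans le_sup_left

/-- the last step -/
theorem last (h : Rk A Y D) (e : ⁅Y, A⁆ = Y) (hz : ∀ N, N ⊴ Y → A ≤ 𝒩 N → Abel N →
    N ≤ 𝒞 Y ∧ N ≤ 𝒞 A ∧ N ⊓ D = ⊥) : Y = ⊥ := by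
  by_cases ab : Y ≤ 𝒞 Y
  · rw [← e, comm_eq_bot_iff']; exact (hz Y (Nrm.refl Y) h.nY ab).2.1
  obtain ⟨M, ⟨m1, m2, m3⟩, mm⟩ := exists_min_card'
    (S := fun M : Subgroup G => M ⊴ Y ∧ A ≤ 𝒩 M ∧ ¬ M ≤ 𝒞 Y) ⟨Y, Nrm.refl Y, h.nY, ab⟩
  have oM := odd_of_le h.odd m1.le
  have d : ⁅M, M⁆ ≤ 𝒞 Y := by
    by_contra q
    exact (card_lt ((Sol.der_lt (oddOrder M oM)) fun e => m3 (e ▸ bot_le))).not_ge
      (mm _ ⟨m1.der, le_norm_comm m2 m2, q⟩)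
  obtain ⟨-, z2, z3⟩ := hz (𝒵 Y) (ctr_nrm Y) (h.nY.trans (norm_le_norm_ctr Y)) (abel_ctr Y)
  have d' : ⁅M, M⁆ ≤ 𝒵 Y := le_inf ((der_le M).trans m1.le) d
  obtain ⟨-, y2, -⟩ := hz (𝒵 M) m1.ctr (m2.trans (norm_le_norm_ctr M)) (abel_ctr M)
  have k : M ≤ 𝒞 A := gen1 h.el h.big oM m2 fun a ha => by
    have z : zpowers a ≤ A := zpowers_le.2 ha.1
    have n := nCa h.el m2 ha.1
    have l : ⁅M ⊓ 𝒞₁ a, A⁆ ≤ M ⊓ 𝒞₁ a := comm_le_left n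
    refine cent_symm (cent_of_stable n (cop2 h.el (odd_of_le oM inf_le_left))
      (le_inf (l.trans inf_le_left) ?_) (cent_symm y2))
    refine cent_symm (((caE h.el oM m2).subl z).comm_sup_cent.ge.trans (sup_le ?_ ?_))
    · refine (three_subgroups_cent ?_ ?_).trans (cent_anti (l.trans le_rfl))
      · rw [comm_eq_bot_iff.2 (by rw [cent_zpowers]; exact inf_le_right)]; exact bot_le
      · exact (comm_mono inf_le_left le_rfl).trans (d'.trans (z2.trans (cent_anti z)))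
    rw [cent_zpowers, ← comm_eq_bot_iff', eq_bot_iff, ← z3]
    have u : ⁅M ⊓ 𝒞₁ a, ⁅M ⊓ 𝒞₁ a, A⁆⁆ ≤ 𝒵 Y :=
      (comm_mono inf_le_left (l.trans inf_le_left)).trans d'
    exact le_inf u ((le_inf ((comm_le_right (left_le_norm_comm _ _)).trans
      (comm_mono (inf_le_inf_right _ m1.le) le_rfl)) (u.trans z2)).trans (h.loc a ha.1 ha.2))
  refine absurd (cent_symm (e.ge.trans (three_subgroups_cent ?_ ?_))) m3
  · rw [comm_eq_bot_iff.2 k]; exact bot_le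
  · exact (m1.comm_le le_rfl).trans k

theorem main (n : ℕ) : ∀ (G : Type) [Group G] [Finite G] (A Y D : Subgroup G), ♯Y < n →
    Rk A Y D → ⁅Y, A⁆ ⊓ 𝒞 A ≤ D := by
  induction n with
  | zero => exact fun _ _ _ _ _ _ h => absurd h (Nat.not_lt_zero _)
  | succ n ih =>
  intro G _ _ A Y D' hn h'
  have l : ⁅Y, A⁆ ≤ Y := comm_le_left h'.nY
  rcases l.lt_or_eq with q | e
  · have := ih G A _ D' ((card_lt q).trans_le (Nat.le_of_lt_succ hn))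
      (h'.sub l (right_le_norm_comm _ _))
    rwa [comm_comm h'.nY (cop2 h'.el h'.odd)] at this
  have h := h'.cut
  refine le_trans ?_ (inf_le_left (b := Y ⊓ 𝒞 A))
  have dl : D' ⊓ (Y ⊓ 𝒞 A) ≤ Y ⊓ 𝒞 A := inf_le_right
  generalize D' ⊓ (Y ⊓ 𝒞 A) = D at h dl
  by_contra hc
  suffices q : Y = ⊥ from hc (by rw [q]; simp)
  refine h.last e fun N n1 n2 n3 => ?_
  have g : ∀ M, (∀ a ∈ A, a ≠ 1 → ⁅Y ⊓ 𝒞₁ a, A⁆ ≤ M) → Y ≤ M := fun M hM =>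
    e.ge.trans (genY h.el h.big h.odd h.nY hM)
  have s : (N ⊓ D) ⊔ ⁅N, A⁆ ≤ N := sup_le inf_le_left (comm_le_left n2)
  by_cases b : (N ⊓ D) ⊔ ⁅N, A⁆ = ⊥
  · exact ⟨cent_symm (g _ fun a ha a1 => comm_eq_bot_iff.1 (eq_bot_of_le b (h.ab n1 n2 n3 ha a1))),
      comm_eq_bot_iff'.1 (eq_bot_of_le b le_sup_right), eq_bot_of_le b le_sup_left⟩
  obtain ⟨Q, _, _, f, -, hk⟩ := exists_quo0 (nrm_norm ((N ⊓ D) ⊔ ⁅N, A⁆))
  have yH := g _ fun a ha a1 => le_norm_of_comm_le' s (h.ab n1 n2 n3 ha a1)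
  have aH : A ≤ 𝒩 ((N ⊓ D) ⊔ ⁅N, A⁆) := le_norm_sup
    (le_norm_of_le_cent (cent_symm (inf_le_right.trans (dl.trans inf_le_right))))
    (right_le_norm_comm _ _)
  have kY : up f ⊥ ≤ Y := hk.le.trans (s.trans n1.le)
  have r := ih Q _ _ _ ((card_down_lt yH (by rwa [inf_eq_left.2 kY, hk])).trans_le
    (Nat.le_of_lt_succ hn)) (h.quo f aH yH kY)
  rw [← down_commutator f yH aH, e, ← (caE h.el h.odd h.nY).down_cent f aH,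
    down_le_down_iff (inf_le_left.trans yH) (dl.trans (inf_le_left.trans yH)), hk, ← sup_assoc,
    sup_eq_left.2 (inf_le_right : N ⊓ D ≤ D)] at r
  refine absurd ((le_inf (e.symm ▸ r) inf_le_right).trans ?_) hc
  rw [dedekind_l (dl.trans inf_le_right) (dl.trans (le_norm_comm (inf_le_left.trans n1.norm)
    (le_norm_of_le_cent inf_le_right))), n3.comm_inf_cent n2 (cop2 h.el (odd_of_le h.odd n1.le)),
    sup_bot_eq]

end Rk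

/-- `RK2` for every non-cyclic elementary `2`-group -/
theorem rk2' (hA : Elem 2 A) (h2 : 2 < ♯A) (ho : Odd ♯Y) (hn : A ≤ 𝒩 Y) (hD : Y ⊓ 𝒞 A ≤ 𝒩 D)
    (h : ∀ a ∈ A, a ≠ 1 → ⁅Y ⊓ 𝒞₁ a, A⁆ ⊓ 𝒞 A ≤ D) : ⁅Y, A⁆ ⊓ 𝒞 A ≤ D :=
  Rk.main _ G A Y D (Nat.lt_succ_self _) ⟨hA, h2, ho, hn, hD, h⟩

theorem rk2 : RK2 := fun _ _ _ _ _ _ hA h4 => rk2' hA (by omega)

end Cfsg.GS.IRx
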