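import Cfsg.Agent.GS.T6
import Cfsg.Agent.GS.U5
import Cfsg.Agent.L0.Fpf3
import Cfsg.Agent.H4.TT
import Cfsg.Agent.H8.ReeK2

/-! `W2`: an involution `f ∈ C(A) \ A` centralized by an element moving the four-group `A` has
centralizer of order divisible by `16`. -/

set_option autoImplicit false

namespace Cfsg.GS.IWx

open Subgroup Cfsg.L0 Cfsg.H8 Cfsg.FT Cfsg.BS Cfsg.BS.R Cfsg.GS.T3 Cfsg.GS.T4
open scoped commutatorElement

variable {G : Type} [Group G] [Finite G] {A P R S Y : Subgroup G} {f g k x y z : G}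

/-- `N(A)` acts on `A#` as `Z₃` -/
theorem cube (h : Mg S A) (h4 : ♯A = 4) (hz : z ∈ 𝒩 A) :
    z ^ 3 ∈ 𝒞 A ∧ (z ∉ 𝒞 A → ∀ a ∈ A, z * a = a * z → a = 1) := by
  classical
  have := Fintype.ofFinite A
  let φ : 𝒩 A →* Equiv.Perm A := (MulAut.toPerm A).comp A.normalizerMonoidHom
  have e : ∀ (z : 𝒩 A) (a : A), (φ z a : G) = z * a * (z : G)⁻¹ := fun _ _ => rfl
  have c : ∀ z : 𝒩 A, φ z = 1 → (z : G) ∈ 𝒞 A := fun z i => mem_cent.2 fun a ha => by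
    have := e z ⟨a, ha⟩
    rw [i] at this
    exact eq_mul_inv_iff_mul_eq.1 this
  by_cases hc : z ∈ 𝒞 A
  · exact ⟨pow_mem hc 3, fun q => absurd hc q⟩
  have s0 : (φ ⟨z, hz⟩).support ⊆ Finset.univ.erase 1 := fun a ha => Finset.mem_erase.2
    ⟨fun q => Equiv.Perm.mem_support.1 ha (Subtype.ext (by rw [e, q]; simp)), Finset.mem_univ _⟩
  have c3 : (Finset.univ.erase (1 : A)).card = 3 := by
    rw [Finset.card_erase_of_mem (Finset.mem_univ _), Finset.card_univ, ← Nat.card_eq_fintype_card,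
      h4]
  have s1 : (φ ⟨z, hz⟩).support.card ≠ 0 := fun i =>
    hc (c _ (Equiv.Perm.support_eq_empty_iff.1 (Finset.card_eq_zero.1 i)))
  have s2 : (φ ⟨z, hz⟩).support.card ≠ 2 := fun i => by
    have s4 := (Equiv.Perm.card_support_eq_two.1 i).sign_eq
    refine h.two (up (Equiv.Perm.sign.comp φ) ⊥) (up_le _ _) ?_
    rw [ri_up _ _ le_rfl, down_top (f := Equiv.Perm.sign.comp φ) fun u =>
      (Int.units_eq_one_or u).elim (fun i => ⟨1, by rw [i, map_one]⟩) fun i => ⟨_, i ▸ s4⟩,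
      relIndex_bot_left, card_top]
    simp
  have s3 : (φ ⟨z, hz⟩).support.card = 3 := by
    have := Finset.card_le_card s0
    have := Equiv.Perm.card_support_ne_one (φ ⟨z, hz⟩)
    omega
  refine ⟨c (⟨z, hz⟩ ^ 3) ?_, fun _ a ha q => by_contra fun a1 => ?_⟩
  · rw [map_pow, ← (card_support_eq_three_iff.1 s3).orderOf, pow_orderOf_eq_one]
  have : (⟨a, ha⟩ : A) ∈ (φ ⟨z, hz⟩).support := by
    rw [Finset.eq_of_subset_of_card_le s0 (by omega)]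
    exact Finset.mem_erase.2 ⟨fun q => a1 (congrArg Subtype.val q), Finset.mem_univ _⟩
  exact Equiv.Perm.mem_support.1 this (Subtype.ext (by rw [e]; exact mul_inv_eq_of_eq_mul q))

theorem three (h : Mg S A) (h4 : ♯A = 4) (hz : z ∈ 𝒩 A) (hc : z ∉ 𝒞 A) :
    ∃ u ∈ zpowers z, (∃ j, u ^ 3 ^ j = 1) ∧ u ∉ 𝒞 A := by
  haveI := Fact.mk Nat.prime_three
  obtain ⟨m, j, h1, h2⟩ := exists_pow_pElt 3 z
  exact ⟨_, npow_mem_zpowers z m, ⟨j, h2⟩, fun q => hc (mem_of_pow_mem h1 q (cube h h4 hz).1)⟩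

theorem sylC (h : Mg S A) (h4 : ♯A = 4) : S ≤ 𝒞 A := fun s hs => by
  obtain ⟨j, hj⟩ := isPGroup_iff_forall.1 h.syl.isPGroup s hs
  exact mem_of_pow_mem (m := 2 ^ j) (Nat.Coprime.pow_left j (by norm_num)) (hj ▸ one_mem _)
    (cube h h4 (mem_normalizer_of_forall fun a ha => h.sc.2 a ha s trivial
      (conj_mem_of_norm (le_norm S hs) (h.sc.1 ha)))).1

/-- involutions with small centralizer, not fused into `A` -/
structure Fl (A : Subgroup G) (x : G) : Prop where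
  sq : x ^ 2 = 1
  nd : ¬ 16 ∣ ♯(𝒞₁ x)
  nA : ∀ g, g * x * g⁻¹ ∉ A

omit [Finite G] in
theorem Fl.conj (h : Fl A x) (g : G) : Fl A (g * x * g⁻¹) :=
  ⟨by rw [conj_pow, h.sq]; simp, by rw [← cj_cent1, card_cj]; exact h.nd, fun u q =>
    h.nA (u * g) (by simpa [mul_assoc] using q)⟩

omit [Finite G] in
theorem Fl.nm (h : Fl A x) : x ∉ A := by simpa using h.nA 1

theorem ri2 (h2 : x ^ 2 = 1) (h1 : x ∉ Y) (hn : x ∈ 𝒩 Y) : ♯(Y ⊔ zpowers x) = ♯Y * 2 := by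
  rw [card_sup_of_inf (zpowers_le.2 hn) (eq_bot_iff.2 fun y hy => (Ux.zpow_cases h2 hy.2).elim id
    fun q => absurd (q ▸ hy.1) h1), card_zpow, orderOf_eq_prime h2 fun q => h1 (q ▸ one_mem _)]

theorem mem2 (h2 : x ^ 2 = 1) (hn : x ∈ 𝒩 Y) (h : y ∈ Y ⊔ zpowers x) : y ∈ Y ∨ y * x ∈ Y := by
  obtain ⟨a, ha, b, hb, rfl⟩ := (mem_sup_l (zpowers_le.2 hn)).1 h
  rcases Ux.zpow_cases h2 hb with rfl | rfl
  · exact .inl (by simpa using ha)
  · exact .inr (by rwa [mul_assoc, ← pow_two, h2, mul_one])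

/-- `C_R(x) = A⟨x⟩` -/
theorem Fl.cent (h : Fl A x) (h4 : ♯A = 4) (hR : IsPGroup 2 R) (h1 : A ≤ R) (h2 : R ≤ 𝒞 A)
    (hx : x ∈ R) : R ⊓ 𝒞₁ x ≤ A ⊔ zpowers x := by
  have l : A ⊔ zpowers x ≤ R ⊓ 𝒞₁ x := sup_le (le_inf h1 (le_cent1_iff.2 (h2 hx)))
    (zpowers_le.2 ⟨hx, self_mem_cent1 x⟩)
  refine (eq_of_card_le l ?_).ge
  rw [ri2 h.sq h.nm (cent_le_norm A (h2 hx)), h4]
  haveI := Fact.mk Nat.prime_two
  obtain ⟨j, hj⟩ := (hR.to_le (inf_le_left (b := 𝒞₁ x))).exists_card_eq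
  refine hj ▸ Nat.pow_le_pow_right (n := 2) (j := 3) two_pos (not_lt.1 fun q => h.nd ?_)
  exact (pow_dvd_pow 2 q).trans (hj ▸ card_dvd inf_le_right)

theorem Fl.cent' (h : Fl A x) (h4 : ♯A = 4) (hR : IsPGroup 2 R) (h1 : A ≤ R) (h2 : R ≤ 𝒞 A)
    (hx : x ∈ R) (hy : y ∈ R) (hc : y * x = x * y) : y ∈ A ∨ y * x ∈ A :=
  mem2 h.sq (cent_le_norm A (h2 hx)) (h.cent h4 hR h1 h2 hx ⟨hy, mem_cent1.2 hc⟩)

/-- the inductive data -/
structure Dt (S A Y : Subgroup G) (f k : G) : Prop extends Mg S A where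
  h4 : ♯A = 4
  fl : Fl A f
  fC : f ∈ 𝒞 A
  fY : f ∉ Y
  k3 : ∃ j, k ^ 3 ^ j = 1
  kf : k ∈ 𝒞₁ f
  kN : k ∈ 𝒩 A
  kC : k ∉ 𝒞 A
  AY : A ≤ Y
  YC : Y ≤ 𝒞 A
  pY : IsPGroup 2 Y
  fN : f ∈ 𝒩 Y
  kY : k ∈ 𝒩 Y

namespace Dt
variable (h : Dt S A Y f k)
include h

theorem fix (hR : IsPGroup 2 R) (h1 : A ≤ R) (h2 : R ≤ 𝒞 A) (hx : f ∈ R) :
    R ⊓ 𝒞₁ k ≤ zpowers f := by
  have m := (cube h.toMg h.h4 h.kN).2 h.kC
  have fk := mem_cent1_comm.1 h.kf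
  refine ((nil_of_pgroup Nat.prime_two (hR.to_le inf_le_left)).eq_of_norm_le
    (zpowers_le.2 ⟨hx, fk⟩) fun y ⟨⟨y1, y2⟩, y3⟩ => ?_).ge
  have c : y * f = f * y := by
    rcases Ux.zpow_cases h.fl.sq (conj_mem_of_norm y3 (mem_zpowers f)) with q | q
    · exact absurd (q ▸ one_mem _) (h.fl.nA y)
    · exact mul_inv_eq_iff_eq_mul.1 q
  rcases h.fl.cent' h.h4 hR h1 h2 hx y1 c with q | q
  · rw [m y q (mem_cent1.1 y2).symm]; exact one_mem _
  · rw [eq_inv_of_mul_eq_one_left (m _ q (mem_cent1.1 (mul_mem y2 fk)).symm)]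
    exact inv_mem (mem_zpowers f)

theorem pP : IsPGroup 2 ↥(Y ⊔ zpowers f) :=
  pgroup_sup (zpowers_le.2 h.fN) h.pY (isPGroup_zpowers (k := 1) h.fl.sq)

theorem PC : Y ⊔ zpowers f ≤ 𝒞 A := sup_le h.YC (zpowers_le.2 h.fC)

theorem fP : f ∈ Y ⊔ zpowers f := mem_sup_right (mem_zpowers f)

theorem kP : k ∈ 𝒩 (Y ⊔ zpowers f) := zpowers_le.1 (le_norm_sup (zpowers_le.2 h.kY)
  (le_norm_of_le_cent (by rw [cent_zpowers]; exact zpowers_le.2 h.kf)))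

theorem p3 : IsPGroup 3 (zpowers k) := h.k3.elim fun _ => isPGroup_zpowers

theorem fixY (hy : y ∈ Y) (hc : y ∈ 𝒞₁ k) : y = 1 :=
  (Ux.zpow_cases h.fl.sq (h.fix h.pP (h.AY.trans le_sup_left) h.PC h.fP
    ⟨mem_sup_left hy, hc⟩)).resolve_right fun q => h.fY (q ▸ hy)

theorem cubeP : k ^ 3 ∈ 𝒞 (Y ⊔ zpowers f) := by
  have z : zpowers (k ^ 3) ≤ zpowers k := zpowers_le.2 (npow_mem_zpowers k 3)
  have c : f ∈ 𝒞 (zpowers (k ^ 3)) := by
    rw [cent_zpowers]; exact mem_cent1_comm.1 (pow_mem h.kf 3)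
  refine zpowers_le.1 ((nil_of_pgroup Nat.prime_two h.pP).cent_of_cent_stab
    (z.trans (zpowers_le.2 h.kP)) (cop_of_pgroups Nat.prime_two Nat.prime_three (by norm_num) h.pP
      (h.p3.to_le z)) ((inf_le_inf_left _ (cent_le_cent1 (mem_inf.2 ⟨h.fP, c⟩))).trans ((h.fl.cent h.h4 h.pP
        (h.AY.trans le_sup_left) h.PC h.fP).trans (sup_le ?_ (zpowers_le.2 c)))))
  exact cent_symm (zpowers_le.2 (cube h.toMg h.h4 h.kN).1)

/-- `Y` contains no conjugate of `f` -/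
theorem noFl (hy : y ∈ Y) : ¬ Fl A y := fun q => by
  let ρ : Y →* Y := (Y.normalizerMonoidHom ⟨k, h.kY⟩ : Y ≃* Y)
  have e : ∀ x : Y, (ρ x : G) = k * x * k⁻¹ := fun _ => rfl
  have r : Fpf3 ρ := ⟨fun x => Subtype.ext (by
      have := mem_cent.1 h.cubeP x (mem_sup_left x.2)
      rw [e, e, e]
      calc _ = k ^ 3 * x * (k ^ 3)⁻¹ := by simp [pow_succ, mul_assoc]
        _ = x := by rw [← this]; group),
    fun x hx => Subtype.ext (h.fixY x.2 (mem_cent1.2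
      (mul_inv_eq_iff_eq_mul.1 ((e x).symm.trans (congrArg Subtype.val hx))).symm))⟩
  have c : y * (k * y * k⁻¹) = k * y * k⁻¹ * y := congrArg Subtype.val (r.comm ⟨y, hy⟩)
  have p : y * (k * y * k⁻¹) * (k * (k * y * k⁻¹) * k⁻¹) = 1 :=
    congrArg Subtype.val (r.prod ⟨y, hy⟩)
  rcases q.cent' h.h4 h.pY h.AY h.YC hy (conj_mem_of_norm h.kY hy) c.symm with i | i
  · exact q.nA k i
  · exact (q.conj k).nA k (by rw [eq_inv_of_mul_eq_one_right p, c]; exact inv_mem i)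

/-- Thompson's transfer lemma -/
theorem nsyl : ¬ IsSyl 2 (Y ⊔ zpowers f) ⊤ := fun q => by
  have c := ri2 h.fl.sq h.fY h.fN
  rw [← card_mul_ri (le_sup_left (b := zpowers f))] at c
  obtain ⟨g, hg, -⟩ := H4.exists_conj_mem_extremal (T := ⊥) (fun N e => by
      rcases h.simple.eq_bot_or_eq_top_of_normal N (normal_of_index_eq_two e) with i | i
      · have := card_le (le_top (a := A))
        rw [i, index_bot] at e
        rw [card_top, e, h.h4] at this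
        omega
      · simp [i] at e) le_sup_left (Nat.eq_of_mul_eq_mul_left (card_pos' Y) c)
    (Nat.not_even_iff_odd.1 fun i => q.not_dvd (by rw [relIndex_top_right]; exact i.two_dvd))
    h.fl.sq IsPGroup.of_bot (by simp)
  exact h.noFl hg (by simpa using h.fl.conj g⁻¹)

/-- all elements of `fY` are conjugate to `f` -/
theorem allFl (hR : IsPGroup 2 R) (h1 : Y ⊔ zpowers f < R) (h2 : R ≤ 𝒞 A ⊓ 𝒩 (Y ⊔ zpowers f))
    (hy : y ∈ Y ⊔ zpowers f) (y1 : y ∉ Y) : Fl A y := by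
  haveI := Fact.mk Nat.prime_two
  haveI := Fact.mk Nat.prime_three
  set X := 𝒞 A ⊓ 𝒩 (Y ⊔ zpowers f) with hX
  set O : Set G := {z | ∃ y ∈ X, y * f * y⁻¹ = z} with hO
  have s : O ⊆ ((Y ⊔ zpowers f : Subgroup G) : Set G) \ Y := by
    rintro _ ⟨x, hx, rfl⟩
    exact ⟨conj_mem_of_norm hx.2 h.fP, fun q => h.noFl q (h.fl.conj x)⟩
  have cP := ri2 h.fl.sq h.fY h.fN
  have cD : (((Y ⊔ zpowers f : Subgroup G) : Set G) \ Y).ncard = ♯Y := by
    rw [Set.ncard_sdiff (le_sup_left : Y ≤ Y ⊔ zpowers f)]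
    change ♯(Y ⊔ zpowers f) - ♯Y = _
    omega
  have cO : O.ncard = (𝒞₁ f).relIndex X := card_conj X f
  have kX : k ∈ 𝒩 X := zpowers_le.1 (le_norm_inf (le_norm_cent (zpowers_le.2 h.kN))
    (le_norm_norm (zpowers_le.2 h.kP)))
  obtain ⟨j, hj⟩ := h.k3
  have m1 := ncard_modEq_conj hj (S := O) (by
    rintro _ ⟨x, hx, rfl⟩
    refine ⟨_, conj_mem_of_norm kX hx, ?_⟩
    have := mem_cent1.1 h.kf
    calc _ = k * x * (k⁻¹ * (f * k)) * x⁻¹ * k⁻¹ := by group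
      _ = _ := by rw [← this]; group)
  have e1 : {s ∈ O | k * s = s * k} = {f} := by
    refine Set.eq_singleton_iff_unique_mem.2 ⟨⟨⟨1, one_mem _, by simp⟩, mem_cent1.1 h.kf⟩,
      fun x hx => (Ux.zpow_cases h.fl.sq (h.fix h.pP (h.AY.trans le_sup_left) h.PC h.fP
        ⟨(s hx.1).1, mem_cent1.2 hx.2.symm⟩)).resolve_left fun q => (s hx.1).2 (q ▸ one_mem Y)⟩
  have m2 := card_modEq_cent Nat.prime_three h.p3 (zpowers_le.2 h.kY)
  rw [e1, Set.ncard_singleton] at m1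
  rw [cent_zpowers, (eq_bot_iff.2 fun x hx => h.fixY hx.1 hx.2 : Y ⊓ 𝒞₁ k = ⊥), card_bot'] at m2
  obtain ⟨m, hm⟩ := h.pY.exists_card_eq
  obtain ⟨r, hr⟩ := hR.exists_card_eq
  have lr : m + 2 ≤ r := by
    have := card_lt h1
    rw [cP, hm, hr, ← pow_succ, Nat.pow_lt_pow_iff_right one_lt_two] at this
    omega
  have d : 2 ^ (m + 2) ∣ ♯(𝒞₁ f ⊓ X) * O.ncard := by
    rw [cO, card_inf_mul_ri]
    exact (pow_dvd_pow 2 lr).trans (hr ▸ card_dvd h2)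
  have d2 : 2 ^ m ∣ 2 * O.ncard := by
    obtain ⟨i, c, hc, e⟩ := Nat.exists_eq_pow_mul_and_not_dvd (card_ne_zero' (𝒞₁ f ⊓ X)) 2
      (by norm_num)
    have i3 : i ≤ 3 := not_lt.1 fun q => h.fl.nd ((pow_dvd_pow 2 q).trans
      ((Dvd.intro c e.symm).trans (card_dvd inf_le_left)))
    have : 2 ^ (m + 2) ∣ 2 ^ 3 * O.ncard * c := d.trans (by
      rw [e, mul_right_comm]
      exact mul_dvd_mul_right (mul_dvd_mul_right (pow_dvd_pow 2 i3) _) _)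
    refine (mul_dvd_mul_iff_right (c := 4) (by norm_num)).1 ?_
    have := ((Nat.prime_two.coprime_iff_not_dvd.2 hc).pow_left _).dvd_of_dvd_mul_right this
    rwa [show 2 ^ (m + 2) = 2 ^ m * 4 by ring, show 2 ^ 3 * O.ncard = 2 * O.ncard * 4 by ring] at this
  have l := Set.ncard_le_ncard s
  have e2 : O = ((Y ⊔ zpowers f : Subgroup G) : Set G) \ Y := by
    refine Set.eq_of_subset_of_ncard_le s ?_
    obtain ⟨c, hc⟩ := d2
    rw [cD, hm] at l ⊢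
    rw [hm] at m2
    unfold Nat.ModEq at m1 m2
    have p : 0 < 2 ^ m := by positivity
    rcases c with _ | _ | c
    · omega
    · omega
    · nlinarith
  obtain ⟨x, -, rfl⟩ : y ∈ O := e2 ▸ ⟨hy, y1⟩
  exact h.fl.conj x

theorem step : ∃ Y' f' k', Dt S A Y' f' k' ∧ ♯Y < ♯Y' := by
  haveI := Fact.mk Nat.prime_two
  set P := Y ⊔ zpowers f with hP
  obtain ⟨T, t1, t2⟩ := exists_isSyl_ge h.pP (le_inf h.PC (le_norm P))
  have lt : P < T := t2.lt_of_ne fun e => by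
    have := (e ▸ t1).of_normalizer.card_eq (h.syl.mono (sylC h.toMg h.h4) le_top)
    exact h.nsyl (h.syl.of_card_ge h.pP le_top this.ge)
  have al : ∀ y ∈ P, y ∉ Y → Fl A y := fun y => h.allFl t1.isPGroup lt t1.le
  have nY : 𝒩 P ≤ 𝒩 Y := fun g hg => mem_normalizer_of_forall fun y hy => by_contra fun q =>
    h.noFl hy (by simpa [mul_assoc] using (al _ (conj_mem_of_norm hg (mem_sup_left hy)) q).conj g⁻¹)
  obtain ⟨x, hx, n, hn, e⟩ := t1.frattini (zpowers_le.1 (le_norm_inf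
    (le_norm_cent (zpowers_le.2 h.kN)) (le_norm_norm (zpowers_le.2 h.kP))))
  have e' : n = x⁻¹ * k := by rw [e]; group
  have nA : n ∈ 𝒩 A := e' ▸ mul_mem (inv_mem (cent_le_norm A hx.1)) h.kN
  have nP : n ∈ 𝒩 P := e' ▸ mul_mem (inv_mem (mem_inf.1 hx).2) h.kP
  obtain ⟨u, u1, u2, u3⟩ := three h.toMg h.h4 nA fun q => h.kC (e ▸ mul_mem hx.1 q)
  have uP : zpowers u ≤ 𝒩 P := zpowers_le.2 (zpowers_le.2 nP u1)
  have p3 : IsPGroup 3 (zpowers u) := u2.elim fun _ => isPGroup_zpowers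
  have ca : ∀ K : Subgroup G, IsPGroup 2 K → zpowers u ≤ 𝒩 K → CA (zpowers u) K := fun K k1 k2 =>
    mkCA_p' Nat.prime_two k2 k1 (not_dvd_of_pgroup Nat.prime_two Nat.prime_three (by norm_num) p3)
  have cP := ri2 h.fl.sq h.fY h.fN
  obtain ⟨f', f1, f2, f3⟩ : ∃ f' ∈ P, f' ∈ 𝒞₁ u ∧ f' ∉ Y := by
    by_contra! q
    haveI := Fact.mk Nat.prime_three
    have a1 := card_modEq_cent Nat.prime_three p3 uP
    have a2 := card_modEq_cent Nat.prime_three p3 (uP.trans nY)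
    have a3 := card_modEq_cent Nat.prime_three h.p3 (zpowers_le.2 h.kY)
    rw [cent_zpowers, (eq_bot_iff.2 fun x hx => h.fixY hx.1 hx.2 : Y ⊓ 𝒞₁ k = ⊥), card_bot'] at a3
    rw [cent_zpowers] at a1 a2
    rw [(le_antisymm (fun x hx => ⟨q x hx.1 hx.2, hx.2⟩) (inf_le_inf_right _ le_sup_left) :
      P ⊓ 𝒞₁ u = Y ⊓ 𝒞₁ u), cP] at a1
    unfold Nat.ModEq at a1 a2 a3
    omega
  have d : Dt S A Y f' u := ⟨h.toMg, h.h4, al _ f1 f3, h.PC f1, f3, u2, mem_cent1_comm.1 f2,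
    zpowers_le.2 nA u1, u3, h.AY, h.YC, h.pY, nY (le_norm P f1), nY (uP (mem_zpowers u))⟩
  obtain ⟨R, ⟨r1, r2, r3⟩, r4⟩ := exists_min_card'
    (S := fun R : Subgroup G => P < R ∧ R ≤ T ∧ zpowers u ≤ 𝒩 R)
    ⟨T, lt, le_rfl, zpowers_le.2 (zpowers_le.2 hn u1)⟩
  have pR := t1.isPGroup.to_le r2
  have RC : R ≤ 𝒞 A := r2.trans (t1.le.trans inf_le_left)
  have RY : R ≤ 𝒩 Y := r2.trans (t1.le.trans (inf_le_right.trans nY))
  have YR : Y ≤ R := le_sup_left.trans r1.le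
  have ph : Phi R ≤ P := by
    by_contra q
    have l : Phi R ⊔ P ≤ R := sup_le (Phi_le R) r1.le
    exact r1.not_ge (le_of_le_Phi_sup r1.le le_rfl (eq_of_card_le l (r4 _ ⟨right_lt_sup.2 q,
      l.trans r2, le_norm_sup (r3.trans (norm_le_norm_Phi R)) uP⟩)).ge)
  have sq : ∀ r ∈ R, r * r ∈ Y := fun r hr => by_contra fun q => by
    have fl := al _ (ph (pow_two r ▸ pow_mem_Phi Nat.prime_two pR hr)) q
    rcases fl.cent' h.h4 pR (h.AY.trans YR) RC (mul_mem hr hr) hr (mul_assoc _ _ _).symm with i | i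
    · exact q (h.AY (mul_mem i i))
    · have : r ∈ A := by
        rw [eq_inv_of_mul_eq_one_left (show r * (r * (r * r)) = 1 by
          rw [← mul_assoc, ← pow_two, fl.sq])]
        exact inv_mem i
      exact q (h.AY (mul_mem this this))
  have l : ⁅R, zpowers u⁆ ≤ R := comm_le_left r3
  have dr : ⁅R, R⁆ ≤ Y := Ux.der_le_of_sq sq
  have l' : Y ⊔ ⁅R, zpowers u⁆ ≤ R := sup_le YR l
  refine ⟨Y ⊔ ⁅R, zpowers u⁆, f', u, ⟨h.toMg, h.h4, d.fl, d.fC, fun q => f3 ?_, u2, d.kf, d.kN, u3,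
    h.AY.trans le_sup_left, l'.trans RC, pR.to_le l', (nrm_of_der_le (dr.trans le_sup_left) l').norm
    (r1.le f1), le_norm_sup (uP.trans nY) (right_le_norm_comm _ _) (mem_zpowers u)⟩,
    card_lt (left_lt_sup.2 fun q => r1.not_ge ?_)⟩
  · obtain ⟨Q, _, _, φ, -, hk⟩ := exists_quo0 (nrm_norm Y)
    have uY := uP.trans nY
    have a := ((abel_down_iff (f := φ) RY).2 (dr.trans hk.ge)).comm_inf_cent (down_le_norm φ r3)
      (cop_down φ (ca R pR r3).cop')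
    rw [← down_commutator φ RY uY, ← down_ker_sup φ (l.trans RY), hk] at a
    rw [← zpowers_le, ← hk, ← down_eq_bot_iff (zpowers_le.2 d.fN), eq_bot_iff, ← a]
    exact le_inf (down_mono φ (zpowers_le.2 q))
      (down_le_cent φ (by rw [cent_zpowers]; exact zpowers_le.2 f2))
  · refine ((ca Y h.pY (uP.trans nY)).le_sup_cent YR q).trans (sup_le le_sup_left ?_)
    rw [cent_zpowers]
    exact (d.fix pR (h.AY.trans YR) RC (r1.le f1)).trans (zpowers_le.2 f1)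

end Dt

theorem w2 : W2 := fun G _ _ S A f k h h4 hf fA fC kf kN kC nd => by
  obtain ⟨u, u1, u2, u3⟩ := three h h4 kN kC
  have f2 : f ^ 2 = 1 := (pow_two f).trans hf.2
  have sc := Ux.sc_of_le h.syl h.sc (pgroup_sup (zpowers_le.2 (cent_le_norm A fC)) h.elem.pgroup
    (isPGroup_zpowers (k := 1) f2)) le_sup_left
  obtain ⟨Y, ⟨f', k', d⟩, m⟩ := exists_max_card' (S := fun Y => ∃ f k, Dt S A Y f k)
    ⟨A, f, u, h, h4, ⟨f2, nd, fun g q => fA (by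
      simpa [mul_assoc] using sc.2 _ q g⁻¹ trivial (by
        simpa [mul_assoc] using mem_sup_right (mem_zpowers f)))⟩, fC, fA, u2, zpowers_le.2 kf u1,
      zpowers_le.2 kN u1, u3, le_rfl, h.elem.abel, h.elem.pgroup, cent_le_norm A fC,
      zpowers_le.2 kN u1⟩
  obtain ⟨Y', f'', k'', d', l⟩ := d.step
  exact l.not_ge (m Y' ⟨_, _, d'⟩)

end Cfsg.GS.IWx
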