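import Cfsg.Agent.GS.I4
import Cfsg.Agent.GS.IR1
import Cfsg.Agent.GS.IW1

/-! `U4c`, 5: the three cases. -/

set_option autoImplicit false
set_option linter.unusedSectionVars false

namespace Cfsg.GS.Ix

open Subgroup Cfsg.L0 Cfsg.H8 Cfsg.FT Cfsg.BS Cfsg.BS.R Cfsg.GS.T3 Cfsg.GS.T4 Cfsg.GS.SFx Cfsg.GS.Kx
open scoped commutatorElement

variable {G : Type} [Group G] [Finite G] {A P S T : Subgroup G} {a b e f g r v x z : G}

theorem el2 (h : f * f = 1) : Elem 2 (zpowers f) := elem_zpowers ((sq f).trans h)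

theorem inf_zp (h : f * f = 1) (h1 : f ∉ P) : P ⊓ zpowers f = ⊥ := eq_bot_iff.2 fun _ hx =>
  (mem_zp2 h hx.2).resolve_right fun e => h1 (e ▸ hx.1)

theorem card_zp (hP : f ∈ 𝒞 P) (h : f * f = 1) (h1 : f ∉ P) : ♯(P ⊔ zpowers f) = ♯P * 2 := by
  rw [card_sup_of_inf (le_norm_of_le_cent (zpowers_le.2 hP)) (inf_zp h h1), card_zpow,
    Ivo.orderOf (t := f) ⟨fun e => h1 (e ▸ one_mem _), h⟩]

namespace M4
variable (h : M4 S A)
include h

theorem self_De (hf : f ∈ 𝒞 A) : f ∈ De A (𝒞₁ f) :=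
  zpowers_le.1 (le_De.2 ⟨zpowers_le.2 (self_mem_cent1 f), (comm_eq_bot_iff'.2
    ((Kx.ncl_le' (le_cent1_iff.2 hf)).trans (cent_zpowers f).ge)).le.trans bot_le⟩)

theorem badP (hb : Bad A (𝒞₁ f)) (hP : IsPGroup 2 P) (h1 : P ≤ De A (𝒞₁ f)) (h2 : f ∈ P)
    (h3 : P ≤ 𝒞 A) : Bad A (𝒞 P) :=
  hb.cov h.elem (cent_le_cent1 h2) (cov_of hP h1 (le_cent1_iff.2 (h3 h2))) (cent_symm h3)

theorem split (f1 : f ≠ 1) (hb : Bad A (𝒞₁ f)) (hT : IsPGroup 2 T) (h1 : T ≤ 𝒞₁ f) (h2 : A ≤ T)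
    (hx : x ∈ T) : ∃ a ∈ A, a * x ∈ T ⊓ De A (𝒞₁ f) := by
  obtain ⟨a, ha, e⟩ := h.s3 (Fx.cent1_ne h.simple h.nab f1) (h2.trans h1) hb (h1 hx) (h.cT hT h2 hx)
    (hT.to_le (zpowers_le.2 hx))
  exact ⟨a, ha, mul_mem (h2 ha) hx, e⟩

theorem sq_mul (ha : a ∈ A) (hx : x ∈ 𝒞 A) : a * x * (a * x) = x * x := by
  rw [mul_assoc, ← mul_assoc x, ← mem_cent.1 hx a ha, mul_assoc, ← mul_assoc a, sq1 h.elem ha, one_mul]

theorem exT (hf : f ∈ 𝒞 A) (f2 : f * f = 1) : ∃ T, IsSyl 2 T (𝒞₁ f) ∧ A ≤ T ∧ f ∈ T := by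
  obtain ⟨T, a, b⟩ := exists_isSyl_ge (pgroup_sup (le_norm_of_le_cent (zpowers_le.2 hf)) h.pA
    (card_zp2 f2)) (sup_le (le_cent1_iff.2 hf) (zpowers_le.2 (self_mem_cent1 f)))
  exact ⟨T, a, le_sup_left.trans b, b (mem_sup_right (mem_zpowers f))⟩

theorem n4 (w : W2) (hf : f ∈ 𝒞 A) (f1 : Ivo f) (hb : Bad A (𝒞₁ f))
    (cj4 : ∀ b ∈ A, ∃ n ∈ 𝒩 A, n * f * n⁻¹ = f * b) : ∃ M, UG S A M := by
  obtain ⟨T, hT, AT, fT⟩ := h.exT hf f1.2
  have pT := hT.isPGroup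
  have TA := h.cT pT AT
  have k : ∀ b ∈ A, Ivo (f * b) ∧ Bad A (𝒞₁ (f * b)) := fun b hb' => by
    obtain ⟨n, n1, n2⟩ := cj4 b hb'
    rw [← n2, ← cj_cent1]
    exact ⟨f1.conj n, hb.cj n1⟩
  have c : ∀ b ∈ A, T ≤ 𝒞₁ (f * b) := fun b hb' x hx =>
    (c1_mul (hT.le hx)).2 (cent_le_cent1 hb' (TA hx))
  have m : ∀ b ∈ A, f * b ∈ T ⊓ De A (𝒞₁ (f * b)) := fun b hb' =>
    ⟨mul_mem fT (AT hb'), h.self_De (TA (mul_mem fT (AT hb')))⟩
  have s : ∀ b ∈ A, ∀ x ∈ T, ∃ a ∈ A, a * x ∈ T ⊓ De A (𝒞₁ (f * b)) := fun b hb' x hx =>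
    h.split (k b hb').1.1 (k b hb').2 pT (c b hb') AT hx
  have dis : ∀ b ∈ A, ∀ d ∈ A, b ≠ d → T ⊓ De A (𝒞₁ (f * b)) ⊓ (T ⊓ De A (𝒞₁ (f * d))) = ⊥ :=
    fun b hb' d hd ne => eq_bot_iff.2 fun y hy => by_contra fun y1 => by
      obtain ⟨z, hz, z2, z1⟩ := exists_inv_of_two pT hy.1.1 y1
      have zm := zpowers_le.2 hy hz
      have u : ∀ b ∈ A, z ∈ T ⊓ De A (𝒞₁ (f * b)) → f * b ∈ De A (𝒞₁ z) ∧ Bad A (𝒞₁ z) :=
        fun b hb' i => by
          have l := sup_le (zpowers_le.2 (m b hb')) (zpowers_le.2 i)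
          have l1 := mem_sup_left (T := zpowers z) (mem_zpowers (f * b))
          have l2 := cent_le_cent1 (mem_sup_right (S := zpowers (f * b)) (mem_zpowers z))
          have j := h.badP (k b hb').2 (pT.to_le (l.trans inf_le_left)) (l.trans inf_le_right) l1
            (l.trans (inf_le_left.trans TA))
          exact ⟨h.p1 (Fx.cent1_ne h.simple h.nab z1) (cent_symm (l.trans (inf_le_left.trans TA))) l2 j
            (mem_cent1_comm.1 (c b hb' i.1)) (cent_le_cent1 l1) (card_zp2 (k b hb').1.2), j.mono l2⟩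
      exact ne (inv_mul_eq_one.1 (eq_one_of_mem (h.inf_De (le_cent1_iff.2 (TA zm.1.1)) (u b hb' zm.1).2)
        ⟨A.mul_mem (A.inv_mem hb') hd, by
          simpa [mul_assoc] using (De A _).mul_mem ((De A _).inv_mem (u b hb' zm.1).1) (u d hd zm.2).1⟩))
  obtain ⟨a, ha, a1⟩ := exists_ne_one h.ne0
  have el : Elem 2 T := Nx.elem_of_sq fun x hx => by
    obtain ⟨b, b1, b2⟩ := s 1 (one_mem A) x hx
    obtain ⟨d, d1, d2⟩ := s a ha x hx
    exact eq_one_of_mem (dis 1 (one_mem A) a ha a1.symm)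
      ⟨h.sq_mul b1 (TA hx) ▸ mul_mem b2 b2, h.sq_mul d1 (TA hx) ▸ mul_mem d2 d2⟩
  have cd : ∀ b ∈ A, ♯T = 4 * ♯(T ⊓ De A (𝒞₁ (f * b))) := fun b hb' => by
    rw [← h.c4, ← card_sup_of_inf (inf_le_left.trans (le_norm_of_le_cent TA)) (eq_bot_of_le
      (h.inf_De (AT.trans (c b hb')) (k b hb').2) (inf_le_inf_left _ inf_le_right))]
    refine congrArg (fun X : Subgroup G => ♯X) (le_antisymm (fun x hx => ?_) (sup_le AT inf_le_left))
    obtain ⟨d, d1, d2⟩ := s b hb' x hx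
    exact (mul_mem_cancel_left (mem_sup_left d1)).1 (mem_sup_right d2)
  have c16 : ♯T = 16 := by
    obtain ⟨ρ, r1, r2⟩ := h.rho (le_cent1_iff.2 hf) hb
    have d : 16 ∣ ♯T := (hT.coprime.symm.pow_left 4).dvd_of_dvd_mul_right (by
      rw [card_mul_ri hT.le]
      exact by_contra (w G S A f ρ h.toMg h.c4 f1 (fun i => h.nbad i f1.1 hb) hf r1.1 r1.2 r2))
    have l := card_le (sup_le (inf_le_left (b := De A (𝒞₁ (f * 1)))) (inf_le_left (a := T)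
      (b := De A (𝒞₁ (f * a)))))
    rw [card_sup_of_inf (inf_le_left.trans (el.abel.le_norm inf_le_left))
      (dis 1 (one_mem A) a ha a1.symm), cd 1 (one_mem A), mul_comm] at l
    have := Nat.le_of_mul_le_mul_right l (card_pos' _)
    have := cd a ha
    have := Nat.le_of_dvd (card_pos' T) d
    omega
  have sp : ∀ e ∈ T, e ∉ A → ∃ R, (∃ b ∈ A, R = T ⊓ De A (𝒞₁ (f * b))) ∧ e ∈ R := fun e he n => by
    choose φ p1 p2 using fun b : A => s b b.2 e he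
    obtain ⟨b, i⟩ := Finite.injective_iff_surjective.1 (show Function.Injective
      fun b => (⟨φ b, p1 b⟩ : A) from fun b d i => Subtype.ext (by_contra fun j => n (by
        have i' : φ b = φ d := Subtype.ext_iff.1 i
        have := eq_one_of_mem (dis b b.2 d d.2 j) ⟨p2 b, i' ▸ p2 d⟩
        exact eq_inv_of_mul_eq_one_right this ▸ inv_mem (p1 b)))) 1
    exact ⟨_, ⟨b, b.2, rfl⟩, by simpa [show φ b = 1 from Subtype.ext_iff.1 i] using p2 b⟩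
  refine Bo.spread (V := T) ⟨h, el, AT, by omega, ?_, ?_, fun _ _ => c16, ?_, ?_,
    fun e he e1 i => sp e he fun j => h.nbad j e1 i⟩ ⟨1, one_mem A, rfl⟩ sp
  · rintro _ ⟨b, -, rfl⟩
    exact inf_le_left
  · rintro _ ⟨b, hb', rfl⟩
    have := cd b hb'
    omega
  · rintro _ ⟨b, hb', rfl⟩
    exact h.badP (k b hb').2 (pT.to_le inf_le_left) inf_le_right (m b hb') (inf_le_left.trans TA)
  · rintro _ _ ⟨b, hb', rfl⟩ ⟨d, hd, rfl⟩ ne
    exact dis b hb' d hd fun e => ne (by rw [e])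

theorem n1 (nb : ∀ f ∈ 𝒞 A, Ivo f → Bad A (𝒞₁ f) → ∀ a ∈ A, a ≠ 1 → ¬ Bad A (𝒞₁ (a * f)))
    (hz : z ∈ 𝒞 A) (z1 : Ivo z) (hb : Bad A (𝒞₁ z)) : ∃ M, UG S A M := by
  obtain ⟨T, hT, AT, zT⟩ := h.exT hz z1.2
  have pT := hT.isPGroup
  have TA := h.cT pT AT
  by_cases c : ∃ r ∈ T ⊓ De A (𝒞₁ z), r * r = 1 ∧ r ∉ zpowers z
  · obtain ⟨r, hr, r2, n⟩ := c
    have rz : r ∈ 𝒞 (zpowers z) := (cent_zpowers z).ge (hT.le hr.1)
    have l := sup_le (zpowers_le.2 (show z ∈ T ⊓ De A (𝒞₁ z) from ⟨zT, h.self_De hz⟩)) (zpowers_le.2 hr)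
    have c4 := card_zp rz r2 n
    have el := (el2 z1.2).sup (el2 r2) (cent_symm (zpowers_le.2 rz))
    have lz := mem_sup_left (T := zpowers r) (mem_zpowers z)
    rw [card_zpow, z1.orderOf] at c4
    generalize zpowers z ⊔ zpowers r = R at l c4 el lz
    have RA := l.trans (inf_le_left.trans TA)
    have b := h.badP hb el.pgroup (l.trans inf_le_right) lz RA
    have c16 := card_sup_of_inf (le_norm_of_le_cent RA) (eq_bot_of_le
      (h.inf_De (le_cent1_iff.2 hz) hb) (inf_le_inf_left _ (l.trans inf_le_right)))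
    rw [h.c4, c4] at c16
    refine Bo.one (V := A ⊔ R) (𝓡 := (· = R)) ⟨h, h.elem.sup el (cent_symm RA), le_sup_left, by omega,
      fun _ e => e ▸ le_sup_right, fun _ e => e ▸ c4, fun _ _ => c16, fun _ e => e ▸ b,
      fun _ _ e e' n => absurd (e.trans e'.symm) n, fun e he e1 i => ⟨R, rfl, ?_⟩⟩ rfl fun _ => id
    obtain ⟨a, ha, s, hs, rfl⟩ := (mem_sup_l (le_norm_of_le_cent RA)).1 he
    by_cases j : a = 1
    · rwa [j, one_mul]
    by_cases k : s = 1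
    · rw [k, mul_one] at i
      exact absurd i (h.nbad ha j)
    · exact absurd i (nb s (RA hs) ⟨k, sq1 el hs⟩ (b.mono (cent_le_cent1 hs)) a ha j)
  push Not at c
  have u : ∀ n ∈ 𝒩 A, n * z * n⁻¹ ∈ T → n * z * n⁻¹ = z := fun n hn he => by
    have i := z1.conj n
    have b := cj_cent1 n z ▸ hb.cj hn
    generalize n * z * n⁻¹ = e at he i b
    obtain ⟨a, ha, m⟩ := h.split z1.1 hb pT hT.le AT he
    rcases mem_zp2 z1.2 (c _ m ((h.sq_mul ha (TA he)).trans i.2)) with j | j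
    · exact absurd b (h.nbad (eq_inv_of_mul_eq_one_right j ▸ inv_mem ha) i.1)
    · refine by_contra fun k => nb z hz z1 hb a⁻¹ (inv_mem ha) (fun l => k ?_) ?_
      · rw [← j, inv_eq_one.1 l, one_mul]
      · rwa [← j, inv_mul_cancel_left]
  obtain ⟨T', hT', l⟩ := exists_isSyl_ge pT le_top
  have p' := hT'.isPGroup
  obtain rfl : T = T' := (nil_of_pgroup Nat.prime_two p').eq_of_norm_le l fun g hg =>
    (hT.eq_of_le (p'.to_le inf_le_left) (le_inf l hT.le) inf_le_right).le ⟨hg.1, mem_cent1.2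
      (mul_inv_eq_iff_eq_mul.1 (u g (cent_le_norm A (h.cT p' (AT.trans l) hg.1))
        (conj_mem_of_norm hg.2 zT)))⟩
  refine absurd (top_unique fun g hg => mem_cent1.2 (commutatorElement_eq_one_iff_mul_comm.1
    (eq_one_of_mem (Fx.O2_top h.simple (z1.orderOf ▸ orderOf_dvd_natCard z))
      (zstarA hT' zT (fun g _ i => ?_) g hg)))) (Fx.cent1_ne h.simple h.nab z1.1)
  obtain ⟨n, n1, n2⟩ := Fx.ctrl hT' (h.scT pT AT) h.ab zT i
  exact n2 ▸ u n n1 (n2 ▸ i)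

end M4

theorem u4c_of (h1 : RK2) (h2 : W2) : U4c := by
  intro G _ _ S A v m c4 hv v2 vA
  have h : M4 S A := ⟨m, c4, h1⟩
  by_cases b : ∃ z ∈ 𝒞 A, Ivo z ∧ Bad A (𝒞₁ z)
  · obtain ⟨z, hz, z1, hb⟩ := b
    refine by_contra fun n => n (h.n1 (fun f hf f1 fb a ha a1 i => n ?_) hz z1 hb)
    rw [mem_cent.1 hf a ha] at i
    obtain ⟨ρ, r1, r2⟩ := h.rho (le_cent1_iff.2 (mul_mem hf (h.ab ha))) i
    exact h.n4 h2 hf f1 fb fun b hb => h.conj4 ha a1 hf fb r1 r2 hb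
  have vc := h.cT h.syl.isPGroup h.sc.le hv
  have el := h.elem.sup (el2 v2) (cent_symm (zpowers_le.2 vc))
  have c := card_zp vc v2 vA
  exact Bo.zero (V := A ⊔ zpowers v) (𝓡 := fun _ => False) ⟨h, el, le_sup_left, by omega,
    fun _ => False.elim, fun _ => False.elim, fun _ => False.elim, fun _ => False.elim,
    fun _ _ => False.elim, fun e he e1 i => absurd ⟨e, (el.abel.trans (cent_anti le_sup_left)) he,
      ⟨e1, sq1 el he⟩, i⟩ b⟩ fun _ => id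

theorem u4c : U4c := u4c_of IRx.rk2 IWx.w2

end Cfsg.GS.Ix
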