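import Cfsg.Agent.GS.F4

/-! Goldschmidt's `2`-signalizer functor theorem, part 1: four-groups, two points in one
`θ`-subgroup, the functors `θ_π`, quotients. -/

set_option autoImplicit false
set_option linter.unusedSectionVars false

namespace Cfsg.GS.SFx

open Subgroup Cfsg.L0 Cfsg.H8 Cfsg.FT Cfsg.BS Cfsg.BS.R Cfsg.GS.T3 Cfsg.GW.Mx
open scoped commutatorElement

variable {G : Type} [Group G] [Finite G] {A B K L M U V W X Y : Subgroup G} {θ : G → Subgroup G}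
  {a b c e t x y : G} {p r : ℕ} {π : Set ℕ}

theorem fourG0 (bb : b * b = 1) (c2 : c * c = 1) (bc : b * c = c * b) (ho : Odd ♯K)
    (n2 : c ∈ 𝒩 K) (hx : x ∈ K) (h : b * x * b = x⁻¹) :
    x ∈ ⁅K ⊓ 𝒞₁ c, zpowers b⁆ ⊔ ⁅K ⊓ 𝒞₁ (b * c), zpowers b⁆ := by
  have ci := inv_eq_of_mul_eq_one_right c2
  have b' : ∀ z, b * (b * z) = z := fun z => by rw [← mul_assoc, bb, one_mul]
  have c' : ∀ z, c * (c * z) = z := fun z => by rw [← mul_assoc, c2, one_mul]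
  have cb : ∀ z, c * (b * z) = b * (c * z) := fun z => by rw [← mul_assoc, ← bc, mul_assoc]
  obtain ⟨s, hs⟩ : ∃ s, s = b * x := ⟨_, rfl⟩
  have ss : s * s = 1 := by rw [hs, ← mul_assoc, h, inv_mul_cancel]
  have s' : ∀ z, s * (s * z) = z := fun z => by rw [← mul_assoc, ss, one_mul]
  have gK : s * (c * s * c) ∈ K := by
    have : s * (c * s * c) = x⁻¹ * (c * x * c⁻¹) := by rw [hs, ci, ← h]; simp only [mul_assoc, cb]
    exact this ▸ mul_mem (inv_mem hx) (conj_mem_of_norm n2 hx)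
  obtain ⟨k, k1, k2⟩ := BS.exists_sqrt_of_odd (odd_of_mem ho gK)
  have k3 : s * k * s = k⁻¹ := inv_pow' ss (eq_inv_of_mul_eq_one_left (by
    simp only [mul_assoc, s', c', c2])) k1
  have k4 : c * k * c = k⁻¹ := inv_pow' c2 (eq_inv_of_mul_eq_one_left (by
    simp only [mul_assoc, s', c', c2, one_mul])) k1
  have k5 : c * s * c = s * k * k := by rw [mul_assoc s, k2, s']
  have yK := mul_mem hx (zpowers_le.2 gK k1)
  obtain ⟨w, w1, w2⟩ := BS.exists_sqrt_of_odd (odd_of_mem ho yK)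
  have wK := zpowers_le.2 yK w1
  have w3 : b * w * b = w⁻¹ := inv_pow' bb (eq_inv_of_mul_eq_one_left (by
    rw [← mul_assoc b, ← hs, mul_assoc _ b, ← mul_assoc b, ← hs, ← mul_assoc, k3, inv_mul_cancel])) w1
  have w4 : w ∈ 𝒞₁ c := zpowers_le.2 (mem_cent1.2 (mul_left_cancel (a := c * b) (by
    calc c * b * (x * k * c) = c * s * c * (c * k * c) := by rw [hs]; simp only [mul_assoc, c']
      _ = s * k := by rw [k5, k4, mul_inv_cancel_right]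
      _ = _ := by rw [hs]; simp only [mul_assoc, cb, c']))) w1
  have w5 : w * b = b * w⁻¹ := by rw [← w3]; simp only [mul_assoc, b']
  have xK := mul_mem (mul_mem (inv_mem wK) hx) (inv_mem wK)
  have e1 : b * (w⁻¹ * x * w⁻¹) = w * s * w⁻¹ := by rw [hs, ← mul_assoc w, w5]; simp only [mul_assoc]
  have e2 : b * c = w * (s * k * c) * w⁻¹ := by
    rw [hs, mul_assoc b, ← w2, ← mul_assoc w, ← mul_assoc w, w5, mul_assoc _ c,
      ← mem_cent1.1 (inv_mem w4)]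
    group
  have e3 : s * (s * k * c) = s * k * c * s := by
    calc s * (s * k * c) = s * k * s * k * k * c := by rw [k3]; simp only [mul_assoc, s', inv_mul_cancel_left]
      _ = s * k * (c * s * c) * c := by rw [k5]; simp only [mul_assoc]
      _ = _ := by simp only [mul_assoc, c2, mul_one]
  have m1 := inv_mem_comm (Y := K ⊓ 𝒞₁ c) bb ⟨wK, w4⟩ (odd_of_mem ho wK) w3
  have m2 := inv_mem_comm (Y := K ⊓ 𝒞₁ (b * c)) bb ⟨xK, mem_cent1.2 (mul_left_cancel (a := b) (by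
    rw [← mul_assoc, e1, mul_assoc b c, ← cb, ← mul_assoc b c, e1, e2]
    calc _ = w * (s * (s * k * c)) * w⁻¹ := by group
      _ = _ := by rw [e3]; group))⟩ (odd_of_mem ho xK) (by
    calc _ = (b * w * b)⁻¹ * (b * x * b) * (b * w * b)⁻¹ := by
          simp only [mul_inv_rev, inv_eq_of_mul_eq_one_right bb, mul_assoc, b']
      _ = _ := by rw [w3, h]; group)
  simpa [mul_assoc] using mul_mem (mul_mem (mem_sup_left m1) (mem_sup_right m2)) (mem_sup_left m1)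

/-- the four-group lemma -/
theorem fourG (bb : b * b = 1) (c2 : c * c = 1) (bc : b * c = c * b) (ho : Odd ♯K)
    (n1 : b ∈ 𝒩 K) (n2 : c ∈ 𝒩 K) :
    ⁅K, zpowers b⁆ ≤ ⁅K ⊓ 𝒞₁ c, zpowers b⁆ ⊔ ⁅K ⊓ 𝒞₁ (b * c), zpowers b⁆ :=
  commutator_le.2 fun k hk x hx => by
    have m := comm_le_left (zpowers_le.2 n1) (commutator_mem_commutator hk hx)
    rcases mem_zp2 bb hx with rfl | rfl
    · simp
    refine fourG0 bb c2 bc ho n2 m ?_
    simp [commutatorElement_def, inv_eq_of_mul_eq_one_right bb, mul_assoc, bb]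

theorem ex_ne (h : 2 < ♯B) (a : G) : ∃ c ∈ sharp B, c ≠ a := by
  by_contra! q
  have : (B : Set G).ncard ≤ ({1, a} : Set G).ncard := Set.ncard_le_ncard fun x hx => by
    by_cases e : x = 1
    · exact .inl e
    · exact .inr (q x ⟨hx, e⟩)
  exact (h.trans_le (this.trans ((Set.ncard_insert_le _ _).trans (by simp)))).false

theorem mul_sharp (hA : Elem 2 A) (ha : a ∈ sharp A) (hb : b ∈ sharp A) (ne : a ≠ b) :
    a * b ∈ sharp A := ⟨mul_mem ha.1 hb.1, fun q =>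
  ne (by rw [eq_inv_of_mul_eq_one_left q, inv_eq_of_mul_eq_one_left (sq1 hA hb.1)])⟩

theorem In.hyp (h : In A θ U) (ha : a ∈ sharp A) (h1 : a ∈ B) : U ⊓ 𝒞 B ≤ θ a :=
  (inf_le_inf_left _ (cent_le_cent1 h1)).trans (h.le a ha)

theorem Fn.pt (h : Fn A θ) : ∃ a, a ∈ sharp A := h.ex ⟨le_rfl, fun _ q _ _ r => absurd q r⟩

theorem Fn.nc (h : Fn A θ) (ha : a ∈ A) : A ≤ 𝒩 (𝒞₁ a) := le_norm_cent1 (le_cent1_iff.2 (h.elem.1 ha))

theorem In.c1 (hU : In A θ U) (h : Fn A θ) (ha : a ∈ A) : In A θ (U ⊓ 𝒞₁ a) :=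
  hU.sub inf_le_left (le_norm_inf hU.inv (h.nc ha))

theorem In.cm (hU : In A θ U) (h1 : A ≤ 𝒩 V) (h2 : V ≤ 𝒩 U) : In A θ ⁅U, V⁆ :=
  hU.sub (comm_le_left h2) (le_norm_comm hU.inv h1)

theorem Dd_le_cent : Dd A θ ≤ 𝒞 A := inf_le_left

theorem Dd_c1 (ha : a ∈ A) : Dd A θ ≤ 𝒞₁ a := Dd_le_cent.trans (cent_le_cent1 ha)

theorem Fn.inD (h : Fn A θ) : In A θ (Dd A θ) :=
  let ⟨_, ha⟩ := h.pt
  (h.self ha).sub (Dd_le ha) (le_norm_of_le_cent (cent_symm Dd_le_cent))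

/-- two points in one `θ`-subgroup -/
theorem Lc.two2 (h : Lc A θ) (ha : a ∈ sharp A) (hc : c ∈ sharp A) (ne : a ≠ c) (hU : In A θ U)
    (h1 : θ a ≤ U) (h2 : θ c ≤ U) : In A θ (Gn A θ) := by
  obtain ⟨M, m1, hM⟩ := hU.ma
  replace h1 := h1.trans m1
  replace h2 := h2.trans m1
  have hb := mul_sharp h.elem ha hc ne
  have ba : a * c * a = c := by rw [h.elem.abel.comm ha.1 hc.1, mul_assoc, sq1 h.elem ha.1, mul_one]
  have cv : ∀ B, Hy A B → a ∈ B ∨ c ∈ B ∨ a * c ∈ B := fun B hB => by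
    have := hB.mul a ha.1 c hc.1; tauto
  generalize a * c = b at hb ba cv
  have zb := zpowers_le.2 hb.1
  have g := fun K (k : In A θ K) d (hd : d ∈ A) => fourG (sq1 h.elem hb.1) (sq1 h.elem hd)
    (h.elem.abel.comm hb.1 hd) k.odd (k.inv hb.1) (k.inv hd)
  have kb : ∀ K, In A θ K → ⁅K, zpowers b⁆ ≤ ⁅M, zpowers b⁆ := fun K k =>
    (g K k a ha.1).trans (sup_le (comm_mono ((k.le a ha).trans h1) le_rfl)
      (comm_mono (ba.symm ▸ (k.le c hc).trans h2) le_rfl))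
  have h3 : θ b ≤ M := by
    by_cases e : ⁅M, zpowers b⁆ = ⊥
    · exact (hM.max _ (h.self hb) ((le_inf le_rfl (cent_zpowers b ▸ comm_eq_bot_iff'.1 e)).trans
        (hM.le b hb))).le
    refine genH h.elem (h.odd b hb) (h.inv b hb) fun B hB => ?_
    rcases cv B hB with q | q | q
    · exact ((h.self hb).hyp ha q).trans h1
    · exact ((h.self hb).hyp hc q).trans h2
    obtain ⟨d, d1, d2⟩ := ex_ne (h.hy hB) b
    have d3 : d ∈ sharp A := ⟨hB.le d1.1, d1.2⟩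
    have d4 := mul_sharp h.elem hb d3 d2.symm
    have n : θ b ⊓ 𝒞 B ≤ 𝒩 (zpowers b) :=
      le_norm_of_le_cent (inf_le_right.trans (cent_anti (zpowers_le.2 q)))
    refine h.no hM e ⟨comm_le_left (zb.trans hM.inv), left_le_norm_comm _ _⟩
      (le_norm_comm hM.inv (h.nz hb.1)) _ ((h.self hb).infc (h.elem.abel.le_norm hB.le)) ?_
    rw [le_antisymm ((g M hM.1 d d3.1).trans (sup_le_sup (comm_mono (hM.le d d3) le_rfl)
      (comm_mono (hM.le _ d4) le_rfl))) (sup_le (kb _ (h.self d3)) (kb _ (h.self d4)))]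
    exact le_norm_sup (le_norm_comm (le_norm_of_le ((h.self hb).hyp d3 d1.1)) n)
      (le_norm_comm (le_norm_of_le ((h.self hb).hyp d4 (mul_mem q d1.1))) n)
  refine hM.1.sub (Gn_le fun e he => genH h.elem (h.odd e he) (h.inv e he) fun B hB => ?_) h.norm_Gn
  rcases cv B hB with q | q | q
  exacts [((h.self he).hyp ha q).trans h1, ((h.self he).hyp hc q).trans h2,
    ((h.self he).hyp hb q).trans h3]

/-- `M` contains all `θ(A)`-invariant `θ`-subgroups that are `π`-groups -/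
def Cov (A : Subgroup G) (θ : G → Subgroup G) (π : Set ℕ) (M : Subgroup G) : Prop :=
  ∀ U, In A θ U → PiG π U → Dd A θ ≤ 𝒩 U → U ≤ M

theorem le_norm_sSup {S : Set (Subgroup G)} (h : ∀ U ∈ S, K ≤ 𝒩 U) : K ≤ 𝒩 (sSup S) := fun g hg =>
  inv_mem_iff.1 (mem_norm_of_cj_le (le_cj_iff.1 (sSup_le fun U hU =>
    (cj_eq_of_mem_norm (h U hU hg)).ge.trans (cj_mono g (le_sSup hU)))))

theorem Fn.dvd (h : Fn A θ) (hr : r.Prime) (hU : In A θ U) (h1 : r ∣ ♯U) : ∃ a ∈ sharp A, r ∣ ♯(θ a) := by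
  haveI := Fact.mk hr
  obtain ⟨P, p1, p2⟩ := (caE h.elem hU.odd hU.inv).exists_syl hr
  by_contra! q
  exact p1.ne_bot h1 (eq_bot_iff.2 (h.le_of (hU.sub p1.le p2) fun a ha => (not_not.1 fun e =>
    q a ha ((dvd_card_of_pgroup hr p1.isPGroup.to_inf_right e).trans (card_dvd inf_le_left))).le))

theorem Fn.exW (h : Fn A θ) (ft : OddOrder) (ih : ∀ σ, Fn A σ → (∀ a ∈ sharp A, σ a ≤ θ a) →
    (∃ a ∈ sharp A, σ a ≠ θ a) → In A σ (Gn A σ)) (hr : r.Prime) (hπ : r ∉ π) (hU : In A θ U)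
    (h1 : r ∣ ♯U) : ∃ W, In A θ W ∧ PiG π W ∧ Dd A θ ≤ 𝒩 W ∧ Cov A θ π W := by
  obtain ⟨σ, s⟩ : ∃ σ : G → Subgroup G, ∀ a ∈ sharp A,
      (σ a ≤ θ a ∧ A ≤ 𝒩 (σ a) ∧ Dd A θ ≤ 𝒩 (σ a) ∧ PiG π (σ a)) ∧
      ∀ V, V ≤ θ a ∧ A ≤ 𝒩 V ∧ Dd A θ ≤ 𝒩 V ∧ PiG π V → V ≤ σ a := by
    refine ⟨fun a => sSup {V | V ≤ θ a ∧ A ≤ 𝒩 V ∧ Dd A θ ≤ 𝒩 V ∧ PiG π V}, fun a ha =>
      ⟨⟨sSup_le fun V q => q.1, le_norm_sSup fun V q => q.2.1, le_norm_sSup fun V q => q.2.2.1, ?_⟩,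
        fun V q => le_sSup q⟩⟩
    have ca := caE h.elem (h.odd a ha) (h.inv a ha)
    have so : Sol (θ a) := ft _ (h.odd a ha)
    obtain ⟨H, h2, h3⟩ := ca.exists_hall so π
    refine h2.pi.mono (sSup_le fun V q => ?_)
    obtain ⟨K, k1, k2, k3⟩ := ca.exists_hall_ge so h.elem.abel.sol q.2.2.2 q.1 q.2.1
    obtain ⟨d, d1, rfl⟩ := ca.hall_conj so k1 h2 k2 h3
    exact (cj_eq_of_mem_norm (q.2.2.1 ((h.self ha).le_Dd d1))).ge.trans (cj_mono d k3)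
  have f : Fn A σ := ⟨h.elem, h.big, fun a ha => odd_of_le (h.odd a ha) (s a ha).1.1,
    fun a ha => (s a ha).1.1.trans (h.cen a ha), fun a ha => (s a ha).1.2.1, fun a ha b hb =>
      (s b hb).2 _ ⟨(inf_le_inf_right _ (s a ha).1.1).trans (h.bal a ha b hb),
        le_norm_inf (s a ha).1.2.1 (h.nc hb.1), le_norm_inf (s a ha).1.2.2.1
          (le_norm_cent1 (Dd_c1 hb.1)), (s a ha).1.2.2.2.mono inf_le_left⟩⟩
  obtain ⟨a, ha, d⟩ := h.dvd hr hU h1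
  have w := ih σ f (fun a ha => (s a ha).1.1) ⟨a, ha, fun e => (s a ha).1.2.2.2.not_dvd hr hπ (e ▸ d)⟩
  refine ⟨_, ⟨w.odd, w.inv, fun a ha => (w.le a ha).trans (s a ha).1.1⟩, fun q q1 q2 => ?_,
    fun g hg => inv_mem_iff.1 (mem_norm_of_cj_le (le_cj_iff.1 (Gn_le fun a ha =>
      (cj_eq_of_mem_norm ((s a ha).1.2.2.1 hg)).ge.trans (cj_mono g (le_Gn ha))))),
    fun V v1 v2 v3 => h.le_of v1 fun a ha => ((s a ha).2 _ ⟨inf_le_left, le_norm_inf (h.inv a ha) v1.inv,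
      le_norm_inf (le_norm_of_le (Dd_le ha)) v3, v2.mono inf_le_right⟩).trans (le_Gn ha)⟩
  obtain ⟨a, ha, d⟩ := f.dvd q1 w q2
  exact (s a ha).1.2.2.2 q q1 d

theorem Fn.quo (h : Fn A θ) (hK : In A θ K) (h0 : K ≠ ⊥) (nK : Gn A θ ≤ 𝒩 K) :
    ∃ (Y : Type) (_ : Group Y) (_ : Finite Y) (B : Subgroup Y) (σ : Y → Subgroup Y),
      Nat.card Y < Nat.card G ∧ Fn B σ ∧ (Odd ♯(Gn B σ) → Odd ♯(Gn A θ)) := by
  have l : K ≤ Gn A θ := h.le_of hK fun a ha => inf_le_left.trans (le_Gn ha)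
  obtain ⟨Y, _, _, f, hf, e⟩ := exists_quo (M := Gn A θ ⊔ A) ⟨l.trans le_sup_left, sup_le nK hK.inv⟩
  have inj : Set.InjOn f {a | (a : G) ∈ A} := fun x hx y hy q => by
    refine Subtype.ext (mul_inv_eq_one.1 (eq_one_of_mem (inf_eq_bot_of_cop (cop2 h.elem hK.odd))
      ⟨e.le (coe_mem_up.2 (show f (x * y⁻¹) ∈ ⊥ by simp [q])), A.mul_mem hx (A.inv_mem hy)⟩))
  let σ : Y → G := fun y => Subtype.val (Function.invFunOn f {a | (a : G) ∈ A} y)
  have σ1 : ∀ x : ↥(Gn A θ ⊔ A), (x : G) ∈ A → σ (f x) = x := fun x hx =>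
    congrArg Subtype.val (inj.leftInvOn_invFunOn hx)
  have sh : ∀ y ∈ sharp (down f A), ∃ x : ↥(Gn A θ ⊔ A), (x : G) ∈ sharp A ∧ f x = y :=
    fun y hy => let ⟨x, h1, h2⟩ := mem_down.1 hy.1
      ⟨x, ⟨h1, fun q => hy.2 (by rw [← h2, show x = 1 from Subtype.ext q, map_one])⟩, h2⟩
  have sh' : ∀ x : ↥(Gn A θ ⊔ A), (x : G) ∈ sharp A → f x ∈ sharp (down f A) := fun x hx =>
    ⟨mem_down_of_mem hx.1, fun q => hx.2 (congrArg Subtype.val
      (inj hx.1 (A.one_mem) (q.trans (map_one f).symm)))⟩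
  have dc : ∀ U, Odd ♯U → A ≤ 𝒩 U → ∀ x : ↥(Gn A θ ⊔ A), (x : G) ∈ A →
      down f (U ⊓ 𝒞₁ (x : G)) = down f U ⊓ 𝒞₁ (f x) := fun U o n x hx => by
    rw [← cent_zpowers, ← cent_zpowers, ← down_zpowers,
      (R.ca2 (sq1 h.elem hx) (n hx) o).down_cent f (zpowers_le.2 x.2)]
  refine ⟨Y, _, ‹_›, down f A, fun y => down f (θ (σ y)), ?_, ?_, fun o => ?_⟩
  · rw [← card_top (G := Y), ← down_top hf]
    exact (card_down_lt le_rfl (by rwa [e, inf_eq_left.2 (l.trans le_sup_left)])).trans_le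
      (card_le_card_group _)
  · refine ⟨h.elem.down f, (card_down_eq le_sup_right
      (e ▸ inf_eq_bot_of_cop (cop2 h.elem hK.odd))).symm ▸ h.big, fun y hy => ?_, fun y hy => ?_,
      fun y hy => ?_, fun y hy z hz => ?_⟩ <;> obtain ⟨x, hx, rfl⟩ := sh y hy <;> rw [σ1 x hx.1]
    · exact odd_down f (h.odd x hx)
    · rw [← inf_eq_left, ← dc _ (h.odd x hx) (h.inv x hx) x hx.1, inf_eq_left.2 (h.cen x hx)]
    · exact down_le_norm f (h.inv x hx)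
    · obtain ⟨w, hw, rfl⟩ := sh z hz
      rw [σ1 w hw.1, ← dc _ (h.odd x hx) (h.inv x hx) w hw.1]
      exact down_mono f (h.bal x hx w hw)
  rw [← card_down_mul' (f := f) le_sup_left (e.le.trans l), e]
  refine hK.odd.mul (odd_of_le o ((down_le_iff' le_sup_left).2 (Gn_le fun c hc => ?_)))
  rw [← down_le_iff' ((le_Gn hc).trans le_sup_left)]
  exact (le_Gn (sh' ⟨c, mem_sup_right hc.1⟩ hc)).trans' (by rw [σ1 _ hc.1])

/-- the minimal counterexample -/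
structure Mc (A : Subgroup G) (θ : G → Subgroup G) : Prop extends Lc A θ where
  c8 : ♯A = 8
  g2 : ∀ a ∈ sharp A, ∀ c ∈ sharp A, a ≠ c → ∀ U, In A θ U → θ a ≤ U → ¬ θ c ≤ U
  exW : ∀ π r U, r.Prime → r ∉ π → In A θ U → r ∣ ♯U →
    ∃ W, In A θ W ∧ PiG π W ∧ Dd A θ ≤ 𝒩 W ∧ Cov A θ π W

theorem sfg_of (ft : OddOrder) (H : ∀ (G : Type) [Group G] [Finite G] (A : Subgroup G)
    (θ : G → Subgroup G), ¬ Mc A θ) (h : Fn A θ) : In A θ (Gn A θ) := by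
  induction hn : Nat.card G using Nat.strong_induction_on generalizing G with | _ n ih
  obtain ⟨B', b1, b2⟩ := Sylow.exists_subgroup_le_card_pow_prime_of_le_card (n := 3) (H := ⊤)
    Nat.prime_two h.elem.pgroup (by simpa using h.big)
  have b3 : ♯(B'.map A.subtype) = 8 := (card_subtype A B').trans b2
  have b4 := map_subtype_le B'
  generalize B'.map A.subtype = B at b3 b4
  have f := h.sub b4 b3.ge
  refine complete ft h (odd_of_le (B := Gn B θ) ?_ (Gn_le fun a ha => gen1 f.elem f.two (h.odd a ha)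
    (b4.trans (h.inv a ha)) fun b hb => (h.bal a ha b ⟨b4 hb.1, hb.2⟩).trans (le_Gn hb)))
  refine In.odd (θ := θ) (A := B) ?_
  clear h b4 b1 b2 B' A
  induction hm : {x : G × G | x.1 ∈ sharp B ∧ x.2 ∈ θ x.1}.ncard using Nat.strong_induction_on
    generalizing θ with | _ m ih2
  have ih3 : ∀ σ, Fn B σ → (∀ a ∈ sharp B, σ a ≤ θ a) → (∃ a ∈ sharp B, σ a ≠ θ a) →
      In B σ (Gn B σ) := fun σ s1 s2 ⟨a, ha, s3⟩ => ih2 _ (hm ▸ Set.ncard_lt_ncard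
        ⟨fun x hx => ⟨hx.1, s2 _ hx.1 hx.2⟩, fun q => s3 (le_antisymm (s2 a ha) fun y hy =>
          (q (show (a, y) ∈ _ from ⟨ha, hy⟩)).2)⟩) s1 rfl
  by_contra hc
  have l : Lc B θ := ⟨f, ft, fun Y y1 y0 => by
    have w := ih3 _ (f.inf (le_norm_norm y1.inv)) (fun _ _ => inf_le_left) (by
      by_contra! q
      obtain ⟨Y, _, _, C, σ, c1, c2, c3⟩ := f.quo y1 y0 (Gn_le fun a ha => (q a ha).ge.trans inf_le_right)
      exact hc (complete ft f (c3 (ih _ (hn ▸ c1) c2 rfl).odd)))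
    exact ⟨_, ⟨w.odd, w.inv, fun a ha => (w.le a ha).trans inf_le_left⟩, fun U u1 u2 =>
      f.le_of u1 fun a ha => (inf_le_inf_left _ u2).trans (le_Gn (θ := fun a => θ a ⊓ 𝒩 Y) ha)⟩⟩
  exact H G B θ ⟨l, b3, fun a ha c h1 ne U u1 u2 u3 => hc (l.two2 ha h1 ne u1 u2 u3),
    fun π r U => f.exW ft ih3⟩

end Cfsg.GS.SFx
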