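import Cfsg.Agent.GS.Y6
import Cfsg.Agent.GS.E1

/-! `W8b`: rank `3`, `S = A × R` with `R ≠ 1`. -/

set_option autoImplicit false

namespace Cfsg.GS.Ox

open Subgroup Cfsg.L0 Cfsg.H8 Cfsg.FT Cfsg.BS Cfsg.BS.R Cfsg.GS.T3 Cfsg.GS.T4 Cfsg.GS.Kx Cfsg.GS.Yx
open scoped commutatorElement

variable {G : Type} [Group G] [Finite G] {A H L R S W X : Subgroup G} {a b c x y z : G}

/-- a component centralized by an element of `A`, `|A| = 8` -/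
theorem c0 (h : St H S A) (he : Elem 2 A) (h8 : ♯A = 8) (hL : Cp L H) (n : ¬ A ≤ 𝒞 L) (ha : a ∈ A)
    (h1 : a ∈ 𝒞 L) (a1 : a ≠ 1) : H ≤ 𝒞₁ a := by
  have two : ∀ K, Cp K H → ¬ A ≤ 𝒞 K → ♯(𝒞 K ⊓ A) ≤ 2 := fun K k1 k2 => by
    have := card_inf_mul_ri (𝒞 K) A
    nlinarith [fourA h k1 k2 he]
  have eq : ∀ x ∈ 𝒞 L ⊓ A, x ≠ 1 → x = a := fun x hx x1 => eq_of_card_two (le_antisymm (two L hL n)
    (one_lt_card (ne_bot_of_mem hx x1))) hx ⟨h1, ha⟩ x1 a1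
  have fix : ∀ g ∈ 𝒩 L, g ∈ 𝒩 A → g * a * g⁻¹ = a := fun g g1 g2 => eq _
    ⟨conj_mem_of_norm (norm_le_norm_cent L g1) h1, conj_mem_of_norm g2 ha⟩ (conj_ne_one a1 g)
  have uq : ∀ K, Cp K H → ¬ A ≤ 𝒞 K → K = L := fun K k1 k2 => by_contra fun ne => by
    by_cases i : a ∈ 𝒞 K
    · refine ne (uniq h k1 k2 he hL fun x hx => ?_).symm
      by_cases x1 : x = 1
      · exact x1 ▸ one_mem _
      · exact eq x ⟨hx.2, hx.1⟩ x1 ▸ i
    obtain ⟨y, y1, y2⟩ := SetLike.not_le_iff_exists.1 (show ¬ A ≤ 𝒞 K ⊓ A ⊔ zpowers a from fun e => by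
      have := (card_le e).trans (Nat.le_of_dvd (Nat.mul_pos (card_pos' _) (card_pos' _))
        (card_sup_dvd ((zpowers_le.2 ha).trans (he.abel.le_norm inf_le_right))))
      rw [card_zpow, he.orderOf_eq Nat.prime_two ha a1] at this
      have := two K k1 k2
      omega)
    obtain ⟨g, g1, g2⟩ := trA h k1 k2 he ha y1 i fun e => y2 (mem_sup_left ⟨e, y1⟩)
    rw [fix g (cent_le_norm L (k1.cent hL ne g1.1)) g1.2] at g2
    exact y2 (by simpa using mul_mem (inv_mem (mem_sup_left (T := zpowers a)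
      (show _ ∈ 𝒞 K ⊓ A from ⟨g2, A.mul_mem ha (A.inv_mem y1)⟩))) (mem_sup_right (mem_zpowers a)))
  refine h.gen' (fun g hg => mem_cent1.2 (mul_inv_eq_iff_eq_mul.1 (fix g (cj_eq_iff.1 (uq _
    (hL.cj (le_norm H hg.1)) fun e => n ?_)) hg.2))) fun K k1 k2 => uq K k1 k2 ▸ le_cent1_iff.2 h1
  rwa [← cj_cent, le_cj_iff, cj_eq_of_mem_norm (inv_mem hg.2)] at e

/-- balance in a proper subgroup containing `A` -/
theorem balH (h : Mg S A) (h8 : ♯A = 8) (h1 : H ≠ ⊤) (h2 : A ≤ H) (ha : a ∈ A) (a1 : a ≠ 1)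
    (hb : ∀ b ∈ A, b ≠ 1 → H ⊓ 𝒩 A ≤ 𝒞₁ b → O2 (𝒞₁ a) ⊓ 𝒞₁ b ≤ O2 (𝒞₁ b)) :
    O2 (𝒞₁ a) ⊓ H ≤ O2 H := by
  obtain ⟨Q, _, _, f, r⟩ := exBr h1 h2
  obtain ⟨P, -, -, s⟩ := r.exP h
  have he := h.elem
  have cA : ♯(down f A) = 8 := (card_down_eq h2 (r.k0 he.pgroup)).trans h8
  have key : ∀ (b : H) (X : Subgroup G), (b : G) ∈ A → X ≤ O2 (𝒞₁ (b : G)) →
      down f (X ⊓ H) ≤ O2 (⊤ ⊓ 𝒞₁ (f b)) := fun b X b1 e => by
    rw [← down_top r.surj, ← down_cent1 r.ker (SFx.sq1 he b1)]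
    exact le_trans (down_mono f (le_trans (le_inf (inf_le_left.trans e) (le_inf inf_le_right
      (inf_le_left.trans (e.trans (Op_le _ _))))) (Op_inf_le _ inf_le_right))) (down_Op_le f _ _)
  refine ((down_eq_bot_iff inf_le_right).1 ?_).trans r.ker.le
  by_cases e : ∃ L, Cp L ⊤ ∧ ¬ down f A ≤ 𝒞 L ∧ down f A ⊓ 𝒞 L ≠ ⊥
  · obtain ⟨L, hL, n, e⟩ := e
    obtain ⟨_, ⟨b0, b2⟩, b3⟩ := exists_ne_one e
    obtain ⟨b, b1, rfl⟩ := exists_of_mem_down (show _ ∈ down f A from b0)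
    have c := c0 s (he.down f) cA hL n (mem_down_of_mem b1) b2 b3
    have zb := zpowers_le.2 b1
    have i := (mkCA_p Nat.prime_two (zb.trans (le_norm_inf (le_norm_Op _ ((he.abel.trans
      (cent_le_cent1 ha)).trans (le_norm _))) (h2.trans (le_norm H)))) (he.pgroup.to_le zb)
      (odd_of_le (odd_O2 (𝒞₁ a)) inf_le_left).not_two_dvd_nat).down_cent f (zb.trans h2)
    have j := key b _ b1 (hb b b1 (fun e => b3 (by rw [show b = 1 from Subtype.ext e, map_one]))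
      fun g hg => mem_cent1.2 (Cx.comm_of_c (r.one he.pgroup (x := ⟨g, hg.1⟩ * b * (⟨g, hg.1⟩ : H)⁻¹ * b⁻¹)
        (mul_mem (conj_mem_of_norm hg.2 b1) (inv_mem b1))
        (by rw [map_mul, map_mul, map_mul, mem_cent1.1 (c (mem_top _))]; simp))))
    rw [inf_eq_left.2 c, s.o, inf_right_comm, ← cent_zpowers (b : G)] at j
    refine eq_bot_of_le (eq_bot_iff.2 (i.ge.trans j)) (le_inf le_rfl ?_)
    exact (down_zpowers f b).symm ▸ cent_zpowers (f b) ▸ le_top.trans c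
  push Not at e
  refine balE s (he.down f) (down_mono f (zpowers_le.2 ha)) (fun i => a1 (r.one he.pgroup
    (x := ⟨a, h2 ha⟩) ha (eq_one_of_mem i (mem_down_of_mem (mem_zpowers a))))) ?_ fun L hL n _ => ?_
  · rintro _ ⟨x, hx, rfl⟩ x1
    obtain rfl : a = x := ((Ux.zpow_cases (he.pow ha) hx).resolve_left fun i =>
      x1 (by rw [show x = 1 from Subtype.ext i, map_one])).symm
    exact key x _ ha le_rfl
  · rw [← inf_relIndex_left, e L hL n, relIndex_bot_left, cA]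

/-- the local data of `W8` -/
structure Lq {Q : Type} [Group Q] (A R : Subgroup G) (a : G) (f : 𝒞₁ a →* Q) (L : Subgroup Q) : Prop
    extends Lo A (zpowers a) f L where
  nrm : L.Normal
  smp : Smp L
  cR : down f R ≤ 𝒞 L

section
variable (h : W8 S A R)
include h

theorem exq (ha : a ∈ A) (a1 : a ≠ 1) : ∃ (Q : Type) (_ : Group Q) (_ : Finite Q) (f : 𝒞₁ a →* Q)
    (L : Subgroup Q), Lq A R a f L := by
  obtain ⟨Q, _, _, f, L, F, _, _, hf, hk, hL, q, -, ⟨φ⟩, s, c⟩ := h.loc a ha a1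
  have := Matrix.ProjectiveSpecialLinearGroup.rank_two_simple (F := F) (by
    rw [Nat.card_eq_fintype_card]; omega)
  have := φ.isSimpleGroup
  have nc : ¬ IsMulCommutative L := fun e => H3.not_comm_PSL2 (F := F) fun x y => by
    obtain ⟨x, rfl⟩ := φ.surjective x
    obtain ⟨y, rfl⟩ := φ.surjective y
    rw [← map_mul, ← map_mul, e.1.1]
  have ev := (even_of_simple oddOrder nc).two_dvd
  have sm : Smp L := ⟨fun N hN => (hN.normal.eq_bot_or_eq_top).imp (fun e => (inf_eq_left.2 hN.le).symm.trans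
    (disjoint_iff.1 (subgroupOf_eq_bot.1 e))) fun e => le_antisymm hN.le (subgroupOf_eq_top.1 e),
    fun e => nc (abel_iff.1 e), ev⟩
  have AC : A ≤ 𝒞₁ a := h.elem.abel.trans (cent_le_cent1 ha)
  have r : Br A f := ⟨fun e => Mg.nn h.toMg (zpowers_ne_bot.2 a1) (zpowers_le.2 (self_mem_cent1 a)) a1
    (top_le_iff.1 (e.ge.trans ((cent_zpowers a).ge.trans (cent_le_norm _)))), AC, hf, hk⟩
  have l := r.lo ⟨(nrm_top_iff.2 hL).sn, sm.se.qs⟩ fun e => s.ne_bot ev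
    (eq_bot_of_le sm.ctr (le_inf inf_le_right (inf_le_left.trans e)))
  have e : zpowers a = A ⊓ up f (𝒞 L) := eq_of_card_le (zpowers_le.2 ⟨ha, r.self L⟩) (by
    have := card_mul_ri l.le'
    rw [card_zpow, h.elem.orderOf_eq Nat.prime_two ha a1]
    nlinarith [l.four h.toMg, h.card])
  exact ⟨Q, _, ‹_›, f, L, e ▸ l, hL, sm, c⟩

omit [Finite G] in
theorem RS : R ≤ S := h.sup ▸ le_sup_right

omit [Finite G] in
theorem SC' (ha : a ∈ A) : S ≤ 𝒞₁ a :=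
  h.sup ▸ (sup_le h.elem.abel h.cm).trans (cent_le_cent1 ha)

variable (hz : z ∈ R) (z2 : z * z = 1)
include hz

theorem tra (hx : x ∈ A) (hy : y ∈ A) (x1 : x ≠ 1) (y1 : y ≠ 1) :
    ∃ d ∈ 𝒩 A ⊓ 𝒞₁ z, d * x * d⁻¹ = y := by
  have he := h.elem
  have key : ∀ x ∈ A, ∀ y ∈ A, ∀ w ∈ A, x ≠ 1 → y ≠ 1 → w ≠ 1 → w ≠ y → w ≠ x * y →
      ∃ d ∈ 𝒩 A ⊓ 𝒞₁ z, d * x * d⁻¹ = y ∨ d * x * d⁻¹ = w := fun x hx y hy w hw x1 y1 w1 w2 w3 => by
    have yy := SFx.sq1 he hy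
    have a1 : w * y ≠ 1 := fun e => w2 (mul_right_cancel (e.trans yy.symm))
    have m := fun u (hu : u ∈ zpowers (w * y)) => Ux.zpow_cases (he.pow (mul_mem hw hy)) hu
    obtain ⟨Q, _, _, f, L, l⟩ := exq h (mul_mem hw hy) a1
    obtain ⟨d, d1, d2⟩ := Lo.out l.toLo h.toMg (SC' h (mul_mem hw hy)) ⟨RS h hz,
      (down_le_iff' ((RS h).trans (SC' h (mul_mem hw hy)))).1 l.cR hz⟩ hx hy
      (fun e => (m x e).elim x1 fun i => w3 (by rw [i, mul_assoc, yy, mul_one]))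
      fun e => (m y e).elim y1 fun i => w1 (right_eq_mul.1 i)
    exact ⟨d, ⟨d1.1.2, d1.2⟩, (m _ d2).imp mul_inv_eq_one.1 fun i => by
      rw [mul_inv_eq_iff_eq_mul.1 i, mul_assoc, yy, mul_one]⟩
  obtain ⟨w, hw, w0⟩ := Set.exists_mem_notMem_of_ncard_lt_ncard (s := {1, x, y, x * y})
    (t := (A : Set G)) (by
      rw [← Nat.card_coe_set_eq (A : Set G)]
      exact (Set.ncard_insert_le _ _).trans_lt (by
        have := Set.ncard_insert_le x {y, x * y}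
        have := Set.ncard_insert_le y {x * y}
        have := Set.ncard_singleton (x * y)
        exact lt_of_lt_of_eq (by omega) h.card.symm))
  simp only [Set.mem_insert_iff, Set.mem_singleton_iff, not_or] at w0
  obtain ⟨w1, w2, w3, w4⟩ := w0
  obtain ⟨d, d1, e | e⟩ := key x hx y hy w hw x1 y1 w1 w3 w4
  · exact ⟨d, d1, e⟩
  obtain ⟨c, c1, i | i⟩ := key y hy x hx w hw y1 x1 w1 w2 (he.abel.comm hx hy ▸ w4)
  · exact ⟨c⁻¹, inv_mem c1, by rw [← i]; group⟩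
  · exact ⟨c⁻¹ * d, mul_mem (inv_mem c1) d1, by
      calc _ = c⁻¹ * (d * x * d⁻¹) * c := by group
        _ = _ := by rw [e, ← i]; group⟩

theorem balz (z1 : z ≠ 1) (ha : a ∈ A) (a1 : a ≠ 1) : O2 (𝒞₁ a) ⊓ 𝒞₁ z ≤ O2 (𝒞₁ z) :=
  balH h.toMg h.card (fun e => Mg.nn h.toMg (zpowers_ne_bot.2 z1) (zpowers_le.2 (self_mem_cent1 z)) z1
    (top_le_iff.1 (e.ge.trans ((cent_zpowers z).ge.trans (cent_le_norm _)))))
    (le_cent1_iff.2 (h.cm hz)) ha a1 fun b b1 b2 e => by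
      obtain ⟨c, c1, c2⟩ := SFx.ex_ne (B := A) (by have := h.card; omega) b
      obtain ⟨d, d1, d2⟩ := tra h hz b1 c1.1 b2 c1.2
      rw [mem_cent1.1 (e ⟨d1.2, d1.1⟩), mul_inv_cancel_right] at d2
      exact (c2 d2.symm).elim

end

namespace Lq
variable {Q : Type} [Group Q] [Finite Q] {f : 𝒞₁ a →* Q} {L : Subgroup Q} (l : Lq A R a f L)
include l

omit [Finite G] [Finite Q] in
theorem nL {Y : Subgroup Q} : Y ≤ 𝒩 L := le_top.trans (nrm_top_iff.2 l.nrm).norm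

omit [Finite Q] in
theorem cen {b : 𝒞₁ a} (b2 : (b : G) * b = 1) : down f (𝒞₁ a ⊓ 𝒞₁ (b : G)) = 𝒞₁ (f b) := by
  rw [down_cent1 l.ker b2, down_top l.surj, top_inf_eq]

omit [Finite Q] in
theorem p1 {b : 𝒞₁ a} (b2 : (b : G) * b = 1) (h1 : f b ∈ 𝒞 L) :
    down f (O2 (𝒞₁ (b : G)) ⊓ 𝒞₁ a) ≤ 𝒞 L := by
  have n : L ≤ 𝒩 (down f (O2 (𝒞₁ (b : G)) ⊓ 𝒞₁ a)) := (le_cent1_iff.2 h1).trans ((l.cen b2).ge.trans
    (down_le_norm f (le_norm_inf (inf_le_right.trans (Op_nrm _ _).norm) (inf_le_left.trans (le_norm _)))))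
  exact le_cent_of_inf_eq_bot l.nL n ((l.smp.simple _ ⟨inf_le_right, le_norm_inf n (le_norm L)⟩
    ).resolve_right fun e => (odd_of_le (odd_down f (odd_of_le (odd_O2 _) inf_le_left))
      (e.ge.trans inf_le_left)).not_two_dvd_nat l.smp.even)

theorem AL (h : Mg S A) : down f A ≤ L ⊔ zpowers (f ⟨a, self_mem_cent1 a⟩) := by
  refine (down_mono f (l.split h)).trans ?_
  rw [down_sup f (inf_le_left.trans l.le) (l.le'.trans l.le), down_zpowers f ⟨a, self_mem_cent1 a⟩]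
  exact sup_le_sup_right ((down_inf_up f A L).le.trans inf_le_right) _

omit [Finite G] [Finite Q] in
theorem za : ⊤ ≤ 𝒞 (zpowers (f ⟨a, self_mem_cent1 a⟩)) := fun g _ => by
  obtain ⟨g, rfl⟩ := l.surj g
  rw [cent_zpowers, mem_cent1, ← map_mul, ← map_mul]
  exact congrArg f (Subtype.ext (mem_cent1.1 g.2))

theorem cA (h : Mg S A) : 𝒞 L ≤ 𝒞 (down f A) :=
  (le_inf le_rfl (le_top.trans l.za)).trans ((cent_sup _ _).ge.trans (cent_anti (l.AL h)))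

end Lq

section
variable (h : W8 S A R) (hz : z ∈ R) (z2 : z * z = 1) (z1 : z ≠ 1)
include h hz z2

theorem ncl_le_z (ha : a ∈ A) (a1 : a ≠ 1) : ncl (𝒞₁ a) A ≤ O2 (𝒞₁ a) ⊔ 𝒞₁ a ⊓ 𝒞₁ z := by
  obtain ⟨Q, _, _, f, L, l⟩ := exq h ha a1
  have zC := SC' h ha (RS h hz)
  refine (ncl_le ((down_le_iff' l.le).1 (l.AL h.toMg)) (le_norm_up le_rfl (le_norm_sup l.nL
    (le_top.trans (le_norm_of_le_cent l.za))))).trans (up_le_of_le_down (sup_le (Op_le _ _) inf_le_left)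
    (l.ker.le.trans le_sup_left) (le_trans ?_ (down_mono f le_sup_right)))
  refine le_trans (le_cent1_iff.2 ?_) (l.cen (b := ⟨z, zC⟩) z2).ge
  rw [cent_sup]
  exact ⟨l.cR (mem_down_of_mem hz), l.za trivial⟩

omit z2 in
/-- `[C(a z) ∩ C(c), a] ≤ O(C(c))` -/
theorem comm_az (ha : a ∈ A) (hc : c ∈ A) (c1 : c ≠ 1) :
    ⁅O2 (𝒞₁ (a * z)) ⊓ 𝒞₁ c, zpowers a⁆ ≤ O2 (𝒞₁ c) := by
  obtain ⟨Q, _, _, f, L, l⟩ := exq h hc c1
  have zC := SC' h hc (RS h hz)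
  have za := zpowers_le.2 (l.le ha)
  refine ((down_le_cent_iff' inf_le_right za).1 fun y hy => ?_).trans l.ker.le
  obtain ⟨x, hx, rfl⟩ := exists_of_mem_down hy
  rw [down_zpowers f ⟨a, l.le ha⟩, cent_zpowers, mem_cent1]
  have e : f x * (f ⟨a, l.le ha⟩ * f ⟨z, zC⟩) = f ⟨a, l.le ha⟩ * f ⟨z, zC⟩ * f x := by
    rw [← map_mul, ← map_mul, ← map_mul]
    exact congrArg f (Subtype.ext (mem_cent1.1 (Op_le _ _ hx.1)))
  have z3 : f ⟨z, zC⟩ ∈ 𝒞 L := l.cR (mem_down_of_mem hz)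
  obtain ⟨u, hu, v, hv, i⟩ := (mem_sup_l l.nL).1 (l.AL h.toMg (mem_down_of_mem (x := ⟨a, l.le ha⟩) ha))
  generalize f ⟨a, l.le ha⟩ = α at e i
  generalize f ⟨z, zC⟩ = ζ at e z3
  refine Cx.comm_of_c (l.smp.eq_one ?_ ?_)
  · convert mul_mem (conj_mem_of_norm (l.nL (mem_top (f x))) hu) (inv_mem hu) using 1
    rw [← i, ← mul_assoc, mul_assoc _ v, mem_cent.1 (l.za (mem_top (f x)⁻¹)) v hv]; group
  · convert conj_mem_of_norm (le_norm_cent l.nL (mem_top α)) (mul_mem z3 (conj_mem_of_norm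
      (le_norm_cent l.nL (mem_top (f x))) (inv_mem z3))) using 1
    calc _ = f x * (α * ζ) * ζ⁻¹ * (f x)⁻¹ * α⁻¹ := by group
      _ = _ := by rw [e]; group

theorem comm_z (ha : a ∈ A) (hc : c ∈ A) (c1 : c ≠ 1) :
    ⁅O2 (𝒞₁ z) ⊓ 𝒞₁ c, zpowers a⁆ ≤ O2 (𝒞₁ c) := by
  obtain ⟨Q, _, _, f, L, l⟩ := exq h hc c1
  exact ((down_le_cent_iff' inf_le_right (zpowers_le.2 (l.le ha))).1 ((l.p1 (b := ⟨z, SC' h hc (RS h hz)⟩)
    z2 (l.cR (mem_down_of_mem hz))).trans ((l.cA h.toMg).trans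
      (cent_anti (down_mono f (zpowers_le.2 ha)))))).trans l.ker.le

include z1

theorem bal (ha : a ∈ A) (a1 : a ≠ 1) (hb : b ∈ A) (b1 : b ≠ 1) :
    O2 (𝒞₁ a) ⊓ 𝒞₁ b ≤ O2 (𝒞₁ b) := by
  obtain ⟨Q, _, _, f, L, l⟩ := exq h hb b1
  have zC := SC' h hb (RS h hz)
  have zz := zpowers_le.2 zC
  have o := odd_of_le (odd_O2 (𝒞₁ a)) (inf_le_left : _ ⊓ 𝒞₁ b ≤ _)
  have n : 𝒞₁ b ⊓ 𝒞₁ a ≤ 𝒩 (O2 (𝒞₁ a) ⊓ 𝒞₁ b) :=
    le_norm_inf (inf_le_right.trans (Op_nrm _ _).norm) (inf_le_left.trans (le_norm _))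
  have nz := (le_inf zz (zpowers_le.2 (SC' h ha (RS h hz)))).trans n
  have z3 : f ⟨z, zC⟩ ∈ 𝒞 L := l.cR (mem_down_of_mem hz)
  have c : down f (O2 (𝒞₁ a) ⊓ 𝒞₁ b) ≤ 𝒞 L := by
    rw [← (mkCA_p Nat.prime_two nz (card_zp2 z2) o.not_two_dvd_nat).comm_sup_cent, down_sup f
      ((comm_le_left nz).trans inf_le_right) (inf_le_left.trans inf_le_right),
      down_commutator f inf_le_right zz, down_zpowers f ⟨z, zC⟩]
    refine sup_le (comm_le_of_le_of_norm (zpowers_le.2 z3) (le_norm_cent l.nL))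
      ((down_mono f ?_).trans (l.p1 (b := ⟨z, zC⟩) z2 z3))
    rw [cent_zpowers, inf_right_comm]
    exact inf_le_inf_right _ (balz h hz z1 ha a1)
  refine ((down_eq_bot_iff inf_le_right).1 (eq_bot_of_le (Op_down_eq_bot le_rfl l.ker)
    ((le_Op_compl Nat.prime_two (odd_down f o).not_two_dvd_nat ⟨c, ?_⟩).trans
      (Op_le_Op_of_nrm _ ⟨down_top l.surj ▸ le_top, le_norm_cent l.nL⟩)))).trans l.ker.le
  exact (l.cA h.toMg).trans ((cent_le_cent1 (mem_down_of_mem (x := ⟨a, l.le ha⟩) ha)).trans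
    ((l.cen (b := ⟨a, l.le ha⟩) (SFx.sq1 h.elem ha)).ge.trans (down_le_norm f n)))

theorem normW (w1 : Odd ♯W) (w2 : 𝒩 A ≤ 𝒩 W) (w3 : ∀ a ∈ A, a ≠ 1 → W ⊓ 𝒞₁ a = O2 (𝒞₁ a))
    (ha : a ∈ A) (a1 : a ≠ 1) : 𝒞₁ a ⊓ 𝒞₁ z ≤ 𝒩 W := by
  have he := h.elem
  have zA := h.cm hz
  have a2 := SFx.sq1 he ha
  have az := mem_cent.1 zA a ha
  have OW : ∀ c ∈ A, c ≠ 1 → O2 (𝒞₁ c) ≤ W := fun c i j => (w3 c i j).ge.trans inf_le_left
  have AW := (le_norm A).trans w2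
  obtain ⟨c, c1, c2⟩ := SFx.ex_ne (B := A) (by have := h.card; omega) a
  have ac := SFx.mul_sharp he ⟨ha, a1⟩ c1 c2.symm
  have key : ∀ b, b ≠ 1 → b ∈ 𝒞 A → 𝒞₁ a ⊓ 𝒞₁ z ≤ 𝒞₁ b →
      (∀ c ∈ A, c ≠ 1 → ⁅O2 (𝒞₁ b) ⊓ 𝒞₁ c, zpowers a⁆ ≤ O2 (𝒞₁ c)) →
      𝒞₁ a ⊓ 𝒞₁ z ≤ 𝒩 (W ⊓ 𝒞₁ b) := fun b b1 b2 b3 b4 => by
    have Ab := le_cent1_iff.2 b2
    have nb := Ab.trans (Op_nrm {2}ᶜ _).norm
    have n := le_norm_inf AW (Ab.trans (le_norm _))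
    have o := odd_of_le w1 (inf_le_left : W ⊓ 𝒞₁ b ≤ W)
    have i : W ⊓ 𝒞₁ b ≤ O2 (𝒞₁ b) := SFx.gen1 he (by have := h.card; omega) o n fun d hd => by
      rw [inf_right_comm, w3 d hd.1 hd.2]
      exact balH h.toMg h.card (fun e => Mg.nn h.toMg (zpowers_ne_bot.2 b1)
        (zpowers_le.2 (self_mem_cent1 b)) b1 (top_le_iff.1 (e.ge.trans ((cent_zpowers b).ge.trans
          (cent_le_norm _))))) Ab hd.1 hd.2 fun e e1 e2 _ => bal h hz z2 z1 hd.1 hd.2 e1 e2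
    have za := zpowers_le.2 ha
    have e : W ⊓ 𝒞₁ b = ⁅O2 (𝒞₁ b), zpowers a⁆ ⊔ O2 (𝒞₁ b) ⊓ O2 (𝒞₁ a) := le_antisymm
      ((mkCA_p Nat.prime_two (za.trans n) (card_zp2 a2) o.not_two_dvd_nat).comm_sup_cent.ge.trans
        (sup_le_sup (comm_mono i le_rfl) (le_inf (inf_le_left.trans i) (by
          rw [cent_zpowers, ← w3 a ha a1]; exact inf_le_inf_right _ inf_le_left))))
      (le_inf (sup_le ((SFx.fourG a2 (SFx.sq1 he c1.1) (he.abel.comm ha c1.1) (odd_O2 _) (nb ha)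
        (nb c1.1)).trans (sup_le ((b4 c c1.1 c1.2).trans (OW c c1.1 c1.2))
          ((b4 _ ac.1 ac.2).trans (OW _ ac.1 ac.2)))) (inf_le_right.trans (OW a ha a1)))
        (sup_le ((comm_le_left (za.trans nb)).trans (Op_le _ _)) (inf_le_left.trans (Op_le _ _))))
    have n1 := b3.trans (Op_nrm {2}ᶜ _).norm
    rw [e]
    exact le_norm_sup (le_norm_comm n1 (le_norm_of_le_cent (cent_zpowers a ▸ inf_le_left)))
      (le_norm_inf n1 (inf_le_left.trans (Op_nrm _ _).norm))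
  have zA' : z ∉ A := fun e => z1 (eq_one_of_mem h.inf ⟨e, hz⟩)
  have az1 : a * z ≠ 1 := fun e => zA' (eq_inv_of_mul_eq_one_right e ▸ inv_mem ha)
  have e : W = W ⊓ 𝒞₁ a ⊔ W ⊓ 𝒞₁ z ⊔ W ⊓ 𝒞₁ (a * z) := le_antisymm ?_
    (sup_le (sup_le inf_le_left inf_le_left) inf_le_left)
  · rw [e]
    refine le_norm_sup (le_norm_sup (w3 a ha a1 ▸ inf_le_left.trans (Op_nrm _ _).norm)
      (key z z1 zA inf_le_right fun c i j => comm_z h hz z2 ha i j))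
      (key _ az1 (mul_mem (he.abel ha) zA) (fun g hg => mem_cent1.2 ?_)
        fun c i j => comm_az h hz ha i j)
    exact (Commute.mul_right (mem_cent1.1 hg.1) (mem_cent1.1 hg.2)).eq
  have zW : z ∈ 𝒩 W := w2 (cent_le_norm A zA)
  have za := (zpowers_le.2 ha).trans AW
  have n : ∀ b, a * b = b * a → zpowers a ≤ 𝒩 (W ⊓ 𝒞₁ b) := fun b e =>
    le_norm_inf za ((zpowers_le.2 (mem_cent1.2 e)).trans (le_norm _))
  refine (mkCA_p Nat.prime_two za (card_zp2 a2) w1.not_two_dvd_nat).comm_sup_cent.ge.trans (sup_le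
    ((SFx.fourG a2 z2 az w1 (AW ha) zW).trans (sup_le ((comm_le_left (n z az)).trans
      (le_sup_of_le_left le_sup_right)) ((comm_le_left (n _ (by rw [mul_assoc, az]))).trans le_sup_right)))
    (cent_zpowers a ▸ le_sup_of_le_left le_sup_left))

end

theorem w8b : W8b := by
  intro G _ _ S A R h h0
  obtain ⟨z, hz, z1⟩ := exists_ne_one (Om_ne_bot Nat.prime_two (h.syl.isPGroup.to_le
    (inf_le_left.trans (RS h))) (inf_cent_ne_bot_of_pgroup Nat.prime_two (h.syl.isPGroup.to_le (RS h))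
      (h.syl.isPGroup.to_le (RS h)) (le_norm R) h0))
  obtain ⟨⟨hz, -⟩, z2⟩ := (abel_ctr R).mem_Om.1 hz
  rw [pow_two] at z2
  obtain ⟨W, w1, w2, w3⟩ := SFx.sf G A oddOrder h.simple h.elem h.card.ge h.irr
    fun H h1 h2 a ha a1 => balH h.toMg h.card h1 h2 ha a1 fun b b1 b2 _ => bal h hz z2 z1 ha a1 b1 b2
  have AC : ∀ a ∈ A, A ≤ 𝒞₁ a := fun a ha => h.elem.abel.trans (cent_le_cent1 ha)
  by_cases e : W = ⊥
  · have n : 𝒩 A ≤ 𝒩 (SFx.Gn A fun a => ncl (𝒞₁ a) A) := fun g hg => inv_mem_iff.1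
      (mem_norm_of_cj_le (le_cj_iff.1 (SFx.Gn_le fun a ha => le_cj_iff.2 (by
        rw [cj_ncl, cj_cent1, cj_eq_of_mem_norm (inv_mem hg)]
        exact SFx.le_Gn (θ := fun a => ncl (𝒞₁ a) A) ⟨conj_mem_of_norm (inv_mem hg) ha.1,
          conj_ne_one ha.2 _⟩))))
    have le : ∀ a ∈ A, a ≠ 1 → ncl (𝒞₁ a) A ≤ SFx.Gn A fun a => ncl (𝒞₁ a) A := fun a i j =>
      le_iSup₂_of_le (f := fun a (_ : a ∈ sharp A) => ncl (𝒞₁ a) A) a ⟨i, j⟩ le_rfl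
    obtain ⟨a, ha, a1⟩ := exists_ne_one (Mg.nb h.toMg)
    refine ⟨_, h.toMg, Mg.nn h.toMg (ne_bot_of_le (Mg.nb h.toMg) ((le_ncl _ A).trans (le a ha a1)))
      (iSup₂_le fun a ha => (ncl_le_z h hz z2 ha.1 ha.2).trans (sup_le ?_ inf_le_right)) z1, n,
      fun a ha a1 => fratG h.toMg (AC a ha) ((le a ha a1).trans (le_norm _)) (inf_le_right.trans n)⟩
    rw [← w3 a ha.1 ha.2, e, bot_inf_eq]; exact bot_le
  · exact ⟨_, h.toMg, Mg.no h.toMg e w1, w2, fun a ha a1 => fratG h.toMg (AC a ha)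
      ((ncl_le_z h hz z2 ha a1).trans (sup_le ((w3 a ha a1).ge.trans (inf_le_left.trans (le_norm W)))
        (normW h hz z2 z1 w1 w2 w3 ha a1))) (inf_le_right.trans w2)⟩

end Cfsg.GS.Ox
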