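import Cfsg.Agent.GS.X1

/-! The number of points in the uniqueness case: double counting with lemma (b). -/

set_option autoImplicit false

namespace Cfsg.GS.Xx

open Subgroup Cfsg.L0 Cfsg.H8 Cfsg.FT Cfsg.BS Cfsg.BS.R Cfsg.GS.T3 Cfsg.GS.T4 Cfsg.GS.Ax MulAction
open scoped commutatorElement

theorem card_fib {X Y : Type} [Finite X] [Finite Y] (s : Set X) (t : Set Y) (R : X → Y → Prop)
    (m : ℕ) (h1 : ∀ x ∈ s, ∃ y ∈ t, R x y)
    (h2 : ∀ x ∈ s, ∀ y ∈ t, ∀ y' ∈ t, R x y → R x y' → y = y')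
    (h3 : ∀ y ∈ t, {x | x ∈ s ∧ R x y}.ncard = m) : s.ncard = m * t.ncard := by
  classical
  have := Fintype.ofFinite X
  have := Fintype.ofFinite Y
  have e : s.toFinset = t.toFinset.biUnion fun y => {x | x ∈ s ∧ R x y}.toFinset := by
    ext x
    simp only [Set.mem_toFinset, Finset.mem_biUnion, Set.mem_ofPred_eq]
    exact ⟨fun hx => let ⟨y, a, b⟩ := h1 x hx; ⟨y, a, hx, b⟩, fun ⟨_, _, a, _⟩ => a⟩
  rw [Set.ncard_eq_toFinset_card', Set.ncard_eq_toFinset_card', e, Finset.card_biUnion,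
    Finset.sum_congr rfl (g := fun _ => m), Finset.sum_const, smul_eq_mul, mul_comm]
  · intro y hy
    rw [← Set.ncard_eq_toFinset_card']; exact h3 y (Set.mem_toFinset.1 hy)
  · intro y hy y' hy' ne
    refine Finset.disjoint_left.2 fun x a b => ne ?_
    simp only [Set.mem_toFinset, Set.mem_ofPred_eq, Finset.mem_coe] at a b hy hy'
    exact h2 x a.1 y hy y' hy' a.2 b.2

section
variable {G Ω : Type} [Group G] [MulAction G Ω] {A O : Subgroup G} {b c g w x z : G} {α β : Ω}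

theorem ncard_cj {s t : Set G} (g : G) (h : ∀ x, g * x * g⁻¹ ∈ t ↔ x ∈ s) : t.ncard = s.ncard := by
  rw [← Set.ncard_image_of_injective s (MulAut.conj g).injective]
  congr 1
  ext y
  refine ⟨fun hy => ⟨g⁻¹ * y * g, (h _).1 (by convert hy using 1; group), by simp [mul_assoc]⟩, ?_⟩
  rintro ⟨x, hx, rfl⟩
  exact (h x).2 hx

theorem ncard_fix (g w : G) :
    {γ : Ω | (g * w * g⁻¹) • γ = γ}.ncard = {γ : Ω | w • γ = γ}.ncard := by
  rw [← Set.ncard_image_of_injective {γ : Ω | w • γ = γ} (MulAction.injective g)]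
  congr 1
  ext y
  refine ⟨fun hy => ⟨g⁻¹ • y, ?_, by simp⟩, ?_⟩
  · have := conj_fix hy g⁻¹
    rwa [show g⁻¹ * (g * w * g⁻¹) * g⁻¹⁻¹ = w by group] at this
  · rintro ⟨x, hx, rfl⟩
    exact conj_fix hx g

theorem mem_zp_odd (hz : z * z = 1) (hc : c * c = 1) (ho : Odd (orderOf (x * c)))
    (c1 : c * z = z * c) (c2 : z * c * x = x * (z * c)) : z * c ∈ zpowers (x * z) := by
  have e : x * z = x * c * (z * c) := by
    rw [mul_assoc, ← mul_assoc c, c1, mul_assoc z, hc, mul_one]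
  have hcm : Commute (x * c) (z * c) :=
    Commute.mul_left c2.symm (show c * (z * c) = z * c * c by rw [← mul_assoc, c1])
  have w2 : z * c * (z * c) = 1 := by
    rw [mul_assoc, ← mul_assoc c, c1, mul_assoc z, hc, mul_one, hz]
  obtain ⟨m, hm⟩ : Odd _ := ho
  refine ⟨(orderOf (x * c) : ℕ), ?_⟩
  simp only [zpow_natCast]
  rw [e, hcm.mul_pow, pow_orderOf_eq_one, one_mul, hm, pow_succ, pow_mul, sq, w2, one_pow, one_mul]

/-- the elements of `I` at `β` centralizing `w` -/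
def Ic (A : Subgroup G) (w : G) (β : Ω) : Set G := {x | InI A x ∧ x • β = β ∧ x * w = w * x}

/-- those in the coset of `b` -/
def Jc (A O : Subgroup G) (w b : G) (β : Ω) : Set G := {x | x ∈ Ic A w β ∧ x * b ∈ O}

theorem ic_cj (g : G) : g * x * g⁻¹ ∈ Ic A (g * w * g⁻¹) (g • β) ↔ x ∈ Ic A w β := by
  refine and_congr ⟨fun e => ?_, fun e => inI_conj e g⟩ (and_congr ⟨fun e => ?_,
    fun e => conj_fix e g⟩ ?_)
  · have := inI_conj e g⁻¹
    rwa [show g⁻¹ * (g * x * g⁻¹) * g⁻¹⁻¹ = x by group] at this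
  · rwa [← mul_smul, inv_mul_cancel_right, mul_smul, smul_left_cancel_iff] at e
  · simp only [mul_assoc, inv_mul_cancel_left, mul_right_inj]
    rw [← mul_assoc, ← mul_assoc, mul_left_inj]

theorem jc_cj (h1 : g • α = α) (h2 : g ∈ 𝒩 O) :
    (Jc A O (g * w * g⁻¹) (g * b * g⁻¹) α).ncard = (Jc A O w b α).ncard :=
  ncard_cj g fun x => and_congr (by nth_rw 1 [← h1]; exact ic_cj g) (by
    rw [show g * x * g⁻¹ * (g * b * g⁻¹) = g * (x * b) * g⁻¹ by group]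
    exact (mem_normalizer_iff.1 h2 _).symm)

end

namespace GB
variable {G Ω : Type} [Group G] [Finite G] [MulAction G Ω] {A B S P H T : Subgroup G}
  {a b c d g m x y z w : G} {α β γ δ : Ω} (h : GB S A α)
include h

theorem infO : A ⊓ O2 (𝒮 α) = ⊥ := inf_eq_bot_of_cop (cop_of_pgroup Nat.prime_two h.elem.pgroup
  fun e => (Nat.not_even_iff_odd.2 (odd_O2 _)) (even_iff_two_dvd.2 e))

omit [Finite G] h in
theorem nO (hm : m • α = α) : m ∈ 𝒩 (O2 (𝒮 α)) := (Op_nrm _ (𝒮 α)).norm hm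

/-- an element of `I` at `α` lies in `A O(M)` -/
theorem ex_cls (mo : 𝒮 α ≤ O2 (𝒮 α) ⊔ 𝒩 A) (hx : InI A x) (h1 : x • α = α) :
    ∃ a ∈ A, a ≠ 1 ∧ x * a ∈ O2 (𝒮 α) := by
  obtain ⟨m, hm, e⟩ := h.conj_mem hx h1
  obtain ⟨o, ho, n, hn, q⟩ := (mem_sup_l fun n hn => nO (h.nA hn)).1 (mo (inv_mem hm))
  have ha := conj_mem_of_norm hn e
  have ex : x = o * (n * (m * x * m⁻¹) * n⁻¹) * o⁻¹ := by
    rw [show o * (n * (m * x * m⁻¹) * n⁻¹) * o⁻¹ = (o * n) * (m * x * m⁻¹) * (o * n)⁻¹ by group, q]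
    group
  refine ⟨_, ha, fun e1 => hx.1 (by rw [ex, e1]; group), ?_⟩
  generalize n * (m * x * m⁻¹) * n⁻¹ = a at ha ex
  have := mul_mem ho (conj_mem_of_norm (nO (h.AM ha)) (inv_mem ho))
  rw [inv_eq_of_mul_eq_one_right (Nx.mul_self_of_elem h.elem ha)] at this
  rw [ex]; convert this using 1; group

theorem cls_uq (ha : a ∈ A) (hb : b ∈ A) (h1 : x * a ∈ O2 (𝒮 α)) (h2 : x * b ∈ O2 (𝒮 α)) :
    a = b := inv_mul_eq_one.1 (eq_one_of_mem h.infO ⟨A.mul_mem (A.inv_mem ha) hb, by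
  have := mul_mem (inv_mem h1) h2
  rwa [show (x * a)⁻¹ * (x * b) = a⁻¹ * b by group] at this⟩)

omit [Finite G] in
theorem ic_one (β : Ω) : (Ic A 1 β).ncard = (Ic A 1 α).ncard := by
  obtain ⟨g, rfl⟩ := h.tr β
  exact ncard_cj g fun x => by simpa using ic_cj (A := A) (w := 1) (x := x) (β := α) g

theorem ex_cj (hz : z * z = 1) (h1 : z • α = α) (hw : (g * z * g⁻¹) • β = β) :
    ∃ m : G, m * z * m⁻¹ = g * z * g⁻¹ ∧ m • α = β := by
  have := conj_fix hw g⁻¹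
  rw [show g⁻¹ * (g * z * g⁻¹) * g⁻¹⁻¹ = z by group] at this
  obtain ⟨c, c1, c2⟩ := h.tr_fix hz h1 this
  exact ⟨g * c, by rw [mul_assoc g, mem_cent1.1 c1]; group, by rw [mul_smul, c2, smul_inv_smul]⟩

theorem ic_eq (hz : z * z = 1) (h1 : z • α = α) (hw : (g * z * g⁻¹) • β = β) :
    (Ic A (g * z * g⁻¹) β).ncard = (Ic A z α).ncard := by
  obtain ⟨m, e, rfl⟩ := h.ex_cj hz h1 hw
  rw [← e]; exact ncard_cj m fun x => ic_cj m

theorem cj_z (hz : Ivo z) (hI : ¬ InI A z) (h1 : z • α = α) (hx : InI A x) (hy : InI A y)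
    (m1 : x * z = z * x) (m2 : y * z = z * y) : ∃ g, g * z * g⁻¹ = z ∧ g * x * g⁻¹ = y := by
  obtain ⟨γ, q1, q2⟩ := h.two_fix hz hI α
  obtain ⟨g, g1, g2⟩ := h.conj_cent hz.2 q2 h1 q1 hx hy (mem_cent1.2 m1) (mem_cent1.2 m2)
  exact ⟨g, by rw [mem_cent1.1 g1, mul_inv_cancel_right], g2⟩

theorem jc_eq (hz : Ivo z) (hI : ¬ InI A z) (h1 : z • α = α) (hb : b ∈ Ic A z α)
    (hw : (g * z * g⁻¹) • α = α) (hx : x ∈ Ic A (g * z * g⁻¹) α) :
    (Jc A (O2 (𝒮 α)) (g * z * g⁻¹) x α).ncard = (Jc A (O2 (𝒮 α)) z b α).ncard := by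
  obtain ⟨m, e, m1⟩ := h.ex_cj hz.2 h1 hw
  have hy : m⁻¹ * x * m ∈ Ic A z α := (ic_cj m).1 (by
    rw [e, m1]; convert hx using 1; group)
  obtain ⟨c, c1, c2⟩ := h.cj_z hz hI h1 hb.1 hy.1 hb.2.2 hy.2.2
  have f : (m * c) • α = α := by rw [mul_smul, h.fix_of_conj hb.1 hb.2.1 (c2 ▸ hy.2.1), m1]
  rw [← jc_cj (w := z) (b := b) f (nO f), ← e]
  congr 2
  · nth_rw 1 [← c1]; group
  · rw [show m * c * b * (m * c)⁻¹ = m * (c * b * c⁻¹) * m⁻¹ by group, c2]; group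

/-- Brauer-Wielandt -/
theorem bw (hz : Ivo z) (hI : ¬ InI A z) (h1 : z • α = α) (hb : b ∈ Ic A z α)
    (e : g * z * g⁻¹ = z * b) :
    (Jc A (O2 (𝒮 α)) 1 b α).ncard = (Jc A (O2 (𝒮 α)) z b α).ncard ^ 2 := by
  have bb := (h.ivo hb.1).2
  have zi := inv_eq_of_mul_eq_one_right hz.2
  have bi := inv_eq_of_mul_eq_one_right bb
  have same : ∀ {x c : G}, InI A c → x * b ∈ O2 (𝒮 α) → (c * b ∈ O2 (𝒮 α) ↔ x * c ∈ O2 (𝒮 α)) :=
    fun {x c} hc hx => by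
      rw [← inv_mem_iff (x := c * b), ← mul_mem_cancel_left (y := x * c) (inv_mem hx),
        show (x * b)⁻¹ * (x * c) = b⁻¹ * c by group, mul_inv_rev,
        inv_eq_of_mul_eq_one_right (h.ivo hc).2]
  rw [sq]
  refine card_fib _ _ (fun x c => z * c * x = x * (z * c)) _ (fun x hx => ?_)
    (fun x hx c hc d hd c1 d1 => ?_) fun c hc => ?_
  · by_contra q
    obtain ⟨g, -, r⟩ := exists_conj_of_odd_orderOf_mul (h.ivo hx.1.1).2 hz.2
      (odd_mul_of (h.ivo hx.1.1).2 hz.2 fun w hw hm c1 c2 => q (by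
        have bz : b * z * (b * z) = 1 := by
          rw [mul_assoc, ← mul_assoc z, ← hb.2.2, mul_assoc, hz.2, mul_one, bb]
        obtain ⟨o, ho, t, ht, rfl⟩ := (mem_sup_l (N := O2 (𝒮 α)) (H := zpowers (b * z))
          (zpowers_le.2 (nO (by rw [mul_smul, h1, hb.2.1])))).1 (zpowers_le.2 (by
            rw [show x * z = x * b * (b * z) by rw [mul_assoc, ← mul_assoc b, bb, one_mul]]
            exact mul_mem_sup hx.2 (mem_zpowers _)) hm)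
        rcases mem_zp2 bz ht with rfl | rfl
        · rw [mul_one] at hw
          exact absurd (eq_one_of_inverts_of_commute (v := 1) (odd_of_mem (odd_O2 _) ho)
            (by simpa using (inv_eq_of_mul_eq_one_right hw.2).symm) (by simp)) hw.1
        have m : z * (o * (b * z)) * b ∈ O2 (𝒮 α) := by
          have := conj_mem_of_norm (nO h1) ho
          rwa [zi, show z * o * z = z * (o * (b * z)) * b by
            rw [hb.2.2]; simp only [mul_assoc, bb, mul_one]] at this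
        have e1 : z * (z * (o * (b * z))) = o * (b * z) := by rw [← mul_assoc, hz.2, one_mul]
        have cz : z * (o * (b * z)) * z = z * (z * (o * (b * z))) := by rw [mul_assoc, c2]
        obtain ⟨k, -, r⟩ := exists_conj_of_odd_orderOf_mul (a := z * (o * (b * z))) (by
          rw [← mul_assoc, cz, e1, hw.2]) bb (odd_of_mem (odd_O2 _) m)
        refine ⟨z * (o * (b * z)), ⟨⟨?_, ?_, cz⟩, m⟩, by rw [e1, c1]⟩
        · have := inI_conj (r.symm ▸ hb.1 : InI A (k * (z * (o * (b * z))) * k⁻¹)) k⁻¹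
          rwa [show ∀ y, k⁻¹ * (k * y * k⁻¹) * k⁻¹⁻¹ = y from fun y => by group] at this
        · rw [mul_smul, mul_smul, mul_smul, h1, hb.2.1, (Op_nrm _ (𝒮 α)).le ho, h1]))
    exact hI (r ▸ inI_conj hx.1.1 g)
  · have k : ∀ {c : G}, c ∈ Jc A (O2 (𝒮 α)) z b α → z * c * x = x * (z * c) →
        z * c ∈ zpowers (x * z) ∧ Ivo (z * c) := fun {c} hc c1 =>
      ⟨mem_zp_odd hz.2 (h.ivo hc.1.1).2 (odd_of_mem (odd_O2 _) ((same hc.1.1 hx.2).1 hc.2))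
        hc.1.2.2 c1, fun e => hI (by
          rw [← zi, ← eq_inv_of_mul_eq_one_right e]; exact hc.1.1), by
        rw [mul_assoc, ← mul_assoc c, hc.1.2.2, mul_assoc z, (h.ivo hc.1.1).2, mul_one, hz.2]⟩
    exact mul_left_cancel (ivo_uq (k hc c1).1 (k hd d1).1 (k hc c1).2 (k hd d1).2)
  · obtain ⟨k, k1, k2⟩ := h.cj_z hz hI h1 hb.1 hc.1.1 hb.2.2 hc.1.2.2
    have e2 : k * g * z * (k * g)⁻¹ = z * c := by
      rw [show k * g * z * (k * g)⁻¹ = k * (g * z * g⁻¹) * k⁻¹ by group, e, ← k2]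
      nth_rw 2 [← k1]; group
    rw [← h.jc_eq hz hI h1 hb (g := k * g) (x := c) (by rw [e2, mul_smul, hc.1.2.1, h1])
      (e2 ▸ ⟨hc.1.1, hc.1.2.1, by rw [← mul_assoc, hc.1.2.2]⟩), e2]
    congr 1
    ext x
    exact ⟨fun ⟨⟨⟨a1, a2, _⟩, a3⟩, a4⟩ => ⟨⟨a1, a2, a4.symm⟩, (same hc.1.1 a3).1 hc.2⟩,
      fun ⟨⟨a1, a2, a3⟩, a4⟩ => ⟨⟨⟨a1, a2, by simp⟩, by
        have := mul_mem a4 hc.2
        rwa [mul_assoc, ← mul_assoc c, (h.ivo hc.1.1).2, one_mul] at this⟩, a3.symm⟩⟩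

/-- **the number of points** -/
theorem cnt (mo : 𝒮 α ≤ O2 (𝒮 α) ⊔ 𝒩 A) (hz : Ivo z) (hI : ¬ InI A z) (zN : z ∈ 𝒩 A) (hb : b ∈ A)
    (b1 : b ≠ 1) (bz : b * z = z * b) (e : g * z * g⁻¹ = z * b) :
    {γ : Ω | z • γ ≠ γ}.ncard * (♯A - 1) =
      ({γ : Ω | z • γ = γ}.ncard - 1) * {γ : Ω | z • γ = γ}.ncard * (♯(A ⊓ 𝒞₁ z) - 1) ^ 2 := by
  have := h.finite
  have h1 : z • α = α := h.nA zN
  have hb' : b ∈ Ic A z α := ⟨inI_of_mem hb b1, h.AM hb, bz⟩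
  have n2 : (Ic A 1 α).ncard = (Jc A (O2 (𝒮 α)) 1 b α).ncard * (sharp A).ncard :=
    card_fib _ _ (fun x a => x * a ∈ O2 (𝒮 α)) _
      (fun x hx => let ⟨a, a1, a2, a3⟩ := h.ex_cls mo hx.1 hx.2.1; ⟨a, ⟨a1, a2⟩, a3⟩)
      (fun x _ a ha c hc => h.cls_uq ha.1 hc.1) fun a ha => by
        obtain ⟨m, q⟩ := h.conj_I hb'.1 (inI_of_mem ha.1 ha.2)
        have f := h.fix_of_conj hb'.1 hb'.2.1 (q ▸ h.AM ha.1)
        rw [← jc_cj (w := 1) (b := b) f (nO f), q, mul_one, mul_inv_cancel]; rfl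
  have n4 : (Ic A z α).ncard = (Jc A (O2 (𝒮 α)) z b α).ncard * (sharp (A ⊓ 𝒞₁ z)).ncard :=
    card_fib _ _ (fun x a => x * a ∈ O2 (𝒮 α)) _
      (fun x hx => by
        obtain ⟨a, a1, a2, a3⟩ := h.ex_cls mo hx.1 hx.2.1
        refine ⟨a, ⟨⟨a1, mem_cent1.2 (eq_mul_inv_iff_mul_eq.1 (h.cls_uq a1
          (conj_mem_of_norm zN a1) a3 ?_))⟩, a2⟩, a3⟩
        have := conj_mem_of_norm (nO h1) a3
        rwa [← mul_assoc, ← hx.2.2, mul_assoc, mul_assoc, ← mul_assoc z] at this)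
      (fun x _ a ha c hc => h.cls_uq ha.1.1 hc.1.1) fun a ha => by
        have := h.jc_eq hz hI h1 hb' (g := 1) (x := a) (by simpa using h1)
          (by simpa using ⟨inI_of_mem ha.1.1 ha.2, h.AM ha.1.1, mem_cent1.1 ha.1.2⟩)
        rwa [one_mul, inv_one, mul_one] at this
  have pt : ∀ (w : G) (Y : Set Ω) (m : ℕ), (∀ β ∈ Y, (Ic A w β).ncard = m) →
      {x | InI A x ∧ x * w = w * x ∧ ∃ β ∈ Y, x • β = β}.ncard = m * Y.ncard := fun w Y m hY =>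
    card_fib _ _ (fun x β => x • β = β) _ (fun x hx => hx.2.2)
      (fun x hx β _ γ _ => h.uq hx.1) fun β hβ => by
        rw [← hY β hβ]
        congr 1
        ext x
        exact ⟨fun ⟨⟨a1, a2, _⟩, a3⟩ => ⟨a1, a3, a2⟩, fun ⟨a1, a2, a3⟩ => ⟨⟨a1, a3, β, hβ, a2⟩, a2⟩⟩
  have n6 := pt 1 {γ | z • γ ≠ γ} _ fun β _ => h.ic_one β
  have n7 := pt z {γ | z • γ = γ} _ fun β hβ => by
    have := h.ic_eq (g := 1) hz.2 h1 (β := β) (by simpa using hβ)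
    rwa [one_mul, inv_one, mul_one] at this
  rw [card_fib {x | InI A x ∧ x * 1 = 1 * x ∧ ∃ β ∈ {γ : Ω | z • γ ≠ γ}, x • β = β}
    {x | InI A x ∧ x * z = z * x ∧ ∃ β ∈ {γ : Ω | z • γ = γ}, x • β = β}
    (fun x c => z * c * x = x * (z * c))
    ((Ic A z α).ncard * ({γ : Ω | z • γ = γ}.ncard - 1)) (fun x ⟨x1, _, β, x2, x3⟩ => ?_)
    (fun x ⟨x1, _, β, x2, x3⟩ c hc d hd c1 d1 =>
      h.lemB_uq hz.2 hI x1 x3 x2 hc.1 hc.2.1 c1 hd.1 hd.2.1 d1) (fun c ⟨c1, c2, δ, c3, c4⟩ => ?_),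
    n7, n2, n4, h.bw hz hI h1 hb' e, ncard_sharp, ncard_sharp] at n6
  · have p : 0 < (Jc A (O2 (𝒮 α)) z b α).ncard :=
      (Set.ncard_pos (Set.toFinite _)).2 ⟨b, hb', by rw [(h.ivo hb'.1).2]; exact one_mem _⟩
    refine Nat.eq_of_mul_eq_mul_left (pow_pos p 2) ?_
    rw [← mul_assoc, mul_right_comm, ← n6]; ring
  · obtain ⟨c, c1, c2, c3, -⟩ := h.lemB hz hI x1 x3 x2
    obtain ⟨δ, hδ⟩ := h.ex_pt c1
    exact ⟨c, ⟨c1, c2, δ, h.fix_of_comm c1 hδ c2.symm, hδ⟩, c3⟩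
  · obtain ⟨k, k1, k2⟩ := h.cj_z hz hI h1 hb'.1 c1 bz c2
    have e2 : k * g * z * (k * g)⁻¹ = z * c := by
      rw [show k * g * z * (k * g)⁻¹ = k * (g * z * g⁻¹) * k⁻¹ by group, e, ← k2]
      nth_rw 2 [← k1]; group
    rw [← ncard_fix (k * g) z, e2, ← Set.ncard_sdiff_singleton_of_mem (a := δ) (s := {γ : Ω | (z * c) • γ = γ})
      (show (z * c) • δ = δ by rw [mul_smul, c4, c3]), ← pt (z * c) _ _ fun β hβ => by
        rw [← e2]; exact h.ic_eq hz.2 h1 (e2 ▸ hβ.1)]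
    congr 1
    ext x
    refine ⟨fun ⟨⟨a1, _, β, a2, a3⟩, a4⟩ => ⟨a1, a4.symm, β, ⟨h.fix_of_comm a1 a3 a4,
      fun q => a2 (q ▸ c3)⟩, a3⟩, fun ⟨a1, a2, β, ⟨a3, a4⟩, a5⟩ =>
      ⟨⟨a1, by simp, β, fun q => a4 (h.uq c1 ?_ c4), a5⟩, a2.symm⟩⟩
    have a3' : (z * c) • β = β := a3
    rwa [← c2, mul_smul, q] at a3'

end GB

end Cfsg.GS.Xx
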