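import Cfsg.Agent.GS.P4
import Cfsg.Agent.GS.X3

/-! `CSz`, part 5: the types `Sz` and `U₃` do not occur together. -/

set_option autoImplicit false

namespace Cfsg.GS.Px

open Subgroup Cfsg.L0 Cfsg.H8 Cfsg.FT Cfsg.BS Cfsg.BS.R Cfsg.GS.T3 Cfsg.GS.T4 Cfsg.GS.Kx Cfsg.GS.Dx
  Cfsg.GS.Nx MulAction
open scoped commutatorElement

variable {G : Type} [Group G] [Finite G] {S A M P R T S2 P' R' T' S2' : Subgroup G} {k k' u v : G}

theorem card_pts (h : U2 S A M) (l : T4.Loc2 A P T R S2 v k) : M.index = M.relIndex (𝒞₁ v) +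
    (M.relIndex (𝒞₁ v) - 1) * M.relIndex (𝒞₁ v) * (♯A - 1) := by
  obtain ⟨g, e⟩ := Xx.gb_of h.toUG
  have v2 := LL.vv l.toLoc
  have vC := l.cm.trans (cent_anti (ty_le l.ty)) l.vR
  have vM : v • pt M = pt M := smul_pt.2 (h.nA (cent_le_norm A vC))
  obtain ⟨b, b1, b2⟩ := U.exA h.toUG
  obtain ⟨s, -, s1⟩ := l.onto b b1
  have c := g.cnt (e.symm ▸ h.mo) ⟨l.v1, v2⟩ (U.nI h.toUG v2 (LL.vA l.toLoc) vC) (cent_le_norm A vC)
    b1 b2 (mem_cent.1 vC b b1) s1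
  have e1 : {γ : G ⧸ M | v • γ = γ} = orbit (𝒞₁ v) (pt M) := Set.ext fun γ => by
    rw [mem_orb]
    exact ⟨g.tr_fix v2 vM, by rintro ⟨c, hc, rfl⟩; exact fix_comm vM (mem_cent1.1 hc)⟩
  have e2 := Set.ncard_add_ncard_compl {γ : G ⧸ M | v • γ = γ}
  rw [inf_eq_left.2 (le_cent1_iff.2 vC), pow_two, ← mul_assoc] at c
  have c1 := Nat.eq_of_mul_eq_mul_right (by have := h.four; omega) c
  rw [show {γ : G ⧸ M | v • γ = γ}ᶜ = {γ : G ⧸ M | v • γ ≠ γ} from rfl, c1, e1, card_orb] at e2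
  exact e2.symm

theorem idx_eq (h : U2 S A M) (l : T4.Loc2 A P T R S2 v k) (l' : T4.Loc2 A P' T' R' S2' u k') :
    M.relIndex (𝒞₁ v) = M.relIndex (𝒞₁ u) := by
  have e := (card_pts h l).symm.trans (card_pts h l')
  generalize M.relIndex (𝒞₁ v) = m at e
  generalize M.relIndex (𝒞₁ u) = n at e
  have : ∀ m n : ℕ, m < n → m + (m - 1) * m * (♯A - 1) < n + (n - 1) * n * (♯A - 1) := fun m n i =>
    Nat.add_lt_add_of_lt_of_le i (Nat.mul_le_mul_right _ (Nat.mul_le_mul (by omega) i.le))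
  rcases lt_trichotomy m n with i | i | i
  · exact absurd e (this m n i).ne
  · exact i
  · exact absurd e (this n m i).ne'

theorem not_both (h : U2 S A M) (l : T4.Loc2 A P T R S2 v k) (l' : T4.Loc2 A P' T' R' S2' u k')
    (s : S2G A T k) (s' : U3G A T' k') : False := by
  have hU := h.toUG
  have he := h.elem
  have e0 := idx_eq h l l'
  obtain ⟨s1, -, three, n3⟩ := sylP hU l.toLoc s
  have vC := l.cm.trans (cent_anti (ty_le l.ty)) l.vR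
  have uC := l'.cm.trans (cent_anti (ty_le l'.ty)) l'.vR
  obtain ⟨Q, _, _, f, L, κ, hf, -, -, p, e, c, cA, -⟩ := U.kh0 hU (U.cne hU (LL.vA l.toLoc) vC) s1
    ((ty_le l.ty).trans (LL.TP l.toLoc)) (U.nle hU (LL.vv l.toLoc) (LL.vA l.toLoc) vC)
  obtain ⟨-, q⟩ := sz_of p (e ▸ cA.symm ▸ three) (n3.sec p.smp (le_cent1_iff.2 vC)
    (ne_bot_of_card (by have := h.four; omega)) (e.le.trans ((Om_le _ _).trans inf_le_right))
    (by rw [inf_idem, down_top hf]; exact le_top))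
  rw [c, q.s2g.card, ← szp_om q, ← e, cA] at e0
  clear p e c cA q
  obtain ⟨S1, s1, s2⟩ := exists_isSyl_ge (LL.pg l'.toLoc he) (LL.Pv l'.toLoc)
  replace s2 := (LL.TP l'.toLoc).trans s2
  obtain ⟨Q, _, _, f, L, κ, hf, hk, hL, p, e, c, cA, -⟩ := U.kh0 hU (U.cne hU (LL.vA l'.toLoc) uC) s1
    (s'.le.trans s2) (U.nle hU (LL.vv l'.toLoc) (LL.vA l'.toLoc) uC)
  rw [c, Nat.add_right_cancel_iff, ← cA, e] at e0
  have h4 := p.four
  have q : S2G (Om 2 (down f S1 ⊓ L)) (down f S1 ⊓ L) κ := by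
    rcases p.ty.2 with i | i | i
    · rw [← i] at e0 h4; nlinarith
    · exact i
    · rw [u3g_card i] at e0; nlinarith
  have hi : up f ⊥ ⊓ S1 = ⊥ := inf_eq_bot_of_cop (hk ▸ (cop_of_pgroup Nat.prime_two s1.isPGroup
    (odd_O2 _).not_two_dvd_nat).symm)
  have AL : down f A ≤ L := e.le.trans ((Om_le _ _).trans inf_le_right)
  obtain ⟨F, _, _, π, ι, l0, co⟩ := co3_of s'
  have sp : ∀ x : 𝒞₁ u, (x : G) ∈ T' → ∃ t ∈ down f S1 ⊓ L, ∃ c ∈ 𝒞 L, t * c = f x := fun x hx => by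
    obtain ⟨t, t1, c, c1, i⟩ := (p.split (isPGroup_down f s1.isPGroup) rfl (mem_down_of_mem (s2 hx))
      (normalizer_eq_top_iff.2 hL ▸ mem_top _) (e ▸ down_le_cent f s'.cA (mem_down_of_mem hx))
      ).resolve_right fun i => not_s2g_u3g q i.1
    exact ⟨t, t1, c, c1.2, i⟩
  have sq : ∀ x : 𝒞₁ u, (x : G) ∈ T' → ∀ t ∈ down f S1 ⊓ L, ∀ c ∈ 𝒞 L, t * c = f x →
      f x * f x = t * t := fun x hx t t1 c c1 i => by
    have j : f x * f x = t * t * (c * c) := by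
      rw [← i, mul_assoc, ← mul_assoc c, ← mem_cent.1 c1 t t1.2]; group
    rw [j, p.smp.eq_one ((L.mul_mem_cancel_left (L.mul_mem t1.2 t1.2)).1 (j ▸ map_mul f x x ▸
      AL (mem_down_of_mem (co.sq x hx)))) (mul_mem c1 c1), mul_one]
  obtain ⟨x, hx, y, hy, i, n⟩ := u3_two s' h.four
  obtain ⟨x, rfl⟩ : ∃ z : 𝒞₁ u, z = x := ⟨⟨x, s1.le (s2 hx)⟩, rfl⟩
  obtain ⟨y, rfl⟩ : ∃ z : 𝒞₁ u, z = y := ⟨⟨y, s1.le (s2 hy)⟩, rfl⟩
  obtain ⟨t, t1, c, c1, i1⟩ := sp x hx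
  obtain ⟨t', t2, c', c2, i2⟩ := sp y hy
  refine n (Cx.sq_of_f hi (a := x * y⁻¹) (s2 (mul_mem hx (inv_mem hy))) ?_)
  rw [sq (x * y⁻¹) (mul_mem hx (inv_mem hy)) _ (mul_mem t1 (inv_mem t2)) _ (mul_mem c1 (inv_mem c2))
    (by rw [map_mul, map_inv, ← i1, ← i2, mul_assoc t, mem_cent.1 (mul_mem c1 (inv_mem c2)) _
      (inv_mem t2.2)]; group)]
  exact q.one _ (q.inj t t1 t' t2 (by
    rw [← sq x hx t t1 c c1 i1, ← sq y hy t' t2 c' c2 i2, ← map_mul, ← map_mul]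
    exact congrArg f (Subtype.ext i)))

theorem csz : CSz := fun _ _ _ _ _ _ _ _ _ _ _ _ h a l s =>
  csz' ⟨h, a, fun _ _ _ _ _ _ l' s' => not_both h l l' s s'⟩ l s

end Cfsg.GS.Px
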