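import Cfsg.Agent.GS.Q6

/-! The numerical part of the case `S:15`. -/

set_option autoImplicit false

namespace Cfsg.GS.Qx

def rho (q : V6 × ℤ) : V6 × ℤ := (⟨q.1.a, q.1.b0, q.1.b2, q.1.b4, q.1.b1, q.1.b3⟩, q.2)

theorem ty_rho (q : V6 × ℤ) : (rho q).1.ty = q.1.ty := by
  simp only [rho, V6.ty, Ty.mk.injEq, true_and]
  exact ⟨by grind, by ring, by ring, by ring⟩

theorem exists_orb (q : V6 × ℤ) : ∃ O : Multiset (V6 × ℤ), O.Nodup ∧ O.map rho = O ∧ q ∈ O ∧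
    (O.card : ℤ) = q.1.ty.w ∧ ∀ p ∈ O, p = q ∨ p = rho q ∨ p = rho (rho q) ∨ p = rho (rho (rho q)) := by
  obtain ⟨⟨a, b0, b1, b2, b3, b4⟩, d⟩ := q
  by_cases h : b1 = b4 ∧ b2 = b3
  · obtain ⟨rfl, rfl⟩ := h
    by_cases h : b1 = b2
    · subst h
      exact ⟨{(⟨a, b0, b1, b1, b1, b1⟩, d)}, by simp, by simp [rho], by simp, by simp [V6.ty], by simp⟩
    · exact ⟨{(⟨a, b0, b1, b2, b2, b1⟩, d), (⟨a, b0, b2, b1, b1, b2⟩, d)}, by simp [h], by
        simp [rho, Multiset.cons_swap, ← Multiset.cons_zero], by simp,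
        by simp [V6.ty, h], by simp [rho]⟩
  · exact ⟨{(⟨a, b0, b1, b2, b3, b4⟩, d), (⟨a, b0, b2, b4, b1, b3⟩, d), (⟨a, b0, b4, b3, b2, b1⟩, d),
      (⟨a, b0, b3, b1, b4, b2⟩, d)}, by simp; grind, by
        simp only [rho, Multiset.insert_eq_cons, Multiset.map_cons, Multiset.map_singleton]
        simp only [← Multiset.cons_zero]
        simp only [Multiset.cons_swap _ ((⟨a, b0, b1, b2, b3, b4⟩ : V6), d)], by simp,
        by simp [V6.ty, h], by simp [rho]⟩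

theorem decomp : ∀ (n : ℕ) (M : Multiset (V6 × ℤ)), M.card = n → M.map rho = M →
    ∃ L : List (V6 × ℤ), (∀ q ∈ L, q ∈ M) ∧ ∀ f : Ty × ℤ → ℚ,
      (M.map fun q => f (q.1.ty, q.2)).sum = (L.map fun q => q.1.ty.w * f (q.1.ty, q.2)).sum := by
  intro n
  induction n using Nat.strong_induction_on with
  | _ n ih =>
  intro M hn hM
  rcases M.empty_or_exists_mem with rfl | ⟨q, hq⟩
  · exact ⟨[], by simp, by simp⟩
  obtain ⟨O, o1, o2, o3, o4, o5⟩ := exists_orb q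
  have r : ∀ p ∈ M, rho p ∈ M := fun p hp => hM ▸ Multiset.mem_map_of_mem _ hp
  obtain ⟨N, rfl⟩ := Multiset.le_iff_exists_add.1 ((Multiset.le_iff_subset o1).2 fun p hp => by
    rcases o5 p hp with rfl | rfl | rfl | rfl
    exacts [hq, r _ hq, r _ (r _ hq), r _ (r _ (r _ hq))])
  rw [Multiset.map_add, o2, add_right_inj] at hM
  obtain ⟨L, l1, l2⟩ := ih N.card (by
    have := Multiset.card_pos_iff_exists_mem.2 ⟨q, o3⟩
    rw [← hn, Multiset.card_add]; omega) N rfl hM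
  refine ⟨q :: L, fun p hp => (List.mem_cons.1 hp).elim (· ▸ hq) fun e =>
    Multiset.mem_add.2 (.inr (l1 p e)), fun f => ?_⟩
  rw [Multiset.map_add, Multiset.sum_add, l2, List.map_cons, List.sum_cons, Multiset.map_congr rfl
    (g := fun _ => f (q.1.ty, q.2)) fun p hp => by
      rcases o5 p hp with rfl | rfl | rfl | rfl <;> simp only [ty_rho] <;> rfl]
  simp [← o4]

theorem ok_of {t : Ty} {d m : ℤ} (m0 : 0 ≤ m) (m1 : 0 ≤ m + t.a) (m2 : 1 ≤ 16 * m + t.a)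
    (e : d = 64 * m + 4 * t.a - 3 * t.tau) (l : t.tau < d) :
    (0 < t.p ∧ t.m < 0 → t.ok d) ∧ (0 < t.neg.p ∧ t.neg.m < 0 → t.neg.ok (-d)) := by
  refine ⟨fun h => ⟨?_, .inl ?_, h⟩, fun h => ⟨?_, .inr ?_, h⟩⟩ <;>
    simp only [Ty.p, Ty.m, Ty.c, Ty.neg, Ty.tau] at * <;> (try split_ifs) <;> omega

theorem ty_nonneg (v : V6) : 0 < v.ty.w ∧ 0 ≤ v.ty.sg ∧ 0 ≤ v.ty.ka :=
  ⟨by simp only [V6.ty]; split_ifs <;> decide, mul_self_nonneg _,
    add_nonneg (mul_self_nonneg _) (mul_self_nonneg _)⟩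

theorem mem_r5 {x : ℤ} (h : x * x ≤ 5) : x ∈ r5 := by
  have : -3 < x ∧ x < 3 := ⟨by nlinarith, by nlinarith⟩
  simp only [r5, List.mem_cons]
  omega

theorem lyonsL {L : List (V6 × ℤ)} (h0 : ∀ q ∈ L, q.1.a * q.1.a ≤ 15 ∧ q.1.b0 ∈ r5 ∧ q.1.b1 ∈ r5 ∧
      q.1.b2 ∈ r5 ∧ q.1.b3 ∈ r5 ∧ q.1.b4 ∈ r5 ∧ q.1.ty.tau ≠ 0 ∧ q.1.ty.tau < q.2 ∧ ∃ m, 0 ≤ m ∧
      0 ≤ m + q.1.a ∧ 1 ≤ 16 * m + q.1.a ∧ q.2 = 64 * m + 4 * q.1.a - 3 * q.1.ty.tau)
    (h1 : ∀ f : V8, f.dot ⟨15, 3, 16, 4, 4, 32, 16, 16⟩ = (L.map fun q => f.dot q.1.ty.con).sum)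
    (h2 : Eqs (L.map fun q => (q.1.ty, q.2))) : False := by
  have le : ∀ f : V8, (∀ v : V6, 0 ≤ f.dot v.ty.con) → ∀ q ∈ L,
      f.dot q.1.ty.con ≤ f.dot ⟨15, 3, 16, 4, 4, 32, 16, 16⟩ := fun f hf q hq => by
    rw [h1]
    exact List.single_le_sum (by simp only [List.mem_map]; rintro _ ⟨p, -, rfl⟩; exact hf _) _
      (List.mem_map_of_mem hq)
  have mem : ∀ q ∈ L, q.1.ty ∈ CC.map (·.1) ∨ q.1.ty.neg ∈ CC.map (·.1) := fun q hq => by
    obtain ⟨a, b0, b1, b2, b3, b4, t, -⟩ := h0 q hq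
    have := c5
    simp only [List.all_eq_true] at this
    have := this _ b0 _ b1 _ b2 _ b3 _ b4 q.1.a (by
      have : -4 < q.1.a ∧ q.1.a < 4 := ⟨by nlinarith, by nlinarith⟩
      simp only [List.mem_cons]
      omega)
    simp only [bx, Bool.or_eq_true, decide_eq_true_eq, beq_iff_eq, List.any_eq_true] at this
    rcases this with ((((e | e) | e) | ⟨x, -, e⟩) | e) | e
    · exact absurd e (not_lt.2 (by simpa [V8.dot, Ty.con] using le ⟨0, 0, 0, 0, 0, 0, 0, 1⟩ (fun v => by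
        simpa [V8.dot, Ty.con] using mul_nonneg (ty_nonneg v).1.le (ty_nonneg v).2.2) q hq))
    · exact absurd e (not_lt.2 (by simpa [V8.dot, Ty.con] using le ⟨0, 0, 0, 0, 0, 0, 1, 0⟩ (fun v => by
        simpa [V8.dot, Ty.con] using mul_nonneg (ty_nonneg v).1.le (ty_nonneg v).2.1) q hq))
    · exact absurd e t
    · refine absurd e (not_lt.2 (le _ (fun v => ?_) q hq))
      refine (mul_nonneg (ty_nonneg v).1.le
        (sq_nonneg (x.1 * v.ty.a + x.2.1 * v.ty.b + x.2.2 * v.ty.s))).trans_eq ?_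
      simp only [V8.dot, Ty.con, sqf]; ring
    · exact .inl e
    · exact .inr e
  have pm : ∀ t ∈ CC.map (·.1), 0 < t.p ∧ t.m < 0 := fun t ht => by
    obtain ⟨x, hx, rfl⟩ := List.mem_map.1 ht
    exact of_decide_eq_true (List.all_eq_true.1 c4 x hx)
  obtain ⟨h2, c, c0, h3⟩ := h2
  refine final c1 c2 (List.all_eq_true.1 c3) (L := L.map fun q => if q.1.ty ∈ CC.map (·.1) then
    (q.1.ty, q.2) else (q.1.ty.neg, -q.2)) (fun p hp => ?_) (fun f => ?_) (fun p hp => ?_)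
    ⟨fun x y z => ?_, c, c0, fun x y z => ?_⟩
  · obtain ⟨q, hq, rfl⟩ := List.mem_map.1 hp
    split_ifs with e
    exacts [e, (mem q hq).resolve_left e]
  · rw [h1, List.map_map]
    congr 1
    refine List.map_congr_left fun q _ => ?_
    simp only [Function.comp]
    split_ifs
    · rfl
    · simp [Ty.con, Ty.neg]
  · obtain ⟨q, hq, rfl⟩ := List.mem_map.1 hp
    obtain ⟨-, -, -, -, -, -, -, l, m, m0, m1, m2, e⟩ := h0 q hq
    have := ok_of (t := q.1.ty) m0 m1 m2 e l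
    split_ifs with e
    exacts [this.1 (pm _ e), this.2 (pm _ ((mem q hq).resolve_left e))]
  · rw [← h2 x y z, List.map_map, List.map_map]
    congr 2
    refine List.map_congr_left fun q _ => ?_
    simp only [Function.comp]
    split_ifs
    · rfl
    · simp only [Ty.k, Ty.neg]; ring
  · rw [← h3 x y z, List.map_map, List.map_map]
    congr 2
    refine List.map_congr_left fun q _ => ?_
    simp only [Function.comp]
    split_ifs
    · rfl
    · simp only [Ty.r, Ty.neg, Ty.tau]; push_cast; ring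

/-- the numerical contradiction; `I` = the nonprincipal characters of the principal block -/
theorem lyons {ι : Type} (I : Finset ι) (σ : ι → ι) (hσ : Set.BijOn σ I I) (a d τ : ι → ℤ)
    (b : ZMod 5 → ι → ℤ) (ha : ∀ i ∈ I, a (σ i) = a i) (hd : ∀ i ∈ I, d (σ i) = d i)
    (hb : ∀ i ∈ I, ∀ k, b k (σ i) = b (2 * k) i)
    (ht : ∀ i ∈ I, τ i = 5 * a i - 4 * (b 0 i + (b 1 i + b 2 i + b 3 i + b 4 i)))
    (loc : ∀ i ∈ I, τ i ≠ 0 ∧ τ i < d i ∧ ∃ m, 0 ≤ m ∧ 0 ≤ m + a i ∧ 1 ≤ 16 * m + a i ∧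
      d i = 64 * m + 4 * a i - 3 * τ i)
    (g1 : ∑ i ∈ I, a i * a i = 15) (g2 : ∀ k, ∑ i ∈ I, a i * b k i = if k = 0 then 3 else 4)
    (g3 : ∀ k l, ∑ i ∈ I, b k i * b l i = if k = l then (if k = 0 then 4 else 5) else 1)
    (d1 : ∑ i ∈ I, a i * d i = -1) (d2 : ∀ k, ∑ i ∈ I, b k i * d i = if k = 0 then -1 else 0)
    (r1 : ∑ i ∈ I, (a i : ℚ) * (τ i * τ i / d i) = -1) {c : ℚ} (c0 : 0 < c)
    (r2 : ∀ k, ∑ i ∈ I, (b k i : ℚ) * (τ i * τ i / d i) = -c - if k = 0 then 1 else 0) : False := by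
  classical
  let v : ι → V6 × ℤ := fun i => (⟨a i, b 0 i, b 1 i, b 2 i, b 3 i, b 4 i⟩, d i)
  obtain ⟨L, l1, l2⟩ := decomp _ (I.val.map v) rfl (by
    have e : I.val.map σ = I.val := by
      rw [← Finset.image_val_of_injOn hσ.injOn, Finset.coe_injective ((Finset.coe_image).trans
        hσ.image_eq)]
    conv_rhs => rw [← e]
    rw [Multiset.map_map, Multiset.map_map]
    refine Multiset.map_congr rfl fun i hi => ?_
    simp only [Function.comp, v, rho, ha i hi, hd i hi, hb i hi]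
    rfl)
  simp only [Multiset.map_map, Finset.sum_map_val, Function.comp] at l2
  have q1 : ∑ i ∈ I, (a i : ℚ) * a i = 15 := by exact_mod_cast g1
  have q2 : ∀ k, ∑ i ∈ I, (a i : ℚ) * b k i = if k = 0 then 3 else 4 := fun k => by
    exact_mod_cast g2 k
  have q3 : ∀ k l, ∑ i ∈ I, (b k i : ℚ) * b l i = if k = l then (if k = 0 then 4 else 5) else 1 :=
    fun k l => by exact_mod_cast g3 k l
  have e1 : ∑ i ∈ I, (a i : ℚ) * d i = -1 := by exact_mod_cast d1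
  have e2 : ∀ k, ∑ i ∈ I, (b k i : ℚ) * d i = if k = 0 then -1 else 0 := fun k => by
    exact_mod_cast d2 k
  have n : (1 : ZMod 5) ≠ 0 ∧ (2 : ZMod 5) ≠ 0 ∧ (3 : ZMod 5) ≠ 0 ∧ (4 : ZMod 5) ≠ 0 ∧
    (0 : ZMod 5) ≠ 1 ∧ (0 : ZMod 5) ≠ 2 ∧ (0 : ZMod 5) ≠ 3 ∧ (0 : ZMod 5) ≠ 4 ∧ (1 : ZMod 5) ≠ 2 ∧
    (1 : ZMod 5) ≠ 3 ∧ (1 : ZMod 5) ≠ 4 ∧ (2 : ZMod 5) ≠ 3 ∧ (2 : ZMod 5) ≠ 4 ∧ (3 : ZMod 5) ≠ 4 := by
    decide
  have ht' : ∀ i ∈ I, (τ i : ℚ) = (v i).1.ty.tau := fun i hi => by rw [ht i hi]; rfl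
  refine lyonsL (L := L) (fun q hq => ?_) (fun f => ?_) ⟨fun x y z => ?_, c, c0, fun x y z => ?_⟩
  · obtain ⟨i, hi, rfl⟩ := Multiset.mem_map.1 (l1 q hq)
    have k : ∀ k, b k i ∈ r5 := fun k => mem_r5 ((Finset.single_le_sum (f := fun i => b k i * b k i)
      (fun _ _ => mul_self_nonneg _) hi).trans (by rw [g3, if_pos rfl]; split_ifs <;> decide))
    have := loc i hi
    rw [ht i hi] at this
    exact ⟨g1 ▸ Finset.single_le_sum (f := fun i => a i * a i) (fun _ _ => mul_self_nonneg _) hi,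
      k 0, k 1, k 2, k 3, k 4, this⟩
  · have := l2 fun q => (f.dot { q.1 with w := 1 }.con : ℤ)
    rw [← Int.cast_inj (α := ℚ), Int.cast_list_sum, List.map_map, List.map_congr_left
      (g := fun q => (q.1.ty.w : ℚ) * (f.dot { q.1.ty with w := 1 }.con : ℤ)) fun q _ => by
        simp only [Function.comp, V8.dot, Ty.con]; push_cast; ring, ← this]
    have := q2 0; have := q2 1; have := q2 2; have := q2 3; have := q2 4
    have := q3 0 0; have := q3 0 1; have := q3 0 2; have := q3 0 3; have := q3 0 4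
    have := q3 1 1; have := q3 1 2; have := q3 1 3; have := q3 1 4; have := q3 2 2
    have := q3 2 3; have := q3 2 4; have := q3 3 3; have := q3 3 4; have := q3 4 4
    simp only [n, if_true, if_false] at *
    rw [Finset.sum_congr rfl (g := fun i => f.a * ((a i : ℚ) * a i) + f.b * (a i * b 0 i) +
      f.c * (a i * b 1 i + a i * b 2 i + a i * b 3 i + a i * b 4 i) + f.d * (b 0 i * b 0 i) +
      f.e * (b 0 i * b 1 i + b 0 i * b 2 i + b 0 i * b 3 i + b 0 i * b 4 i) +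
      (f.f + f.g + f.h) * (b 1 i * b 1 i + b 2 i * b 2 i + b 3 i * b 3 i + b 4 i * b 4 i) +
      2 * (f.f + f.g - f.h) * (b 1 i * b 4 i + b 2 i * b 3 i) +
      2 * (f.f - f.g) * (b 1 i * b 2 i + b 1 i * b 3 i + b 2 i * b 4 i + b 3 i * b 4 i)) fun i _ => by
        simp only [v, V8.dot, Ty.con, V6.ty]; push_cast; ring]
    simp only [Finset.sum_add_distrib, ← Finset.mul_sum, *, V8.dot]
    push_cast; ring
  · have := l2 fun q => ({ q.1 with w := 1 }.k x y z * q.2 : ℤ)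
    rw [← Int.cast_inj (α := ℚ), Int.cast_add, Int.cast_list_sum, List.map_map, List.map_map,
      List.map_congr_left (g := fun q => (q.1.ty.w : ℚ) * ({ q.1.ty with w := 1 }.k x y z * q.2 : ℤ))
      fun q _ => by simp only [Function.comp, Ty.k]; push_cast; ring, ← this]
    have := e2 0; have := e2 1; have := e2 2; have := e2 3; have := e2 4
    simp only [n, if_true, if_false] at *
    rw [Finset.sum_congr rfl (g := fun i => x * ((a i : ℚ) * d i) + y * (b 0 i * d i) +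
      z * (b 1 i * d i + b 2 i * d i + b 3 i * d i + b 4 i * d i)) fun i _ => by
        simp only [v, Ty.k, V6.ty]; push_cast; ring]
    simp only [Finset.sum_add_distrib, ← Finset.mul_sum, *]
    push_cast; ring
  · have := l2 fun q => ({ q.1 with w := 1 }.r x y z : ℤ) / q.2
    rw [List.map_map, List.map_congr_left (g := fun q => (q.1.ty.w : ℚ) *
      (({ q.1.ty with w := 1 }.r x y z : ℤ) / q.2)) fun q _ => by
        simp only [Function.comp, Ty.r, Ty.tau]; push_cast; ring, ← this]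
    have := r2 0; have := r2 1; have := r2 2; have := r2 3; have := r2 4
    simp only [n, if_true, if_false] at *
    rw [Finset.sum_congr rfl (g := fun i => x * ((a i : ℚ) * (τ i * τ i / d i)) +
      (4 * y + z) * (b 0 i * (τ i * τ i / d i)) - y * (b 1 i * (τ i * τ i / d i) +
      b 2 i * (τ i * τ i / d i) + b 3 i * (τ i * τ i / d i) + b 4 i * (τ i * τ i / d i))) fun i hi => by
        rw [ht' i hi]
        simp only [v, Ty.r, V6.ty, Ty.tau]; push_cast; ring]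
    simp only [Finset.sum_add_distrib, Finset.sum_sub_distrib, ← Finset.mul_sum, *]
    push_cast; ring

end Cfsg.GS.Qx
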