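import Cfsg.Agent.GS.Q8
import Cfsg.Agent.GS.Q7

/-! `U4b`, part 9: the case `S : 15`. -/

set_option autoImplicit false
set_option linter.unusedSectionVars false

namespace Cfsg.GS.Qx

open Subgroup Cfsg.L0 Cfsg.H8 Cfsg.FT Cfsg.H5 Cfsg.GW Cfsg.GW2.Bx Cfsg.BS.R
open scoped ComplexConjugate Classical

variable {G : Type} [Group G] [Finite G] {S A : Subgroup G} {c g s t u w x y z : G}
  {χ μ : G → ℂ} {i j k : ℕ}

theorem eqri {A B C : Subgroup G} (h1 : A ≤ B) (h2 : B ≤ C) (h : A.relIndex C = 5) : B = A ∨ B = C := by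
  rcases (Nat.dvd_prime Nat.prime_five).1 (h ▸ ri_dvd_of_le_left h1 C) with e | e
  · exact Or.inr (le_antisymm h2 (relIndex_eq_one.1 e))
  · have := ri_mul h1 h2
    rw [e, h] at this
    exact .inl (le_antisymm (relIndex_eq_one.1 (by omega)) h1)

structure U6 (S A : Subgroup G) (g u t : G) (μ : G → ℂ) : Prop extends U5 S A g where
  uN : u ∈ 𝒩 S
  uA : u ∈ 𝒞 A
  uo : Odd (orderOf u)
  nu : u ∉ 𝒞 S
  ht : t ∈ A
  t1 : t ≠ 1
  lin : Lin (𝒞₁ t) μ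
  ker : cker μ = O2 (𝒞₁ t) ⊔ S

theorem U5.exists_mu (h : U5 S A g) (uN : u ∈ 𝒩 S) (uA : u ∈ 𝒞 A) (uo : Odd (orderOf u)) (nu : u ∉ 𝒞 S)
    (ht : t ∈ A) (t1 : t ≠ 1) : ∃ μ, U6 S A g u t μ := by
  have r := (h.five uN uA uo nu ht t1).1
  have nl := h.nrmL ht t1
  obtain ⟨μ, hμ⟩ := exists_irrKD nl (H := 𝒞₁ t) fun l => by rw [relIndex_eq_one.2 l] at r; omega
  obtain ⟨i, k1, k2⟩ := mem_irrKD.1 hμ
  exact ⟨μ, h, uN, uA, uo, nu, ht, t1, lin_of_mem_irrK (mem_irrK.2 ⟨i, k1⟩) (der_le_of_ri_prime nl.norm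
    (r ▸ Nat.prime_five)), (eqri k1 i.cker_le r).resolve_right
      fun e => k2 e.ge⟩

namespace U6
variable (h : U6 S A g u t μ)
include h

theorem na : ¬ Abel S := fun ab => h.nu (h.oddA ab h.uN h.uo h.uA)
theorem r5 : (O2 (𝒞₁ t) ⊔ S).relIndex (𝒞₁ t) = 5 := (h.five h.uN h.uA h.uo h.nu h.ht h.t1).1
theorem nl : O2 (𝒞₁ t) ⊔ S ⊴ 𝒞₁ t := h.nrmL h.ht h.t1
theorem uC (i : ℕ) : u ^ i ∈ 𝒞₁ t := pow_mem (cent_le_cent1 h.ht h.uA) i
theorem uO (i : ℕ) : Odd (orderOf (u ^ i)) := h.uo.of_dvd_nat (orderOf_pow_dvd i)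
theorem t2 : t ^ 2 ^ 1 = 1 := (sq t).trans (h.sq h.ht)

theorem oddL (hy : y ∈ O2 (𝒞₁ t) ⊔ S) (o : Odd (orderOf y)) : y ∈ O2 (𝒞₁ t) :=
  odd_mem ⟨rfl, h.SO h.ht, h.OS _⟩ h.pg hy o

theorem m5 (hy : y ∈ 𝒞₁ t) : μ y ^ 5 = 1 := by
  rw [← h.lin.map_pow hy, ← h.lin.mem_cker, h.ker, ← h.r5]; exact pow_relIndex_mem h.nl.norm hy

theorem uL : u ∉ O2 (𝒞₁ t) ⊔ S := fun k => h.nu (mem_cent.2 fun _ hy => (mul_inv_eq_iff_eq_mul.1
  (h.oS h.ht (h.oddL k h.uo) hy (conj_mem_of_norm h.uN hy))).symm)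

theorem prim : IsPrimitiveRoot (μ u) 5 := by
  have : Fact (Nat.Prime 5) := ⟨Nat.prime_five⟩
  rw [← orderOf_eq_prime (h.m5 (cent_le_cent1 h.ht h.uA)) fun e => h.uL (h.ker ▸ h.lin.mem_cker.2 e)]
  exact IsPrimitiveRoot.orderOf _

theorem mu (i : ℕ) : μ (u ^ i) = μ u ^ i := h.lin.map_pow (cent_le_cent1 h.ht h.uA) i

theorem mo (hw : w ∈ O2 (𝒞₁ t)) (y : G) : μ (y * w) = μ y :=
  h.lin.cf.mul_cker (h.ker ▸ mem_sup_left hw) (Op_le _ _ hw) y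

theorem u5 : u ^ 5 ∈ O2 (𝒞₁ t) :=
  h.oddL (h.ker ▸ h.lin.mem_cker.2 ((h.mu 5).trans h.prim.pow_eq_one)) (h.uO 5)

theorem uZ : zpowers u ≤ 𝒞₁ t := zpowers_le.2 (cent_le_cent1 h.ht h.uA)
theorem uH : zpowers u ≤ 𝒩 (O2 (𝒞₁ t)) := h.uZ.trans (Op_nrm _ _).norm

theorem oH : Odd ♯(O2 (𝒞₁ t) ⊔ zpowers u) :=
  ((odd_O2 _).mul (card_zpow u ▸ h.uo)).of_dvd_nat (card_sup_dvd h.uH)

theorem LU : O2 (𝒞₁ t) ⊔ S ⊔ zpowers u = 𝒞₁ t :=
  (eqri le_sup_left (sup_le h.nl.le h.uZ) h.r5).resolve_left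
    fun e => h.uL (e ▸ mem_sup_right (mem_zpowers u))

theorem cC : ♯(𝒞₁ t) = ♯(O2 (𝒞₁ t)) * 320 := by
  rw [← card_mul_ri h.nl.le, h.r5, card_sup_of_inf (h.SO h.ht) (h.OS _), (h.ctr h.na).2]; ring

theorem cH : ♯(O2 (𝒞₁ t) ⊔ zpowers u) = ♯(O2 (𝒞₁ t)) * 5 := by
  have := ri_sup (h.uZ.trans h.nl.norm)
  rw [h.LU, h.r5, ← inf_relIndex_right, show (O2 (𝒞₁ t) ⊔ S) ⊓ zpowers u = O2 (𝒞₁ t) ⊓ zpowers u from
    le_antisymm (fun y hy => ⟨h.oddL hy.1 (odd_of_mem (card_zpow u ▸ h.uo) hy.2), hy.2⟩)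
      (inf_le_inf_right _ le_sup_left), inf_relIndex_right, ← ri_sup h.uH] at this
  rw [this, card_mul_ri le_sup_left]

theorem dH (hc : c ∈ O2 (𝒞₁ t) ⊔ zpowers u) : ∃ o ∈ O2 (𝒞₁ t), ∃ k : ℕ, c = o * u ^ k := by
  obtain ⟨o, ho, v, hv, rfl⟩ := (mem_sup_l h.uH).1 hc
  obtain ⟨k, rfl⟩ := mem_powers_iff_mem_zpowers.2 hv
  exact ⟨o, ho, k, rfl⟩

theorem dc (hc : c ∈ 𝒞₁ t) : ∃ s ∈ S, ∃ o ∈ O2 (𝒞₁ t), ∃ k : ℕ, c = s * (o * u ^ k) := by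
  obtain ⟨l, hl, v, hv, rfl⟩ := (mem_sup_l (h.uZ.trans h.nl.norm)).1 (h.LU.ge hc)
  obtain ⟨s, hs, o, ho, rfl⟩ := (mem_sup_r (h.SO h.ht)).1 (sup_comm _ S ▸ hl)
  obtain ⟨k, rfl⟩ := mem_powers_iff_mem_zpowers.2 hv
  exact ⟨s, hs, o, ho, k, mul_assoc ..⟩

theorem cxL (hx : x ∈ S) (nx : x ∉ A) (hy : y ∈ 𝒞₁ t) (e : y * x = x * y) : y ∈ O2 (𝒞₁ t) ⊔ S := by
  obtain ⟨o, ho, n, hn, -, rfl⟩ := h.frat h.ht h.t1 hy
  have e1 : o * (n * x * n⁻¹) * o⁻¹ = x := by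
    calc _ = o * n * x * (o * n)⁻¹ := by group
      _ = x := by rw [e, mul_inv_cancel_right]
  have nc : n ∈ 𝒞₁ x := mem_cent1.2 (mul_inv_eq_iff_eq_mul.1
    ((h.oS h.ht ho (conj_mem_of_norm hn hx) (e1.symm ▸ hx)).symm.trans e1))
  obtain ⟨s, hs, w, hw, -, od, e2⟩ := split2 h.syl hn
  exact mul_mem (mem_sup_left ho) (e2 ▸ mul_mem (mem_sup_right hs) (mem_sup_left (h.oddO h.ht h.t1
    (h.oddc (zpowers_le.2 hn hw) od hx nx (mem_cent1.1 (zpowers_le.2 nc hw))) od)))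

theorem conjH (hz : z ∈ 𝒞₁ t) (o : Odd (orderOf z)) : ∃ c ∈ 𝒞₁ t, c * z * c⁻¹ ∈ O2 (𝒞₁ t) ⊔ zpowers u := by
  have : Fact (Nat.Prime 5) := ⟨Nat.prime_five⟩
  obtain ⟨a, b, ha, hb, a5, b5, e⟩ := exists_pPart 5 z
  obtain ⟨P, hP⟩ := exists_isSyl (p := 5) (O2 (𝒞₁ t) ⊔ zpowers u)
  have l : O2 (𝒞₁ t) ⊔ zpowers u ≤ 𝒞₁ t := sup_le (Op_le _ _) h.uZ
  obtain ⟨c, hc, k⟩ := (hP.trans l (by
    have := card_mul_ri l
    rw [h.cH, h.cC, mul_assoc] at this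
    have := Nat.eq_of_mul_eq_mul_left (card_pos' _) this
    omega)).exists_conj_mem (zpowers_le.2 hz ha) a5
  refine ⟨c, hc, ?_⟩
  rw [e, show c * (a * b) * c⁻¹ = c * a * c⁻¹ * (c * b * c⁻¹) by group]
  exact mul_mem (hP.le k) (mem_sup_left (conj_mem_of_norm ((Op_nrm _ _).norm hc) (h.oddL (mem_of_cop_ri
    h.nl.norm (zpowers_le.2 hz hb) (h.r5 ▸ b5)) (odd_of_mem (card_zpow z ▸ o) hb))))

theorem cos (i : ℕ) : Cos (t * u ^ i) (O2 (𝒞₁ t)) := by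
  obtain ⟨x, hx, nx⟩ := SetLike.not_le_iff_exists.1 fun l => h.ne (le_antisymm l h.AS)
  obtain ⟨k, hk⟩ := h.p2 hx
  refine cos5 h.t2 (Op_nrm _ _) (odd_O2 _) h.lin (fun _ => h.m5) (h.ker ▸ le_sup_left) (h.SC1 h.ht hx) hk
    (fun y hy _ e => h.lin.mem_cker.1 (h.ker ▸ h.cxL hx nx hy e)) (h.uC i) (h.uO i) fun z hz o e => ?_
  obtain ⟨c, hc, k⟩ := h.conjH hz o
  refine ⟨c⁻¹, inv_mem hc, (u ^ i)⁻¹ * (c * z * c⁻¹), h.oddL (h.ker ▸ h.lin.mem_cker.2 ?_) (odd_of_mem h.oH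
    (mul_mem (inv_mem (mem_sup_right (pow_mem (mem_zpowers u) i))) k)), by group⟩
  rw [h.lin.map_mul (inv_mem (h.uC i)) (mul_mem (mul_mem hc hz) (inv_mem hc)), h.lin.cf.cnj c hc, e,
    mul_comm, h.lin.mul_inv (h.uC i)]

theorem fusu (e : (t * u ^ i)⁻¹ * (c * (t * u ^ j) * c⁻¹) ∈ O2 (𝒞₁ t)) :
    c ∈ 𝒞₁ t ∧ (u ^ i)⁻¹ * (c * u ^ j * c⁻¹) ∈ O2 (𝒞₁ t) := by
  have k := mul_inv_eq_iff_eq_mul.1 (part h.t2 h.t2 (h.uO j) (odd_mul (odd_O2 _) ((Op_nrm _ _).norm (h.uC i))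
    (h.uO i) e) (h.uC j) (mul_mem (h.uC i) (Op_le _ _ e)) (c := c) (by group))
  refine ⟨mem_cent1.2 k, ?_⟩
  rwa [← mul_assoc c, k, show (t * u ^ i)⁻¹ * (t * c * u ^ j * c⁻¹) = (u ^ i)⁻¹ * (c * u ^ j * c⁻¹) by group] at e

theorem colu (hi : i < 5) (hj : j < 5) : ∑ χ ∈ B0 G, conj (χ (t * u ^ j)) * χ (t * u ^ i) =
    if i = j then (if i = 0 then 320 else 20) else 0 := by
  split_ifs with e e0
  · subst e e0
    exact_mod_cast (h.cos 0).val h.cC fun c => ⟨fun k => (h.fusu k).1, fun k => by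
      rw [pow_zero, mul_one, mem_cent1.1 k]; simp⟩
  · subst e
    have n : A ≤ 𝒩 (O2 (𝒞₁ t) ⊔ zpowers u) := le_norm_sup (h.AS.trans (h.SO h.ht))
      ((cent_symm (zpowers_le.2 h.uA)).trans (cent_le_norm _))
    have k : ∀ o ∈ O2 (𝒞₁ t), ∀ k : ℕ, (u ^ i)⁻¹ * (o * u ^ k * u ^ i * (o * u ^ k)⁻¹) ∈ O2 (𝒞₁ t) :=
      fun o ho k => by
        rw [show (u ^ i)⁻¹ * (o * u ^ k * u ^ i * (o * u ^ k)⁻¹) = (u ^ i)⁻¹ * o * u ^ i * o⁻¹ by group]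
        exact mul_mem (conj_mem_of_norm' ((Op_nrm _ _).norm (h.uC i)) ho) (inv_mem ho)
    exact_mod_cast (h.cos i).val (P := O2 (𝒞₁ t) ⊔ zpowers u ⊔ A) (m := 20) (by
      rw [card_sup_of_inf n (inf_eq_bot_of_cop (by rw [h.c4]; exact (Nat.coprime_two_right.2 h.oH).pow_right 2)),
        h.cH, h.c4]; ring) fun c => ⟨fun m => by
      obtain ⟨hc, m⟩ := h.fusu m
      obtain ⟨s, hs, o, ho, l, rfl⟩ := h.dc hc
      have m2 := (mul_mem_cancel_right (conj_mem_of_norm (h.SO h.ht hs) (k o ho l))).1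
        (show (u ^ i)⁻¹ * s * u ^ i * s⁻¹ * _ ∈ _ by convert m using 1; group)
      have m3 := eq_one_of_mem (h.OS _) ⟨m2, S.mul_mem (conj_mem_of_norm' (pow_mem h.uN i) hs) (S.inv_mem hs)⟩
      refine mul_mem (mem_sup_right (by_contra fun ns => e0 ?_)) (mem_sup_left (mul_mem_sup ho
        (pow_mem (mem_zpowers u) l)))
      have := h.mo (h.oddO h.ht h.t1 (h.oddc (pow_mem h.uN i) (h.uO i) hs ns (by
        rw [mul_inv_eq_one, mul_assoc, inv_mul_eq_iff_eq_mul] at m3; exact m3.symm)) (h.uO i)) 1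
      rw [one_mul, h.mu, h.lin.one, h.prim.pow_eq_one_iff_dvd] at this
      exact Nat.eq_zero_of_dvd_of_lt this hi, fun m => by
      obtain ⟨d, hd, a, ha, rfl⟩ := (mem_sup_l n).1 m
      obtain ⟨o, ho, l, rfl⟩ := h.dH hd
      convert k o ho l using 1
      calc _ = (t * u ^ i)⁻¹ * (o * u ^ l * (a * t * u ^ i * a⁻¹) * (o * u ^ l)⁻¹) := by group
        _ = (t * u ^ i)⁻¹ * (o * u ^ l * t * u ^ i * (o * u ^ l)⁻¹) := by
          rw [h.cm ha h.ht, mul_assoc t, mem_cent.1 (pow_mem h.uA i) a ha]; group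
        _ = _ := by rw [mem_cent1.1 (mul_mem (Op_le _ _ ho) (h.uC l))]; group⟩
  · refine (h.cos i).zero fun c m => e ?_
    obtain ⟨hc, m⟩ := h.fusu m
    have := h.mo m (u ^ i)
    rw [mul_inv_cancel_left, h.lin.cf.cnj c hc, h.mu, h.mu] at this
    exact (h.prim.pow_inj hj hi this).symm

theorem colx (hx : x ∈ S) (n : ¬ IsConj t x) (i : ℕ) : ∑ χ ∈ B0 G, conj (χ x) * χ (t * u ^ i) = 0 := by
  obtain ⟨k, hk⟩ := h.p2 hx
  exact (h.cos i).zero fun c m => n (isConj_iff.2 ⟨c, part hk h.t2 (y := 1) (by simp) (odd_mul (odd_O2 _)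
    ((Op_nrm _ _).norm (h.uC i)) (h.uO i) m) (one_mem _) (mul_mem (h.uC i) (Op_le _ _ m)) (by group)⟩).symm

theorem ru (i : ℕ) : ∃ κ : ℚ, 0 < κ ∧ κ * ∑ χ ∈ B0 G, χ t * χ t / χ 1 * χ (t * u ^ i) =
    ∑ w ∈ fs (O2 (𝒞₁ t) : Set G), acnt (t * u ^ i * w) :=
  (h.cos i).cls (h.hI h.ht h.t1) (h.sq h.ht) h.t1

theorem ru1 (hi : i < 5) (i0 : i ≠ 0) : ∑ χ ∈ B0 G, χ t * χ t / χ 1 * χ (t * u ^ i) = 0 := by
  obtain ⟨κ, k0, e⟩ := h.ru i
  rw [sum_fs_eq_zero fun w hw => acnt_zero fun v v2 _ e => ?_] at e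
  · exact (mul_eq_zero.1 e).resolve_left (Rat.cast_ne_zero.2 k0.ne')
  have o := odd_mul (odd_O2 _) ((Op_nrm _ _).norm (h.uC i)) (h.uO i) hw
  have m := mul_mem (h.uC i) (Op_le _ _ hw)
  have e1 : v * (t * (u ^ i * w)) * v⁻¹ = t * (u ^ i * w)⁻¹ := by
    rw [← mem_cent1.1 (inv_mem m), show (u ^ i * w)⁻¹ * t = (t * (u ^ i * w))⁻¹ by
      rw [mul_inv_rev t, inv_eq_of_mul_eq_one_right (h.sq h.ht)], inv_eq_of_mul_eq_one_right v2,
      eq_inv_iff_mul_eq_one, ← e]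
    group
  have vC := mul_inv_eq_iff_eq_mul.1 (part h.t2 h.t2 o (by rwa [orderOf_inv]) m (inv_mem m) e1)
  rw [← mul_assoc v, vC, mul_assoc t, mul_assoc t, mul_right_inj] at e1
  have e2 := h.lin.cf.cnj v (mem_cent1.2 vC) (u ^ i * w)
  rw [e1, h.lin.map_inv m, h.mo hw, h.mu, inv_eq_iff_eq_inv, ← mul_eq_one_iff_eq_inv₀ (pow_ne_zero _
    (h.prim.ne_zero (by norm_num))), ← pow_add, h.prim.pow_eq_one_iff_dvd] at e2
  omega

end U6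

theorem per {f : ℕ → ℂ} (h : ∀ j, f (5 + j) = f j) (m : ℕ) :
    ∑ j ∈ Finset.range (5 * m), f j = m * ∑ j ∈ Finset.range 5, f j := by
  induction m with
  | zero => simp
  | succ m ih => rw [mul_add, mul_one, add_comm, Finset.sum_range_add]; simp only [h, ih]; push_cast; ring

theorem toQ0 {f : (G → ℂ) → ℚ} {F : (G → ℂ) → ℂ} {q : ℚ} (h1 : ∀ χ ∈ B0 G, F χ = f χ)
    (h : ∑ χ ∈ B0 G, F χ = q) : ∑ χ ∈ B0 G, f χ = q := by
  rw [Finset.sum_congr rfl h1] at h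
  exact_mod_cast h

/-- five times the multiplicity of `η ^ k` in `χ (t ·)` -/
noncomputable def EE (t u : G) (η : ℂ) (k : ℕ) (χ : G → ℂ) : ℂ :=
  ∑ i ∈ Finset.range 5, η ^ (k * i) * χ (t * u ^ i)

theorem sumE (f : (G → ℂ) → ℂ) (η : ℂ) (k : ℕ) : ∑ χ ∈ B0 G, f χ * EE t u η k χ =
    ∑ i ∈ Finset.range 5, η ^ (k * i) * ∑ χ ∈ B0 G, f χ * χ (t * u ^ i) := by
  simp only [EE, Finset.mul_sum]
  rw [Finset.sum_comm]
  exact Finset.sum_congr rfl fun _ _ => Finset.sum_congr rfl fun _ _ => by ring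

namespace U6
variable (h : U6 S A g u t μ)
include h

theorem prim' : IsPrimitiveRoot (conj (μ u)) 5 := h.prim.map_of_injective (RingHom.injective _)

theorem Eint (hχ : χ ∈ B0 G) (k : ℕ) : ∃ n : ℤ, EE t u (conj (μ u)) k χ = 5 * n := by
  have c : CI (zpowers u) t := ⟨h.sq h.ht, fun m => h.t1 (one_of_odd (card_zpow u ▸ h.uo) m (h.sq h.ht)), h.uZ⟩
  obtain ⟨n, hn⟩ := c.dot_int (mem_B0.1 hχ).1.vch le_top (mem_top t) ((h.lin.res h.uZ).pow k).vch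
  obtain ⟨m, hm⟩ : 5 ∣ orderOf u := by
    rw [← h.prim.pow_eq_one_iff_dvd, ← h.mu, pow_orderOf_eq_one, h.lin.one]
  refine ⟨n, ?_⟩
  rw [dot_def, sum_zp, card_zpow, hm, Finset.sum_congr rfl (g := fun i => conj (μ u) ^ (k * i) * χ (t * u ^ i))
    fun i _ => by
      rw [res_of_mem (pow_mem (mem_zpowers u) i), Pi.pow_apply, res_of_mem (pow_mem (mem_zpowers u) i), h.mu,
        ← pow_mul, map_pow, mul_comm, mul_comm i, tw_apply], per fun j => by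
      rw [mul_add, pow_add, mul_comm k, pow_mul, h.prim'.pow_eq_one, one_pow, one_mul, add_comm, pow_add,
        ← mul_assoc, b0_mul hχ h.t2 (Op_nrm _ _) (odd_O2 _) (h.uC j) (h.uO j) h.u5]] at hn
  have : (m : ℂ) ≠ 0 := Nat.cast_ne_zero.2 fun e => (orderOf_pos u).ne' (by rw [hm, e])
  rw [EE, ← hn]
  push_cast
  field_simp

theorem s5 {k l : ℕ} (hk : k < 5) (hl : l < 5) :
    ∑ i ∈ Finset.range 5, conj (μ u) ^ (k * i) * conj (conj (μ u) ^ (l * i)) = if k = l then 5 else 0 := by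
  have c := kk h.lin (cent_le_cent1 h.ht h.uA)
  have := four5 (η := conj (μ u) ^ k * μ u ^ l) (by
    rw [mul_pow, ← pow_mul, ← pow_mul, mul_comm k, mul_comm l, pow_mul, pow_mul, h.prim.pow_eq_one,
      h.prim'.pow_eq_one]; simp)
  rw [if_congr (Q := k = l) ⟨fun e => h.prim.pow_inj hk hl (by
    have : conj (μ u) ^ k * μ u ^ k = 1 := by rw [← mul_pow, c, one_pow]
    linear_combination μ u ^ l * this - μ u ^ k * e), fun e => by rw [e, ← mul_pow, c, one_pow]⟩ rfl rfl] at this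
  rw [← this]
  exact Finset.sum_congr rfl fun i _ => by rw [map_pow, Complex.conj_conj, mul_pow, pow_mul, pow_mul]

theorem EEE {k l : ℕ} (hk : k < 5) (hl : l < 5) : ∑ χ ∈ B0 G, conj (EE t u (conj (μ u)) l χ) *
    EE t u (conj (μ u)) k χ = 300 + 20 * if k = l then 5 else 0 := by
  rw [sumE, ← h.s5 hk hl, Finset.mul_sum, Finset.sum_congr rfl (g := fun i => (if i = 0 then 300 else 0) +
    20 * (conj (μ u) ^ (k * i) * conj (conj (μ u) ^ (l * i)))) fun i hi => ?_, Finset.sum_add_distrib]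
  · simp
  simp only [EE, map_sum, map_mul, Finset.sum_mul, mul_assoc]
  rw [Finset.sum_comm, Finset.sum_congr rfl fun j hj => by
    rw [← Finset.mul_sum, h.colu (Finset.mem_range.1 hi) (Finset.mem_range.1 hj)]]
  simp only [mul_ite, mul_zero, Finset.sum_ite_eq, if_pos hi]
  split_ifs with e
  · simp [e]; norm_num
  · ring

theorem ru0 : ∃ C : ℚ, 0 < C ∧ ∑ χ ∈ B0 G, χ t * χ t / χ 1 * χ t = C := by
  obtain ⟨κ, k0, e⟩ := h.ru 0
  obtain ⟨b, hb, nb⟩ := SetLike.not_le_iff_exists.1 fun l : A ≤ zpowers t => by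
    have := card_le l
    rw [card_zpow, orderOf_eq_prime ((sq t).trans (h.sq h.ht)) h.t1, h.c4] at this
    omega
  simp only [pow_zero, mul_one, acnt] at e
  rw [← Nat.cast_sum] at e
  generalize hN : ∑ x ∈ fs (O2 (𝒞₁ t) : Set G), Set.ncard _ = N at e
  refine ⟨N / κ, div_pos (Nat.cast_pos.2 ?_) k0, by
      rw [Rat.cast_div, Rat.cast_natCast, ← e, mul_div_cancel_left₀ _ (Rat.cast_ne_zero.2 k0.ne')]⟩
  rw [← hN]
  refine Finset.sum_pos' (fun _ _ => Nat.zero_le _) ⟨1, mem_fs.2 (one_mem _),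
    (Set.ncard_pos (Set.toFinite _)).2 ⟨b, ?_⟩⟩
  rw [Set.mem_ofPred_eq, mul_one]
  exact ⟨⟨h.sq hb, fun e => nb (e ▸ one_mem _)⟩, h.sq (mul_mem hb h.ht), fun e => nb (by
    rw [eq_inv_of_mul_eq_one_left e]; exact inv_mem (mem_zpowers t))⟩

theorem ck (hχ : Irr ⊤ χ) (n : χ ≠ cf1 ⊤) : cker χ = ⊥ :=
  (Fx.eq_or h.simple hχ.cf.le_norm_cker).resolve_right fun e => n (hχ.eq_cf1_of_cker e.ge)

theorem gd (hχ : χ ∈ B0 G) (n : χ ≠ cf1 ⊤) (e : χ 1 + 3 * χ t = 0) : 𝒞₁ t ≤ 𝒩 A := fun c hc => by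
  obtain ⟨o, ho, m, hm, -, rfl⟩ := h.frat h.ht h.t1 hc
  refine mul_mem (cent_le_norm A (mem_cent.2 fun b hb => ?_)) (h.NS hm)
  by_cases b1 : b = 1
  · simp [b1]
  by_cases bt : b = t
  · rw [bt]; exact (mem_cent1.1 (Op_le _ _ ho)).symm
  have k : ∀ a ∈ A, a ≠ 1 → χ a = χ t := fun a ha a1 => by
    obtain ⟨c, rfl⟩ := isConj_iff.1 ((h.hI h.ht h.t1 a).2 ⟨h.sq ha, a1⟩)
    exact (mem_B0.1 hχ).1.cf.cnj c (mem_top c) t
  have := good hχ (Op_nrm _ _) (odd_O2 _) ⟨h.sq h.ht, h.sq hb, h.t1, b1, bt, h.cm hb h.ht⟩ (by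
    rw [k b hb b1, k _ (mul_mem h.ht hb) fun e => bt (by
      rw [eq_inv_of_mul_eq_one_right e, inv_eq_of_mul_eq_one_right (h.sq h.ht)])]
    linear_combination e) ho
  rw [h.ck (mem_B0.1 hχ).1 n, mem_bot, mul_inv_eq_one, mul_inv_eq_iff_eq_mul] at this
  exact this

theorem dx (hχ : CF ⊤ χ) (hx : x ∈ S) (nx : x ∉ A) {ν : G → ℂ} (hν : ν ∈ irrK S A) (n : ν ≠ cf1 S) :
    dot S χ (cf1 S - ν) = χ x := by
  have l := lin_of_mem_irrK hν (h.der h.na)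
  rw [← dot_conj, dot_congr_right (ψ' := χ x • cf1 ⊤) fun y hy e => by
    obtain ⟨n, -, rfl⟩ := (h.five h.uN h.uA h.uo h.nu h.ht h.t1).2 x hx nx y hy fun k => e (by
      rw [Pi.sub_apply, cf1_of_mem hy, l.mem_cker.1 ((mem_irrK.1 hν).2 k), sub_self])
    rw [hχ.cnj n (mem_top n), Pi.smul_apply, FT.cf1_top, smul_eq_mul, mul_one], dot_conj, dot_smul_left,
    dot_one l.irr n, mul_one]

end U6

theorem U6.fin (h : U6 S A g u t μ) : 𝒞₁ t ≤ 𝒩 A := by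
  by_contra hn
  have ht := h.ht
  have t1 := h.t1
  have na := h.na
  obtain ⟨x, hx, nx⟩ := SetLike.not_le_iff_exists.1 fun l => h.ne (le_antisymm l h.AS)
  have An : A ⊴ S := ⟨h.AS, (le_norm S).trans h.NS⟩
  obtain ⟨ν, hν⟩ := exists_irrKD An (H := S) fun l => nx (l hx)
  obtain ⟨iν, kν, nν⟩ := mem_irrKD_self.1 hν
  have mν := mem_irrK.2 ⟨iν, kν⟩
  have ir := fun (χ : G → ℂ) (hχ : χ ∈ B0 G) => (mem_B0.1 hχ).1
  choose! τ hτ using fun (χ : G → ℂ) (hχ : χ ∈ B0 G) => tau_int (h.sq ht) t1 (ir χ hχ).ch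
  choose! a ha using fun (χ : G → ℂ) (hχ : χ ∈ B0 G) => show ∃ n : ℤ, χ x = n from
    h.dx (ir χ hχ).cf hx nx mν nν ▸ (ir χ hχ).vch.dot_res_int le_top ((vch_cf1 S).sub iν.vch)
  choose! e he using fun (k : ℕ) (χ : G → ℂ) (hχ : χ ∈ B0 G) => h.Eint hχ k
  have hd : ∀ χ ∈ B0 G, χ 1 = deg χ := fun χ hχ => (ir χ hχ).deg_eq
  have hm : ∀ χ ∈ B0 G, ∃ m : ℤ, 0 ≤ m ∧ 0 ≤ m + a χ ∧ deg χ = 64 * m + 4 * a χ - 3 * τ χ := fun χ hχ => by
    obtain ⟨n, e1⟩ := (ir χ hχ).ch.dot_res_nat le_top (ch_cf1 S)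
    obtain ⟨m, e2⟩ := (ir χ hχ).ch.dot_res_nat le_top iν.ch
    have e3 := h.dx (ir χ hχ).cf hx nx mν nν
    have e4 := avg An (h.der na) fun ν hν n => (h.dx (ir χ hχ).cf hx nx hν n).trans (ha χ hχ)
    rw [dot_sub_right, e1, e2, ha χ hχ] at e3
    rw [h.sumA ht t1 (ir χ hχ).cf, h.c4, (h.ctr na).2, e1, hd χ hχ, hτ χ hχ] at e4
    have e3 : (n : ℤ) - m = a χ := by exact_mod_cast e3
    have e4 : (deg χ : ℤ) + 3 * τ χ = 4 * a χ + 64 * (n - a χ) := by exact_mod_cast e4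
    exact ⟨m, by omega, by omega, by omega⟩
  have h16 : ∀ χ ∈ B0 G, ∃ n : ℕ, (deg χ : ℤ) - τ χ = 16 * n := fun χ hχ => by
    obtain ⟨n, k⟩ := h.d16 na ht t1 (ir χ hχ).ch
    rw [hd χ hχ, hτ χ hχ] at k
    exact ⟨n, by exact_mod_cast k⟩
  choose! q hq using fun (χ : G → ℂ) (hχ : χ ∈ B0 G) => show ∃ q : ℤ, a χ - τ χ = 4 * q by
    obtain ⟨m, -, -, e1⟩ := hm χ hχ
    obtain ⟨n, e2⟩ := h16 χ hχ
    exact ⟨n - 4 * m, by omega⟩
  have qs : ∀ f : (G → ℂ) → ℚ, ∑ χ ∈ B0 G, q χ * f χ = (∑ χ ∈ B0 G, a χ * f χ - ∑ χ ∈ B0 G, τ χ * f χ) / 4 :=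
    fun f => by
      rw [← Finset.sum_sub_distrib, Finset.sum_div]
      exact Finset.sum_congr rfl fun χ hχ => by
        rw [← sub_mul, ← Int.cast_sub, hq χ hχ]; push_cast; ring
  have τ1 : τ (cf1 ⊤) = 1 := by exact_mod_cast (hτ _ one_B0).symm.trans (FT.cf1_top t)
  have a1 : a (cf1 ⊤) = 1 := by exact_mod_cast (ha _ one_B0).symm.trans (FT.cf1_top x)
  have d1 : deg (cf1 (⊤ : Subgroup G)) = 1 := (lin_cf1 ⊤).deg_eq
  have q1 : q (cf1 ⊤) = 0 := by have := hq _ one_B0; omega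
  have e1 : ∀ k : ZMod 5, e k.val (cf1 ⊤) = if k = 0 then 1 else 0 := fun k => by
    have := he k.val _ one_B0
    have e2 := h.s5 k.val_lt (l := 0) (by norm_num)
    simp only [EE, FT.cf1_top, zero_mul, pow_zero, map_one, ZMod.val_eq_zero] at this e2
    rw [e2] at this
    split_ifs at this ⊢ <;> norm_cast at this <;> omega
  obtain ⟨O, ho, sd⟩ := h.sdx hx nx
  obtain ⟨k2, x2⟩ := h.p2 hx
  have x1 : x ≠ 1 := fun k => nx (k ▸ one_mem A)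
  have nc : ¬ IsConj t x := fun k => nx (h.om x hx ((h.hI ht t1 x).1 k).1)
  have n1 : ¬ IsConj t 1 := by simpa using t1
  have ca : ∀ χ ∈ B0 G, conj (χ x) = a χ := fun χ hχ => by rw [ha χ hχ, map_intCast]
  have ct : ∀ χ ∈ B0 G, conj (χ (t * u ^ 0)) = τ χ := fun χ hχ => by rw [pow_zero, mul_one, hτ χ hχ, map_intCast]
  have c1 : ∀ χ ∈ B0 G, conj (χ 1) = deg χ := fun χ hχ => by rw [hd χ hχ, map_natCast]
  have t0 : ∀ χ ∈ B0 G, χ (t * u ^ 0) = τ χ := fun χ hχ => by rw [pow_zero, mul_one, hτ χ hχ]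
  have s_aa : ∑ χ ∈ B0 G, (a χ * a χ : ℚ) = 16 := toQ0 (fun χ hχ => by rw [ca χ hχ, ha χ hχ]; simp)
    ((col2 x2 ho sd (h.pg.to_le inf_le_left) x2).trans (by
      rw [if_pos (IsConj.refl x), (h.cx na hx nx).1]; norm_num))
  have s_at : ∑ χ ∈ B0 G, (a χ * τ χ : ℚ) = 0 := toQ0 (fun χ hχ => by rw [ca χ hχ, t0 χ hχ]; simp)
    ((h.colx hx nc 0).trans (by simp))
  have s_tt : ∑ χ ∈ B0 G, (τ χ * τ χ : ℚ) = 320 := toQ0 (fun χ hχ => by rw [ct χ hχ, t0 χ hχ]; simp)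
    ((h.colu (i := 0) (j := 0) (by norm_num) (by norm_num)).trans (by simp))
  have s_ad : ∑ χ ∈ B0 G, (a χ * deg χ : ℚ) = 0 := toQ0 (fun χ hχ => by rw [hd χ hχ, ha χ hχ]; simp [mul_comm])
    ((h.colz ho sd hx x1).trans (by simp))
  have s_td : ∑ χ ∈ B0 G, (τ χ * deg χ : ℚ) = 0 := toQ0 (fun χ hχ => by rw [c1 χ hχ, t0 χ hχ]; simp [mul_comm])
    ((h.colx (one_mem S) n1 0).trans (by simp))
  have s_ar : ∑ χ ∈ B0 G, (a χ * (τ χ * τ χ / deg χ) : ℚ) = 0 := toQ0 (fun χ hχ => by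
    rw [hd χ hχ, ha χ hχ, hτ χ hχ]; simp [mul_comm]) ((h.racnt ht t1 hx nx).trans (by simp))
  obtain ⟨C, C0, hC⟩ := h.ru0
  have s_tr : ∑ χ ∈ B0 G, (τ χ * (τ χ * τ χ / deg χ) : ℚ) = C := toQ0 (fun χ hχ => by
    rw [hd χ hχ, hτ χ hχ]; simp [mul_comm]) hC
  have se : ∀ (k : ℕ) (F : (G → ℂ) → ℂ) (f : (G → ℂ) → ℚ) (c : ℚ), (∀ χ ∈ B0 G, F χ = f χ) →
      ∑ χ ∈ B0 G, F χ * χ (t * u ^ 0) = c → (∀ i < 5, i ≠ 0 → ∑ χ ∈ B0 G, F χ * χ (t * u ^ i) = 0) →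
      ∑ χ ∈ B0 G, e k χ * f χ = c / 5 := fun k F f c k1 k2 k3 => by
    rw [eq_div_iff (by norm_num), Finset.sum_mul]
    refine toQ0 (F := fun χ => F χ * EE t u (conj (μ u)) k χ) (fun χ hχ => by
      rw [k1 χ hχ, he k χ hχ]; push_cast; ring) ?_
    rw [sumE, Finset.sum_eq_single 0 (fun i hi i0 => by rw [k3 i (Finset.mem_range.1 hi) i0, mul_zero])
      (by simp), k2]
    simp
  have s_ea := fun k => se k _ (fun χ => a χ) 0 (fun χ hχ => by rw [ca χ hχ]; simp)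
    ((h.colx hx nc 0).trans (by simp)) fun i _ _ => h.colx hx nc i
  have s_et := fun k => se k _ (fun χ => τ χ) 320 (fun χ hχ => by rw [ct χ hχ]; simp)
    ((h.colu (i := 0) (j := 0) (by norm_num) (by norm_num)).trans (by simp)) fun i hi i0 =>
      (h.colu hi (by norm_num)).trans (if_neg i0)
  have s_ed := fun k => se k _ (fun χ => deg χ) 0 (fun χ hχ => by rw [c1 χ hχ]; simp)
    ((h.colx (one_mem S) n1 0).trans (by simp)) fun i _ _ => h.colx (one_mem S) n1 i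
  have s_er := fun k => se k (fun χ => χ t * χ t / χ 1) (fun χ => τ χ * τ χ / deg χ) C (fun χ hχ => by
    rw [hd χ hχ, hτ χ hχ]; simp) (by simpa using hC) fun i => h.ru1
  have s_ee : ∀ k l : ZMod 5, ∑ χ ∈ B0 G, (e k.val χ * e l.val χ : ℚ) = if k = l then 16 else 12 :=
    fun k l => by
      have := toQ0 (f := fun χ => 25 * (e k.val χ * e l.val χ)) (q := if k = l then 400 else 300)
        (fun χ hχ => by rw [he _ χ hχ, he _ χ hχ]; simp [map_ofNat]; ring)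
        ((h.EEE k.val_lt l.val_lt).trans (by
          rw [if_congr (ZMod.val_injective 5).eq_iff rfl rfl]; split_ifs <;> norm_num))
      rw [← Finset.mul_sum] at this
      split_ifs at this ⊢ <;> linarith
  have cm : ∀ f g : (G → ℂ) → ℚ, ∑ χ ∈ B0 G, f χ * g χ = ∑ χ ∈ B0 G, g χ * f χ := fun f g => by
    simp only [mul_comm]
  have s_qa := qs fun χ => a χ
  have s_qt := qs fun χ => τ χ
  have s_qq := qs fun χ => q χ
  have s_qe := fun k => qs fun χ => e k χ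
  have s_qd := qs fun χ => deg χ
  have s_qr := qs fun χ => τ χ * τ χ / deg χ
  rw [s_aa, cm (fun χ => τ χ), s_at] at s_qa
  rw [s_at, s_tt] at s_qt
  rw [cm (fun χ => a χ), cm (fun χ => τ χ), s_qa, s_qt] at s_qq
  simp only [cm (fun χ => a χ), cm (fun χ => τ χ), s_ea, s_et] at s_qe
  rw [s_ad, s_td] at s_qd
  rw [s_ar, s_tr] at s_qr
  obtain ⟨v, hv⟩ := exists_aut_pow (n := 5) (k := 3) (by norm_num) (by norm_num)
  have b0 := fun χ (hχ : χ ∈ (B0 G).erase (cf1 ⊤)) => Finset.mem_of_mem_erase hχ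
  have va : ∀ χ ∈ B0 G, a (aut v χ) = a χ := fun χ hχ => by
    have := ha _ (aut_B0 hχ v)
    rw [aut_apply, ha χ hχ, map_intCast] at this
    exact_mod_cast this.symm
  have vt : ∀ χ ∈ B0 G, τ (aut v χ) = τ χ := fun χ hχ => by
    have := hτ _ (aut_B0 hχ v)
    rw [aut_apply, hτ χ hχ, map_intCast] at this
    exact_mod_cast this.symm
  refine lyons ((B0 G).erase (cf1 ⊤)) (aut v) (((Finset.finite_toSet _).injOn_iff_bijOn_of_mapsTo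
    fun χ hχ => Finset.mem_erase.2 ⟨fun k => Finset.ne_of_mem_erase hχ (aut_inj v (k.trans (by simp))),
      aut_B0 (b0 χ hχ) v⟩).1 (aut_inj v).injOn) a (fun χ => deg χ) τ (fun k χ => e k.val χ + q χ)
    (fun χ hχ => va χ (b0 χ hχ)) (fun χ hχ => by rw [(ir χ (b0 χ hχ)).ch.deg_aut])
    (fun χ hχ k => ?_) (fun χ hχ => ?_) (fun χ hχ => ?_) ?_ (fun k => ?_) (fun k l => ?_) ?_ (fun k => ?_)
    ?_ (c := C / 20) (by positivity) fun k => ?_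
  · have b := b0 χ hχ
    have e2 := hq _ (aut_B0 b v)
    have e3 := hq χ b
    have e4 := congrArg v (he (2 * k).val χ b)
    rw [va χ b, vt χ b] at e2
    rw [map_mul, map_intCast, map_ofNat, show v _ = EE t u (conj (μ u)) k.val (aut v χ) by
      simp only [EE, map_sum, map_mul, map_pow v, hv _ h.prim'.pow_eq_one, aut_apply, ← pow_mul]
      refine Finset.sum_congr rfl fun i _ => ?_
      rw [pow_eq_pow_mod _ h.prim'.pow_eq_one, pow_eq_pow_mod (k.val * i) h.prim'.pow_eq_one, ← mul_assoc,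
        Nat.mul_mod, show 3 * (2 * k).val % 5 = k.val % 5 from (by decide : ∀ k : ZMod 5, 3 * (2 * k).val % 5 = k.val % 5) k, ← Nat.mul_mod],
      he _ _ (aut_B0 b v)] at e4
    norm_cast at e4
    omega
  · have b := b0 χ hχ
    have e3 := hq χ b
    have e4 : ∑ k ∈ Finset.range 5, EE t u (conj (μ u)) k χ = 5 * τ χ := by
      simp only [EE]
      rw [Finset.sum_comm, Finset.sum_eq_single 0 (fun i hi i0 => by
        simp only [mul_comm _ i, pow_mul]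
        rw [← Finset.sum_mul, four5 (by rw [← pow_mul, mul_comm, pow_mul, h.prim'.pow_eq_one, one_pow]),
          if_neg (h.prim'.pow_ne_one_of_pos_of_lt i0 (Finset.mem_range.1 hi)), zero_mul]) (by simp), t0 χ b]
      simp
    simp only [he _ χ b, Finset.sum_range_succ, Finset.sum_range_zero] at e4
    norm_cast at e4
    change τ χ = 5 * a χ - 4 * (e 0 χ + q χ + (e 1 χ + q χ + (e 2 χ + q χ) + (e 3 χ + q χ) + (e 4 χ + q χ)))
    omega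
  · have b := b0 χ hχ
    obtain ⟨m, m0, m1, m2⟩ := hm χ b
    obtain ⟨n, e2⟩ := h16 χ b
    obtain ⟨l, e3⟩ := (ir χ b).ch.dot_res_nat le_top (ch_cf1 A)
    rw [dot_cf1_right, h.sumA ht t1 (ir χ b).cf, h.c4, inv_mul_eq_iff_eq_mul₀ (by norm_num)] at e3
    have l0 : l ≠ 0 := fun k => hn (h.gd b (Finset.ne_of_mem_erase hχ) (by simpa [k] using e3))
    have n0 : n ≠ 0 := fun k => t1 (eq_one_of_mem (h.ck (ir χ b) (Finset.ne_of_mem_erase hχ))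
      ((ir χ b).mem_cker.2 (by rw [hd χ b, hτ χ b, show τ χ = deg χ by omega, Int.cast_natCast])))
    rw [hd χ b, hτ χ b] at e3
    norm_cast at e3
    exact ⟨fun k => tau_ne b (Nat.odd_iff.2 (Nat.two_dvd_ne_zero.1 (h.syl.not_dvd_of_le (h.SC1 ht))))
      (by rw [hτ χ b, k, Int.cast_zero]), by omega, m, m0, m1, by omega, m2⟩
  all_goals try apply Int.cast_injective (α := ℚ)
  all_goals push_cast
  all_goals rw [Finset.sum_erase_eq_sub one_B0]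
  all_goals simp only [add_mul, mul_add, Finset.sum_add_distrib, cm (fun χ => a χ) fun χ => e _ χ,
    cm (fun χ => a χ) fun χ => q χ, cm (fun χ => e _ χ) fun χ => q χ, s_aa, s_ea, s_qa, s_ee, s_qe, s_qq,
    s_ad, s_ed, s_qd, s_ar, s_er, s_qr, a1, e1, q1, d1, τ1]
  all_goals first | (norm_num; done) | (split_ifs <;> first | (norm_num; done) | ring1 | (push_cast; ring1) | (simp_all; done))

theorem u4b : T4.U4b := fun G _ _ S A h c4 om ne => by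
  obtain ⟨g, h5⟩ := U4.exists_g ⟨h, c4, om, ne⟩
  by_cases hc : ∀ w ∈ 𝒩 S, w ∈ 𝒞 A → Odd (orderOf w) → w ∈ 𝒞 S
  · exact (h5.caseI hc).elim
  push Not at hc
  obtain ⟨u, uN, uA, uo, nu⟩ := hc
  refine ⟨𝒩 A, h, fun e => ?_, le_rfl, fun a ha a1 => ?_⟩
  · rcases Fx.eq_or h.simple e.ge with k | k
    · rw [k, card_bot] at c4; omega
    · exact ne (le_antisymm (k ▸ le_top) h5.AS)
  · obtain ⟨μ, k⟩ := h5.exists_mu uN uA uo nu ha a1
    exact k.fin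

end Cfsg.GS.Qx
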