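import Cfsg.Agent.GS.WC2

/-! Task CH. -/

set_option autoImplicit false
set_option linter.unusedSectionVars false

open scoped ComplexConjugate

namespace Cfsg.GW2

open Subgroup Cfsg.L0 Cfsg.H8 Cfsg.FT Cfsg.GJ Cfsg.GW2.Bx Cfsg.GW2.Ox

namespace Cx

variable {G : Type} [Group G] [Finite G] {E L U P T Y : Subgroup G} {t v w x : G}
  {q n m : ℕ} {a b c b₀ c₀ : G → ℂ}

theorem eq_one (h : R3 t E L U P T Y v w x q n m) (ha : Dirr ⊤ a) (e1 : a 1 = 1) (et : a t = 1) :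
    a = cf1 ⊤ := by
  have i := ha.irr_of_pos (by rw [e1]; simp)
  refine i.eq_cf1_of_cker (h.gi.ge.trans (closure_le _ |>.2 fun s hs => ?_))
  obtain ⟨g, rfl⟩ := h.one s hs
  exact i.mem_cker.2 (by rw [i.cf.cnj g (mem_top g), et, e1])

theorem final (h : R3 t E L U P T Y v w x q n m) (ha : Dirr ⊤ a) (hb : Dirr ⊤ b) (hc : Dirr ⊤ c)
    (hb₀ : Dirr ⊤ b₀) (hc₀ : Dirr ⊤ c₀) (ct : c t = q + 1) (c0t : c₀ t = q + 1) (c1 : c₀ 1 = c 1)
    (e1 : (a + b - c) 1 = 0) (et : (a + b - c) t = 0) (eA : dot ⊤ (a + b - c) acnt * ♯U = q - 1)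
    (f1 : (cf1 ⊤ + b₀ - c₀ : G → ℂ) 1 = 0) (ft : (cf1 ⊤ + b₀ - c₀ : G → ℂ) t = 0)
    (fA : dot ⊤ (cf1 ⊤ + b₀ - c₀) acnt * ♯U = q - 1) {s₁ : ℤ} (at' : a t = s₁)
    (hs : s₁ = 1 ∨ s₁ % 4 = 2) : a = cf1 ⊤ := by
  have da := dot_acnt (hI h) ha
  have db := dot_acnt (hI h) hb
  have dc := dot_acnt (hI h) hc
  have db₀ := dot_acnt (hI h) hb₀
  have dc₀ := dot_acnt (hI h) hc₀
  have d1 := dot_acnt (hI h) (irr_cf1 ⊤).dirr
  have cC : (♯(𝒞₁ t) : ℂ) = q * (q - 1) * (q + 1) * ♯U := by exact_mod_cast cardC h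
  have cG : (Nat.card G : ℂ) = (𝒞₁ t).index * (q * (q - 1) * (q + 1) * ♯U) := by
    rw [← cC, ← card_mul_index (𝒞₁ t)]; push_cast; ring
  have i0 : ((𝒞₁ t).index : ℂ) ≠ 0 := Nat.cast_ne_zero.2 index_ne_zero_of_finite
  have G0 : (Nat.card G : ℂ) ≠ 0 := Nat.cast_ne_zero.2 Nat.card_pos.ne'
  have U0 := card_ne_zero_c U
  have cc' : dot ⊤ c₀ acnt = dot ⊤ c acnt := by
    rw [c0t, ← ct, ← dc, c1] at dc₀
    exact mul_right_cancel₀ G0 (mul_right_cancel₀ hc.one_ne_zero dc₀)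
  rw [card_cls h] at da db dc db₀ d1
  simp only [Pi.sub_apply, Pi.add_apply, cf1_of_mem (mem_top _), dot_sub_left, dot_add_left, ct, c0t,
    c1, cc'] at e1 et f1 ft eA fA d1 dc
  obtain ⟨X, hX⟩ := ha.vch.one_int
  obtain ⟨Z, hZ⟩ := hb.vch.one_int
  obtain ⟨Z₀, hZ₀⟩ := hb₀.vch.one_int
  obtain ⟨k₀, m0⟩ := mod8 h hb₀.vch
  obtain ⟨k₁, m1⟩ := mod8 h ha.vch
  obtain ⟨k₂, m2⟩ := mod8 h hb.vch
  have bt : b t = (q + 1 - s₁ : ℤ) := by push_cast; linear_combination et - at'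
  have b0t : b₀ t = q := by linear_combination ft
  have c2 : c 1 = 1 + Z₀ := by linear_combination hZ₀ - f1
  rw [hX, at'] at da m1
  rw [hZ, bt] at db m2
  rw [hZ₀, b0t] at db₀ m0
  rw [hX, hZ, c2] at e1
  rw [c2] at dc
  have E1 : ((𝒞₁ t).index : ℂ) * (Z₀ - q) ^ 2 = q * (q - 1) * (q + 1) * (q - 1) * Z₀ * (Z₀ + 1) := by
    apply mul_left_cancel₀ i0
    rw [cG] at d1 db₀ dc
    linear_combination (𝒞₁ t).index * (q * (q - 1) * (q + 1)) * Z₀ * (Z₀ + 1) * fA -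
      Z₀ * (Z₀ + 1) * d1 - (Z₀ + 1) * db₀ + Z₀ * dc
  have E2 : ((s₁ : ℂ) ^ 2 * Z + (q + 1 - s₁ : ℤ) ^ 2 * X) * Z₀ = (Z₀ + q ^ 2) * (X * Z) := by
    apply mul_left_cancel₀ (mul_ne_zero U0 (pow_ne_zero 2 i0))
    linear_combination Nat.card G * X * Z * Z₀ * (eA - fA) -
      ♯U * (Z * Z₀ * da + X * Z₀ * db - X * Z * Z₀ * d1 - X * Z * db₀)
  obtain ⟨r1, r2⟩ := endgame (x := X) (y := Z) (y₀ := Z₀) (s₁ := s₁) (s₂ := q + 1 - s₁) (k₀ := k₀)
    (k₁ := k₁) (k₂ := k₂) h.ks.q8 (i := (𝒞₁ t).index) (by exact_mod_cast E1) (by exact_mod_cast E2)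
    (by exact_mod_cast sub_eq_zero.1 e1) (by ring) (by exact_mod_cast m0) (by exact_mod_cast m1)
    (by exact_mod_cast m2) hs
  exact eq_one h ha (by rw [hX, r2, Int.cast_one]) (by rw [at', r1, Int.cast_one])

end Cx

open Cx in
theorem taskCH : TaskCH := by
  intro G _ _ t v w x E L U P T Y q n m h hU hT
  have W := h.toW3
  have C := ci h.toWH
  have hC := cent_eq h.toWH
  obtain ⟨d, hd, d1⟩ := exists_ne_one hT
  obtain ⟨μ, m1, m2, m3, m4⟩ := exists_mu W h.cop le_rfl hd.1 hd.2 d1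
  have hμ : Mu P T U μ d := ⟨m1, m2, m3, hd.1, m4⟩
  obtain ⟨u, c, p, κ, μ₁, k⟩ := exists_kp W h.cop hU
  have K := ka_pow k.ka h.LE
  have Q := fun j => (K j).pr h hμ
  have p1 := k.pp.one_lt
  have nm := mem_irrK.1 (k.nu_mem W)
  have gal := fun j (hj : j < p) j0 => k.gal W h.cop hμ hj j0
  have rg := rg_ind W fun b hb r => k.rg W h.cop hμ hb r
  have l1 : (∑ j ∈ Finset.range p, res (P ⊔ T ⊔ U) (res E (κ ^ j)) * μ -
      ind (P ⊔ T ⊔ zpowers (u ^ p)) (P ⊔ T ⊔ U) μ₁) 1 = 0 := by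
    rw [Pi.sub_apply, k.sum W (one_mem _), if_pos k.ka.lin.one, m1.one, k.nu_one W, mul_one, sub_self]
  have eA := ga_acnt h (φ := ∑ j ∈ Finset.range p, res (P ⊔ T ⊔ U) (res E (κ ^ j)) * μ -
      ind (P ⊔ T ⊔ zpowers (u ^ p)) (P ⊔ T ⊔ U) μ₁) (fun y hy => mem_cker.2 fun z => by
        rw [Pi.sub_apply, Pi.sub_apply, mem_cker.1 (nm.2 hy), mem_cker.1
          (le_cker_sum (fun j _ => (mem_irrK.1 ((K j).mm W hμ)).2) hy)]) l1
  rw [dot_sub_left, dot_sum_left, Finset.sum_eq_zero fun j _ => (K j).tT W hμ, k.nT W, sub_zero,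
    mul_zero, mul_eq_zero, or_iff_left (card_ne_zero_c U)] at eA
  have aA := (al_acnt h nm.2).1
  rw [k.nT W, mul_zero, mul_eq_zero, or_iff_left (card_ne_zero_c U)] at aA
  have e1 := ind_B_one W (∑ j ∈ Finset.range p, res (P ⊔ T ⊔ U) (res E (κ ^ j)) * μ -
      ind (P ⊔ T ⊔ zpowers (u ^ p)) (P ⊔ T ⊔ U) μ₁)
  rw [l1, mul_zero] at e1
  have oΛ := od_ind W (∑ j ∈ Finset.range p, res (P ⊔ T ⊔ U) (res E (κ ^ j)) * μ -
      ind (P ⊔ T ⊔ zpowers (u ^ p)) (P ⊔ T ⊔ U) μ₁)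
  have n1 := ind_B_one W (ind (P ⊔ T ⊔ zpowers (u ^ p)) (P ⊔ T ⊔ U) μ₁)
  rw [k.nu_one W] at n1
  have nn := k.nn W
  have tn := fun j => k.ln W ((K j).mm W hμ) ((K j).lm W hμ).one
  have pn := fun j => k.ln W ((K j).mem W) ((K j).linB W).one
  have tt := fun i j (hi : i < p) (hj : j < p) => k.tt W hμ hi hj
  have t1 := fun j => (K j).tt W hμ
  have pt := fun i j => (K j).pt W hμ (K i)
  have vθ := fun j => ((K j).lm W hμ).vch.ind (BE W)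
  have vπ := fun j => ((K j).linB W).vch.ind (BE W)
  have vν := nm.1.vch.ind (BE W)
  have oθ := fun j => od_ind W (res (P ⊔ T ⊔ U) (res E (κ ^ j)) * μ)
  have oπ := fun j => od_ind W (res (P ⊔ T ⊔ U) (res E (κ ^ j)))
  have oν := od_ind W (ind (P ⊔ T ⊔ zpowers (u ^ p)) (P ⊔ T ⊔ U) μ₁)
  have rγ := fun j => (K j).rg W hμ h.cop
  have g1 := fun j => g_one h (K j) hμ
  have iπ := (K 1).ind_eq W
  have iθ : Irr E _ := (((K 1).lm W hμ).ch.ind (BE W)).irr (t1 1)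
  simp only [ind_aut] at gal
  rw [map_sub, map_sum] at rg eA e1 oΛ gal
  set θ := fun j => ind (P ⊔ T ⊔ U) E (res (P ⊔ T ⊔ U) (res E (κ ^ j)) * μ) with hθ
  set π := fun j => ind (P ⊔ T ⊔ U) E (res (P ⊔ T ⊔ U) (res E (κ ^ j))) with hπ
  set ν := ind (P ⊔ T ⊔ U) E (ind (P ⊔ T ⊔ zpowers (u ^ p)) (P ⊔ T ⊔ U) μ₁)
  change ∀ j, Pr t q ♯U (ga E t (π j - θ j)) (al E t (θ j)) at Q
  change ∀ j, dot E (θ j) ν = 0 at tn
  change ∀ j, dot E (π j) ν = 0 at pn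
  change ∀ i j, i < p → j < p → i ≠ j → dot E (θ i) (θ j) = 0 at tt
  change ∀ j, dot E (θ j) (θ j) = 1 at t1
  change ∀ i j, dot E (π i) (θ j) = 0 at pt
  change ∀ j, VCh E (θ j) at vθ
  change ∀ j, VCh E (π j) at vπ
  change ∀ j, Od (θ j) at oθ
  change ∀ j, Od (π j) at oπ
  change ∀ j y, (π j - θ j) y ≠ 0 → Rg L n y at rγ
  change ∀ j, dot ⊤ (ga E t (π j - θ j)) (cf1 ⊤) = _ at g1
  change π 1 = _ at iπ
  change Irr E (θ 1) at iθ
  change ∀ j < p, 0 < j → ∃ σ, aut σ (θ 1) = θ j ∧ _ at gal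
  have vΛ : VCh E (∑ j ∈ Finset.range p, θ j - ν) := (VCh.sum fun j _ => vθ j).sub vν
  have sθ : ∀ j < p, dot E (∑ j ∈ Finset.range p, θ j) (θ j) = 1 := fun j hj => by
    rw [dot_sum_of_orth (Finset.mem_range.2 hj) fun i hi => tt i j (Finset.mem_range.1 hi) hj, t1]
  have sν : dot E (∑ j ∈ Finset.range p, θ j) ν = 0 := by
    rw [dot_sum_left, Finset.sum_eq_zero fun j _ => tn j]
  have o : ∀ i < p, ∀ j < p, i ≠ j → dot ⊤ (al E t (θ i)) (al E t (θ j)) = 0 := fun i hi j hj e => by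
    rw [dot_al_al C hC (vθ i).cf (oθ i) (vθ j).cf (oθ j), tt i j hi hj e, mul_zero]
  have o' : ∀ j < p, dot ⊤ (al E t (θ j)) (al E t ν) = 0 := fun j _ => by
    rw [dot_al_al C hC (vθ j).cf (oθ j) vν.cf oν, tn, mul_zero]
  have o1 : Odd (orderOf (1 : G)) := by simp
  have s0 : q + 1 ≠ 0 := q.succ_ne_zero
  obtain ⟨F, F', g, g', fam⟩ := exists_fam (t := t) (a := fun j => al E t (θ j)) (s := q + 1)
    (s' := p * (q + 1)) (α' := al E t ν) (ε := ga E t (∑ j ∈ Finset.range p, θ j - ν)) s0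
    (fun j _ => exists_pa (hI h) (Q j).hα (Q j).a2 (Q j).α1 (by rw [(Q j).αt]; push_cast; ring) s0
      (Q j).αA)
    (exists_pa (hI h) (vch_al C vν) (by rw [dot_al_al C hC vν.cf oν vν.cf oν, nn, mul_one])
      (al_odd C vν.cf o1) (by
        have := al_ty C hC vν.cf oν (one_mem E) o1
        rw [mul_one, n1] at this
        rw [this]; push_cast; ring) (mul_ne_zero k.pp.ne_zero s0) aA) o o' (vch_ga C vΛ)
    (by
      rw [dot_ga_ga h vΛ.cf oΛ rg vΛ.cf oΛ, dot_sub_left, dot_sub_right, dot_sub_right, sν,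
        dot_symm_zero sν, nn, dot_sum_right,
        Finset.sum_congr rfl fun j hj => sθ j (Finset.mem_range.1 hj)]
      simp)
    (fun j hj => by
      rw [dot_ga_al C hC vΛ.cf oΛ (vθ j).cf (oθ j), dot_sub_left, sθ j hj, dot_symm_zero (tn j),
        sub_zero])
    (by rw [dot_ga_al C hC vΛ.cf oΛ vν.cf oν, dot_sub_left, sν, nn, zero_sub])
  have deg := fam.deg (hI h) s0 p1 rfl (fun j hj j0 => by
      obtain ⟨σ, a, b⟩ := gal j hj j0
      exact fam.gal p1 hj (u := σ) (by rw [al_aut, a]) (by rw [ga_aut, b]))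
    (by rw [ga_one C, e1, vΛ.sp t h.tE, add_zero, mul_zero]) eA
  have gam : ∀ j < p, dot ⊤ (ga E t (π j - θ j) + F j) (ga E t (π j - θ j) + F j) = 2 := fun j hj => by
    have v := (vπ j).sub (vθ j)
    have o2 := (oπ j).sub (oθ j)
    exact fam.gam s0 o o' hj (Q j).hγ (Q j).g3 (Q j).γt (Q j).ga
      (fun i hi e => by
        rw [dot_ga_al C hC v.cf o2 (vθ i).cf (oθ i), dot_sub_left, pt, tt j i hj hi e.symm, sub_zero])
      (by rw [dot_ga_al C hC v.cf o2 vν.cf oν, dot_sub_left, pn, tn, sub_zero])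
      (by
        rw [dot_ga_ga h v.cf o2 (rγ j) vΛ.cf oΛ, dot_sub_left, dot_sub_right, dot_sub_right, pn, tn,
          dot_symm_one (sθ j hj), dot_sum_right, Finset.sum_eq_zero fun i _ => pt j i]
        ring)
  have F1 : ∀ j < p, dot ⊤ (F j) (cf1 ⊤) = 0 := fun j hj => by_contra fun e => by
    have e2 := (fam.pa j hj).et
    have := h.ks.q27
    rcases (fam.pa j hj).de.eq_or_neg (irr_cf1 ⊤).dirr e with r | r <;> rw [r] at e2
    · rw [cf1_of_mem (mem_top _)] at e2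
      have : 1 = q + 1 := by exact_mod_cast e2
      omega
    · rw [Pi.neg_apply, cf1_of_mem (mem_top _)] at e2
      have : (-1 : ℤ) = (q + 1 : ℕ) := by exact_mod_cast e2
      omega
  have P0 := fam.pa 0 k.pp.pos
  have P1 := fam.pa 1 p1
  have g0 := g1 0
  rw [pow_zero, ← dot_res_left (P ⊔ T ⊔ U), res_res (BE W), ← cf1, dot_cf1_self] at g0
  have g2 := g1 1
  rw [← dot_res_left (P ⊔ T ⊔ U), ((K 1).linB W).irr.dot_cf1 fun e => k.pr.ne_one p1 (by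
    simpa [res_of_mem (mem_sup_right k.mem : u ∈ P ⊔ T ⊔ U), res_of_mem (h.UE k.mem),
      cf1_of_mem (mem_sup_right k.mem : u ∈ P ⊔ T ⊔ U)] using congrFun e u)] at g2
  have z0 : dot ⊤ (ga E t (π 0 - θ 0) + F 0) (cf1 ⊤) = 1 := by
    rw [dot_add_left, g0, F1 0 k.pp.pos, add_zero]
  have hb₀ := (((Q 0).hγ.add P0.de.vch).sub (vch_cf1 ⊤)).dirr (by
    rw [dot_sub_left, dot_sub_right, dot_sub_right, gam 0 k.pp.pos, z0, dot_symm_one z0, dot_cf1_self]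
    norm_num)
  obtain ⟨a, b, ha, hb, ab, e2⟩ := ((Q 1).hγ.add P1.de.vch).exists_add_of_two (gam 1 p1)
  have e3 : a + b - F 1 = ga E t (π 1 - θ 1) := by rw [← e2]; abel
  have e4 : cf1 ⊤ + (ga E t (π 0 - θ 0) + F 0 - cf1 ⊤) - F 0 = ga E t (π 0 - θ 0) := by abel
  have fin : ∀ a b : G → ℂ, Dirr ⊤ a → Dirr ⊤ b → dot ⊤ b a = 0 → a + b - F 1 = ga E t (π 1 - θ 1) →
      ∀ s : ℤ, a t = s → s = 1 ∨ s % 4 = 2 → False := fun a b ha hb ab e s e5 e6 => by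
    have := final h ha hb P1.de hb₀ P0.de (by rw [P1.et]; simp) (by rw [P0.et]; simp) deg
      (e ▸ (Q 1).γ1) (e ▸ (Q 1).γt) (e ▸ (Q 1).γA) (e4.symm ▸ (Q 0).γ1) (e4.symm ▸ (Q 0).γt)
      (e4.symm ▸ (Q 0).γA) e5 e6
    rw [← e, dot_sub_left, dot_add_left, F1 1 p1, ← this, ab, ha.dot_self] at g2
    norm_num at g2
  rcases taskBL G t v w x E L U P T Y q n m h _ (θ 1) a b (F 1) (K 1).lin (K 1).k iθ
    (fun y _ e => by_contra fun e7 => Nat.not_odd_iff_even.2 e (oθ 1 y e7)) ha hb P1.de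
    (fun y hy o => by
      have := congrFun e3 (t * y)
      rw [ga_ty C hC ((vπ 1).sub (vθ 1)).cf ((oπ 1).sub (oθ 1)) hy o, Pi.sub_apply, Pi.sub_apply,
        Pi.add_apply, iπ, Pi.mul_apply, mul_comm _ (res E (κ ^ 1) y)] at this
      exact this)
    (fun e => by
      have := P1.dot_self
      rw [dot_al C (vθ 1).sp P1.de.cf] at this
      exact zero_ne_one ((dot_symm_zero e).symm.trans this)) with r | r | ⟨s₁, s₂, r1, -, r2, -⟩
  · exact fin a b ha hb (dot_symm_zero ab) e3 1 (by rw [r.1, Int.cast_one]) (Or.inl rfl)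
  · exact fin b a hb ha ab (by rw [add_comm, e3]) 1 (by rw [r.2, Int.cast_one]) (Or.inl rfl)
  · exact fin a b ha hb (dot_symm_zero ab) e3 s₁ r1 (Or.inr r2)

end Cfsg.GW2
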