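import Cfsg.Agent.GS.WL4
import Cfsg.Agent.GS.WC3

/-! The theorem `JT2`. -/

set_option autoImplicit false

namespace Cfsg.GW2

theorem jt2 (ft : Cfsg.FT.OddOrder) : JT2 := jt2_of ft taskOF taskCH taskL3

end Cfsg.GW2
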