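import Cfsg.Agent.GS.X5

/-! Type `L₂`: the case `|R| = 2`, and `CL2`. -/

set_option autoImplicit false

namespace Cfsg.GS.Xx

open Subgroup Cfsg.L0 Cfsg.H8 Cfsg.FT Cfsg.BS Cfsg.BS.R Cfsg.GS.T3 Cfsg.GS.T4 Cfsg.GS.Ax MulAction
open Cfsg.GS.Nx
open scoped commutatorElement

/-- `S2 = J⟨v⟩`, `v` inverts `J` -/
structure Gm {G : Type} [Group G] (A J S2 : Subgroup G) (v : G) : Prop extends Hc A J where
  mem : ∀ x, x ∈ J ↔ x ∈ S2 ∧ (x * x = 1 → x ∈ A)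
  inv : ∀ j ∈ J, v * j * v⁻¹ = j⁻¹
  dich : ∀ x ∈ S2, x ∉ J → x * v ∈ J

theorem sq_mulA {G : Type} [Group G] {A : Subgroup G} {a y : G} (he : Elem 2 A) (hy : y ∈ 𝒞 A)
    (ha : a ∈ A) : y * a * (y * a) = y * y := by
  rw [mul_assoc, ← mul_assoc a, mem_cent.1 hy a ha, mul_assoc, mul_self_of_elem he ha, mul_one]

namespace C2
variable {G Ω : Type} [Group G] [Finite G] [MulAction G Ω] {A J P R S S2 T W X Y : Subgroup G}
  {a g k s u v x y : G} {α β : Ω} (h : C2 S A α) (l : T4.Loc2 A (A ⊔ R) A R S2 v k)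
include h l

theorem cv2 (hX : IsPGroup 2 X) (h1 : X ≤ 𝒞 A) (hx : x ∈ X) (e : x ∈ 𝒞₁ v) : x ∈ A ∨ x * v ∈ A :=
  h.c2 (Lc.vv l.toLoc) (Lc.vA l.toLoc) (l.cA (L2.vS l)) hX h1 hx (mem_cent1.1 e)

theorem cvS (hX : IsPGroup 2 X) (h1 : X ≤ 𝒞 A) (hx : x ∈ X) (e : x ∈ 𝒞₁ v) : x ∈ S2 :=
  (h.cv2 l hX h1 hx e).elim (fun q => L2.AS l q) fun q =>
    (mul_mem_cancel_right (L2.vS l)).1 (L2.AS l q)

theorem invv (hx : x ∈ S2) (n : x * x ≠ 1) : x * v * (x * v) = 1 := by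
  obtain ⟨y, y1, y2, e⟩ := (h.gam l).2 _ (l.comm x hx v l.vR) fun q => n (h.sqV l.toLoc
    (l.cv ⟨hx, mem_cent1.2 (commutatorElement_eq_one_iff_mul_comm.1 q).symm⟩))
  rcases mem2 l.toLoc (h.gam l).1 (L2.mem_of l y1 hx e) with q | q
  · exact absurd (by rw [← mul_inv_cancel_left y x, sq_mulA h.elem (l.cA y1) q, y2]) n
  · rw [← mul_inv_cancel_left y (x * v), ← mul_assoc y⁻¹, sq_mulA h.elem (l.cA y1) q, y2]

theorem exJ : ∃ J, Gm A J S2 v := by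
  have vv := Lc.vv l.toLoc
  have vi := inv_eq_of_mul_eq_one_right vv
  have vS := L2.vS l
  have iv : ∀ x ∈ S2, (x * x = 1 → x ∈ A) → v * x * v⁻¹ = x⁻¹ := fun x hx q => by
    have : x * v * (x * v) = 1 := by
      by_cases e : x * x = 1
      · rw [mem_cent.1 (l.cA vS) x (q e), sq_mulA h.elem (l.cA vS) (q e), vv]
      exact h.invv l hx e
    rw [vi, eq_inv_iff_mul_eq_one, ← mul_inv_cancel_right (v * x * v * x) v, vi]
    calc _ = v * (x * v * (x * v)) * v := by group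
      _ = 1 := by rw [this, mul_one, vv]
  have sq : ∀ x ∈ S2, x * x ∈ A := fun x hx => by
    by_cases e : x * x = 1
    · rw [e]; exact one_mem _
    have := inv_mem (l.comm x hx v l.vR)
    rwa [commutatorElement_def, iv x hx fun q => absurd q e, mul_inv_rev, inv_inv] at this
  have mA : ∀ x ∈ S2, x * x ≠ 1 → x * v ∉ A := fun x hx n q => n (by
    rw [← mul_inv_cancel_right x v, vi, mem_cent.1 (l.cA vS) _ q, sq_mulA h.elem (l.cA vS) q, vv])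
  let J : Subgroup G :=
    { carrier := {x | x ∈ S2 ∧ (x * x = 1 → x ∈ A)}
      one_mem' := ⟨one_mem _, fun _ => one_mem _⟩
      inv_mem' := fun {x} hx => ⟨inv_mem hx.1, fun e => inv_mem (hx.2 (by
        rwa [← mul_inv_rev, inv_eq_one] at e))⟩
      mul_mem' := fun {x y} hx hy => ⟨mul_mem hx.1 hy.1, fun e => by
        by_cases x2 : x * x = 1
        · refine mul_mem (hx.2 x2) (hy.2 ?_)
          rwa [mem_cent.1 (l.cA hy.1) x (hx.2 x2), sq_mulA h.elem (l.cA hy.1) (hx.2 x2)] at e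
        by_cases y2 : y * y = 1
        · exact absurd (by rwa [sq_mulA h.elem (l.cA hx.1) (hy.2 y2)] at e) x2
        have e1 : x * v * (y * v) = x * y * (y * y)⁻¹ := by
          have := iv y hy.1 hy.2
          rw [vi] at this
          rw [mul_assoc, ← mul_assoc v, this]; group
        have c := commute_of_sq (h.invv l hx.1 x2) (h.invv l hy.1 y2) (by
          rw [e1, sq_mulA h.elem (l.cA (mul_mem hx.1 hy.1)) (inv_mem (sq y hy.1)), e])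
        have := (h.c2 (h.invv l hy.1 y2) (mA y hy.1 y2) (l.cA (mul_mem hy.1 vS)) l.p2 l.cA
          (mul_mem hx.1 vS) c).resolve_left (mA x hx.1 x2)
        rwa [e1, mul_mem_cancel_right (inv_mem (sq y hy.1))] at this⟩ }
  have di : ∀ x ∈ S2, x ∉ J → x * v ∈ J := fun x hx n => ⟨mul_mem hx vS, fun e => by
    have n' : x * x = 1 ∧ x ∉ A := by
      by_contra q
      exact n ⟨hx, fun r => by_contra fun s => q ⟨r, s⟩⟩
    exact (h.cv2 l l.p2 l.cA hx (mem_cent1.2 (commute_of_sq n'.1 vv e))).resolve_left n'.2⟩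
  refine ⟨J, ⟨fun a ha => ⟨L2.AS l ha, fun _ => ha⟩, fun x hx y hy => ?_, fun x hx => sq x hx.1,
    fun x hx => ⟨hx.2, mul_self_of_elem h.elem⟩, fun a ha => ?_⟩, fun _ => Iff.rfl,
    fun j hj => iv j hj.1 hj.2, di⟩
  · have m := J.mul_mem hx hy
    have := iv _ m.1 m.2
    rw [show v * (x * y) * v⁻¹ = v * x * v⁻¹ * (v * y * v⁻¹) by group, iv x hx.1 hx.2,
      iv y hy.1 hy.2, ← mul_inv_rev, inv_inj] at this
    exact this.symm
  · have k : ∀ j ∈ J, j * v * j⁻¹ = v * a → j * j = a := fun j hj e => by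
      have := L2.phi l hj.1 e
      rw [commutatorElement_def, iv j hj.1 hj.2, ← mul_inv_rev, inv_eq_iff_eq_inv] at this
      rw [this, inv_eq_of_mul_eq_one_right (mul_self_of_elem h.elem ha)]
    obtain ⟨s, hs, e⟩ := l.onto a ha
    by_cases q : s ∈ J
    · exact ⟨s, q, k s q e⟩
    · exact ⟨_, di s hs q, k _ (di s hs q) (by rw [← e]; group)⟩

theorem exit (hN : ∀ g ∈ 𝒩 A, ∃ e ∈ 𝒞 A, e⁻¹ * g ∈ 𝒞₁ v) (hW : IsSyl 2 W (𝒞 A)) (h1 : Y ≤ W)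
    (h2 : Y.relIndex W = 2) (h3 : ∀ y ∈ Y, y * y = 1 → y ∈ A) : False := by
  obtain ⟨W', w1, w2⟩ := exists_isSyl_ge hW.isPGroup (hW.le.trans (cent_le_norm A))
  have e := hW.eq_of_le w1.isPGroup w2 (two_elt h.toMg l.ty.1 (fun g hg => by
    obtain ⟨e, he, c⟩ := hN g hg
    obtain ⟨n, q⟩ := l.nk _ ⟨c, (𝒩 A).mul_mem ((𝒩 A).inv_mem (cent_le_norm A he)) hg⟩
    have := mul_mem (mul_mem he q)
      (conj_mem_of_norm (norm_le_norm_cent A (pow_mem (Lc.kA l.toLoc) n)) (inv_mem he))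
    exact ⟨n, by convert this using 1; group⟩) w1.isPGroup w1.le)
  exact h.nI (Lc.vv l.toLoc) (Lc.vA l.toLoc) (l.cA (L2.vS l)) (thomp h.toMg
    ((e ▸ w1).trans le_top (h.syl.not_dvd_of_le h.SN')) h1 h2 h3 (Lc.ivo l.toLoc))

variable (m : Gm A J S2 v)
include m

omit [Finite G] h l in
theorem JS : J ≤ S2 := fun x hx => ((m.mem x).1 hx).1

omit [Finite G] h in
theorem vJ : v ∉ J := fun e => Lc.vA l.toLoc (((m.mem v).1 e).2 (Lc.vv l.toLoc))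

omit h l in
theorem nJ : 𝒩 A ⊓ 𝒩 S2 ≤ 𝒩 J := fun g hg => mem_normalizer_of_forall fun x hx =>
  (m.mem _).2 ⟨conj_mem_of_norm hg.2 (JS m hx), fun e => conj_mem_of_norm hg.1 ((m.om x hx).1 (by
    rw [show x * x = g⁻¹ * (g * x * g⁻¹ * (g * x * g⁻¹)) * g by group, e]; group))⟩

omit h in
theorem jm (hy : y ∈ 𝒩 A ⊓ 𝒩 S2) : y * v * y⁻¹ * v ∈ J :=
  m.dich _ (conj_mem_of_norm hy.2 (L2.vS l)) fun e => vJ l m (by
    have := conj_mem_of_norm' (nJ m hy) e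
    rwa [show y⁻¹ * (y * v * y⁻¹) * y = v by group] at this)

omit h in
theorem adj (hy : y ∈ 𝒩 A ⊓ 𝒩 S2) (e : y * v * y⁻¹ * v ∈ A) : ∃ s ∈ S2, s⁻¹ * y ∈ 𝒞₁ v := by
  obtain ⟨s, hs, q⟩ := l.onto _ e
  rw [← mem_cent.1 (l.cA (L2.vS l)) _ e, mul_assoc _ v v, Lc.vv l.toLoc, mul_one] at q
  refine ⟨s, hs, mem_cent1.2 ?_⟩
  calc _ = s⁻¹ * (y * v * y⁻¹) * y := by group
    _ = _ := by rw [← q]; group

theorem caseA (hd : ∀ y ∈ 𝒩 A ⊓ 𝒩 S2, y ∈ 𝒞 A → y * v * y⁻¹ * v ∈ A) : False := by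
  have vv := Lc.vv l.toLoc
  have syl : IsSyl 2 S2 (𝒞 A) := isSyl_of_maximal l.cA l.p2 fun Q q1 q2 q3 => by
    by_contra e
    obtain ⟨x, x1, x2, x3⟩ := exists_mem_normalizer_not_mem q1 q2 fun q => e q.ge
    have xN : x ∈ 𝒩 A ⊓ 𝒩 S2 := ⟨cent_le_norm A (q3 x1), x2⟩
    obtain ⟨s, hs, c⟩ := adj l m xN (hd x xN (q3 x1))
    exact x3 ((mul_mem_cancel_left (inv_mem hs)).1
      (h.cvS l q1 q3 (mul_mem (inv_mem (q2 hs)) x1) c))
  have fr : ∀ g ∈ 𝒩 A, ∃ e ∈ 𝒞 A, ∃ n ∈ 𝒩 A ⊓ 𝒩 S2, g = e * n := fun g hg => by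
    obtain ⟨e, he, n, hn, rfl⟩ := syl.frattini (norm_le_norm_cent A hg)
    exact ⟨e, he, n, ⟨(mul_mem_cancel_left (cent_le_norm A he)).1 hg, hn⟩, rfl⟩
  by_cases e : ∀ y ∈ 𝒩 A ⊓ 𝒩 S2, y * v * y⁻¹ * v ∈ A
  · refine h.exit l (fun g hg => ?_) syl (JS m) (ri_two (L2.vS l) (vJ l m) m.dich)
      fun y hy => (m.om y hy).1
    obtain ⟨c, hc, n, hn, rfl⟩ := fr g hg
    obtain ⟨s, hs, q⟩ := adj l m hn (e n hn)
    exact ⟨c * s, mul_mem hc (l.cA hs), by convert q using 1; group⟩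
  push Not at e
  have co : Coc A (𝒩 A ⊓ 𝒩 S2) (fun y => y * v * y⁻¹ * v * (y * v * y⁻¹ * v)) k :=
    ⟨h.elem, h.four, inf_le_left, fun y hy => m.sq _ (jm l m hy), fun y hy z hz => by
      have m1 := conj_mem_of_norm (nJ m hy) (jm l m hz)
      rw [show y * z * v * (y * z)⁻¹ * v = y * (z * v * z⁻¹ * v) * y⁻¹ * (y * v⁻¹ * y⁻¹ * v) by group,
        inv_eq_of_mul_eq_one_right vv, m.ab _ m1 _ (jm l m hy), m.toHc.sqm (jm l m hy) m1]
      group, fun y hy c => mul_self_of_elem h.elem (hd y hy c), ⟨Lc.kA l.toLoc, l.kS⟩, by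
      rw [Lc.kv l.toLoc, mul_inv_cancel_right, vv, one_mul], l.ty.1,
      let ⟨y, y1, y2⟩ := e; ⟨y, y1, fun q => y2 ((m.om _ (jm l m y1)).1 q)⟩, fun g hg q => by
      obtain ⟨s, hs, c⟩ := adj l m hg ((m.om _ (jm l m hg)).1 q)
      obtain ⟨n, q⟩ := l.nk _ ⟨c, (𝒩 A).mul_mem ((𝒩 A).inv_mem (cent_le_norm A (l.cA hs))) hg.1⟩
      have := mul_mem (mul_mem (l.cA hs) q)
        (conj_mem_of_norm (norm_le_norm_cent A (pow_mem (Lc.kA l.toLoc) n)) (inv_mem (l.cA hs)))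
      exact ⟨n, by convert this using 1; group⟩⟩
  obtain ⟨n, hn⟩ := IsPGroup.iff_card.1 h.elem.pgroup
  have ns : ∀ r, ♯A ≠ r ^ 2 := fun r q => co.aff.1 (by
    have : ¬ 3 ∣ ♯A := fun d => by
      rw [hn] at d
      exact absurd (Nat.prime_three.dvd_of_dvd_pow d) (by decide)
    have e : r ^ 2 % 3 = 0 ∨ r ^ 2 % 3 = 1 := by
      rw [Nat.pow_mod]
      rcases (by omega : r % 3 = 0 ∨ r % 3 = 1 ∨ r % 3 = 2) with e | e | e <;> simp [e]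
    omega)
  obtain ⟨χ, c1, c2⟩ := m.toHc.det hn (Nat.not_even_iff_odd.1 fun ⟨j, e⟩ =>
    ns (2 ^ j) (by rw [hn, e, ← pow_mul, mul_two]))
  have SN : S2 ≤ 𝒩 A ⊓ 𝒩 S2 := le_inf (l.cA.trans (cent_le_norm A)) (le_norm S2)
  obtain ⟨S', s1, s2⟩ := exists_isSyl_ge l.p2 SN
  have vN := nJ m (SN (L2.vS l))
  have cv : χ ⟨v, vN⟩ = -1 := c2 _ m.inv
  have nv : v ∉ S' ⊓ up χ ⊥ := fun q => by
    obtain ⟨_, q⟩ := mem_up.1 q.2
    exact absurd (cv.symm.trans (mem_bot.1 q)) (by decide)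
  refine h.nI vv (Lc.vA l.toLoc) (l.cA (L2.vS l)) (thomp h.toMg (Y := S' ⊓ up χ ⊥)
    ((s1.trans inf_le_left ?_).trans le_top (h.syl.not_dvd_of_le h.SN')) inf_le_left
    (ri_two (s2 (L2.vS l)) nv fun b hb q => ⟨mul_mem hb (s2 (L2.vS l)), ?_⟩) (fun y hy y2 => ?_)
    (Lc.ivo l.toLoc))
  · have e1 : 𝒞 A ⊔ (𝒩 A ⊓ 𝒩 S2) = 𝒩 A := le_antisymm (sup_le (cent_le_norm A) inf_le_left)
      fun g hg => by
        obtain ⟨c, hc, n, hn, rfl⟩ := fr g hg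
        exact mul_mem_sup hc hn
    have := ri_sup' (T := 𝒩 A ⊓ 𝒩 S2) (inf_le_left.trans (norm_le_norm_cent A))
    rw [e1] at this
    exact this ▸ syl.not_dvd_of_le SN
  · have bN := nJ m (s1.le hb)
    refine (coe_mem_up (f := χ) (x := (⟨b, bN⟩ * ⟨v, vN⟩ : 𝒩 J))).2 (mem_bot.2 ?_)
    rw [map_mul, cv, ((by decide : ∀ u : (ZMod 4)ˣ, u = 1 ∨ u = -1) (χ ⟨b, bN⟩)).resolve_left
      fun r => q ⟨hb, mem_up.2 ⟨bN, r⟩⟩]
    simp
  · have yS : y ∈ S2 := syl.eq_of_le (Q := S' ⊓ 𝒞 A) s1.isPGroup.to_inf_left (le_inf s2 l.cA)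
      inf_le_right ▸ ⟨hy.1, (h.fld y (s1.le hy.1).1 y2).resolve_right (ns _)⟩
    by_cases q : y ∈ J
    · exact (m.om y q).1 y2
    have q' := m.dich y yS q
    exact absurd ((mul_mem_cancel_left hy).1 ⟨s2 (JS m q'), mem_up.2 ⟨nJ m (SN (JS m q')),
      c1 _ (mem_cent.2 fun x hx => m.ab x hx _ q')⟩⟩) nv

theorem caseB (hy : y ∈ 𝒩 A ⊓ 𝒩 S2) (y1 : y ∈ 𝒞 A) (y2 : y * v * y⁻¹ * v ∉ A) : False := by
  have := h.finite
  have vv := Lc.vv l.toLoc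
  have vS := L2.vS l
  have EN : 𝒩 S2 ⊓ 𝒞 A ≤ 𝒩 A ⊓ 𝒩 S2 := le_inf (inf_le_right.trans (cent_le_norm A)) inf_le_left
  have SE : S2 ≤ 𝒩 S2 ⊓ 𝒞 A := le_inf (le_norm S2) l.cA
  have on : ∀ j ∈ J, ∃ e ∈ 𝒩 S2 ⊓ 𝒞 A, e * v * e⁻¹ = j * v := fun j hj => by
    obtain ⟨e, he, q⟩ : ∃ e ∈ 𝒩 S2 ⊓ 𝒞 A, e * v * e⁻¹ * v * (e * v * e⁻¹ * v) = j * j := by
      by_cases j1 : j * j = 1
      · exact ⟨1, one_mem _, by simp [vv, j1]⟩
      obtain ⟨n, q⟩ := l.ty.1.tr _ (m.sq _ (jm l m hy)) _ (m.sq j hj)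
        (fun q => y2 ((m.om _ (jm l m hy)).1 q)) j1
      refine ⟨_, conj_mem_of_norm (le_norm_inf ((zpowers_le.2 l.kS).trans (le_norm _))
        ((zpowers_le.2 (Lc.kA l.toLoc)).trans (norm_le_norm_cent A))
        (pow_mem (mem_zpowers k) n)) ⟨hy.2, y1⟩, ?_⟩
      have : (k ^ n)⁻¹ * v * k ^ n = v := by
        rw [mul_assoc, ← (Commute.pow_left (Lc.kv l.toLoc) n).eq, inv_mul_cancel_left]
      rw [← q]
      calc _ = k ^ n * (y * ((k ^ n)⁻¹ * v * k ^ n) * y⁻¹ * ((k ^ n)⁻¹ * v * k ^ n) *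
          (y * ((k ^ n)⁻¹ * v * k ^ n) * y⁻¹ * ((k ^ n)⁻¹ * v * k ^ n))) * (k ^ n)⁻¹ := by group
        _ = _ := by rw [this]
    have m1 := jm l m (EN he)
    obtain ⟨s, hs, q'⟩ := m.onto _ ((m.toHc.sq_eq m1 hj).1 q)
    refine ⟨s * e, mul_mem (SE (JS m hs)) he, ?_⟩
    have i := m.inv _ (inv_mem hs)
    rw [inv_inv, mul_inv_eq_iff_eq_mul] at i
    calc _ = s * (e * v * e⁻¹ * v) * (v⁻¹ * s⁻¹) := by group
      _ = e * v * e⁻¹ * v * (s * s) * v := by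
        rw [m.ab s hs _ m1, inv_eq_of_mul_eq_one_right vv, i]; group
      _ = _ := by rw [q']; group
  have orb : ∀ W, W ≤ 𝒩 S2 ⊓ 𝒞 A → (∀ j ∈ J, ∃ e ∈ W, e * v * e⁻¹ = j * v) →
      (𝒞₁ v).relIndex W = ♯A * ♯A := fun W a b => by
    rw [← m.toHc.card, ← Bx.ncard_coset v J]
    refine Bx.card_orbit _ _ _ fun z => ⟨?_, fun hz => ?_⟩
    · rintro ⟨e, he, rfl⟩
      have := conj_mem_of_norm' (nJ m (EN (SE vS))) (jm l m (EN (a he)))
      show _ ∈ J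
      rw [mul_assoc, mul_assoc _ v v, vv, mul_one] at this
      exact this
    · obtain ⟨e, he, q⟩ := b _ (conj_mem_of_norm (nJ m (EN (SE vS))) hz)
      exact ⟨e, he, by rw [q]; group⟩
  obtain ⟨n, hn⟩ := IsPGroup.iff_card.1 h.elem.pgroup
  obtain ⟨W, w1, w2⟩ := exists_isSyl_ge l.p2 SE
  have WC := w1.le.trans inf_le_right
  have cW : ♯W = ♯A ^ 3 * 2 := by
    have a := card_sup_mul_card_inf (Lc.nR l.toLoc)
    rw [l.inf, card_bot, mul_one, (h.gam l).1] at a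
    rw [← card_inf_mul_relIndex (𝒞₁ v) W, orb W w1.le fun j hj => by
      obtain ⟨e, he, q⟩ := on j hj
      obtain ⟨x, hx, c, hc, rfl⟩ := exists_mul_of_cop_ri w1.le
        (inf_le_right : 𝒞₁ v ⊓ (𝒩 S2 ⊓ 𝒞 A) ≤ _) (by
          rw [inf_relIndex_right, orb _ le_rfl on, hn, ← pow_add]; exact w1.coprime.pow_right _) he
      exact ⟨x, hx, by rw [← q, mul_assoc x c, mem_cent1.1 hc.1]; group⟩,
      show 𝒞₁ v ⊓ W = A ⊔ R from le_antisymm (fun x hx => l.cv ⟨h.cvS l w1.isPGroup WC hx.2 hx.1, hx.1⟩)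
        (le_inf (Lc.Pr l.toLoc l.vR) (l.le.trans w2)), a]
    ring
  have vI := h.nI vv (Lc.vA l.toLoc) (l.cA vS)
  obtain ⟨β, b1, b2⟩ := h.two_fix (Lc.ivo l.toLoc) vI α
  have st : ∀ X : Subgroup G, IsPGroup 2 X → X ≤ 𝒞 A → v ∈ X → ∀ x ∈ X, x • β = β → x = 1 ∨ x = v :=
    fun X p c hv x hx => h.st2 p c b1 hv l.v1 b2 hx
  have tr : ∀ γ, γ ≠ α → ∃ w ∈ W, w • β = γ := by
    have a := card_inf_mul_relIndex (𝒮 β) W
    rw [show 𝒮 β ⊓ W = zpowers v from le_antisymm (fun x hx =>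
      (st W w1.isPGroup WC (w2 vS) x hx.2 hx.1).elim (fun e => e ▸ one_mem _) fun e => e ▸ mem_zpowers v)
      (zpowers_le.2 ⟨b2, w2 vS⟩), Nat.card_zpowers,
      orderOf_eq_prime (by rw [sq, vv]) l.v1, cW, ← ncard_orbit] at a
    have e := Set.eq_of_subset_of_ncard_le (s := {γ | ∃ g ∈ W, g • β = γ}) (t := Set.univ \ {α})
      (by
        rintro _ ⟨g, hg, rfl⟩
        exact ⟨trivial, fun e => b1 (smul_left_cancel g (e.trans (h.CM (WC hg)).symm))⟩)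
      (by rw [Set.ncard_sdiff_singleton_of_mem (Set.mem_univ α), Set.ncard_univ, h.pts]; omega)
    exact fun γ q => e.ge ⟨trivial, q⟩
  have mv : ∀ g ∈ 𝒮 α, g • β ≠ α := fun g hg e => b1 (smul_left_cancel g (e.trans hg.symm))
  have sq : ∀ y ∈ W, y * y ∈ J := fun y hy => by
    have yN := EN (w1.le hy)
    have m1 := jm l m yN
    have m2 := conj_mem_of_norm (nJ m yN) m1
    obtain ⟨s, hs, c⟩ := adj l m (mul_mem yN yN) (by
      have a := (m.toHc.sq_eq m1 m2).1 (by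
        rw [← _root_.sq (y * _ * y⁻¹), conj_pow, _root_.sq,
          ← mem_cent.1 (WC hy) _ (m.sq _ m1), mul_inv_cancel_right])
      have := mul_mem (m.sq _ m1) a
      rw [mul_assoc, mul_inv_cancel_left, m.ab _ m1 _ m2] at this
      convert this using 1
      calc _ = y * (y * v * y⁻¹ * (v * 1)⁻¹) * y⁻¹ * (y * v * y⁻¹ * v) := by group
        _ = _ := by rw [mul_one, inv_eq_of_mul_eq_one_right vv])
    have yS := (mul_mem_cancel_left (inv_mem hs)).1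
      (h.cvS l w1.isPGroup WC (mul_mem (inv_mem (w2 hs)) (mul_mem hy hy)) c)
    refine (m.mem _).2 ⟨yS, fun e => by_contra fun q => q ?_⟩
    rw [h.sq1 e q (l.cA yS) w1.isPGroup WC hy (mul_assoc y y y).symm]; exact one_mem _
  obtain ⟨Y, q1, q2, q3, q4⟩ := idx2 ((JS m).trans w2) sq (w2 vS) (vJ l m)
  refine h.exit l (fun g hg => ?_) (isSyl_of_maximal WC w1.isPGroup fun Q p a c x hx => ?_) q2 q4
    fun u hu u2 => by_contra fun uA => q3 ?_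
  · obtain ⟨w, hw, e⟩ := tr _ (mv g (h.nA hg))
    have s : IsSyl 2 (zpowers v) (𝒞 A ⊓ 𝒮 β) := isSyl_of_maximal (zpowers_le.2 ⟨l.cA vS, b2⟩)
      (card_zp2 vv) fun Q p a c x hx => (st Q p (c.trans inf_le_left) (a (mem_zpowers v)) x hx
        (c hx).2).elim (fun e => e ▸ one_mem _) fun e => e ▸ mem_zpowers v
    obtain ⟨d, hd, q⟩ := s.exists_conj_mem (x := w⁻¹ * g * v * (w⁻¹ * g)⁻¹)
      ⟨conj_mem_of_norm (norm_le_norm_cent A (mul_mem (inv_mem (cent_le_norm A (WC hw))) hg)) (l.cA vS),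
        by have := conj_fix b2 (w⁻¹ * g); rwa [mul_smul w⁻¹ g, ← e, inv_smul_smul] at this⟩
      ⟨1, by rw [pow_one, conj_pow, _root_.sq, vv]; group⟩
    refine ⟨w * d⁻¹, mul_mem (WC hw) (inv_mem hd.1), mem_cent1.2 ?_⟩
    have := (mem_zp2 vv q).resolve_left fun r => l.v1 (by
      rw [show v = (d * w⁻¹ * g)⁻¹ * (d * (w⁻¹ * g * v * (w⁻¹ * g)⁻¹) * d⁻¹) * (d * w⁻¹ * g) by group,
        r]; group)
    calc _ = d * (w⁻¹ * g * v * (w⁻¹ * g)⁻¹) * d⁻¹ * ((w * d⁻¹)⁻¹ * g) := by group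
      _ = _ := by rw [this]
  · obtain ⟨w, hw, e⟩ := tr _ (mv x (h.CM (c hx)))
    refine (mul_mem_cancel_left (inv_mem hw)).1 ?_
    rcases st Q p c (a (w2 vS)) _ (mul_mem (inv_mem (a hw)) hx)
      (by rw [mul_smul, ← e, inv_smul_smul]) with r | r <;> rw [r]
    exacts [one_mem _, w2 vS]
  · have u1 : u ≠ 1 := fun e => uA (e ▸ one_mem _)
    obtain ⟨γ, c1, c2⟩ := h.two_fix ⟨u1, u2⟩ (h.nI u2 uA (WC (q2 hu))) α
    obtain ⟨w, hw, rfl⟩ := tr γ c1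
    have := (st W w1.isPGroup WC (w2 vS) _ (mul_mem (mul_mem (inv_mem hw) (q2 hu)) hw)
      (by rw [mul_smul, mul_smul, c2, inv_smul_smul])).resolve_left fun r => u1 (by
        rw [show u = w * (w⁻¹ * u * w) * w⁻¹ by group, r]; group)
    have m1 := q1 (jm l m (EN (w1.le hw)))
    rw [show w * v * w⁻¹ = u by rw [← this]; group] at m1
    exact (mul_mem_cancel_left hu).1 m1

omit m in
theorem false' : False := by
  obtain ⟨J, m⟩ := h.exJ l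
  exact h.caseA l m fun y hy c => by_contra fun q => h.caseB l m hy c q

end C2

/-- **CL2** -/
theorem cl2 : CL2 := fun G _ _ S A M R S2 v k u a2 l => by
  obtain ⟨h, e⟩ := gb_of u.toUG
  refine C2.false' ⟨h, u.all, a2, u.fld, fun P T R' v' k' l' =>
    (eq_of_card_le (Lc.AT l') (same u a2 l' l.toLoc).le).symm, ?_⟩ l
  rw [h.card_pts (e.symm ▸ u.mo) l]
  obtain ⟨n, hn⟩ : ∃ n, ♯A = n + 1 := ⟨♯A - 1, by have := h.four; omega⟩
  rw [hn, Nat.add_sub_cancel]; ring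

end Cfsg.GS.Xx
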