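import Cfsg.Agent.GS.X8
import Cfsg.Agent.GS.X6

/-! **CU3**: no involution of `C(A) \ A` is of type `U₃`. -/

set_option autoImplicit false

namespace Cfsg.GS.Xx

open Subgroup Cfsg.L0 Cfsg.H8 Cfsg.FT Cfsg.BS Cfsg.BS.R Cfsg.GS.T3 Cfsg.GS.T4 Cfsg.GS.Ax MulAction
open Cfsg.GS.Nx Cfsg.GS.Gx
open scoped commutatorElement

section
variable {G : Type} [Group G] {A P R S2 T : Subgroup G} {a c k r s v x y : G}

theorem u3g_of [Finite G] (h : Ty A T k) (h4 : 4 ≤ ♯A) (e : ♯T = ♯A ^ 3) : U3G A T k := by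
  rcases h.2 with q | q | q
  · rw [q] at e
    nlinarith [Nat.pow_le_pow_left h4 2]
  · have := q.card
    rw [e] at this
    exact absurd (Nat.pow_right_injective (by omega : 2 ≤ ♯A) this) (by norm_num)
  · exact q

namespace L2
variable (l : T4.Loc2 A P T R S2 v k)
include l

theorem phiA (hs : s ∈ S2) : ⁅v, s⁆ ∈ A := l.comm s hs v l.vR

theorem phi_mul (hx : x ∈ S2) (hy : y ∈ S2) : ⁅v, x * y⁆ = ⁅v, x⁆ * ⁅v, y⁆ := by
  have := mem_cent.1 (l.cA hx) _ (phiA l hy)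
  calc _ = ⁅v, x⁆ * (x * ⁅v, y⁆) * x⁻¹ := by simp only [commutatorElement_def]; group
    _ = _ := by rw [← this]; group

theorem phi_P (hx : x ∈ P) : ⁅v, x⁆ = 1 :=
  commutatorElement_eq_one_iff_mul_comm.2 (mem_cent1.1 (Lc.Pr l.toLoc l.vR hx)).symm

theorem P_of (hx : x ∈ S2) (e : ⁅v, x⁆ = 1) : x ∈ P := by
  simpa using mem_of l (one_mem _) hx (by rw [e, commutatorElement_one_right])

theorem wA (u : U3G A T k) : zpowers (k ^ (♯A - 1)) ≤ 𝒞 A := by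
  obtain ⟨F, _, _, π, ι, m, c⟩ := co3_of u
  exact zpowers_le_of_mem c.w_cent

theorem wR : zpowers (k ^ (♯A - 1)) ≤ 𝒞 R := zpowers_le_of_mem (pow_mem l.kR _)

theorem VC (u : U3G A T k) : A ⊔ R ≤ S2 ⊓ 𝒞 (zpowers (k ^ (♯A - 1))) :=
  le_inf (sup_le (AS l) ((Lc.RP l.toLoc).trans l.le)) (sup_le (cent_symm (wA l u)) (cent_symm (wR l)))

theorem kC : k ∈ 𝒩 (S2 ⊓ 𝒞 (zpowers (k ^ (♯A - 1)))) :=
  le_norm_inf (A := zpowers k) (zpowers_le_of_mem l.kS) ((zpowers_le_of_mem (cent_le_norm _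
    (mem_cent.2 fun _ hx => by
      obtain ⟨n, rfl⟩ := hx
      exact (((Commute.refl k).pow_left _).zpow_left n).eq))).trans
    (norm_le_norm_cent _)) (mem_zpowers k)

theorem le_C [Finite G] (he : Elem 2 A) (u : U3G A T k) :
    S2 ≤ P ⊔ (S2 ⊓ 𝒞 (zpowers (k ^ (♯A - 1)))) := by
  have n : zpowers (k ^ (♯A - 1)) ≤ 𝒩 S2 := zpowers_le_of_mem (pow_mem l.kS _)
  refine (mkCA_p' Nat.prime_two (zpowers_le_of_mem (pow_mem ?_ _)) (Lc.pg l.toLoc he) fun e => ?_).le_sup_cent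
    l.le (commutator_le.2 fun s hs w hw => l.cv ⟨?_, mem_cent1.2 ?_⟩)
  · rw [← l.sup]
    exact le_norm_sup (zpowers_le_of_mem u.kT) (zpowers_le_of_mem (cent_le_norm _ l.kR)) (mem_zpowers k)
  · rw [card_zpow] at e
    exact l.ty.1.odd.not_two_dvd_nat (e.trans (orderOf_pow_dvd _))
  · rw [commutatorElement_def, mul_assoc, mul_assoc, ← mul_assoc w]
    exact S2.mul_mem hs (conj_mem_of_norm (n hw) (inv_mem hs))
  · have e1 := mem_cent.1 (wA l u hw) _ (phiA l (inv_mem hs))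
    have e2 := mem_cent.1 (wR l hw) _ l.vR
    have e3 : w * (s⁻¹ * v * s) = s⁻¹ * v * s * w := by
      rw [show s⁻¹ * v * s = ⁅v, s⁻¹⁆⁻¹ * v by simp only [commutatorElement_def]; group]
      exact Commute.mul_right (Commute.inv_right e1.symm) e2.symm
    calc _ = s * (w * (s⁻¹ * (w⁻¹ * v * w) * s)) * s⁻¹ * (s * s⁻¹ * w⁻¹) := by
          simp only [commutatorElement_def]; group
      _ = _ := by
          rw [mul_assoc w⁻¹, e2, inv_mul_cancel_left, e3]; simp only [commutatorElement_def]; group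

theorem C_T (h4 : 4 ≤ ♯A) (u : U3G A T k) : S2 ⊓ 𝒞 (zpowers (k ^ (♯A - 1))) ≤ 𝒞 T := fun s hs =>
  mem_cent.2 fun y hy => by
  obtain ⟨F, _, _, π, ι, m, c⟩ := co3_of u
  obtain ⟨x, hx, a, ha, rfl⟩ := c.w_onto h4 hy
  have e1 := mem_cent.1 hs.2 _ (mem_zpowers _)
  have e2 := mem_cent.1 (l.cA hs.1) a ha
  have m := l.u3 u s hs.1 x hx
  have e3 := mem_cent.1 c.w_cent _ m
  have e4 := mem_cent.1 (u.cA (mul_mem (conj_mem_of_norm (pow_mem u.kT (♯A - 1)) hx) (inv_mem hx))) _ m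
  generalize k ^ (♯A - 1) = w at *
  have e5 : s * x * s⁻¹ = ⁅x, s⁆⁻¹ * x := by simp only [commutatorElement_def]; group
  generalize ⁅x, s⁆ = b at *
  refine (mul_inv_eq_iff_eq_mul.1 ?_).symm
  calc _ = (s * a * s⁻¹) * ((s * w * s⁻¹) * (s * x * s⁻¹) * (s * w * s⁻¹)⁻¹ * (s * x * s⁻¹)⁻¹) := by
        group
    _ = a * (b⁻¹ * (b * w) * b⁻¹ * x * w⁻¹ * x⁻¹ * b) := by rw [← e1, ← e2, e5]; group
    _ = a * (b⁻¹ * (w * x * w⁻¹ * x⁻¹ * b)) := by rw [e3]; group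
    _ = _ := by rw [← e4]; group

theorem C_P (h4 : 4 ≤ ♯A) (u : U3G A T k) (hx : x ∈ S2 ⊓ 𝒞 (zpowers (k ^ (♯A - 1)))) (h : x ∈ P) :
    x ∈ A ⊔ R := by
  obtain ⟨F, _, _, π, ι, m, c⟩ := co3_of u
  obtain ⟨t, ht, r, hr, rfl⟩ := Lc.mem l.toLoc h
  have := mem_cent.1 ((mul_mem_cancel_right (VC l u (mem_sup_right hr))).1 hx).2 _ (mem_zpowers _)
  exact mul_mem (mem_sup_left (c.w_fix h4 ht (by
    rw [this, mul_inv_cancel_right, mul_inv_cancel]; exact one_mem _))) (mem_sup_right hr)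

end L2

theorem memR [Finite G] (l : T4.Loc A P T R v k) (w : ¬ 4 ≤ ♯R) (hr : r ∈ R) : r = 1 ∨ r = v := by
  have := orderOf_dvd l.vR
  rw [(Lc.ivo l).orderOf] at this
  obtain ⟨y, -, hy⟩ := (Nat.card_eq_two_iff' (1 : R)).1 (by have := card_pos' R; omega)
  exact or_iff_not_imp_left.2 fun r1 => congrArg Subtype.val
    ((hy ⟨r, hr⟩ fun e => r1 (congrArg Subtype.val e)).trans
      (hy ⟨v, l.vR⟩ fun e => l.v1 (congrArg Subtype.val e)).symm)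

end

section
variable {G Ω : Type} [Group G] [Finite G] [MulAction G Ω]
  {A P R S S2 T : Subgroup G} {a c k r s v x y : G} {α : Ω}

namespace GB
variable (h : GB S A α) (l : T4.Loc2 A P T R S2 v k) (u3 : U3G A T k)
include h l u3

theorem nc (hr : r ∈ R) (r1 : r ≠ 1) : ∃ s ∈ S2 ⊓ 𝒞 (zpowers (k ^ (♯A - 1))), s * r ≠ r * s := by
  by_contra! q
  have e : S2 ≤ 𝒞₁ r := (L2.le_C l h.elem u3).trans
    (sup_le (Lc.Pr l.toLoc hr) fun s hs => mem_cent1.2 (q s hs))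
  obtain ⟨T0, T1, R1, k1, q1, n, -⟩ := h.lnu (Lc.rr l.toLoc hr) (Lc.rA l.toLoc hr r1)
    (Lc.RcA l.toLoc hr) l.p2 (L2.AS l) e
  obtain ⟨a, ha, a1⟩ := h.exA
  obtain ⟨s, hs, e⟩ := l.onto a ha
  have := ln_comm n (ln_ng n h.four u3 l.ty.1 (((Lc.TP l.toLoc).trans l.le).trans q1) (q1 (L2.vS l))
    (l.cA (L2.vS l)) fun t ht => by
      simpa [commutatorElement_def, mul_assoc] using inv_mem (l.u3 u3 v (L2.vS l) t ht))
    (Lc.vv l.toLoc) (q1 hs) (l.cA hs) (by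
      simpa [commutatorElement_def, mul_assoc] using inv_mem (L2.phiA l hs))
  rw [this, mul_inv_cancel_right] at e
  exact a1 (by simpa using e)

theorem exw (mo : 𝒮 α ≤ O2 (𝒮 α) ⊔ 𝒩 A) (w4 : 4 ≤ ♯R) :
    ∃ w ∈ zpowers (k ^ (♯A - 1)), w ≠ 1 ∧ ¬ 𝒞₁ w ≤ 𝒮 α := by
  have := h.finite
  obtain ⟨F, _, _, π, ι, m, c⟩ := co3_of u3
  obtain ⟨p, hp, e⟩ := Nat.exists_prime_and_dvd (mt orderOf_eq_one_iff.1 (c.w_ne h.four))
  have := Fact.mk hp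
  have p1 : p ∣ ♯A + 1 := e.trans (orderOf_dvd_of_pow_eq_one c.norm_w)
  have p2 : p ∣ orderOf (k ^ (♯A - 1)) := e.trans (orderOf_dvd_of_pow_eq_one (by
    obtain ⟨x, hx, e⟩ := c.onto 1
    have := c.π_pow hx ((♯A - 1) * orderOf (k ^ (♯A - 1)))
    rwa [pow_mul, pow_orderOf_eq_one, one_mul, inv_one, mul_one, e, mul_one, pow_mul, eq_comm] at this))
  obtain ⟨w, hw, w1⟩ := exists_orderOf_eq_of_dvd_card (p := p) (H := zpowers (k ^ (♯A - 1)))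
    (by rwa [Nat.card_zpowers])
  have pg : IsPGroup p (zpowers w) := isPGroup_zpowers (k := 1) (by rw [pow_one, ← w1, pow_orderOf_eq_one])
  obtain ⟨β, b1, b2⟩ := pg.exists_fixed_point_of_prime_dvd_card_of_fixed_point Ω (a := α) (by
    rw [h.card_pts mo l, u3g_card u3]
    have : p ∣ ♯A ^ 3 + 1 := p1.trans (by simpa using Odd.nat_add_dvd_pow_add_pow ♯A 1 (by decide : Odd 3))
    exact dvd_add ((this.mul_left _).mul_right _) this) fun x =>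
      h.CM (zpowers_le_of_mem (L2.wA l u3 hw) x.2)
  obtain ⟨g, rfl⟩ := h.tr β
  have n : zpowers w ≤ 𝒩 (L0.cj g A) := fun x hx => by
    rw [← cj_norm, mem_cj]
    refine h.MN l.toLoc u3 mo w4 ?_
    show _ • α = α
    rw [mul_smul, mul_smul, show x • g • α = g • α from b1 ⟨x, hx⟩, inv_smul_smul]
  refine ⟨w, hw, fun e => hp.one_lt.ne' (by rw [← w1, e, orderOf_one]), fun q => ?_⟩
  have e0 : L0.cj g A ⊓ 𝒞 (zpowers w) = ⊥ := eq_bot_iff.2 fun b hb => by_contra fun b1 =>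
    b2 ((h.cj g).uq0 hb.1 b1 (q (mem_cent1.2 (mem_cent.1 hb.2 w (mem_zpowers w)).symm)))
  have e1 := card_modEq_cent hp pg n
  rw [e0, card_bot, card_cj] at e1
  have : p ∣ 2 := (Nat.modEq_zero_iff_dvd.1 ((e1.add_right 1).symm.trans (Nat.modEq_zero_iff_dvd.2 p1)))
  rw [(Nat.prime_dvd_prime_iff_eq hp Nat.prime_two).1 this] at p2
  exact l.ty.1.odd.not_two_dvd_nat (p2.trans (orderOf_pow_dvd _))

theorem big (mo : 𝒮 α ≤ O2 (𝒮 α) ⊔ 𝒩 A) : ¬ 4 ≤ ♯R := fun w4 => by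
  obtain ⟨w, hw, w1, w2⟩ := h.exw l u3 mo w4
  obtain ⟨T0, t1, t2⟩ := exists_isSyl_ge (Q := S2 ⊓ 𝒞 (zpowers (k ^ (♯A - 1)))) (H := 𝒞₁ w)
    (l.p2.to_le inf_le_left) fun s hs => mem_cent1.2 (mem_cent.1 hs.2 w hw).symm
  have V := (L2.VC l u3).trans t2
  obtain ⟨T1, R1, k1, n, -⟩ := h.lnY (h.cent1_ne w1) t1 (le_sup_left.trans V) w2
  have gr : ∀ r ∈ R, r ≠ 1 → Gr A T1 k1 r := fun r hr r1 =>
    (ln_top n (V (mem_sup_right hr)) (Lc.RcA l.toLoc hr)).resolve_left fun q => by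
      obtain ⟨s, hs, e⟩ := h.nc l u3 hr r1
      exact e (ln_comm n q (Lc.rr l.toLoc hr) (t2 hs) (l.cA hs.1) (by
        simpa [commutatorElement_def, mul_assoc] using inv_mem (l.comm s hs.1 r hr)))
  obtain ⟨r, hr, r1, r2⟩ := Bx.exists_third (A := R) (by omega) 1 v
  exact gr3 (gr r hr r1) (gr v l.vR l.v1) l.el.pgroup ((le_sup_right.trans V).trans n.nT)
    (Lc.RcA l.toLoc) hr l.vR (gr _ (mul_mem hr l.vR) fun e => r2 (by
      rw [eq_inv_of_mul_eq_one_left e, (Lc.ivo l.toLoc).inv]))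

omit h in
theorem sqC (h4 : 4 ≤ ♯A) (he : Elem 2 A) (w : ¬ 4 ≤ ♯R)
    (hy : y ∈ S2 ⊓ 𝒞 (zpowers (k ^ (♯A - 1)))) : y * y ∈ A := by
  have m := L2.C_P l h4 u3 (mul_mem hy hy) (L2.P_of l (mul_mem hy.1 hy.1) (by
    rw [L2.phi_mul l hy.1 hy.1, mul_self_of_elem he (L2.phiA l hy.1)]))
  have nR := (Lc.AT l.toLoc).trans (Lc.nR l.toLoc)
  obtain ⟨a, ha, r, hr, e⟩ := (mem_sup_r nR).1 m
  rcases memR l.toLoc w hr with rfl | rfl
  · rwa [← e, mul_one]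
  have e1 : y * r = r * y := mul_left_cancel (a := a) (by
    rw [← mul_assoc, mem_cent.1 (l.cA hy.1) a ha, mul_assoc, e, ← mul_assoc a, e, mul_assoc])
  obtain ⟨b, hb, s, hs, rfl⟩ := (mem_sup_r nR).1 (L2.C_P l h4 u3 hy (l.cv ⟨hy.1, mem_cent1.2 e1⟩))
  rw [Lc.sqe l.toLoc (Lc.AT l.toLoc hb) hs]
  exact mul_mem hb hb

omit h in
theorem cm2 (he : Elem 2 A) (hy : y ∈ S2) (h1 : y * y ∈ A) (h2 : ⁅v, y⁆ ≠ 1) {j : ℕ}
    (e : ⁅v, k ^ j * y * (k ^ j)⁻¹⁆ = ⁅v, y⁆ * ⁅v, k * y * k⁻¹⁆)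
    (h3 : (k ^ j * y * (k ^ j)⁻¹)⁻¹ * (y * (k * y * k⁻¹)) ∈ A) :
    y * (k * y * k⁻¹) = k * y * k⁻¹ * y := by
  have e1 := sq_mulA he (l.cA (conj_mem_of_norm (pow_mem l.kS j) hy)) h3
  rw [mul_inv_cancel_left] at e1
  have e2 : k ^ j * y * (k ^ j)⁻¹ * (k ^ j * y * (k ^ j)⁻¹) =
      y * y * (k * y * k⁻¹ * (k * y * k⁻¹)) := by
    rw [show ∀ g : G, g * y * g⁻¹ * (g * y * g⁻¹) = g * (y * y) * g⁻¹ from fun g => by group,
      show ∀ g : G, g * y * g⁻¹ * (g * y * g⁻¹) = g * (y * y) * g⁻¹ from fun g => by group]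
    by_cases q : y * y = 1
    · simp [q]
    obtain ⟨m, hm⟩ := l.ty.1.tr _ (L2.phiA l hy) _ h1 h2 q
    have e3 := L2.phi_k l (x := y) 1
    rw [pow_one] at e3
    rw [L2.phi_k l, e3] at e
    rw [← hm]
    calc _ = k ^ m * (k ^ j * ⁅v, y⁆ * (k ^ j)⁻¹) * (k ^ m)⁻¹ := by group
      _ = _ := by rw [e]; group
  rw [e2] at e1
  generalize k * y * k⁻¹ = z at e1
  refine mul_left_cancel (a := y) (mul_right_cancel (b := z) ?_)
  simpa only [mul_assoc] using e1.symm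

theorem pair (w : ¬ 4 ≤ ♯R) : ∃ c ∈ S2 ⊓ 𝒞 (zpowers (k ^ (♯A - 1))),
    ∃ d ∈ S2 ⊓ 𝒞 (zpowers (k ^ (♯A - 1))), c * d = d * c ∧ ⁅v, c⁆ ≠ 1 ∧ ⁅v, d⁆ ≠ 1 ∧
      ⁅v, c⁆ * ⁅v, d⁆ ≠ 1 := by
  obtain ⟨y, hy, n⟩ := h.nc l u3 l.vR l.v1
  have h4 := h.four
  have key : ∀ y ∈ S2 ⊓ 𝒞 (zpowers (k ^ (♯A - 1))), ⁅v, y⁆ ≠ 1 →
      ⁅v, k * y * k⁻¹⁆ ≠ 1 ∧ ⁅v, y⁆ * ⁅v, k * y * k⁻¹⁆ ≠ 1 := fun y hy n => by
    have e3 := L2.phi_k l (x := y) 1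
    rw [pow_one] at e3
    rw [e3]
    refine ⟨mt conj_eq_one_iff.1 n, fun q => n (tor_fix l.ty.1 (by omega) (L2.phiA l hy.1) ?_)⟩
    rw [← mul_self_of_elem h.elem (L2.phiA l hy.1), mul_right_inj] at q
    exact mul_inv_eq_iff_eq_mul.1 q
  have n1 : ⁅v, y⁆ ≠ 1 := fun q => n (commutatorElement_eq_one_iff_mul_comm.1 q).symm
  have m := conj_mem_of_norm (L2.kC l) hy
  obtain ⟨j, hj⟩ := l.ty.1.tr _ (L2.phiA l hy.1) _ (mul_mem (L2.phiA l hy.1) (L2.phiA l m.1)) n1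
    (key y hy n1).2
  rw [← L2.phi_k l] at hj
  have m2 := conj_mem_of_norm (pow_mem (L2.kC l) j) hy
  obtain ⟨a, ha, r, hr, e⟩ := (mem_sup_r ((Lc.AT l.toLoc).trans (Lc.nR l.toLoc))).1
    (L2.C_P l h4 u3 (mul_mem (inv_mem m2) (mul_mem hy m)) (L2.mem_of l m2.1 (mul_mem hy.1 m.1)
      (by rw [hj, L2.phi_mul l hy.1 m.1])))
  rcases memR l.toLoc w hr with rfl | rfl
  · exact ⟨y, hy, _, m, cm2 l u3 h.elem hy.1 (sqC l u3 h4 h.elem w hy) n1 hj (by rwa [← e, mul_one]),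
      n1, key y hy n1⟩
  have vC := L2.VC l u3 (mem_sup_right l.vR)
  have ph : ∀ x ∈ S2, ⁅r, x * r⁆ = ⁅r, x⁆ := fun x hx => by
    rw [L2.phi_mul l hx vC.1, commutatorElement_self, mul_one]
  have kv : ∀ j : ℕ, k ^ j * (y * r) * (k ^ j)⁻¹ = k ^ j * y * (k ^ j)⁻¹ * r := fun j => by
    rw [mul_assoc _ _ r, (Commute.inv_left (Commute.pow_left (Lc.kv l.toLoc) j)).eq]; group
  have k1 := kv 1
  rw [pow_one] at k1
  have n2 : ⁅r, y * r⁆ ≠ 1 := by rwa [ph y hy.1]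
  refine ⟨_, mul_mem hy vC, _, conj_mem_of_norm (L2.kC l) (mul_mem hy vC), cm2 l u3 h.elem (j := j)
    (mul_mem hy.1 vC.1) (sqC l u3 h4 h.elem w (mul_mem hy vC)) n2 ?_ ?_, n2, key _ (mul_mem hy vC) n2⟩
  · rw [kv, k1, ph _ m2.1, ph _ m.1, ph _ hy.1, hj]
  · have b := L2.phiA l (inv_mem m.1)
    have e1 : (k ^ j * y * (k ^ j)⁻¹ * r)⁻¹ * (y * r * (k * y * k⁻¹ * r)) = r⁻¹ *
        ((k ^ j * y * (k ^ j)⁻¹)⁻¹ * (y * (k * y * k⁻¹))) * ⁅r, (k * y * k⁻¹)⁻¹⁆⁻¹ * (r * r) := by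
      simp only [commutatorElement_def]; group
    rw [kv, k1, e1, ← e, Lc.vv l.toLoc, mul_one, mem_cent.1 (Lc.RcA l.toLoc hr) a ha,
      inv_mul_cancel_left]
    exact mul_mem ha (inv_mem b)

theorem small (mo : 𝒮 α ≤ O2 (𝒮 α) ⊔ 𝒩 A) (all : AllL A) (a2 : AllL2 A) : False := by
  have h4 := h.four
  have w := h.big l u3 mo
  obtain ⟨c, hc, d, hd, cd, c1, d1, cd1⟩ := h.pair l u3 w
  obtain ⟨U, u1, u2, u4, u5⟩ := ab0 u3 l.ty.1 h4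
  have TS := (Lc.TP l.toLoc).trans l.le
  have key : ∀ c ∈ S2 ⊓ 𝒞 (zpowers (k ^ (♯A - 1))), ∃ t ∈ U, t * c * (t * c) = 1 ∧ t * c ∈ S2 ∧
      ⁅v, t * c⁆ = ⁅v, c⁆ ∧ ∀ s ∈ U, s * (t * c) = t * c * s := fun c hc => by
    obtain ⟨t, ht, e⟩ := u4 _ (sqC l u3 h4 h.elem w hc)
    have cT := mem_cent.1 (L2.C_T l h4 u3 hc)
    refine ⟨t, ht, ?_, mul_mem (TS (u1 t ht)) hc.1, ?_, fun s hs =>
      Commute.mul_right (u2 s hs t ht) (cT s (u1 s hs))⟩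
    · rw [mul_assoc, ← mul_assoc c, ← cT t (u1 t ht), mul_assoc, ← mul_assoc, e,
        mul_self_of_elem h.elem (sqC l u3 h4 h.elem w hc)]
    · rw [L2.phi_mul l (TS (u1 t ht)) hc.1, L2.phi_P l (Lc.TP l.toLoc (u1 t ht)), one_mul]
  obtain ⟨t, ht, x2, xS, x1, xU⟩ := key c hc
  obtain ⟨t', ht', y2, yS, y1, yU⟩ := key d hd
  have xy : t' * d * (t * c) = t * c * (t' * d) := Commute.mul_left (xU t' ht')
    (Commute.mul_right (mem_cent.1 (L2.C_T l h4 u3 hd) t (u1 t ht)).symm cd.symm)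
  rw [← x1, ← y1, ← L2.phi_mul l xS yS] at cd1
  rw [← x1] at c1
  rw [← y1] at d1
  generalize t * c = x at *
  generalize t' * d = y at *
  have nA : ∀ z, ⁅v, z⁆ ≠ 1 → z ∉ T := fun z z1 q => z1 (L2.phi_P l (Lc.TP l.toLoc q))
  have AT := Lc.AT l.toLoc
  obtain ⟨P', T', R', k', l', n⟩ := all x (S2 ⊓ 𝒞₁ x) ⟨fun q => nA x c1 (q ▸ one_mem _), x2⟩
    (fun q => nA x c1 (AT q)) (l.cA xS) (l.p2.to_le inf_le_left)
    (le_inf inf_le_right (inf_le_left.trans (l.cA.trans (cent_le_norm A))))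
  obtain ⟨S', k'', l''⟩ := a2 _ _ _ _ _ l'
  have w' := h.big l'' (u3g_of l''.ty h4 ((h.same mo a2 l' l.toLoc).trans (u3g_card u3))) mo
  have top : ∀ g ∈ S2 ⊓ 𝒞₁ x, g ∈ P' ∨ Gr A T' k' g := fun g hg =>
    l'.top g ⟨⟨hg.2, l.cA hg.1⟩, n hg⟩ (isPGroup_iff_forall.1 l.p2 g hg.1)
  have nT : S2 ⊓ 𝒞₁ x ≤ 𝒩 T' := (le_inf inf_le_right n).trans l'.nT
  have yX : y ∈ S2 ⊓ 𝒞₁ x := ⟨yS, mem_cent1.2 xy⟩
  have UX : ∀ s ∈ U, s ∈ S2 ⊓ 𝒞₁ x := fun s hs => ⟨TS (u1 s hs), mem_cent1.2 (xU s hs)⟩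
  have gy := (top y yX).resolve_left fun q => by
    obtain ⟨a, ha, r, hr, rfl⟩ := Lc.memV l' q y2
    rcases memR l' w' hr with rfl | rfl
    · exact nA _ d1 (AT (by rwa [mul_one]))
    · exact nA _ cd1 (AT (by rwa [← xy, mul_assoc, x2, mul_one]))
  obtain ⟨s, hs, s1, s2⟩ := u5 (· ∈ P') fun s hs s' hs' n1 n2 =>
    (top _ (mul_mem (UX s hs) (UX s' hs'))).resolve_right (gr3 ((top s (UX s hs)).resolve_left n1)
      ((top s' (UX s' hs')).resolve_left n2) (l.p2.to_le inf_le_left) nT (inf_le_left.trans l.cA)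
      (UX s hs) (UX s' hs'))
  obtain ⟨b, hb, r, hr, rfl⟩ := Lc.mem l' s1
  have e := yU _ hs
  rcases memR l' w' hr with rfl | rfl
  · rw [mul_one] at e s2
    exact s2 (gr4 gy (nT yX) (l.cA yS) (y2 ▸ one_mem _) hb e.symm)
  · have := gr4 gy (nT yX) (l.cA yS) (y2 ▸ one_mem _) hb (mul_right_cancel (b := r) (by
      rw [mul_assoc y, ← e, mul_assoc, ← xy, mul_assoc]))
    exact nA r c1 ((mul_mem_cancel_left (AT this)).1 (u1 _ hs))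

end GB

end

/-- **CU3** -/
theorem cu3 : CU3 := fun _ _ _ _ _ _ _ _ _ _ _ _ u a2 l u3 => by
  obtain ⟨h, e⟩ := gb_of u.toUG
  exact h.small l u3 (e.symm ▸ u.mo) u.all a2

end Cfsg.GS.Xx
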