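import Cfsg.Agent.GS.Y5

/-! The uniqueness case of Goldschmidt's theorem, 6: rank `3`, and the assembly. -/

set_option autoImplicit false

namespace Cfsg.GS.Yx

open Subgroup Cfsg.L0 Cfsg.H8 Cfsg.FT Cfsg.BS Cfsg.BS.R Cfsg.GS.T3 Cfsg.GS.T4 Cfsg.GS.Kx
open scoped commutatorElement

variable {G : Type} [Group G]

/-- the centralizer of `Y` modulo `O(H)` -/
def Cm (H Y : Subgroup G) : Subgroup G where
  carrier := {x | x ∈ H ∧ ∀ y ∈ Y, ⁅y, x⁆ ∈ O2 H}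
  one_mem' := ⟨one_mem _, by simp⟩
  mul_mem' := fun {a b} ha hb => ⟨mul_mem ha.1 hb.1, fun y hy => by
    convert mul_mem (ha.2 y hy) ((Op_nrm _ H).conj_mem ha.1 (hb.2 y hy)) using 1
    simp only [commutatorElement_def]; group⟩
  inv_mem' := fun {a} ha => ⟨inv_mem ha.1, fun y hy => by
    convert (Op_nrm _ H).conj_mem (inv_mem ha.1) (inv_mem (ha.2 y hy)) using 1
    simp only [commutatorElement_def]; group⟩

/-- the kernel of the action on the component of `C(a)` -/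
def Rk (A : Subgroup G) (a : G) : Subgroup G := Cm (𝒞₁ a) (Lb A (zpowers a))

variable {A B D H P S : Subgroup G} {a b c n s u x y : G}

theorem Rk_conj (hn : n ∈ 𝒩 A) (hx : x ∈ Rk A a) : n * x * n⁻¹ ∈ Rk A (n * a * n⁻¹) := by
  rw [Rk, ← cj_zpowers', ← cj_Lb hn, ← cj_cent1]
  refine ⟨conj_mem_cj hx.1, ?_⟩
  rintro _ ⟨y, hy, rfl⟩
  rw [O2, ← cj_Op]
  convert conj_mem_cj (g := n) (hx.2 y hy) using 1
  simp only [commutatorElement_def, MulEquiv.coe_toMonoidHom, MulAut.conj_apply]; group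

variable [Finite G] {Q : Type} [Group Q] [Finite Q] {L : Subgroup Q}

theorem Lo.Rk_eq {f : 𝒞₁ a →* Q} (l : Lo A (zpowers a) f L) (h : Mg S A) : up f (𝒞 L) = Rk A a := by
  have k := (cent_zpowers a).le
  have j := (l.Lb_le h k).trans (up_le _ _)
  have e : down f (Lb A (zpowers a)) = L := le_antisymm ((down_le_iff' j).2 (l.Lb_le h k)) (by
    rw [← down_sup_ker f j, l.ker, ← down_up l.surj L]
    exact down_mono f (down_up l.surj L ▸ l.le_Lb h k))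
  ext x
  exact ⟨fun i => ⟨up_le _ _ i, l.ker ▸ (mem_up_cent (up_le _ _ i) j).1 (e.symm ▸ i)⟩,
    fun i => e ▸ (mem_up_cent i.1 j).2 (l.ker.symm ▸ i.2)⟩

theorem Lo.out {f : H →* Q} (l : Lo A B f L) (h : Mg S A) (hH : S ≤ H) (hs : s ∈ S ⊓ up f (𝒞 L))
    (hx : x ∈ A) (hy : y ∈ A) (x1 : x ∉ B) (y1 : y ∉ B) :
    ∃ d ∈ H ⊓ 𝒩 A ⊓ 𝒞₁ s, d * x * d⁻¹ * y⁻¹ ∈ B := by
  have st := l.st h (h.syl.mono hH le_top) h.sc.le
  obtain ⟨g, ⟨g1, g2⟩, e⟩ := trA st l.cp l.nc (h.elem.down f) (x := f ⟨x, l.le hx⟩)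
    (y := f ⟨y, l.le hy⟩) (mem_down_of_mem hx) (mem_down_of_mem hy) (mt (l.mem hx).1 x1)
    (mt (l.mem hy).1 y1)
  have z := zpowers_le.2 hs.1
  have p := h.syl.isPGroup.to_le (sup_le h.sc.le z)
  have c := mem_cent.1 ((coe_mem_up (x := ⟨s, hH hs.1⟩)).1 hs.2) _ g1
  obtain ⟨d, hd, rfl⟩ := mem_down.1 ((l.dn ((sup_le h.sc.le z).trans hH) p).ge (show g ∈ _ by
    rw [down_sup f l.le (z.trans hH), down_zpowers f ⟨s, hH hs.1⟩]
    exact zpowers_le.1 (le_norm_sup (zpowers_le.2 g2) (le_norm_of_le_cent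
      (cent_zpowers (f _) ▸ zpowers_le.2 (mem_cent1.2 c))))))
  have n : (d : G) ∈ 𝒩 A := mem_normalizer_of_forall fun a ha =>
    l.toBr.mem p le_sup_left (x := d * ⟨a, l.le ha⟩ * d⁻¹) (conj_mem_of_norm hd.2 (mem_sup_left ha))
      (by rw [map_mul, map_mul, map_inv]; exact conj_mem_of_norm g2 (mem_down_of_mem ha))
  exact ⟨d, ⟨⟨d.2, n⟩, mem_cent1.2 (commutatorElement_eq_one_iff_mul_comm.1
    (l.one p (x := ⁅d, ⟨s, hH hs.1⟩⁆) (comm_le_right le_rfl (commutator_mem_commutator hd.2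
      (mem_sup_right (mem_zpowers s))))
      (by rwa [map_commutatorElement, commutatorElement_eq_one_iff_mul_comm])))⟩,
    (l.mem (x := d * ⟨x, l.le hx⟩ * d⁻¹ * (⟨y, l.le hy⟩ : H)⁻¹)
      (mul_mem (conj_mem_of_norm n hx) (inv_mem hy))).1 (by simpa only [map_mul, map_inv])⟩

theorem Lo.ty {f : 𝒞₁ a →* Q} (l : Lo A (zpowers a) f L) (h : Mg S A) (g : Gd A (zpowers a))
    (hS : S ≤ 𝒞 A) (h4 : ♯(Cc A (zpowers a)) = 4) : A ⊓ up f L = Cc A (zpowers a) ∧ S ≤ 𝒩 (up f L) ∧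
    ((Two L ∧ IsSyl 2 (down f A ⊓ L) L ∧
      ∀ s ∈ S, ∃ c ∈ Cc A (zpowers a), ∃ r ∈ S ⊓ Rk A a, c * r = s) ∨
      ((∀ c ∈ Cc A (zpowers a), ∃ t ∈ S ⊓ up f L, t * t = c) ∧ ∀ D, D ≤ S → S ≤ 𝒩 D →
        ¬ Cc A (zpowers a) ≤ D → ∀ t ∈ D, t * t ∈ Rk A a)) := by
  have hH := hS.trans (cent_le_cent1 (l.le' (mem_zpowers a)))
  have st := l.st h (h.syl.mono hH le_top) h.sc.le
  have el := h.elem.down f
  have k := (cent_zpowers a).le
  have p := h.syl.isPGroup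
  have cS := down_le_cent f hS
  have e : A ⊓ up f L = Cc A (zpowers a) := le_antisymm (fun x hx => by
    obtain ⟨u, hu, v, hv, rfl⟩ := (g.dp h).sd.mem hx.1
    rwa [show u = 1 from l.one h.elem.pgroup (x := ⟨u, l.le (l.le' hu)⟩) (l.le' hu) (eq_one_of_mem
      (z0 st l.cp l.nc el (inf_le_left.trans cS)) ⟨coe_mem_up.1 ((mul_mem_cancel_right
        (l.Cc_le h k hv)).1 hx.2), (l.mem (l.le' hu)).2 hu⟩), one_mul])
    (le_inf Yx.Cc_le (l.Cc_le h k))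
  have N := (hH.trans (cent_zpowers a).ge).trans (l.normC h k)
  have e' : down f A ⊓ L = down f (Cc A (zpowers a)) := by rw [← e, down_inf_up]
  refine ⟨e, N, (four_ty st l.cp l.nc el cS (down_up l.surj L ▸ down_le_norm f N) (by
    rw [e', card_down_eq (Yx.Cc_le.trans l.le) (l.k0 (h.elem.mono Yx.Cc_le).pgroup), h4])).imp
    (fun ⟨i, j, m⟩ => ⟨i, ?_, fun s hs => ?_⟩) fun ⟨i, j⟩ => ⟨fun c hc => ?_, fun D d1 d2 d3 t ht => ?_⟩⟩
  · exact le_antisymm (le_inf j inf_le_right) (inf_le_inf_right L st.sc.le) ▸ l.cp.syl st.syl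
  · obtain ⟨c, hc, r, hr, i⟩ := m _ (mem_down_of_mem (x := ⟨s, hH hs⟩) hs)
    obtain ⟨c, c1, rfl⟩ := mem_down.1 (e'.le hc)
    refine ⟨c, c1, (c : G)⁻¹ * s, mem_inf.2 ⟨mul_mem (inv_mem (h.sc.le (Yx.Cc_le c1))) hs,
      l.Rk_eq h ▸ (coe_mem_up (x := c⁻¹ * ⟨s, hH hs⟩)).2 ?_⟩, mul_inv_cancel_left _ _⟩
    rw [map_mul, map_inv, ← i, inv_mul_cancel_left]
    exact hr.2
  · obtain ⟨_, ⟨⟨t, t1, rfl⟩, t2⟩, i⟩ := i _ (e'.ge (mem_down_of_mem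
      (x := ⟨c, l.le (Yx.Cc_le hc)⟩) hc))
    exact ⟨t, ⟨t1, coe_mem_up.2 t2⟩, mul_inv_eq_one.1 (l.one p
      (x := t * t * (⟨c, l.le (Yx.Cc_le hc)⟩ : 𝒞₁ a)⁻¹) (mul_mem (mul_mem t1 t1)
        (inv_mem (h.sc.le (Yx.Cc_le hc)))) (by rw [map_mul, map_mul, map_inv, i, mul_inv_cancel]))⟩
  · refine l.Rk_eq h ▸ (coe_mem_up (x := ⟨t, hH (d1 ht)⟩ * ⟨t, hH (d1 ht)⟩)).2 ?_
    rw [map_mul]
    exact j _ (down_mono f d1) (down_le_norm f d2) (fun i => d3 fun c hc => l.toBr.mem p d1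
      (x := ⟨c, l.le (Yx.Cc_le hc)⟩) (h.sc.le (Yx.Cc_le hc)) (i (e'.ge (mem_down_of_mem hc)))) _
      (mem_down_of_mem ht)

/-- rank `3` -/
theorem case5 {𝓟 : Subgroup G → Prop} (h : Mg S A) (t : Tn A 𝓟) (g : ∀ P, 𝓟 P → Gd A P) :
    ∃ R, W8 S A R := by
  replace g := fun a ha a1 => g _ (t.mem a ha a1)
  have hS : S ≤ 𝒞 A := le_of_cop_ri (norm_le_norm_cent A) (h.sc.le_norm le_top)
    (cop_of_pgroup Nat.prime_two h.syl.isPGroup t.odd.not_two_dvd_nat)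
  have c4 : ∀ a ∈ A, a ≠ 1 → ♯(Cc A (zpowers a)) = 4 := fun a ha a1 => by
    have := ((g a ha a1).dp h).card
    rw [card_zpow, h.elem.orderOf_eq Nat.prime_two ha a1, t.card] at this
    omega
  have one : ∀ a ∈ A, a ≠ 1 → ∀ x ∈ zpowers a, x ∈ Cc A (zpowers a) → x = 1 :=
    fun a ha a1 x i j => eq_one_of_mem ((g a ha a1).inf h) ⟨i, j⟩
  have two : ∀ a ∈ A, a ≠ 1 → ∀ b ∈ A, b ≠ 1 →
      ∃ u ∈ Cc A (zpowers a) ⊓ Cc A (zpowers b), u ≠ 1 := fun a ha a1 b hb b1 =>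
    exists_ne_one fun e => by
      have := card_le (sup_le (Cc_le (A := A) (P := zpowers a)) (Cc_le (P := zpowers b)))
      rw [card_sup_of_inf (Cc_le.trans (h.elem.abel.le_norm Cc_le)) e, c4 a ha a1, c4 b hb b1,
        t.card] at this
      omega
  have AR : ∀ a ∈ A, a ≠ 1 → A ⊓ Rk A a = zpowers a := fun a ha a1 => by
    obtain ⟨Q, _, _, f, L, l⟩ := (g a ha a1).ex' h (mem_zpowers a) a1
    rw [← l.Rk_eq h, l.eq]
  have loc : ∀ a ∈ A, a ≠ 1 → ∃ (Q : Type) (_ : Group Q) (_ : Finite Q) (f : 𝒞₁ a →* Q)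
      (L : Subgroup Q), Lo A (zpowers a) f L ∧ Two L ∧ IsSyl 2 (down f A ⊓ L) L ∧
      ∀ s ∈ S, ∃ c ∈ Cc A (zpowers a), ∃ r ∈ S ⊓ Rk A a, c * r = s := fun a ha a1 => by
    obtain ⟨Q, _, _, f, L, l⟩ := (g a ha a1).ex' h (mem_zpowers a) a1
    obtain ⟨-, -, i | ⟨i, j⟩⟩ := l.ty h (g a ha a1) hS (c4 a ha a1)
    · exact ⟨Q, _, ‹_›, f, L, l, i⟩
    obtain ⟨b, hb, b1⟩ := exists_ne_one (ne_bot_of_card (by rw [c4 a ha a1]; omega :
      ♯(Cc A (zpowers a)) ≠ 1))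
    have bA := Cc_le hb
    obtain ⟨u, hu, u1⟩ := two a ha a1 b bA b1
    obtain ⟨R, _, _, φ, K, k⟩ := (g b bA b1).ex' h (mem_zpowers b) b1
    obtain ⟨e, N, ⟨-, -, m⟩ | ⟨m, -⟩⟩ := k.ty h (g b bA b1) hS (c4 b bA b1)
    · obtain ⟨x, hx, rfl⟩ := i u hu.1
      obtain ⟨c, hc, r, hr, rfl⟩ := m x hx.1
      refine (u1 (one b bA b1 _ ((AR b bA b1).le ⟨Cc_le hu.1, ?_⟩) hu.2)).elim
      rw [mul_assoc, ← mul_assoc r, ← mem_cent.1 (hS hr.1) c (Cc_le hc), ← mul_assoc, ← mul_assoc,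
        SFx.sq1 h.elem (Cc_le hc), one_mul]
      exact mul_mem (mem_inf.1 hr).2 hr.2
    obtain ⟨x, hx, rfl⟩ := m u hu.2
    exact (u1 (one a ha a1 _ ((AR a ha a1).le ⟨Cc_le hu.1, j _ inf_le_left
      (le_norm_inf (le_norm S) N) (fun i => b1 (one b bA b1 b (mem_zpowers b)
        (e.le ⟨bA, (i hb).2⟩))) x hx⟩) hu.1)).elim
  have out : ∀ s ∈ S, ∀ a ∈ A, a ≠ 1 → s ∈ Rk A a → ∀ x ∈ Cc A (zpowers a), x ≠ 1 → s ∈ Rk A x →
      ∀ y ∈ Cc A (zpowers a), y ≠ 1 → s ∈ Rk A y := fun s hs a ha a1 i x hx x1 j y hy y1 => by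
    obtain ⟨Q, _, _, f, L, l⟩ := (g a ha a1).ex' h (mem_zpowers a) a1
    obtain ⟨d, hd, e⟩ := l.out h (hS.trans (cent_le_cent1 ha)) ⟨hs, (l.Rk_eq h).ge i⟩ (Cc_le hx)
      (Cc_le hy) (fun e => x1 (one a ha a1 x e hx)) fun e => y1 (one a ha a1 y e hy)
    have := Rk_conj hd.1.2 j
    rwa [mul_inv_eq_one.1 (one a ha a1 _ e (mul_mem (cj_Cc' ⟨hd.1.2, (cent_zpowers a).ge hd.1.1⟩ ▸
      conj_mem_cj hx) (inv_mem hy))), mem_cent1.1 hd.2, mul_inv_cancel_right] at this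
  have all : ∀ s ∈ S, ∀ a ∈ A, a ≠ 1 → s ∈ Rk A a → ∀ b ∈ Cc A (zpowers a), b ≠ 1 → s ∈ Rk A b →
      ∀ x ∈ A, x ≠ 1 → s ∈ Rk A x := fun s hs a ha a1 i b hb b1 j x hx x1 => by_contra fun n => by
    have o := out s hs a ha a1 i b hb b1 j
    have k : ∀ c ∈ A, c ≠ 1 → s ∈ Rk A c → x ∉ Cc A (zpowers c) → c ∈ Cc A (zpowers x) :=
      fun c hc c1 i j => (t.tour x hx c hc x1 c1 fun e => n (e ▸ i)).2 j
    refine x1 (one x hx x1 x (mem_zpowers x) (sup_le (zpowers_le.2 (k a ha a1 i fun e => n (o x e x1)))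
      (fun c hc => ?_) (((g a ha a1).sup h).ge hx)))
    by_cases c1 : c = 1
    · exact c1 ▸ one_mem _
    obtain ⟨u, hu, u1⟩ := two c (Cc_le hc) c1 a ha a1
    exact k c (Cc_le hc) c1 (o c hc c1) fun e =>
      n (out s hs c (Cc_le hc) c1 (o c hc c1) u hu.1 u1 (o u hu.2 u1) x e x1)
  have mem : ∀ x, x ∈ S ⊓ ⨅ a ∈ sharp A, Rk A a ↔ x ∈ S ∧ ∀ a ∈ A, a ≠ 1 → x ∈ Rk A a := fun x => by
    simp [mem_iInf, sharp]
  refine ⟨S ⊓ ⨅ a ∈ sharp A, Rk A a, h, t.card,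
    fun a ha b hb a1 b1 => SFx.tr8 h.irr h.elem t.card ⟨ha, a1⟩ ⟨hb, b1⟩, t.odd,
    le_antisymm (sup_le h.sc.le inf_le_left) fun s hs => ?_, eq_bot_iff.2 fun x hx => ?_,
    inf_le_left.trans hS, ⟨inf_le_left, fun x hx u _ i => ?_⟩, fun a ha a1 => ?_⟩
  · choose c hc r hr e using fun a : sharp A => (loc a a.2.1 a.2.2).elim fun _ ⟨_, _, _, _, i⟩ =>
      i.2.2.2 s hs
    obtain ⟨⟨a, β⟩, ⟨b, γ⟩, i, j⟩ := Function.not_injective_iff.1 fun i : Function.Injective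
        fun p : sharp A × Bool => (⟨c p.1 * if p.2 then (p.1 : G) else 1, mul_mem (Cc_le (hc _))
          (by split; exacts [p.1.2.1, one_mem _])⟩ : A) => by
      have := Nat.card_le_card_of_injective _ i
      rw [Nat.card_prod, Nat.card_coe_set_eq, ncard_sharp, t.card] at this
      simp at this
    replace i : (c a * if β then (a : G) else 1) = c b * if γ then (b : G) else 1 :=
      congrArg Subtype.val i
    have key : ∀ (a : sharp A) (β : Bool), (c a * if β then (a : G) else 1)⁻¹ * s ∈ S ⊓ Rk A a := fun a β => by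
      rw [← e a, mul_inv_rev, mul_assoc, inv_mul_cancel_left]
      refine mul_mem (inv_mem ?_) (hr a)
      split
      exacts [⟨h.sc.le a.2.1, ((AR a a.2.1 a.2.2).ge (mem_zpowers _)).2⟩, one_mem _]
    have ne : (a : G) ≠ b := fun e => by
      obtain rfl := Subtype.ext e
      have := a.2.2
      rw [mul_right_inj] at i
      cases β <;> cases γ
      exacts [j rfl, this i.symm, this i, j rfl]
    have ka := key a β
    have kb := key b γ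
    rw [← i] at kb
    have m : (c a * if β then (a : G) else 1) ∈ A :=
      mul_mem (Cc_le (hc _)) (by split; exacts [a.2.1, one_mem _])
    rw [← mul_inv_cancel_left (c a * if β then (a : G) else 1) s]
    refine mul_mem_sup m ((mem _).2 ⟨ka.1, ?_⟩)
    by_cases q : (b : G) ∈ Cc A (zpowers (a : G))
    · exact all _ ka.1 a a.2.1 a.2.2 ka.2 b q b.2.2 kb.2
    · exact all _ ka.1 b b.2.1 b.2.2 kb.2 a ((t.tour _ b.2.1 _ a.2.1 b.2.2 a.2.2 ne.symm).2 q)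
        a.2.2 ka.2
  · by_contra x1
    obtain ⟨b, hb, b1⟩ := exists_ne_one (ne_bot_of_card (by rw [c4 x hx.1 x1]; omega :
      ♯(Cc A (zpowers x)) ≠ 1))
    exact x1 (one x hx.1 x1 x (mem_zpowers x) (zpowers_le.2 hb ((AR b (Cc_le hb) b1).le
      ⟨hx.1, ((mem x).1 hx.2).2 b (Cc_le hb) b1⟩)))
  · obtain ⟨n, hn, e⟩ := Fx.ctrl h.syl h.sc h.elem.abel hx.1 i
    refine (mem _).2 ⟨i, fun a ha a1 => ?_⟩
    have := Rk_conj hn (((mem x).1 hx).2 _ (conj_mem_of_norm (inv_mem hn) ha) (conj_ne_one a1 _))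
    rwa [← e, show n * (n⁻¹ * a * n⁻¹⁻¹) * n⁻¹ = a by group] at this
  obtain ⟨Q, _, _, f, L, l, ⟨F, _, _, f1, f2, f3⟩, i, -⟩ := loc a ha a1
  refine ⟨Q, _, ‹_›, f, L, F, _, _, l.surj, l.ker, normal_of_top_le ?_, f1, f2, f3, i,
    down_le_iff.2 (l.Rk_eq h ▸ fun x hx => ((mem x).1 hx.1).2 a ha a1)⟩
  rw [← down_top l.surj, ← down_up l.surj L]
  exact down_le_norm f ((cent_zpowers a).ge.trans (l.normC h (cent_zpowers a).le))

theorem u8 : U8 := by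
  intro G _ _ S A h h8
  by_cases e : ∃ B, Me A B
  swap
  · exact .inl (case3 h h8 fun B hB => e ⟨B, hB⟩)
  obtain ⟨B, g⟩ := exists_min_card' e
  have g : Gd A B := ⟨g.1, g.2⟩
  exact (g.fam h).lin.imp (case4 h g) fun t => case5 h t fun P ⟨n, a, b⟩ => b ▸ g.cj a

end Cfsg.GS.Yx
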