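import Cfsg.Agent.GS.E2
import Cfsg.Agent.GS.T4

/-! Goldschmidt's `2`-signalizer functor theorem, part 3: points `a` with `θ a` maximal. -/

set_option autoImplicit false
set_option linter.unusedSectionVars false

namespace Cfsg.GS.SFx

open Subgroup Cfsg.L0 Cfsg.H8 Cfsg.FT Cfsg.BS Cfsg.BS.R Cfsg.GS.T3 Cfsg.GW.Mx
open scoped commutatorElement

variable {G : Type} [Group G] [Finite G] {A B K W : Subgroup G} {θ : G → Subgroup G}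
  {a b c e f t x y : G} {r u : ℕ}

/-- `A` centralizes or inverts `x` -/
def Ev (A : Subgroup G) (x : G) : Prop := ∀ e ∈ A, x ∈ 𝒞₁ e ∨ e * x * e = x⁻¹

theorem c1_mul (h1 : x ∈ 𝒞₁ a) : x ∈ 𝒞₁ (a * b) ↔ x ∈ 𝒞₁ b := by
  simp only [mem_cent1] at *
  rw [← mul_assoc, h1, mul_assoc, mul_assoc, mul_left_cancel_iff]

theorem c1_inv (ha : a * a = 1) (hb : b * b = 1) (h1 : a * x * a = x⁻¹) (h2 : b * x * b = x⁻¹) :
    x ∈ 𝒞₁ (a * b) := mem_cent1.2 (by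
  calc x * (a * b) = a * (a * x * a) * (b * b) * b := by rw [hb, ← mul_assoc, ← mul_assoc a, ← mul_assoc a, ha]; simp
    _ = a * b * x * (b * b) * (b * b) := by rw [h1, ← h2]; simp only [mul_assoc]
    _ = _ := by rw [hb]; simp)

theorem eig' (hA : Elem 2 A) (ho : Odd ♯K) (hn : A ≤ 𝒩 K) (ha : a ∈ A) (h : ¬ K ≤ 𝒞₁ a) :
    ∃ x ∈ K, x ∉ 𝒞₁ a ∧ Ev A x := by
  obtain ⟨x, x1, x2, x3, B, hB, x4⟩ := eig hA ho hn ha inf_le_right h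
  refine ⟨x, x1, x2, fun e he => or_iff_not_imp_left.2 fun q => ?_⟩
  have := mem_cent1.1 (cent_le_cent1 (hB.mul e he a ha (fun r => q (cent_le_cent1 r x4))
    fun r => x2 (cent_le_cent1 r x4)) x4)
  rw [mul_assoc e a, ← mul_left_inj a, mul_assoc e, x3, mul_assoc, mul_assoc, sq1 hA ha, mul_one] at this
  rw [mul_assoc, this, ← mul_assoc, sq1 hA he, one_mul]

theorem Ev.norm (h : Ev A x) (hA : Elem 2 A) : A ≤ 𝒩 (zpowers x) := fun e he =>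
  (h e he).elim (fun q => cent_le_norm _ (le_cent1_iff.1 (zpowers_le.2 q))) (mem_norm_zpowers (sq1 hA he))

theorem Ev.hy (h : Ev A x) (hA : Elem 2 A) : Hy A (A ⊓ 𝒞 (zpowers x)) :=
  have k : ∀ {e}, e ∈ 𝒞 (zpowers x) ↔ x ∈ 𝒞₁ e := by simp [← le_cent1_iff]
  ⟨inf_le_left, fun a ha b hb h1 h2 => ⟨mul_mem ha hb, k.2 (c1_inv (sq1 hA ha) (sq1 hA hb)
    ((h a ha).resolve_left fun q => h1 ⟨ha, k.2 q⟩) ((h b hb).resolve_left fun q => h2 ⟨hb, k.2 q⟩))⟩⟩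

theorem Ev.cent (h : Ev A x) (hA : Elem 2 A) (ho : Odd (orderOf x)) (ht : t ∈ A) (h1 : x ∉ 𝒞₁ t)
    (h2 : x ∈ 𝒩 K) (h3 : K ≤ 𝒞₁ t) : x ∈ 𝒞 K :=
  comm_le_of_le_of_norm (zpowers_le.2 (le_cent1_iff.1 h3)) (le_norm_cent (zpowers_le.2 h2))
    (inv_mem_comm (sq1 hA ht) (mem_zpowers x) ho ((h t ht).resolve_left h1))

theorem mem4 (hA : Elem 2 A) (h8 : ♯A = 8) (ht : t ∈ A) (h1 : x ∉ 𝒞₁ t) (hb : b ∈ sharp A)
    (hc : c ∈ sharp A) (ne : b ≠ c) (h2 : x ∈ 𝒞₁ b) (h3 : x ∈ 𝒞₁ c) (he : e ∈ A) (h4 : x ∈ 𝒞₁ e) :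
    e = 1 ∨ e = b ∨ e = c ∨ e = b * c := by
  have k : ∀ {e}, e ∈ 𝒞 (zpowers x) ↔ x ∈ 𝒞₁ e := by simp [← le_cent1_iff]
  obtain ⟨s1, s2⟩ := four_le_card (T := A ⊓ 𝒞 (zpowers x)) ⟨hb.1, k.2 h2⟩ ⟨hc.1, k.2 h3⟩ (sq1 hA hb.1)
    hb.2 hc.2 ne
  have l := card_lt (inf_lt_left.2 fun q => h1 (k.1 (q ht)))
  have d := card_dvd (inf_le_left : A ⊓ 𝒞 (zpowers x) ≤ A)
  have : ♯(A ⊓ 𝒞 (zpowers x)) ≤ 4 := by
    rw [h8] at l d
    generalize ♯(A ⊓ 𝒞 (zpowers x)) = n at l d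
    interval_cases n <;> simp_all
  exact (Set.eq_of_subset_of_ncard_le s1 (s2 ▸ this)).ge (⟨he, k.2 h4⟩ : e ∈ A ⊓ 𝒞 (zpowers x))

/-- a link of the chain -/
structure Ch (A : Subgroup G) (θ : G → Subgroup G) (b : G) (r : ℕ) (x c t : G) : Prop where
  hb : b ∈ sharp A
  hc : c ∈ sharp A
  ne : b ≠ c
  mb : Ma A θ (θ b)
  mc : Ma A θ (θ c)
  hr : r.Prime
  xr : x ∈ Op {r} (θ b)
  xc : x ∈ 𝒞₁ c
  ev : Ev A x
  ht : t ∈ A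
  xt : x ∉ 𝒞₁ t

namespace Mc
variable (h : Mc A θ)
include h

theorem t7N (hc : c ∈ sharp A) (hT : Ma A θ (θ c)) (hu : u.Prime) (h0 : Op {u} (θ c) ≠ ⊥)
    (hW : In A θ W) (h1 : Op {u} (θ c) ≤ W) (h2 : y ∈ Op {u} (θ c))
    (h3 : ∀ q, q.Prime → q ≠ u → y ∈ 𝒞 (Op {q} W)) : y ∈ Op {u} W := by
  have nQ : W ≤ 𝒩 (𝒞 (Op {u}ᶜ (Fit W))) := le_norm_cent ((Fit_nrm W).Op _).norm
  have nO := (Op_nrm {u} W).norm
  have sp : Op {u} W ⊔ Op {u}ᶜ (Fit W) = Fit W := Op_Fit hu W ▸ ((Fit_nil W).dp {u}).sup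
  have y1 : y ∈ Op {u} (θ c) ⊓ 𝒞 (Op {u}ᶜ (Fit W)) := ⟨h2, le_cent1_iff.1 ((Fit_eq_self
    ((Fit_nil W).mono (Op_le _ _))).ge.trans (Fit_le_of_forall fun q hq => by
      by_cases e : q = u
      · rw [e, eq_bot_of_le (inf_eq_bot_of_cop ((Op_pi {u} _).cop (Op_pi _ (Fit W))))
          (le_inf le_rfl (Op_le _ _))]; exact bot_le
      · exact ((Op_le_Op_of_nrm _ (Op_nrm _ _)).trans (Op_Fit hq W).le).trans
          (cent_symm (zpowers_le.2 (h3 q hq e)) |>.trans (cent_zpowers y).le)))⟩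
  have n1 : W ⊓ 𝒞₁ c ≤ 𝒩 (Op {u} (θ c) ⊓ 𝒞 (Op {u}ᶜ (Fit W))) :=
    le_norm_inf ((hW.le c hc).trans (Op_nrm _ _).norm) (inf_le_left.trans nQ)
  have p1 : PiG {u} (Op {u} (θ c) ⊓ 𝒞 (Op {u}ᶜ (Fit W))) := (Op_pi _ _).mono inf_le_left
  have l1 := (inf_le_left : Op {u} (θ c) ⊓ 𝒞 (Op {u}ᶜ (Fit W)) ≤ _).trans h1
  have l2 : Op {u} (θ c) ⊓ 𝒞 (Op {u}ᶜ (Fit W)) ≤ _ := inf_le_right
  have k1 := comm_le_left (zpowers_le.2 (hW.inv hc.1))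
  have k2 := comm_le_of_le_of_norm (zpowers_le.2 (le_cent1_iff.1 (h.t7 hc hT hu h0 (hW.Op _)
    (Op_pgroup hu W) (h1.trans nO)))) (le_norm_cent nO)
  generalize Op {u} (θ c) ⊓ 𝒞 (Op {u}ᶜ (Fit W)) = U at y1 n1 p1 l1 l2
  have k3 : ⁅⁅W, zpowers c⁆, U⁆ ≤ Fit W := (le_inf ((comm_le_sup _ _).trans (sup_le k1 l1)) (by
    rw [← sp, cent_sup]
    exact le_inf (comm_le_of_le_of_norm' k2 (le_norm_cent (l1.trans nO)))
      (comm_le_of_le_of_norm l2 (k1.trans nQ)))).trans (cent_Fit_le (h.sol hW))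
  have n2 : Fit W ⊔ U ⊴ W := ⟨sup_le (Fit_le W) l1, (BS.R.ca2 (sq1 h.elem hc.1) (hW.inv hc.1)
    hW.odd).comm_sup_cent.ge.trans (sup_le (fun g hg => mem_norm_of_cj_le (by
      rw [cj_sup, cj_eq_of_mem_norm ((Fit_nrm W).norm (k1 hg))]
      refine sup_le le_sup_left fun x hx => ?_
      simpa [commutatorElement_def, mul_assoc] using
        mul_mem_sup (k3 (commutator_mem_commutator hg (mem_cj.1 hx))) (mem_cj.1 hx)))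
    (le_norm_sup (inf_le_left.trans (Fit_nrm W).norm) (cent_zpowers c ▸ n1)))⟩
  refine le_Op_of_sn ((Op_pi {u} W).sup p1 (l1.trans nO)) (Nrm.sn ⟨sup_le_sup_right (Op_le_Fit hu W) U,
    ?_⟩ |>.trans n2.sn) (mem_sup_right y1)
  rw [← sp]
  exact sup_le (sup_le (le_norm_of_le le_sup_left) (le_norm_of_le_cent (cent_symm (sup_le
    (Op_Fit hu W ▸ Op_cent disjoint_compl_right _) l2)))) (le_norm_of_le le_sup_right)

theorem nxt (hb : b ∈ sharp A) (hc : c ∈ sharp A) (ne : b ≠ c) (h2 : x ∈ 𝒞₁ b) (h3 : x ∈ 𝒞₁ c)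
    (ht : t ∈ A) (h1 : x ∉ 𝒞₁ t) : ∃ f ∈ A, x ∉ 𝒞₁ f ∧ f ≠ t ∧ Ma A θ (θ f) := by
  have hd := mul_sharp h.elem hb hc ne
  have k : ∀ {e}, e ∈ sharp A → x ∈ 𝒞₁ e → e * t ∈ sharp A ∧ x ∉ 𝒞₁ (e * t) ∧ e * t ≠ t :=
    fun he q => have r := mt (c1_mul q).1 h1
      ⟨⟨mul_mem he.1 ht, fun s => r (by simp [s, cent1_one])⟩, r, by simpa using he.2⟩
  have h4 := (c1_mul h2).2 h3
  rcases h.h3 (k hb h2).1 (k hc h3).1 (k hd h4).1 (by simpa) (by simpa using hc.2)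
    (by simpa using hb.2) with q | q | q
  exacts [⟨_, (k hb h2).1.1, (k hb h2).2.1, (k hb h2).2.2, q⟩,
    ⟨_, (k hc h3).1.1, (k hc h3).2.1, (k hc h3).2.2, q⟩,
    ⟨_, (k hd h4).1.1, (k hd h4).2.1, (k hd h4).2.2, q⟩]

theorem start : ∃ b r x c t, Ch A θ b r x c t := by
  obtain ⟨b, hb, mb⟩ : ∃ b ∈ sharp A, Ma A θ (θ b) := by
    obtain ⟨a, ha⟩ := h.pt
    obtain ⟨c, hc, ne⟩ := ex_ne h.two a
    rcases h.h3 ha hc (mul_sharp h.elem ha hc ne.symm) ne.symm (by simpa using hc.2)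
      (by simpa using ha.2) with q | q | q
    exacts [⟨_, ha, q⟩, ⟨_, hc, q⟩, ⟨_, mul_sharp h.elem ha hc ne.symm, q⟩]
  have k : ∀ t ∈ sharp A, t ≠ b → ∃ r x c, r.Prime ∧ x ∈ Op {r} (θ b) ∧ x ∉ 𝒞₁ t ∧ Ev A x ∧
      c ∈ sharp A ∧ b ≠ c ∧ x ∈ 𝒞₁ c ∧ x ∈ 𝒞₁ b := fun t ht ne => by
    obtain ⟨r, hr, q⟩ : ∃ r, r.Prime ∧ ¬ Op {r} (θ b) ≤ 𝒞₁ t := by
      by_contra! c
      refine h.g2 t ht b hb ne _ (h.self ht) le_rfl ((le_inf le_rfl ?_).trans (h.bal b hb t ht))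
      exact cent_zpowers t ▸ cent_symm (cent_of_cent_Fit (h.sol mb.1) (zpowers_le.2 (mb.inv ht.1))
        (h.cop ht.1 mb.odd) (cent_symm (cent_zpowers t ▸ Fit_le_of_forall c)))
    obtain ⟨x, x1, x2, x3⟩ := eig' h.elem (mb.1.Op _).odd (mb.1.Op _).inv ht.1 q
    obtain ⟨c, c1, c2⟩ := ex_ne (h.hy (x3.hy h.elem)) b
    exact ⟨r, x, c, hr, x1, x2, x3, ⟨c1.1.1, c1.2⟩, c2.symm, zpowers_le.1 (le_cent1_iff.2 c1.1.2),
      h.cen b hb (Op_le _ _ x1)⟩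
  obtain ⟨t, ht, ne⟩ := ex_ne h.two b
  obtain ⟨r, x, c, hr, x1, x2, x3, hc, c1, c2, c3⟩ := k t ht ne
  obtain ⟨s, y, d, hs, y1, y2, y3, hd, d1, d2, d3⟩ := k c hc c1.symm
  have he := mul_sharp h.elem hb hc c1
  rcases h.h3 hc he hd (by simpa using hb.2) (fun q => y2 (q ▸ d2))
    (fun q => y2 ((c1_mul d3).1 (q ▸ d2))) with q | q | q
  exacts [⟨b, r, x, c, t, hb, hc, c1, mb, q, hr, x1, c2, x3, ht.1, x2⟩,
    ⟨b, r, x, _, t, hb, he, by simpa using hc.2, mb, q, hr, x1, (c1_mul c3).2 c2, x3, ht.1, x2⟩,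
    ⟨b, s, y, d, c, hb, hd, d1, mb, q, hs, y1, d2, y3, hc.1, y2⟩]

end Mc

namespace Ch
variable (k : Ch A θ b r x c t) (h : Mc A θ)
include k h

theorem xb : x ∈ 𝒞₁ b := h.cen b k.hb (Op_le _ _ k.xr)

theorem xc' : x ∈ θ c := h.bal b k.hb c k.hc ⟨Op_le _ _ k.xr, k.xc⟩

theorem odd : Odd (orderOf x) := odd_of_mem (h.odd c k.hc) (k.xc' h)

theorem ne0 : Op {r} (θ b) ≠ ⊥ := ne_bot_of_mem k.xr fun e => k.xt (e ▸ one_mem _)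

theorem step : ∃ u, u.Prime ∧ u ≠ r ∧ x ∉ 𝒞 (Op {u} (θ c)) := by
  by_contra! q
  have e := h.t77 k.hb k.hc k.ne k.mb k.mc k.hr
  refine k.xt (eq_one_of_mem e ⟨k.xr, zpowers_le.1 (le_Op_of_le_Fit ((Op_pi _ _).mono
    (zpowers_le.2 k.xr)) ((le_inf (zpowers_le.2 (k.xc' h)) (cent_symm (Fit_le_of_forall
      fun u hu => cent_symm (zpowers_le.2 ?_)))).trans (cent_Fit_le (h.sol k.mc.1))))⟩ ▸ one_mem _)
  by_cases n : u = r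
  swap
  · exact q u hu n
  by_cases z : Op {r} (θ c) = ⊥
  · rw [n, z, cent_bot]; trivial
  exact n ▸ le_cent_of_inf_eq_bot ((h.t7' k.hc k.mc k.hr z k.hb).trans (Op_nrm _ _).norm)
    ((h.t7' k.hb k.mb k.hr (k.ne0 h) k.hc).trans (Op_nrm _ _).norm) e k.xr

theorem uc (hu : u.Prime) (ne : u ≠ r) : Op {u} (θ c) ⊓ 𝒞₁ b ≤ 𝒞 (zpowers x) :=
  cent_pq hu k.hr ne (Op_pgroup hu _) (Op_pgroup k.hr _) inf_le_left
    (((k.mc.1.Op _).le b k.hb).trans (Op_nrm _ _).norm) (zpowers_le.2 k.xr)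
    (zpowers_le.2 ((Op_nrm _ _).norm (k.xc' h)))

theorem good (hu : u.Prime) (ne : u ≠ r) (h0 : x ∉ 𝒞 (Op {u} (θ c))) (he : e ∈ sharp A)
    (n : e ≠ c) (hT : Ma A θ (θ e)) : Op {u} (θ e) = ⊥ := not_not.1 fun q => by
  have l := (h.t7' he hT hu q k.hc).trans (h.cen e he)
  by_cases s : x ∈ 𝒞₁ e
  swap
  · exact h0 (k.ev.cent h.elem (k.odd h) he.1 s ((Op_nrm _ _).norm (k.xc' h)) l)
  refine h0 (zpowers_le.1 (cent_symm ((le_inf le_rfl ?_).trans (k.uc h hu ne))))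
  rcases mem4 h.elem h.c8 k.ht k.xt k.hb k.hc k.ne (k.xb h) k.xc he.1 s with rfl | rfl | rfl | rfl
  exacts [absurd rfl he.2, l, absurd rfl n, le_cent1_iff.2 ((mul_mem_cancel_right (le_cent1_iff.1
    ((Op_le _ _).trans (h.cen c k.hc)))).1 (le_cent1_iff.1 l))]

theorem next (hu : u.Prime) (ne : u ≠ r) (h0 : x ∉ 𝒞 (Op {u} (θ c))) (hf : f ∈ A) (h1 : x ∉ 𝒞₁ f)
    (hT : Ma A θ (θ f)) : ∃ y ∈ ⁅Op {u} (θ c), zpowers x⁆, Ch A θ c u y f b := by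
  have f1 : f ≠ 1 := fun e => h1 (by simp [e, cent1_one])
  have n := zpowers_le.2 ((Op_nrm {u} _).norm (k.xc' h))
  have nx := k.ev.norm h.elem
  have iV := (k.mc.1.Op {u}).cm nx n
  have l := comm_le_left n
  have co := cop_mono (cop_of_pgroups hu k.hr ne (Op_pgroup hu (θ c)) (Op_pgroup k.hr (θ b))) le_rfl
    (zpowers_le.2 k.xr)
  have i := iV.c1 h.toFn hf
  obtain ⟨y, y1, y2, y3⟩ := eig' h.elem i.odd i.inv k.hb.1 fun q => h0 (zpowers_le.1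
    (cent_of_comm_cent n co (zpowers_le.2 (k0 (sq1 h.elem hf) f1 iV.odd (h.sol iV)
      (card_zpow x ▸ k.odd h) (cop_mono co l le_rfl) (iV.inv hf) (nx hf) (right_le_norm_comm _ _)
      ((comm_le_left (zpowers_le.2 (nx hf))).trans (cent_symm
        ((le_inf (inf_le_left.trans l) q).trans (k.uc h hu ne))))
      (inv_mem_comm (sq1 h.elem hf) (mem_zpowers x) (k.odd h) ((k.ev f hf).resolve_left h1))))))
  exact ⟨y, y1.1, k.hc, ⟨hf, f1⟩, fun e => h1 (e ▸ k.xc), k.mc, hT, hu, l y1.1, y1.2, y3, k.hb.1, y2⟩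

end Ch

theorem Mc.false (h : Mc A θ) : False := by
  obtain ⟨b, r, x, c, t, k⟩ := h.start
  obtain ⟨u, hu, ur, x0⟩ := k.step h
  obtain ⟨f, f1, f2, -, f3⟩ := h.nxt k.hb k.hc k.ne (k.xb h) k.xc k.ht k.xt
  obtain ⟨g, g1, g2, gf, g3⟩ := h.nxt k.hb k.hc k.ne (k.xb h) k.xc f1 f2
  obtain ⟨y, y1, k1⟩ := k.next h hu ur x0 f1 f2 f3
  obtain ⟨z, -, k2⟩ := k.next h hu ur x0 g1 g2 g3
  obtain ⟨v, hv, vu, y0⟩ := k1.step h
  obtain ⟨s, hs, su, z0⟩ := k2.step h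
  have v0 : Op {v} (θ f) ≠ ⊥ := fun e => y0 (by rw [e, cent_bot]; trivial)
  obtain ⟨W, w1, w2, -, w4⟩ := h.exW {r, u, v} s _ hs (by
    rintro (rfl | rfl | rfl)
    exacts [k.ne0 h (k2.good h hs su z0 k.hb (fun e => g2 (e ▸ k.xb h)) k.mb), su rfl,
      v0 (k2.good h hs su z0 k1.hc gf.symm f3)]) (g3.1.Op {s})
    (dvd_card_of_pgroup hs (Op_pgroup hs _) fun e => z0 (by rw [e, cent_bot]; trivial))
  have l : ∀ {a q}, a ∈ sharp A → q.Prime → q ∈ ({r, u, v} : Set ℕ) → Op {q} (θ a) ≤ W :=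
    fun ha hq m => w4 _ ((h.self ha).Op _) (piG_of_pgroup hq (Op_pgroup hq _) m)
      ((Dd_le ha).trans (Op_nrm _ _).norm)
  have l0 := l k.hb k.hr (by simp)
  have l1 := l k.hc hu (by simp)
  have l2 := l k1.hc hv (by simp)
  have n := fun q => (Op_nrm {q} W).norm
  have m := h.t7N k.hc k.mc hu (k1.ne0 h) w1 l1 k1.xr fun q hq ne => by
    by_cases e : Op {q} W = ⊥
    · rw [e, cent_bot]; trivial
    rcases mem_of_pgroup hq (w2.mono (Op_le _ _)) (Op_pgroup hq W) e with rfl | rfl | rfl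
    · exact k1.ev.cent h.elem (k1.odd h) k1.ht k1.xt (n _ (l1 k1.xr))
        (h.t7 k.hb k.mb hq (k.ne0 h) (w1.Op _) (Op_pgroup hq W) (l0.trans (n _)))
    · exact absurd rfl ne
    · exact comm_le_of_le_of_norm (zpowers_le.2 (k.ev.cent h.elem (k.odd h) f1 f2 (n _ (l0 k.xr))
        (h.t7 k1.hc f3 hq v0 (w1.Op _) (Op_pgroup hq W) (l2.trans (n _)))))
        (le_norm_cent (l1.trans (n _))) y1
  exact y0 (zpowers_le.1 (cent_pq hu hv vu.symm (Op_pgroup hu W) (Op_pgroup hv _) (zpowers_le.2 m)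
    (zpowers_le.2 ((Op_nrm _ _).norm (k1.xc' h))) le_rfl (l2.trans (n _))))

end Cfsg.GS.SFx

/-- Goldschmidt's `2`-signalizer functor theorem -/
theorem Cfsg.GS.T4.sfg : Cfsg.GS.T4.SFG := fun _ _ _ _ _ h =>
  Cfsg.GS.SFx.sfg_of Cfsg.FT.oddOrder (fun _ _ _ _ _ => Cfsg.GS.SFx.Mc.false) h
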