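import Cfsg.Agent.GS.Z3
import Cfsg.Agent.GS.E3

/-! Elementary abelian Sylow `2`-subgroups of order `8`, 4: the cores of the centralizers are
trivial. -/

set_option autoImplicit false
set_option linter.unusedSectionVars false

namespace Cfsg.GS.Zx

open Subgroup Cfsg.L0 Cfsg.H8 Cfsg.FT Cfsg.BS Cfsg.BS.R Cfsg.GS.T3 Cfsg.GS.T4 Cfsg.GS.Kx
open Cfsg.GW.Mx (CC ca2 odd_p cop_two inf_of norm_eq)
open scoped commutatorElement

variable {G : Type} [Group G] [Finite G] {A D : Subgroup G} {a b c e x : G} {p : ℕ}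

namespace Zc
variable (h : Zc A)
include h

theorem c4 (hD : D ≤ A) (h2 : 2 < ♯D) (he : e ∈ A) (e1 : e ∉ D) : ♯D = 4 := by
  have i := h.le4 hD he e1
  have j := card_dvd hD
  rw [h.card] at j
  obtain k | k : ♯D = 3 ∨ ♯D = 4 := by omega
  · rw [k] at j; omega
  · exact k

section
variable (hp : p.Prime) (p2 : p ≠ 2) (n : ∀ b ∈ sharp A, ¬ A ≤ 𝒞 (Op {p} (𝒞₁ b)))
include hp p2 n

theorem ne0 (hb : b ∈ sharp A) : Op {p} (𝒞₁ b) ≠ ⊥ := fun e => n b hb (by rw [e, cent_bot]; exact le_top)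

theorem act (hb : b ∈ sharp A) {X : Subgroup G} (h1 : Op {p} (𝒞₁ b) ≤ X) (h2 : X ⊴ 𝒞₁ b) :
    ¬ 2 < ♯(A ⊓ 𝒞 X) := fun e => n b hb ((h.supV hb (mem_inf.2 ⟨hb.1, le_cent1_iff.1 h2.le⟩) (h.invV hb
  inf_le_left e (le_norm_inf inf_le_left (le_norm_cent (inf_le_right.trans h2.norm))))).trans
    (inf_le_right.trans (cent_anti h1)))

theorem ccC (hb : b ∈ sharp A) : CC (𝒞₁ b) := by
  by_contra e
  obtain ⟨-, m, n1, n2⟩ := comp (h.sy (h.cA hb)) e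
  exact h.act hp p2 n hb (Op_le_Fit hp _) (Fit_nrm _) (two_lt n1.2 n2)

theorem key (hb : b ∈ sharp A) (hc : c ∈ sharp A) (ne : b ≠ c) (he : e ∈ A)
    (hx : x ∈ Op {p} (𝒞₁ b)) (xc : x ∈ 𝒞₁ c) (i : e * x * e = x⁻¹) : x ∈ Op {p} (𝒞₁ c) := by
  have := Fact.mk Nat.prime_two
  by_cases x1 : x = 1
  · exact x1 ▸ one_mem _
  have o : ∀ K : Subgroup G, Odd ♯(Op {p} K) := fun K => odd_p hp p2 (Op_pgroup hp K)
  have ox := (o _).of_dvd_nat (orderOf_dvd hx)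
  have zx := zpowers_le.2 hx
  have b2 := h.sq hb
  have xb := Op_le _ _ hx
  have bD : b ∈ sharp (A ⊓ 𝒞₁ x) := ⟨⟨hb.1, mem_cent1_comm.1 xb⟩, hb.2⟩
  have cD : c ∈ sharp (A ⊓ 𝒞₁ x) := ⟨⟨hc.1, mem_cent1_comm.1 xc⟩, hc.2⟩
  have eD : e ∉ A ⊓ 𝒞₁ x := fun j => x1 (inv_ne ox (SFx.sq1 h.elem he) i (mem_cent1_comm.1 j.2))
  have d4 := h.c4 inf_le_left (two_lt' bD cD ne) he eD
  have cK : 𝒞₁ x ≤ 𝒩 (zpowers x) := cent_zpowers x ▸ cent_le_norm _
  have AK : A ≤ 𝒩 (zpowers x) := fun u hu => by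
    by_cases j : u ∈ A ⊓ 𝒞₁ x
    · exact cK j.2
    · exact mem_normalizer_zpowers_of_inverts (by
        rw [inv_eq_of_mul_eq_one_right (SFx.sq1 h.elem hu)]
        exact inv_tr h.elem hu he (mem_cent1_comm.1
          ((h.hy4 inf_le_left d4).mul u hu e he j eD).2) i)
  have inf := inf_of (zx.trans (Op_le_Fit hp _)) le_rfl
  have xF : zpowers x ≤ Fit (𝒩 (zpowers x)) := le_Fit (cyc_zpowers x).abel.nil (nrm_norm _)
  generalize 𝒩 (zpowers x) = K at cK AK inf xF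
  by_cases k : CC K
  · have t2 : Op {2} (𝒞₁ b) ≠ ⊥ := ne_bot_of_mem (le_Op
      ((piG_single Nat.prime_two).2 (GW.Mx.p2 b2)) ⟨zpowers_le.2 (self_mem_cent1 b),
        le_norm_of_le_cent (cent_zpowers b).ge⟩ (mem_zpowers b)) hb.2
    have t : ∀ s, s.Prime → Op {s} (𝒞₁ b) ≠ ⊥ → Op {s} K ≤ 𝒞₁ b := fun s hs => inf.two h.simple
      (h.co hb) ⟨2, p, Nat.prime_two, hp, p2.symm, t2, h.ne0 hp p2 n hb⟩ hs
    have nb := zpowers_le.2 ((Op_nrm {p} _).norm (h.cA hc hb.1))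
    obtain ⟨y, hy, y1, j⟩ := exists_inv (Y := Op {p} (𝒞₁ c) ⊓ 𝒞₁ x) (odd_of_le (o _) inf_le_left) b2
      (le_norm_inf nb (le_norm_of_le (zpowers_le.2 bD.1.2)) (mem_zpowers b)) fun j =>
      h.act hp p2 n hc le_rfl (Op_nrm _ _) (two_lt' ⟨⟨hb.1, zpowers_le.1 (AxB hp (fun d => p2
        ((Nat.prime_dvd_prime_iff_eq hp Nat.prime_two).1 (GW.Mx.card_zp b2 hb.2 ▸ d)))
        (Op_pgroup hp _) ((Op_pgroup hp _).to_le zx) nb (zpowers_le.2 ((Op_nrm _ _).norm xc))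
        (cent_zpowers x ▸ zpowers_le.2 bD.1.2) (by rwa [cent_zpowers, cent_zpowers]))⟩, hb.2⟩
        ⟨⟨hc.1, le_cent1_iff.1 (Op_le _ _)⟩, hc.2⟩ ne)
    have oy := (o _).of_dvd_nat (orderOf_dvd hy.1)
    refine (y1 (inv_ne oy b2 j (t p hp (h.ne0 hp p2 n hb) (le_Op_of_le_Fit ((Op_pi _ _).mono
      (zpowers_le.2 hy.1)) (zpowers_le.2 (k ⟨cK hy.2, le_cent1_iff.1 (Fit_le_of_forall fun s hs =>
        le_cent1_iff.2 (cen_of b2 oy j ((Op_nrm _ K).norm (cK hy.2)) ?_))⟩)) (mem_zpowers y))))).elim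
    by_cases q : Op {s} (𝒞₁ b) = ⊥
    · refine .inr fun u hu => ?_
      obtain ⟨v, v1, v2, v3⟩ := exists_inv_cent b2 ((Op_nrm _ K).norm (AK hb.1))
        (odd_p hs (fun l => t2 (l ▸ q)) (Op_pgroup hs K)) hu
      rwa [← inv_mul_eq_one.1 (eq_one_of_mem (inf.one' (h.ccC hp p2 n hb) hs q)
        (mem_inf.2 ⟨mul_mem (inv_mem v1) hu, v3⟩))]
    · exact .inl fun u hu => by rw [← mem_cent1.1 (t s hs q hu), mul_assoc, b2, mul_one]
  obtain ⟨s, m, ⟨m1, m2⟩, m3⟩ := comp (h.sy AK) k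
  have l : A ⊓ 𝒞 (Fit K) ≤ A ⊓ 𝒞₁ x := inf_le_inf_left _ (cent_zpowers x ▸ cent_anti xF)
  have q := eq_of_card_le l (by
    rw [d4, h.c4 inf_le_left (two_lt m2 m3) he fun j => eD (l j)])
  rw [q] at s m2 m3
  obtain ⟨g, hg, rfl⟩ := (Zx.tri s (h.elem.abel.mono inf_le_left) le_rfl (h.elem.mono inf_le_left) d4
    m1 m2 m2 m3).tr b bD c cD
  have := conj_mem_cj (g := g) hx
  rwa [cj_Op, cj_cent1, cj_fix (zpowers_le.2 ((cent_zpowers x).le (cent_anti xF m1.2)) hg)] at this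

theorem ibx : False := by
  have o : ∀ K : Subgroup G, Odd ♯(Op {p} K) := fun K => odd_p hp p2 (Op_pgroup hp K)
  have q : ∀ b ∈ sharp A, Op {p} (𝒞 A) ≤ 𝒞₁ b := fun b hb => (Op_le _ _).trans (cent_le_cent1 hb.1)
  have pg : ∀ b ∈ sharp A, IsPGroup p ↥(Op {p} (𝒞₁ b) ⊔ Op {p} (𝒞 A)) := fun b hb =>
    pgroup_sup ((q b hb).trans (Op_nrm _ _).norm) (Op_pgroup hp _) (Op_pgroup hp _)
  have w := T4.sfg G A (fun b => Op {p} (𝒞₁ b) ⊔ Op {p} (𝒞 A)) ⟨h.elem, h.card.ge,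
    fun b hb => odd_p hp p2 (pg b hb), fun b hb => sup_le (Op_le _ _) (q b hb),
    fun b hb => le_norm_sup ((h.cA hb).trans (Op_nrm _ _).norm) (h.elem.abel.trans (Op_nrm _ _).norm),
    fun b hb c hc => by
      by_cases ne : b = c
      · exact ne ▸ inf_le_left
      rw [sup_comm, dedekind_l (q c hc) ((q b hb).trans (Op_nrm _ _).norm)]
      refine sup_le le_sup_right fun u hu => ?_
      obtain ⟨e, he, e1⟩ := ex_out h.elem (by rw [h.card]; omega) hb.1 hc.1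
      obtain ⟨v, v1, v2, v3⟩ := exists_inv_cent (SFx.sq1 h.elem he) (le_norm_inf ((h.cA hb).trans
        (Op_nrm {p} _).norm) (le_norm_of_le (h.cA hc)) he) (odd_of_le (o _) inf_le_left) hu
      have z := mul_mem (inv_mem v1) hu
      rw [← mul_inv_cancel_left v u]
      refine mul_mem_sup (h.key hp p2 n hb hc ne he v1.1 v1.2 v2) (Op_inf_le _ (cent_le_cent1 hb.1)
        ⟨z.1, le_cent1_iff.1 fun a ha => by_contra fun a1 => e1 ?_⟩)
      have bD : b ∈ sharp (A ⊓ 𝒞₁ (v⁻¹ * u)) := ⟨⟨hb.1, mem_cent1_comm.1 (Op_le _ _ z.1)⟩, hb.2⟩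
      have cD : c ∈ sharp (A ⊓ 𝒞₁ (v⁻¹ * u)) := ⟨⟨hc.1, mem_cent1_comm.1 z.2⟩, hc.2⟩
      have m1 := mem_sup_left (T := zpowers c) (mem_zpowers b)
      have m2 := mem_sup_right (S := zpowers b) (mem_zpowers c)
      rcases (kl_of (h.elem.mono inf_le_left) (h.c4 inf_le_left (two_lt' bD cD ne) ha
        fun j => a1 j.2) bD cD ne).cases e ⟨he, mem_cent1_comm.1 v3⟩ with rfl | rfl | rfl | rfl
      exacts [one_mem _, m1, m2, mul_mem m1 m2]⟩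
  have l : ∀ b ∈ sharp A, Op {p} (𝒞₁ b) ≤ _ := fun b hb => le_sup_left.trans (SFx.le_Gn (A := A)
    (θ := fun b => Op {p} (𝒞₁ b) ⊔ Op {p} (𝒞 A)) hb)
  generalize SFx.Gn A _ = W at w l
  have pW : IsPGroup p W := (piG_single hp).1 fun s hs d => by_contra fun ne => by
    have := Fact.mk hs
    obtain ⟨T, t1, t2⟩ := (SFx.caE h.elem w.odd w.inv).exists_syl hs
    exact t1.ne_bot d (eq_bot_iff.2 (SFx.gen1 h.elem (by rw [h.card]; omega) (odd_of_le w.odd t1.le)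
      t2 fun b hb => (le_inf inf_le_left ((inf_le_inf_right _ t1.le).trans (w.le b hb))).trans
        (inf_eq_bot_of_cop (cop_of_pgroups hs hp ne t1.isPGroup (pg b hb))).le))
  obtain ⟨a, ha, -⟩ := ex_ne h.elem (by rw [h.card]; omega) (one_mem A)
  refine n a ha fun b hb => cent_anti (l a ha) ?_
  by_cases b1 : b = 1
  · exact b1 ▸ one_mem _
  refine zpowers_le.1 ((nil_of_pgroup hp pW).cent_of_cent_stab (zpowers_le.2 (w.inv hb))
    (cop_two w.odd (GW.Mx.p2 (h.sq ⟨hb, b1⟩))) ?_)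
  rw [cent_zpowers]
  exact inf_le_right.trans ((cent_anti (le_inf (l b ⟨hb, b1⟩) (Op_le _ _))).trans ((cent_le_norm _).trans
    (norm_eq h.simple (h.co ⟨hb, b1⟩) (h.ne0 hp p2 n ⟨hb, b1⟩) (Op_nrm _ _)).le))

end

theorem ia (ha : a ∈ sharp A) : A ≤ 𝒞 (O2 (𝒞₁ a)) :=
  cent_of_cent_Fit (solvable_of_odd _ (odd_O2 _)) ((h.cA ha).trans (Op_nrm _ _).norm)
    (SFx.cop2 h.elem (odd_O2 _)) (cent_symm (Fit_le_of_forall fun q hq => by
      by_cases e : q = 2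
      · rw [e, eq_bot_of_le (inf_eq_bot_of_cop (cop_two (odd_O2 _) (Op_pgroup Nat.prime_two _)))
          (le_inf (Op_le _ _) le_rfl)]
        exact bot_le
      refine (Op_le_Op_of_nrm _ (Op_nrm _ _)).trans (cent_symm (by_contra fun i =>
        h.ibx hq e fun b hb j => i ?_))
      obtain ⟨n, hn, rfl⟩ := h.tr a ha.1 b hb.1 ha.2 hb.2
      rwa [← cj_cent1, ← cj_Op, ← cj_cent, ← cj_eq_of_mem_norm hn, cj_le_cj_iff] at j))

theorem o2 (ha : a ∈ sharp A) : O2 (𝒞₁ a) = ⊥ := by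
  by_contra e
  obtain ⟨p, hp, e1⟩ := exists_Op_ne_bot (solvable_of_odd _ (odd_O2 _)) e
  have := Fact.mk hp
  have p2 : p ≠ 2 := fun i => e1 (eq_bot_of_le (inf_eq_bot_of_cop (cop_two (odd_O2 _)
    (Op_pgroup Nat.prime_two _))) (le_inf (Op_le _ _) (by rw [i])))
  have nQ := (norm_le_norm_cent A).trans (norm_le_norm_Op {p} _)
  have cQ : 𝒞 (Op {p} (𝒞 A)) ≤ 𝒞 A := cent_symm fun b hb => by
    by_cases b1 : b = 1
    · exact b1 ▸ one_mem _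
    have nr := (Op_nrm {2}ᶜ (𝒞₁ b)).Op {p}
    refine le_cent1_iff.1 ((cent_anti (le_Op (Op_pi _ _) (nr.mono ((Op_le _ _).trans
      (cent_symm (h.ia ⟨hb, b1⟩))) (cent_le_cent1 hb)))).trans ((cent_le_norm _).trans
      (norm_eq h.simple (h.co ⟨hb, b1⟩) ?_ nr).le))
    obtain ⟨n, -, rfl⟩ := h.tr a ha.1 b hb ha.2 b1
    rw [← cj_cent1, ← cj_Op, ← cj_Op]
    exact cj_ne_bot e1 n
  have k : ∀ b ∈ sharp A, ∃ ρ ∈ opMod p (𝒩 A) (𝒞 (Op {p} (𝒞 A))), Rh A b ρ := fun b hb => by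
    obtain ⟨L, l1, -, -, l2, l3, -⟩ := h.loc2 hb
    obtain ⟨ρ, ⟨r1, r2⟩, r⟩ := l2 _ (Op_nrm {2}ᶜ _).cent (le_inf (h.cA hb) (h.ia hb))
    have i := comm_le_left ((zpowers_le.2 r.nA).trans nQ)
    refine ⟨ρ, stableIn_of_not_involves p2 (qdf h.syl h.elem hp p2 _) _
      ((Op_le _ _).trans (cent_le_norm A)) nQ (Op_pgroup hp _) ρ r.nA (comm_eq_bot_iff.2
        (zpowers_le.2 (cent_anti (fun x hx => ?_) r1.2))), r⟩
    exact l3 x (comm_le_of_le_of_norm (zpowers_le.2 r2) ((Op_le _ _).trans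
      ((cent_le_cent1 hb.1).trans l1.norm)) hx) (Op_le _ _ (i hx))
      ((odd_p hp p2 (Op_pgroup hp _)).of_dvd_nat (orderOf_dvd (i hx)))
  have nC := le_norm_cent nQ
  by_cases p3 : p = 3
  · obtain ⟨S, hS⟩ := exists_syl hp (opMod p (𝒩 A) (𝒞 (Op {p} (𝒞 A))))
    obtain ⟨c, hc, c1⟩ := exists_ne_one (show A ⊓ 𝒞 S ≠ ⊥ from fun i => by
      have := card_modEq_cent hp hS.isPGroup (hS.le.trans (opMod_le _ _ _))
      rw [i, card_bot', h.card, p3] at this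
      exact absurd this (by decide))
    obtain ⟨b, hb, ne⟩ := ex_ne h.elem (by rw [h.card]; omega) hc.1
    obtain ⟨ρ, r1, r⟩ := k b hb
    obtain ⟨u, hu, v, hv, rfl⟩ := exists_mul_of_cop_ri hS.le (inf_le_right (a := 𝒞 (Op {p} (𝒞 A))))
      (by rw [inf_relIndex_right]
          exact ((piNat_ri_opMod hp nC).cop ((piNat_compl_single hp).2 hS.not_dvd)).symm) r1
    exact ne (h.fix hb r ⟨hc.1, c1⟩ (mul_mem (le_cent1_iff.2 hc.2 hu) (cent_le_cent1 hc.1 (cQ hv.1))))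
  obtain ⟨ρ, r1, r⟩ := k a ha
  obtain ⟨j, i⟩ := pow_mem_of_mem_opMod nC r1
  exact r.nc (mem_of_pow_mem (((Nat.coprime_primes hp Nat.prime_three).2 p3).pow_left j)
    (cent_anti VV_le (cQ i)) (h.tri ha r).cube)

theorem fin (hJ : GW2.JT2) : IsGoldschmidtGroup G := by
  have := Fact.mk Nat.prime_two
  obtain ⟨a, ha, -⟩ := ex_ne h.elem (by rw [h.card]; omega) (one_mem A)
  obtain ⟨L, l1, l2, l3, -, -, l4⟩ := h.loc2 ha
  have cA := h.cA ha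
  have s := h.sy cA
  have t := l4 (h.o2 ha)
  have sL : IsSyl 2 (VV A a) L := l2 ▸ s.inf l1.le (cA.trans l1.norm)
  obtain ⟨sm, -, -⟩ := two_facts t sL h.eV
  obtain ⟨F, _, _, q5, q8, φ⟩ := t
  obtain ⟨Q, _, _, f, hf, hk⟩ := exists_quo (der_nrm (𝒞₁ a))
  have sd := npc_sd Nat.prime_two (((abel_down_iff (f := f) le_rfl).2 hk.ge).nil.npc Nat.prime_two)
    (s.down f le_rfl)
  have nE : up f (O2 (down f (𝒞₁ a))) ⊴ 𝒞₁ a := nrm_up le_rfl (up_le _ _) (Op_nrm _ _)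
  have LE : L ≤ up f (O2 (down f (𝒞₁ a))) :=
    sm.perfect.ge.trans ((der_mono l1.le).trans (hk.ge.trans (ker_le_up _ _)))
  have AE : A ⊓ up f (O2 (down f (𝒞₁ a))) = VV A a := le_antisymm (le_inf inf_le_left (by
    rw [← hk, ← down_eq_bot_iff (inf_le_left.trans cA), down_inf_up, inf_comm, sd.inf]))
    (l2 ▸ inf_le_inf_left _ LE)
  have sup : zpowers a ⊔ up f (O2 (down f (𝒞₁ a))) = 𝒞₁ a := by
    have z := zpowers_le.2 (self_mem_cent1 a)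
    refine le_antisymm (sup_le z nE.le) (le_of_down_le le_rfl (sup_le z nE.le)
      ((ker_le_up _ _).trans le_sup_right) (sd.sup.ge.trans (sup_le ?_ (down_mono f
        (h.supV ha (mem_sup_left (mem_zpowers a)) (AE.ge.trans (inf_le_right.trans le_sup_right)))))))
    exact (down_up hf _).ge.trans (down_mono f le_sup_right)
  generalize up f (O2 (down f (𝒞₁ a))) = E at nE LE AE sup
  have o : orderOf a = 2 := h.elem.orderOf_eq Nat.prime_two ha.1 ha.2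
  have i : Odd (𝒞₁ a).index := Nat.not_even_iff_odd.1 fun e => h.syl.not_dvd
    (e.two_dvd.trans (relIndex_top_right A ▸ index_dvd_of_le cA))
  have d : IsInternalDirectProduct (zpowers a) E (𝒞₁ a) := ⟨sup ▸ le_sup_left, nE.le,
    fun x hx y hy => mem_cent.1 (cent_zpowers a ▸ nE.le hy) x hx, eq_bot_iff.2 fun x hx =>
      (Ux.zpow_cases (h.elem.pow ha.1) hx.1).resolve_right fun e => h.aV ha (AE.le ⟨ha.1, e ▸ hx.2⟩),
    sup⟩
  have sE : IsSyl 2 (VV A a) E := AE ▸ s.inf nE.le (cA.trans nE.norm)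
  have nr := nE.inf_cent l1.norm
  obtain rfl := hJ G h.simple h.nab a E L F o i d (l1.mono LE nE.le) (eq_bot_of_le (h.o2 ha)
    (le_Op_compl Nat.prime_two ((syl_inf_eq_bot_iff Nat.prime_two s nr).1 (eq_bot_of_le sm.ctr (by
      rw [← inf_assoc, AE]; exact inf_le_inf_right _ sL.le))) nr))
    (Nat.not_even_iff_odd.1 fun e => sE.not_dvd (e.two_dvd.trans ⟨_, (ri_mul sL.le LE).symm.trans
      (mul_comm _ _)⟩)) q5 q8 φ
  exact (jt G h.simple h.nab a E F o i d q5 q8 φ).elim .inl fun e => .inr (.inr (.inr (.inr (.inr e))))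

end Zc

/-- **W8a** -/
theorem w8a : T4.W8a' := fun hJ _ _ _ _ h => or_iff_not_imp_left.2 fun e => Zc.fin ⟨h, e⟩ hJ

end Cfsg.GS.Zx
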