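import Cfsg.Agent.GS.E1

/-! Goldschmidt's `2`-signalizer functor theorem, part 2: points `a` with `θ a` not maximal. -/

set_option autoImplicit false
set_option linter.unusedSectionVars false

namespace Cfsg.GS.SFx

open Subgroup Cfsg.L0 Cfsg.H8 Cfsg.FT Cfsg.BS Cfsg.BS.R Cfsg.GS.T3 Cfsg.GW.Mx
open scoped commutatorElement

variable {G : Type} [Group G] [Finite G] {A B H K L M P U V W X Y : Subgroup G}
  {θ : G → Subgroup G} {a b c : G} {p q r : ℕ}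

theorem Cov.pg (h : Cov A θ {r}ᶜ L) (hq : q.Prime) (ne : q ≠ r) (hU : In A θ U) (h1 : IsPGroup q U)
    (h2 : Dd A θ ≤ 𝒩 U) : U ≤ L := h U hU (piG_of_pgroup hq h1 ne) h2

theorem Cov.op (h : Cov A θ {r}ᶜ L) (hq : q.Prime) (ne : q ≠ r) (hH : In A θ H) (h2 : Dd A θ ≤ H) :
    Op {q} H ≤ L := h.pg hq ne (hH.Op _) (Op_pgroup hq H) (h2.trans (Op_nrm _ H).norm)

theorem comm_self (ha : a * a = 1) (ho : Odd ♯V) (hn : a ∈ 𝒩 V) (h : V ⊓ 𝒞₁ a = ⊥) :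
    ⁅V, zpowers a⁆ = V := (BS.R.ca2 ha hn ho).comm_eq_of_cent (cent_zpowers a ▸ h)

theorem cent_pq (hp : p.Prime) (hq : q.Prime) (ne : p ≠ q) (h1 : IsPGroup p U) (h2 : IsPGroup q V)
    (a1 : X ≤ U) (a2 : X ≤ 𝒩 V) (b1 : Y ≤ V) (b2 : Y ≤ 𝒩 U) : X ≤ 𝒞 Y :=
  comm_eq_bot_iff'.1 (eq_bot_of_le (inf_eq_bot_of_cop (cop_of_pgroups hp hq ne h1 h2))
    (le_inf (comm_le_of_le_of_norm' a1 b2) (comm_le_of_le_of_norm b1 a2)))

theorem Fn.four (h : Fn A θ) (hK : In A θ K) (hb : b ∈ A) (hc : c ∈ A) (h1 : K ⊓ 𝒞₁ c ≤ W)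
    (h2 : K ⊓ 𝒞₁ (b * c) ≤ W) : ⁅K, zpowers b⁆ ≤ W :=
  (fourG (sq1 h.elem hb) (sq1 h.elem hc) (h.elem.abel.comm hb hc) hK.odd (hK.inv hb) (hK.inv hc)).trans
    (sup_le ((comm_le_left (zpowers_le.2 ((hK.c1 h hc).inv hb))).trans h1)
      ((comm_le_left (zpowers_le.2 ((hK.c1 h (mul_mem hb hc)).inv hb))).trans h2))

namespace Mc
variable (h : Mc A θ)
include h

theorem exL (hr : r.Prime) (hU : In A θ U) (h1 : r ∣ ♯U) :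
    ∃ L, Ma A θ L ∧ Dd A θ ≤ L ∧ Cov A θ {r}ᶜ L := by
  obtain ⟨W, w1, -, w3, w4⟩ := h.exW {r}ᶜ r U hr (by simp) hU h1
  obtain ⟨L, l1, l2⟩ := In.ma (A := A) (θ := θ) (U := W ⊔ Dd A θ)
    ⟨(w1.odd.mul h.inD.odd).of_dvd_nat (card_sup_dvd w3), le_norm_sup w1.inv h.inD.inv, fun a ha => by
      rw [sup_comm, dedekind_l (Dd_c1 ha.1) w3]
      exact sup_le (Dd_le ha) (w1.le a ha)⟩
  exact ⟨L, l2, le_sup_right.trans l1, fun U a b c => (w4 U a b c).trans (le_sup_left.trans l1)⟩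

theorem t7 (hb : b ∈ sharp A) (hT : Ma A θ (θ b)) (hr : r.Prime) (h0 : Op {r} (θ b) ≠ ⊥)
    (hP : In A θ P) (h1 : IsPGroup r P) (h2 : Op {r} (θ b) ≤ 𝒩 P) : P ≤ 𝒞₁ b := by
  by_cases e : P = ⊥
  · simp [e]
  have c := cent_zpowers b ▸ h.cen b hb
  have i := le_norm_Op {r} hT.inv
  refine cent_zpowers b ▸ cent_symm (AxB hr (fun d => ?_) h1 (Op_pgroup hr _)
    (zpowers_le.2 (hP.inv hb.1)) h2 (cent_symm ((Op_le _ _).trans c))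
    (((h.no hT h0 (Op_nrm _ _) i).cent (hP.infc i) inf_le_right).trans c))
  exact hr.ne_one (Nat.eq_one_of_dvd_coprimes (h.cop hb.1 hP.odd) (dvd_card_of_pgroup hr h1 e) d)

theorem t7' (hb : b ∈ sharp A) (hT : Ma A θ (θ b)) (hr : r.Prime) (h0 : Op {r} (θ b) ≠ ⊥)
    (hc : c ∈ sharp A) : Op {r} (θ c) ≤ θ b := by
  obtain ⟨P, p1, p2, -, p4⟩ := h.exP hr
  have k := fun c (hc : c ∈ sharp A) => p4 _ ((h.self hc).Op _) (Op_pgroup hr _)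
    ((Dd_le hc).trans (Op_nrm _ _).norm)
  exact (le_inf le_rfl ((k c hc).trans (h.t7 hb hT hr h0 p1 p2 (le_norm_of_le (k b hb))))).trans
    (((h.self hc).Op _).le b hb)

theorem t77 (hb : b ∈ sharp A) (hc : c ∈ sharp A) (ne : b ≠ c) (h1 : Ma A θ (θ b))
    (h2 : Ma A θ (θ c)) (hr : r.Prime) : Op {r} (θ b) ⊓ Op {r} (θ c) = ⊥ := by
  by_contra e
  have k : ∀ {b c}, b ∈ sharp A → c ∈ sharp A → Ma A θ (θ c) → Op {r} (θ c) ≠ ⊥ →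
      θ b ≤ 𝒩 (Op {r} (θ b) ⊓ Op {r} (θ c)) := fun {b c} hb hc h2 e => by
    refine (BS.R.ca2 (sq1 h.elem hc.1) (h.inv b hb hc.1) (h.odd b hb)).comm_sup_cent.ge.trans (sup_le
      (le_norm_of_cent (comm_le_of_le_of_norm ?_ (le_norm_cent (Op_nrm _ _).norm)) inf_le_left)
      (le_norm_inf (inf_le_left.trans (Op_nrm _ _).norm) ?_))
    · exact cent_symm (cent_zpowers c ▸ (h.t7' hc h2 hr e hb).trans (h.cen c hc))
    · exact (cent_zpowers c ▸ h.bal b hb c hc).trans (Op_nrm _ _).norm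
  obtain ⟨W, w1, w2⟩ := h.lc _ ((h1.1.Op _).sub inf_le_left (le_norm_inf (h1.1.Op _).inv (h2.1.Op _).inv)) e
  exact h.g2 b hb c hc ne W w1 (w2 _ h1.1 (k hb hc h2 (ne_bot_of_le e inf_le_right)))
    (w2 _ h2.1 (inf_comm (Op {r} (θ b)) _ ▸ k hc hb h1 (ne_bot_of_le e inf_le_left)))

end Mc

/-- a point `a` with `θ a` not maximal -/
structure S8 (A : Subgroup G) (θ : G → Subgroup G) (a : G) (M : Subgroup G) (p : ℕ) : Prop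
    extends Mc A θ where
  ha : a ∈ sharp A
  hM : Ma A θ M
  hp : p.Prime
  le : θ a ≤ M
  ne : ⁅Op {p} M, zpowers a⁆ ≠ ⊥
  no : No A θ ⁅Op {p} M, zpowers a⁆ M

theorem Mc.step8 (h : Mc A θ) (ha : a ∈ sharp A) (hM : ¬ Ma A θ (θ a)) : ∃ M p, S8 A θ a M p := by
  have za := zpowers_le.2 ha.1
  obtain ⟨M, m1, m2⟩ := (h.self ha).ma
  obtain ⟨p, hp, e⟩ : ∃ p, p.Prime ∧ ⁅Op {p} M, zpowers a⁆ ≠ ⊥ := by
    by_contra! c
    refine hM (le_antisymm m1 ((le_inf le_rfl ?_).trans (m2.le a ha)) ▸ m2)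
    exact cent_zpowers a ▸ cent_symm (cent_of_cent_Fit (h.sol m2.1) (za.trans m2.inv)
      (h.cop ha.1 m2.odd) (cent_symm (Fit_le_of_forall fun r hr => comm_eq_bot_iff'.1 (c r hr))))
  obtain ⟨_, ⟨L, l1, l2, rfl⟩, hmax⟩ := exists_max_card' (S := fun Y => ∃ M, θ a ≤ M ∧ Ma A θ M ∧
    ⁅Op {p} M, zpowers a⁆ = Y) ⟨_, M, m1, m2, rfl⟩
  have y0 : ⁅Op {p} L, zpowers a⁆ ≠ ⊥ := ne_bot_of_card ((one_lt_card e).trans_le
    (hmax _ ⟨M, m1, m2, rfl⟩)).ne'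
  have o := l2.1.Op {p}
  have y1 := comm_le_left (za.trans o.inv)
  have y2 := o.sub y1 (le_norm_comm o.inv (h.nz ha.1))
  have y3 : θ a ≤ 𝒩 ⁅Op {p} L, zpowers a⁆ := le_norm_comm (l1.trans (Op_nrm _ L).norm)
    (le_norm_of_le_cent (cent_zpowers a ▸ h.cen a ha))
  obtain ⟨N, n1, n2⟩ := h.exN y2 y0
  have n3 := n2 _ (h.self ha) y3
  have := k1 (h.sol n1.1) n1.odd (sq1 h.elem ha.1) (n1.inv ha.1) hp ((Op_pgroup hp L).to_le y1)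
    (n2 _ y2 (le_norm _)) (y2.inv ha.1) ((n1.le a ha).trans y3)
  have c := comm_comm (za.trans o.inv) (h.cop ha.1 o.odd)
  rw [c] at this
  have e := eq_of_card_le (c.ge.trans (comm_mono this le_rfl)) (hmax _ ⟨N, n3, n1, rfl⟩)
  exact ⟨N, p, h, ha, n1, hp, n3, e ▸ y0, e ▸ n2⟩

namespace S8
variable (h : S8 A θ a M p)
include h

theorem aa : a * a = 1 := sq1 h.elem h.ha.1

theorem iP : In A θ (Op {p} M) := h.hM.1.Op _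

theorem iQ : In A θ (Op {p}ᶜ (Fit M)) := h.hM.1.sub ((Op_le _ _).trans (Fit_le M))
  (le_norm_Op _ (h.hM.inv.trans (norm_le_norm_Fit M)))

theorem DM : Dd A θ ≤ M := (Dd_le h.ha).trans h.le

theorem Yle : ⁅Op {p} M, zpowers a⁆ ≤ Op {p} M := comm_le_left (zpowers_le.2 (h.iP.inv h.ha.1))

theorem iY : In A θ ⁅Op {p} M, zpowers a⁆ := h.iP.sub h.Yle (le_norm_comm h.iP.inv (h.nz h.ha.1))

theorem P0 : Op {p} M ≠ ⊥ := ne_bot_of_le h.ne h.Yle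

theorem PQ : Op {p} M ≤ 𝒞 (Op {p}ᶜ (Fit M)) := Op_Fit h.hp M ▸ Op_cent disjoint_compl_right _

theorem fpf (hV : In A θ V) (h0 : V ⊓ M = ⊥) : V ⊓ 𝒞₁ a = ⊥ :=
  eq_bot_of_le h0 (le_inf inf_le_left ((hV.le a h.ha).trans h.le))

theorem kk (hL : In A θ L) (h1 : X ≤ Op {p} M) (h2 : X ≤ L) : ⁅X, zpowers a⁆ ≤ Op {p} L :=
  (comm_mono (le_inf h1 h2) le_rfl).trans (k1 (h.sol hL) hL.odd h.aa (hL.inv h.ha.1) h.hp
    (Op_pgroup h.hp M).to_inf_left inf_le_right (le_norm_inf h.iP.inv hL.inv h.ha.1) (le_norm_inf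
      (((hL.le a h.ha).trans h.le).trans (Op_nrm _ M).norm) (le_norm_of_le inf_le_left)))

theorem u2 {l : ℕ} (hL : In A θ L) (hi : Inf M L) (hl : l.Prime) (h0 : Op {l} M = ⊥) :
    Op {l} L ⊓ M = ⊥ ∧ ⁅L, zpowers a⁆ ≤ 𝒞 (Op {l} L) :=
  have l4 := hi.one' (cent_Fit_le (h.sol h.hM.1)) hl h0
  have o := hL.Op {l}
  ⟨l4, inv_cent h.aa o.odd (o.inv h.ha.1) (h.fpf o l4) (Op_nrm _ L).norm⟩

theorem u3 (h0 : X ≠ ⊥) (h1 : X ≤ Op {p}ᶜ (Fit M)) (h2 : A ≤ 𝒩 X) : No A θ X M := by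
  obtain ⟨L, l1, l2⟩ := h.exN (h.iQ.sub h1 h2) h0
  have i := l2.inf h.hM.1 (h1.trans (Op_le _ _)) h2
  refine h.bender i h.hM l1 h.DM (fun l hl e => ?_) ▸ l2
  obtain ⟨l4, l5⟩ := h.u2 l1.1 i hl e
  refine eq_bot_of_le l4 (le_inf le_rfl (h.no.cent (l1.1.Op _) (cent_symm (le_trans ?_ l5))))
  exact (comm_comm (zpowers_le.2 (h.iP.inv h.ha.1)) (h.cop h.ha.1 h.iP.odd)).ge.trans
    (comm_mono (l2.cent h.iY (h.Yle.trans (h.PQ.trans (cent_anti h1)))) le_rfl)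

theorem dich (hr : r.Prime) (ne : p ≠ r) (hL : Ma A θ L) (hD : Dd A θ ≤ L) (hc : Cov A θ {r}ᶜ L) :
    Op {p} L ≠ ⊥ ∧ (M = L ∨ (Op {r} M ≠ ⊥ ∧ Op {r} M ⊓ L = ⊥)) := by
  have y := h.kk hL.1 le_rfl (hc.op h.hp ne h.hM.1 h.DM)
  have i := h.no.inf hL.1 (y.trans (Op_le_Fit h.hp L)) h.iY.inv
  refine ⟨ne_bot_of_le h.ne y, or_iff_not_imp_left.2 fun e => ?_⟩
  obtain ⟨q, hq, q1, q2⟩ : ∃ q, q.Prime ∧ Op {q} L = ⊥ ∧ Op {q} M ≠ ⊥ := by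
    by_contra! c
    exact e (h.bender i hL h.hM hD c)
  have o := i.one' (cent_Fit_le (h.sol hL.1)) hq q1
  obtain rfl : q = r := not_not.1 fun n =>
    q2 (eq_bot_of_le o (le_inf le_rfl (hc.op hq n h.hM.1 h.DM)))
  exact ⟨q2, o⟩

/-- uniqueness for `θ(A)`-invariant subgroups of `O_p(M)` -/
theorem ud (hQ : Op {p}ᶜ (Fit M) ≠ ⊥) (h0 : X ≠ ⊥) (h1 : X ≤ Op {p} M) (h2 : A ≤ 𝒩 X)
    (h3 : Dd A θ ≤ 𝒩 X) : No A θ X M := by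
  obtain ⟨L, hL, l2⟩ := h.exN (h.iP.sub h1 h2) h0
  have hi := l2.inf h.hM.1 (h1.trans (Op_le_Fit h.hp M)) h2
  refine h.bender hi h.hM hL h.DM (fun l hl e => not_not.1 fun R0 => ?_) ▸ l2
  obtain ⟨RM, l4⟩ := h.u2 hL.1 hi hl e
  have iQ := h.iQ
  have QL := l2.cent iQ (cent_symm (h1.trans h.PQ))
  have iR := hL.1.Op {l}
  have pR := Op_pgroup hl L
  have nR := (Op_nrm {l} L).norm
  have RL := Op_le {l} L
  have dR := (l2 _ h.inD h3).trans nR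
  have pl : p ≠ l := fun q => h.P0 (q ▸ e)
  have lQ : ¬ l ∣ ♯(Op {p}ᶜ (Fit M)) := fun d => (Op_syl_Fit hl M).ne_bot (hp := ⟨hl⟩)
    (d.trans (card_dvd (Op_le _ _))) e
  obtain ⟨r, hr, rp, r0⟩ : ∃ r, r.Prime ∧ p ≠ r ∧ Op {r} M ≠ ⊥ := by
    by_contra! c
    exact hQ (Op_eq_bot_of_forall (Fit_nil M).sol fun q a b => (Op_Fit a M).trans (c q a (Ne.symm b)))
  have rQ := Op_le_compl hr h.hp rp.symm M
  have lr : l ≠ r := fun q => r0 (q ▸ e)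
  have u3 := fun X => h.u3 (X := X)
  have nQ : M ≤ 𝒩 (Op {p}ᶜ (Fit M)) := ((Fit_nrm M).Op _).norm
  generalize Op {l} L = R at *
  generalize Op {p}ᶜ (Fit M) = Q at *
  have fa := h.fpf iR RM
  have ab := abel_of_fpf h.aa iR.odd (iR.inv h.ha.1) fa
  have QR := QL.trans nR
  have fR : ∀ X, X ≠ ⊥ → X ≤ Q → A ≤ 𝒩 X → R ⊓ 𝒞 X = ⊥ := fun X a b c =>
    eq_bot_of_le RM (le_inf inf_le_left ((u3 X a b c).cent (iR.infc c) inf_le_right))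
  have cR : ∀ K, K ≤ 𝒩 Q → A ≤ 𝒩 K → ⁅Q, K⁆ ≤ 𝒞 R → K ≤ 𝒞 Q := fun K a b c =>
    comm_eq_bot_iff.1 (not_not.1 fun q => R0 (eq_bot_of_le
      (fR _ q (comm_le_left a) (le_norm_comm iQ.inv b)) (le_inf le_rfl (cent_symm c))))
  have aQ := cR _ (zpowers_le.2 (iQ.inv h.ha.1)) (h.nz h.ha.1) ((comm_mono QL le_rfl).trans l4)
  have cR' : ∀ K, K ≤ M → A ≤ 𝒩 K → K ≤ 𝒞 R → K ≤ 𝒞 Q := fun K a b c =>
    cR K (a.trans nQ) b (comm_le_of_le_of_norm c (le_norm_cent QR))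
  have cM : Cov A θ {l}ᶜ M := by
    obtain ⟨N, n1, n2, n3⟩ := h.exL hl iR (dvd_card_of_pgroup hl pR R0)
    exact ((h.dich hl pl n1 n2 n3).2.resolve_right fun q => q.1 e) ▸ n3
  obtain ⟨N, hN, dN, cN⟩ := h.exL hr (h.hM.1.Op _) (dvd_card_of_pgroup hr (Op_pgroup hr M) r0)
  have RN := cN.pg hl lr iR pR dR
  obtain ⟨P0, rN⟩ := h.dich hr rp hN dN cN
  replace rN := (rN.resolve_left fun q => R0 (eq_bot_of_le RM (le_inf le_rfl (q ▸ RN)))).2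
  have nZ := (Op_nrm {p} N).ctr.norm
  have iZ := (hN.1.Op {p}).sub inf_le_left ((hN.1.Op {p}).inv.trans (norm_le_norm_ctr _))
  have pZ : IsPGroup p ↥(𝒵 (Op {p} N)) := (Op_pgroup h.hp N).to_inf_left
  have aZ : Abel (𝒵 (Op {p} N)) := inf_le_right.trans (cent_anti inf_le_left)
  have ZQ : ¬ 𝒵 (Op {p} N) ≤ 𝒞 Q := fun q => r0 (eq_bot_of_le rN (le_inf le_rfl
    ((h.noZ hN h.hp P0).cent (h.hM.1.Op _) (rQ.trans (cent_symm q)))))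
  generalize 𝒵 (Op {p} N) = Z at *
  have ZM := cM.pg h.hp pl iZ pZ (dN.trans nZ)
  have RZ := RN.trans nZ
  have cZ := cop_of_pgroups h.hp hl pl pZ pR
  have ce : ∀ {V X}, V ≤ R → X ≤ Q → X ≤ 𝒩 V → A ≤ 𝒩 X → X ≠ ⊥ → ⁅V, X⁆ = V := fun a b c d e =>
    (mkCA_p' hl c (pR.to_le a) fun q => lQ (q.trans (card_dvd b))).comm_eq_of_cent
      (eq_bot_of_le (fR _ e b d) (inf_le_inf_right _ a))
  have s3 : ∀ b ∈ sharp A, Q ⊓ 𝒞₁ b ≠ ⊥ → R ⊓ 𝒞₁ b ≤ 𝒞 (Z ⊓ 𝒞₁ b) := fun b hb q0 => by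
    by_cases v0 : R ⊓ 𝒞₁ b = ⊥
    · simp [v0]
    have iH := h.self hb
    have VH := iR.le b hb
    have QH := iQ.le b hb
    have nc : ∀ {K : Subgroup G}, K ⊓ 𝒞₁ b ≤ 𝒩 (𝒞₁ b) := fun {_} => le_norm_of_le inf_le_right
    have VZ := le_norm_inf (inf_le_left.trans RZ) nc
    have UH := comm_le_sup (Z ⊓ 𝒞₁ b) (R ⊓ 𝒞₁ b) |>.trans (sup_le (iZ.le b hb) VH)
    have k : ∀ u, u.Prime → u ≠ l → R ⊓ 𝒞₁ b ≤ 𝒞 (Op {u} (θ b)) := fun u hu ne => by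
      have nO := (Op_nrm {u} (θ b)).norm
      have o : Op {u} (θ b) ⊓ Q = ⊥ := not_not.1 fun q => v0 (eq_bot_of_le (fR _ q inf_le_right
        (le_norm_inf (iH.Op _).inv iQ.inv)) (le_inf inf_le_left (cent_pq hl hu ne.symm pR
          (Op_pgroup hu _) inf_le_left (VH.trans nO) inf_le_left (inf_le_right.trans QR))))
      rw [← ce inf_le_left inf_le_left (le_norm_inf (inf_le_left.trans QR) nc) (iQ.c1 h.toFn hb.1).inv q0]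
      refine comm_le_of_le_of_norm (comm_eq_bot_iff.1 (eq_bot_of_le o (le_inf
        (comm_le_left (QH.trans nO)) (comm_le_of_le_of_norm inf_le_left ?_)))) (le_norm_cent (VH.trans nO))
      exact (cM.op hu ne iH (Dd_le hb)).trans nQ
    have UZ := (comm_le_left VZ).trans inf_le_left
    have f : ⁅Z ⊓ 𝒞₁ b, R ⊓ 𝒞₁ b⁆ ≤ Op {p} (θ b) := le_Op_of_le_Fit ((piG_single h.hp).2 (pZ.to_le UZ))
      ((le_inf UH (cent_symm (Fit_le_of_forall fun u hu => cent_symm (by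
        by_cases ne : u = l
        · exact ne ▸ cent_pq h.hp hl pl pZ (Op_pgroup hl _) UZ (UH.trans (Op_nrm _ _).norm) le_rfl
            ((cN.op hl lr iH (Dd_le hb)).trans nZ)
        · exact comm_le_of_le_of_norm (k u hu ne)
            (le_norm_cent ((iZ.le b hb).trans (Op_nrm _ _).norm)))))).trans (cent_Fit_le (h.sol iH)))
    exact cent_of_comm_cent VZ (cop_mono cZ inf_le_left inf_le_left) ((k p h.hp pl).trans (cent_anti f))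
  have s4 : ∀ b ∈ sharp A, b ∉ 𝒞 Q → R ⊓ 𝒞₁ b ≤ 𝒞 (Z ⊓ 𝒞₁ b) → R ⊓ 𝒞₁ b ≤ 𝒞 Z := fun b hb q1 q2 => by
    have VZ := (inf_le_left : R ⊓ 𝒞₁ b ≤ R).trans RZ
    have z0 := aZ.comm_inf_cent VZ (cop_mono cZ le_rfl inf_le_left)
    have i1 := iZ.cm (iR.c1 h.toFn hb.1).inv VZ
    have l1 := comm_le_left VZ
    have n1 : R ≤ 𝒩 ⁅Z, R ⊓ 𝒞₁ b⁆ := le_norm_comm RZ (ab.le_norm inf_le_left)
    suffices e : ⁅Z, R ⊓ 𝒞₁ b⁆ ≤ 𝒞 (R ⊓ 𝒞₁ b) from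
      comm_eq_bot_iff.1 (eq_bot_of_le z0 (le_inf le_rfl e))
    generalize ⁅Z, R ⊓ 𝒞₁ b⁆ = Y at z0 i1 l1 n1
    have bb := sq1 h.elem hb.1
    have i2 := iR.c1 h.toFn (mul_mem hb.1 h.ha.1)
    have v2 : R ⊓ 𝒞₁ (b * a) ≤ 𝒞 Y := (comm_self bb i2.odd (i2.inv hb.1) (eq_bot_of_le fa
      (le_inf (inf_le_left.trans inf_le_left) (le_cent1_iff.2 ((mul_mem_cancel_left (le_cent1_iff.1
        inf_le_right)).1 (le_cent1_iff.1 (inf_le_left.trans inf_le_right))))))).ge.trans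
      (inv_cent bb i1.odd (i1.inv hb.1) (eq_bot_of_le z0 (le_inf inf_le_left
        ((inf_le_inf_right _ l1).trans (cent_symm q2)))) (inf_le_left.trans n1))
    have u1 := comm_le_left (zpowers_le.2 (i1.inv h.ha.1))
    have u2 : Q ≤ 𝒞 ⁅Y, zpowers a⁆ :=
      cent_symm (comm_le_of_le_of_norm aQ (le_norm_cent (l1.trans (ZM.trans nQ))))
    have iK := hL.1.sub (sup_le RL QL) (le_norm_sup iR.inv iQ.inv)
    have k : ∀ c ∈ A, R ⊓ 𝒞₁ c ≤ 𝒞 Y → (R ⊔ Q) ⊓ 𝒞₁ c ≤ 𝒞 ⁅Y, zpowers a⁆ := fun c hc q => by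
      rw [← cent_zpowers] at q ⊢
      rw [(BS.R.ca2 (sq1 h.elem hc) (iR.inv hc) iR.odd).sup_inf_cent QR (zpowers_le.2 (iQ.inv hc))
        (BS.R.ca2 (sq1 h.elem hc) (le_norm_inf iR.inv iQ.inv hc) (odd_of_le iR.odd inf_le_left))]
      exact sup_le (q.trans (cent_anti u1)) (inf_le_left.trans u2)
    have zb := zpowers_le.2 (iQ.inv hb.1)
    have u3 : R ≤ 𝒞 ⁅Y, zpowers a⁆ := (ce le_rfl (comm_le_left zb) ((comm_le_left zb).trans QR)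
      (le_norm_comm iQ.inv (h.nz hb.1)) fun q => q1 (zpowers_le.1 (comm_eq_bot_iff.1 q))).ge.trans
      ((comm_le_of_le_of_norm (comm_mono le_sup_right le_rfl) (le_sup_left.trans
        (left_le_norm_comm _ _))).trans (h.four iK hb.1 h.ha.1 (k a h.ha.1 (by simp [fa]))
        (k _ (mul_mem hb.1 h.ha.1) v2)))
    have i3 := iR.c1 h.toFn hb.1
    exact cent_symm ((comm_self h.aa i3.odd (i3.inv h.ha.1) (eq_bot_of_le fa (inf_le_inf_right _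
      inf_le_left))).ge.trans (comm_le_of_le_of_norm (comm_eq_bot_iff.1 (eq_bot_of_le z0 (le_inf u1
        (cent_symm (inf_le_left.trans u3))))) (le_norm_cent (inf_le_left.trans n1))))
  obtain ⟨B, hB, q⟩ : ∃ B, Hy A B ∧ ¬ Q ⊓ 𝒞 B ≤ ⊥ := by
    by_contra! c
    exact hQ (eq_bot_iff.2 (genH h.elem iQ.odd iQ.inv c))
  obtain ⟨b, b1, ne⟩ := ex_ne (h.hy hB) a
  have hb : b ∈ sharp A := ⟨hB.le b1.1, b1.2⟩
  have hc := mul_sharp h.elem h.ha hb ne.symm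
  have aQ' := zpowers_le.1 aQ
  have q1 : Q ⊓ 𝒞₁ b ≠ ⊥ := fun e => q (e.le.trans' (inf_le_inf_left _ (cent_le_cent1 b1.1)))
  have t1 := s3 b hb q1
  have t2 := s3 _ hc (ne_bot_of_le q1 (le_inf inf_le_left (le_cent1_iff.2 (mul_mem
    (cent_anti inf_le_left aQ') (le_cent1_iff.1 inf_le_right)))))
  have Rg : ∀ K, K ≤ Z → A ≤ 𝒩 K → R ⊓ 𝒞₁ b ≤ 𝒞 K → R ⊓ 𝒞₁ (a * b) ≤ 𝒞 K → K ≤ 𝒞 Q :=
    fun K k1 k2 k3 k4 => cR' K (k1.trans ZM) k2 (cent_symm ((comm_self h.aa iR.odd (iR.inv h.ha.1)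
      fa).ge.trans (h.four iR h.ha.1 hb.1 k3 k4)))
  by_cases bQ : b ∈ 𝒞 Q
  swap
  · exact ZQ (Rg Z le_rfl iZ.inv (s4 b hb bQ t1)
      (s4 _ hc (fun q => bQ ((mul_mem_cancel_left aQ').1 q)) t2))
  have g : ∀ K, In A θ K → K ≤ Z → ∀ c ∈ A, c ∈ 𝒞 Q → K ⊓ 𝒞₁ c ≤ 𝒞 Q → K ≤ 𝒞 Q :=
    fun K k1 k2 c c1 c2 c3 => (BS.R.ca2 (sq1 h.elem c1) (k1.inv c1) k1.odd).comm_sup_cent.ge.trans
      (sup_le (comm_le_of_le_of_norm (zpowers_le.2 c2) (le_norm_cent (k2.trans (ZM.trans nQ))))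
        (cent_zpowers c ▸ c3))
  have i1 := iZ.c1 h.toFn h.ha.1
  refine ZQ (g Z iZ le_rfl a h.ha.1 aQ' (g _ i1 inf_le_left b hb.1 bQ (Rg _
    (inf_le_left.trans inf_le_left) (i1.c1 h.toFn hb.1).inv (t1.trans (cent_anti
      (inf_le_inf_right _ inf_le_left))) (t2.trans (cent_anti (le_inf (inf_le_left.trans inf_le_left)
        (le_cent1_iff.2 (mul_mem (le_cent1_iff.1 (inf_le_left.trans inf_le_right))
          (le_cent1_iff.1 inf_le_right)))))))))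

theorem noQ : Op {p}ᶜ M = ⊥ := by
  refine Op_eq_bot_of_forall (h.sol h.hM.1) fun q hq qp => not_not.1 fun q0 => ?_
  obtain ⟨B, hB, x0⟩ : ∃ B, Hy A B ∧ ⁅Op {p} M ⊓ 𝒞 B, zpowers a⁆ ≠ ⊥ := by
    by_contra! c
    exact h.ne (comm_eq_bot_iff'.2 (genH h.elem h.iP.odd h.iP.inv fun B hB =>
      comm_eq_bot_iff'.1 (c B hB)))
  have i := h.iP.infc (h.elem.abel.le_norm hB.le)
  have iX := i.cm (h.nz h.ha.1) (zpowers_le.2 (i.inv h.ha.1))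
  have nX := h.ud (ne_bot_of_le q0 (Op_le_compl hq h.hp qp M)) x0
    ((comm_le_left (zpowers_le.2 (i.inv h.ha.1))).trans inf_le_left) iX.inv (le_norm_comm (le_norm_inf
      (h.DM.trans (Op_nrm _ M).norm) (le_norm_of_le (Dd_le_cent.trans (cent_anti hB.le))))
      (le_norm_of_le_cent (cent_zpowers a ▸ Dd_c1 h.ha.1)))
  have sh : ∀ {b}, b ∈ sharp B → b ∈ sharp A := fun q => ⟨hB.le q.1, q.2⟩
  have key : ∀ b ∈ sharp B, ∀ L, Ma A θ L → θ b ≤ L → ⁅Op {p} M ⊓ 𝒞 B, zpowers a⁆ ≤ Op {p} L ∧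
      Inf L M ∧ ∃ s, s.Prime ∧ s ≠ p ∧ Op {s} M ≠ ⊥ ∧ Op {s} M ⊓ L = ⊥ := fun b hb L hL l => by
    have y := h.kk hL.1 inf_le_left ((h.iP.hyp (sh hb) hb.1).trans l)
    have hi := nX.inf hL.1 (y.trans (Op_le_Fit h.hp L)) iX.inv
    obtain ⟨s, hs, s1, s2⟩ : ∃ s, s.Prime ∧ Op {s} L = ⊥ ∧ Op {s} M ≠ ⊥ := by
      by_contra! c
      exact h.g2 a h.ha b (sh hb) (fun e => x0 (comm_eq_bot_iff'.2 (inf_le_right.trans
        (cent_anti (zpowers_le.2 (e ▸ hb.1)))))) M h.hM.1 h.le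
        (h.bender hi hL h.hM ((Dd_le (sh hb)).trans l) c ▸ l)
    exact ⟨y, hi, s, hs, fun e => x0 (eq_bot_of_le (e ▸ s1) y), s2,
      hi.one' (cent_Fit_le (h.sol hL.1)) hs s1⟩
  have two : ∀ b ∈ sharp B, ∀ r, r.Prime → r ≠ p → Op {r} M ⊓ 𝒞₁ b ≠ ⊥ → Ma A θ (θ b) :=
    fun b hb r hr rp r0 => by
      by_contra c
      obtain ⟨L, u, k⟩ := h.step8 (sh hb) c
      obtain ⟨y, hi, s, hs, -, s1, s2⟩ := key b hb L k.hM k.le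
      have iS := h.hM.1.Op {s}
      refine s1 (eq_bot_of_le s2 (le_inf le_rfl (k.no.cent iS (cent_symm (inv_cent k.aa iS.odd
        (iS.inv k.ha.1) (k.fpf iS s2) (le_trans ?_ (Op_nrm _ M).norm))))))
      by_cases e : u = p
      · exact (h.u3 (ne_bot_of_le r0 (le_inf inf_le_left (((h.hM.1.Op _).le b k.ha).trans k.le)))
          (inf_le_left.trans (Op_le_compl hr h.hp rp M)) (le_norm_inf (h.hM.1.Op _).inv k.hM.inv)).cent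
          k.iP ((Op_le_compl k.hp hr (e ▸ rp.symm) L).trans (cent_symm (hi.one hr)))
      · exact nX.cent k.iP ((Op_cent (by simpa) L).trans (cent_anti y))
  have nx : ∀ b ∈ sharp B, ∃ c ∈ sharp B, c ≠ b ∧ Ma A θ (θ c) := fun b hb => by
    obtain ⟨L, l1, l2⟩ := (h.self (sh hb)).ma
    obtain ⟨-, -, s, hs, sp, s1, s2⟩ := key b hb L l2 l1
    have iS := h.hM.1.Op {s}
    by_contra! c
    refine s1 (eq_bot_iff.2 (gen1 (h.elem.mono hB.le) (h.hy hB) iS.odd (hB.le.trans iS.inv)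
      fun e he => (not_not.1 fun q => c e he (fun n => q (eq_bot_of_le s2 ?_)) (two e he s hs sp q)).le))
    exact le_inf inf_le_left ((iS.le e (sh he)).trans (n ▸ l1))
  obtain ⟨b, hb⟩ := h.ex hB
  obtain ⟨c, hc, -, c1⟩ := nx b hb
  obtain ⟨d, hd, ne, d1⟩ := nx c hc
  exact x0 (eq_bot_of_le (h.t77 (sh hd) (sh hc) ne d1 c1 h.hp)
    (le_inf (key d hd _ d1 le_rfl).1 (key c hc _ c1 le_rfl).1))

theorem pne {N : Subgroup G} (k : S8 A θ b N q) (ne : a ≠ b) : p ≠ q ∧ M ≠ N :=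
  have e : M ≠ N := fun e => h.g2 a h.ha b k.ha ne M h.hM.1 h.le (e ▸ k.le)
  ⟨fun c => e (h.charp h.hp h.hM k.hM h.noQ (c ▸ k.noQ) h.DM).symm, e⟩

end S8

/-- at most two points `a` have `θ a` not maximal -/
theorem Mc.h3 (h : Mc A θ) (ha : a ∈ sharp A) (hb : b ∈ sharp A) (hc : c ∈ sharp A) (n1 : a ≠ b)
    (n2 : a ≠ c) (n3 : b ≠ c) : Ma A θ (θ a) ∨ Ma A θ (θ b) ∨ Ma A θ (θ c) := by
  by_contra! e
  obtain ⟨M, p, k1⟩ := h.step8 ha e.1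
  obtain ⟨N, q, k2⟩ := h.step8 hb e.2.1
  obtain ⟨K, r, k3⟩ := h.step8 hc e.2.2
  obtain ⟨L, l1, l2, l3⟩ := h.exL k3.hp k3.iP (dvd_card_of_pgroup k3.hp (Op_pgroup k3.hp K) k3.P0)
  have g : ∀ {a M p}, S8 A θ a M p → a ≠ c → M = L := fun k n =>
    (k.dich k3.hp (k.pne k3 n).1 l1 l2 l3).2.resolve_right fun q =>
      q.1 (eq_bot_of_le k.noQ (Op_sub (by simpa using (k.pne k3 n).1) _))
  exact (k1.pne k2 n1).2 ((g k1 n2).trans (g k2 n3).symm)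

end Cfsg.GS.SFx
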