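import Cfsg.Agent.GS.N3

/-! The induction in the proof of Goldschmidt's theorem. -/

set_option autoImplicit false

namespace Cfsg.GS.Nx

open Subgroup Cfsg.L0 Cfsg.H8 Cfsg.FT Cfsg.BS Cfsg.BS.R Cfsg.GS.T3 Cfsg.GS.T4
open scoped commutatorElement MatrixGroups

section
variable {G : Type} [Group G] [Finite G] {A B S M : Subgroup G}

theorem smp_top (hs : IsSimpleGroup G) (hna : ¬ IsMulCommutative G) : Smp (⊤ : Subgroup G) :=
  ⟨fun _ h => Fx.eq_or hs h.norm, fun e => hna ⟨⟨fun x y => e.comm (mem_top x) (mem_top y)⟩⟩,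
    by rw [card_top]; exact (even_of_simple oddOrder hna).two_dvd⟩

/-- the end of the uniqueness case -/
theorem benP_of_ug (h : UG S A M) (hI : ∀ z, Ivo z → InI A z) : A = Om 2 S ∧ ∃ k, BenP ⊤ S k :=
  ⟨Fx.eq_Om h.sc h.elem hI, benP_of (smp_top h.simple h.nab) h.syl (Fx.spe h.syl h.sc h.elem.abel
    (ne_bot_of_card (by have := h.four; omega)) h.ne h.nA h.cA hI)⟩

/-- Klein four Sylow `2`-subgroups -/
theorem gold_four (h : Mg A A) (h4 : ♯A = 4) : IsGoldschmidtGroup G := by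
  obtain ⟨P, rfl⟩ := isSyl_top_iff.1 h.syl
  obtain ⟨F, _, _, o, ⟨φ⟩⟩ := GW.gw4 G h.simple P h4 fun _ => mul_self_of_elem h.elem
  have e1 := H3.card_PSL2_mul (F := F)
  have e2 := h.syl.not_dvd
  have e3 := card_mul_ri (le_top : (P : Subgroup G) ≤ ⊤)
  have o' := Nat.odd_iff.1 o
  rw [(H3.gcd_two_cases _).2 o', ← Nat.card_congr φ.toEquiv, ← card_top, ← e3, h4] at e1
  have n3 : Fintype.card F ≠ 3 := fun e => by
    obtain ⟨a, a1, a2⟩ := Ax.exists_ne1 (show 2 ≤ ♯(P : Subgroup G) by omega)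
    have i := ri_mul (le_norm (P : Subgroup G)) (le_top (a := 𝒩 (P : Subgroup G)))
    rw [show (P : Subgroup G).relIndex ⊤ = 3 by rw [e] at e1; omega] at i
    rcases (Nat.dvd_prime Nat.prime_three).1 (Dvd.intro _ i) with j | j
    · exact Fx.not_cent h.simple h.nab h.syl h.sc h.elem.abel a1 a2
        ((relIndex_eq_one.1 j).trans (h.elem.abel.trans (cent_le_cent1 a1)))
    · rw [j] at i
      rcases Fx.eq_or h.simple (relIndex_eq_one.1 (show (𝒩 (P : Subgroup G)).relIndex ⊤ = 1 by omega))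
        with k | k
      · exact ne_bot_of_mem a1 a2 k
      · exact (smp_top h.simple h.nab).nab (k ▸ h.elem.abel)
  have n1 := Fintype.one_lt_card (α := F)
  refine .inr (.inr (.inr (.inr (.inl ⟨F, _, _, _, rfl, by omega, ?_, ⟨φ⟩⟩))))
  generalize Fintype.card F = q at *
  by_contra n
  obtain ⟨r, hr⟩ : 16 ∣ q ^ 2 - 1 := (Nat.modEq_iff_dvd' (Nat.one_le_pow _ _ (by omega))).1 (by
    have : q % 16 = 1 ∨ q % 16 = 7 ∨ q % 16 = 9 ∨ q % 16 = 15 := by omega
    rcases this with h | h | h | h <;> simp [Nat.ModEq, Nat.pow_mod, h])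
  exact e2 ⟨q * r, by rw [hr] at e1; linarith⟩

theorem fin_ug (hL : LU) (h : UG S A M) (h4 : ♯A = 4 → S ≠ A) (h8 : ♯A = 4 ∨ 8 ≤ ♯A)
    (hB : SC B S ⊤) (ha : Abel B) (h0 : B ≠ ⊥) : IsGoldschmidtGroup G ∧ B = Om 2 S := by
  have hI := hL G S A M h
  obtain ⟨e, k, b⟩ := benP_of_ug h hI
  refine ⟨h8.elim (fun c => ?_) fun c => Fx.gold_of h.simple h.syl h.sc h.elem c h.ne h.nA h.cA hI,
    b.eq_om hB.le h0 ha (hB.norm_le ⟨trivial, b.kT⟩)⟩
  rcases b.iso with ⟨_, _, _, -, i, -⟩ | ⟨i, -⟩ | ⟨F, _, _, i, -, ⟨φ⟩⟩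
  · exact absurd (i.trans e.symm) (h4 c)
  · exact .inr (.inr (.inl (Ux.iso_congr topEquiv.symm i)))
  · rw [← e, c] at i φ
    exact .inr (.inr (.inr (.inl ⟨F, _, _, 2, le_rfl, i, ⟨topEquiv.symm.trans φ⟩⟩)))

end

theorem finG : FinG := by
  intro h1 h2 h3 h4 h5 hL G _ _ hs hna
  induction hn : Nat.card G using Nat.strong_induction_on generalizing G with | _ n ih
  subst hn
  intro P B h0 ha hB
  have hS := isSyl_sylow P
  replace ha := abel_iff.2 ha
  replace hB := sc_top_iff.2 hB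
  change _ ∧ B = Om 2 (P : Subgroup G)
  generalize (P : Subgroup G) = S at *
  obtain ⟨A, a0, a1, a2, a3, a4⟩ := Fx.exists_min hs hna hS hB ha h0
  have m : Mg S A := ⟨hs, hna, fun H hH Y _ _ i s na => ih _
    ((Nat.le_of_dvd Nat.card_pos (Involves.card_dvd i)).trans_lt
      (card_top (G := G) ▸ card_lt (lt_top_iff_ne_top.2 hH))) Y s na rfl,
    hS, a1, a2, a4, a3, fun K hK => Fx.two hs hna hS a1 a2.abel hK⟩
  have a8 : ♯A = 4 ∨ 8 ≤ ♯A := by
    obtain ⟨k, hk⟩ := a2.exists_card Nat.prime_two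
    rw [hk] at a4 ⊢
    rcases k with _ | _ | _ | k <;> (try simp only [pow_succ] at a4 ⊢) <;> omega
  have eq : S = A → B = Om 2 S := by
    rintro rfl
    exact (le_antisymm hB.le a0).trans (le_antisymm (a2.le_Om le_rfl) (Om_le 2 S))
  rcases a8 with c | c
  · by_cases e : S = A
    · exact ⟨gold_four (e ▸ m) c, eq e⟩
    obtain ⟨M, u⟩ : ∃ M, UG S A M := by
      by_cases i : ∀ x ∈ S, x * x = 1 → x ∈ A
      · exact h4 G S A m c i e
      · push Not at i
        obtain ⟨v, v1, v2, v3⟩ := i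
        exact h5 G S A v m c v1 v2 v3
    exact fin_ug hL u (fun _ => e) (.inl c) hB ha h0
  · have f := fun M (u : UG S A M) => fin_ug hL u (by omega) (.inr c) hB ha h0
    rcases h1 G S A m c with ⟨M, u⟩ | ⟨R, w⟩
    · exact f M u
    by_cases e : R = ⊥
    · subst e
      obtain rfl : S = A := w.sup.symm.trans (sup_bot_eq A)
      exact (h2 G S w).elim (fun ⟨M, u⟩ => f M u) fun g => ⟨g, eq rfl⟩
    · exact (h3 G S A R w e).elim f

end Cfsg.GS.Nx
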