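import Cfsg.Agent.GS.G1

/-! Proper subgroups that move the point of `A`: the orbit and the structure of the Sylow
`2`-subgroup (general case). -/

set_option autoImplicit false
set_option linter.unusedSectionVars false

namespace Cfsg.GS.Gx

open Subgroup Cfsg.L0 Cfsg.H8 Cfsg.FT Cfsg.BS Cfsg.BS.R Cfsg.GS.T3 Cfsg.GS.T4 Cfsg.GS.Ax MulAction
open Cfsg.GS.Nx
open scoped commutatorElement

section quo
variable {Q : Type} [Group Q] [Finite Q] {L T S Y : Subgroup Q} {k g x : Q}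

theorem ben_split [L.Normal] (hS : IsPGroup 2 S) (h : BenP L (S ⊓ L) k) (hx : x ∈ S)
    (h1 : x ∈ L ⊔ 𝒞 L) : ∃ l ∈ S ⊓ L, ∃ c ∈ S ⊓ 𝒞 L, l * c = x := by
  obtain ⟨n, hn⟩ := isPGroup_iff_forall.1 hS x hx
  obtain ⟨l, hl, c, hc, rfl⟩ := (mem_sup_l (cent_le_norm L)).1 h1
  have cm : Commute l c := mem_cent.1 hc l hl
  have e : l ^ 2 ^ n = 1 := h.smp.eq_one (pow_mem hl _) (by
    rw [cm.mul_pow, mul_eq_one_iff_eq_inv] at hn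
    exact hn ▸ inv_mem (pow_mem hc _))
  have m := h.syl.mem_of_mem_normalizer hl ⟨n, e⟩ ((mul_mem_cancel_right (h.cent_le hc)).1
    (le_norm_inf (le_norm S) Ax.top_le_norm hx))
  exact ⟨l, m, c, ⟨(S.mul_mem_cancel_left m.1).1 hx, hc⟩, rfl⟩

theorem ben_kS [L.Normal] (hS : IsPGroup 2 S) (h : BenP L (S ⊓ L) k) : k ∈ 𝒩 (S ⊓ (L ⊔ 𝒞 L)) :=
  mem_normalizer_of_forall fun x hx => by
    obtain ⟨l, hl, c, hc, rfl⟩ := ben_split hS h hx.1 hx.2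
    have m := conj_mem_of_norm h.kT hl
    have : k * l * k⁻¹ * c ∈ S ⊓ (L ⊔ 𝒞 L) := ⟨mul_mem m.1 hc.1, mul_mem_sup m.2 hc.2⟩
    rwa [mul_assoc (k * l), mem_cent.1 hc.2 _ (inv_mem h.kL), ← mul_assoc, mul_assoc k] at this

end quo

/-- the conclusion of `KG` together with the image of the point stabilizer -/
structure Orb {G Ω Q : Type} [Group G] [MulAction G Ω] [Group Q] (H T B : Subgroup G) (α : Ω)
    (f : H →* Q) (L : Subgroup Q) (k : Q) : Prop where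
  syl : IsSyl 2 T H
  le : B ≤ T
  surj : Function.Surjective f
  ker : up f ⊥ = O2 H
  nrm : L.Normal
  ben : BenP L (down f T ⊓ L) k
  om : down f B = Om 2 (down f T ⊓ L)
  st : up f (𝒩 (down f T ⊓ L)) = H ⊓ 𝒮 α

/-- ambient form of `Orb`: `T₁ = T ∩ K_H`, `R` = kernel of `T` on the orbit -/
structure Ln {G Ω : Type} [Group G] [MulAction G Ω] (H T B T1 R : Subgroup G) (k : G) (α : Ω) :
    Prop where
  ty : Ty B T1 k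
  syl : IsSyl 2 T H
  TS : T1 ≤ T
  RS : R ≤ T
  nT : T ≤ 𝒩 T1
  nR : T ≤ 𝒩 R
  inf : T1 ⊓ R = ⊥
  cm : R ≤ 𝒞 T1
  kR : k ∈ 𝒞 R
  kH : k ∈ H
  fix : ∀ r ∈ R, ∀ g ∈ H, r • g • α = g • α
  ker : ∀ r ∈ T, (∀ g ∈ H, r • g • α = g • α) → r ∈ R
  idx : (𝒮 α).relIndex H = ♯T1 + 1
  stab : H ⊓ 𝒮 α ≤ 𝒩 (B ⊔ O2 H)
  nP : H ⊓ 𝒩 (T1 ⊔ R) ≤ 𝒩 T1
  nk : ∀ g ∈ H ⊓ 𝒩 B, ∃ n : ℕ, g * k * g⁻¹ * (k ^ n)⁻¹ ∈ 𝒞 B
  top : ∀ g ∈ H ⊓ 𝒞 B ⊓ 𝒩 (T1 ⊔ R), (∃ n, g ^ 2 ^ n = 1) → g ∈ T1 ⊔ R ∨ Gr B T1 k g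
  oddT : ∀ X, X ≤ H → Odd ♯X → T1 ≤ 𝒩 X → ∀ x ∈ X, ∀ g ∈ H, x • g • α = g • α
  oddf : ∀ X, X ≤ H → Odd ♯X → B ≤ 𝒩 X → (∀ x ∈ X, ∀ g ∈ H, x • g • α = g • α) ∨ U3G B T1 k
  trT : ∀ g ∈ H, ∀ g' ∈ H, g • α ≠ α → g' • α ≠ α → ∃ t ∈ T1, t • g • α = g' • α
  kfix : ∃ g ∈ H, g • α ≠ α ∧ k • g • α = g • α

namespace Orb
variable {G Ω Q : Type} [Group G] [Finite G] [MulAction G Ω] [Group Q] [Finite Q]
  {H T B X : Subgroup G} {α : Ω} {f : H →* Q} {L : Subgroup Q} {k : Q} (h : Orb H T B α f L k)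
include h

theorem inj : up f ⊥ ⊓ T = ⊥ := h.ker ▸ inf_eq_bot_of_cop
  (cop_of_pgroup Nat.prime_two h.syl.isPGroup (not_dvd_Op_compl Nat.prime_two H)).symm

theorem inj' (h1 : X ≤ T) : up f ⊥ ⊓ X = ⊥ := eq_bot_of_le h.inj (inf_le_inf_left _ h1)

theorem BH : B ≤ H := h.le.trans h.syl.le

theorem BL : B ≤ T ⊓ up f L :=
  le_inf h.le ((down_le_iff' h.BH).1 (h.om ▸ (Om_le _ _).trans inf_le_right))

theorem mem_st {x : H} : (x : G) • α = α ↔ f x ∈ 𝒩 (down f T ⊓ L) := by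
  rw [← coe_mem_up, h.st]; exact ⟨fun e => ⟨x.2, e⟩, fun e => e.2⟩

theorem idx : (𝒮 α).relIndex H = ♯(T ⊓ up f L) + 1 := by
  have := h.nrm
  rw [← inf_relIndex_left, ← h.st, ri_up f _ le_rfl, down_top h.surj, h.ben.idx_top,
    ← down_inf_up, card_down_eq (inf_le_left.trans h.syl.le) (h.inj' inf_le_left)]

theorem fix_iff {x g : H} :
    (x : G) • (g : G) • α = (g : G) • α ↔ (f g)⁻¹ * f x * f g ∈ 𝒩 (down f T ⊓ L) := by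
  rw [← map_inv, ← map_mul, ← map_mul, ← h.mem_st, ← inv_smul_eq_iff, ← mul_smul, ← mul_smul]; rfl

/-- the preimage of `C(L)` fixes the orbit -/
theorem fixC {x g : G} (hx : x ∈ up f (𝒞 L)) (hg : g ∈ H) : x • g • α = g • α := by
  have := h.nrm
  obtain ⟨hx', e⟩ := mem_up.1 hx
  exact (h.fix_iff (x := ⟨x, hx'⟩) (g := ⟨g, hg⟩)).2 (h.ben.cent_le
    (conj_mem_of_norm' (norm_le_norm_cent L (Ax.top_le_norm (mem_top _))) e))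

theorem kerC {x : G} (hx : x ∈ H) (e : ∀ g ∈ H, x • g • α = g • α) : x ∈ up f (𝒞 L) := by
  have := h.nrm
  refine mem_up.2 ⟨hx, h.ben.cent_of_all (Ax.top_le_norm (mem_top _)) fun S hS => ?_⟩
  obtain ⟨l, -, rfl⟩ := h.ben.syl.exists_cj_eq hS
  obtain ⟨g, rfl⟩ := h.surj l
  rw [← cj_norm, mem_cj]
  exact (h.fix_iff (x := ⟨x, hx⟩)).1 (e g g.2)

theorem stab : H ⊓ 𝒮 α ≤ 𝒩 (B ⊔ O2 H) := by
  rw [← h.st, ← h.ker, ← up_down f h.BH, h.om]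
  exact up_le_norm f (norm_le_norm_Om 2 _)

theorem sup : T ⊓ up f L ⊔ T ⊓ up f (𝒞 L) = T ⊓ up f (L ⊔ 𝒞 L) := by
  have := h.nrm
  refine le_antisymm (sup_le (inf_le_inf_left _ (up_mono f le_sup_left))
    (inf_le_inf_left _ (up_mono f le_sup_right))) fun x hx => ?_
  obtain ⟨x1, x2⟩ := mem_up.1 hx.2
  obtain ⟨_, ⟨⟨l, l1, rfl⟩, l2⟩, _, ⟨⟨c, c1, rfl⟩, c2⟩, e⟩ := ben_split
    (isPGroup_down f h.syl.isPGroup) h.ben (mem_down_of_mem (x := ⟨x, x1⟩) hx.1) x2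
  have := eq_of_f h.inj (x := l * c) (y := ⟨x, x1⟩) (mul_mem l1 c1) hx.1 (by rwa [map_mul])
  rw [show x = l * c from this.symm]
  exact mul_mem_sup ⟨l1, coe_mem_up.2 l2⟩ ⟨c1, coe_mem_up.2 c2⟩

/-- the torus lifts to an element of odd order -/
theorem lift : ∃ k' : H, f k' = k ∧ (k' : G) ∈ 𝒩 (T ⊓ up f (L ⊔ 𝒞 L)) ∧ Odd (orderOf (k' : G)) := by
  have := h.nrm
  have le : T ⊓ up f (L ⊔ 𝒞 L) ≤ H := inf_le_left.trans h.syl.le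
  have e := (Kx.ca_ker h.ker le h.syl.isPGroup.to_inf_left).down_norm_ker le le_rfl (up_le _ _)
  obtain ⟨l, l1, rfl⟩ := mem_down.1 (e.ge ⟨down_top h.surj ▸ mem_top k, by
    rw [down_inf_up]; exact ben_kS (isPGroup_down f h.syl.isPGroup) h.ben⟩)
  obtain ⟨j, hj⟩ := exists_pow_coprime 2 (l : G)
  obtain ⟨n, hn⟩ := exists_pow_eq_self_of_coprime (x := f l) (n := 2 ^ j)
    ((Nat.coprime_two_left.2 h.ben.ty.1.odd).pow_left j)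
  exact ⟨(l ^ 2 ^ j) ^ n, by rw [map_pow, map_pow, hn], pow_mem (pow_mem l1.2 _) n,
    (Nat.coprime_two_right.1 hj).of_dvd_nat (orderOf_pow_dvd n)⟩

theorem trT {g g' : G} (hg : g ∈ H) (hg' : g' ∈ H) (h1 : g • α ≠ α) (h2 : g' • α ≠ α) :
    ∃ t ∈ T ⊓ up f L, t • g • α = g' • α := by
  have := h.nrm
  obtain ⟨l, hl, n, hn, e⟩ := h.ben.syl.frattini (g := f ⟨g, hg⟩) (Ax.top_le_norm (mem_top _))
  obtain ⟨l', hl', n', hn', e'⟩ := h.ben.syl.frattini (g := f ⟨g', hg'⟩) (Ax.top_le_norm (mem_top _))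
  obtain ⟨_, ⟨⟨t, t1, rfl⟩, t2⟩, q⟩ := h.ben.two l' hl' l hl
    (fun q => h2 ((h.mem_st (x := ⟨g', hg'⟩)).2 (e' ▸ mul_mem q hn')))
    (fun q => h1 ((h.mem_st (x := ⟨g, hg⟩)).2 (e ▸ mul_mem q hn)))
  refine ⟨t, ⟨t1, coe_mem_up.2 t2⟩, ?_⟩
  have := (h.mem_st (x := (⟨g', hg'⟩ : H)⁻¹ * t * ⟨g, hg⟩)).2 (by
    rw [map_mul, map_mul, map_inv, e, e']
    convert mul_mem (mul_mem (inv_mem hn') q) hn using 1; group)
  rw [← mul_smul, ← inv_smul_eq_iff, ← mul_smul, ← mul_assoc]; exact this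

/-- an element normalizing `B` centralizes `B` if its image does -/
theorem centB {x : H} (h1 : (x : G) ∈ 𝒩 B) (h2 : f x ∈ 𝒞 (down f B)) : (x : G) ∈ 𝒞 B :=
  mem_cent.2 fun b hb => (mul_inv_eq_iff_eq_mul.1 (eq_of_f (h.inj' h.le)
    (x := x * ⟨b, h.BH hb⟩ * x⁻¹) (y := ⟨b, h.BH hb⟩) (conj_mem_of_norm h1 hb) hb (by
      rw [map_mul, map_mul, map_inv, ← mem_cent.1 h2 _ (mem_down_of_mem (x := ⟨b, _⟩) hb),
        mul_inv_cancel_right]))).symm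

theorem ln : ∃ k' : H, f k' = k ∧ Ln H T B (T ⊓ up f L) (T ⊓ up f (𝒞 L)) k' α := by
  have := h.nrm
  obtain ⟨k', rfl, k1, k2⟩ := h.lift
  have hi := h.inj' (inf_le_left : T ⊓ up f L ≤ T)
  have hT : T ⊓ up f L ≤ H := inf_le_left.trans h.syl.le
  have p1 : IsPGroup 2 ↥(T ⊓ up f L) := h.syl.isPGroup.to_inf_left
  have nL : ∀ (K : Subgroup Q) [K.Normal], K ≤ L ⊔ 𝒞 L →
      H ⊓ 𝒩 (T ⊓ up f (L ⊔ 𝒞 L)) ≤ 𝒩 (T ⊓ up f K) := fun K _ e => by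
    rw [show T ⊓ up f K = T ⊓ up f (L ⊔ 𝒞 L) ⊓ up f K by rw [inf_assoc, inf_eq_right.2 (up_mono f e)]]
    exact le_norm_inf inf_le_right (inf_le_left.trans (le_normalizer_up f K))
  have kT := nL L le_sup_left ⟨k'.2, k1⟩
  have dT : down f (T ⊓ up f L) = down f T ⊓ L := down_inf_up _ _ _
  have kB : (k' : G) ∈ 𝒩 B := mem_normalizer_of_forall fun b hb => mem_of_f hi h.BL
    (x := k' * ⟨b, h.BH hb⟩ * k'⁻¹) (conj_mem_of_norm kT (h.BL hb)) (by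
      rw [map_mul, map_mul, map_inv, h.om]
      exact conj_mem_of_norm h.ben.kA (h.om ▸ mem_down_of_mem (x := ⟨b, _⟩) hb))
  have u3 : U3G (Om 2 (down f T ⊓ L)) (down f T ⊓ L) (f k') → U3G B (T ⊓ up f L) k' := fun e =>
    u3g_lift hT hi h.BL kT p1 (by rw [dT, h.om]; exact e)
  have cm : ∀ (x : H) (r : G), f x ∈ L → r ∈ T ⊓ up f (𝒞 L) → x * r * x⁻¹ ∈ T → x * r * x⁻¹ = r :=
    fun x r hx hr m => by
      obtain ⟨r1, r2⟩ := mem_up.1 hr.2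
      exact eq_of_f h.inj (x := x * ⟨r, r1⟩ * x⁻¹) (y := ⟨r, r1⟩) m hr.1 (by
        rw [map_mul, map_mul, map_inv, mem_cent.1 r2 _ hx, mul_inv_cancel_right])
  refine ⟨k', rfl, ty_lift hT hi h.BL kT kB k2 p1 (by rw [dT, h.om]; exact h.ben.ty), h.syl,
    inf_le_left, inf_le_left, le_norm_inf (le_norm T) (h.syl.le.trans (le_normalizer_up f L)),
    le_norm_inf (le_norm T) (h.syl.le.trans (le_normalizer_up f _)), eq_bot_iff.2 fun x hx => ?_,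
    fun r hr => mem_cent.2 fun t ht => ?_, mem_cent.2 fun r hr => ?_, k'.2,
    fun r hr g hg => h.fixC hr.2 hg, fun r hr e => ⟨hr, h.kerC (h.syl.le hr) e⟩, h.idx, h.stab,
    h.sup ▸ nL L le_sup_left, fun g hg => ?_, fun g hg g2 => ?_,
    fun X h1 ho hn x hx g hg => h.fixC ((down_le_iff' h1).1 (h.ben.oddT (odd_down f ho) Ax.top_le_norm
      (dT ▸ down_le_norm f hn)) hx) hg,
    fun X h1 ho hn => (h.ben.odd (odd_down f ho) Ax.top_le_norm (h.om ▸ down_le_norm f hn)).imp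
      (fun e x hx g hg => h.fixC ((down_le_iff' h1).1 e hx) hg) u3,
    fun g hg g' hg' => h.trT hg hg', ?_⟩
  · obtain ⟨x1, x2⟩ := mem_up.1 hx.1.2
    exact eq_of_f h.inj (x := ⟨x, x1⟩) (y := 1) hx.1.1 (one_mem _)
      (by rw [map_one]; exact h.ben.smp.eq_one x2 (mem_up.1 hx.2.2).2)
  · obtain ⟨t1, t2⟩ := mem_up.1 ht.2
    exact mul_inv_eq_iff_eq_mul.1 (cm ⟨t, t1⟩ r t2 hr (mul_mem (mul_mem ht.1 hr.1) (inv_mem ht.1)))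
  · exact (mul_inv_eq_iff_eq_mul.1 (cm k' r h.ben.kL hr
      (conj_mem_of_norm (nL _ le_sup_right ⟨k'.2, k1⟩) hr).1)).symm
  · have g1 : f ⟨g, hg.1⟩ ∈ 𝒩 (down f T ⊓ L) := h.ben.nA ⟨Ax.top_le_norm (mem_top _),
      h.om ▸ down_le_norm f le_rfl (mem_down_of_mem (x := ⟨g, hg.1⟩) hg.2)⟩
    obtain ⟨t, ht, _, hn, e⟩ := (mem_sup_l (zpowers_le.2 h.ben.kT)).1 (h.ben.bor.le
      ⟨conj_mem_of_norm (Ax.top_le_norm (mem_top (f ⟨g, hg.1⟩))) h.ben.kL,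
        conj_mem_of_norm (le_norm _ g1) h.ben.kT⟩)
    obtain ⟨n, rfl⟩ := mem_powers_iff_mem_zpowers.2 hn
    refine ⟨n, h.centB (x := ⟨g, hg.1⟩ * k' * (⟨g, hg.1⟩ : H)⁻¹ * (k' ^ n)⁻¹)
      (mul_mem (mul_mem (mul_mem hg.2 kB) (inv_mem hg.2)) (inv_mem (pow_mem kB n))) ?_⟩
    rw [map_mul, map_mul, map_mul, map_inv, map_inv, map_pow, ← e, mul_inv_cancel_right, h.om]
    exact h.ben.cA ht
  · obtain ⟨n, hn⟩ := g2
    refine (h.ben.aut2 (f ⟨g, hg.1.1⟩) (Ax.top_le_norm (mem_top _)) ⟨n, by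
      rw [← map_pow, ← map_one f]; exact congrArg f (Subtype.ext hn)⟩
      (h.om ▸ down_le_cent f le_rfl (mem_down_of_mem (x := ⟨g, hg.1.1⟩) hg.1.2))).imp
      (fun e => ?_) fun ⟨e, x, hx, x1⟩ => ⟨u3 e, ?_⟩
    · rw [h.sup] at hg ⊢
      exact (h.syl.inf (up_le f _) (h.syl.le.trans (le_normalizer_up f _))).mem_of_mem_normalizer
        (mem_up.2 ⟨hg.1.1, (sup_le_sup_right inf_le_right _ : _ ⊓ L ⊔ 𝒞 L ≤ L ⊔ 𝒞 L) e⟩) ⟨n, hn⟩ hg.2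
    · obtain ⟨y, y1, rfl⟩ := mem_down.1 (dT ▸ hx)
      refine ⟨y, y1, fun e => x1 (h.om ▸ ?_)⟩
      rw [← map_inv, ← map_inv, ← map_mul, ← map_mul, ← map_mul]
      exact mem_down_of_mem e
  · obtain ⟨w, -, -, w1, w2⟩ := h.ben.wl
    obtain ⟨g, rfl⟩ := h.surj w
    exact ⟨g, g.2, fun e => w1 (h.mem_st.1 e), h.fix_iff.2
      (zpowers_le.2 h.ben.kT (conj_mem_of_norm' w2 (mem_zpowers _)))⟩

end Orb

namespace GG
variable {G Ω : Type} [Group G] [Finite G] [MulAction G Ω] {A B S P H T X : Subgroup G}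
  {a b c d g x y z w : G} {α β γ δ : Ω} (h : GG S A α)
include h

/-- odd subgroups normalized by a noncyclic subgroup of `A` fix `α` -/
theorem odd_le (hB : B ≤ A) (h4 : 4 ≤ ♯B) (ho : Odd ♯X) (hn : B ≤ 𝒩 X) : X ≤ 𝒮 α :=
  gen_cent1 (h.elem.mono hB).abel (Kx.not_cyc (h.elem.mono hB) h4) hn
    (cop_of_pgroup Nat.prime_two (h.elem.mono hB).pgroup
      (fun e => (Nat.not_even_iff_odd.2 ho) (even_iff_two_dvd.2 e))).symm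
    fun b hb b1 => inf_le_right.trans (h.cA b (hB hb) b1)

theorem orb (h1 : KG) (hH : H ≠ ⊤) (hT : IsSyl 2 T H) (hB : B ≤ A) (hs : SC B T H) (h4 : 4 ≤ ♯B)
    (hn : ¬ H ≤ 𝒮 α) : ∃ (Q : Type) (_ : Group Q) (_ : Finite Q) (f : H →* Q) (L : Subgroup Q)
      (k : Q), Orb H T B α f L k := by
  have n := h.nB hB (ne_bot_of_card (by omega))
  obtain ⟨Q, _, _, f, L, k, q1, q2, q3, q4, q5⟩ := h1 G H T B (𝒮 α) (h.ih H hH) hT hs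
    (h.elem.mono hB) h4 (inf_le_right.trans n)
    (fun b hb b1 => inf_le_right.trans (h.cA b (hB hb) b1)) hn
  have BH := hs.le.trans hT.le
  have o : up f ⊥ ≤ H ⊓ 𝒮 α := le_inf (up_le _ _)
    (q2 ▸ h.odd_le hB h4 (odd_O2 H) (BH.trans (Op_nrm _ H).norm))
  refine ⟨Q, _, ‹_›, f, L, k, hT, hs.le, q1, q2, q3, q4, q5, ?_⟩
  rw [← q4.max (Y := down f (H ⊓ 𝒮 α)), up_down_of_le f inf_le_left o]
  · refine le_trans ?_ (down_mono f (inf_le_inf_left H n))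
    rw [(Kx.ca_ker q2 BH (h.elem.mono hB).pgroup).down_norm_ker BH le_rfl (up_le _ _), down_top q1,
      top_inf_eq, q5]
    exact norm_le_norm_Om 2 _
  · intro e
    have := up_down_of_le f inf_le_left o
    rw [e, up_top] at this
    exact hn (this.le.trans inf_le_right)

theorem ln (h1 : KG) (hH : H ≠ ⊤) (hT : IsSyl 2 T H) (hB : B ≤ A) (hs : SC B T H) (h4 : 4 ≤ ♯B)
    (hn : ¬ H ≤ 𝒮 α) : ∃ T1 R k, Ln H T B T1 R k α := by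
  obtain ⟨Q, _, _, f, L, k, q⟩ := h.orb h1 hH hT hB hs h4 hn
  obtain ⟨k', -, q'⟩ := q.ln
  exact ⟨_, _, _, q'⟩

/-- the case of a subgroup containing `A` -/
theorem orbA (h1 : KG) (hH : H ≠ ⊤) (hT : IsSyl 2 T H) (hA : A ≤ T) (hn : ¬ H ≤ 𝒮 α) :
    ∃ (Q : Type) (_ : Group Q) (_ : Finite Q) (f : H →* Q) (L : Subgroup Q) (k : Q),
      Orb H T A α f L k :=
  h.orb h1 hH hT le_rfl ((h.scl hT.isPGroup hA).mono hA le_rfl le_top) h.four hn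

theorem lnA (h1 : KG) (hH : H ≠ ⊤) (hT : IsSyl 2 T H) (hA : A ≤ T) (hn : ¬ H ≤ 𝒮 α) :
    ∃ T1 R k, Ln H T A T1 R k α :=
  h.ln h1 hH hT le_rfl ((h.scl hT.isPGroup hA).mono hA le_rfl le_top) h.four hn

end GG

end Cfsg.GS.Gx
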