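import Cfsg.Agent.GS.N2

/-! `KB` and `KG`: matrix models of `SL₂(q)` and `SU₃(q)`, Bender's theorem. -/

set_option autoImplicit false
set_option linter.unusedSectionVars false

namespace Cfsg.GS.Nx

open Subgroup Cfsg.L0 Cfsg.H8 Cfsg.FT Cfsg.BS Cfsg.BS.R Cfsg.GS.T3 Cfsg.GS.T4
open scoped commutatorElement MatrixGroups

section map
variable {X G : Type} [Group X] [Group G] {A U : Subgroup X} {f : X →* G} {d w x y : X}

theorem eq_of_map (hi : U ⊓ f.ker = ⊥) (hx : x ∈ U) (hy : y ∈ U) (e : f x = f y) : x = y :=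
  eq_of_inv_mul_eq_one (eq_one_of_mem hi ⟨U.mul_mem (U.inv_mem hx) hy, by
    show f _ = 1
    rw [map_mul, map_inv, e, inv_mul_cancel]⟩)

theorem card_map_of (hi : U ⊓ f.ker = ⊥) (hA : A ≤ U) : ♯(A.map f) = ♯A :=
  (Nat.card_congr (Equiv.ofBijective (f.subgroupMap A) ⟨fun a b e => Subtype.ext
    (eq_of_map hi (hA a.2) (hA b.2) (congrArg Subtype.val e)), f.subgroupMap_surjective A⟩)).symm

theorem tor_map (h : Tor A d) (f : X →* G) : Tor (A.map f) (f d) where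
  odd := h.odd.of_dvd_nat (orderOf_map_dvd f d)
  kA := le_normalizer_map f (mem_map_of_mem f h.kA)
  tr := by
    rintro _ ⟨a, ha, rfl⟩ _ ⟨b, hb, rfl⟩ a1 b1
    obtain ⟨n, rfl⟩ := h.tr a ha b hb (fun e => a1 (e ▸ map_one f)) fun e => b1 (e ▸ map_one f)
    exact ⟨n, by simp⟩

open Classical in
theorem u3g_map (h : U3G A U d) (hi : U ⊓ f.ker = ⊥) : U3G (A.map f) (U.map f) (f d) := by
  obtain ⟨F, _, _, π, ι, l, c⟩ := co3_of h
  have e := card_map_of hi c.le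
  let φ : G → X := fun y => if hy : y ∈ U.map f then hy.choose else 1
  have p : ∀ x ∈ U, φ (f x) = x := fun x hx => by
    have m := mem_map_of_mem f hx
    simp only [φ, dif_pos m]
    exact eq_of_map hi m.choose_spec.1 hx m.choose_spec.2
  refine Co3.u3g (π := fun x => π (φ x)) (ι := fun x => ι (φ x)) (l := l) ⟨c.pg.map f,
    map_mono c.le, ?_, le_normalizer_map f (mem_map_of_mem f c.kT), e ▸ c.card, ?_, ?_, fun y => ?_,
    ?_, ?_, ?_, ?_, ?_, ?_, e ▸ c.ord⟩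
  · rintro _ ⟨t, ht, rfl⟩
    refine mem_cent.2 ?_
    rintro _ ⟨a, ha, rfl⟩
    rw [← map_mul, ← map_mul, mem_cent.1 (c.cA ht) a ha]
  · rintro _ ⟨x, hx, rfl⟩ _ ⟨y, hy, rfl⟩
    rw [← map_mul, p _ (mul_mem hx hy), p x hx, p y hy, c.add x hx y hy]
  · rintro _ ⟨x, hx, rfl⟩
    rw [p x hx, c.ker x hx]
    exact ⟨mem_map_of_mem f, fun ⟨a, ha, i⟩ => eq_of_map hi (c.le ha) hx i ▸ ha⟩
  · obtain ⟨x, hx, i⟩ := c.onto y
    exact ⟨f x, mem_map_of_mem f hx, by rw [p x hx, i]⟩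
  · rintro _ ⟨x, hx, rfl⟩ _ ⟨y, hy, rfl⟩
    rw [← map_mul, p _ (c.le (mul_mem hx hy)), p x (c.le hx), p y (c.le hy), c.iadd x hx y hy]
  · rintro _ ⟨x, hx, rfl⟩ i
    rw [c.iinj x hx (by rwa [p x (c.le hx)] at i), map_one]
  · rintro _ ⟨x, hx, rfl⟩
    rw [← map_mul]; exact mem_map_of_mem f (c.sq x hx)
  · rintro _ ⟨x, hx, rfl⟩
    rw [← map_mul, p _ (mul_mem hx hx), p x hx, c.isq x hx, e]
  · rintro _ ⟨x, hx, rfl⟩
    rw [← map_inv, ← map_mul, ← map_mul, p _ (conj_mem_of_norm c.kT hx), p x hx, c.kπ x hx]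
  · rintro _ ⟨x, hx, rfl⟩
    rw [← map_inv, ← map_mul, ← map_mul, p _ (conj_mem_of_norm c.kT (c.le hx)), p x (c.le hx),
      c.kι x hx, e]

end map

/-- the facts on a matrix model -/
structure B1 {X : Type} [Group X] (U A : Subgroup X) (d w : X) : Prop where
  el : Elem 2 A
  four : 4 ≤ ♯A
  tor : Tor A d
  ty : U = A ∨ U3G A U d
  ti : ∀ g, ∀ x ∈ U, x ≠ 1 → g * x * g⁻¹ ∈ U → g ∈ 𝒩 U
  bru : ∀ g, g ∉ 𝒩 U → ∃ s ∈ U, ∃ b ∈ 𝒩 U, g = s * w * b
  bor : 𝒩 U ≤ U ⊔ zpowers d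
  ww : w * w = 1
  wT : w ∉ 𝒩 U
  wk : w ∈ 𝒩 (zpowers d)

theorem B1.map {X G : Type} [Group X] [Group G] [Finite X] [Finite G] {A U : Subgroup X} {d w : X}
    (h : B1 U A d w) (f : X →* G) (hk : f.ker ≤ center X) (hs : Smp f.range) :
    B0 f.range (U.map f) (f d) (f w) ∧ Om 2 (U.map f) = A.map f ∧ U ⊓ f.ker = ⊥ := by
  have t : Ty A U d := ⟨h.tor, h.ty.imp_right .inr⟩
  have p := ty_pg t h.el
  have hi : U ⊓ f.ker = ⊥ := eq_bot_iff.2 fun x hx => by_contra fun e => h.wT (h.ti w x hx.1 e (by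
    rw [mem_center_iff.1 (hk hx.2), mul_inv_cancel_right]; exact hx.1))
  have sy : IsSyl 2 U ⊤ := IsSyl.of_normalizer ⟨le_inf le_top (le_norm U), p, fun e =>
    h.tor.odd.not_two_dvd_nat (by
      rw [top_inf_eq, le_antisymm h.bor (sup_le (le_norm U) (zpowers_le.2 (ty_kT t))),
        ri_sup (zpowers_le.2 (ty_kT t))] at e
      exact card_zpow d ▸ e.trans (ri_dvd_card _ _))⟩
  have eq : ∀ g, ∀ x ∈ U, f (g * x * g⁻¹) ∈ U.map f → g * x * g⁻¹ ∈ U := by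
    rintro g x hx ⟨y, hy, e⟩
    have c : y⁻¹ * (g * x * g⁻¹) ∈ center X := hk (show f _ = 1 by
      rw [map_mul, map_inv, e, inv_mul_cancel])
    refine (mul_mem_cancel_left (inv_mem hy)).1 (sy.mem_of_mem_normalizer trivial ?_
      (center_le_normalizer _ c))
    obtain ⟨m, a⟩ := isPGroup_iff_forall.1 p x hx
    obtain ⟨n, b⟩ := isPGroup_iff_forall.1 p _ (inv_mem hy)
    refine ⟨m + n, ?_⟩
    rw [Commute.mul_pow, pow_add, mul_comm (2 ^ m), pow_mul, b, mul_comm (2 ^ n), pow_mul, conj_pow, a]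
    · simp
    · have := mem_center_iff.1 c y⁻¹
      rwa [mul_assoc y⁻¹ _ y⁻¹, mul_right_inj] at this
  have nm : ∀ g, f g ∈ 𝒩 (U.map f) ↔ g ∈ 𝒩 U := fun g =>
    ⟨fun e => mem_normalizer_of_forall fun x hx => eq g x hx (by
      simpa using conj_mem_of_norm e (mem_map_of_mem f hx)),
      fun e => le_normalizer_map f (mem_map_of_mem f e)⟩
  have t' : Ty (A.map f) (U.map f) (f d) :=
    ⟨tor_map h.tor f, h.ty.imp (congrArg _) fun e => .inr (u3g_map e hi)⟩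
  have om := ty_Om t' (h.el.map f)
  refine ⟨⟨hs, MonoidHom.range_eq_map f ▸ sy.map f, om ▸ h.el.map f,
    by rw [om, card_map_of hi (ty_le t)]; exact h.four, om ▸ t', ?_, ?_, ⟨d, rfl⟩, le_antisymm ?_
      (sup_le (le_inf (map_le_range f U) (le_norm _)) (zpowers_le.2 ⟨⟨d, rfl⟩, ty_kT t'⟩)),
    ⟨w, rfl⟩, by rw [← map_mul, h.ww, map_one], mt (nm w).1 h.wT,
    f.map_zpowers d ▸ le_normalizer_map f (mem_map_of_mem f h.wk)⟩, om, hi⟩
  · rintro _ ⟨g, rfl⟩ _ ⟨x, hx, rfl⟩ x1 e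
    exact (nm g).2 (h.ti g x hx (fun e => x1 (e ▸ map_one f)) (eq g x hx (by simpa using e)))
  · rintro _ ⟨g, rfl⟩ _ ⟨k, rfl⟩ a1 a2
    obtain ⟨s, hs, b, hb, rfl⟩ := h.bru g (mt (nm g).2 a1)
    obtain ⟨s', hs', b', hb', rfl⟩ := h.bru k (mt (nm k).2 a2)
    refine ⟨_, mem_map_of_mem f (mul_mem hs (inv_mem hs')), ?_⟩
    rw [← map_inv, ← map_mul, ← map_mul, nm]
    convert mul_mem (inv_mem hb) hb' using 1; group
  · rintro _ ⟨⟨g, rfl⟩, e⟩
    rw [← f.map_zpowers, ← Subgroup.map_sup]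
    exact mem_map_of_mem f (h.bor ((nm g).1 e))

/-- moving the Sylow subgroup of the model to `T` -/
theorem B1.at {X G : Type} [Group X] [Group G] [Finite X] [Finite G] {A U : Subgroup X} {d w : X}
    (h : B1 U A d w) {L T : Subgroup G} (f : X →* L) (hf : Function.Surjective f)
    (hk : f.ker ≤ center X) (hs : Smp L) (hT : IsSyl 2 T L) :
    ∃ k w, B0 L T k w ∧ ♯(Om 2 T) = ♯A ∧ (U = A → T = Om 2 T) ∧ (U3G A U d → U3G (Om 2 T) T k) := by
  have r : (L.subtype.comp f).range = L := by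
    rw [MonoidHom.range_comp, MonoidHom.range_eq_top.2 hf, ← MonoidHom.range_eq_map, range_subtype]
  have k1 : (L.subtype.comp f).ker ≤ center X := fun x hx => hk (Subtype.ext hx)
  have s := (h.map _ k1 (r.symm ▸ hs)).1.syl
  rw [r] at s
  obtain ⟨g, g1, rfl⟩ := s.exists_cj_eq hT
  let φ := (MulAut.conj g).toMonoidHom.comp (L.subtype.comp f)
  have r' : φ.range = L := by rw [MonoidHom.range_comp, r]; exact cj_eq_of_mem g1
  obtain ⟨a, b, c⟩ := h.map φ (fun x hx => k1 ((MulAut.conj g).injective (hx.trans (map_one _).symm)))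
    (r'.symm ▸ hs)
  have e : cj g (U.map (L.subtype.comp f)) = U.map φ := map_map _ _ _
  rw [r'] at a
  rw [e]
  exact ⟨_, _, a, by rw [b, card_map_of c (ty_le ⟨h.tor, h.ty.imp_right .inr⟩)],
    fun i => by rw [b, i], fun i => b ▸ u3g_map i c⟩

section SL
open Matrix Cfsg.H3
variable {F : Type} [Field F]

/-- the upper unitriangular subgroup -/
def slT (F : Type) [Field F] : Subgroup SL(2, F) :=
  (MonoidHom.mk' (fun b : Multiplicative F => U b.toAdd) fun _ _ => U_add _ _).range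

theorem mem_slT {x : SL(2, F)} : x ∈ slT F ↔ ∃ b, U b = x := Iff.rfl

theorem U_mem (b : F) : U b ∈ slT F := ⟨b, rfl⟩

theorem sl_mul (x y : SL(2, F)) (i j : Fin 2) : (x * y) i j = x i 0 * y 0 j + x i 1 * y 1 j :=
  (mul_apply (M := x.1) (N := y.1)).trans (Fin.sum_univ_two _)

/-- diagonal matrices -/
def slD : Fˣ →* SL(2, F) := MonoidHom.mk'
  (fun l => ⟨!![(l : F), 0; 0, (l : F)⁻¹], by simp [det_fin_two]⟩) fun a b => by
    ext i j; refine Eq.trans ?_ (sl_mul ..).symm; fin_cases i <;> fin_cases j <;> simp [mul_comm]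

theorem slW_coe [CharP F 2] : (slW F).1 = !![0, 1; 1, 0] := rfl

theorem slD_coe (l : Fˣ) : (slD l).1 = !![(l : F), 0; 0, (l : F)⁻¹] := rfl

theorem U_inj {a b : F} (h : U a = U b) : a = b := by
  simpa [U_coe] using congrArg (fun x : SL(2, F) => x.1 0 1) h

theorem sl_norm [Finite F] {x : SL(2, F)} (h : x 1 0 = 0) : x ∈ 𝒩 (slT F) :=
  mem_normalizer_of_forall (by rintro _ ⟨b, rfl⟩; exact ⟨_, (conj_U_of_upper x h _).symm⟩)

theorem sl_ti {g x : SL(2, F)} (hx : x ∈ slT F) (x1 : x ≠ 1) (h : g * x * g⁻¹ ∈ slT F) :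
    g 1 0 = 0 := by
  obtain ⟨b, rfl⟩ := mem_slT.1 hx
  obtain ⟨c, e⟩ := mem_slT.1 h
  have := congrArg (fun x : SL(2, F) => x.1 1 1) (eq_mul_inv_iff_mul_eq.1 e)
  simp [U_coe, sl_mul] at this
  exact this.resolve_right fun e => x1 (e ▸ U_zero)

theorem b1_sl [Fintype F] [CharP F 2] (hF : 4 ≤ Fintype.card F) :
    ∃ d, B1 (slT F) (slT F) d (slW F) ∧ ♯(slT F) = Fintype.card F := by
  obtain ⟨l, l1, l2⟩ := Kx.exists_gen (F := F)
  have c : ♯(slT F) = Fintype.card F := by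
    rw [← Nat.card_eq_fintype_card]
    exact (Nat.card_congr (Equiv.ofBijective (fun b : F => (⟨U b, b, rfl⟩ : slT F))
      ⟨fun a b e => U_inj (congrArg Subtype.val e), fun ⟨_, b, e⟩ => ⟨b, Subtype.ext e⟩⟩)).symm
  have u1 : U (1 : F) ≠ 1 := fun e => one_ne_zero (U_inj (e.trans U_zero.symm))
  have ww := slW_sq (F := F)
  have wi := inv_eq_of_mul_eq_one_right ww
  refine ⟨slD l, ⟨elem_of_sq ?_, c ▸ hF, ⟨?_, sl_norm (by simp [slD_coe]), ?_⟩, .inl rfl,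
    fun g x a b e => sl_norm (sl_ti a b e), fun g hg => ?_, fun g hg => ?_, ww, fun e => ?_,
    mem_normalizer_of_forall ?_⟩, c⟩
  · rintro _ ⟨b, rfl⟩
    exact (U_add _ _).symm.trans (by rw [CharTwo.add_self_eq_zero, U_zero])
  · refine Odd.of_dvd_nat ?_ (orderOf_map_dvd slD l)
    obtain ⟨n, -, hn⟩ := FiniteField.card F 2
    rw [← Nat.not_even_iff_odd, ← Nat.even_add_one, l1, hn]
    exact (Nat.even_pow' n.ne_zero).2 even_two
  · intro a ha b hb a1 b1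
    obtain ⟨a, rfl⟩ := mem_slT.1 ha
    obtain ⟨b, rfl⟩ := mem_slT.1 hb
    have a0 : a ≠ 0 := fun e => a1 (e ▸ U_zero)
    have b0 : b ≠ 0 := fun e => b1 (e ▸ U_zero)
    obtain ⟨r, hr⟩ := FiniteField.isSquare_of_char_two (ringChar.eq F 2) (b / a)
    obtain ⟨n, hn⟩ := l2 (Units.mk0 r fun e => div_ne_zero b0 a0 (by rw [hr, e, mul_zero]))
    refine ⟨n, ?_⟩
    rw [← map_pow, hn, conj_U_of_upper _ (by simp [slD_coe])]
    simp [slD_coe, sq, ← hr, a0]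
  · have h0 : g 1 0 ≠ 0 := fun e => hg (sl_norm e)
    refine ⟨U (g 0 0 / g 1 0), U_mem _, _, sl_norm ?_, (mul_inv_cancel_left _ _).symm⟩
    rw [_root_.mul_inv_rev, wi, ← U_neg]
    simp [U_coe, slW_coe, sl_mul, h0]
  · have h0 := sl_ti (U_mem 1) u1 (conj_mem_of_norm hg (U_mem 1))
    have h1 := det_SL2 g
    rw [h0, mul_zero, sub_zero] at h1
    have h2 := left_ne_zero_of_mul_eq_one h1
    obtain ⟨n, hn⟩ := l2 (Units.mk0 _ h2)
    rw [show g = U (g 0 1 * g 0 0) * slD l ^ n by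
      rw [← map_pow, hn]
      ext i j; fin_cases i <;> fin_cases j <;>
        simp [U_coe, slD_coe, sl_mul, h0, h2, eq_inv_of_mul_eq_one_right h1]]
    exact mul_mem_sup (U_mem _) (pow_mem (mem_zpowers _) n)
  · simpa [slW_coe] using sl_ti (U_mem 1) u1 (conj_mem_of_norm e (U_mem 1))
  · rintro _ ⟨n, rfl⟩
    refine ⟨-n, ?_⟩
    simp only [wi, ← map_zpow]
    rw [_root_.zpow_neg]
    generalize l ^ n = m
    ext i j; fin_cases i <;> fin_cases j <;> simp [slW_coe, slD_coe, sl_mul]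

end SL

section SU
open Matrix Cfsg.H3 Cfsg.H3.U3
variable {F : Type} [Field F] {σ : F →+* F} [Invol σ]

variable (σ) in
/-- the centre of `UU` -/
def uZ : Subgroup (U3 σ) where
  carrier := {g | ∃ b h, g = u 0 b h}
  one_mem' := ⟨0, by simp, (u_zero _).symm⟩
  mul_mem' := by
    rintro _ _ ⟨b, h, rfl⟩ ⟨c, h', rfl⟩
    exact ⟨_, _, (u_mul ..).trans (u_congr _ (add_zero 0) rfl)⟩
  inv_mem' := by
    rintro _ ⟨b, h, rfl⟩
    exact ⟨_, _, (u_inv ..).trans (u_congr _ neg_zero rfl)⟩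

variable (σ) in
/-- the diagonal elements -/
def uD : Fˣ →* U3 σ := MonoidHom.mk' (d σ) fun a b => M_injective (by
  ext i j; rw [M_mul_apply]; fin_cases i <;> fin_cases j <;> simp [M_d, mul_comm]
  field_simp)

theorem b1_su [Fintype F] [CharP F 2] {q : ℕ} (hF : Fintype.card F = q ^ 2) (h4 : 4 ≤ q)
    (hσ : ∀ x, σ x = x ^ q) (hN : ∀ m, σ m = m → ∃ a, σ a * a = m)
    (hT : ∀ a, ∃ b, b + σ b + a * σ a = 0) :
    ∃ k, B1 (UU σ) (uZ σ) k (w σ) ∧ U3G (uZ σ) (UU σ) k ∧ ♯(uZ σ) = q := by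
  obtain ⟨l, l1, l2⟩ := Kx.exists_gen (F := F)
  have cf := H2.card_fixed_ne_zero hF
  have two : (2 : F) = 0 := CharTwo.two_eq_zero
  have z1 : ∀ b h, u (σ := σ) 0 b h = 1 ↔ b = 0 := fun b h =>
    ⟨fun e => by simpa [M_u, M_one] using congrArg (M · 0 2) e, by rintro rfl; exact u_zero _⟩
  have c : ♯(uZ σ) = q := by
    rw [← Ax.card_sharp, ← Nat.sub_add_cancel (by omega : 1 ≤ q), ← cf]
    refine congrArg (· + 1) (Nat.card_congr (Equiv.ofBijective (fun b =>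
      ⟨u 0 b.1 (by rw [hσ, b.2.2]; simp [CharTwo.add_self_eq_zero]), ⟨_, _, rfl⟩,
        mt (z1 _ _).1 b.2.1⟩) ⟨fun a b e => Subtype.ext ?_, ?_⟩)).symm
    · simpa [M_u] using congrArg (fun x => M x.1 0 2) e
    · rintro ⟨_, ⟨b, h, rfl⟩, e⟩
      exact ⟨⟨b, mt (z1 _ _).2 e, by rw [← hσ]; linear_combination h - b * two⟩, rfl⟩
  have le : uZ σ ≤ UU σ := by rintro _ ⟨b, h, rfl⟩; exact ⟨_, _, _, rfl⟩
  have hne : UU σ ≠ ⊥ := ne_bot_of_le (ne_bot_of_card (by omega)) le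
  have kT : ∀ l, uD σ l ∈ 𝒩 (UU σ) := fun l => u3_norm (by simp [uD, M_d])
  have cd : ∀ l a b h, ∃ h', uD σ l * u a b h * (uD σ l)⁻¹ =
    u (σ l ^ 2 / l * a) (l * σ l * b) h' := u3_conj_d
  have u3 : U3G (uZ σ) (UU σ) (uD σ l) := by
    refine Co3.u3g (π := fun x => M x 1 2) (ι := fun x => M x 0 2) (l := σ l ^ 2 / l)
      ⟨isPGroup_UU 2, le, ?_, kT l, c ▸ hF, ?_, ?_, fun a => ?_, ?_, ?_, ?_, ?_, ?_, ?_, ?_⟩
    · rintro _ ⟨a, b, h, rfl⟩
      refine mem_cent.2 ?_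
      rintro _ ⟨e, h', rfl⟩
      rw [u_mul, u_mul]
      exact u_congr _ (by ring) (by simp; ring)
    · rintro _ ⟨a, b, h, rfl⟩ _ ⟨a', b', h', rfl⟩
      simp [u_mul, M_u]
    · rintro _ ⟨a, b, h, rfl⟩
      refine ⟨fun e => ?_, fun ⟨e, h', i⟩ => by simp [i, M_u]⟩
      obtain rfl : a = 0 := by simpa [M_u] using e
      exact ⟨_, _, rfl⟩
    · obtain ⟨b, h⟩ := hT a
      exact ⟨u a b h, ⟨_, _, _, rfl⟩, by simp [M_u]⟩
    · rintro _ ⟨b, h, rfl⟩ _ ⟨b', h', rfl⟩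
      simp [u_mul, M_u]
    · rintro _ ⟨b, h, rfl⟩ e
      exact (z1 _ _).2 (by simpa [M_u] using e)
    · rintro _ ⟨a, b, h, rfl⟩
      exact ⟨_, _, (u_mul ..).trans (u_congr _ (CharTwo.add_self_eq_zero a) rfl)⟩
    · rintro _ ⟨a, b, h, rfl⟩
      rw [c, pow_succ, ← hσ]
      simp [u_mul, M_u, CharTwo.add_self_eq_zero, CharTwo.neg_eq]
    · rintro _ ⟨a, b, h, rfl⟩
      obtain ⟨h', e⟩ := cd l a b h
      simp [e, M_u]
    · rintro _ ⟨b, h, rfl⟩
      obtain ⟨h', e⟩ := cd l 0 b h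
      rw [c, pow_succ, ← hσ]
      simp [e, M_u, Invol.invol]
      left; field_simp
    · have e : σ l ^ 2 / l = (l ^ (2 * q - 1) : Fˣ) := by
        rw [hσ, div_eq_iff l.ne_zero, Units.val_pow_eq_pow_val, ← pow_succ, ← pow_mul,
          Nat.sub_add_cancel (by omega), mul_comm]
      obtain ⟨r, rfl⟩ : ∃ r, q = r + 1 := ⟨q - 1, by omega⟩
      have o : orderOf l = r * (r + 2) := by rw [hF] at l1; nlinarith
      have g : Nat.gcd (r * (r + 2)) (2 * (r + 1) - 1) = Nat.gcd 3 (r + 1 + 1) := by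
        rw [show 2 * (r + 1) - 1 = 2 * r + 1 by omega, Nat.Coprime.gcd_mul_left_cancel _ (by simp)]
        refine Nat.dvd_antisymm (Nat.dvd_gcd ?_ (Nat.gcd_dvd_left ..))
          (Nat.dvd_gcd (Nat.gcd_dvd_right ..) ?_)
        · exact (Nat.dvd_add_right (Nat.gcd_dvd_right ..)).1
            ((show 2 * r + 1 + 3 = 2 * (r + 2) by ring) ▸ (Nat.gcd_dvd_left ..).mul_left 2)
        · exact (Nat.dvd_add_left (Nat.gcd_dvd_left ..)).1
            ((show 2 * r + 1 + 3 = 2 * (r + 1 + 1) by ring) ▸ (Nat.gcd_dvd_right ..).mul_left 2)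
      rw [e, c, orderOf_units, orderOf_pow' _ (by omega), o, ← g,
        Nat.div_mul_cancel (Nat.gcd_dvd_left ..)]
      ring
  refine ⟨uD σ l, ⟨(co3_of u3).elim fun _ ⟨_, _, _, _, _, c⟩ => c.elem, c ▸ h4,
    ⟨?_, (co3_of u3).elim fun _ ⟨_, _, _, _, _, c⟩ => c.kA, ?_⟩, .inr u3,
    fun g x a b e => u3_norm (u3_ti a b e), fun g => u3_bruhat, fun g hg => ?_, w_mul_w,
    by rw [u3_mem_norm hne]; simp [M_w], mem_normalizer_of_forall ?_⟩, u3, c⟩
  · refine Odd.of_dvd_nat ?_ (orderOf_map_dvd (uD σ) l)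
    obtain ⟨n, -, hn⟩ := FiniteField.card F 2
    rw [← Nat.not_even_iff_odd, ← Nat.even_add_one, l1, hn]
    exact (Nat.even_pow' n.ne_zero).2 even_two
  · rintro _ ⟨a, ha, rfl⟩ _ ⟨b, hb, rfl⟩ a1 b1
    have a0 := mt (z1 _ _).2 a1
    have b0 := mt (z1 _ _).2 b1
    obtain ⟨r, hr⟩ := hN (b / a) (by
      rw [map_div₀, show σ a = a by linear_combination ha - a * two,
        show σ b = b by linear_combination hb - b * two])
    obtain ⟨n, hn⟩ := l2 (Units.mk0 r fun e => div_ne_zero b0 a0 (by rw [← hr, e, mul_zero]))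
    obtain ⟨h', e⟩ := cd (l ^ n) 0 a ha
    exact ⟨n, by
      rw [← map_pow, e]
      exact u_congr _ (mul_zero _) (by rw [hn, Units.val_mk0, mul_comm r, hr, div_mul_cancel₀ _ a0])⟩
  · have h := (u3_mem_norm hne).1 hg
    have h0 : M g 0 0 ≠ 0 := fun e => by simpa [det_fin_three, e, h, u3_col h] using M_det g
    obtain ⟨n, hn⟩ := l2 (Units.mk0 _ h0)
    rw [← mul_inv_cancel_left (uD σ l ^ n) g, sup_comm]
    refine mul_mem_sup (pow_mem (mem_zpowers _) n) (u3_uni ?_ ?_) <;> rw [← map_pow, hn]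
    · simp [uD, M_mul_apply, M_inv_apply, M_d, Fin.rev, h]
    · simp [uD, M_mul_apply, M_inv_apply, M_d, Fin.rev, h0, Invol.invol]
  · rintro _ ⟨n, rfl⟩
    refine ⟨-(n * q), ?_⟩
    simp only [w_inv, ← map_zpow]
    rw [_root_.zpow_neg, _root_.zpow_mul, zpow_natCast]
    generalize l ^ n = m
    refine M_injective ?_
    have e : ((m ^ q : Fˣ) : F) = σ m := by rw [hσ, Units.val_pow_eq_pow_val]
    ext i j; fin_cases i <;> fin_cases j <;>
      simp [uD, M_w, M_d, M_mul_apply, -Units.val_pow_eq_pow_val, e, Invol.invol, div_eq_inv_mul,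
        mul_comm]

end SU

section
variable {G : Type} [Group G] [Finite G] {L T M : Subgroup G} {k : G}

theorem benP_sz (hi : Lie.IsoSuzuki L) (h : SzP L T k) : BenP L T k := by
  obtain ⟨w, w1, w2, w3, w4⟩ := h.wl
  have e := Kx.szp_om h
  refine B0.benP (w := w) ⟨h.smp, h.syl, e ▸ elem_of_sq h.s2g.one,
    by have := Kx.szp_card h; rw [e]; omega, e ▸ ⟨tor_of_s2g h.s2g, .inr (.inl h.s2g)⟩, h.rb.ti,
    h.rb.two, h.kL, h.bor, w1, w2, w3, cj_eq_iff.1 ?_⟩ (.inr (.inl ⟨hi, h⟩))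
  rw [cj_zpowers', inv_self_of w2, w4, zpowers_inv]

theorem benP_sl (hs : Smp L) (hT : IsSyl 2 T L) {F : Type} [Field F] [Fintype F] [CharP F 2]
    (hF : 4 ≤ Fintype.card F) (ψ : L ≃* SL(2, F)) : ∃ k, BenP L T k := by
  obtain ⟨d, b, c⟩ := b1_sl hF
  obtain ⟨k, w, a1, a2, a3, -⟩ := b.at ψ.symm.toMonoidHom ψ.symm.surjective
    (((MonoidHom.ker_eq_bot_iff _).2 ψ.symm.injective).le.trans bot_le) hs hT
  exact ⟨k, a1.benP (.inl ⟨F, _, _, (a2.trans c).symm, a3 rfl, ⟨ψ⟩⟩)⟩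

open Cfsg.H3 Cfsg.H3.U3 in
theorem benP_su (hs : Smp L) (hT : IsSyl 2 T L) {F : Type} [Field F] [Fintype F] {q : ℕ}
    (h2 : Even q) (h4 : 4 ≤ q) (hF : Fintype.card F = q ^ 2) (ψ : L ≃* PSU 3 F q) :
    ∃ k, BenP L T k := by
  have : CharP F 2 := ringChar.of_eq (FiniteField.even_card_iff_char_two.2
    (Nat.even_iff.1 (hF ▸ h2.pow_of_ne_zero two_ne_zero)))
  obtain ⟨d, b, u, c⟩ := b1_su hF h4 (H2.frobq_apply hF) (frobq_norm hF) (frobq_exists_tr hF)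
  obtain ⟨e⟩ := nonempty_U3_equiv hF
  obtain ⟨k, w, a1, a2, -, a3⟩ := b.at (ψ.symm.toMonoidHom.comp
    ((QuotientGroup.mk' _).comp e.toMonoidHom)) (ψ.symm.surjective.comp
      ((QuotientGroup.mk'_surjective _).comp e.surjective)) (fun x hx => by
      have h3 : e x ∈ center (SU 3 F q) :=
        (QuotientGroup.eq_one_iff _).1 (ψ.symm.injective (hx.trans (map_one _).symm))
      exact mem_center_iff.2 fun k => e.injective (by
        rw [map_mul, map_mul e _ k]; exact mem_center_iff.1 h3 _)) hs hT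
  obtain rfl := a2.trans c
  exact ⟨k, a1.benP (.inr (.inr ⟨F, _, _, hF, a3 u, ⟨ψ⟩⟩))⟩

/-- Bender's theorem for a simple subgroup -/
theorem benP_of (hs : Smp L) (hT : IsSyl 2 T L) (hM : H9.SPE 2 M L) : ∃ k, BenP L T k := by
  have s := hs.isSimpleGroup
  obtain ⟨a, -, a2⟩ := exists_orderOf_eq (A := (⊤ : Subgroup L)) Nat.prime_two
    (by rw [card_top]; exact hs.even)
  have a1 : a ≠ 1 := fun e => by simp [e] at a2
  have e0 : pPrimeCore 2 L = ⊥ := Op_top_compl.symm.trans (Fx.O2_top s hs.even)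
  let e1 : L ≃* L ⧸ pPrimeCore 2 L :=
    ((QuotientGroup.quotientMulEquivOfEq e0).trans QuotientGroup.quotientBot).symm
  have e2 : pElementClosure 2 (⊤ : Subgroup (L ⧸ pPrimeCore 2 L)) = ⊤ :=
    (Fx.eq_or e1.symm.isSimpleGroup (pEC_nrm 2 ⊤).norm).resolve_left (ne_bot_of_mem
      (subset_closure ⟨mem_top (e1 a), 1, by rw [e1.orderOf_eq, a2, pow_one]⟩) (by simpa using a1))
  let φ := (e1.trans topEquiv.symm).trans (MulEquiv.subgroupCongr e2.symm)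
  rcases bender.main _ hM.isStronglyPEmbedded with h5 |
    ⟨F, _, _, h5, h6, ⟨ψ⟩⟩ | ⟨F, _, _, q, h5, h6, h7, ⟨ψ⟩⟩ | h5
  · exact absurd (by simpa [e0] using (h5 a a2).1) (Fx.cent1_ne s hs.not_comm a1)
  · exact benP_sl hs hT h6 (φ.trans ψ)
  · exact benP_su hs hT h5 h6 h7 (φ.trans ψ)
  · exact (Kx.k0 G L T (Ux.iso_congr φ h5) hT).imp fun _ => benP_sz (Ux.iso_congr φ h5)

end

theorem smp_of_qs {X : Type*} [Group X] {L : Subgroup X} (h : QS L) (z : 𝒵 L = ⊥) (e : 2 ∣ ♯L) :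
    Smp L :=
  ⟨fun _ hN => (h.eq_or_comm_of_sn hN.sn).symm.imp_left fun i =>
    eq_bot_of_le z (le_inf hN.le (cent_symm (comm_eq_bot_iff.1 i))),
    fun a => h.not_isMulCommutative (abel_iff.1 a), e⟩

theorem kB : KB := fun _ _ _ _ _ _ a b c _ => benP_of a b c

open Kx in
/-- a component on which `A` acts faithfully -/
theorem st_one {X : Type} [Group X] [Finite X] {A H L S : Subgroup X} (h : St H S A) (hL : Cp L H)
    (h0 : A ≠ ⊥) (h1 : A ⊓ 𝒞 L = ⊥) :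
    H ≤ 𝒩 L ∧ Smp L ∧ A ≤ S ⊓ L ∧ ∀ x ∈ S ⊓ L, x * x = 1 → x ∈ A := by
  have a := (h.le_iff hL).2 fun e => h0 (h1 ▸ (inf_eq_left.2 e).symm)
  have z := hL.ctr_eq_bot h.o h.syl fun z z1 z2 =>
    eq_one_of_mem h1 ⟨h.om z1.1 (a z1.2.1) z2, z1.2.2⟩
  refine ⟨fun g hg => by_contra fun n => ?_, smp_of_qs hL.qs z hL.even, fun x hx => ?_,
    fun x hx => h.om hx.1 (a hx.2)⟩
  · have b := hL.cj (le_norm H hg)
    obtain ⟨z, z1, z2, z3⟩ := b.exists_inv h.syl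
    exact z3 (eq_one_of_mem h1 ⟨h.om z1.1 (cj_le_of_le a (h.nrm.norm hg) z1.2) z2,
      b.cent hL (fun e => n (cj_eq_iff.1 e)) z1.2⟩)
  · obtain ⟨l, l1, c, c1, rfl⟩ := h.split hL (h.sc.le hx) (le_ncl H A hx)
    by_cases e : c = 1
    · rwa [e, mul_one]
    obtain ⟨d, d1, d2, d3⟩ := exists_inv_of_two h.syl.isPGroup c1.1 e
    have d4 := zpowers_le.2 c1 d1
    exact (d3 (eq_one_of_mem h1 ⟨h.om d4.1 (zpowers_le.2
      ((mul_mem_cancel_left (a l1.2)).1 (le_ncl H A hx)) d1) d2, d4.2⟩)).elim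

open Kx in
theorem kG : KG := by
  intro G _ _ H T B M hs hT hB he h4 hN hC hM
  obtain ⟨Q, _, _, f, hf, hk⟩ := exists_quo0 (Op_nrm {2}ᶜ H)
  have BH := hB.le.trans hT.le
  have ca := ca_ker hk BH he.pgroup
  have st := st_down hs hk hT hB he.abel
  have kM : up f ⊥ ≤ H ⊓ M := le_inf (up_le _ _) (gen_cent1 he.abel (not_cyc he h4) ca.norm ca.cop'
    fun b a c => (inf_le_inf_right _ (up_le _ _)).trans (hC b a c))
  have nM : down f H ⊓ 𝒩 (down f B) ≤ down f (H ⊓ M) := by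
    rw [← ca.down_norm_ker BH le_rfl (up_le _ _)]
    exact down_mono f (le_inf inf_le_left hN)
  have cM : ∀ b ∈ down f B, b ≠ 1 → down f H ⊓ 𝒞₁ b ≤ down f (H ⊓ M) := by
    rintro _ ⟨b, b1, rfl⟩ i
    refine (down_cent1 hk ((sq _).symm.trans (he.pow b1))).ge.trans
      (down_mono f (le_inf inf_le_left (hC b b1 fun e => i ?_)))
    rw [show b = 1 from Subtype.ext e, map_one]
  obtain ⟨L, hL, -, a⟩ : ∃ L, Cp L (down f H) ∧ ¬ down f B ≤ 𝒞 L ∧ ¬ L ≤ down f (H ⊓ M) := by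
    by_contra! i
    exact hM ((le_of_down_le le_rfl inf_le_left kM (st.gen' nM i)).trans inf_le_right)
  have h0 : down f B ≠ ⊥ := fun e => not_cyc he h4 (by
    rw [← inf_eq_left.2 ((down_eq_bot_iff BH).1 e), inf_eq_bot_of_cop ca.cop'.symm]
    exact cyc_bot)
  obtain ⟨n, h1, h2, h3⟩ := st_one st hL h0 (eq_bot_iff.2 fun b hb => by_contra fun i =>
    a ((le_inf hL.le (le_cent1_iff.2 hb.2)).trans (cM b hb.1 i)))
  have sy := hL.syl st.syl
  have e : down f B = Om 2 (down f T ⊓ L) := le_antisymm ((he.down f).le_Om h2)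
    (Om_le_iff.2 fun x a b => h3 x a ((sq x).symm.trans b))
  have nT : down f H ⊓ 𝒩 (down f T ⊓ L) ≤ down f (H ⊓ M) :=
    (inf_le_inf_left _ (e ▸ norm_le_norm_Om 2 _)).trans nM
  have TM := (le_inf (sy.le.trans hL.le) (le_norm _)).trans nT
  obtain ⟨k, hk'⟩ := benP_of h1 sy (H9.spe_of_centralizer (X := L ⊓ down f (H ⊓ M)) inf_le_left
    (fun i => a (i.ge.trans inf_le_right))
    ((syl_iff7 Nat.prime_two).1 (sy.mono (le_inf sy.le TM) inf_le_left))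
    (le_inf inf_le_left ((inf_le_inf_right _ hL.le).trans nT)) fun x a b c => le_inf inf_le_left
      ((inf_le_inf_right _ hL.le).trans (cM x (h3 x a ((sq x).symm.trans c)) b)))
  exact ⟨Q, _, ‹_›, f, L, k, hf, hk, normal_of_top_le (down_top hf ▸ n), hk', e⟩

end Cfsg.GS.Nx
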