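import Cfsg.Agent.GS.G2
import Cfsg.Agent.GS.N3

/-! Involutions outside `I` in the uniqueness case: (c), local data `Loc`. -/

set_option autoImplicit false
set_option linter.unusedSectionVars false

namespace Cfsg.GS.Gx

open Subgroup Cfsg.L0 Cfsg.H8 Cfsg.FT Cfsg.BS Cfsg.BS.R Cfsg.GS.T3 Cfsg.GS.T4 Cfsg.GS.Ax MulAction
open Cfsg.GS.Nx
open scoped commutatorElement

/-- if `|A| = 4`, involutions of `N(A)` centralize `A` -/
theorem four_cent {G : Type} [Group G] [Finite G] {S A : Subgroup G} {z : G} (h : Mg S A)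
    (h4 : ♯A = 4) (hz : z ∈ 𝒩 A) (z2 : z * z = 1) : z ∈ 𝒞 A := by
  classical
  have := Fintype.ofFinite A
  by_contra hc
  let φ : 𝒩 A →* Equiv.Perm A := (MulAut.toPerm A).comp A.normalizerMonoidHom
  have e : ∀ a : A, (φ ⟨z, hz⟩ a : G) = z * a * z⁻¹ := fun a => rfl
  have s1 : (φ ⟨z, hz⟩).support ≠ ∅ := fun i => hc (mem_cent.2 fun a ha => by
    have := e ⟨a, ha⟩
    rw [Equiv.Perm.support_eq_empty_iff.1 i] at this
    exact eq_mul_inv_iff_mul_eq.1 this)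
  have s2 := Equiv.Perm.two_dvd_card_support (σ := φ ⟨z, hz⟩)
    (by rw [← map_pow, ← map_one φ]; exact congrArg φ (Subtype.ext ((sq z).trans z2)))
  have s3 : (φ ⟨z, hz⟩).support.card < 4 := by
    rw [← h4, Nat.card_eq_fintype_card]
    refine Finset.card_lt_card (Finset.ssubset_univ_iff.2 fun i => ?_)
    have : (1 : A) ∈ (φ ⟨z, hz⟩).support := i ▸ Finset.mem_univ _
    exact Equiv.Perm.mem_support.1 this (Subtype.ext (by rw [e]; simp))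
  have s4 := (Equiv.Perm.card_support_eq_two.1 (show (φ ⟨z, hz⟩).support.card = 2 by
    have := Finset.card_ne_zero.2 (Finset.nonempty_iff_ne_empty.2 s1); omega)).sign_eq
  refine h.two (up (Equiv.Perm.sign.comp φ) ⊥) (up_le _ _) ?_
  rw [ri_up _ _ le_rfl, down_top (f := Equiv.Perm.sign.comp φ) fun u => (Int.units_eq_one_or u).elim
    (fun i => ⟨1, by rw [i, map_one]⟩) fun i => ⟨_, i ▸ s4⟩, relIndex_bot_left, card_top]
  simp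

namespace GG
variable {G Ω : Type} [Group G] [Finite G] [MulAction G Ω] {A B S P H T X S1 : Subgroup G}
  {a b c d g x y z u v w : G} {α β γ δ : Ω} (h : GG S A α)
include h

theorem ncard_fix (hz : z * z = 1) (h1 : z • β = β) :
    {γ : Ω | z • γ = γ}.ncard = (𝒮 β).relIndex (𝒞₁ z) := by
  rw [← ncard_orbit]
  congr 1
  ext γ
  refine ⟨fun e => h.tr_fix hz h1 e, ?_⟩
  rintro ⟨g, hg, rfl⟩
  show z • g • β = g • β
  rw [← mul_smul, ← mem_cent1.1 hg, mul_smul, h1]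

theorem eight (hz : z ∈ 𝒩 A) (z2 : z * z = 1) (hc : z ∉ 𝒞 A) : 8 ≤ ♯A := by
  have a : ♯A ≠ 4 := fun e => hc (four_cent h.toMg e hz z2)
  have b := h.four
  obtain ⟨k, hk⟩ := h.elem.exists_card Nat.prime_two
  rw [hk] at a b ⊢
  rcases k with _ | _ | _ | k <;> (try simp only [pow_succ] at a b ⊢) <;> omega

theorem c0 (hz : Ivo z) (hI : ¬ InI A z) (hS : z ∈ S)
    (hT : IsSyl 2 (S ⊓ 𝒞₁ z) (𝒞₁ z ⊓ 𝒮 α)) :
    z ∈ 𝒞 A ∨ ♯A = ♯(A ⊓ 𝒞₁ z) ^ 2 := by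
  refine or_iff_not_imp_left.2 fun hc => ?_
  have big := h.eight (h.SN' hS) hz.2 hc
  have sc := h.sc.inf (le_top : 𝒞₁ z ≤ ⊤)
  have cm : ∀ a ∈ A, a * z * a⁻¹ * z⁻¹ ∈ A ⊓ 𝒞₁ z := fun a ha => by
    have m : z * a⁻¹ * z⁻¹ ∈ A := conj_mem_of_norm (h.SN' hS) (inv_mem ha)
    have e := h.elem.abel.comm ha m
    refine ⟨by rw [mul_assoc, mul_assoc, ← mul_assoc z]; exact mul_mem ha m, mem_cent1.2 ?_⟩
    have ia : a⁻¹ = a := inv_eq_of_mul_eq_one_right (sq1 h.elem ha)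
    rw [ia, hz.inv] at e ⊢
    calc a * z * a * z * z = a * (z * a * z) * z := by group
      _ = _ := by rw [e]; group
  have cd := card_inf_mul_ri (𝒞₁ z) A
  rw [inf_comm] at cd
  obtain ⟨j, hj⟩ := (h.elem.mono (inf_le_left : A ⊓ 𝒞₁ z ≤ A)).exists_card Nat.prime_two
  have le := ri_le_card cm
  have h4 : 4 ≤ ♯(A ⊓ 𝒞₁ z) := by
    have : 8 ≤ 2 ^ j * 2 ^ j := by rw [← hj]; nlinarith
    rw [hj]
    rcases j with _ | _ | j
    · omega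
    · omega
    · rw [pow_add, pow_add]; have := Nat.one_le_two_pow (n := j); omega
  have hT' : IsSyl 2 (S ⊓ 𝒞₁ z) (𝒞₁ z) := IsSyl.of_normalizer (hT.mono
    (le_inf inf_le_right (le_norm _)) (le_inf inf_le_left
      (sc.norm_le.trans (h.nB inf_le_left (ne_bot_of_card (by omega))))))
  obtain ⟨T1, R, k, q⟩ := h.ln kG (h.cent1_ne hz.1) hT' inf_le_left sc h4 (h.cent_not_le hz hI α)
  have kB := q.ty.1.kA
  have kz : k * z * k⁻¹ = z := by rw [mem_cent1.1 q.kH]; group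
  have kX : k ∈ 𝒩 (cosSt (A ⊓ 𝒞₁ z) z) := mem_normalizer_of_forall fun g hg =>
    ⟨conj_mem_of_norm (norm_le_norm_cent _ kB) hg.1, by
      have := conj_mem_of_norm kB hg.2
      rwa [cj_br, kz] at this⟩
  obtain ⟨P, p1, p2⟩ := exists_isSyl_ge (H := cosSt (A ⊓ 𝒞₁ z) z) h.elem.pgroup
    fun a ha => ⟨cent_mono h.elem.abel le_rfl inf_le_left ha, cm a ha⟩
  obtain ⟨x, hx, n, hn, e⟩ := p1.frattini kX
  replace hn : n ∈ 𝒩 A := (h.scl p1.isPGroup p2).norm_le ⟨trivial, hn⟩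
  have st : ∀ d, (∃ a ∈ A, a * z * a⁻¹ * z⁻¹ = d) → ∃ a ∈ A, a * z * a⁻¹ * z⁻¹ = k * d * k⁻¹ := by
    rintro _ ⟨a, ha, rfl⟩
    have ha' := conj_mem_of_norm hn ha
    refine ⟨_, ha', ?_⟩
    have b1 := (inv_mem hx).2
    have e1 : n * z * n⁻¹ = x⁻¹ * z * x⁻¹⁻¹ * z⁻¹ * z := by
      rw [show n = x⁻¹ * k by rw [e]; group]
      conv_rhs => rw [inv_mul_cancel_right, ← kz]
      group
    have e2 := mem_cent.1 hx.1 _ (conj_mem_of_norm kB (cm a ha))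
    have e3 : n * (a * z * a⁻¹ * z⁻¹) * n⁻¹ = k * (a * z * a⁻¹ * z⁻¹) * k⁻¹ := by
      rw [show n = x⁻¹ * k by rw [e]; group, show x⁻¹ * k * (a * z * a⁻¹ * z⁻¹) * (x⁻¹ * k)⁻¹ =
        x⁻¹ * (k * (a * z * a⁻¹ * z⁻¹) * k⁻¹ * x) by group, e2, inv_mul_cancel_left]
    rw [← e3, cj_br, e1]
    generalize x⁻¹ * z * x⁻¹⁻¹ * z⁻¹ = b at b1 ⊢
    generalize n * a * n⁻¹ = a' at ha' ⊢
    rw [← mul_assoc a' b, h.elem.abel.comm ha' b1.1, show b * a' * z * a'⁻¹ * (b * z)⁻¹ =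
      b * (a' * z * a'⁻¹ * z⁻¹) * b⁻¹ by group, h.elem.abel.comm b1.1 (cm a' ha').1,
      mul_inv_cancel_right]
  obtain ⟨a, ha, a1⟩ : ∃ a ∈ A, a * z * a⁻¹ * z⁻¹ ≠ 1 := by
    by_contra e
    push Not at e
    exact hc (mem_cent.2 fun a ha => by
      have := e a ha; rwa [mul_inv_eq_one, mul_inv_eq_iff_eq_mul] at this)
  have ge := card_le_ri (A := A) (B := A ⊓ 𝒞₁ z) (z := z) fun b hb => by
    by_cases b1 : b = 1
    · exact ⟨1, one_mem _, by rw [b1]; group⟩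
    obtain ⟨m, rfl⟩ := q.ty.1.tr _ (cm a ha) b hb a1 b1
    clear hb b1
    induction m with
    | zero => exact ⟨a, ha, by group⟩
    | succ m ih =>
      obtain ⟨a', ha', e⟩ := st _ ih
      exact ⟨a', ha', by rw [e, pow_succ']; group⟩
  rw [← cd, le_antisymm le ge, sq]

/-- (c): an involution outside `I` fixing `α` centralizes a conjugate of `A` under `M`, or acts
freely on it -/
theorem cent_conj (hz : Ivo z) (hI : ¬ InI A z) (h2 : z • α = α) :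
    ∃ m ∈ 𝒮 α, z ∈ 𝒩 (L0.cj m A) ∧ (z ∈ 𝒞 (L0.cj m A) ∨ ♯A = ♯(L0.cj m A ⊓ 𝒞₁ z) ^ 2) := by
  obtain ⟨T, t1, t2⟩ := exists_isSyl_ge (H := 𝒞₁ z ⊓ 𝒮 α) (card_zp2 hz.2)
    (zpowers_le.2 ⟨self_mem_cent1 z, h2⟩)
  obtain ⟨m, hm, q⟩ := h.sylM.exists_cj_le t1.isPGroup (t1.le.trans inf_le_right)
  have h' := h.cj m⁻¹
  rw [inv_fix hm] at h'
  rw [cj_le_iff] at q
  exact ⟨m⁻¹, inv_mem hm, h'.SN' (q (t2 (mem_zpowers z))), card_cj m⁻¹ A ▸ h'.c0 hz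
    (fun e => hI ((inI_cj _).1 e)) (q (t2 (mem_zpowers z)))
    (t1.of_ge (h'.syl.isPGroup.to_le inf_le_left) (le_inf q (t1.le.trans inf_le_left))
      (le_inf inf_le_right (inf_le_left.trans h'.sylM.le)))⟩

theorem not_I (hv : v ∉ A) (hc : v ∈ 𝒩 A) : ¬ InI A v := fun e => hv (h.mem_of
  (pgroup_sup (zpowers_le.2 hc) h.elem.pgroup (card_zp2 (h.ivo e).2)) le_sup_left
    (mem_sup_right (mem_zpowers v)) e)

theorem lnv (h0 : Ivo v) (hv : v ∉ A) (hc : v ∈ 𝒞 A) (hS : IsSyl 2 S1 (𝒞₁ v))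
    (hA : A ≤ S1) : ∃ T R k, Ln (𝒞₁ v) S1 A T R k α :=
  h.lnA kG (h.cent1_ne h0.1) hS hA (h.cent_not_le h0 (h.not_I hv (cent_le_norm A hc)) α)

theorem coset (h0 : Ivo v) (hv : v ∉ A) (hc : v ∈ 𝒞 A) (ha : a ∈ A) :
    Ivo (v * a) ∧ v * a ∉ A ∧ v * a ∈ 𝒞 A := by
  have n : v * a ∉ A := fun e => hv ((mul_mem_cancel_right ha).1 e)
  exact ⟨⟨fun e => n (e ▸ one_mem A), by
    rw [mul_assoc, ← mul_assoc a, mem_cent.1 hc a ha, mul_assoc v, sq1 h.elem ha, mul_one, h0.2]⟩,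
    n, mul_mem hc (h.elem.abel ha)⟩

/-- two commuting involutions of `C(A) \ A`: some `v a` has a common fixed point with `w` -/
theorem cross (h0 : Ivo v) (hv : v ∉ A) (hc : v ∈ 𝒞 A) (w0 : Ivo w) (hw : w ∉ A) (wc : w ∈ 𝒞 A)
    (e : v * w = w * v) : ∃ a ∈ A, ∃ γ, γ ≠ α ∧ w • γ = γ ∧ (v * a) • γ = γ := by
  obtain ⟨β, b1, b2⟩ := h.two_fix w0 (h.not_I hw (cent_le_norm A wc)) α
  by_cases i : v • β = β
  · exact ⟨1, one_mem _, β, b1, b2, by rwa [mul_one]⟩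
  obtain ⟨x, x1, x2, x3⟩ := h.exI w0.2 b2
  obtain ⟨c, c1, c2, c3, -, -, c4⟩ := h.lemB h0 (h.not_I hv (cent_le_norm A hc)) x1 x2 i
  have vw : v ∈ 𝒞₁ w := mem_cent1.2 e
  have cw : c ∈ 𝒞₁ w := (mul_mem_cancel_left vw).1 (zpowers_le.2 (mul_mem x3 vw) c4)
  obtain ⟨δ, hδ⟩ := h.ex_pt c1
  by_cases j : δ = α
  swap
  · exact ⟨1, one_mem _, δ, j, h.fix_of_comm c1 hδ (mem_cent1.1 cw).symm,
      by rw [mul_one]; exact h.fix_of_comm c1 hδ c2.symm⟩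
  subst j
  obtain ⟨P, p1, p2⟩ := exists_isSyl_ge (H := 𝒞₁ v ⊓ 𝒞₁ w ⊓ 𝒮 δ) h.elem.pgroup
    (le_inf (le_inf (le_cent1_iff.2 hc) (le_cent1_iff.2 wc)) h.AM)
  obtain ⟨m, hm, q⟩ := p1.exists_conj_mem (x := c) ⟨⟨mem_cent1.2 c2, cw⟩, hδ⟩
    ⟨1, by simpa [sq] using (h.ivo c1).2⟩
  refine ⟨_, h.mem_of p1.isPGroup p2 q (inI_conj c1 m), m • β,
    fun i => b1 (smul_left_cancel m (i.trans (mem_St.1 hm.2).symm)), ?_, ?_⟩
  · rw [← mul_smul, ← mem_cent1.1 hm.1.2, mul_smul, b2]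
  · have := conj_fix (h.fix_of_comm x1 x2 c3) m
    rwa [← mul_assoc m, mem_cent1.1 hm.1.1, mul_assoc v, mul_assoc v] at this

end GG

namespace Ln
variable {G Ω : Type} [Group G] [Finite G] [MulAction G Ω] {H A S1 T R : Subgroup G}
  {k r v : G} {α γ : Ω}

theorem AT (l : Ln H S1 A T R k α) : A ≤ T := ty_le l.ty
theorem kA (l : Ln H S1 A T R k α) : k ∈ 𝒩 A := l.ty.1.kA
theorem PS (l : Ln H S1 A T R k α) : T ⊔ R ≤ S1 := sup_le l.TS l.RS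
theorem nP' (l : Ln H S1 A T R k α) : S1 ≤ 𝒩 (T ⊔ R) := le_norm_sup l.nT l.nR
theorem RA (l : Ln H S1 A T R k α) : R ≤ 𝒞 A := l.cm.trans (cent_anti l.AT)

theorem vR (l : Ln (𝒞₁ v) S1 A T R k α) (h0 : v * v = 1) (h1 : v • α = α) : v ∈ R :=
  l.ker v (l.syl.mem_of_mem_normalizer (self_mem_cent1 v) ⟨1, by simpa [sq] using h0⟩
    (cent_le_norm _ (le_cent1_iff.1 l.syl.le))) fun g hg => by
      rw [← mul_smul, ← mem_cent1.1 hg, mul_smul, h1]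

end Ln

namespace GG
variable {G Ω : Type} [Group G] [Finite G] [MulAction G Ω]
  {A B S P H T R X S1 T' R' S' : Subgroup G}
  {a b c d g k k' r x y z u v w : G} {α β γ δ : Ω} (h : GG S A α)
include h

/-- `R` fixes the line of `v` pointwise -/
theorem fixR (l : Ln (𝒞₁ v) S1 A T R k α) (h0 : v * v = 1) (h1 : v • α = α) (hr : r ∈ R)
    (h2 : v • γ = γ) : r • γ = γ := by
  obtain ⟨g, hg, rfl⟩ := h.tr_fix h0 h1 h2
  exact l.fix r hr g hg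

/-- an involution of `R_v` does not fix the line of `v a` pointwise -/
theorem not_fix (h0 : Ivo v) (hv : v ∉ A) (hc : v ∈ 𝒞 A) (l : Ln (𝒞₁ v) S1 A T R k α) (hr : r ∈ R)
    (r0 : Ivo r) (ha : a ∈ A) (a1 : a ≠ 1) : ¬ ∀ γ : Ω, (v * a) • γ = γ → r • γ = γ := fun e => by
  have rA : r ∉ A := fun i => r0.1 (eq_one_of_mem l.inf ⟨l.AT i, hr⟩)
  obtain ⟨i, n, c⟩ := h.coset r0 rA (l.RA hr) ha
  obtain ⟨b, hb, γ, g1, g2, g3⟩ := h.cross h0 hv hc i n c (by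
    rw [← mul_assoc, ← mem_cent1.1 (l.syl.le (l.RS hr)), mul_assoc, ← mem_cent.1 hc a ha, mul_assoc])
  have : r • γ = γ := by
    by_cases b1 : b = 1
    · exact h.fixR l h0.2 (h.CM hc) hr (by rwa [b1, mul_one] at g3)
    obtain ⟨n, rfl⟩ := l.ty.1.tr a ha b hb a1 b1
    have := conj_fix (e _ (show (v * a) • (k ^ n)⁻¹ • γ = (k ^ n)⁻¹ • γ by
      rw [← mul_assoc, ← mul_assoc, ← mem_cent1.1 (pow_mem l.kH n), mul_assoc (k ^ n), mul_smul,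
        mul_smul] at g3
      rw [eq_inv_smul_iff, g3])) (k ^ n)
    rwa [← mem_cent.1 (pow_mem l.kR n) r hr, mul_inv_cancel_right, smul_inv_smul] at this
  rw [mul_smul, smul_eq_iff_eq_inv_smul, inv_fix this] at g2
  exact g1 (h.uq0 ha a1 g2)

/-- `R_u ∩ R_v = 1` for `u ≠ v` in `v A` -/
theorem inf_R (h0 : Ivo v) (hv : v ∉ A) (hc : v ∈ 𝒞 A) (l : Ln (𝒞₁ v) S1 A T R k α)
    (ha : a ∈ A) (a1 : a ≠ 1) (l' : Ln (𝒞₁ (v * a)) S' A T' R' k' α) : R ⊓ R' = ⊥ :=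
  have i := h.coset h0 hv hc ha
  bot_of_no_ivo ((l.syl.isPGroup.to_le l.RS).to_le inf_le_left) fun _ hr r1 =>
    h.not_fix h0 hv hc l hr.1 r1 ha a1 fun _ => h.fixR l' i.1.2 (h.CM i.2.2) hr.2

theorem elemR (h0 : Ivo v) (hv : v ∉ A) (hc : v ∈ 𝒞 A) (l : Ln (𝒞₁ v) S1 A T R k α) :
    Elem 2 R := by
  obtain ⟨a, ha, a1⟩ := h.exA
  obtain ⟨i, n, c⟩ := h.coset h0 hv hc ha
  have AS := l.AT.trans l.TS
  have s0 : IsSyl 2 (S1 ⊓ (𝒞₁ v ⊓ 𝒞 A)) (𝒞₁ v ⊓ 𝒞 A) := l.syl.inf inf_le_left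
    (le_norm_inf (l.syl.le.trans (le_norm _))
      (le_norm_cent ((h.scl l.syl.isPGroup AS).le_norm le_top)))
  have cu : 𝒞₁ v ⊓ 𝒞 A ≤ 𝒞₁ (v * a) := fun g hg => mem_cent1.2 (by
    rw [← mul_assoc, mem_cent1.1 hg.1, mul_assoc, mul_assoc, mem_cent.1 hg.2 a ha])
  have cv : 𝒞₁ (v * a) ⊓ 𝒞 A ≤ 𝒞₁ v := fun g hg => mem_cent1.2 (by
    have := mem_cent1.1 hg.1
    rw [mul_assoc v, mem_cent.1 hg.2 a ha, ← mul_assoc, ← mul_assoc] at this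
    exact mul_right_cancel this)
  obtain ⟨S', s1, s2⟩ := exists_isSyl_ge s0.isPGroup (s0.le.trans cu)
  obtain ⟨T', R', k', l'⟩ := h.lnv i n c s1
    ((le_inf AS (le_inf (le_cent1_iff.2 hc) h.elem.abel)).trans s2)
  have e0 : S' ⊓ 𝒞 A ≤ S1 := (s0.eq_of_le s1.isPGroup.to_inf_left (le_inf s2 (s0.le.trans inf_le_right))
    (le_inf ((inf_le_inf_right _ s1.le).trans cv) inf_le_right)).le.trans inf_le_left
  have RS : R ≤ S' := (le_inf l.RS (le_inf (l.RS.trans l.syl.le) l.RA)).trans s2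
  have pR : IsPGroup 2 R := l.syl.isPGroup.to_le l.RS
  have e1 : R ⊓ R' = ⊥ := h.inf_R h0 hv hc l ha a1 l'
  have e2 : R ⊓ T' = ⊥ := bot_of_no_ivo (pR.to_le inf_le_left) fun r hr r1 =>
    r1.1 (eq_one_of_mem l.inf ⟨l.AT (ty_mem l'.ty hr.2 r1.2), hr.1⟩)
  have c1 := le_cent_of_inf_eq_bot (RS.trans l'.nR) (((le_inf l'.RS l'.RA).trans e0).trans l.nR) e1
  have c2 := le_cent_of_inf_eq_bot (RS.trans l'.nT)
    (((le_inf l'.TS (ty_cA l'.ty h.elem)).trans e0).trans l.nR) e2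
  have RP : R ≤ T' ⊔ R' := fun r hr => (l'.top r ⟨⟨s1.le (RS hr), l.RA hr⟩, l'.nP' (RS hr)⟩
    (isPGroup_iff_forall.1 pR r hr)).resolve_right fun ⟨_, x, hx, x1⟩ => x1 (by
      rw [← mem_cent.1 (c2 hr) x hx]; simp)
  refine ⟨(le_inf c2 c1).trans ((cent_sup T' R').ge.trans (cent_anti RP)), fun r hr => ?_⟩
  obtain ⟨t, ht, r', hr', rfl⟩ := (mem_sup_l (le_norm_of_le_cent l'.cm)).1 (RP hr)
  have tA : t ∈ A := ty_ctr l'.ty ht ((mul_mem_cancel_right (l'.cm hr')).1 (c2 hr))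
  have e : (t * r') ^ 2 = r' ^ 2 := by
    rw [(show Commute t r' from mem_cent.1 (l'.cm hr') t ht).mul_pow, h.elem.pow tA, one_mul]
  exact eq_one_of_mem e1 ⟨pow_mem hr 2, e ▸ pow_mem hr' 2⟩

theorem loc (h0 : Ivo v) (hv : v ∉ A) (hc : v ∈ 𝒞 A) (l : Ln (𝒞₁ v) S1 A T R k α) :
    Loc A (T ⊔ R) T R v k :=
  ⟨l.ty, rfl, l.inf, l.cm, l.vR h0.2 (h.CM hc), h0.1, h.elemR h0 hv hc l, l.kR, l.nP, l.nk, l.top⟩

theorem allL : AllL A := fun v X h0 hv hc hX h1 => by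
  obtain ⟨S1, s1, s2⟩ := exists_isSyl_ge (pgroup_sup (h1.trans inf_le_right) h.elem.pgroup hX)
    (sup_le (le_cent1_iff.2 hc) (h1.trans inf_le_left))
  obtain ⟨T, R, k, l⟩ := h.lnv h0 hv hc s1 (le_sup_left.trans s2)
  exact ⟨_, T, R, k, h.loc h0 hv hc l, (le_sup_right.trans s2).trans l.nP'⟩

end GG

end Cfsg.GS.Gx
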