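import Cfsg.Agent.GS.X2
import Cfsg.Agent.GS.B2

/-! Task `G2` of `GS/T4`, part 1: isometries of the norm form, the cosets `v A`. -/

set_option autoImplicit false
set_option linter.unusedSectionVars false

namespace Cfsg.GS.Gx

open Subgroup Cfsg.L0 Cfsg.H8 Cfsg.FT Cfsg.BS Cfsg.BS.R Cfsg.GS.T3 Cfsg.GS.T4 Cfsg.GS.Ax MulAction
open Cfsg.GS.Nx Cfsg.GS.Xx
open scoped commutatorElement

section fld
variable {F : Type} [Field F] {q : ℕ}

/-- additive isometries of the norm form -/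
theorem iso_norm (ha : ∀ c e : F, (c + e) ^ q = c ^ q + e ^ q)
    (σ : F → F) (h1 : ∀ x y, σ (x + y) = σ x + σ y) (h2 : ∀ x, σ x ^ (q + 1) = x ^ (q + 1)) :
    ∃ c : F, c ^ (q + 1) = 1 ∧ ((∀ x, σ x = c * x) ∨ ∀ x, σ x = c * x ^ q) := by
  have hc : σ 1 ^ (q + 1) = 1 := by rw [h2, one_pow]
  have c0 : σ 1 ≠ 0 := fun e => by rw [e] at hc; simp at hc
  have key : ∀ x, σ x = σ 1 * x ∨ σ x = σ 1 * x ^ q := fun x => by
    have a := h2 (x + 1)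
    have b := h2 x
    rw [h1, pow_succ, pow_succ, ha, ha, one_pow] at a
    rw [pow_succ] at b hc
    rw [pow_succ] at b
    have t : σ x ^ q * σ 1 + σ 1 ^ q * σ x = x ^ q + x := by linear_combination a - b - hc
    have : (σ x - σ 1 * x) * (σ x - σ 1 * x ^ q) * σ 1 ^ q = 0 := by
      linear_combination (σ 1 * x * x ^ q - σ x * (x + x ^ q)) * hc + σ x * t - σ 1 * b
    rcases mul_eq_zero.1 this with e | e
    · exact (mul_eq_zero.1 e).imp sub_eq_zero.1 sub_eq_zero.1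
    · rw [e, zero_mul] at hc; exact absurd hc zero_ne_one
  refine ⟨σ 1, hc, or_iff_not_imp_left.2 fun n x => ?_⟩
  obtain ⟨y, hy⟩ := not_forall.1 n
  have y2 := (key y).resolve_left hy
  refine (key x).elim (fun e => ?_) id
  rcases key (x + y) with e' | e'
  · exact absurd (by rw [h1, e] at e'; linear_combination e') hy
  · rw [h1, y2, ha] at e'; linear_combination e'

/-- an additive bijection compatible with the norm form is semilinear -/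
theorem semi_norm [Fintype F] (hq : Fintype.card F = q ^ 2) (h2q : 2 ≤ q) (h0 : ∀ c : F, c + c = 0)
    (ha : ∀ c e : F, (c + e) ^ q = c ^ q + e ^ q) (hp : ∀ c : F, (c ^ q) ^ q = c)
    (σ σ' : F → F) (h1 : ∀ x y, σ (x + y) = σ x + σ y) (i1 : ∀ x, σ (σ' x) = x)
    (i2 : ∀ x, σ' (σ x) = x) (h2 : ∀ x y, x ^ (q + 1) = y ^ (q + 1) → σ x ^ (q + 1) = σ y ^ (q + 1))
    (c : F) : ∃ c', ∀ x, σ (c * x) = c' * σ x := by
  have inj : ∀ x y, σ x = σ y → x = y := fun x y e => by rw [← i2 x, e, i2]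
  have z : σ 0 = 0 := by have := h1 0 0; rw [add_zero] at this; linear_combination -this
  let K : Subring F :=
    { carrier := {c | ∃ c', ∀ x, σ (c * x) = c' * σ x}
      mul_mem' := fun ⟨a, ha⟩ ⟨b, hb⟩ => ⟨a * b, fun x => by rw [mul_assoc, ha, hb, mul_assoc]⟩
      one_mem' := ⟨1, fun x => by rw [one_mul, one_mul]⟩
      add_mem' := fun ⟨a, ha⟩ ⟨b, hb⟩ => ⟨a + b, fun x => by rw [add_mul, h1, ha, hb, add_mul]⟩
      zero_mem' := ⟨0, fun x => by rw [zero_mul, zero_mul, z]⟩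
      neg_mem' := fun {a} h => by rwa [neg_eq_of_add_eq_zero_left (h0 a)] }
  obtain ⟨γ, hγ⟩ := IsCyclic.exists_ofOrder_eq_natCard (α := Fˣ)
  rw [Nat.card_units, Nat.card_eq_fintype_card, hq] at hγ
  have e1 : q ^ 2 - 1 = (q - 1) * (q + 1) := by
    obtain ⟨r, rfl⟩ := Nat.exists_eq_add_of_le' (by omega : 1 ≤ q)
    rw [Nat.add_sub_cancel, show (r + 1) ^ 2 = r * (r + 1 + 1) + 1 by ring, Nat.add_sub_cancel]
  have o : orderOf ((γ ^ (q - 1) : Fˣ) : F) = q + 1 := by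
    rw [orderOf_units, orderOf_pow' _ (by omega), hγ, e1, Nat.gcd_eq_right (dvd_mul_right _ _),
      Nat.mul_div_cancel_left _ (by omega)]
  generalize hl : ((γ ^ (q - 1) : Fˣ) : F) = l at o
  have l1 : l ^ (q + 1) = 1 := o ▸ pow_orderOf_eq_one l
  have lK : l ∈ K := by
    obtain ⟨d, d1, hd⟩ := iso_norm ha (fun y => σ (l * σ' y))
      (fun x y => by rw [← h1, ← mul_add, ← i2 (σ' x + σ' y), h1, i1, i1])
      fun y => by rw [h2 _ (σ' y) (by rw [mul_pow, l1, one_mul]), i1]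
    refine hd.elim (fun e => ⟨d, fun x => by simpa only [i2] using e (σ x)⟩) fun e => ⟨1, ?_⟩
    have a := e (σ 1)
    have b := e (σ l)
    simp only [i2, mul_one] at a b
    rw [a, mul_pow, hp, ← mul_assoc, ← pow_succ', d1, one_mul] at b
    have : l + 1 = 0 := by
      have : (l + 1) ^ 2 = 0 := by linear_combination inj _ _ b + h0 l + h0 1
      exact pow_eq_zero_iff two_ne_zero |>.1 this
    intro x
    rw [show l = 1 by linear_combination this - h0 1, one_mul, one_mul]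
  have := order_le_subring K lK (hl ▸ Units.ne_zero _)
  have : K = ⊤ := subring_top K (by rw [hq]; exact Nat.pow_lt_pow_left (by omega) two_ne_zero)
  exact (this ▸ Subring.mem_top c : c ∈ K)

end fld

section co3
variable {G F : Type} [Group G] [Field F] [Fintype F] {A T Y : Subgroup G} {a b g k x y : G}
  {π ι : G → F} {l c : F} (h : Co3 A T k π ι l)
include h

theorem co_nA (hg : g ∈ 𝒩 T) : g ∈ 𝒩 A := h.ctr ▸ norm_le_norm_ctr T hg

theorem co_σ (hg : g ∈ 𝒩 T) : ∃ σ : F → F, (∀ x ∈ T, π (g * x * g⁻¹) = σ (π x)) ∧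
    ∀ x y, σ (x + y) = σ x + σ y := by
  choose s hs e using h.onto
  have k : ∀ x ∈ T, π (g * x * g⁻¹) = π (g * s (π x) * g⁻¹) := fun x hx =>
    (h.eq_iff (conj_mem_of_norm hg hx) (conj_mem_of_norm hg (hs _))).2 (by
      have := conj_mem_of_norm (co_nA h hg) ((h.eq_iff hx (hs _)).1 (e _).symm)
      convert this using 1; group)
  refine ⟨fun c => π (g * s c * g⁻¹), k, fun x y => ?_⟩
  have := k _ (mul_mem (hs x) (hs y))
  rw [h.add _ (hs x) _ (hs y), e, e] at this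
  show π _ = π _ + π _
  rw [← this, ← h.add _ (conj_mem_of_norm hg (hs x)) _ (conj_mem_of_norm hg (hs y))]
  congr 1; group

theorem co_sq (hx : x ∈ T) (hy : y ∈ T) : π x ^ (♯A + 1) = π y ^ (♯A + 1) ↔ x * x = y * y := by
  rw [← h.isq x hx, ← h.isq y hy]
  exact ⟨h.ι_inj (h.sq x hx) (h.sq y hy), fun e => by rw [e]⟩

theorem co_iso (hg : g ∈ 𝒩 T) (hA : g ∈ 𝒞 A) : ∃ c : F, c ^ (♯A + 1) = 1 ∧
    ((∀ x ∈ T, π (g * x * g⁻¹) = c * π x) ∨ ∀ x ∈ T, π (g * x * g⁻¹) = c * π x ^ ♯A) := by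
  obtain ⟨σ, h1, h2⟩ := co_σ h hg
  obtain ⟨c, c1, hc⟩ := iso_norm h.add_pow σ h2 fun c => by
    obtain ⟨x, hx, rfl⟩ := h.onto c
    rw [← h1 x hx, co_sq h (conj_mem_of_norm hg hx) hx,
      show g * x * g⁻¹ * (g * x * g⁻¹) = g * (x * x) * g⁻¹ by group, ← mem_cent.1 hA _ (h.sq x hx),
      mul_inv_cancel_right]
  exact ⟨c, c1, hc.imp (fun e x hx => by rw [h1 x hx, e]) fun e x hx => by rw [h1 x hx, e]⟩

theorem co_semi (hg : g ∈ 𝒩 T) (c : F) : ∃ c', ∀ x ∈ T, ∀ y ∈ T, π y = c * π x →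
    π (g * y * g⁻¹) = c' * π (g * x * g⁻¹) := by
  obtain ⟨σ, h1, h2⟩ := co_σ h hg
  obtain ⟨σ', h3, -⟩ := co_σ h (inv_mem hg)
  obtain ⟨c', e⟩ := semi_norm h.card h.two_le h.add_self h.add_pow h.pow_pow σ σ' h2
    (fun c => by
      obtain ⟨x, hx, rfl⟩ := h.onto c
      rw [← h3 x hx, ← h1 _ (conj_mem_of_norm (inv_mem hg) hx)]; congr 1; group)
    (fun c => by
      obtain ⟨x, hx, rfl⟩ := h.onto c
      rw [← h1 x hx, ← h3 _ (conj_mem_of_norm hg hx)]; congr 1; group)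
    (fun c d e => by
      obtain ⟨x, hx, rfl⟩ := h.onto c
      obtain ⟨y, hy, rfl⟩ := h.onto d
      rw [← h1 x hx, ← h1 y hy, co_sq h (conj_mem_of_norm hg hx) (conj_mem_of_norm hg hy),
        show g * x * g⁻¹ * (g * x * g⁻¹) = g * (x * x) * g⁻¹ by group, (co_sq h hx hy).1 e]
      group) c
  exact ⟨c', fun x hx y hy e' => by rw [h1 x hx, h1 y hy, e', e]⟩

theorem co_pow (hg : g ∈ 𝒩 T) (e : ∀ x ∈ T, π (g * x * g⁻¹) = c * π x) (n : ℕ) :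
    ∀ x ∈ T, π (g ^ n * x * (g ^ n)⁻¹) = c ^ n * π x := by
  induction n with
  | zero => simp
  | succ n ih =>
    intro x hx
    rw [show g ^ (n + 1) * x * (g ^ (n + 1))⁻¹ = g * (g ^ n * x * (g ^ n)⁻¹) * g⁻¹ by
      rw [pow_succ']; group, e _ (conj_mem_of_norm (pow_mem hg n) hx), ih x hx, pow_succ', mul_assoc]

/-- a `2`-element acting as a scalar centralizes `T / A` -/
theorem co_two (hg : g ∈ 𝒩 T) (e : ∀ x ∈ T, π (g * x * g⁻¹) = c * π x) (h2 : ∃ n, g ^ 2 ^ n = 1)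
    (hx : x ∈ T) : g * x * g⁻¹ * x⁻¹ ∈ A := by
  obtain ⟨n, hn⟩ := h2
  obtain ⟨y, hy, y1⟩ := h.onto 1
  have e1 := co_pow h hg e (2 ^ n) y hy
  rw [hn, one_mul, inv_one, mul_one, y1, mul_one] at e1
  have := h.charP
  have c1 : c = 1 := by
    have e2 : (c - 1) ^ 2 ^ n = 0 := by rw [sub_pow_char_pow, ← e1, one_pow, sub_self]
    exact sub_eq_zero.1 (pow_eq_zero_iff (by positivity) |>.1 e2)
  exact (h.eq_iff (conj_mem_of_norm hg hx) hx).1 (by rw [e x hx, c1, one_mul])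

/-- no abelian subgroup of index at most `2` -/
theorem co_noab [Finite G] (ht : Tor A k) (h4 : 4 ≤ ♯A) (W : G → Prop)
    (h1 : ∀ x ∈ T, ∀ y ∈ T, W x ∨ W y ∨ W (x * y))
    (h2 : ∀ x ∈ T, ∀ y ∈ T, W x → W y → x * y = y * x) : False := by
  obtain ⟨e, he⟩ := h.exists_ne
  obtain ⟨a, ha, a1⟩ := h.ι_onto (c := 1) (one_pow _)
  obtain ⟨b, hb, b1, b2⟩ := Bx.exists_third (A := A) (by omega) 1 a
  have m0 : ι b ≠ 0 := fun e => b1 (h.iinj b hb e)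
  have m1 : 1 + ι b ≠ 0 := fun e => b2 (h.ι_inj hb ha (by
    rw [a1]; linear_combination e - h.add_self 1))
  have mq := h.ι_fix ht hb
  have key : ∀ d : F, ∃ x ∈ T, ∃ μ : F, W x ∧ μ ≠ 0 ∧ μ ^ ♯A = μ ∧ π x = μ * d := fun d => by
    obtain ⟨x, hx, e1⟩ := h.onto d
    obtain ⟨y, hy, e2⟩ := h.onto (ι b * d)
    rcases h1 x hx y hy with w | w | w
    · exact ⟨x, hx, 1, w, one_ne_zero, one_pow _, by rw [e1, one_mul]⟩
    · exact ⟨y, hy, _, w, m0, mq, e2⟩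
    · exact ⟨_, mul_mem hx hy, _, w, m1, by rw [h.add_pow, one_pow, mq],
        by rw [h.add x hx y hy, e1, e2]; ring⟩
  obtain ⟨x, hx, μ, w, μ0, μq, e1⟩ := key 1
  obtain ⟨y, hy, ν, w', ν0, νq, e2⟩ := key e
  have := h.ι_comm hx hy
  rw [commutatorElement_eq_one_iff_mul_comm.2 (h2 x hx y hy w w'), h.ι_one, e1, e2, mul_one, mul_pow,
    μq, νq] at this
  have e3 : μ * ν * (e ^ ♯A - e) = 0 := by linear_combination -this - (μ * ν) * h.add_self e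
  exact he (sub_eq_zero.1 ((mul_eq_zero.1 e3).resolve_left (mul_ne_zero μ0 ν0)))

end co3

namespace Lg
variable {G : Type} [Group G] [Finite G] {A P P' T T' R R' H : Subgroup G}
  {a b c g k k' r s t u v x y : G} (l : T4.Loc A P T R v k) (he : Elem 2 A)
include l

theorem VP : A ⊔ R ≤ P := sup_le (Lc.AP l) (Lc.RP l)
theorem sqA (hx : x ∈ P) : x * x ∈ A := by
  obtain ⟨t, ht, r, hr, rfl⟩ := Lc.mem l hx
  rw [Lc.sqe l ht hr]; exact ty_sq l.ty ht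
theorem comm (hx : x ∈ P) (hy : y ∈ P) : x * y * x⁻¹ * y⁻¹ ∈ A :=
  Ux.der_le_of_sq (fun _ => sqA l) (commutator_mem_commutator hx hy)
theorem memV (hx : x ∈ P) (h2 : x * x = 1) : x ∈ A ⊔ R := by
  obtain ⟨a, ha, r, hr, rfl⟩ := Lc.memV l hx h2
  exact mul_mem_sup ha hr
theorem vP : v ∈ P := Lc.RP l l.vR
theorem kP : k ∈ 𝒩 P := l.sup ▸ le_norm_sup (A := zpowers k) (zpowers_le.2 (ty_kT l.ty))
  (zpowers_le.2 (cent_le_norm _ l.kR)) (mem_zpowers k)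
theorem PnT : P ≤ 𝒩 T := l.sup ▸ sup_le (le_norm T) (le_norm_of_le_cent l.cm)

theorem move (ha : a ∈ A) (hb : b ∈ A) (h1 : a ≠ 1) (h2 : b ≠ 1) :
    ∃ n : ℕ, k ^ n * (v * a) * (k ^ n)⁻¹ = v * b := by
  obtain ⟨n, hn⟩ := l.ty.1.tr a ha b hb h1 h2
  refine ⟨n, ?_⟩
  rw [← hn, ← mul_assoc, ← mem_cent.1 (pow_mem l.kR n) v l.vR]; group

theorem u3 (h4 : 4 ≤ ♯A) (h : ♯A ^ 3 ≤ ♯T) : U3G A T k := by
  rcases l.ty.2 with e | e | e
  · rw [e] at h; nlinarith [Nat.le_self_pow two_ne_zero ♯A, pow_succ ♯A 2]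
  · rw [e.card] at h; nlinarith [Nat.le_self_pow two_ne_zero ♯A, pow_succ ♯A 2]
  · exact e

include he

theorem VcP : A ⊔ R ≤ 𝒞 P := sup_le (cent_symm (Lc.PA l he)) (Lc.RcP l)
theorem Vsq (hx : x ∈ A ⊔ R) : x * x = 1 := by
  obtain ⟨a, ha, r, hr, rfl⟩ := (mem_sup_l (le_norm_of_le_cent (Lc.RcA l))).1 hx
  rw [Lc.sqe l (Lc.AT l ha) hr, sq1 he ha]
theorem nV (hg : g ∈ 𝒩 P) : g ∈ 𝒩 (A ⊔ R) := mem_normalizer_of_forall fun x hx =>
  memV l (conj_mem_of_norm hg (VP l hx)) (by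
    rw [show g * x * g⁻¹ * (g * x * g⁻¹) = g * (x * x) * g⁻¹ by group, Vsq l he hx]; group)
theorem TV (hx : x ∈ T) (h : x ∈ A ⊔ R) : x ∈ A := ty_mem l.ty hx (Vsq l he h)
theorem cen (hx : x ∈ P) (h2 : x * x = 1) : x ∈ 𝒞 P := VcP l he (memV l hx h2)

theorem kG : k ∈ Bx.G2 A P := ⟨kP l, Lc.kA l, fun x hx h2 => by
  obtain ⟨a, ha, r, hr, rfl⟩ := Lc.memV l hx h2
  rw [show k * (a * r) * k⁻¹ * (a * r)⁻¹ = k * a * k⁻¹ * (k * r * k⁻¹ * r⁻¹) * a⁻¹ by group,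
    ← mem_cent.1 l.kR r hr, mul_inv_cancel_right, mul_inv_cancel, mul_one]
  exact mul_mem (conj_mem_of_norm (Lc.kA l) ha) (inv_mem ha)⟩

theorem PG : P ≤ Bx.G2 A P := fun _ hs =>
  ⟨le_norm _ hs, cent_le_norm _ (Lc.PA l he hs), fun _ hx _ => comm l hs hx⟩

theorem conj_v (hg : g ∈ Bx.G2 A P) : v⁻¹ * (g * v * g⁻¹) ∈ A := by
  have e := hg.2.2 v (vP l) (Lc.vv l)
  rw [show g * v * g⁻¹ = g * v * g⁻¹ * v⁻¹ * v by group, mem_cent.1 (Lc.RcA l l.vR) _ e]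
  simpa using e

theorem eq_of_le (l' : T4.Loc A P' T' R' u k') (h1 : P ≤ P') (h2 : P' ≤ 𝒞₁ v) : P' = P := by
  by_contra e
  obtain ⟨x, x1, x2, x3⟩ := exists_mem_normalizer_not_mem (Lc.pg l' he) h1 (Ne.symm e)
  exact (l.top x ⟨⟨h2 x1, Lc.PA l' he x1⟩, x2⟩ (isPGroup_iff_forall.1 (Lc.pg l' he) x x1)).elim x3
    fun ⟨_, y, hy, n⟩ => n (comm l' x1 (h1 (Lc.TP l hy)))

theorem le_of_norm (h4 : 4 ≤ ♯A) (l' : T4.Loc A P' T' R' u k') (h1 : P ≤ 𝒩 P') (h2 : P' ≤ 𝒞₁ v)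
    (h3 : P ≤ 𝒞₁ u) : P ≤ P' := fun g hg => by
  have : Fact (Nat.Prime 2) := ⟨Nat.prime_two⟩
  have p2 := isPGroup_iff_forall.1 (Lc.pg l he)
  have tp := fun g hg => l'.top g ⟨⟨h3 hg, Lc.PA l he hg⟩, h1 hg⟩ (p2 g hg)
  by_contra gP
  obtain ⟨u3, x, hx, n⟩ := (tp g hg).resolve_left gP
  by_cases c : U3G A T k
  swap
  · have := Lc.max l he c (pgroup_sup h1 (Lc.pg l' he) (Lc.pg l he))
      le_sup_right (sup_le (le_inf h2 (Lc.PA l' he)) (le_inf (Lc.Pr l l.vR) (Lc.PA l he)))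
    exact n (comm l hg (this ▸ mem_sup_left (Lc.TP l' hx)))
  obtain ⟨F, _, _, π, ι, m, o⟩ := co3_of c
  obtain ⟨F', _, _, π', ι', m', o'⟩ := co3_of u3
  have nT : ∀ g ∈ P, g ∈ 𝒩 T' := fun g hg => l'.nT ⟨h3 hg, h1 hg⟩
  have lin : ∀ g ∈ P, ∀ c, (∀ x ∈ T', π' (g * x * g⁻¹) = c * π' x) → g ∈ P' := fun g hg c e =>
    (tp g hg).elim id fun ⟨_, x, hx, n⟩ => (n (co_two o' (nT g hg) e (p2 g hg) hx)).elim
  have sem : ∀ g ∈ P, g ∉ P' → ∃ c, c ≠ 0 ∧ ∀ x ∈ T', π' (g * x * g⁻¹) = c * π' x ^ ♯A :=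
    fun g hg n => by
      obtain ⟨c, c1, hc⟩ := co_iso o' (nT g hg) (Lc.PA l he hg)
      exact ⟨c, fun e => by rw [e] at c1; simp at c1, hc.resolve_left fun e => n (lin g hg c e)⟩
  obtain ⟨c, c0, hc⟩ := sem g hg gP
  have fx : ∀ t ∈ T', ∀ r ∈ R', t * r ∈ P → π' t = c * π' t ^ ♯A := fun t ht r hr e => by
    rw [← hc t ht]
    have m := conj_mem_of_norm (nT g hg) ht
    refine ((o'.eq_iff m ht).2 (TV l' he (mul_mem m (inv_mem ht)) ?_)).symm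
    have r1 : r ∈ A ⊔ R' := mem_sup_right hr
    have := mul_mem (mem_sup_left (comm l hg e)) (conj_mem_of_norm
      (nV l' he (le_norm _ (mul_mem (Lc.TP l' ht) (Lc.RP l' hr))))
      (mul_mem (conj_mem_of_norm (nV l' he (h1 hg)) (inv_mem r1)) r1))
    convert this using 1
    group
  refine co_noab o l.ty.1 h4 (· ∈ P') (fun x hx y hy => ?_) fun x hx y hy x1 y1 => ?_
  · refine or_iff_not_imp_left.2 fun x1 => or_iff_not_imp_left.2 fun y1 => ?_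
    obtain ⟨c1, -, e1⟩ := sem x (Lc.TP l hx) x1
    obtain ⟨c2, -, e2⟩ := sem y (Lc.TP l hy) y1
    refine lin _ (Lc.TP l (mul_mem hx hy)) (c1 * c2 ^ ♯A) fun z hz => ?_
    rw [show x * y * z * (x * y)⁻¹ = x * (y * z * y⁻¹) * x⁻¹ by group,
      e1 _ (conj_mem_of_norm (nT y (Lc.TP l hy)) hz), e2 z hz, mul_pow, o'.pow_pow, mul_assoc]
  · obtain ⟨t, ht, r, hr, rfl⟩ := Lc.mem l' x1
    obtain ⟨t', ht', r', hr', rfl⟩ := Lc.mem l' y1
    have e1 := fx t ht r hr (Lc.TP l hx)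
    have e2 := fx t' ht' r' hr' (Lc.TP l hy)
    have e3 : ⁅t, t'⁆ = 1 := o'.iinj _ (o'.comm_mem ht ht') (mul_left_cancel₀ c0 (by
      rw [o'.ι_comm ht ht']
      linear_combination (-π' t') * e1 - π' t * e2 + o'.add_self (π' t * π' t')))
    have e4 := mem_cent.1 (Lc.RcP l' hr) _ y1
    have e5 := mem_cent.1 (Lc.RcP l' hr') _ (Lc.TP l' ht)
    calc t * r * (t' * r') = t * t' * r' * r := by rw [mul_assoc t r, ← e4]; group
      _ = _ := by rw [commutatorElement_eq_one_iff_mul_comm.1 e3, mul_assoc t' t, e5]; group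

/-- the local data at the points of `v A` have the same group `P` -/
theorem coset (h4 : 4 ≤ ♯A) (al : AllL A) (ha : a ∈ A) :
    ∃ T' R' k', T4.Loc A P T' R' (v * a) k' := by
  have m : v * a ∈ A ⊔ R := mul_mem (mem_sup_right l.vR) (mem_sup_left ha)
  have hA : v * a ∉ A := fun e => Lc.vA l ((A.mul_mem_cancel_right ha).1 e)
  have h1 : P ≤ 𝒞₁ (v * a) := le_cent1_iff.2 (VcP l he m)
  obtain ⟨P', T', R', k', l', h2⟩ := al (v * a) P ⟨fun e => hA (e ▸ one_mem _), Vsq l he m⟩ hA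
    (Lc.PA l he (VP l m)) (Lc.pg l he) (le_inf h1 ((Lc.PA l he).trans (cent_le_norm A)))
  have h3 : P' ≤ 𝒞₁ v := le_cent1_iff.2 (by
    have := mul_mem (VcP l' he (mem_sup_right l'.vR)) (VcP l' he (mem_sup_left (inv_mem ha)))
    rwa [mul_inv_cancel_right] at this)
  exact ⟨T', R', k', eq_of_le l he l' (le_of_norm l he h4 l' h2 h3 h1) h3 ▸ l'⟩

end Lg

end Cfsg.GS.Gx
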