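import Cfsg.Agent.GS.X2
import Cfsg.Agent.H4.TT

/-! Tools: Burnside counting, subgroups of index two, the determinant on a homocyclic group of
exponent four. -/

set_option autoImplicit false

namespace Cfsg.GS.Xx

open Subgroup Cfsg.L0 Cfsg.H8 Cfsg.FT Cfsg.BS Cfsg.BS.R Cfsg.GS.T3 Cfsg.GS.T4 Cfsg.GS.Ax MulAction
open Cfsg.GS.Nx
open scoped commutatorElement

variable {G : Type} [Group G] [Finite G] {A J S W X Y : Subgroup G} {k v x : G}

theorem burn {Ω : Type} [MulAction G Ω] [Finite Ω] (X : Subgroup G) (U : Set G) (m n : ℕ)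
    (hn : Nat.card Ω = n + 1) (hU : ∀ x ∈ U, x ∈ X ∧ x ≠ 1 ∧ {γ : Ω | x • γ = γ}.ncard = m + 1)
    (h1 : ∀ x ∈ X, x ≠ 1 → x ∉ U → {γ : Ω | x • γ = γ}.ncard = 1) : ♯X ∣ n + m * U.ncard := by
  classical
  have := Fintype.ofFinite X
  have := Fintype.ofFinite Ω
  have := Fintype.ofFinite (Quotient (orbitRel X Ω))
  have e := sum_card_fixedBy_eq_card_orbits_mul_card_group X Ω
  have e1 : ∀ x : X, Fintype.card (fixedBy Ω x) =
      1 + ((if x = 1 then n else 0) + if (x : G) ∈ U then m else 0) := fun x => by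
    rw [← Nat.card_eq_fintype_card, Nat.card_coe_set_eq]
    change {γ : Ω | (x : G) • γ = γ}.ncard = _
    by_cases a : x = 1
    · rw [if_pos a, if_neg fun q => (hU x q).2.1 (by rw [a]; rfl), a]
      simp only [coe_one, one_smul, Set.ofPred_true, Set.ncard_univ, hn]; omega
    by_cases b : (x : G) ∈ U
    · rw [if_neg a, if_pos b, (hU x b).2.2]; omega
    · rw [if_neg a, if_neg b, h1 x x.2 (fun q => a (Subtype.ext q)) b]
  have e2 : (Finset.univ.filter fun x : X => (x : G) ∈ U).card = U.ncard := by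
    rw [← Set.ncard_coe_finset, ← Set.ncard_image_of_injective _ Subtype.val_injective]
    congr 1
    ext y
    exact ⟨fun ⟨x, a, b⟩ => b ▸ by simpa using a, fun q => ⟨⟨y, (hU y q).1⟩, by simpa using q, rfl⟩⟩
  rw [Finset.sum_congr rfl fun x _ => e1 x, Finset.sum_add_distrib, Finset.sum_add_distrib,
    Finset.sum_ite_eq', if_pos (Finset.mem_univ _), ← Finset.sum_filter, Finset.sum_const,
    Finset.sum_const, e2, smul_eq_mul, smul_eq_mul, mul_one, Finset.card_univ, mul_comm _ m] at e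
  rw [Nat.card_eq_fintype_card]
  exact (Nat.dvd_add_right dvd_rfl).1 (e ▸ Dvd.intro_left _ rfl)

omit [Finite G] in
theorem ri_two (h1 : v ∈ W) (h2 : v ∉ Y) (h : ∀ b ∈ W, b ∉ Y → b * v ∈ Y) : Y.relIndex W = 2 :=
  relIndex_eq_two_iff.2 ⟨v, h1, fun b hb => by
    by_cases e : b ∈ Y
    · exact Or.inr ⟨e, fun q => h2 ((mul_mem_cancel_left e).1 q)⟩
    · exact Or.inl ⟨h b hb e, e⟩⟩

theorem idx2 (h1 : J ≤ W) (h2 : ∀ y ∈ W, y * y ∈ J) (h3 : v ∈ W) (h4 : v ∉ J) :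
    ∃ Y, J ≤ Y ∧ Y ≤ W ∧ v ∉ Y ∧ Y.relIndex W = 2 := by
  obtain ⟨Y, a, ⟨b, c⟩, d⟩ := exists_maximal_ge (S := fun Y => Y ≤ W ∧ v ∉ Y) ⟨h1, h4⟩
  have n : W ≤ 𝒩 Y := fun g hg => mem_normalizer_of_forall fun y hy => by
    have := mul_mem (mul_mem (mul_mem (a (h2 g hg)) (a (h2 _ (mul_mem (inv_mem hg) (b hy)))))
      (inv_mem (a (h2 y (b hy))))) hy
    convert this using 1; group
  refine ⟨Y, a, b, c, ri_two h3 c fun g hg g1 => ?_⟩
  by_contra e
  refine g1 (d (Y ⊔ zpowers g) ⟨sup_le b (zpowers_le.2 hg), fun q => ?_⟩ le_sup_left ▸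
    mem_sup_right (mem_zpowers g))
  obtain ⟨y, hy, _, ⟨i, rfl⟩, rfl⟩ := (mem_sup_l (zpowers_le.2 (n hg))).1 q
  have g2 := a (h2 g hg)
  rcases Int.even_or_odd' i with ⟨m, rfl | rfl⟩
  · exact c (mul_mem hy (by simp only; rw [zpow_mul, zpow_two]; exact zpow_mem g2 m))
  · refine e ?_
    have := mul_mem (mul_mem (conj_mem_of_norm (n hg) hy) g2) (zpow_mem g2 m)
    convert this using 1
    simp only; rw [← zpow_two, ← zpow_mul]; group

/-- Thompson transfer -/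
theorem thomp (h : Mg S A) (hW : IsSyl 2 W ⊤) (h1 : Y ≤ W) (h2 : Y.relIndex W = 2)
    (h3 : ∀ y ∈ Y, y * y = 1 → y ∈ A) (hv : Ivo v) : InI A v := by
  obtain ⟨g, hg, -⟩ := H4.exists_conj_mem_extremal (T := ⊥) (t := v) (fun N e => by
      have := h.simple
      rcases this.eq_bot_or_eq_top_of_normal N (normal_of_index_eq_two e) with q | q
      · rw [q, index_bot] at e
        have := card_le_of_le (le_top : A ≤ ⊤)
        rw [card_top] at this
        have := h.four; omega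
      · rw [q, index_top] at e; omega) h1 h2
    (by rw [← relIndex_top_right]; exact Nat.odd_iff.2 (Nat.two_dvd_ne_zero.1 hW.not_dvd))
    (by rw [sq, hv.2]) IsPGroup.of_bot (fun x hx => by rw [mem_bot.1 hx]; simp)
  exact ⟨hv.1, g⁻¹, by
    rw [inv_inv]
    exact h3 _ hg (by rw [show g⁻¹ * v * g * (g⁻¹ * v * g) = g⁻¹ * (v * v) * g by group, hv.2]; group)⟩

/-- if `N(A)` normalizes the torus modulo `C(A)`, its `2`-elements centralize `A` -/
theorem two_elt (h : Mg S A) (ht : Tor A k)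
    (nk : ∀ g ∈ 𝒩 A, ∃ n : ℕ, g * k * g⁻¹ * (k ^ n)⁻¹ ∈ 𝒞 A) (hX : IsPGroup 2 X) (h1 : X ≤ 𝒩 A) :
    X ≤ 𝒞 A := fun x hx => by
  let f := A.normalizerMonoidHom
  have nk' : ∀ g : 𝒩 A, ∃ n : ℕ, f g * f ⟨k, ht.kA⟩ * (f g)⁻¹ = f ⟨k, ht.kA⟩ ^ n := fun g => by
    obtain ⟨n, e⟩ := nk g g.2
    refine ⟨n, mul_inv_eq_one.1 ?_⟩
    rw [← map_pow, ← map_inv, ← map_inv, ← map_mul, ← map_mul, ← map_mul]
    exact MulEquiv.ext fun a => Subtype.ext (mul_inv_eq_iff_eq_mul.2 (mem_cent.1 e a a.2).symm)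
  have d : ⁅𝒩 A, 𝒩 A⁆ ≤ up f (𝒞₁ (f ⟨k, ht.kA⟩)) := commutator_le.2 fun g hg g' hg' => by
    obtain ⟨i, e⟩ := nk' (⟨g, hg⟩ : 𝒩 A)⁻¹
    obtain ⟨j, e'⟩ := nk' (⟨g', hg'⟩ : 𝒩 A)⁻¹
    refine (coe_mem_up (x := ⁅(⟨g, hg⟩ : 𝒩 A), ⟨g', hg'⟩⁆)).2 (mem_cent1.2 ?_)
    rw [map_inv] at e e'
    rw [map_commutatorElement]
    generalize f ⟨g, hg⟩ = a at *
    generalize f ⟨g', hg'⟩ = b at *
    generalize f ⟨k, ht.kA⟩ = κ at *
    have : a⁻¹ * (b⁻¹ * κ * b⁻¹⁻¹) * a⁻¹⁻¹ = b⁻¹ * (a⁻¹ * κ * a⁻¹⁻¹) * b⁻¹⁻¹ := by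
      rw [e, e', ← conj_pow, ← conj_pow, e, e', ← pow_mul, ← pow_mul, mul_comm]
    rw [commutatorElement_def, show a * b * a⁻¹ * b⁻¹ * κ =
      a * b * (a⁻¹ * (b⁻¹ * κ * b⁻¹⁻¹) * a⁻¹⁻¹) * a⁻¹ * b⁻¹ by group, this]
    group
  obtain ⟨j, hj⟩ := isPGroup_iff_forall.1 hX x hx
  have m : x ∈ (⁅𝒩 A, 𝒩 A⁆ : Subgroup G) := mem_of_pow_mem
    (((Nat.Prime.coprime_iff_not_dvd Nat.prime_two).2 fun e => by
      obtain ⟨N, -, a, b⟩ := exists_nrm_ri_eq Nat.prime_two e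
      exact h.two N a.le b).pow_left j) (hj ▸ one_mem _)
    (pow_relIndex_mem (der_nrm _).norm (h1 hx))
  obtain ⟨a, ha, a1⟩ := exists_ne_one (inf_cent_ne_bot_of_pgroup Nat.prime_two hX h.elem.pgroup h1
    (ne_bot_of_card (by have := h.four; omega)))
  obtain ⟨_, c⟩ := mem_up.1 (d m)
  refine mem_cent.2 fun b hb => ?_
  by_cases b1 : b = 1
  · simp [b1]
  obtain ⟨n, rfl⟩ := ht.tr a ha.1 b hb a1 b1
  have := congrArg (fun φ : MulAut A => (φ ⟨a, ha.1⟩ : G)) (Commute.pow_right (mem_cent1.1 c) n).eq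
  rw [← map_pow, ← map_mul, ← map_mul] at this
  change x * k ^ n * a * (x * k ^ n)⁻¹ = k ^ n * x * a * (k ^ n * x)⁻¹ at this
  rw [mul_assoc (k ^ n), mem_cent.1 ha.2 x hx] at this
  calc _ = k ^ n * (a * x) * (k ^ n * x)⁻¹ * x := by group
    _ = _ := by rw [← this]; group

/-- `J` is homocyclic of exponent four with `Ω₁(J) = A` -/
structure Hc (A J : Subgroup G) : Prop where
  le : A ≤ J
  ab : ∀ x ∈ J, ∀ y ∈ J, x * y = y * x
  sq : ∀ x ∈ J, x * x ∈ A
  om : ∀ x ∈ J, x * x = 1 ↔ x ∈ A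
  onto : ∀ a ∈ A, ∃ x ∈ J, x * x = a

omit [Finite G] in
theorem Hc.sqm (h : Hc A J) {x y : G} (hx : x ∈ J) (hy : y ∈ J) :
    x * y * (x * y) = x * x * (y * y) := by
  rw [mul_assoc, ← mul_assoc y, ← h.ab x hx y hy]; group

omit [Finite G] in
theorem Hc.sq_eq (h : Hc A J) {x y : G} (hx : x ∈ J) (hy : y ∈ J) : x * x = y * y ↔ x⁻¹ * y ∈ A := by
  rw [← h.om _ (mul_mem (inv_mem hx) hy), h.sqm (inv_mem hx) hy, ← mul_inv_rev, inv_mul_eq_one]

theorem Hc.card (h : Hc A J) : ♯J = ♯A * ♯A :=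
  card_fib (J : Set G) (A : Set G) (fun x a => x * x = a) _ (fun x hx => ⟨_, h.sq x hx, rfl⟩)
    (fun _ _ _ _ _ _ a b => a.symm.trans b) fun a ha => by
    obtain ⟨y, hy, rfl⟩ := h.onto a ha
    rw [← Bx.ncard_coset y A]
    congr 1
    ext x
    exact ⟨fun ⟨a, b⟩ => (h.sq_eq hy a).1 b.symm, fun e =>
      have m : x ∈ J := (mul_mem_cancel_left (inv_mem hy)).1 (h.le e)
      ⟨m, ((h.sq_eq hy m).2 e).symm⟩⟩

/-- the determinant separates the inversion if the rank is odd -/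
theorem Hc.det (h : Hc A J) {n : ℕ} (hn : ♯A = 2 ^ n) (ho : Odd n) :
    ∃ χ : 𝒩 J →* (ZMod 4)ˣ, (∀ g : 𝒩 J, (g : G) ∈ 𝒞 J → χ g = 1) ∧
      ∀ g : 𝒩 J, (∀ j ∈ J, g * j * (g : G)⁻¹ = j⁻¹) → χ g = -1 := by
  classical
  letI : CommGroup J := { (inferInstance : Group J) with
    mul_comm := fun x y => Subtype.ext (h.ab x x.2 y y.2) }
  letI : CommGroup A := { (inferInstance : Group A) with
    mul_comm := fun x y => Subtype.ext (h.ab x (h.le x.2) y (h.le y.2)) }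
  have one : ∀ a ∈ A, a * a = 1 := fun a ha => (h.om a (h.le ha)).2 ha
  letI : Module (ZMod 4) (Additive J) := AddCommGroup.zmodModule fun x => by
    apply Additive.toMul.injective
    apply Subtype.ext
    show (x.toMul : G) ^ 4 = 1
    rw [show (4 : ℕ) = 2 * 2 from rfl, pow_mul, _root_.sq, _root_.sq]; exact one _ (h.sq _ x.toMul.2)
  letI : Module (ZMod 2) (Additive A) := AddCommGroup.zmodModule fun x => by
    apply Additive.toMul.injective
    apply Subtype.ext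
    show (x.toMul : G) ^ 2 = 1
    rw [_root_.sq]; exact one _ x.toMul.2
  let b := Module.finBasis (ZMod 2) (Additive A)
  have hr : Module.finrank (ZMod 2) (Additive A) = n := by
    have := Module.natCard_eq_pow_finrank (K := ZMod 2) (V := Additive A)
    rw [Nat.card_zmod, show Nat.card (Additive A) = ♯A from rfl, hn] at this
    exact (Nat.pow_right_injective le_rfl this).symm
  choose j hj ej using fun i => h.onto _ (b i).toMul.2
  let L := Fintype.linearCombination (ZMod 4) fun i => (Additive.ofMul ⟨j i, hj i⟩ : Additive J)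
  let W : Subgroup G := (AddSubgroup.toSubgroup' L.range.toAddSubgroup).map J.subtype
  have jW : ∀ i, j i ∈ W := fun i => ⟨⟨j i, hj i⟩, ⟨Pi.single i 1, by
    simp only [L, Fintype.linearCombination_apply_single, one_smul]; rfl⟩, rfl⟩
  have WJ : W ≤ J := map_subtype_le _
  have key : ∀ a : Additive A, (a.toMul : G) ∈ W ∧ ∃ w ∈ W, w * w = a.toMul := fun a => by
    have ha : a ∈ Submodule.span (ZMod 2) (Set.range b) := b.span_eq ▸ trivial
    induction ha using Submodule.span_induction with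
    | mem x hx => obtain ⟨i, rfl⟩ := hx; exact ⟨ej i ▸ mul_mem (jW i) (jW i), j i, jW i, ej i⟩
    | zero => exact ⟨one_mem _, 1, one_mem _, one_mul _⟩
    | add x y _ _ hx hy =>
      obtain ⟨x1, w, w1, w2⟩ := hx
      obtain ⟨y1, u, u1, u2⟩ := hy
      exact ⟨mul_mem x1 y1, w * u, mul_mem w1 u1, by rw [h.sqm (WJ w1) (WJ u1), w2, u2]; rfl⟩
    | smul c x _ hx =>
      rcases (by decide : ∀ c : ZMod 2, c = 0 ∨ c = 1) c with rfl | rfl
      · rw [zero_smul]; exact ⟨one_mem _, 1, one_mem _, one_mul _⟩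
      · rwa [one_smul]
  have surj : Function.Surjective L := fun x => by
    obtain ⟨-, w, w1, w2⟩ := key (Additive.ofMul ⟨_, h.sq _ x.toMul.2⟩)
    obtain ⟨y, hy, e⟩ := (mul_mem_cancel_left (inv_mem w1)).1
      (key (Additive.ofMul ⟨_, (h.sq_eq (WJ w1) x.toMul.2).1 w2⟩)).1
    obtain ⟨c, hc⟩ := hy
    exact ⟨c, hc.trans (congrArg Additive.ofMul (Subtype.ext e : y = x.toMul))⟩
  let E := LinearEquiv.ofBijective L (surj.bijective_of_nat_card_le (by
    rw [Nat.card_fun, Nat.card_zmod, Nat.card_fin, hr, show Nat.card (Additive J) = ♯J from rfl,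
      h.card, hn, ← mul_pow]; rfl))
  haveI : Module.Free (ZMod 4) (Additive J) := Module.Free.of_equiv E
  haveI : Nontrivial (ZMod 4) := ⟨0, 1, by decide⟩
  have rk : Module.finrank (ZMod 4) (Additive J) = n := by
    rw [← E.finrank_eq, Module.finrank_fin_fun, hr]
  let ρ : 𝒩 J →* Module.End (ZMod 4) (Additive J) :=
    { toFun := fun g => (MonoidHom.toAdditive (J.normalizerMonoidHom g).toMonoidHom).toZModLinearMap 4
      map_one' := LinearMap.ext fun x => by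
        apply Additive.toMul.injective; apply Subtype.ext
        show 1 * (x.toMul : G) * 1⁻¹ = x.toMul
        simp
      map_mul' := fun g g' => LinearMap.ext fun x => by
        apply Additive.toMul.injective; apply Subtype.ext
        show (g * g' : G) * (x.toMul : G) * (g * g' : G)⁻¹ = g * (g' * (x.toMul : G) * (g' : G)⁻¹) * (g : G)⁻¹
        group }
  refine ⟨(LinearMap.det.comp ρ).toHomUnits, fun g hg => Units.ext ?_, fun g hg => Units.ext ?_⟩
  · have : ρ g = 1 := LinearMap.ext fun x => by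
      apply Additive.toMul.injective; apply Subtype.ext
      exact mul_inv_eq_iff_eq_mul.2 (mem_cent.1 hg _ x.toMul.2).symm
    simp [this]
  · have : ρ g = (-1 : ZMod 4) • LinearMap.id := LinearMap.ext fun x => by
      rw [LinearMap.smul_apply, neg_one_smul]
      apply Additive.toMul.injective; apply Subtype.ext
      exact hg _ x.toMul.2
    change LinearMap.det (ρ g) = -1
    rw [this, LinearMap.det_smul, rk, ho.neg_one_pow, LinearMap.det_id, mul_one]

end Cfsg.GS.Xx
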