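import Cfsg.Agent.GS.G3
import Cfsg.Agent.GS.G6
import Cfsg.Agent.GS.X3
import Cfsg.Agent.GS.X4

/-! Task `Fld` of `GS/T4`, part 1: general lemmas, the case `L₂`. -/

set_option autoImplicit false
set_option linter.unusedSectionVars false

namespace Cfsg.GS.Gx

open Subgroup Cfsg.L0 Cfsg.H8 Cfsg.FT Cfsg.BS Cfsg.BS.R Cfsg.GS.T3 Cfsg.GS.T4 Cfsg.GS.Ax MulAction
open Cfsg.GS.Nx
open scoped commutatorElement

section
variable {G : Type} [Group G] [Finite G] {A B H W : Subgroup G} {a b e f k w x z : G}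

theorem dot_zp2 (he : Ivo e) (χ : G → ℂ) : 2 * dot (zpowers e) χ (cf1 (zpowers e)) = χ 1 + χ e := by
  classical
  rw [dot_cf1_right, card_zpow, he.orderOf, show fs (zpowers e : Set G) = {1, e} from Finset.ext
    fun x => by
      simp only [mem_fs, Finset.mem_insert, Finset.mem_singleton]
      exact ⟨mem_zp2 he.2, fun h => h.elim (· ▸ one_mem _) (· ▸ mem_zpowers _)⟩,
    Finset.sum_pair he.1.symm]
  push_cast; ring

/-- the formula of Brauer and Wielandt -/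
theorem bw4 (ho : Odd ♯W) (he : Ivo e) (hf : Ivo f) (ne : e ≠ f) (hc : e * f = f * e)
    (n1 : e ∈ 𝒩 W) (n2 : f ∈ 𝒩 W) : ♯W * ♯(W ⊓ (𝒞₁ e ⊓ 𝒞₁ f)) ^ 2 =
      ♯(W ⊓ 𝒞₁ e) * ♯(W ⊓ 𝒞₁ f) * ♯(W ⊓ 𝒞₁ (e * f)) := by
  classical
  have hg := he.mul hf ne hc
  have n : zpowers f ≤ 𝒩 (zpowers e) := le_norm_of_le_cent (by
    rw [cent_zpowers]; exact zpowers_le.2 (mem_cent1.2 hc.symm))
  have eV : e ∈ zpowers e ⊔ zpowers f := mem_sup_left (mem_zpowers e)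
  have fV : f ∈ zpowers e ⊔ zpowers f := mem_sup_right (mem_zpowers f)
  have V : fs ((zpowers e ⊔ zpowers f : Subgroup G) : Set G) = {1, e, f, e * f} := Finset.ext
    fun x => by
      simp only [mem_fs, Finset.mem_insert, Finset.mem_singleton]
      refine ⟨fun h => ?_, ?_⟩
      · obtain ⟨a, ha, b, hb, rfl⟩ := (mem_sup_l n).1 h
        rcases mem_zp2 he.2 ha with rfl | rfl <;> rcases mem_zp2 hf.2 hb with rfl | rfl <;> simp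
      · rintro (rfl | rfl | rfl | rfl)
        exacts [one_mem _, eV, fV, mul_mem eV fV]
  have d1 : (1 : G) ∉ ({e, f, e * f} : Finset G) := by simp [he.1.symm, hf.1.symm, hg.1.symm]
  have d2 : e ∉ ({f, e * f} : Finset G) := by simp [ne, hf.1]
  have d3 : f ≠ e * f := by simp [he.1]
  have c4 : ♯(zpowers e ⊔ zpowers f) = 4 := by
    rw [show ♯(zpowers e ⊔ zpowers f) = _ from Nat.card_coe_set_eq _, ← card_fs, V,
      Finset.card_insert_of_notMem d1, Finset.card_insert_of_notMem d2, Finset.card_pair d3]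
  refine Nat.eq_of_factorization_eq (mul_ne_zero (card_ne_zero' _) (pow_ne_zero _ (card_ne_zero' _)))
    (mul_ne_zero (mul_ne_zero (card_ne_zero' _) (card_ne_zero' _)) (card_ne_zero' _)) fun p => ?_
  by_cases hp : p.Prime
  swap
  · rw [Nat.factorization_eq_zero_of_not_prime _ hp, Nat.factorization_eq_zero_of_not_prime _ hp]
  obtain ⟨χ, -, h2, -⟩ := exists_lift (A := zpowers e ⊔ zpowers f) hp
    (sup_le (zpowers_le.2 n1) (zpowers_le.2 n2)) (oddOrder W ho)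
    (c4 ▸ (Nat.coprime_two_right.2 ho).pow_right 2)
  have h4 := h2 ⊥ bot_le
  rw [dot_cf1_of_cker bot_le, cent_bot, inf_top_eq] at h4
  have a1 := dot_zp2 he χ
  have a2 := dot_zp2 hf χ
  have a3 := dot_zp2 hg χ
  have a4 := h2 _ le_rfl
  rw [h2 _ le_sup_left, cent_zpowers] at a1
  rw [h2 _ le_sup_right, cent_zpowers] at a2
  rw [h2 _ (zpowers_le.2 (mul_mem eV fV)), cent_zpowers] at a3
  rw [dot_cf1_right, V, c4, Finset.sum_insert d1, Finset.sum_insert d2, Finset.sum_pair d3, cent_sup,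
    cent_zpowers, cent_zpowers] at a4
  rw [Nat.factorization_mul (card_ne_zero' _) (pow_ne_zero _ (card_ne_zero' _)),
    Nat.factorization_mul (mul_ne_zero (card_ne_zero' _) (card_ne_zero' _)) (card_ne_zero' _),
    Nat.factorization_mul (card_ne_zero' _) (card_ne_zero' _), Nat.factorization_pow]
  simp only [Finsupp.add_apply, Finsupp.smul_apply, smul_eq_mul]
  apply Nat.cast_injective (R := ℂ)
  push_cast at a4 ⊢
  linear_combination -h4 - 2 * a4 - (a1 + a2 + a3) / 2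

/-- commutators of elements normalizing the torus -/
theorem der_tor (ht : Tor A k) (hH : H ≤ 𝒩 A)
    (nk : ∀ g ∈ H, ∃ n : ℕ, g * k * g⁻¹ * (k ^ n)⁻¹ ∈ 𝒞 A) (m : x ∈ (⁅H, H⁆ : Subgroup G))
    (ha : a ∈ A) (a1 : a ≠ 1) (hc : x * a = a * x) : x ∈ 𝒞 A := by
  let f := A.normalizerMonoidHom
  have nk' : ∀ g : 𝒩 A, (g : G) ∈ H → ∃ n : ℕ, f g * f ⟨k, ht.kA⟩ * (f g)⁻¹ = f ⟨k, ht.kA⟩ ^ n :=
    fun g hg => by
    obtain ⟨n, e⟩ := nk g hg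
    refine ⟨n, mul_inv_eq_one.1 ?_⟩
    rw [← map_pow, ← map_inv, ← map_inv, ← map_mul, ← map_mul, ← map_mul]
    exact MulEquiv.ext fun a => Subtype.ext (mul_inv_eq_iff_eq_mul.2 (mem_cent.1 e a a.2).symm)
  have d : ⁅H, H⁆ ≤ up f (𝒞₁ (f ⟨k, ht.kA⟩)) := commutator_le.2 fun g hg g' hg' => by
    obtain ⟨i, e⟩ := nk' (⟨g, hH hg⟩ : 𝒩 A)⁻¹ (inv_mem hg)
    obtain ⟨j, e'⟩ := nk' (⟨g', hH hg'⟩ : 𝒩 A)⁻¹ (inv_mem hg')
    refine (coe_mem_up (x := ⁅(⟨g, hH hg⟩ : 𝒩 A), ⟨g', hH hg'⟩⁆)).2 (mem_cent1.2 ?_)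
    rw [map_inv] at e e'
    rw [map_commutatorElement]
    generalize f ⟨g, hH hg⟩ = a at *
    generalize f ⟨g', hH hg'⟩ = b at *
    generalize f ⟨k, ht.kA⟩ = κ at *
    have : a⁻¹ * (b⁻¹ * κ * b⁻¹⁻¹) * a⁻¹⁻¹ = b⁻¹ * (a⁻¹ * κ * a⁻¹⁻¹) * b⁻¹⁻¹ := by
      rw [e, e', ← conj_pow, ← conj_pow, e, e', ← pow_mul, ← pow_mul, mul_comm]
    rw [commutatorElement_def, show a * b * a⁻¹ * b⁻¹ * κ =
      a * b * (a⁻¹ * (b⁻¹ * κ * b⁻¹⁻¹) * a⁻¹⁻¹) * a⁻¹ * b⁻¹ by group, this]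
    group
  obtain ⟨_, c⟩ := mem_up.1 (d m)
  refine mem_cent.2 fun b hb => ?_
  by_cases b1 : b = 1
  · simp [b1]
  obtain ⟨n, rfl⟩ := ht.tr a ha b hb a1 b1
  have := congrArg (fun φ : MulAut A => (φ ⟨a, ha⟩ : G)) (Commute.pow_right (mem_cent1.1 c) n).eq
  rw [← map_pow, ← map_mul, ← map_mul] at this
  change x * k ^ n * a * (x * k ^ n)⁻¹ = k ^ n * x * a * (k ^ n * x)⁻¹ at this
  rw [mul_assoc (k ^ n), hc] at this
  calc _ = k ^ n * (a * x) * (k ^ n * x)⁻¹ * x := by group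
    _ = _ := by rw [← this]; group

/-- an element centralizing `z` and `C_A(z)` centralizes `A / C_A(z)` -/
theorem stab_br (he : Elem 2 A) (hz : z ∈ 𝒩 A) (z2 : z * z ∈ 𝒞 A) (hw : w ∈ 𝒩 A) (wz : w ∈ 𝒞₁ z)
    (wB : w ∈ 𝒞 (A ⊓ 𝒞₁ z)) (ha : a ∈ A) : w * a * w⁻¹ * a⁻¹ ∈ A ⊓ 𝒞₁ z := by
  have m := conj_mem_of_norm hw ha
  have e : w * (a * z * a⁻¹ * z⁻¹) * w⁻¹ = a * z * a⁻¹ * z⁻¹ := by
    rw [← mem_cent.1 wB _ (br_mem he hz z2 ha), mul_inv_cancel_right]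
  rw [cj_br, mem_cent1.1 wz, mul_inv_cancel_right, mul_left_inj] at e
  rw [he.abel.comm m (inv_mem ha)]
  refine ⟨A.mul_mem (A.inv_mem ha) m, mem_cent1.2 ?_⟩
  calc _ = a⁻¹ * (w * a * w⁻¹ * z * (w * a * w⁻¹)⁻¹) * (w * a * w⁻¹) := by group
    _ = _ := by rw [e]; group

theorem onto_of_sq (he : Elem 2 A) (hz : z ∈ 𝒩 A) (h2 : z * z ∈ 𝒞 A) (h : ♯A = ♯(A ⊓ 𝒞₁ z) ^ 2)
    (hb : b ∈ A ⊓ 𝒞₁ z) : ∃ a ∈ A, a * z * a⁻¹ * z⁻¹ = b := by
  have cd := card_inf_mul_ri (𝒞₁ z) A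
  rw [inf_comm, h, sq, ← card_conj] at cd
  obtain ⟨⟨_, a, ha, rfl⟩, e⟩ := ((Nat.bijective_iff_injective_and_card
    (fun w : {w : G // ∃ y ∈ A, y * z * y⁻¹ = w} => (⟨w.1 * z⁻¹, by
      obtain ⟨_, a, ha, rfl⟩ := w; exact br_mem he hz h2 ha⟩ : ↥(A ⊓ 𝒞₁ z)))).2
    ⟨fun w w' e => Subtype.ext (mul_right_cancel (congrArg Subtype.val e)),
      Nat.eq_of_mul_eq_mul_left (card_pos' _) cd⟩).2 ⟨b, hb⟩
  exact ⟨a, ha, congrArg Subtype.val e⟩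

end

/-- degree `q + 1` -/
structure L2c {G Ω : Type} [Group G] [MulAction G Ω] (S A : Subgroup G) (α : Ω) : Prop
    extends GG S A α where
  card : Nat.card Ω = ♯A + 1
  nA' : 𝒮 α ≤ 𝒩 A

section
variable {G Ω : Type} [Group G] [Finite G] [MulAction G Ω] {A B S T T1 R X : Subgroup G}
  {a b c e f g k t t' x z : G} {α β γ δ : Ω}

theorem GG.reg (h : GG S A α) (hc : Nat.card Ω = ♯A + 1) (h1 : β ≠ α) (h2 : γ ≠ α) :
    ∃ a ∈ A, a • β = γ := by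
  have := h.finite
  have i : 𝒮 β ⊓ A = ⊥ := (eq_bot_iff_forall _).2 fun a ha => by_contra fun e =>
    h1 (h.uq0 ha.2 e ha.1)
  have e := Set.eq_of_subset_of_ncard_le (s := {γ | ∃ g ∈ A, g • β = γ}) (t := {α}ᶜ)
    (by
      rintro _ ⟨g, hg, rfl⟩ (e : g • β = α)
      exact h1 (smul_left_cancel g (e.trans (mem_St.1 (h.AM hg)).symm)))
    (by
      have := card_inf_mul_ri (𝒮 β) A
      rw [i, card_bot', one_mul] at this
      have c := Set.ncard_add_ncard_compl ({α} : Set Ω)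
      rw [Set.ncard_singleton] at c
      rw [ncard_orbit, this]; omega)
  exact e.ge h2

theorem GG.l2c (h : GG S A α) (mo : 𝒮 α ≤ O2 (𝒮 α) ⊔ 𝒩 A) (hc : Nat.card Ω = ♯A + 1) :
    L2c S A α := ⟨h, hc, mo.trans (sup_le (fun o ho => by
  have nr := Op_nrm {2}ᶜ (𝒮 α)
  obtain rfl : o = 1 := by_contra fun o1 => by
    obtain ⟨β, hβ⟩ := h.faith o1
    have b1 : β ≠ α := fun e => hβ (e ▸ nr.le ho)
    obtain ⟨n, hn⟩ := h.elem.exists_card Nat.prime_two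
    have d1 := Bx.ri_dvd_of_nrm nr (𝒮 β)
    rw [← ncard_orbit (𝒮 α), show {γ | ∃ g ∈ 𝒮 α, g • β = γ} = {α}ᶜ from Set.ext fun γ =>
      ⟨by
        rintro ⟨g, hg, rfl⟩ (e : g • β = α)
        exact b1 (smul_left_cancel g (e.trans (mem_St.1 hg).symm)),
      fun e => let ⟨a, ha, q⟩ := h.reg hc b1 e; ⟨a, h.AM ha, q⟩⟩] at d1
    have := h.finite
    have c := Set.ncard_add_ncard_compl ({α} : Set Ω)
    rw [Set.ncard_singleton, hc, add_comm, add_left_inj, hn] at c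
    rw [c] at d1
    exact hβ (relIndex_eq_one.1 (((Nat.coprime_two_right.2
      ((odd_O2 (𝒮 α)).of_dvd_nat (relIndex_dvd_card _ _))).pow_right n).eq_one_of_dvd d1) ho)
  exact one_mem _) le_rfl)⟩

namespace L2c
variable (h : L2c S A α)
include h

theorem cj (g : G) : L2c (cj g S) (cj g A) (g • α) :=
  ⟨h.toGG.cj g, by rw [card_cj, h.card], by rw [← cj_St, ← cj_norm]; exact cj_mono g h.nA'⟩

theorem exT (h1 : β ≠ γ) (h2 : δ ≠ γ) (h3 : β ≠ δ) : ∃ t, InI A t ∧ t • γ = γ ∧ t • β = δ := by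
  obtain ⟨g, rfl⟩ := h.tr γ
  have h' := h.cj g
  obtain ⟨t, ht, e⟩ := h'.reg h'.card h1 h2
  exact ⟨t, (inI_cj g).1 (inI_of_mem ht fun i => h3 (by rw [← e, i, one_smul])), h'.AM ht, e⟩

theorem uqT (h1 : β ≠ γ) (ht : InI A t) (ht' : InI A t') (f1 : t • γ = γ) (f2 : t' • γ = γ)
    (e : t • β = t' • β) : t = t' := by
  obtain ⟨g, rfl⟩ := h.tr γ
  have h' := h.cj g
  have m : ∀ {t}, InI A t → t • g • α = g • α → t ∈ L0.cj g A := fun ht f =>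
    by_contra fun n => h'.toGG.not_I n (h'.nA' f) ((inI_cj g).2 ht)
  exact (inv_mul_eq_one.1 (by_contra fun n => h1 (h'.uq0 (mul_mem (inv_mem (m ht' f2)) (m ht f1)) n
    (by rw [mul_smul, e, inv_smul_smul])))).symm

theorem eqA (h1 : β ≠ α) (ha : a ∈ A) (hb : b ∈ A) (e : a • β = b • β) : a = b :=
  (inv_mul_eq_one.1 (by_contra fun n => h1 (h.uq0 (mul_mem (inv_mem hb) ha) n
    (by rw [mul_smul, e, inv_smul_smul])))).symm

theorem cent_one (h1 : β ≠ α) (hx : x ∈ 𝒞 A) (e : x • β = β) : x = 1 := by_contra fun n => by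
  obtain ⟨γ, hγ⟩ := h.faith n
  obtain ⟨a, ha, rfl⟩ := h.reg h.card h1 (γ := γ) fun i => hγ (i ▸ h.CM hx)
  exact hγ (by rw [← mul_smul, ← mem_cent.1 hx a ha, mul_smul, e])

/-- a subgroup of odd order whose centralizers are transitive -/
theorem exW (h1 : β ≠ α) (ha : a ∈ A) (a1 : a ≠ 1) : ∃ W, Odd ♯W ∧ 𝒟 α β ≤ 𝒩 W ∧
    ∀ X, X ≤ 𝒟 α β → X ≤ 𝒞₁ a → (𝒞₁ a).relIndex (W ⊓ 𝒞 X) = ♯(A ⊓ 𝒞 X) - 1 := by
  have pt : ∀ a ∈ A, a ≠ 1 → ∃ t, InI A t ∧ t • a • β = a • β ∧ Sw α β t ∧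
      ∀ x ∈ 𝒟 α β, x * a = a * x → x * t = t * x := fun a ha a1 => by
    have n1 : α ≠ a • β := fun e => h1 (smul_left_cancel a (e.symm.trans (mem_St.1 (h.AM ha)).symm))
    obtain ⟨t, t1, t2, t3⟩ := h.exT n1 (fun e => h1 (h.uq0 ha a1 e.symm)) h1.symm
    have s : Sw α β t := ⟨h1.symm, (h.ivo t1).2, t3⟩
    refine ⟨t, t1, t2, s, fun x hx e => mul_inv_eq_iff_eq_mul.1 (h.uqT n1 (inI_conj t1 x) t1 ?_ t2
      ((s.conj' hx).map.trans t3.symm))⟩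
    have := conj_fix t2 x
    rwa [← mul_smul x, e, mul_smul a, hx.2] at this
  obtain ⟨t, t1, t2, t3, t4⟩ := pt a ha a1
  have n := zpowers_le.2 t3.norm
  have mem : ∀ g ∈ 𝒟 α β ⊔ zpowers t, g ∈ 𝒟 α β ∨ g • α = β ∧ g • β = α := fun g hg => by
    obtain ⟨d, hd, s, hs, rfl⟩ := (mem_sup_l n).1 hg
    rcases mem_zp2 t3.sq hs with rfl | rfl
    · exact .inl (by rwa [mul_one])
    · exact .inr ⟨by rw [mul_smul, t3.map, hd.2], by rw [mul_smul, t3.map', hd.1]⟩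
  have tD : t ∈ 𝒟 α β ⊔ zpowers t := mem_sup_right (mem_zpowers t)
  have sw : ∀ g ∈ 𝒟 α β ⊔ zpowers t, Sw α β (g * t * g⁻¹) := fun g hg => by
    rcases mem g hg with e | e
    · exact t3.conj' e
    · have := t3.symm.conj g
      rwa [e.1, e.2] at this
  obtain ⟨P, p1, p2⟩ := exists_isSyl_ge (card_zp2 t3.sq) (zpowers_le.2 tD)
  have zs := zstarA p1 (p2 (mem_zpowers t)) fun g hg m => by
    obtain ⟨y, hy⟩ := h.pg_in p1.isPGroup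
    have c := h.elem.abel.comm (hy _ m (inI_conj t1 g)) (hy _ (p2 (mem_zpowers t)) t1)
    have d := (t3.inK (sw g hg)).1
    refine (mul_eq_one_iff_eq_inv.1 (by_contra fun i => h1 (h.uq (h.mul_mem_I (inI_conj t1 g) t1
      (by simpa [mul_assoc] using congrArg (fun w => y⁻¹ * w * y) c) i) d.2 d.1))).trans t3.inv
  have nr := Op_nrm {2}ᶜ (𝒟 α β ⊔ zpowers t)
  have WD : O2 (𝒟 α β ⊔ zpowers t) ≤ 𝒟 α β := fun w hw => (mem w (nr.le hw)).elim id fun e =>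
    mem_of_pow_mem (Nat.coprime_two_right.2 (odd_of_mem (odd_O2 _) hw))
      (pow_orderOf_eq_one w ▸ one_mem _)
      ⟨show w ^ 2 • α = α by rw [sq, mul_smul, e.1, e.2], show w ^ 2 • β = β by
        rw [sq, mul_smul, e.2, e.1]⟩
  refine ⟨_, odd_O2 _, le_sup_left.trans nr.norm, fun X x1 x2 => ?_⟩
  rw [← Bx.ncard_sharp]
  refine Bx.card_orbit _ _ _ fun b => ⟨?_, fun ⟨hb, b1⟩ => ?_⟩
  · rintro ⟨w, hw, rfl⟩
    exact ⟨⟨conj_mem_of_norm (h.nA' (WD hw.1).1) ha, conj_mem_of_norm (le_norm _ hw.2)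
      (le_cent1_iff.1 x2)⟩, fun e => a1 (by simpa using e)⟩
  by_cases e : b = a
  · exact ⟨1, one_mem _, by simp [e]⟩
  obtain ⟨s, s1, s2, s3, s4⟩ := pt b hb.1 b1
  have ne : a • β ≠ b • β := fun i => e (h.eqA h1 ha hb.1 i).symm
  obtain ⟨g, hg, q, -⟩ := h.conj_ne t1 s1 t2 s2 ne tD (by
    have := mul_mem (mem_sup_left (t3.inK s3).1) tD
    rwa [mul_assoc, t3.sq, mul_one] at this)
  have m : t * s ∈ O2 (𝒟 α β ⊔ zpowers t) ⊓ 𝒞 X := by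
    refine ⟨?_, mul_mem (mem_cent.2 fun x hx => t4 x (x1 hx) (mem_cent1.1 (x2 hx)))
      (mem_cent.2 fun x hx => s4 x (x1 hx) (mem_cent.1 hb.2 x hx))⟩
    have := inv_mem (zs g hg)
    rwa [commutatorElement_def, q, mul_inv_rev, inv_inv, s3.inv] at this
  obtain ⟨w, hw, q'⟩ := exists_conj_of_odd_orderOf_mul t3.sq s3.sq (odd_of_mem (odd_O2 _) m.1)
  have m' := zpowers_le.2 m hw
  refine ⟨w, m', h.eqA h1 (conj_mem_of_norm (h.nA' (WD m'.1).1) ha) hb.1 ?_⟩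
  rw [mul_smul, mul_smul, inv_fix (WD m'.1).2]
  exact h.fix_of_conj t1 t2 (q' ▸ s2)

theorem noRk (fl : ∀ z ∈ 𝒩 A, z * z = 1 → z ∈ 𝒞 A ∨ ♯A = ♯(A ⊓ 𝒞₁ z) ^ 2) (h1 : β ≠ α) :
    ¬ Rk2 (𝒟 α β) := fun ⟨e, eD, f, fD, he, hf, ne, hc⟩ => by
  have hg := he.mul hf ne hc
  have n : zpowers f ≤ 𝒩 (zpowers e) := le_norm_of_le_cent (by
    rw [cent_zpowers]; exact zpowers_le.2 (mem_cent1.2 hc.symm))
  have VD : zpowers e ⊔ zpowers f ≤ 𝒟 α β := sup_le (zpowers_le.2 eD) (zpowers_le.2 fD)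
  obtain ⟨a, ha, a1⟩ := exists_ne_one (inf_cent_ne_bot_of_pgroup Nat.prime_two
    (pgroup_sup n (card_zp2 he.2) (card_zp2 hf.2)) h.elem.pgroup
    (VD.trans (inf_le_left.trans h.nA')) (ne_bot_of_card (by have := h.four; omega)))
  have Va := le_cent1_iff.2 ha.2
  obtain ⟨W, wo, wn, hW⟩ := h.exW h1 ha.1 a1
  have key : ∀ X, X ≤ zpowers e ⊔ zpowers f →
      ♯(W ⊓ 𝒞 X) = ♯(W ⊓ 𝒞₁ a ⊓ 𝒞 X) * (♯(A ⊓ 𝒞 X) - 1) := fun X hX => by
    rw [← hW X (hX.trans VD) (hX.trans Va), ← card_inf_mul_ri (𝒞₁ a), ← inf_assoc, inf_comm _ W]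
  have eV : e ∈ zpowers e ⊔ zpowers f := mem_sup_left (mem_zpowers e)
  have fV : f ∈ zpowers e ⊔ zpowers f := mem_sup_right (mem_zpowers f)
  have k0 := key ⊥ bot_le
  have k1 := key _ le_sup_left
  have k2 := key _ le_sup_right
  have k3 := key _ (zpowers_le.2 (mul_mem eV fV))
  have k4 := key _ le_rfl
  simp only [cent_bot, inf_top_eq, cent_sup, cent_zpowers] at k0 k1 k2 k3 k4
  have b1 := bw4 wo he hf ne hc (wn eD) (wn fD)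
  have nW : ∀ x ∈ zpowers e ⊔ zpowers f, x ∈ 𝒩 (W ⊓ 𝒞₁ a) := fun x hx =>
    le_norm_inf (VD.trans wn) (Va.trans (le_norm _)) hx
  have b2 := bw4 (odd_of_le wo inf_le_left) he hf ne hc (nW e eV) (nW f fV)
  have r : ∀ z ∈ zpowers e ⊔ zpowers f, Ivo z → ♯A = ♯(A ⊓ 𝒞₁ z) ^ 2 := fun z hz i =>
    (fl z (h.nA' (VD hz).1) i.2).resolve_left fun c => i.1 (h.cent_one h1 c (VD hz).2)
  have r1 := r e eV he
  have r2 := Nat.pow_left_injective two_ne_zero (r1.symm.trans (r f fV hf))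
  have r3 := Nat.pow_left_injective two_ne_zero (r1.symm.trans (r _ (mul_mem eV fV) hg))
  obtain ⟨j, hj⟩ := (h.elem.mono (inf_le_left : A ⊓ 𝒞₁ e ≤ A)).exists_card Nat.prime_two
  have h4 := h.four
  rw [k0, k1, k2, k3, k4, ← r2, ← r3, r1, hj] at b1
  rw [r1, hj] at h4
  have p0 := card_pos' (W ⊓ 𝒞₁ a)
  have p1 := card_pos' (W ⊓ 𝒞₁ a ⊓ (𝒞₁ e ⊓ 𝒞₁ f))
  generalize ♯(W ⊓ 𝒞₁ a ⊓ (𝒞₁ e ⊓ 𝒞₁ f)) = c4 at *
  generalize ♯(A ⊓ (𝒞₁ e ⊓ 𝒞₁ f)) - 1 = s at *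
  have ev : Even (2 ^ j) := (Nat.even_pow' fun i => by rw [i] at h4; omega).2 even_two
  obtain ⟨p, hp⟩ : ∃ p, 2 ^ j = p + 1 := ⟨2 ^ j - 1, (Nat.sub_add_cancel Nat.one_le_two_pow).symm⟩
  rw [hp] at b1 ev h4
  rw [show (p + 1) ^ 2 - 1 = p * (p + 2) by rw [show (p + 1) ^ 2 = p * (p + 2) + 1 by ring]; rfl,
    Nat.add_sub_cancel] at b1
  have p2 : 0 < p := Nat.pos_of_ne_zero fun i => by rw [i] at h4; omega
  have e1 : (p + 2) * s ^ 2 = p ^ 2 := Nat.eq_of_mul_eq_mul_left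
    (mul_pos (mul_pos p0 (pow_pos p1 2)) p2) (by linear_combination b1 - p ^ 3 * b2)
  have cp : (p + 2).Coprime p := by
    rw [add_comm, Nat.coprime_add_self_left]
    exact Nat.coprime_two_left.2 (Nat.not_even_iff_odd.1 (Nat.even_add_one.1 ev))
  have := (cp.pow_right 2).eq_one_of_dvd ⟨_, e1.symm⟩
  omega

theorem main (fl : ∀ z ∈ 𝒩 A, z * z = 1 → z ∈ 𝒞 A ∨ ♯A = ♯(A ⊓ 𝒞₁ z) ^ 2) (hz : Ivo z)
    (hI : ¬ InI A z) (hS : z ∈ S) (l : Ln (𝒞₁ z) T (A ⊓ 𝒞₁ z) T1 R k α) : False := by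
  have : Fact (Nat.Prime 2) := ⟨Nat.prime_two⟩
  obtain ⟨β, h1, b2⟩ := h.two_fix hz hI α
  have rk := h.noRk fl h1
  have zD : z ∈ 𝒟 α β := ⟨h.sylM.le hS, b2⟩
  have DA : 𝒟 α β ≤ 𝒩 A := inf_le_left.trans h.nA'
  have zA := DA zD
  have oD : O2 (𝒟 α β) ≤ 𝒟 α β := Op_le _ _
  have dec : ∀ g ∈ 𝒩 A, ∃ a ∈ A, ∃ d ∈ 𝒟 α β, a * d = g := fun g hg => by
    obtain ⟨a, ha, e⟩ := h.reg h.card h1 (γ := g • β) fun i =>
      h1 (smul_left_cancel g (i.trans (mem_St.1 (h.nA hg)).symm))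
    exact ⟨a, ha, a⁻¹ * g, ⟨(𝒮 α).mul_mem ((𝒮 α).inv_mem (h.AM ha)) (h.nA hg),
      show _ • β = β by rw [mul_smul, ← e, inv_smul_smul]⟩, mul_inv_cancel_left _ _⟩
  have nd : ¬ 2 ∣ (⁅𝒟 α β ⊓ 𝒞₁ z, 𝒟 α β ⊓ 𝒞₁ z⁆ : Subgroup G).relIndex (𝒟 α β ⊓ 𝒞₁ z) := fun e => by
    obtain ⟨Y, -, y1, y2⟩ := exists_nrm_ri_eq Nat.prime_two e
    have n1 : 𝒟 α β ⊓ 𝒞₁ z ≤ 𝒩 (A ⊔ O2 (𝒟 α β)) :=
      inf_le_left.trans (le_norm_sup DA (Op_nrm _ _).norm)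
    have n2 := le_norm_sup n1 y1.norm
    have e1 : A ⊔ O2 (𝒟 α β) ⊔ Y ⊔ 𝒟 α β ⊓ 𝒞₁ z = 𝒩 A := le_antisymm
      (sup_le (sup_le (sup_le (le_norm A) (oD.trans DA)) (y1.le.trans (inf_le_left.trans DA)))
        (inf_le_left.trans DA)) fun g hg => by
      obtain ⟨a, ha, d, hd, rfl⟩ := dec g hg
      exact mul_mem (mem_sup_left (mem_sup_left (mem_sup_left ha)))
        (((rank1' rk zD hz).trans (sup_le_sup_right (le_sup_right.trans le_sup_left) _)) hd)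
    refine h.two _ (le_sup_left.trans e1.le) ?_
    rw [← e1, ri_sup n2, ← inf_relIndex_right, ← y2]
    congr 1
    refine le_antisymm (fun x hx => ?_) (le_inf le_sup_right y1.le)
    obtain ⟨u, hu, y, hy, rfl⟩ := (mem_sup_l (y1.le.trans n1)).1 hx.1
    have uD := (mul_mem_cancel_right (y1.le hy)).1 hx.2
    obtain ⟨a, ha, o, ho, rfl⟩ := (mem_sup_l (oD.trans DA)).1 hu
    obtain rfl : a = 1 := h.eqA h1 ha (one_mem _) (by
      rw [one_smul]; exact ((mul_mem_cancel_right (oD ho)).1 uD.1).2)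
    rw [one_mul] at uD ⊢
    exact mul_mem (mem_of_cop_ri y1.norm uD (y2 ▸ Nat.coprime_two_right.2
      (odd_of_mem (odd_O2 _) ho))) hy
  obtain ⟨U, u1, u2⟩ := exists_isSyl_ge (H := 𝒟 α β) (h.syl.isPGroup.to_inf_left (K := 𝒟 α β))
    inf_le_right
  have uq : ∀ x ∈ 𝒟 α β, x * x = 1 → x * z = z * x → x = 1 ∨ x = z := fun x hx x2 c =>
    or_iff_not_imp_left.2 fun x1 => by_contra fun n => rk ⟨x, hx, z, zD, ⟨x1, x2⟩, hz, n, c⟩
  have Uz : U ≤ 𝒞₁ z := by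
    obtain ⟨y, hy, y1⟩ := exists_ne_one (inf_cent_ne_bot_of_pgroup Nat.prime_two u1.isPGroup
      u1.isPGroup (le_norm U) (ne_bot_of_mem (u2 ⟨hS, zD⟩) hz.1))
    obtain ⟨j, hj⟩ := isPGroup_iff_forall.1 u1.isPGroup y hy.1
    obtain ⟨x, hx, i⟩ := exists_ivo_zpowers (x := y) fun o => y1 (mem_bot.1 (mem_of_pow_mem
      ((Nat.coprime_two_right.2 o).pow_right j) (pow_orderOf_eq_one y ▸ one_mem _) (hj ▸ one_mem _)))
    have m := zpowers_le.2 hy hx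
    obtain rfl := (uq x (u1.le m.1) i.2 (mem_cent.1 m.2 z (u2 ⟨hS, zD⟩)).symm).resolve_left i.1
    exact le_cent1_iff.2 m.2
  have nB : 𝒟 α β ⊓ 𝒞₁ z ≤ 𝒩 (A ⊓ 𝒞₁ z) :=
    le_norm_inf (inf_le_left.trans DA) (inf_le_right.trans (le_norm _))
  have U2 : ∀ u ∈ U, u = 1 ∨ u = z := fun u hu => by
    have m : u ∈ 𝒟 α β ⊓ 𝒞₁ z := ⟨u1.le hu, Uz hu⟩
    obtain ⟨j, hj⟩ := isPGroup_iff_forall.1 u1.isPGroup u hu
    obtain ⟨b, hb, b1⟩ := exists_ne_one (inf_cent_ne_bot_of_pgroup Nat.prime_two u1.isPGroup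
      h.elem.pgroup (u1.le.trans DA) (ne_bot_of_card (by have := h.four; omega)))
    have uB := der_tor l.ty.1 nB (fun g hg => l.nk g ⟨hg.2, nB hg⟩) (mem_of_pow_mem
      (((Nat.Prime.coprime_iff_not_dvd Nat.prime_two).2 nd).pow_left j) (hj ▸ one_mem _)
      (pow_relIndex_mem (der_nrm _).norm m)) ⟨hb.1, cent_le_cent1 (u2 ⟨hS, zD⟩) hb.2⟩ b1
      (mem_cent.1 hb.2 u hu)
    refine uq u m.1 (h.cent_one h1 (mem_cent.2 fun a ha => ?_) (mul_mem m.1 m.1).2) (mem_cent1.1 m.2)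
    have q := stab_br h.elem zA (hz.2 ▸ one_mem _) (DA m.1) m.2 uB ha
    have q1 := mem_cent.1 uB _ q
    have q2 := sq1 h.elem q.1
    have q3 : u * a = u * a * u⁻¹ * a⁻¹ * a * u := by group
    generalize u * a * u⁻¹ * a⁻¹ = c at q1 q2 q3
    calc a * (u * u) = c * (c * a * u) * u := by rw [← mul_assoc c, ← mul_assoc c, q2]; group
      _ = c * u * a * u := by rw [← q3, mul_assoc c u]
      _ = u * (c * a * u) := by rw [q1]; group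
      _ = _ := by rw [← q3, mul_assoc]
  refine hI (Xx.thomp h.toMg h.syl h.sc.le (Xx.ri_two hS (fun i => hI (inI_of_mem i hz.1))
    fun b hb n => ?_) (fun y hy _ => hy) hz)
  obtain ⟨a, ha, d, hd, rfl⟩ := dec b (h.SN' hb)
  rcases U2 d (u2 ⟨(mul_mem_cancel_left (h.sc.le ha)).1 hb, hd⟩) with rfl | rfl
  · exact (n (by rwa [mul_one])).elim
  · rwa [mul_assoc, hz.2, mul_one]

end L2c

end

end Cfsg.GS.Gx
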