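import Cfsg.Agent.GS.T6
import Cfsg.Agent.GS.E3
import Cfsg.Agent.GS.Fin4

/-! `U4c`, 1: the basic facts for `|A| = 4`; bad subgroups. -/

set_option autoImplicit false
set_option linter.unusedSectionVars false

namespace Cfsg.GS.Ix

open Subgroup Cfsg.L0 Cfsg.H8 Cfsg.FT Cfsg.BS Cfsg.BS.R Cfsg.GS.T3 Cfsg.GS.T4 Cfsg.GS.SFx
open scoped commutatorElement

variable {G : Type} [Group G] [Finite G] {A B D H K M N P S T U V X Y : Subgroup G}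
  {a b g n x y : G}

theorem odd_sup (h1 : Odd ♯N) (h2 : Odd ♯H) (h : H ≤ 𝒩 N) : Odd ♯(N ⊔ H) :=
  (h1.mul h2).of_dvd_nat (card_sup_dvd h)

theorem four (hA : Elem 2 A) (h4 : ♯A = 4) (ha : a ∈ A) (hb : b ∈ A) (a1 : a ≠ 1) (b1 : b ≠ 1)
    (ne : a ≠ b) (hB : a ∈ B) (hB' : b ∈ B) : A ≤ B := by
  have o : ♯(zpowers a) = 2 := by rw [card_zpow, hA.orderOf_eq Nat.prime_two ha a1]
  have l : zpowers a < A ⊓ B := lt_of_le_of_ne (zpowers_le.2 ⟨ha, hB⟩) fun e =>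
    (mem_zp2 (sq1 hA ha) (e.ge ⟨hb, hB'⟩)).elim b1 ne.symm
  have c := card_lt l
  have d := card_dvd (inf_le_left : A ⊓ B ≤ A)
  rw [h4] at d
  have := Nat.le_of_dvd (by omega) d
  refine inf_eq_left.1 (eq_of_card_le inf_le_left ?_)
  by_contra q
  rw [show ♯(A ⊓ B) = 3 by omega] at d
  omega

theorem mem4' (hA : Elem 2 A) (h4 : ♯A = 4) (ha : a ∈ A) (hb : b ∈ A) (a1 : a ≠ 1) (b1 : b ≠ 1)
    (ne : a ≠ b) (hx : x ∈ A) : x = 1 ∨ x = a ∨ x = b ∨ x = a * b := by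
  have := four hA h4 ha hb a1 b1 ne (mem_sup_left (mem_zpowers a)) (mem_sup_right (mem_zpowers b)) hx
  obtain ⟨u, hu, v, hv, rfl⟩ := (mem_sup_l (le_norm_of_le_cent (cent_mono hA.abel
    (zpowers_le.2 hb) (zpowers_le.2 ha)))).1 this
  rcases mem_zp2 (sq1 hA ha) hu with rfl | rfl <;> rcases mem_zp2 (sq1 hA hb) hv with rfl | rfl <;>
    simp

/-- `[X, A] ≰ O(H)` for some `A`-invariant `X ≤ H` of odd order -/
def Bad (A H : Subgroup G) : Prop := ∃ X, X ≤ H ∧ Odd ♯X ∧ A ≤ 𝒩 X ∧ ¬ ⁅X, A⁆ ≤ O2 H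

/-- the centralizer of `⟨A^H⟩ O(H)/O(H)` -/
def De (A H : Subgroup G) : Subgroup G := H ⊓ H7.stab (ncl H A) (O2 H)

theorem le_De : X ≤ De A H ↔ X ≤ H ∧ ⁅ncl H A, X⁆ ≤ O2 H := by
  rw [De, le_inf_iff, H7.le_stab_iff]
  exact ⟨fun h => ⟨h.1, h.2.2⟩, fun h => ⟨h.1, h.1.trans (Op_nrm _ H).norm, h.2⟩⟩

theorem De_le : De A H ≤ H := inf_le_left

theorem De_comm : ⁅ncl H A, De A H⁆ ≤ O2 H := (le_De.1 le_rfl).2

theorem De_nrm : De A H ⊴ H := ⟨De_le, le_norm_inf (le_norm H)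
  (H7.le_normalizer_stab (le_normalizer_ncl H A) (Op_nrm _ H).norm)⟩

theorem O2_le_De (hA : A ≤ H) : O2 H ≤ De A H := le_De.2 ⟨Op_le _ _,
  comm_le_right ((Kx.ncl_le' hA).trans (Op_nrm _ H).norm)⟩

theorem comm_le_ncl (hX : X ≤ H) : ⁅X, A⁆ ≤ ncl H A :=
  comm_le_of_le_of_norm (le_ncl H A) (hX.trans (le_normalizer_ncl H A))

theorem De_A (hX : X ≤ De A H) : ⁅X, A⁆ ≤ O2 H :=
  (commutator_comm X A).le.trans ((comm_mono (le_ncl H A) hX).trans De_comm)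

theorem De_inf (h : K ≤ H) (hA : A ≤ K) : De A H ⊓ K ≤ De A K := le_De.2 ⟨inf_le_right,
  (le_inf ((comm_mono (ncl_mono h le_rfl) inf_le_left).trans De_comm) (comm_le_of_le_of_norm
    inf_le_right (le_norm_of_le (Kx.ncl_le' hA)))).trans (Op_inf_le _ h)⟩

theorem Bad.mono (h : Bad A K) (h1 : K ≤ H) : Bad A H := by
  obtain ⟨X, a, b, c, d⟩ := h
  exact ⟨X, a.trans h1, b, c, fun e =>
    d ((le_inf e ((comm_le_left c).trans a)).trans (Op_inf_le _ h1))⟩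

theorem Bad.cj (h : Bad A H) (hn : n ∈ 𝒩 A) : Bad A (cj n H) := by
  obtain ⟨X, a, b, c, d⟩ := h
  have e := cj_eq_of_mem_norm hn
  refine ⟨_, cj_mono n a, by rwa [card_cj], by rw [← cj_norm, ← e]; exact cj_mono n c, fun i => d ?_⟩
  rw [← cj_le_cj_iff n, cj_commutator, cj_Op, e]
  exact i

theorem cov2 (h1 : K ≤ H) (h2 : ncl H A ≤ O2 H ⊔ K) (hA : A ≤ K) : O2 K ⊓ ncl H A ≤ O2 H := by
  have nO := (Op_nrm {2}ᶜ H).norm
  have a : O2 H ⊔ ncl H A ⊴ H := (Op_nrm _ H).sup (Kx.ncl_nrm (hA.trans h1))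
  have b : O2 K ⊓ (O2 H ⊔ ncl H A) ≤ H := inf_le_right.trans a.le
  have c : O2 H ⊔ O2 K ⊓ (O2 H ⊔ ncl H A) ⊴ O2 H ⊔ ncl H A := ⟨sup_le le_sup_left inf_le_right,
    (sup_le le_sup_left h2).trans (sup_le (le_norm_of_le le_sup_left) (le_norm_sup (h1.trans nO)
      (le_norm_inf (Op_nrm _ K).norm (h1.trans a.norm))))⟩
  exact (inf_le_inf_left _ le_sup_right).trans (le_sup_right.trans ((le_O2 (odd_sup (odd_O2 H)
    (odd_of_le (odd_O2 K) inf_le_left) (b.trans nO)) c).trans (Op_le_Op_of_nrm _ a)))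

theorem Bad.cov (h : Bad A H) (he : Elem 2 A) (h1 : K ≤ H) (h2 : ncl H A ≤ O2 H ⊔ K) (hA : A ≤ K) :
    Bad A K := by
  obtain ⟨X, a, b, c, d⟩ := h
  have nO := (Op_nrm {2}ᶜ H).norm
  have l := comm_le_left c
  have e : O2 H ⊔ ⁅X, A⁆ = O2 H ⊔ (K ⊓ (O2 H ⊔ ⁅X, A⁆)) := by
    rw [← dedekind_r le_sup_left (h1.trans nO)]
    exact (inf_eq_right.2 (sup_le le_sup_left ((comm_le_ncl a).trans h2))).symm
  have nA : A ≤ 𝒩 (K ⊓ (O2 H ⊔ ⁅X, A⁆)) := le_norm_inf (le_norm_of_le hA)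
    (le_norm_sup (hA.trans (h1.trans nO)) (right_le_norm_comm X A))
  refine ⟨_, inf_le_left, odd_of_le (odd_sup (odd_O2 H) (odd_of_le b l) (l.trans (a.trans nO)))
    inf_le_right, nA, fun i => d ?_⟩
  rw [← comm_comm c (cop2 he b)]
  refine (comm_mono (le_sup_right.trans e.le) le_rfl).trans (H7.sup_commutator_le (le_norm _)
    (inf_le_left.trans (h1.trans nO)) (comm_le_left (hA.trans (h1.trans nO))) ?_)
  exact (le_inf i (comm_le_ncl (inf_le_left.trans h1))).trans (cov2 h1 h2 hA)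

/-- the minimal counterexample with `|A| = 4` -/
structure M4 (S A : Subgroup G) : Prop extends Mg S A where
  c4 : ♯A = 4
  rk : RK2

namespace M4
variable (h : M4 S A)
include h

theorem ab : Abel A := h.elem.abel

theorem fix (hn : n ∈ 𝒩 A) (ha : a ∈ A) (a1 : a ≠ 1) (e : n ∈ 𝒞₁ a) : n ∈ 𝒞 A := by
  classical
  have := Fintype.ofFinite A
  let φ : 𝒩 A →* Equiv.Perm A := (MulAut.toPerm A).comp A.normalizerMonoidHom
  have p : ∀ (g : 𝒩 A) (x : A), (φ g x : G) = g * x * g⁻¹ := fun _ _ => rfl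
  have i := (Equiv.Perm.sign.comp φ).ker.index_ne_zero_of_finite
  have j : (Equiv.Perm.sign.comp φ).ker.index ≤ 2 := by
    rw [index_ker]
    exact (Nat.card_le_card_of_injective _ Subtype.val_injective).trans (by simp)
  have k := h.two _ (map_subtype_le (Equiv.Perm.sign.comp φ).ker)
  rw [relIndex, subgroupOf, comap_map_eq_self_of_injective (subtype_injective _)] at k
  have s : Equiv.Perm.sign (φ ⟨n, hn⟩) = 1 := (index_eq_one.1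
    (show (Equiv.Perm.sign.comp φ).ker.index = 1 by omega)).ge (mem_top (⟨n, hn⟩ : 𝒩 A))
  have c : (φ ⟨n, hn⟩).support.card ≤ 2 := by
    have := Finset.card_le_card (show (φ ⟨n, hn⟩).support ⊆ {1, ⟨a, ha⟩}ᶜ from fun x hx => by
      simp only [Finset.mem_compl, Finset.mem_insert, Finset.mem_singleton]
      rintro (rfl | rfl)
      · exact Equiv.Perm.mem_support.1 hx (Subtype.ext (by simp [p]))
      · exact Equiv.Perm.mem_support.1 hx (Subtype.ext (by simp [p, mem_cent1.1 e])))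
    rw [Finset.card_compl, Finset.card_pair (fun i => a1 (congrArg Subtype.val i).symm),
      ← Nat.card_eq_fintype_card, h.c4] at this
    exact this
  have d := (φ ⟨n, hn⟩).card_support_ne_one
  have f : (φ ⟨n, hn⟩).support.card ≠ 2 := fun i => by
    rw [(Equiv.Perm.card_support_eq_two.1 i).sign_eq] at s
    exact absurd s (by decide)
  have u := Equiv.Perm.support_eq_empty_iff.1 (Finset.card_eq_zero.1
    (show (φ ⟨n, hn⟩).support.card = 0 by omega))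
  refine mem_cent.2 fun x hx => ?_
  have := p ⟨n, hn⟩ ⟨x, hx⟩
  rw [u] at this
  exact eq_mul_inv_iff_mul_eq.1 this

theorem nC (ha : a ∈ A) (a1 : a ≠ 1) : 𝒞₁ a ⊓ 𝒩 A ≤ 𝒞 A := fun _ hx => h.fix hx.2 ha a1 hx.1

theorem irr3 (hn : n ∈ 𝒩 A) (h1 : n ∉ 𝒞 A) (h2 : n ∈ 𝒩 B) (h0 : A ⊓ B ≠ ⊥) : A ≤ B := by
  obtain ⟨a, ha, a1⟩ := exists_ne_one h0
  exact four h.elem h.c4 ha.1 (conj_mem_of_norm hn ha.1) a1 (GS.conj_ne_one a1 n) (fun e => h1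
    (h.fix hn ha.1 a1 (mem_cent1.2 (eq_mul_inv_iff_mul_eq.1 e).symm))) ha.2 (conj_mem_of_norm h2 ha.2)

theorem pA : IsPGroup 2 A := h.elem.pgroup

theorem ne0 : A ≠ ⊥ := ne_bot_of_card (by rw [h.c4]; omega)

theorem two_cent (hP : IsPGroup 2 P) (h1 : P ≤ 𝒩 A) : P ≤ 𝒞 A := by
  obtain ⟨a, ha, a1⟩ := exists_ne_one (inf_cent_ne_bot_of_pgroup Nat.prime_two hP h.pA h1 h.ne0)
  exact (le_inf (le_cent1_iff.2 ha.2) h1).trans (h.nC ha.1 a1)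

theorem scT (hT : IsPGroup 2 T) (h1 : A ≤ T) : SC A T H :=
  (Ux.sc_of_le h.syl h.sc hT h1).mono h1 le_rfl le_top

theorem cT (hT : IsPGroup 2 T) (h1 : A ≤ T) : T ≤ 𝒞 A :=
  h.two_cent hT ((h.scT (H := ⊤) hT h1).le_norm le_top)

theorem nclcl (hA : A ≤ H) : ncl (ncl H A) A = ncl H A := by
  obtain ⟨T, a, b⟩ := exists_isSyl_ge h.pA hA
  exact Kx.ncl_ncl a (h.scT a.isPGroup b)

theorem zH (hA : A ≤ H) (h1 : H ⊓ 𝒩 A ≤ 𝒞 A) : ⁅H, A⁆ ≤ O2 H := by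
  obtain ⟨T, a, b⟩ := exists_isSyl_ge h.pA hA
  exact commutator_le.2 fun g hg x hx =>
    (h.scT a.isPGroup b).zstar a h.ab hx (h1.trans (cent_le_cent1 hx)) g hg

theorem A1 (ha : a ∈ A) : A ≤ 𝒞₁ a := h.ab.trans (cent_le_cent1 ha)

theorem za (ha : a ∈ A) (a1 : a ≠ 1) (hX : X ≤ 𝒞₁ a) : ⁅X, A⁆ ≤ O2 (𝒞₁ a) :=
  (comm_mono hX le_rfl).trans (h.zH (h.A1 ha) (h.nC ha a1))

theorem nbad (ha : a ∈ A) (a1 : a ≠ 1) : ¬ Bad A (𝒞₁ a) := fun ⟨_, b, _, _, d⟩ => d (h.za ha a1 b)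

theorem ca (ho : Odd ♯X) (hn : A ≤ 𝒩 X) : CA A X := caE h.elem ho hn

theorem cc' (ho : Odd ♯X) (hn : A ≤ 𝒩 X) : ⁅⁅X, A⁆, A⁆ = ⁅X, A⁆ := comm_comm hn (cop2 h.elem ho)

theorem C_le (ha : a ∈ A) (a1 : a ≠ 1) : 𝒞₁ a ≤ O2 (𝒞₁ a) ⊔ 𝒞 A :=
  ((h.ca (odd_O2 _) ((h.A1 ha).trans (Op_nrm _ _).norm)).le_sup_cent (Op_le _ _)
    (h.za ha a1 le_rfl)).trans (sup_le_sup_left inf_le_right _)

theorem OD (ha : a ∈ A) : O2 (𝒞₁ a) ⊓ 𝒞 A ≤ O2 (𝒞 A) := Op_inf_le _ (cent_le_cent1 ha)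

theorem DO (ha : a ∈ A) (a1 : a ≠ 1) : O2 (𝒞 A) ≤ O2 (𝒞₁ a) := by
  have l := cent_le_cent1 ha
  have n := (Op_nrm {2}ᶜ (𝒞₁ a)).norm
  have k := (Op_le {2}ᶜ (𝒞 A)).trans l
  exact le_sup_right.trans (le_O2 (odd_sup (odd_O2 _) (odd_O2 _) (k.trans n))
    ⟨sup_le (Op_le _ _) k, (h.C_le ha a1).trans (sup_le (le_norm_of_le le_sup_left)
      (le_norm_sup (l.trans n) (Op_nrm _ _).norm))⟩)

theorem le_Oa (ha : a ∈ A) (a1 : a ≠ 1) (ho : Odd ♯X) (hn : A ≤ 𝒩 X) (hX : X ≤ 𝒞₁ a)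
    (h1 : X ⊓ 𝒞 A ≤ O2 (𝒞 A)) : X ≤ O2 (𝒞₁ a) :=
  (h.ca ho hn).comm_sup_cent.ge.trans (sup_le (h.za ha a1 hX) (h1.trans (h.DO ha a1)))

theorem RA (ho : Odd ♯Y) (hn : A ≤ 𝒩 Y) : ⁅Y, A⁆ ⊓ 𝒞 A ≤ O2 (𝒞 A) :=
  h.rk G A Y _ h.elem h.c4 ho hn (inf_le_right.trans (Op_nrm _ _).norm) fun _ ha a1 =>
    (inf_le_inf_right _ (h.za ha a1 inf_le_right)).trans (h.OD ha)

theorem nne (h0 : K ≠ ⊥) (h1 : K ≠ ⊤) : 𝒩 K ≠ ⊤ := fun e => (Fx.eq_or h.simple e.ge).elim h0 h1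

theorem cne (h0 : K ≠ ⊥) : 𝒞 K ≠ ⊤ := by
  obtain ⟨a, ha, a1⟩ := exists_ne_one h0
  exact ne_top_of_le' (Fx.cent1_ne h.simple h.nab a1) (cent_le_cent1 ha)

theorem star (hM : M ≠ ⊤) (h1 : ∀ a ∈ A, a ≠ 1 → O2 (𝒞₁ a) ≤ M) : ∃ M, UG S A M := by
  have n : 𝒩 A ≤ 𝒩 (sSup {X | ∃ a ∈ A, a ≠ 1 ∧ X = O2 (𝒞₁ a)}) := le_normalizer_sSup (by
    rintro g hg _ ⟨a, ha, a1, rfl⟩
    exact ⟨_, conj_mem_of_norm hg ha, GS.conj_ne_one a1 g, by rw [cj_Op, cj_cent1]⟩)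
  refine ⟨sSup {X | ∃ a ∈ A, a ≠ 1 ∧ X = O2 (𝒞₁ a)} ⊔ 𝒩 A, h.toMg, fun e => ?_, le_sup_right,
    fun a ha a1 => (h.C_le ha a1).trans (sup_le_sup (le_sSup ⟨a, ha, a1, rfl⟩) (cent_le_norm A))⟩
  rcases Fx.eq_or h.simple (e.ge.trans (sup_le (le_norm _) n)) with i | i
  · rw [i, bot_sup_eq] at e
    exact h.nne h.ne0 (fun j => h.cne h.ne0 (top_unique (j.ge.trans h.ab))) e
  · exact hM (top_unique (i.ge.trans (sSup_le (by rintro _ ⟨a, ha, a1, rfl⟩; exact h1 a ha a1))))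

theorem odd_ne (ho : Odd ♯X) : X ≠ ⊤ := fun e => by
  have := odd_of_le ho (e ▸ le_top : A ≤ X)
  rw [h.c4] at this
  exact absurd this (by decide)

theorem rho (hA : A ≤ H) (hb : Bad A H) : ∃ ρ ∈ H ⊓ 𝒩 A, ρ ∉ 𝒞 A := by
  obtain ⟨X, a, -, -, d⟩ := hb
  exact SetLike.not_le_iff_exists.1 fun e => d ((comm_mono a le_rfl).trans (h.zH hA e))

theorem inf_De (hA : A ≤ H) (hb : Bad A H) : A ⊓ De A H = ⊥ := by_contra fun e => by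
  obtain ⟨ρ, r1, r2⟩ := h.rho hA hb
  obtain ⟨X, a, b, c, d⟩ := hb
  exact d ((h.cc' b c).ge.trans ((comm_mono (comm_le_ncl a)
    (h.irr3 r1.2 r2 (De_nrm.norm r1.1) e)).trans De_comm))

end M4

end Cfsg.GS.Ix
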