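import Cfsg.Agent.GS.I1

/-! `U4c`, 2: the structure of a bad subgroup. -/

set_option autoImplicit false
set_option linter.unusedSectionVars false

namespace Cfsg.GS.Ix

open Subgroup Cfsg.L0 Cfsg.H8 Cfsg.FT Cfsg.BS Cfsg.BS.R Cfsg.GS.T3 Cfsg.GS.T4 Cfsg.GS.SFx Cfsg.GS.Kx
open scoped commutatorElement

variable {G : Type} [Group G] [Finite G] {A B D H K L M N P S T U V X Y : Subgroup G}
  {a b g n t x y : G}

/-- the torus of `L₂(q)` -/
theorem torus (hL : Smp L) (hA : IsSyl 2 A L) (he : Elem 2 A) (h4 : ♯A = 4) (ht : t ∈ A) (t1 : t ≠ 1)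
    (h1 : X ≤ L) (h2 : X ≤ 𝒞₁ t) (ho : Odd ♯X) : Cyc X := by
  obtain ⟨s, hs, ne⟩ := ex_ne (B := A) (by omega) t
  have c : ♯(A.subgroupOf L) = 4 := (Nat.card_congr (subgroupOfEquivOfLe hA.le).toEquiv).trans h4
  obtain ⟨F, _, _, o, ⟨φ⟩⟩ := GW.gw4 L hL.isSimpleGroup hA.toSylow c
    fun x hx => Subtype.ext (sq1 he hx)
  obtain ⟨T, cy, w⟩ := GW.l2bw L ⊤ ⟨t, hA.le ht⟩ ⟨s, hA.le hs.1⟩ ⟨F, _, _, o, ⟨topEquiv.trans φ⟩⟩
    ⟨Subtype.ext (sq1 he ht), Subtype.ext (sq1 he hs.1), fun e => t1 (congrArg Subtype.val e),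
      fun e => hs.2 (congrArg Subtype.val e), fun e => ne (congrArg Subtype.val e).symm,
      Subtype.ext (he.abel.comm ht hs.1), fun e => hA.not_dvd (by
        have := card_mul_ri hA.le
        rw [h4] at this
        omega)⟩ trivial trivial
  generalize hτ : (⟨t, hA.le ht⟩ : L) = τ at w
  generalize (⟨s, hA.le hs.1⟩ : L) = σ at w
  refine (cy.map L.subtype).mono fun x hx => ⟨⟨x, h1 hx⟩, ?_, rfl⟩
  have od : Odd (orderOf (⟨x, h1 hx⟩ : L)) := by rw [orderOf_mk]; exact odd_of_mem ho hx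
  obtain ⟨u, hu, e⟩ := w.cen ⟨x, h1 hx⟩ trivial (hτ ▸ Subtype.ext (mem_cent1.1 (h2 hx)))
  generalize (⟨x, h1 hx⟩ : L) = ξ at od e
  have c : u * τ = τ * u := mem_cent1.1 (w.ct hu)
  have i := w.inv u hu
  have q : ξ * ξ = 1 → ξ ∈ T := fun e => eq_one_of_sq_of_odd od e ▸ one_mem T
  rcases e with rfl | rfl | rfl | rfl
  · exact hu
  · obtain ⟨m, hm⟩ := od.mul (odd_of_mem w.odd hu)
    have e1 : (u * τ) ^ (2 * m + 1) = 1 := by rw [← hm, pow_mul, pow_orderOf_eq_one, one_pow]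
    have e2 : u ^ (2 * m + 1) = 1 := by rw [← hm, mul_comm, pow_mul, pow_orderOf_eq_one, one_pow]
    rw [Commute.mul_pow c, e2, one_mul, pow_succ, pow_mul, pow_two, w.tt, one_pow, one_mul] at e1
    exact absurd e1 w.t1
  · exact q (by rw [mul_assoc, ← mul_assoc σ, i, mul_inv_cancel])
  · refine q ?_
    calc _ = u * τ * (σ * u * (τ * σ)) := by group
      _ = u * τ * (σ * u * σ) * τ := by rw [w.cm]; group
      _ = 1 := by rw [i, c, mul_inv_cancel_right, w.tt]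

/-- `⟨A^H⟩ O(H)/O(H) ≅ L₂(q)` -/
structure Str (A H : Subgroup G) : Prop where
  syl : IsSyl 2 A (ncl H A)
  smp : ∀ N, N ⊴ ncl H A → N ≤ O2 H ∨ A ≤ N
  tor : ∀ a ∈ A, a ≠ 1 → ∀ X, X ≤ ncl H A → X ≤ 𝒞₁ a → Odd ♯X → CycMod X (X ⊓ O2 H)

namespace M4
variable (h : M4 S A)
include h

theorem str (hH : H ≠ ⊤) (hA : A ≤ H) (hb : Bad A H) : Str A H := by
  obtain ⟨T, hT, AT⟩ := exists_isSyl_ge h.pA hA
  obtain ⟨Q, _, _, f, hf, hk⟩ := exists_quo0 (Op_nrm {2}ᶜ H)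
  have st := st_down (h.ih H hH) hk hT (h.scT hT.isPGroup AT) h.ab
  obtain ⟨X, x1, x2, x3, x4⟩ := hb
  have KH := Kx.ncl_le' hA
  have he := h.elem.down f
  have o2 : ∀ {P : Subgroup G}, IsPGroup 2 P → up f ⊥ ⊓ P = ⊥ := fun hP => inf_eq_bot_of_cop
    (cop_of_pgroup Nat.prime_two hP (hk ▸ not_dvd_Op_compl Nat.prime_two H)).symm
  have c4 : ♯(down f A) = 4 := (card_down_eq hA (o2 h.pA)).trans h.c4
  have nb : ∀ {Y}, Odd ♯Y → down f A ≤ 𝒩 Y → Y ≤ 𝒩 (down f A) → Y ≤ 𝒞 (down f A) := fun a b c =>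
    le_cent_of_inf_eq_bot c b (inf_eq_bot_of_cop (cop2 he a))
  have n1 : ¬ down f X ≤ 𝒞 (down f A) := fun e => x4 (((down_le_cent_iff' x1 hA).1 e).trans hk.le)
  obtain ⟨L, hL, a⟩ : ∃ L, Cp L (down f H) ∧ ¬ down f A ≤ 𝒞 L := by
    by_contra! i
    exact n1 (nb (odd_down f x2) (down_le_norm f x3) ((down_mono f x1).trans
      (st.gen' inf_le_right fun L a b => absurd (i L a) b)))
  have i0 : down f A ⊓ 𝒞 L = ⊥ := eq_bot_iff.2 fun b hb => by_contra fun i => by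
    obtain ⟨⟨b, b1, rfl⟩, b2⟩ := hb
    have b0 : (b : G) ≠ 1 := fun e => i (by rw [show b = 1 from Subtype.ext e, map_one]; exact one_mem _)
    have l : L ≤ down f (H ⊓ 𝒞₁ (b : G)) :=
      (le_inf hL.le (le_cent1_iff.2 b2)).trans (down_cent1 hk (sq1 h.elem b1)).ge
    have od : Odd ♯(⁅L, down f A⁆) := odd_of_le (odd_down f (odd_O2 (𝒞₁ (b : G)))) (by
      refine (comm_mono l le_rfl).trans ?_
      rw [← down_commutator f inf_le_left hA]
      exact down_mono f (h.za b1 b0 inf_le_right))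
    rcases hL.qs.2.2 _ (comm_le_left (st.normA hL)) (left_le_norm_comm _ _) with e | e
    · exact Nat.not_even_iff_odd.2 (e ▸ od) (even_iff_two_dvd.2 hL.even)
    · rw [commutator_comm L] at e
      exact a (comm_eq_bot_iff'.1 (comm_bot_of_perfect hL.qs.perfect e))
  have h0 : down f A ≠ ⊥ := ne_bot_of_card (by omega)
  obtain ⟨n, h1, h2, -⟩ := Nx.st_one st hL h0 i0
  have eL : down f (ncl H A) = L := le_antisymm ((down_le_iff' KH).2 (ncl_le
    ((down_le_iff' hA).1 (h2.trans inf_le_right)) (le_norm_up le_rfl n))) (((st.le_iff hL).2 a).trans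
      (ncl_le (down_mono f (le_ncl H A)) (down_le_norm f (le_normalizer_ncl H A))))
  have sy := hL.syl st.syl
  have sc := st.sc.mono h2 inf_le_left hL.le
  have e : down f T ⊓ L ≤ down f A := by
    refine (st.gold.hg Q L h1 (involves_of_le hL.le) _ _ sy sc h0 st.ab).2.2.resolve_right fun r => ?_
    have nX := down_le_norm f x3
    have oX := odd_of_le (odd_down f x2) (comm_le_left nX)
    have l : ⁅down f X, down f A⁆ ≤ L := comm_le_of_le_of_norm (h2.trans inf_le_right)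
      ((down_mono f x1).trans n)
    refine n1 (cent_symm (cent_of_comm_cent nX (cop2 he (odd_down f x2)) (cent_symm
      (nb oX (right_le_norm_comm _ _) ((le_inf l ?_).trans sc.norm_le)))))
    exact gen1 he (by omega) oX (right_le_norm_comm _ _) fun c hc g hg => r.ti g (l hg.1) c (h2 hc.1)
      hc.2 (by rw [mem_cent1.1 hg.2, mul_inv_cancel_right]; exact h2 hc.1)
  have s1 : IsSyl 2 (down f A) L := le_antisymm e h2 ▸ sy
  have s2 : IsSyl 2 A (ncl H A) := by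
    have := hT.inf KH (hT.le.trans (le_normalizer_ncl H A))
    suffices e : T ⊓ ncl H A = A by rwa [e] at this
    refine le_antisymm ?_ (le_inf AT (le_ncl H A))
    have l := (down_le_down_iff (inf_le_left.trans hT.le) hA).1
      ((down_inf_le f T _).trans (eL ▸ e))
    refine (le_inf l inf_le_left).trans ?_
    rw [dedekind_l AT (le_norm_ker f hA), o2 hT.isPGroup, sup_bot_eq]
  refine ⟨s2, fun N hN => (h1.simple _ (eL ▸ hN.down f)).imp
    (fun i => ((down_eq_bot_iff (hN.le.trans KH)).1 i).trans hk.le) fun i => ?_, fun a ha a1 Y y1 y2 y3 => ?_⟩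
  · have l := (down_le_down_iff KH (hN.le.trans KH)).1 (eL.trans i.symm).le
    have j := dedekind_l hN.le (le_norm_ker f (hN.le.trans KH))
    rw [inf_eq_right.2 l] at j
    refine (syl_le_iff Nat.prime_two s2 hN).2 fun d => ?_
    rw [j, ri_sup (inf_le_right.trans hN.norm)] at d
    exact not_dvd_Op_compl Nat.prime_two H
      (hk ▸ (d.trans (ri_dvd_card _ _)).trans (card_dvd inf_le_left))
  · obtain ⟨x, hx, l⟩ := (cyc_down_iff (y1.trans KH)).1 (torus h1 s1 he c4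
      (mem_down_of_mem (x := ⟨a, hA ha⟩) ha) (fun i => a1 (eq_one_of_mem (o2 h.pA)
        ⟨mem_up.2 ⟨hA ha, i⟩, ha⟩)) (eL ▸ down_mono f y1)
      ((down_mono f (le_inf (y1.trans KH) y2)).trans
        ((down_cent1 (b := ⟨a, hA ha⟩) hk (sq1 h.elem ha)).le.trans inf_le_right)) (odd_down f y3))
    refine ⟨x, hx, (le_inf (l.trans (sup_comm _ _).le) le_rfl).trans ?_⟩
    rw [dedekind_l (zpowers_le.2 hx) (le_norm_ker f (zpowers_le.2 (KH (y1 hx)))), hk, sup_comm,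
      inf_comm]

theorem s3 (hH : H ≠ ⊤) (hA : A ≤ H) (hb : Bad A H) (hx : x ∈ H) (h1 : x ∈ 𝒞 A)
    (h2 : IsPGroup 2 (zpowers x)) : ∃ a ∈ A, a * x ∈ De A H := by
  have s := (h.str hH hA hb).syl
  have nK := Kx.ncl_nrm hA
  have zn := (zpowers_le.2 hx).trans nK.norm
  have zc := zpowers_le.2 h1
  have ab := abel_sup h.ab (cyc_zpowers x).abel (cent_symm zc)
  have pT := pgroup_sup (le_norm_of_le_cent zc) h.pA h2
  obtain ⟨T, hT, l⟩ := exists_isSyl_ge pT (sup_le_sup_right (le_ncl H A) (zpowers x))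
  have YH : ncl H A ⊔ zpowers x ≤ H := sup_le nK.le (zpowers_le.2 hx)
  have TK : ncl H A ⊓ T = A := s.eq_of_le (hT.isPGroup.to_le inf_le_right)
    (le_inf (le_ncl H A) (le_sup_left.trans l)) inf_le_left
  have e : T = A ⊔ zpowers x := by
    have := dedekind_l (le_sup_right.trans l) zn
    rwa [sup_comm, inf_eq_right.2 hT.le, TK, sup_comm] at this
  rw [← e] at ab
  obtain ⟨V, sd, oV⟩ := exists_sd_syl Nat.prime_two (syl_norm hT) inf_le_right
  have nV := sd.le_right.trans inf_le_right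
  have c : ⁅T, V⁆ ≤ A := TK ▸ le_inf ((comm_mono le_rfl (sd.le_right.trans inf_le_left)).trans
    (H7.commutator_sup_le (le_norm _) zn (comm_le_right ((hT.le.trans YH).trans nK.norm))
      (H7.commutator_le_of_le_centralizer ((le_sup_right.trans l).trans ab)))) (comm_le_left nV)
  obtain ⟨a, ha, y, hy, rfl⟩ := (mem_sup_l (inf_le_left.trans (left_le_norm_comm T V))).1
    ((mkCA_p' Nat.prime_two nV hT.isPGroup oV).comm_sup_cent.ge (l (mem_sup_right (mem_zpowers x))))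
  have yH := YH (hT.le hy.1)
  refine ⟨a⁻¹, inv_mem (c ha), ?_⟩
  rw [inv_mul_cancel_left]
  refine ⟨yH, (Op_nrm _ H).norm yH, fun g hg => Op_le_Op_of_nrm _ nK (Op_inf_le _ le_sup_left
    ⟨zstarA hT hy.1 (fun g hg i => ?_) g (mem_sup_left hg),
      comm_le_left ((zpowers_le.2 yH).trans nK.norm) (commutator_mem_commutator hg (mem_zpowers y))⟩)⟩
  obtain ⟨n, n1, n2⟩ := abel_syl_fusion Nat.prime_two hT ((zpowers_le.2 hy.1).trans ab) hg
    (by rw [cj_zpowers]; exact (zpowers_le.2 i).trans ab)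
  have : n ∈ 𝒞₁ y := (sd.sup.ge.trans (sup_le (ab.trans (cent_le_cent1 hy.1))
    (le_cent1_iff.2 hy.2))) n1
  rw [← n2 y (mem_zpowers y), mem_cent1.1 this, mul_inv_cancel_right]

theorem p1 (hH : H ≠ ⊤) (hA : A ≤ K) (hK : K ≤ H) (hb : Bad A K) (hx : x ∈ H) (h1 : K ≤ 𝒞₁ x)
    (h2 : IsPGroup 2 (zpowers x)) : x ∈ De A H := by
  obtain ⟨ρ, r1, r2⟩ := h.rho hA hb
  obtain ⟨a, ha, i⟩ := h.s3 hH (hA.trans hK) (hb.mono hK) hx (le_cent1_iff.1 (hA.trans h1)) h2
  have j := conj_mem_of_norm (De_nrm.norm (hK r1.1)) i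
  rw [show ρ * (a * x) * ρ⁻¹ = ρ * a * ρ⁻¹ * x by
    rw [mul_assoc _ ρ⁻¹, mem_cent1.1 (inv_mem (h1 r1.1))]; group] at j
  have k := eq_one_of_mem (h.inf_De (hA.trans hK) (hb.mono hK)) (x := ρ * a * ρ⁻¹ * a⁻¹)
    ⟨A.mul_mem (conj_mem_of_norm r1.2 ha) (A.inv_mem ha), by
      simpa [mul_assoc] using (De A H).mul_mem j ((De A H).inv_mem i)⟩
  by_cases e : a = 1
  · simpa [e] using i
  · exact absurd (h.fix r1.2 ha e (mem_cent1.2 (mul_inv_eq_iff_eq_mul.1 (mul_inv_eq_one.1 k)))) r2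

end M4

theorem cov_of (hP : IsPGroup 2 P) (h1 : P ≤ De A H) (hA : A ≤ H) : ncl H A ≤ O2 H ⊔ 𝒞 P := by
  have n := (Op_nrm {2}ᶜ H).norm
  have m := (h1.trans De_le).trans n
  exact le_sup_right.trans (((mkCA_p Nat.prime_two m hP (not_dvd_Op_compl Nat.prime_two H)).le_sup_cent
    le_sup_left (H7.sup_commutator_le (le_norm _) ((Kx.ncl_le' hA).trans n) (comm_le_left m)
      (le_De.1 h1).2)).trans (sup_le_sup_left inf_le_right _))

end Cfsg.GS.Ix
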