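import Cfsg.Agent.GS.I2

/-! `U4c`, 3: the signalizer functor. -/

set_option autoImplicit false
set_option linter.unusedSectionVars false

namespace Cfsg.GS.Ix

open Subgroup Cfsg.L0 Cfsg.H8 Cfsg.FT Cfsg.BS Cfsg.BS.R Cfsg.GS.T3 Cfsg.GS.T4 Cfsg.GS.SFx Cfsg.GS.Kx
open scoped commutatorElement

variable {G : Type} [Group G] [Finite G] {A B D E F H K P R R' S T U V X Y : Subgroup G}
  {𝓡 : Subgroup G → Prop} {a b e g r x y : G}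

/-- the largest `B`-invariant subgroup `X` of `Y` with `C_X(B) ≤ D` -/
def cut (Y B D : Subgroup G) : Subgroup G := ⁅Y, B⁆ ⊔ Y ⊓ 𝒞 B ⊓ D

theorem cut_le (h : B ≤ 𝒩 Y) : cut Y B D ≤ Y :=
  sup_le (comm_le_left h) (inf_le_left.trans inf_le_left)

theorem norm_cut (h1 : X ≤ 𝒩 Y) (h2 : X ≤ 𝒩 B) (h3 : X ≤ 𝒩 D) : X ≤ 𝒩 (cut Y B D) :=
  le_norm_sup (le_norm_comm h1 h2) (le_norm_inf (le_norm_inf h1 (le_norm_cent h2)) h3)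

theorem cut_nrm (c : CA B Y) (h : 𝒞 B ≤ 𝒩 D) : Y ≤ 𝒩 (cut Y B D) :=
  c.comm_sup_cent.ge.trans (sup_le (le_norm_of_le le_sup_left) (norm_cut (le_norm_of_le inf_le_left)
    (le_norm_of_le_cent inf_le_right) (inf_le_right.trans h)))

theorem cut_inf (h : ⁅Y, B⁆ ⊓ 𝒞 B ≤ D) : cut Y B D ⊓ 𝒞 B ≤ D := by
  rw [cut, sup_comm, dedekind_l (inf_le_left.trans inf_le_right)
    ((inf_le_left.trans inf_le_left).trans (left_le_norm_comm Y B))]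
  exact sup_le inf_le_right h

theorem le_cut (c : CA B X) (h1 : X ≤ Y) (h2 : X ⊓ 𝒞 B ≤ D) : X ≤ cut Y B D :=
  c.comm_sup_cent.ge.trans (sup_le_sup (comm_mono h1 le_rfl) (le_inf (inf_le_inf_right _ h1) h2))

theorem hy_sup (h : Hy V E) (h1 : B ≤ V) (h2 : ¬ B ≤ E) : V ≤ B ⊔ E := fun y hy => by
  obtain ⟨x, hx, n⟩ := SetLike.not_le_iff_exists.1 h2
  by_cases e : y ∈ E
  · exact mem_sup_right e
  · exact (mul_mem_cancel_left (mem_sup_left hx)).1 (mem_sup_right (h.mul x (h1 hx) y hy n e))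

theorem comm_le_of (h1 : V ≤ B ⊔ E) (h2 : B ≤ 𝒩 X) (h3 : X ≤ 𝒞 E) : ⁅X, V⁆ ≤ ⁅X, B⁆ :=
  (comm_mono le_rfl h1).trans (comm_sup_of_cent h2 (cent_symm h3)).le

/-- the members of `И` -/
structure Ii (A V : Subgroup G) (𝓡 : Subgroup G → Prop) (X : Subgroup G) : Prop where
  odd : Odd ♯X
  inv : V ≤ 𝒩 X
  dA : X ⊓ 𝒞 A ≤ O2 (𝒞 A)
  dR : ∀ R, 𝓡 R → X ⊓ 𝒞 R ≤ De A (𝒞 R)

theorem Ii.sub (h : Ii A V 𝓡 X) (h1 : Y ≤ X) (h2 : V ≤ 𝒩 Y) : Ii A V 𝓡 Y :=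
  ⟨odd_of_le h.odd h1, h2, (inf_le_inf_right _ h1).trans h.dA,
    fun R q => (inf_le_inf_right _ h1).trans (h.dR R q)⟩

/-- the largest member of `И` in `Y` -/
def th (A : Subgroup G) (𝓡 : Subgroup G → Prop) (Y : Subgroup G) : Subgroup G :=
  cut Y A (O2 (𝒞 A)) ⊓ sInf {Z | ∃ R, 𝓡 R ∧ Z = cut Y R (De A (𝒞 R))}

theorem norm_th (h1 : X ≤ 𝒩 (cut Y A (O2 (𝒞 A)))) (h2 : ∀ R, 𝓡 R → X ≤ 𝒩 (cut Y R (De A (𝒞 R)))) :
    X ≤ 𝒩 (th A 𝓡 Y) := le_norm_inf h1 fun g hg => mem_norm_of_cj_le (le_sInf (by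
  rintro _ ⟨R, q, rfl⟩
  exact cj_le_of_le (sInf_le ⟨R, q, rfl⟩) (h2 R q hg)))

/-- the functor -/
def fn (A : Subgroup G) (𝓡 : Subgroup G → Prop) (b : G) : Subgroup G :=
  th A 𝓡 (O2 (𝒞₁ b) ⊔ O2 (𝒞 A) ⊓ 𝒞₁ b)

/-- the bad involutions of `V` lie in the members of `𝓡` -/
structure Bo (S A V : Subgroup G) (𝓡 : Subgroup G → Prop) : Prop extends M4 S A where
  el : Elem 2 V
  le : A ≤ V
  big : 8 ≤ ♯V
  rle : ∀ R, 𝓡 R → R ≤ V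
  r4 : ∀ R, 𝓡 R → ♯R = 4
  c16 : ∀ R, 𝓡 R → ♯V = 16
  bad : ∀ R, 𝓡 R → Bad A (𝒞 R)
  dis : ∀ R R', 𝓡 R → 𝓡 R' → R ≠ R' → R ⊓ R' = ⊥
  cov : ∀ e ∈ V, e ≠ 1 → Bad A (𝒞₁ e) → ∃ R, 𝓡 R ∧ e ∈ R

namespace Bo
variable (h : Bo S A V 𝓡)
include h

theorem cV (h1 : B ≤ V) : V ≤ 𝒞 B := h.el.abel.trans (cent_anti h1)

theorem c1 (h1 : b ∈ V) : V ≤ 𝒞₁ b := h.el.abel.trans (cent_le_cent1 h1)

theorem nV (h1 : B ≤ V) : V ≤ 𝒩 B := le_norm_of_le_cent (h.cV h1)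

theorem caV (h1 : B ≤ V) (ho : Odd ♯X) (hn : V ≤ 𝒩 X) : CA B X := caE (h.el.mono h1) ho (h1.trans hn)

theorem AR (q : 𝓡 R) : A ≤ 𝒞 R := h.le.trans (h.cV (h.rle R q))

theorem badr (q : 𝓡 R) (hr : r ∈ R) : Bad A (𝒞₁ r) := (h.bad R q).mono (cent_le_cent1 hr)

theorem nA (q : 𝓡 R) (ha : a ∈ A) (a1 : a ≠ 1) : a ∉ R := fun i => h.nbad ha a1 (h.badr q i)

theorem le_sup (h1 : B ≤ V) (c : ♯B = 4) (q : 𝓡 R) (i : B ⊓ R = ⊥) : V ≤ B ⊔ R :=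
  (eq_of_card_le (sup_le h1 (h.rle R q)) (by
    rw [card_sup_of_inf ((h.rle R q).trans (h.nV h1)) i, c, h.r4 R q, h.c16 R q])).ge

theorem VA (q : 𝓡 R) : V ≤ A ⊔ R :=
  h.le_sup h.le h.c4 q (eq_bot_iff.2 fun _ i => by_contra fun n => h.nA q i.1 n i.2)

theorem VR (q : 𝓡 R) (q' : 𝓡 R') (ne : R' ≠ R) : V ≤ R' ⊔ R :=
  h.le_sup (h.rle _ q') (h.r4 _ q') q (h.dis _ _ q' q ne)

theorem rDe (q : 𝓡 R) (hr : r ∈ R) (r1 : r ≠ 1) : R ≤ De A (𝒞₁ r) := fun _ hx =>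
  h.p1 (Fx.cent1_ne h.simple h.nab r1) (h.AR q) (cent_le_cent1 hr) (h.bad R q)
    (h.c1 (h.rle R q hr) (h.rle R q hx)) (cent_le_cent1 hx) (card_zp2 (sq1 h.el (h.rle R q hx)))

theorem cv (q : 𝓡 R) (hr : r ∈ R) (r1 : r ≠ 1) : ncl (𝒞₁ r) A ≤ O2 (𝒞₁ r) ⊔ 𝒞 R :=
  cov_of (h.el.mono (h.rle R q)).pgroup (h.rDe q hr r1) (h.le.trans (h.c1 (h.rle R q hr)))

theorem cDe (q : 𝓡 R) (hr : r ∈ R) (r1 : r ≠ 1) (hX : X ≤ 𝒞₁ r) : ⁅X, R⁆ ≤ De A (𝒞₁ r) :=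
  comm_le_of_le_of_norm (h.rDe q hr r1) (hX.trans De_nrm.norm)

theorem RR (q : 𝓡 R) (ho : Odd ♯Y) (hn : R ≤ 𝒩 Y) : ⁅Y, R⁆ ⊓ 𝒞 R ≤ De A (𝒞 R) :=
  h.rk G R Y _ (h.el.mono (h.rle R q)) (h.r4 R q) ho hn (inf_le_right.trans De_nrm.norm)
    fun _ hr r1 => (inf_le_inf_right _ (h.cDe q hr r1 inf_le_right)).trans
      (De_inf (cent_le_cent1 hr) (h.AR q))

theorem th_le (hn : V ≤ 𝒩 Y) : th A 𝓡 Y ≤ Y := inf_le_left.trans (cut_le (h.le.trans hn))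

theorem th_cent (h1 : X ≤ 𝒞 V) (h2 : X ≤ 𝒩 Y) : X ≤ 𝒩 (th A 𝓡 Y) :=
  have a := h1.trans (cent_anti h.le)
  norm_th (norm_cut h2 (le_norm_of_le_cent a) (a.trans (Op_nrm _ _).norm)) fun R q =>
    have b := h1.trans (cent_anti (h.rle R q))
    norm_cut h2 (le_norm_of_le_cent b) (b.trans De_nrm.norm)

theorem th_nrm (ho : Odd ♯Y) (hn : V ≤ 𝒩 Y) : Y ≤ 𝒩 (th A 𝓡 Y) :=
  norm_th (cut_nrm (h.caV h.le ho hn) (Op_nrm _ _).norm) fun R q =>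
    cut_nrm (h.caV (h.rle R q) ho hn) De_nrm.norm

theorem th_in (ho : Odd ♯Y) (hn : V ≤ 𝒩 Y) : Ii A V 𝓡 (th A 𝓡 Y) :=
  ⟨odd_of_le ho (h.th_le hn), h.th_cent h.el.abel hn,
    (inf_le_inf_right _ inf_le_left).trans (cut_inf (h.RA ho (h.le.trans hn))), fun R q =>
      (inf_le_inf_right _ (inf_le_right.trans (sInf_le (by exact ⟨R, q, rfl⟩)))).trans
        (cut_inf (h.RR q ho ((h.rle R q).trans hn)))⟩

theorem le_th (hX : Ii A V 𝓡 X) (h1 : X ≤ Y) : X ≤ th A 𝓡 Y :=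
  le_inf (le_cut (h.caV h.le hX.odd hX.inv) h1 hX.dA) (le_sInf (by
    rintro _ ⟨R, q, rfl⟩
    exact le_cut (h.caV (h.rle R q) hX.odd hX.inv) h1 (hX.dR R q)))

theorem comm_O (hX : Ii A V 𝓡 X) (hb : b ∈ V) (b1 : b ≠ 1) (h1 : X ≤ 𝒞₁ b) : ⁅X, A⁆ ≤ O2 (𝒞₁ b) := by
  have n := h.le.trans hX.inv
  refine by_contra fun i => i ?_
  obtain ⟨R, q, hr⟩ := h.cov b hb b1 ⟨X, h1, hX.odd, n, i⟩
  have l := comm_le_left n
  have nO := (Op_nrm {2}ᶜ (𝒞₁ b)).norm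
  have k := (h.caV (h.rle R q) (odd_of_le hX.odd l) (le_norm_comm hX.inv (h.nV h.le))).comm_sup_cent
  have m : ⁅⁅X, A⁆, R⁆ ≤ O2 (𝒞₁ b) := (comm_mono (comm_le_ncl h1) (h.rDe q hr b1)).trans De_comm
  rw [← h.cc' hX.odd n]
  refine (comm_mono (k.ge.trans (sup_le_sup_right m _)) le_rfl).trans (H7.sup_commutator_le
    (le_norm _) ((inf_le_left.trans (l.trans h1)).trans nO)
    (comm_le_left ((h.le.trans (h.c1 hb)).trans nO)) ?_)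
  exact (le_inf (De_A ((inf_le_inf_right _ l).trans (hX.dR R q)))
    (comm_le_ncl (inf_le_left.trans (l.trans h1)))).trans
      (cov2 (cent_le_cent1 hr) (h.cv q hr b1) (h.AR q))

theorem oddY (b : G) : Odd ♯(O2 (𝒞₁ b) ⊔ O2 (𝒞 A) ⊓ 𝒞₁ b) :=
  odd_sup (odd_O2 _) (odd_of_le (odd_O2 _) inf_le_left) (inf_le_right.trans (Op_nrm _ _).norm)

theorem invY (hb : b ∈ V) : V ≤ 𝒩 (O2 (𝒞₁ b) ⊔ O2 (𝒞 A) ⊓ 𝒞₁ b) :=
  le_norm_sup ((h.c1 hb).trans (Op_nrm _ _).norm)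
    (le_norm_inf ((h.cV h.le).trans (Op_nrm _ _).norm) (le_norm_of_le (h.c1 hb)))

theorem fn_in (hb : b ∈ V) : Ii A V 𝓡 (fn A 𝓡 b) := h.th_in (h.oddY b) (h.invY hb)

theorem O_fn (hb : b ∈ V) : O2 (𝒞₁ b) ≤ 𝒩 (fn A 𝓡 b) :=
  le_sup_left.trans (h.th_nrm (h.oddY b) (h.invY hb))

theorem le_fn (hX : Ii A V 𝓡 X) (hb : b ∈ V) (b1 : b ≠ 1) (h1 : X ≤ 𝒞₁ b) : X ≤ fn A 𝓡 b :=
  h.le_th hX ((h.caV h.le hX.odd hX.inv).comm_sup_cent.ge.trans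
    (sup_le_sup (h.comm_O hX hb b1 h1) (le_inf hX.dA (inf_le_left.trans h1))))

theorem isFn : Fn V (fn A 𝓡) :=
  ⟨h.el, h.big, fun _ hb => (h.fn_in hb.1).odd,
    fun _ hb => (h.th_le (h.invY hb.1)).trans (sup_le (Op_le _ _) inf_le_right),
    fun _ hb => (h.fn_in hb.1).inv, fun _ hb _ hc => h.le_fn ((h.fn_in hb.1).sub inf_le_left
      (le_norm_inf (h.fn_in hb.1).inv (le_norm_of_le (h.c1 hc.1)))) hc.1 hc.2 inf_le_right⟩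

theorem W_in : Ii A V 𝓡 (Gn V (fn A 𝓡)) := by
  have w := sfg G V _ h.isFn
  obtain ⟨a, ha, a1⟩ := exists_ne_one h.ne0
  refine ⟨w.odd, w.inv, (le_inf (w.hyp ⟨h.le ha, a1⟩ ha) inf_le_right).trans (h.fn_in (h.le ha)).dA,
    fun R q => ?_⟩
  obtain ⟨r, hr, r1⟩ := exists_ne_one (ne_bot_of_card (A := R) (by rw [h.r4 R q]; omega))
  exact (le_inf (w.hyp ⟨h.rle R q hr, r1⟩ hr) inf_le_right).trans ((h.fn_in (h.rle R q hr)).dR R q)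

theorem le_W (hX : Ii A V 𝓡 X) : X ≤ Gn V (fn A 𝓡) :=
  gen1 h.el h.isFn.two hX.odd hX.inv fun _ hb => (h.le_fn (hX.sub inf_le_left
    (le_norm_inf hX.inv (le_norm_of_le (h.c1 hb.1)))) hb.1 hb.2 inf_le_right).trans (le_Gn hb)

theorem in_cj (hX : Ii A V 𝓡 X) (hg : g ∈ 𝒞 V) : Ii A V 𝓡 (cj g X) := by
  have k : ∀ {B D : Subgroup G}, B ≤ V → 𝒞 B ≤ 𝒩 D → X ⊓ 𝒞 B ≤ D → cj g X ⊓ 𝒞 B ≤ D :=
    fun {B D} a b c => by
      rw [← cj_eq_of_mem (cent_anti a hg), ← cj_inf]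
      exact cj_le_of_le c (b (cent_anti a hg))
  refine ⟨by rw [card_cj]; exact hX.odd, ?_, k h.le (Op_nrm _ _).norm hX.dA,
    fun R q => k (h.rle R q) De_nrm.norm (hX.dR R q)⟩
  rw [← cj_norm, ← cj_eq_of_mem_cent hg]
  exact cj_mono g hX.inv

theorem C_W : 𝒞 V ≤ 𝒩 (Gn V (fn A 𝓡)) := fun _ hg => mem_norm_of_cj_le (h.le_W (h.in_cj h.W_in hg))

theorem nOR (q : 𝓡 R) : V ≤ 𝒩 (O2 (𝒞 R)) := (h.cV (h.rle R q)).trans (Op_nrm _ _).norm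

theorem in_OR (q : 𝓡 R) : Ii A V 𝓡 ⁅O2 (𝒞 R), A⁆ := by
  have n := h.nOR q
  have l := comm_le_left (h.le.trans n)
  refine ⟨odd_of_le (odd_O2 _) l, le_norm_comm n (h.nV h.le), h.RA (odd_O2 _) (h.le.trans n),
    fun R' q' => ?_⟩
  by_cases e : R' = R
  · rw [e]
    exact inf_le_left.trans (l.trans (O2_le_De (h.AR q)))
  · exact (inf_le_inf_right _ (comm_le_of (h.le.trans (h.VR q q' e)) ((h.rle _ q').trans n)
      (Op_le _ _))).trans (h.RR q' (odd_O2 _) ((h.rle _ q').trans n))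

theorem in_hy (hE : Hy V E) (ho : Odd ♯X) (hn : V ≤ 𝒩 X) (h1 : X ≤ 𝒞 E) (h2 : X ⊓ 𝒞 A ≤ O2 (𝒞 A))
    (h3 : ∀ R, 𝓡 R → R ≤ E → X ≤ De A (𝒞 R)) : Ii A V 𝓡 ⁅X, V⁆ := by
  have l := comm_le_left hn
  refine ⟨odd_of_le ho l, right_le_norm_comm _ _, (inf_le_inf_right _ l).trans h2, fun R q => ?_⟩
  by_cases e : R ≤ E
  · exact inf_le_left.trans (l.trans (h3 R q e))
  · exact (inf_le_inf_right _ (comm_le_of (hy_sup hE (h.rle R q) e) ((h.rle R q).trans hn) h1)).trans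
      (h.RR q ho ((h.rle R q).trans hn))

theorem key (hE : Hy V E) (ha : a ∈ E) (aA : a ∈ A) (a1 : a ≠ 1) (q : 𝓡 R) (RE : R ≤ E)
    (ne : ¬ V ≤ E) (ho : Odd ♯X) (hn : V ≤ 𝒩 X) (h1 : X ≤ 𝒞 E) : ⁅X, V⁆ ≤ 𝒩 (Gn V (fn A 𝓡)) := by
  have l := comm_le_left hn
  have n1 := right_le_norm_comm X V
  have VA := hy_sup hE h.le fun i => ne ((h.VA q).trans (sup_le i RE))
  have w := sfg G V _ h.isFn
  set J := sSup {Z | Z ≤ Gn V (fn A 𝓡) ∧ ⁅X, V⁆ ≤ 𝒩 Z}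
  have k : ∀ r ∈ R, Gn V (fn A 𝓡) ⊓ 𝒞₁ (a * r) ≤ J := fun r hr => by
    have eE := mul_mem ha (RE hr)
    have e1 : a * r ≠ 1 := fun i => h.nA q aA a1 (eq_inv_of_mul_eq_one_left i ▸ inv_mem hr)
    have c := h1.trans (cent_le_cent1 eE)
    refine (w.le _ ⟨hE.le eE, e1⟩).trans (le_sSup ⟨le_Gn ⟨hE.le eE, e1⟩,
      le_trans (by_contra fun i => i ?_) (h.O_fn (hE.le eE))⟩)
    obtain ⟨R', q', hr'⟩ := h.cov _ (hE.le eE) e1 ⟨X, c, ho, h.le.trans hn,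
      fun j => i ((comm_le_of VA (h.le.trans hn) h1).trans j)⟩
    have n : R' ≠ R := fun j => h.nA q aA a1 ((mul_mem_cancel_right hr).1 (j ▸ hr'))
    rw [← comm_comm hn (cop2 h.el ho)]
    exact (comm_le_of VA (h.le.trans n1) (l.trans h1)).trans (De_A ((comm_le_of (hy_sup hE
      (h.rle _ q') fun j => ne ((h.VR q q' n).trans (sup_le j RE))) ((h.rle _ q').trans hn) h1).trans
        (h.cDe q' hr' e1 c)))
  suffices e : Gn V (fn A 𝓡) ≤ J from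
    le_antisymm e (sSup_le fun _ i => i.1) ▸ le_norm_sSup fun _ i => i.2
  refine genH (h.el.mono hE.le) w.odd (hE.le.trans w.inv) fun F hF => ?_
  by_cases e : R ≤ F
  · have za := zpowers_le.2 (h.le aA)
    have c := h.caV za (odd_of_le w.odd inf_le_left)
      (le_norm_inf w.inv (le_norm_cent (h.nV (h.rle R q))))
    refine (inf_le_inf_left _ (cent_anti e)).trans (c.comm_sup_cent.ge.trans (sup_le ?_ ?_))
    · rw [← comm_comm c.norm c.cop']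
      exact (comm_mono ((comm_mono le_rfl (zpowers_le.2 aA)).trans (De_A (h.W_in.dR R q))) le_rfl).trans
        (le_sSup ⟨(comm_mono le_rfl (zpowers_le.2 aA)).trans (h.le_W (h.in_OR q)), le_norm_comm
          ((l.trans (h1.trans (cent_anti RE))).trans (Op_nrm _ _).norm)
          (le_norm_of_le_cent (l.trans (h1.trans (cent_anti (zpowers_le.2 ha)))))⟩)
    · rw [cent_zpowers]
      exact (inf_le_inf_right _ inf_le_left).trans (by simpa using k 1 (one_mem R))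
  · obtain ⟨r, hr, n⟩ := SetLike.not_le_iff_exists.1 e
    by_cases i : a ∈ F
    · exact (inf_le_inf_left _ (cent_le_cent1 i)).trans (by simpa using k 1 (one_mem R))
    · exact (inf_le_inf_left _ (cent_le_cent1 (hF.mul a ha r (RE hr) i n))).trans (k r hr)

theorem both : (∃ M, UG S A M) ∨ ∀ X, Ii A V 𝓡 X → X = ⊥ := by
  refine or_iff_not_imp_right.2 fun n => h.star (h.nne (fun e => n fun X hX =>
    eq_bot_of_le e (h.le_W hX)) (h.odd_ne h.W_in.odd)) fun a ha a1 => ?_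
  have nO := (h.c1 (h.le ha)).trans (Op_nrm {2}ᶜ _).norm
  refine genH h.el (odd_O2 _) nO fun E hE => ?_
  have o := odd_of_le (odd_O2 (𝒞₁ a)) (inf_le_left (b := 𝒞 E))
  have m := le_norm_inf nO (le_norm_cent (h.nV hE.le))
  by_cases c : O2 (𝒞₁ a) ⊓ 𝒞 E ≤ 𝒞 V
  · exact c.trans h.C_W
  refine (h.caV le_rfl o m).comm_sup_cent.ge.trans (sup_le ?_ (inf_le_right.trans h.C_W))
  by_cases e : ∃ R, 𝓡 R ∧ R ≤ E
  · obtain ⟨R, q, RE⟩ := e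
    refine h.key hE (by_contra fun i => c (le_trans ?_ (cent_anti (hy_sup hE
      (zpowers_le.2 (h.le ha)) (mt zpowers_le.1 i))))) ha a1 q RE
        (fun i => c (inf_le_right.trans (cent_anti i))) o m inf_le_right
    rw [cent_sup, cent_zpowers]
    exact inf_le_inf_right _ (Op_le _ _)
  · exact le_norm_of_le (h.le_W (h.in_hy hE o m inf_le_right
      ((inf_le_inf_right _ inf_le_left).trans (h.OD ha)) fun R q i => absurd ⟨R, q, i⟩ e))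

end Bo

end Cfsg.GS.Ix
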