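import Cfsg.Agent.GS.I3

/-! `U4c`, 4: the case `И = {1}`. -/

set_option autoImplicit false
set_option linter.unusedSectionVars false

namespace Cfsg.GS.Ix

open Subgroup Cfsg.L0 Cfsg.H8 Cfsg.FT Cfsg.BS Cfsg.BS.R Cfsg.GS.T3 Cfsg.GS.T4 Cfsg.GS.SFx Cfsg.GS.Kx
open scoped commutatorElement

variable {G : Type} [Group G] [Finite G] {A B D E F H K L M P R R' R'' S T U V X Y : Subgroup G}
  {𝓡 : Subgroup G → Prop} {a b e g r t x y : G} {p k : ℕ}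

theorem cstep (hp : p.Prime) (hP : IsPGroup p P) (hT : IsPGroup p T) (hn : T ≤ 𝒩 P)
    (h : ♯P ≤ p ^ (k + 1)) : ♯(⁅P, T⁆) ≤ p ^ k := by
  have := Fact.mk hp
  by_cases e : P = ⊥
  · rw [e, commutator_bot_left, card_bot']
    exact Nat.one_le_pow _ _ hp.pos
  have l := (comm_mono le_rfl le_sup_right).trans_lt
    ((nil_of_pgroup hp (pgroup_sup hn hP hT)).comm_lt (nrm_sup_left hn) e)
  have c := card_mul_ri l.le
  have d := Nat.le_of_dvd (relIndex_pos _ _) (dvd_relIndex_of_not_le hP l.not_ge)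
  refine Nat.le_of_mul_le_mul_right ?_ hp.pos
  rw [← pow_succ]
  exact (Nat.mul_le_mul_left _ d).trans (c.le.trans h)

theorem cstep0 (hp : p.Prime) (hP : IsPGroup p P) (hT : IsPGroup p T) (hn : T ≤ 𝒩 P) (h : ♯P ≤ p) :
    ⁅P, T⁆ = ⊥ := card_eq_one_iff.1 (le_antisymm
  (by simpa using cstep (k := 0) hp hP hT hn (by simpa using h)) (card_pos' _))

theorem odd_sq (hA : IsSyl 2 A L) (he : Elem 2 A) (hx : x ∈ L) : Odd (orderOf (x * x)) := by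
  obtain ⟨u, v, u1, v1, u2, v2, rfl⟩ := exists_pPart 2 x
  obtain ⟨g, -, hg⟩ := hA.exists_conj_mem (zpowers_le.2 hx u1) u2
  have c : Commute u v := (cyc_zpowers _).abel.comm u1 v1
  have : u * u = 1 := conj_eq_one_iff.1 ((conj_mul ..).symm.trans (sq1 he hg))
  rw [c.symm.mul_mul_mul_comm, this, one_mul, ← pow_two]
  exact (Nat.coprime_two_right.1 v2).of_dvd_nat (orderOf_pow_dvd 2)

/-- a `p`-element acting quadratically -/
theorem Str.quad (s : Str A H) (he : Elem 2 A) (hp : p.Prime) (hB : IsPGroup p B) (ho : Odd ♯B)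
    (h0 : ¬ A ≤ 𝒞 B) (hn : ncl H A ≤ 𝒩 B) (ht : t ∈ ncl H A)
    (q : ⁅⁅B, zpowers t⁆, zpowers t⁆ = ⊥) : t ∈ O2 H := by
  have := Fact.mk hp
  have p2 : Odd p := odd_of_dvd ho (dvd_card_of_pgroup hp hB fun e => h0 (by rw [e, cent_bot]; exact le_top))
  have n := (nrm_sup_left hn).norm
  have sy := s.syl.trans (le_sup_right (a := B)) (by
    rw [ri_sup' hn]
    exact fun d => ho.not_two_dvd_nat (d.trans (ri_dvd_card _ _)))
  have m := stable4 hp (p2.ne_two_of_dvd_nat dvd_rfl) (fun _ => odd_sq sy he) B le_sup_left n hB t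
    (mem_sup_right ht) q
  rcases s.smp _ ((opMod_nrm (p := p) (le_norm_cent n)).inf_le le_sup_right) with e | e
  · exact e ⟨m, ht⟩
  refine absurd (fun a ha => ?_) h0
  obtain ⟨k, hk⟩ := pow_mem_of_mem_opMod (le_norm_cent n) (e ha).1
  obtain ⟨j, hj⟩ := p2.pow (n := k)
  rwa [hj, pow_succ, pow_mul, he.pow ha, one_pow, one_mul] at hk

theorem M4.gen (h : M4 S A) (hH : H ≠ ⊤) (hA : A ≤ H) (hb : Bad A H) (h1 : H ⊓ 𝒩 A ≤ M)
    (h2 : ∀ a ∈ A, a ≠ 1 → H ⊓ 𝒞₁ a ≤ M) : H ≤ M := by_contra fun n => by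
  obtain ⟨T, hT, AT⟩ := exists_isSyl_ge h.pA hA
  obtain ⟨Q, _, _, f, L, k, -, hk, _, b, e⟩ := Nx.kG G H T A M (h.ih H hH) hT (h.scT hT.isPGroup AT)
    h.elem h.four h1 h2 n
  obtain ⟨X, x1, x2, x3, x4⟩ := hb
  exact x4 (((down_le_cent_iff' x1 hA).1 (e ▸ b.odd_cA (odd_down f x2) le_normalizer_of_normal
    (e ▸ down_le_norm f x3))).trans hk.le)

theorem M4.tr (h : M4 S A) (hg : g ∈ 𝒩 A) (h1 : g ∉ 𝒞 A) (ha : a ∈ A) (hb : b ∈ A) (a1 : a ≠ 1)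
    (b1 : b ≠ 1) : ∃ m ∈ zpowers g, m * a * m⁻¹ = b := by
  have n : ∀ c ∈ A, c ≠ 1 → c ≠ g * c * g⁻¹ := fun c hc c1 e =>
    h1 (h.fix hg hc c1 (mem_cent1.2 (eq_mul_inv_iff_mul_eq.1 e).symm))
  have c := conj_mem_of_norm hg ha
  have c1 := GS.conj_ne_one a1 g
  have k := fun x => mem4' (x := x) h.elem h.c4 ha c a1 c1 (n a ha a1)
  rcases k b hb with e | e | e | e
  · exact absurd e b1
  · exact ⟨1, one_mem _, by simp [e]⟩
  · exact ⟨g, mem_zpowers g, e.symm⟩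
  refine ⟨g * g, mul_mem (mem_zpowers g) (mem_zpowers g), ?_⟩
  rw [show g * g * a * (g * g)⁻¹ = g * (g * a * g⁻¹) * g⁻¹ by group]
  rcases k _ (conj_mem_of_norm hg c) with i | i | i | i
  · exact absurd i (GS.conj_ne_one c1 g)
  · exact absurd (by rw [e, ← conj_mul, i]; exact h.ab.comm ha c) (n b hb b1)
  · exact absurd i.symm (n _ c c1)
  · rw [i, e]

theorem M4.conj4 (h : M4 S A) (ha : a ∈ A) (a1 : a ≠ 1) (he : e ∈ 𝒞 A) (h1 : Bad A (𝒞₁ e))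
    (hg : g ∈ 𝒞₁ (e * a) ⊓ 𝒩 A) (h2 : g ∉ 𝒞 A) (hb : b ∈ A) : ∃ n ∈ 𝒩 A, n * e * n⁻¹ = e * b := by
  by_cases b1 : b = 1
  · exact ⟨1, one_mem _, by simp [b1]⟩
  obtain ⟨ρ, r1, r2⟩ := h.rho (le_cent1_iff.2 he) h1
  have c := mul_mem ha (inv_mem (conj_mem_of_norm hg.2 ha))
  obtain ⟨m, m1, m2⟩ := h.tr r1.2 r2 c hb (fun i => h2 (h.fix hg.2 ha a1
    (mem_cent1.2 (eq_mul_inv_iff_mul_eq.1 (mul_inv_eq_one.1 i)).symm))) b1
  refine ⟨m * g, mul_mem (zpowers_le.2 r1.2 m1) hg.2, ?_⟩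
  calc _ = m * (g * (e * a) * g⁻¹ * (g * a * g⁻¹)⁻¹) * m⁻¹ := by group
    _ = m * e * m⁻¹ * (m * (a * (g * a * g⁻¹)⁻¹) * m⁻¹) := by
      rw [mem_cent1.1 hg.1]; group
    _ = _ := by rw [m2, mem_cent1.1 (zpowers_le.2 r1.1 m1), mul_inv_cancel_right]

theorem Bo.end1 (h : Bo S A V 𝓡) (q : 𝓡 R) (h1 : ∀ r ∈ R, r ≠ 1 → ⁅O2 (𝒞₁ r), A⁆ = ⊥) :
    ∃ M, UG S A M := by
  have c := h.r4 R q
  refine h.star (h.nne (ne_bot_of_le h.ne0 (le_ncl (𝒞 R) A)) (ne_top_of_le'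
    (h.cne (ne_bot_of_card (by omega))) (Kx.ncl_le' (h.AR q)))) fun a ha _ => gen1
      (h.el.mono (h.rle R q)) (by omega) (odd_O2 _) ((h.rle R q).trans ((h.c1 (h.le ha)).trans
        (Op_nrm _ _).norm)) fun r hr => inf_le_right.trans ?_
  have l := cent_le_cent1 hr.1
  have k : ncl (𝒞₁ r) A ≤ 𝒞 (O2 (𝒞₁ r)) :=
    ncl_le (comm_eq_bot_iff.1 (h1 r hr.1 hr.2)) (le_norm_cent (Op_nrm _ _).norm)
  suffices e : ncl (𝒞₁ r) A ≤ ncl (𝒞 R) A from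
    le_antisymm e (ncl_mono l le_rfl) ▸ le_normalizer_ncl _ _
  refine (h.nclcl ((h.AR q).trans l)).ge.trans (ncl_le_iff.2 fun g hg => ?_)
  obtain ⟨o, o1, c, c1, rfl⟩ := (mem_sup_l (l.trans (Op_nrm _ _).norm)).1 (h.cv q hr.1 hr.2 hg)
  rw [cj_mul, cj_eq_of_mem_cent (cent_symm ((cj_le_ncl A (l c1)).trans k) o1)]
  exact cj_le_ncl A c1

theorem Bo.O_De (h : Bo S A V 𝓡) (q : 𝓡 R) (hr : r ∈ R) : O2 (𝒞₁ r) ⊓ 𝒞 R ≤ De A (𝒞 R) :=
  (Op_inf_le _ (cent_le_cent1 hr)).trans (O2_le_De (h.AR q))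

theorem Bo.nO (h : Bo S A V 𝓡) (hr : r ∈ V) : V ≤ 𝒩 (O2 (𝒞₁ r)) := (h.c1 hr).trans (Op_nrm _ _).norm

theorem Bo.one (h : Bo S A V 𝓡) (q : 𝓡 R) (u : ∀ R', 𝓡 R' → R' = R) : ∃ M, UG S A M :=
  h.both.elim id fun z => h.end1 q fun r hr _ => by
    have n := h.nO (h.rle R q hr)
    have l := comm_le_left (h.le.trans n)
    refine z _ ⟨odd_of_le (odd_O2 _) l, le_norm_comm n (h.nV h.le), h.RA (odd_O2 _) (h.le.trans n),
      fun R' q' => ?_⟩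
    rw [u R' q']
    exact (inf_le_inf_right _ l).trans (h.O_De q hr)

theorem Bo.zero (h : Bo S A V 𝓡) (u : ∀ R, ¬ 𝓡 R) : ∃ M, UG S A M :=
  h.both.elim id fun z => h.star (h.odd_ne (X := ⊥) (by simp)) fun _ ha _ =>
    (z _ ⟨odd_O2 _, h.nO (h.le ha), h.OD ha, fun R q => absurd q (u R)⟩).le

/-- the spread case -/
structure Sp (S A V : Subgroup G) (𝓡 : Subgroup G → Prop) (R : Subgroup G) (r : G) : Prop
    extends Bo S A V 𝓡 where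
  z : ∀ X, Ii A V 𝓡 X → X = ⊥
  sp : ∀ e ∈ V, e ∉ A → ∃ R, 𝓡 R ∧ e ∈ R
  q : 𝓡 R
  hr : r ∈ R
  r1 : r ≠ 1

/-- `[O(C r), A] C_D(r)` -/
abbrev yy (A : Subgroup G) (r : G) : Subgroup G := cut (O2 (𝒞₁ r)) A (O2 (𝒞 A))

/-- a torus -/
abbrev zz (A R : Subgroup G) (r : G) : Subgroup G := ⁅yy A r ⊓ 𝒞 R, A⁆

namespace Sp
variable (h : Sp S A V 𝓡 R r)
include h

theorem rV : r ∈ V := h.rle R h.q h.hr

theorem yle : yy A r ≤ O2 (𝒞₁ r) := cut_le (h.le.trans (h.nO h.rV))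

theorem yc : yy A r ≤ 𝒞₁ r := h.yle.trans (Op_le _ _)

theorem yodd : Odd ♯(yy A r) := odd_of_le (odd_O2 _) h.yle

theorem yD : yy A r ⊓ 𝒞 A ≤ O2 (𝒞 A) := cut_inf (h.RA (odd_O2 _) (h.le.trans (h.nO h.rV)))

theorem ny : 𝒞₁ r ≤ 𝒩 (yy A r) := by
  have nO := (Op_nrm {2}ᶜ (𝒞₁ r)).norm
  have k : 𝒞₁ r ⊓ 𝒩 A ≤ 𝒩 (yy A r) := norm_cut (inf_le_left.trans nO) inf_le_right
    (le_norm_Op _ (le_norm_cent inf_le_right))
  have Ar := h.le.trans (h.c1 h.rV)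
  have An := (le_inf Ar (le_norm A)).trans k
  refine h.gen (Fx.cent1_ne h.simple h.nab h.r1) Ar (h.badr h.q h.hr) k fun a ha a1 => ?_
  have za := zpowers_le.2 ha
  have nC := le_norm_of_le (h.A1 ha)
  suffices e : yy A r = cut (O2 (𝒞₁ r)) (zpowers a) (O2 (𝒞₁ a)) from
    e ▸ norm_cut (inf_le_left.trans nO) (le_norm_of_le_cent
      (inf_le_right.trans (cent_zpowers a).ge)) (inf_le_right.trans (Op_nrm _ _).norm)
  refine le_antisymm (le_cut ((h.ca h.yodd An).subl za) h.yle ?_) (sup_le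
    ((comm_mono le_rfl za).trans le_sup_left) ?_) <;> rw [cent_zpowers]
  · exact h.le_Oa ha a1 (odd_of_le h.yodd inf_le_left) (le_norm_inf An nC) inf_le_right
      ((inf_le_inf_right _ inf_le_left).trans h.yD)
  · exact le_cut (h.ca (odd_of_le (odd_O2 _) inf_le_right) (le_norm_inf (le_norm_inf (Ar.trans nO) nC)
      (le_norm_Op _ nC))) (inf_le_left.trans inf_le_left)
        ((inf_le_inf_right _ inf_le_right).trans (h.OD ha))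

theorem Vy : V ≤ 𝒩 (yy A r) := (h.c1 h.rV).trans h.ny

theorem ex (ha : a ∈ A) (a1 : a ≠ 1) : ∃ R', 𝓡 R' ∧ R' ≠ R ∧ r * a ∈ R' := by
  obtain ⟨R', q', m⟩ := h.sp _ (mul_mem h.rV (h.le ha)) fun i =>
    h.nA h.q ((mul_mem_cancel_right ha).1 i) h.r1 h.hr
  exact ⟨R', q', fun e => h.nA h.q ha a1 ((mul_mem_cancel_left h.hr).1 (e ▸ m)), m⟩

theorem ex' (q' : 𝓡 R') (ne : R' ≠ R) : ∃ a ∈ A, a ≠ 1 ∧ r * a ∈ R' := by
  obtain ⟨a, ha, s, hs, e⟩ := (mem_sup_l ((h.rle _ q').trans (h.nV h.le))).1 (h.VA q' h.rV)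
  refine ⟨a, ha, fun i => h.r1 (eq_one_of_mem (h.dis _ _ q' h.q ne) ⟨?_, h.hr⟩), ?_⟩
  · rwa [← e, i, one_mul]
  · rwa [← e, h.el.abel.comm (h.le ha) (h.rle _ q' hs), mul_assoc, sq1 h.elem ha, mul_one]

theorem ca' (hm : r * a ∈ R') : yy A r ⊓ 𝒞 R' ≤ 𝒞₁ a := fun _ hx =>
  (c1_mul (h.yc hx.1)).1 (cent_le_cent1 hm hx.2)

theorem genE (h1 : X ≤ yy A r) (hn : V ≤ 𝒩 X) (h2 : ∀ R', 𝓡 R' → R' ≠ R → X ⊓ 𝒞 R' ≤ M) : X ≤ M := by
  have o := odd_of_le h.yodd h1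
  refine genH h.el o hn fun E hE => ?_
  by_cases e : ∃ R', 𝓡 R' ∧ R' ≠ R ∧ R' ≤ E
  · obtain ⟨R', q', ne, l⟩ := e
    exact (inf_le_inf_left _ (cent_anti l)).trans (h2 R' q' ne)
  obtain ⟨a, ha, a1⟩ := exists_ne_one h.ne0
  obtain ⟨R', q', ne, -⟩ := h.ex ha a1
  refine (le_inf inf_le_left ((comm_eq_bot_iff'.1 (h.z _ (h.in_hy hE (odd_of_le o inf_le_left)
    (le_norm_inf hn (le_norm_cent (h.nV hE.le))) inf_le_right ((inf_le_inf_right _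
      (inf_le_left.trans h1)).trans h.yD) fun R'' q'' l => ?_))).trans
        (cent_anti (h.rle _ q')))).trans (h2 R' q' ne)
  obtain rfl : R'' = R := by_contra fun i => e ⟨R'', q'', i, l⟩
  exact (inf_le_inf (h1.trans h.yle) (cent_anti l)).trans (h.O_De h.q h.hr)

theorem cen (h1 : B ≤ V) (h2 : ∀ R', 𝓡 R' → R' ≠ R → V ≤ B ⊔ R') : yy A r ⊓ 𝒞 B ≤ 𝒞 V :=
  h.genE inf_le_left (le_norm_inf h.Vy (le_norm_cent (h.nV h1))) fun R' q' ne => by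
    rw [inf_assoc, ← cent_sup]
    exact inf_le_right.trans (cent_anti (h2 R' q' ne))

theorem cA : yy A r ⊓ 𝒞 A ≤ 𝒞 V := h.cen h.le fun _ q' _ => h.VA q'

theorem comm_le' (h1 : B ≤ V) (h2 : F ≤ V) (h3 : yy A r ⊓ 𝒞 B ≤ 𝒞 V) : ⁅yy A r, F⁆ ≤ ⁅yy A r, B⁆ :=
  (comm_mono (h.caV h1 h.yodd h.Vy).comm_sup_cent.ge le_rfl).trans (H7.sup_commutator_le (le_norm _)
    (inf_le_left.trans (left_le_norm_comm _ _)) (comm_le_left (h2.trans (le_norm_comm h.Vy (h.nV h1))))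
      ((comm_eq_bot_iff'.2 (h3.trans (cent_anti h2))).le.trans bot_le))

theorem ZA : ⁅yy A r, A⁆ = ⁅O2 (𝒞₁ r), A⁆ := le_antisymm (comm_mono h.yle le_rfl)
  ((h.cc' (odd_O2 _) (h.le.trans (h.nO h.rV))).ge.trans (comm_mono le_sup_left le_rfl))

theorem nZ : 𝒞 R ≤ 𝒩 ⁅yy A r, A⁆ := by
  rw [le_antisymm (h.comm_le' (h.rle R h.q) h.le (h.cen (h.rle R h.q) fun _ q' ne => h.VR q' h.q ne.symm))
    (h.comm_le' h.le (h.rle R h.q) h.cA)]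
  exact le_norm_comm ((cent_le_cent1 h.hr).trans h.ny) (cent_le_norm R)

theorem OA (q' : 𝓡 R') : O2 (𝒞 R') ≤ 𝒞 A := comm_eq_bot_iff'.1 (h.z _ (h.in_OR q'))

theorem ny' (q' : 𝓡 R') : V ≤ 𝒩 (yy A r ⊓ 𝒞 R') := le_norm_inf h.Vy (le_norm_cent (h.nV (h.rle _ q')))

theorem zle (q' : 𝓡 R') : zz A R' r ≤ yy A r ⊓ 𝒞 R' := comm_le_left (h.le.trans (h.ny' q'))

theorem zcyc (q' : 𝓡 R') (ne : R' ≠ R) : Cyc (zz A R' r) := by
  obtain ⟨a, ha, a1, m⟩ := h.ex' q' ne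
  have o := odd_of_le h.yodd (inf_le_left (b := 𝒞 R'))
  have l := comm_le_ncl (A := A) (inf_le_right (a := yy A r) (b := 𝒞 R'))
  have cm := (h.str (h.cne (ne_bot_of_mem m fun i => h.nA h.q ha a1 (eq_inv_of_mul_eq_one_right i ▸
    inv_mem h.hr))) (h.AR q') (h.bad _ q')).tor a ha a1 _ l ((h.zle q').trans (h.ca' m))
      (odd_of_le o (h.zle q'))
  have ab := cm.abel (inf_le_right.trans (cent_symm (l.trans (ncl_le (cent_symm (h.OA q'))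
    (le_norm_cent (Op_nrm _ _).norm))))) inf_le_left
  have i := ab.comm_inf_cent (right_le_norm_comm _ _) (cop2 h.elem (odd_of_le o (h.zle q')))
  rw [h.cc' o (h.le.trans (h.ny' q'))] at i
  obtain ⟨x, -, e⟩ := cm
  rw [eq_bot_of_le i (inf_le_inf_left _ (h.OA q')), bot_sup_eq] at e
  exact (cyc_zpowers x).mono e

theorem zcomm (q' : 𝓡 R') (ne : R' ≠ R) (q'' : 𝓡 R'') : zz A R' r ≤ 𝒞 (zz A R'' r) := by
  by_cases e : R'' = R'
  · exact e ▸ (h.zcyc q' ne).abel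
  have l := (h.zle q').trans inf_le_left
  have l' := (h.zle q'').trans inf_le_left
  have k : ∀ {R₁ R₂}, 𝓡 R₁ → 𝓡 R₂ → R₂ ≠ R₁ → zz A R₁ r ≤ cut (yy A r) R₂ (De A (𝒞 R₂)) :=
    fun q₁ q₂ n => ((comm_le_of (h.le.trans (h.VR q₁ q₂ n)) ((h.rle _ q₂).trans (h.ny' q₁))
      inf_le_right).trans (comm_mono inf_le_left le_rfl)).trans le_sup_left
  refine comm_eq_bot_iff'.1 (eq_bot_of_le (h.z _ (h.th_in h.yodd h.Vy)) (le_inf
    (comm_le_of_le_of_norm ((comm_mono inf_le_left le_rfl).trans le_sup_left)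
      (l.trans (cut_nrm (h.caV h.le h.yodd h.Vy) (Op_nrm _ _).norm))) (le_sInf ?_)))
  rintro _ ⟨R₀, q₀, rfl⟩
  have n := cut_nrm (h.caV (h.rle _ q₀) h.yodd h.Vy) (De_nrm (A := A)).norm
  by_cases i : R₀ = R'
  · exact comm_le_of_le_of_norm (k q'' q₀ fun j => e (j.symm.trans i)) (l.trans n)
  · exact comm_le_of_le_of_norm' (k q' q₀ i) (l'.trans n)

theorem Zab : Abel ⁅yy A r, A⁆ := by
  set J := sSup {Z | ∃ R', 𝓡 R' ∧ R' ≠ R ∧ Z = zz A R' r}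
  have n : ∀ {X}, X ≤ 𝒞 V → X ≤ 𝒩 (yy A r) → X ≤ 𝒩 J := fun a b => le_norm_sSup (by
    rintro _ ⟨R', q', -, rfl⟩
    exact le_norm_comm (le_norm_inf b (le_norm_of_le (a.trans (cent_anti (h.rle _ q')))))
      (le_norm_of_le_cent (a.trans (cent_anti h.le))))
  have ab : Abel J := sSup_le (by
    rintro _ ⟨R', q', ne, rfl⟩
    refine cent_symm (sSup_le ?_)
    rintro _ ⟨R'', q'', -, rfl⟩
    exact cent_symm (h.zcomm q' ne q''))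
  refine ab.mono ((comm_mono (h.genE (M := J ⊔ yy A r ⊓ 𝒞 A) le_rfl h.Vy fun R' q' ne => ?_)
    le_rfl).trans (H7.sup_commutator_le (le_norm _) (n h.cA (le_norm_of_le inf_le_left))
      (comm_le_left (h.le.trans (n h.el.abel h.Vy)))
        ((comm_eq_bot_iff'.2 inf_le_right).le.trans bot_le)))
  exact (h.caV h.le (odd_of_le h.yodd inf_le_left) (h.ny' q')).comm_sup_cent.ge.trans
    (sup_le_sup (le_sSup ⟨R', q', ne, rfl⟩) (inf_le_inf_right _ inf_le_left))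

theorem Zle : ⁅yy A r, A⁆ ≤ yy A r := comm_le_left (h.le.trans h.Vy)

theorem Z0 : ⁅yy A r, A⁆ ⊓ 𝒞 A = ⊥ := by
  have := h.Zab.comm_inf_cent (right_le_norm_comm _ _) (cop2 h.elem (odd_of_le h.yodd h.Zle))
  rwa [h.cc' h.yodd (h.le.trans h.Vy)] at this

theorem Za (ha : a ∈ A) (a1 : a ≠ 1) (q' : 𝓡 R') (m : r * a ∈ R') :
    ⁅yy A r, A⁆ ⊓ 𝒞₁ a ≤ zz A R' r := by
  have l := (inf_le_left (b := 𝒞₁ a)).trans h.Zle
  have n := le_norm_inf (le_norm_comm h.Vy (h.nV h.le)) (le_norm_of_le (h.c1 (h.le ha)))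
  refine h.genE l n fun R'' q'' ne => ?_
  by_cases e : R'' = R'
  · rw [e]
    exact (h.caV h.le (odd_of_le h.yodd (inf_le_left.trans l)) (le_norm_inf n (le_norm_cent
      (h.nV (h.rle _ q'))))).comm_sup_cent.ge.trans (sup_le (comm_mono (inf_le_inf_right _ l) le_rfl)
        ((inf_le_inf_right _ (inf_le_left.trans inf_le_left)).trans (h.Z0.le.trans bot_le)))
  obtain ⟨b, hb, b1, m'⟩ := h.ex' q'' ne
  refine (le_inf (inf_le_left.trans inf_le_left) (cent_symm (four h.elem h.c4 ha hb a1 b1 (fun i => ?_)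
    (le_cent1_iff.1 (inf_le_left.trans inf_le_right))
    (le_cent1_iff.1 ((inf_le_inf_right _ l).trans (h.ca' m')))))).trans (h.Z0.le.trans bot_le)
  exact h.nA h.q ha a1 (eq_inv_of_mul_eq_one_right (eq_one_of_mem (h.dis _ _ q'' q' e)
    ⟨i ▸ m', m⟩) ▸ inv_mem h.hr)

theorem fin (cj4 : ∀ a ∈ A, ∃ n ∈ 𝒩 A, n * r * n⁻¹ = r * a) : ⁅O2 (𝒞₁ r), A⁆ = ⊥ := by_contra fun n0 => by
  rw [← h.ZA] at n0
  obtain ⟨a, ha, a1, i⟩ := exists_cent1_ne_bot h.ab (ncyc h.elem (by rw [h.c4]; omega))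
    (right_le_norm_comm _ _) (cop2 h.elem (odd_of_le h.yodd h.Zle)) n0
  obtain ⟨p, hp, d⟩ := exists_prime_dvd i
  obtain ⟨t, ht, ot⟩ := exists_orderOf_eq hp d
  obtain ⟨R', q', ne, m⟩ := h.ex ha a1
  have k : Sp S A V 𝓡 R' (r * a) := ⟨h.toBo, h.z, h.sp, q', m,
    fun i => h.nA h.q ha a1 (eq_inv_of_mul_eq_one_right i ▸ inv_mem h.hr)⟩
  obtain ⟨n, n1, n2⟩ := cj4 a ha
  have e : ♯(⁅yy A (r * a), A⁆) = ♯(⁅yy A r, A⁆) := by
    rw [k.ZA, h.ZA, ← n2, ← cj_cent1, O2, ← cj_Op, ← card_cj n ⁅O2 (𝒞₁ r), A⁆, cj_commutator,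
      cj_eq_of_mem_norm n1]
  obtain ⟨y, hy, oy⟩ := exists_orderOf_eq hp (e ▸ d.trans (card_dvd inf_le_left))
  have el := k.Zab.elem_Om p
  have l := Om_le p ⁅yy A (r * a), A⁆
  have nB := k.nZ.trans (norm_le_norm_Om p _)
  generalize hB : Om p ⁅yy A (r * a), A⁆ = B at el l nB
  have yB : y ∈ B := hB ▸ mem_Om hy (oy ▸ pow_orderOf_eq_one y)
  have oB := odd_of_le k.yodd (l.trans k.Zle)
  have nA := (h.AR q').trans nB
  have tK := comm_le_ncl inf_le_right (h.Za ha a1 q' m ht)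
  have tn := zpowers_le.2 (nB (Kx.ncl_le' (h.AR q') tK))
  have ta : zpowers t ≤ 𝒞₁ a := zpowers_le.2 ht.2
  have pT : IsPGroup p (zpowers t) := isPGroup_of_card ((card_zpow t).trans ot)
  have c : ∀ b ∈ A, b ≠ 1 → ♯(B ⊓ 𝒞₁ b) ≤ p := fun b hb b1 => by
    obtain ⟨R'', q'', ne', m'⟩ := k.ex hb b1
    exact (el.mono inf_le_left).card_le_of_cyc hp ((k.zcyc q'' ne').mono
      ((inf_le_inf_right _ l).trans (k.Za hb b1 q'' m')))
  obtain ⟨b, hb, ne'⟩ := ex_ne (B := A) (by rw [h.c4]; omega) a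
  have ab := mul_sharp h.elem ⟨ha, a1⟩ hb ne'.symm
  have za := zpowers_le.2 ha
  have u : ∀ c ∈ A, ⁅B ⊓ 𝒞₁ c, zpowers a⁆ ≤ B ⊓ 𝒞₁ c := fun c hc =>
    comm_le_left (za.trans (le_norm_inf nA (le_norm_of_le (h.A1 hc))))
  have I1 := (fourG (sq1 h.elem ha) (sq1 h.elem hb.1) (h.ab.comm ha hb.1) oB (nA ha) (nA hb.1)).trans
    (sup_le_sup (u b hb.1) (u _ ab.1))
  have I2 : ♯(⁅B, zpowers a⁆) ≤ p ^ (1 + 1) := (card_le I1).trans ((Nat.le_of_dvd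
    (Nat.mul_pos (card_pos' _) (card_pos' _)) (card_sup_dvd (inf_le_left.trans
      (el.abel.le_norm inf_le_left)))).trans (by
        rw [pow_succ, pow_one]; exact Nat.mul_le_mul (c b hb.1 hb.2) (c _ ab.1 ab.2)))
  have lI := comm_le_left (za.trans nA)
  have nI := le_norm_comm tn (le_norm_of_le_cent (ta.trans (cent_zpowers a).ge))
  have lJ := (comm_le_left nI).trans lI
  have e1 : ⁅B, zpowers t⁆ = ⁅⁅B, zpowers a⁆, zpowers t⁆ := by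
    conv_lhs => rw [← ((h.ca oB nA).subl za).comm_sup_cent, cent_zpowers]
    exact sup_comm_of_cent (comm_eq_bot_iff'.1 (cstep0 hp (el.pgroup.to_le inf_le_left) pT
      (le_norm_inf tn (le_norm_of_le ta)) (c a ha a1))) (inf_le_left.trans (el.abel.le_norm lJ))
  have := (h.str (h.cne (ne_bot_of_mem m k.r1)) (h.AR q') (h.bad _ q')).quad h.elem hp el.pgroup oB
    (fun i => hp.one_lt.ne' (by rw [← oy, eq_one_of_mem k.Z0 ⟨hy, cent_symm i yB⟩, orderOf_one]))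
    ((Kx.ncl_le' (h.AR q')).trans nB) tK (e1 ▸ cstep0 hp (el.pgroup.to_le lJ) pT
      (right_le_norm_comm _ _) (by simpa using cstep hp (el.pgroup.to_le lI) pT nI I2))
  exact hp.one_lt.ne' (by rw [← ot, eq_one_of_mem h.Z0 ⟨ht.1, h.OA q' this⟩, orderOf_one])

end Sp

theorem Bo.spread (h : Bo S A V 𝓡) (q : 𝓡 R) (sp : ∀ e ∈ V, e ∉ A → ∃ R, 𝓡 R ∧ e ∈ R) :
    ∃ M, UG S A M := h.both.elim id fun z => h.end1 q fun r hr r1 => by
  have k : Sp S A V 𝓡 R r := ⟨h, z, sp, q, hr, r1⟩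
  obtain ⟨a, ha, a1⟩ := exists_ne_one h.ne0
  obtain ⟨R', q', -, m⟩ := k.ex ha a1
  obtain ⟨ρ, r1, r2⟩ := h.rho (h.le.trans (h.c1 (h.rle _ q' m))) (h.badr q' m)
  exact k.fin fun b hb => h.conj4 ha a1 (h.cV h.le k.rV) (h.badr q hr) r1 r2 hb

end Cfsg.GS.Ix
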