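import Cfsg.Agent.GS.J1

/-! Groups with an involution centralizer `2 × PSL₂(q)` of odd index: the basic structure. -/

set_option autoImplicit false
set_option linter.unusedSectionVars false

namespace Cfsg.GJ

open Subgroup Cfsg.L0 Cfsg.H8

local notation "𝒩" X:max => Subgroup.normalizer (SetLike.coe X)
local notation "𝒞₁" x:max => Subgroup.centralizer (singleton x : Set _)

namespace Num

variable {q p n m r : ℕ} (h : Num q p n m)
include h

theorem oq : Odd q := by have := h.rel; rw [Nat.odd_iff]; omega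

theorem eq_p (hr : r.Prime) (h1 : r ∣ q) : r = p := by
  obtain ⟨k, rfl⟩ := h.qp
  exact (Nat.prime_dvd_prime_iff_eq hr h.pp).1 (hr.dvd_of_dvd_pow h1)

theorem pq : p ∣ q := by
  obtain ⟨k, e⟩ := h.qp
  have := h.big
  rcases k with _ | k
  · rw [pow_zero] at e; omega
  · exact e ▸ Dvd.intro_left _ (pow_succ p k).symm

theorem op : Odd p := h.oq.of_dvd_nat h.pq

theorem p2 : p ≠ 2 := by rintro rfl; exact absurd h.op (by decide)

theorem m3 : 3 ≤ m := by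
  have := h.rel; have := h.big; have := Nat.odd_iff.1 h.om; have := Nat.odd_iff.1 h.on; omega

theorem n5 : 5 ≤ n := by
  have := h.rel; have := h.big; have := Nat.odd_iff.1 h.om; have := Nat.odd_iff.1 h.on; omega

theorem nm : n.Coprime (2 * m) := by
  rcases h.rel with e | e
  · rw [show n = 2 * m + 1 by omega]; simp
  · rw [show 2 * m = n + 1 by omega]; simp

theorem nm' : n.Coprime m := h.nm.coprime_mul_left_right

theorem qn : q.Coprime n := by
  refine Nat.Coprime.coprime_mul_left_right (k := 2) ?_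
  rcases h.rel with e | e
  · rw [e.1]; simp
  · rw [← e.1]; simp

theorem qm : q.Coprime (2 * m) := by
  refine Nat.Coprime.coprime_mul_left_right (k := 2) ?_
  rw [← mul_assoc]
  rcases h.rel with e | e
  · rw [← e.2]; simp
  · rw [show 2 * 2 * m = q + 1 from e.2]; simp

theorem pn : p.Coprime n := h.qn.coprime_dvd_left h.pq

theorem pm : p.Coprime (2 * m) := h.qm.coprime_dvd_left h.pq

theorem three : 3 ∣ n ∨ 3 ∣ m := by
  have : ¬ 3 ∣ q := fun e => h.p3 (h.eq_p Nat.prime_three e).symm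
  have a : m % 3 = 0 ∨ m % 3 = 1 ∨ m % 3 = 2 := by omega
  rcases h.rel with e | e <;> rcases a with a | a | a <;> omega

end Num

variable {G : Type*} [Group G]

theorem mem_zp_of_cyc [Finite G] {T : Subgroup G} (hT : IsCyclic T) {r : ℕ} {d e : G} (hd : d ∈ T)
    (he : e ∈ T) (h2 : orderOf d = r) (h3 : e ^ r = 1) : e ∈ zpowers d := by
  classical
  have := Fintype.ofFinite T
  have o : orderOf (⟨d, hd⟩ : T) = r := by rw [Subgroup.orderOf_mk, h2]
  have c := IsCyclic.card_pow_eq_one_le (α := T) (n := r) (h2 ▸ orderOf_pos d)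
  have s : (zpowers (⟨d, hd⟩ : T) : Set T) = {a | a ^ r = 1} := by
    refine Set.eq_of_subset_of_ncard_le ?_ ?_
    · rintro _ ⟨n, rfl⟩
      simp only [Set.mem_ofPred_eq]
      rw [← zpow_natCast, ← zpow_mul, mul_comm, zpow_mul, zpow_natCast, ← o, pow_orderOf_eq_one,
        one_zpow]
    · change _ ≤ Nat.card (zpowers (⟨d, hd⟩ : T))
      rw [Nat.card_zpowers, o, Set.ncard_eq_toFinset_card']
      simpa using c
  obtain ⟨n, hn⟩ : (⟨e, he⟩ : T) ∈ (zpowers (⟨d, hd⟩ : T) : Set T) := by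
    rw [s]; exact Subtype.ext h3
  exact ⟨n, congrArg Subtype.val hn⟩

theorem exists_sqrt {c : G} (h : Odd (orderOf c)) : ∃ z ∈ zpowers c, z * z = c := by
  obtain ⟨m, hm⟩ := h
  refine ⟨c ^ (m + 1), pow_mem (mem_zpowers c) _, ?_⟩
  rw [← pow_add, show m + 1 + (m + 1) = orderOf c + 1 by omega, pow_succ, pow_orderOf_eq_one,
    one_mul]

theorem inv_of_sq {e c : G} (he : e * e = 1) (h : e * c * (e * c) = 1) : e * c * e⁻¹ = c⁻¹ := by
  rw [inv_self_of he, eq_inv_iff_mul_eq_one, ← h, mul_assoc]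

theorem sq_of_inv {e c : G} (he : e * e = 1) (h : e * c * e⁻¹ = c⁻¹) : e * c * (e * c) = 1 := by
  rw [← mul_assoc, ← inv_self_of he, inv_self_of he, show e * c * e = c⁻¹ by
    rw [← h, inv_self_of he], inv_mul_cancel]

theorem conj_of_inv {e c : G} (h : e * c * e⁻¹ = c⁻¹) (ho : Odd (orderOf c)) :
    ∃ z ∈ zpowers c, z⁻¹ * e * z = e * c := by
  obtain ⟨z, hz, rfl⟩ := exists_sqrt ho
  exact ⟨z, hz, by rw [← inv_zpowers h hz]; group⟩

theorem odd_of_pow' {a : G} {r : ℕ} (hr : Odd r) (h : a ^ r = 1) : Odd (orderOf a) :=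
  hr.of_dvd_nat (orderOf_dvd_of_pow_eq_one h)

theorem comm_of_sq {a g : G} (ho : Odd (orderOf a)) (h : g * (a * a) = a * a * g) : g * a = a * g :=
  commute_of_commute_sq ho (by rwa [sq])

theorem eq_one_of_inv {a g : G} (ho : Odd (orderOf a)) (h : g * a = a * g)
    (h' : g * a * g⁻¹ = a⁻¹) : a = 1 := by
  rw [h, mul_inv_cancel_right] at h'
  exact eq_one_of_odd ho (mul_eq_one_iff_eq_inv.2 h')

/-- factorization of a group of odd order normalized by a four-group -/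
theorem fac3 [Finite G] {M : Subgroup G} (hM : ∀ x ∈ M, Odd (orderOf x)) {a b x : G} (k : KP a b)
    (na : a ∈ 𝒩 M) (nb : b ∈ 𝒩 M) (hx : x ∈ M) : ∃ c ∈ M, ∃ y ∈ M, ∃ z ∈ M, c * a = a * c ∧
      y * (a * b) = a * b * y ∧ z * b = b * z ∧ x = c * y * z := by
  have ai := inv_self_of k.ss
  have bi := inv_self_of k.ww
  have cm : ∀ w ∈ M, a * (w⁻¹ * a * w) ∈ M := fun w hw => by
    have := mul_mem (conj_mem_of_mem_normalizer na (inv_mem hw)) hw
    rwa [ai, show a * w⁻¹ * a * w = a * (w⁻¹ * a * w) by group] at this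
  have aa : ∀ w : G, w⁻¹ * a * w * (w⁻¹ * a * w) = 1 := fun w => by simpa using conj_sq k.ss w⁻¹
  set g := b * (x⁻¹ * a * x) with hg
  have e1 : g = a * b * (a * (x⁻¹ * a * x)) := by
    rw [hg, ← k.comm, mul_assoc b, k.sl]
  have gg : g * g ∈ M := by
    have := mul_mem (conj_mem_of_mem_normalizer (mul_mem na nb) (cm x hx)) (cm x hx)
    rwa [inv_self_of k.mul.ww, mul_assoc _ (a * b), ← e1] at this
  obtain ⟨i, hi⟩ := hM _ gg
  have uu : g ^ (2 * i + 1) * g ^ (2 * i + 1) = 1 := by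
    rw [← pow_two, ← pow_mul, mul_comm, pow_mul, pow_two, ← hi, pow_orderOf_eq_one]
  have c0 : a * (x⁻¹ * a * x) * (g * g) ^ i ∈ M := mul_mem (cm x hx) (pow_mem gg i)
  have e2 : g ^ (2 * i + 1) = a * b * (a * (x⁻¹ * a * x) * (g * g) ^ i) := by
    rw [pow_succ', pow_mul, pow_two, ← mul_assoc (a * b), ← e1]
  have ib : b * g ^ (2 * i + 1) = g ^ (2 * i + 1) * b := mul_inv_eq_iff_eq_mul.1 (by
    rw [inv_pow_of (w := b) (a := g) (by
      rw [hg, k.symm.sl, mul_inv_rev, inv_self_of (aa x)]), inv_self_of uu])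
  have ia : x⁻¹ * a * x * g ^ (2 * i + 1) = g ^ (2 * i + 1) * (x⁻¹ * a * x) :=
    mul_inv_eq_iff_eq_mul.1 (by
      rw [inv_pow_of (w := x⁻¹ * a * x) (a := g) (by
        rw [hg, ← mul_assoc, mul_inv_cancel_right, mul_inv_rev b, inv_self_of (aa x), bi]),
        inv_self_of uu])
  rw [e2] at uu ib ia
  generalize a * (x⁻¹ * a * x) * (g * g) ^ i = c at c0 uu ib ia
  have bc : b * c = c * b := by
    rw [← mul_assoc, ← mul_assoc, k.comm, mul_assoc (a * b), mul_assoc (a * b)] at ib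
    exact mul_left_cancel ib
  obtain ⟨z, hz, e3⟩ := conj_of_inv (inv_of_sq k.mul.ww uu) (hM c c0)
  have zM := zpowers_le.2 c0 hz
  have wM := mul_mem hx (inv_mem zM)
  have e4 : (x * z⁻¹)⁻¹ * a * (x * z⁻¹) * (a * b) = a * b * ((x * z⁻¹)⁻¹ * a * (x * z⁻¹)) := by
    rw [← e3] at ia
    calc _ = z * (x⁻¹ * a * x * (z⁻¹ * (a * b) * z)) * z⁻¹ := by group
      _ = _ := by rw [ia]; group
  obtain ⟨y, hy, e5⟩ := conj_of_inv (inv_of_sq k.ss (c := a * ((x * z⁻¹)⁻¹ * a * (x * z⁻¹))) (by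
    rw [k.sl, aa])) (hM _ (cm _ wM))
  have yM := zpowers_le.2 (cm _ wM) hy
  rw [k.sl] at e5
  refine ⟨x * z⁻¹ * y⁻¹, mul_mem wM (inv_mem yM), y, yM, z, zM, ?_, (comm_zpowers ?_ hy).symm,
    (comm_zpowers bc hz).symm, by group⟩
  · calc _ = x * z⁻¹ * (y⁻¹ * a * y) * y⁻¹ := by group
      _ = _ := by rw [e5]; group
  · rw [mul_assoc a _ (a * b), e4, ← mul_assoc, ← mul_assoc a (a * b), k.mul.comm]

namespace Tor

variable {K T : Subgroup G} {u d e k y : G} {N : ℕ} (h : Tor K T u N)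
include h

theorem uinv : u⁻¹ = u := inv_self_of h.uu

theorem ul (g : G) : u * (u * g) = g := by rw [← mul_assoc, h.uu, one_mul]

theorem ne : u ≠ 1 := fun e => h.nu (e ▸ one_mem T)

theorem inv' (hd : d ∈ T) : u * d * u⁻¹ = d⁻¹ := by rw [h.uinv, h.inv d hd]

theorem ab (hd : d ∈ T) (he : e ∈ T) : d * e = e * d := comm_of_inverts (fun _ => h.inv') d hd e he

theorem pow (hd : d ∈ T) : d ^ N = 1 := h.card ▸ orderOf_dvd_iff_pow_eq_one.1 (orderOf_dvd_natCard _ hd)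

theorem inv_of (hk : u * k ∈ T) (hd : d ∈ T) : k * d * k⁻¹ = d⁻¹ := by
  calc _ = u * (u * k * d * (u * k)⁻¹) * u⁻¹ := by rw [← h.ul k, h.ul (u * k)]; group
    _ = _ := by rw [h.ab hk hd, mul_inv_cancel_right, h.inv' hd]

theorem sq_of (hk : u * k ∈ T) : k * k = 1 := by
  have := sq_of_inv h.uu (h.inv' hk)
  rwa [h.ul] at this

theorem nrm' (hk : k ∈ K) (hd : d ∈ T) (h1 : d ≠ 1) (h2 : k * d * k⁻¹ ∈ T) : k ∈ T ∨ u * k ∈ T :=
  (h.nrm _ (inv_mem hk) d hd h1 (by rwa [inv_inv])).imp inv_mem_iff.1 fun e => by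
    have := h.sq_of e
    rwa [← inv_inv k, inv_self_of this]

theorem cent (hk : k ∈ K) (hd : d ∈ T) (h1 : d * d ≠ 1) (h2 : k * d = d * k) : k ∈ T :=
  (h.nrm' hk hd (fun e => h1 (by simp [e])) (by rwa [h2, mul_inv_cancel_right])).resolve_right
    fun e => h1 (by rw [mul_eq_one_iff_eq_inv, ← h.inv_of e hd, h2, mul_inv_cancel_right])

theorem inverter (hk : k ∈ K) (hd : d ∈ T) (h1 : d * d ≠ 1) (h2 : k * d * k⁻¹ = d⁻¹) : u * k ∈ T :=
  (h.nrm' hk hd (fun e => h1 (by simp [e])) (h2 ▸ inv_mem hd)).resolve_left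
    fun e => h1 (by rw [mul_eq_one_iff_eq_inv, ← h2, h.ab e hd, mul_inv_cancel_right])

theorem conj (y : G) : Tor (cj y K) (cj y T) (y * u * y⁻¹) N :=
  h.map (MulAut.conj y).toMonoidHom (MulAut.conj y).injective

theorem conj' (hy : y ∈ K) : Tor K (cj y T) (y * u * y⁻¹) N := by
  have := h.conj y
  rwa [cj_eq_of_mem hy] at this

theorem exists_mem (hk : k ∈ K) (h1 : k ^ N = 1) : ∃ T u, Tor K T u N ∧ k ∈ T := by
  obtain ⟨y, hy, e⟩ := h.cnj k hk h1
  exact ⟨_, _, h.conj' (inv_mem hy), mem_cj.2 (by simpa using e)⟩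

theorem change (hk : u * k ∈ T) : Tor K T k N :=
  have kk := h.sq_of hk
  have e : ∀ g, u * g ∈ T → k * g ∈ T := fun g hg => by
    have := mul_mem (inv_mem hk) hg
    rwa [mul_inv_rev, mul_assoc, inv_mul_cancel_left, inv_self_of kk] at this
  ⟨h.le, by simpa [h.ul] using mul_mem h.uK (h.le hk), h.card, h.cyc, kk,
    fun e => h.nu (by simpa using mul_mem hk (inv_mem e)),
    fun d hd => by rw [← h.inv_of hk hd, inv_self_of kk],
    fun g hg d hd h1 h2 => (h.nrm g hg d hd h1 h2).imp_right (e g), h.cnj⟩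

variable [Finite G]

theorem mem_zp {r : ℕ} (hr : r.Prime) (hd : d ∈ T) (he : e ∈ T) (h1 : d ≠ 1) (h2 : d ^ r = 1)
    (h3 : e ^ r = 1) : e ∈ zpowers d :=
  haveI : Fact r.Prime := ⟨hr⟩
  mem_zp_of_cyc h.cyc hd he (orderOf_eq_prime h2 h1) h3

theorem eq_inv (hd : d ∈ T) (he : e ∈ T) (h1 : d ≠ 1) (h2 : d * d = 1) (h3 : e * e = 1) :
    e = 1 ∨ e = d :=
  (mem_zp_inv h2).1 (h.mem_zp Nat.prime_two hd he h1 (by rwa [sq]) (by rwa [sq]))

theorem exists_ord {r : ℕ} (hr : r.Prime) (h1 : r ∣ N) : ∃ d ∈ T, d ≠ 1 ∧ d ^ r = 1 := by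
  have : Fact r.Prime := ⟨hr⟩
  obtain ⟨d, hd, e⟩ := exists_orderOf_eq_of_dvd_card (p := r) (H := T) (h.card ▸ h1)
  exact ⟨d, hd, by rintro rfl; exact hr.ne_one (by rw [← e, orderOf_one]), e ▸ pow_orderOf_eq_one d⟩

end Tor

theorem BT.conj {K P D : Subgroup G} {w : G} {q p m : ℕ} (h : BT K P D w q p m) (y : G) :
    BT (cj y K) (cj y P) (cj y D) (y * w * y⁻¹) q p m :=
  h.map (MulAut.conj y).toMonoidHom (MulAut.conj y).injective

theorem LS.two {K : Subgroup G} {q p n m j : ℕ} (h : LS K q p n m) (num : Num q p n m) {k : G}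
    (hk : k ∈ K) (e : k ^ 2 ^ j = 1) : k * k = 1 := by
  have o : ∀ r, Odd r → k ^ r = 1 → k * k = 1 := fun r hr e1 => by
    rw [eq_one_of_pow_coprime ((Nat.coprime_two_left.2 hr).pow_left j) e e1, one_mul]
  rcases h.ord k hk with e1 | e1 | e1
  exacts [o p num.op e1, o n num.on e1, eq_one_of_pow_coprime
    ((Nat.coprime_two_left.2 num.om).pow_left j) (by
      rw [← sq, ← pow_mul, mul_comm, pow_mul, e, one_pow]) (by rw [← sq, ← pow_mul, e1])]

theorem LS.iconj [Finite G] {K : Subgroup G} {q p n m : ℕ} (h : LS K q p n m) {a b : G} (ha : a ∈ K)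
    (hb : b ∈ K) (a2 : a * a = 1) (a1 : a ≠ 1) (b2 : b * b = 1) (b1 : b ≠ 1) :
    ∃ y ∈ K, y * a * y⁻¹ = b := by
  obtain ⟨W, w, t⟩ := h.tW
  obtain ⟨y, hy, e1⟩ := t.cnj a ha (by rw [pow_mul, sq, a2, one_pow])
  obtain ⟨z, hz, e2⟩ := t.cnj b hb (by rw [pow_mul, sq, b2, one_pow])
  refine ⟨z⁻¹ * y, mul_mem (inv_mem hz) hy, ?_⟩
  rw [show z⁻¹ * y * a * (z⁻¹ * y)⁻¹ = z⁻¹ * (y * a * y⁻¹) * z by group,
    (t.eq_inv e2 e1 (by simpa) (conj_sq b2 z) (conj_sq a2 y)).resolve_left (by simpa)]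
  group

/-- involutions -/
structure Iv (s : G) : Prop where
  ss : s * s = 1
  ne : s ≠ 1

theorem Iv.conj {s : G} (h : Iv s) (g : G) : Iv (g * s * g⁻¹) := ⟨conj_sq h.ss g, by simpa using h.ne⟩

theorem Iv.inv {s : G} (h : Iv s) : s⁻¹ = s := inv_self_of h.ss

theorem Iv.sl {s : G} (h : Iv s) (g : G) : s * (s * g) = g := by rw [← mul_assoc, h.ss, one_mul]

theorem Iv.pow {s : G} (h : Iv s) {n : ℕ} (hn : Odd n) : s ^ n = s := by
  obtain ⟨m, rfl⟩ := hn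
  rw [pow_succ, pow_mul, sq, h.ss, one_pow, one_mul]

theorem _root_.Cfsg.H8.KP.iv {s w : G} (k : KP s w) : Iv s := ⟨k.ss, k.s1⟩

theorem _root_.Cfsg.H8.KP.conj {s w : G} (k : KP s w) (g : G) : KP (g * s * g⁻¹) (g * w * g⁻¹) :=
  ⟨conj_sq k.ss g, conj_sq k.ww g, by simpa using k.s1, by simpa using k.w1, by simpa using k.ne,
    conj_comm k.comm g⟩

/-- all involutions `s` are conjugate, `C(s) = ⟨s⟩ × L s` has odd index, `L s ≅ PSL₂(q)` -/
structure JG (L : G → Subgroup G) (q p n m : ℕ) : Prop where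
  num : Num q p n m
  ls : ∀ s, Iv s → LS (L s) q p n m
  nm : ∀ s, Iv s → s ∉ L s
  comm : ∀ s, Iv s → ∀ k ∈ L s, s * k = k * s
  cent : ∀ s, Iv s → ∀ g, g * s = s * g → g ∈ L s ∨ s * g ∈ L s
  cnj : ∀ s, Iv s → ∀ g, L (g * s * g⁻¹) = cj g (L s)
  one : ∀ s t : G, Iv s → Iv t → ∃ g, g * s * g⁻¹ = t
  odd : ∀ s : G, Iv s → Odd (𝒞₁ s).index
  ex : ∃ s : G, Iv s

theorem relIndex_two {t : G} {K : Subgroup G} (tK : t ∉ K)
    (cent : ∀ g, g * t = t * g → g ∈ K ∨ t * g ∈ K) : K.relIndex (𝒞₁ t) = 2 := by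
  rw [relIndex_eq_two_iff]
  refine ⟨t, mem_c1.2 rfl, fun b hb => ?_⟩
  rw [mem_c1.1 hb]
  rcases cent b (mem_c1.1 hb) with e | e
  · exact Or.inr ⟨e, fun e' => tK (by simpa using mul_mem e' (inv_mem e))⟩
  · exact Or.inl ⟨e, fun e' => tK (by simpa using mul_mem e (inv_mem e'))⟩

theorem exists_jg [Finite G] {t : G} {K : Subgroup G} {q p n m : ℕ} (num : Num q p n m)
    (ls : LS K q p n m) (ht : Iv t) (tK : t ∉ K) (comm : ∀ k ∈ K, t * k = k * t)
    (cent : ∀ g, g * t = t * g → g ∈ K ∨ t * g ∈ K) (odd : Odd (𝒞₁ t).index)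
    (two : ∀ N : Subgroup G, N.index ≠ 2) : ∃ L : G → Subgroup G, JG L q p n m := by
  classical
  let L : G → Subgroup G := fun s => if h : ∃ g, g * t * g⁻¹ = s then cj h.choose K else ⊥
  have nK : ∀ g, g * t = t * g → cj g K = K := fun g e => by
    rcases cent g e with e1 | e1
    · exact cj_eq_of_mem e1
    · rw [← ht.sl g, cj_mul, cj_eq_of_mem e1]
      exact cj_eq_iff.2 (mem_normalizer_of_forall fun x hx => by
        rwa [comm x hx, mul_inv_cancel_right])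
  have hL : ∀ g, L (g * t * g⁻¹) = cj g K := fun g => by
    have e : ∃ c, c * t * c⁻¹ = g * t * g⁻¹ := ⟨g, rfl⟩
    simp only [L, dif_pos e]
    have e1 := e.choose_spec
    generalize e.choose = c at e1
    rw [show c = g * (g⁻¹ * c) by group, cj_mul, nK]
    calc _ = g⁻¹ * (c * t * c⁻¹) * c := by group
      _ = _ := by rw [e1]; group
  have c1 : ∀ s, Iv s → ∃ g : G, ∃ k ∈ K, Iv k ∧ g * k * g⁻¹ = s := fun s hs => by
    obtain ⟨g, hg⟩ := H4.exists_conj_mem_of_index two (M := K) odd (by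
      rw [← relIndex_mul_index (fun k hk => mem_c1.2 (comm k hk).symm : K ≤ 𝒞₁ t),
        relIndex_two tK cent]) (t := s) (by rw [sq, hs.ss])
    exact ⟨g, _, hg, by simpa using hs.conj g⁻¹, by group⟩
  have c2 : ∀ s s' : G, Iv s → Iv s' → ∃ g, g * s * g⁻¹ = s' := fun s s' hs hs' => by
    obtain ⟨g, k, hk, ik, rfl⟩ := c1 s hs
    obtain ⟨g', k', hk', ik', rfl⟩ := c1 s' hs'
    obtain ⟨y, -, rfl⟩ := ls.iconj hk hk' ik.ss ik.ne ik'.ss ik'.ne
    exact ⟨g' * y * g⁻¹, by group⟩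
  refine ⟨L, num, fun s hs => ?_, fun s hs => ?_, fun s hs => ?_, fun s hs => ?_, fun s hs => ?_, c2,
    fun s hs => ?_, t, ht⟩ <;> obtain ⟨g, rfl⟩ := c2 t s ht hs
  · exact hL g ▸ ls.map (MulAut.conj g).toMonoidHom (MulAut.conj g).injective
  · rw [hL]; exact fun e => tK (by simpa [mem_cj, mul_assoc] using e)
  · rw [hL]
    rintro _ ⟨k, hk, rfl⟩
    exact conj_comm (comm k hk) g
  · intro y e
    have := conj_comm e g⁻¹
    simp only [inv_inv, mul_assoc, inv_mul_cancel_left, inv_mul_cancel, mul_one] at this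
    rw [hL]
    exact (cent (g⁻¹ * y * g) (by simpa [mul_assoc] using this)).imp (fun e => mem_cj.2 e)
      fun e => mem_cj.2 (by simpa [mul_assoc] using e)
  · intro y
    rw [hL, ← cj_mul, ← hL]
    congr 1; group
  · rw [← cj_centralizer_singleton]
    exact (index_map_equiv _ (MulAut.conj g)).symm ▸ odd

namespace JG

variable {L : G → Subgroup G} {q p n m : ℕ} {s t u v w a b g k x y : G} (h : JG L q p n m)
include h

theorem not_mem (hs : Iv s) (hk : k ∈ L s) : s * k ∉ L s := fun e =>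
  h.nm s hs (by simpa using mul_mem e (inv_mem hk))

theorem mem_of_not (hs : Iv s) (hg : g * s = s * g) (h1 : g ∉ L s) : s * g ∈ L s :=
  (h.cent s hs g hg).resolve_left h1

theorem exists_K (hs : Iv s) (hg : g * s = s * g) : ∃ k ∈ L s, g = k ∨ g = s * k :=
  (h.cent s hs g hg).elim (fun e => ⟨g, e, Or.inl rfl⟩) fun e => ⟨_, e, Or.inr (hs.sl g).symm⟩

theorem le_c (hs : Iv s) : L s ≤ 𝒞₁ s := fun k hk => mem_c1.2 (h.comm s hs k hk).symm

theorem tk_pow (hs : Iv s) (hk : k ∈ L s) (j : ℕ) : (s * k) ^ j = s ^ j * k ^ j :=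
  Commute.mul_pow (h.comm s hs k hk) j

theorem tk_sq (hs : Iv s) (hk : k ∈ L s) : s * k * (s * k) = k * k := by
  rw [mul_assoc, ← mul_assoc k, ← h.comm s hs k hk, mul_assoc, hs.sl]

theorem conj_tk (hs : Iv s) (hk : k ∈ L s) (hy : y ∈ L s) : s * k * y * (s * k)⁻¹ = k * y * k⁻¹ := by
  rw [h.comm s hs k hk, mul_inv_rev, hs.inv, mul_assoc k s y, h.comm s hs y hy]
  simp [mul_assoc, hs.sl]

theorem pow_mem_iff (hs : Iv s) (hg : g * s = s * g) {j : ℕ} (hj : Odd j) : g ^ j ∈ L s ↔ g ∈ L s := by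
  refine ⟨fun e => (h.cent s hs g hg).resolve_right fun e1 => h.not_mem hs e ?_, fun e => pow_mem e j⟩
  have := pow_mem e1 j
  rwa [Commute.mul_pow hg.symm, hs.pow hj] at this

theorem odd_mem (hs : Iv s) (hg : g * s = s * g) (ho : Odd (orderOf g)) : g ∈ L s :=
  (h.pow_mem_iff hs hg ho).1 (by rw [pow_orderOf_eq_one]; exact one_mem _)

theorem conj_mem (hs : Iv s) (hk : k ∈ L s) (g : G) : g * k * g⁻¹ ∈ L (g * s * g⁻¹) :=
  h.cnj s hs g ▸ conj_mem_cj hk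

theorem conj_mem' (hs : Iv s) (hk : k ∈ L s) (hg : g * s = s * g) : g * k * g⁻¹ ∈ L s := by
  have := h.conj_mem hs hk g
  rwa [hg, mul_inv_cancel_right] at this

theorem kp (hs : Iv s) (hw : Iv w) (hk : w ∈ L s) : KP s w :=
  ⟨hs.ss, hw.ss, hs.ne, hw.ne, fun e => h.nm s hs (e ▸ hk), (h.comm s hs w hk).symm⟩

variable [Finite G]

theorem cardC (hs : Iv s) : Nat.card (𝒞₁ s) = 8 * (q * n * m) := by
  rw [← card_mul_relIndex (h.le_c hs), relIndex_two (h.nm s hs) (h.cent s hs), (h.ls s hs).card]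
  ring

theorem two {j : ℕ} (hy : y ^ 2 ^ j = 1) : y * y = 1 := by
  have : Fact (Nat.Prime 2) := ⟨Nat.prime_two⟩
  obtain ⟨s, hs⟩ := h.ex
  obtain ⟨P, hP⟩ := exists_isSyl 2 (𝒞₁ s)
  obtain ⟨g, -, hg⟩ := (hP.trans le_top (by
    rw [relIndex_top_right]; exact (h.odd s hs).not_two_dvd_nat)).exists_conj_mem (mem_top y) ⟨j, hy⟩
  have e := conj_pow_one hy g
  suffices g * y * g⁻¹ * (g * y * g⁻¹) = 1 by simpa [mul_assoc] using conj_sq this g⁻¹
  obtain ⟨k, hk, e1 | e1⟩ := h.exists_K hs (mem_c1.1 (hP.le hg)) <;> rw [e1] at e ⊢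
  · exact (h.ls s hs).two h.num hk e
  · rw [h.tk_sq hs hk]
    refine (h.ls s hs).two h.num hk (j := j + 1) ?_
    rw [pow_succ', pow_mul, sq, ← h.tk_sq hs hk, ← sq, ← pow_mul, mul_comm, pow_mul, e, one_pow]

theorem exists_odd (g : G) : ∃ j, Odd j ∧ g ^ j * g ^ j = 1 := by
  have : Fact (Nat.Prime 2) := ⟨Nat.prime_two⟩
  obtain ⟨i, j, hi, hj⟩ := exists_pow_pElt 2 g
  exact ⟨i, Nat.coprime_two_right.1 hi, h.two hj⟩

theorem sq2 {T : Subgroup G} (hT : IsPGroup 2 T) (hx : x ∈ T) : x * x = 1 :=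
  h.two (isPGroup_iff_forall.1 hT x hx).choose_spec

theorem ab2 {T : Subgroup G} (hT : IsPGroup 2 T) (hx : x ∈ T) (hy : y ∈ T) : x * y = y * x := by
  rw [← inv_self_of (h.sq2 hT (mul_mem hx hy)), mul_inv_rev, inv_self_of (h.sq2 hT hx),
    inv_self_of (h.sq2 hT hy)]

theorem not_four {X : Subgroup G} (hs : s ∈ X) (h2 : s * s = 1)
    (hc : ∀ y ∈ X, y * s = s * y → y * y = 1 → y = 1 ∨ y = s) : ¬ 4 ∣ Nat.card X := by
  have : Fact (Nat.Prime 2) := ⟨Nat.prime_two⟩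
  have e : IsSyl 2 (zpowers s) X := isSyl_of_maximal (zpowers_le.2 hs) (p2_zp h2)
    fun Q a b c y hy => (mem_zp_inv h2).2 (hc y (c hy) (h.ab2 a hy (b (mem_zpowers s))) (h.sq2 a hy))
  refine fun e1 => e.not_dvd ?_
  rw [← card_mul_relIndex e.le, Nat.card_zpowers] at e1
  obtain ⟨c, hc⟩ := orderOf_dvd_of_pow_eq_one ((sq s).trans h2)
  have := e1.trans (Nat.mul_dvd_mul_right ⟨c, hc⟩ _)
  omega

theorem ncard_inv (ht : Iv t) : {s : G | s * s = 1 ∧ s ≠ 1}.ncard = (𝒞₁ t).index := by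
  rw [← relIndex_top_right, ← ncard_class]
  congr 1
  ext s
  constructor
  · rintro ⟨h2, h1⟩
    obtain ⟨g, e⟩ := h.one t s ht ⟨h2, h1⟩
    exact ⟨g, mem_top _, e⟩
  · rintro ⟨g, -, rfl⟩
    exact ⟨conj_sq ht.ss g, (ht.conj g).ne⟩

theorem arc_conj (hs : Iv s) (hw : Iv w) (hk : w ∈ L s) (ht : Iv t) (hv : Iv v) (hk' : v ∈ L t) :
    ∃ g, g * s * g⁻¹ = t ∧ g * w * g⁻¹ = v := by
  obtain ⟨g, rfl⟩ := h.one s t hs ht
  obtain ⟨y, hy, rfl⟩ := (h.ls _ ht).iconj (h.conj_mem hs hk g) hk' (hw.conj g).ss (hw.conj g).ne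
    hv.ss hv.ne
  refine ⟨y * g, ?_, by group⟩
  rw [show y * g * s * (y * g)⁻¹ = y * (g * s * g⁻¹) * y⁻¹ by group, ← h.comm _ ht y hy,
    mul_inv_cancel_right]

theorem exists_kp (hs : Iv s) : ∃ v ∈ L s, ∃ w ∈ L s, KP v w := by
  obtain ⟨W, w, t⟩ := (h.ls s hs).tW
  obtain ⟨v, hv, v1, v2⟩ := t.exists_ord Nat.prime_two (Dvd.intro _ rfl)
  rw [sq] at v2
  exact ⟨v, t.le hv, w, t.uK, v2, t.uu, v1, t.ne, fun e => t.nu (e ▸ hv), by
    rw [← mul_inv_eq_iff_eq_mul, t.inv' hv, inv_self_of v2]⟩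

theorem antisymm (hs : Iv s) (hw : Iv w) (hk : w ∈ L s) : s ∉ L w := fun e => by
  have sy : ∀ a b, Iv a → Iv b → b ∈ L a → a ∈ L b := fun a b ha hb e1 => by
    obtain ⟨g, rfl, rfl⟩ := h.arc_conj hs hw hk ha hb e1
    exact h.conj_mem hw e g
  obtain ⟨a, -, b, -, k⟩ := h.exists_kp hs
  have key : ∀ a b, KP a b → b ∈ L a → False := fun a b k e1 => by
    have e2 := sy a b k.iv k.symm.iv e1
    have k2 := k.mul.symm
    rcases h.cent _ k2.iv a k2.comm with e3 | e3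
    · exact h.not_mem k.iv e1 (sy _ _ k2.iv k.iv e3)
    · rw [← k.comm, mul_assoc, k.ss, mul_one] at e3
      exact h.not_mem k.symm.iv e2 (sy _ _ (k.comm ▸ k2.iv) k.symm.iv e3)
  rcases h.cent a k.iv b k.comm with e1 | e1
  exacts [key a b k e1, key a _ k.mul e1]

theorem arc_next (k : KP s w) (hk : w ∈ L s) : s * w ∈ L w :=
  k.comm ▸ h.mem_of_not k.symm.iv k.comm.symm (h.antisymm k.iv k.symm.iv hk)

theorem arc_last (k : KP s w) (hk : w ∈ L s) : s ∈ L (s * w) := by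
  have := h.arc_next (k.comm ▸ k.symm.mul) (h.arc_next k hk)
  rwa [← k.comm, k.symm.sl, k.comm] at this

theorem complete (k : KP s w) (hk : w ∉ L s) : s ∈ L w := by
  have := h.arc_last k.mul (h.mem_of_not k.iv k.comm hk)
  rwa [k.sl] at this

theorem cycle (k : KP s w) : ∃ g, g * s * g⁻¹ = w ∧ g * w * g⁻¹ = s * w := by
  by_cases e : w ∈ L s
  · exact h.arc_conj k.iv k.symm.iv e k.symm.iv k.mul.symm.iv (h.arc_next k e)
  · have e1 := h.complete k e
    have e2 := h.arc_last k.symm e1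
    rw [k.comm] at e2
    obtain ⟨g, a1, a2⟩ := h.arc_conj k.symm.iv k.iv e1 k.mul.symm.iv k.symm.iv e2
    exact ⟨g, a2, a1⟩

end JG

end Cfsg.GJ
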