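import Cfsg.Agent.GS.J2

/-! Centralizers of four-groups and of the elements of order dividing `m`. -/

set_option autoImplicit false
set_option linter.unusedSectionVars false

namespace Cfsg.GJ

open Subgroup Cfsg.L0 Cfsg.H8

local notation "𝒩" X:max => Subgroup.normalizer (SetLike.coe X)
local notation "𝒞₁" x:max => Subgroup.centralizer (singleton x : Set _)

variable {G : Type*} [Group G]

/-- the four-group generated by `s`, `w` -/
abbrev V4 (s w : G) : Subgroup G := closure {s, w}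

section
variable {s w g v : G}

theorem memV (k : KP s w) : g ∈ V4 s w ↔ g = 1 ∨ g = s ∨ g = w ∨ g = s * w :=
  H3.mem_closure_pair_of_comm k.ss k.ww k.comm

theorem V_left (s w : G) : s ∈ V4 s w := subset_closure (by simp)

theorem V_right (s w : G) : w ∈ V4 s w := subset_closure (by simp)

theorem V_symm (s w : G) : V4 w s = V4 s w := by rw [V4, Set.pair_comm]

theorem V_mul (k : KP s w) : V4 s (s * w) = V4 s w :=
  le_antisymm (closure_pair_le (V_left s w) (mul_mem (V_left s w) (V_right s w)))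
    (closure_pair_le (V_left _ _) (by simpa [k.sl] using mul_mem (V_left s (s * w)) (V_right s _)))

theorem comm_V (h1 : g * s = s * g) (h2 : g * w = w * g) (hv : v ∈ V4 s w) : g * v = v * g :=
  (mem_c1.1 (closure_pair_le (L := 𝒞₁ g) (mem_c1.2 h1.symm) (mem_c1.2 h2.symm) hv)).symm

theorem comm_mul (h1 : g * s = s * g) (h2 : g * w = w * g) : g * (s * w) = s * w * g :=
  (Commute.mul_right (h1 : Commute g s) (h2 : Commute g w)).eq

theorem V_sq (k : KP s w) (hv : v ∈ V4 s w) : v * v = 1 := by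
  rcases (memV k).1 hv with rfl | rfl | rfl | rfl
  exacts [one_mul 1, k.ss, k.ww, k.mul.ww]

theorem V_kp (k : KP s w) (hv : v ∈ V4 s w) (v1 : v ≠ 1) : ∃ v', KP v v' ∧ V4 v v' = V4 s w := by
  rcases (memV k).1 hv with rfl | rfl | rfl | rfl
  · exact absurd rfl v1
  · exact ⟨w, k, rfl⟩
  · exact ⟨s, k.symm, V_symm _ _⟩
  · exact ⟨s, k.mul.symm, (V_symm _ _).trans (V_mul k)⟩

end

/-- the odd part of the centralizer of a four-group -/
def RR (m : ℕ) (V : Subgroup G) : Subgroup G := closure {a | (∀ v ∈ V, a * v = v * a) ∧ a ^ m = 1}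

namespace JG

variable {L : G → Subgroup G} {q p n m : ℕ} {s t u v w a b g x y j : G} (h : JG L q p n m)
include h
variable [Finite G]

theorem rs_arc (k : KP s w) (hw : w ∈ L s) :
    (∀ a, a ∈ RR m (V4 s w) ↔ a * s = s * a ∧ a * w = w * a ∧ a ^ m = 1) ∧
    IsCyclic (RR m (V4 s w)) ∧ Nat.card (RR m (V4 s w)) = m ∧
    (∀ g, g * s = s * g → g * w = w * g → (∃ v ∈ V4 s w, ∃ a ∈ RR m (V4 s w), g = v * a) ∨
      (g * g = 1 ∧ ∀ a ∈ RR m (V4 s w), g * a * g⁻¹ = a⁻¹)) ∧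
    ∀ a ∈ RR m (V4 s w), a ≠ 1 → ∀ g, g * s = s * g → g * a * g⁻¹ * a = a * (g * a * g⁻¹) →
      g * w = w * g := by
  obtain ⟨D, u, t⟩ := (h.ls s k.iv).tW
  obtain ⟨D, u, t, hD⟩ := t.exists_mem hw (by rw [pow_mul, sq, k.ww, one_pow])
  have := t.cyc
  obtain ⟨⟨e, he⟩, e1⟩ := IsCyclic.exists_ofOrder_eq_natCard (α := D)
  rw [Subgroup.orderOf_mk, t.card] at e1
  have m3 := h.num.m3
  have o2 : orderOf (e ^ 2) = m := by
    rw [orderOf_pow' e two_ne_zero, e1, Nat.gcd_mul_right_left, Nat.mul_div_cancel_left _ two_pos]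
  have mD : ∀ a, a * s = s * a → a * w = w * a → a ^ m = 1 → a ∈ D := fun a a1 a2 a3 =>
    have o := odd_of_pow' h.num.om a3
    (t.nrm' (h.odd_mem k.iv a1 o) hD k.w1 (by rwa [a2, mul_inv_cancel_right])).elim id fun e => by
      rw [eq_one_of_odd o (t.sq_of e)]; exact one_mem _
  have zD : zpowers (e ^ 2) ≤ D := zpowers_le.2 (pow_mem he 2)
  have mz : ∀ a, a ∈ zpowers (e ^ 2) ↔ a * s = s * a ∧ a * w = w * a ∧ a ^ m = 1 := fun a =>
    ⟨fun ha => ⟨(h.comm s k.iv a (t.le (zD ha))).symm, t.ab (zD ha) hD, by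
      rw [← o2, ← Nat.card_zpowers]
      exact orderOf_dvd_iff_pow_eq_one.1 (orderOf_dvd_natCard _ ha)⟩,
      fun ⟨a1, a2, a3⟩ => mem_zp_of_cyc t.cyc (pow_mem he 2) (mD a a1 a2 a3) o2 a3⟩
  have eR : RR m (V4 s w) = zpowers (e ^ 2) := le_antisymm
    ((closure_le _).2 fun a ha => (mz a).2 ⟨ha.1 s (V_left s w), ha.1 w (V_right s w), ha.2⟩)
    fun a ha => subset_closure ⟨fun v hv => comm_V ((mz a).1 ha).1 ((mz a).1 ha).2.1 hv,
      ((mz a).1 ha).2.2⟩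
  rw [eR]
  refine ⟨mz, inferInstance, by rw [Nat.card_zpowers, o2], fun g g1 g2 => ?_,
    fun a ha a1 g g1 g2 => ?_⟩
  · have key : ∀ c ∈ L s, c * w = w * c → (∃ v ∈ V4 s w, ∃ a ∈ zpowers (e ^ 2), c = v * a) ∨
        (c * c = 1 ∧ ∀ a ∈ zpowers (e ^ 2), c * a * c⁻¹ = a⁻¹) := fun c hc c2 => by
      refine (t.nrm' hc hD k.w1 (by rwa [c2, mul_inv_cancel_right])).imp (fun e2 => ?_)
        fun e2 => ⟨t.sq_of e2, fun a ha => t.inv_of e2 (zD ha)⟩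
      have e3 : c ^ m * c ^ m = 1 := by rw [← pow_add, ← two_mul, t.pow e2]
      refine ⟨c ^ m, ?_, c ^ m * c, mem_zp_of_cyc t.cyc (pow_mem he 2) (mul_mem (pow_mem e2 m) e2) o2
        ?_, by rw [← mul_assoc, e3, one_mul]⟩
      · rcases t.eq_inv hD (pow_mem e2 m) k.w1 k.ww e3 with e4 | e4 <;> rw [e4]
        exacts [one_mem _, V_right s w]
      · obtain ⟨i, hi⟩ := h.num.om
        rw [← pow_succ, ← pow_mul, show (m + 1) * m = 2 * m * (i + 1) by rw [hi]; ring, pow_mul,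
          t.pow e2, one_pow]
    obtain ⟨c, hc, rfl | rfl⟩ := h.exists_K k.iv g1
    · exact key _ hc g2
    · rw [← mul_assoc, k.comm, mul_assoc, mul_assoc, mul_left_cancel_iff] at g2
      refine (key c hc g2).imp ?_ fun e2 => ⟨by rw [h.tk_sq k.iv hc, e2.1], fun a ha => by
        rw [h.conj_tk k.iv hc (t.le (zD ha)), e2.2 a ha]⟩
      rintro ⟨v, hv, a, ha, rfl⟩
      exact ⟨s * v, mul_mem (V_left s w) hv, a, ha, (mul_assoc _ _ _).symm⟩
  · have aK := t.le (zD ha)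
    have key : ∀ c ∈ L s, c * a * c⁻¹ * a = a * (c * a * c⁻¹) → c * w = w * c := fun c hc c2 => by
      rcases t.nrm' hc (zD ha) a1 (t.cent (mul_mem (mul_mem hc aK) (inv_mem hc)) (zD ha)
        (fun e => a1 (eq_one_of_odd (odd_of_pow' h.num.om ((mz a).1 ha).2.2) e)) c2) with e2 | e2
      · exact t.ab e2 hD
      · rw [← mul_inv_eq_iff_eq_mul, t.inv_of e2 hD, inv_self_of k.ww]
    obtain ⟨c, hc, rfl | rfl⟩ := h.exists_K k.iv g1
    · exact key _ hc g2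
    · rw [h.conj_tk k.iv hc aK] at g2
      rw [mul_assoc, key c hc g2, ← mul_assoc, ← k.comm, mul_assoc]

theorem rs (k : KP s w) :
    (∀ a, a ∈ RR m (V4 s w) ↔ a * s = s * a ∧ a * w = w * a ∧ a ^ m = 1) ∧
    IsCyclic (RR m (V4 s w)) ∧ Nat.card (RR m (V4 s w)) = m ∧
    (∀ g, g * s = s * g → g * w = w * g → (∃ v ∈ V4 s w, ∃ a ∈ RR m (V4 s w), g = v * a) ∨
      (g * g = 1 ∧ ∀ a ∈ RR m (V4 s w), g * a * g⁻¹ = a⁻¹)) ∧
    ∀ a ∈ RR m (V4 s w), a ≠ 1 → ∀ g, g * s = s * g → g * a * g⁻¹ * a = a * (g * a * g⁻¹) →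
      g * w = w * g := by
  rcases h.cent s k.iv w k.comm with e | e
  · exact h.rs_arc k e
  obtain ⟨a1, a2, a3, a4, a5⟩ := h.rs_arc k.mul e
  rw [V_mul k] at a1 a2 a3 a4 a5
  have c : ∀ g, g * s = s * g → (g * (s * w) = s * w * g ↔ g * w = w * g) := fun g e => by
    rw [← mul_assoc, e, mul_assoc, mul_assoc, mul_left_cancel_iff]
  exact ⟨fun a => (a1 a).trans (and_congr_right fun e => by rw [c a e]), a2, a3,
    fun g g1 g2 => a4 g g1 ((c g g1).2 g2), fun a ha a1 g g1 g2 => (c g g1).1 (a5 a ha a1 g g1 g2)⟩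

theorem memR (k : KP s w) : a ∈ RR m (V4 s w) ↔ a * s = s * a ∧ a * w = w * a ∧ a ^ m = 1 :=
  (h.rs k).1 a

theorem cardR (k : KP s w) : Nat.card (RR m (V4 s w)) = m := (h.rs k).2.2.1

theorem R_odd (k : KP s w) (ha : a ∈ RR m (V4 s w)) : Odd (orderOf a) :=
  odd_of_pow' h.num.om ((h.memR k).1 ha).2.2

theorem R_V (k : KP s w) (ha : a ∈ RR m (V4 s w)) (hv : v ∈ V4 s w) : a * v = v * a :=
  comm_V ((h.memR k).1 ha).1 ((h.memR k).1 ha).2.1 hv

theorem R_ab (k : KP s w) (ha : a ∈ RR m (V4 s w)) (hb : b ∈ RR m (V4 s w)) : a * b = b * a :=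
  haveI := (h.rs k).2.1
  congrArg Subtype.val (IsCyclic.commGroup.mul_comm (⟨a, ha⟩ : RR m (V4 s w)) ⟨b, hb⟩)

theorem exists_R (k : KP s w) : ∃ a ∈ RR m (V4 s w), a ≠ 1 :=
  FT.exists_ne_one ((one_lt_card_iff_ne_bot _).1 (by have := h.num.m3; rw [h.cardR k]; omega))

theorem exists_V (hs : Iv s) (h1 : a * s = s * a) (h2 : a ^ m = 1) :
    ∃ w, KP s w ∧ a ∈ RR m (V4 s w) := by
  obtain ⟨D, u, t⟩ := (h.ls s hs).tW
  obtain ⟨D, u, t, hD⟩ := t.exists_mem (h.odd_mem hs h1 (odd_of_pow' h.num.om h2))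
    (by rw [mul_comm, pow_mul, h2, one_pow])
  obtain ⟨w, hw, w1, w2⟩ := t.exists_ord Nat.prime_two (Dvd.intro _ rfl)
  have k := h.kp hs ⟨by rwa [sq] at w2, w1⟩ (t.le hw)
  exact ⟨w, k, (h.memR k).2 ⟨h1, t.ab hD hw, h2⟩⟩

theorem invR (k : KP s w) (ha : a ∈ RR m (V4 s w)) (a1 : a ≠ 1) (g1 : g * s = s * g)
    (g2 : g * w = w * g) (g3 : g * a * g⁻¹ = a⁻¹) : ∀ b ∈ RR m (V4 s w), g * b * g⁻¹ = b⁻¹ := by
  refine (((h.rs k).2.2.2.1 g g1 g2).resolve_left ?_).2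
  rintro ⟨v, hv, b, hb, rfl⟩
  exact a1 (eq_one_of_inv (h.R_odd k ha) (comm_mul (h.R_V k ha hv) (h.R_ab k ha hb)).symm g3)

theorem cRa (k : KP s w) (ha : a ∈ RR m (V4 s w)) (a1 : a ≠ 1) (hv : v ∈ V4 s w) (v1 : v ≠ 1)
    (g1 : g * a = a * g) (g2 : g * v = v * g) : ∃ v ∈ V4 s w, ∃ b ∈ RR m (V4 s w), g = v * b := by
  obtain ⟨v', k', e⟩ := V_kp k hv v1
  rw [← e] at ha ⊢
  exact ((h.rs k').2.2.2.1 g g2 ((h.rs k').2.2.2.2 a ha a1 g g2 (by
    rw [g1, mul_inv_cancel_right]))).resolve_right fun e =>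
      a1 (eq_one_of_inv (h.R_odd k' ha) g1 (e.2 a ha))

theorem cRa_sq (k : KP s w) (ha : a ∈ RR m (V4 s w)) (a1 : a ≠ 1) (hv : v ∈ V4 s w) (v1 : v ≠ 1)
    (g1 : g * a = a * g) (g2 : g * v = v * g) : g * g ∈ RR m (V4 s w) := by
  obtain ⟨v, hv, b, hb, rfl⟩ := h.cRa k ha a1 hv v1 g1 g2
  rw [mul_assoc, ← mul_assoc b, h.R_V k hb hv, mul_assoc, ← mul_assoc, V_sq k hv, one_mul]
  exact mul_mem hb hb

theorem cRa_V (k : KP s w) (ha : a ∈ RR m (V4 s w)) (a1 : a ≠ 1) (hv : v ∈ V4 s w) (v1 : v ≠ 1)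
    (g1 : g * a = a * g) (g2 : g * v = v * g) (g3 : g * g = 1) : g ∈ V4 s w := by
  obtain ⟨v, hv, b, hb, rfl⟩ := h.cRa k ha a1 hv v1 g1 g2
  rw [mul_assoc, ← mul_assoc b, h.R_V k hb hv, mul_assoc, ← mul_assoc, V_sq k hv, one_mul] at g3
  rwa [eq_one_of_odd (h.R_odd k hb) g3, mul_one]

section R

variable (k : KP s w) (ha : a ∈ RR m (V4 s w)) (a1 : a ≠ 1) (hu : Iv u) (u1 : u * s = s * u)
  (u2 : u * w = w * u) (u3 : u * a * u⁻¹ = a⁻¹)
include k ha a1 hu u1 u2 u3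

theorem cRu (hv : v ∈ V4 s w) (v1 : v ≠ 1) (g1 : g * a = a * g) (g2 : g * v = v * g)
    (g3 : g * u = u * g) : g ∈ V4 s w := by
  have e := h.cRa_sq k ha a1 hv v1 g1 g2
  exact h.cRa_V k ha a1 hv v1 g1 g2 (eq_one_of_inv (h.R_odd k e) (comm_mul g3.symm g3.symm)
    (h.invR k ha a1 u1 u2 u3 _ e))

theorem Ra_core (sL : s ∈ L u) (wL : w ∉ L u) (g1 : g * a = a * g) (g2 : g * u = u * g) :
    g ∈ V4 s w := by
  have sa := h.R_V k ha (V_left s w)
  have wa := h.R_V k ha (V_right s w)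
  have sX : s ∈ 𝒞₁ a ⊓ L u := ⟨mem_c1.2 sa.symm, sL⟩
  obtain ⟨O, o1, o2, -, o4, o5⟩ := exists_oddpart (h.not_four sX k.ss fun y hy y1 y2 => by
    rcases (memV k).1 (h.cRa_V k ha a1 (V_left s w) k.s1 (mem_c1.1 hy.1) y1 y2) with
      rfl | rfl | rfl | rfl
    exacts [Or.inl rfl, Or.inr rfl, absurd hy.2 wL,
      absurd (by simpa [k.sl] using mul_mem sL hy.2) wL])
  have nX : ∀ c, c * a = a * c → c * u = u * c → c ∈ 𝒩 O := fun c c1 c2 => o4
    (mem_normalizer_of_forall fun y hy => ⟨conj_mem_of_mem_normalizer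
      (mem_norm_c1 (conj_mem_zp_of_comm c1.symm)) hy.1, h.conj_mem' hu hy.2 c2⟩)
  have od := fun y (hy : y ∈ O) => odd_orderOf_of_mem o2 hy
  have tr : ∀ v ∈ V4 s w, v ≠ 1 → ∀ y ∈ O, y * v = v * y → y = 1 := fun v hv v1 y hy e =>
    eq_one_of_odd (od y hy) (V_sq k (h.cRu k ha a1 hu u1 u2 u3 hv v1 (mem_c1.1 (o1 hy).1) e
      (h.comm u hu y (o1 hy).2).symm))
  have O1 : ∀ y ∈ O, y = 1 := fun y hy => by
    obtain ⟨c, hc, d, hd, e, he, c1, d1, e1, rfl⟩ := fac3 od k (nX s sa.symm u1.symm)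
      (nX w wa.symm u2.symm) hy
    rw [tr s (V_left s w) k.s1 c hc c1, tr _ (mul_mem (V_left s w) (V_right s w)) k.mul.w1 d hd d1,
      tr w (V_right s w) k.w1 e he e1, mul_one, mul_one]
  have key : ∀ c, c * a = a * c → c ∈ L u → c ∈ V4 s w := fun c c1 c2 => by
    by_cases e : c ∈ O
    · rw [O1 c e]; exact one_mem _
    · rw [eq_inv_of_mul_eq_one_left (O1 _ (o5 c ⟨mem_c1.2 c1, c2⟩ s sX e fun e => k.s1 (O1 s e)))]
      exact inv_mem (V_left s w)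
  rcases h.cent u hu g g2 with e | e
  · exact key g g1 e
  · have := mul_mem e (h.mem_of_not hu u2.symm wL)
    rw [← g2, mul_assoc, hu.sl] at this
    simpa using mul_mem (key _ (comm_mul g1.symm wa).symm this) (inv_mem (V_right s w))

theorem Ra (hn : ¬ (s ∈ L u ∧ w ∈ L u)) (g1 : g * a = a * g) (g2 : g * u = u * g) : g ∈ V4 s w := by
  by_cases sL : s ∈ L u
  · exact h.Ra_core k ha a1 hu u1 u2 u3 sL (fun e => hn ⟨sL, e⟩) g1 g2
  by_cases wL : w ∈ L u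
  · rw [← V_symm] at ha ⊢
    exact h.Ra_core k.symm ha a1 hu u2 u1 u3 wL sL g1 g2
  · rw [← V_mul k, ← V_symm] at ha ⊢
    have := mul_mem (h.mem_of_not hu u1.symm sL) (h.mem_of_not hu u2.symm wL)
    rw [u1, mul_assoc, hu.sl] at this
    exact h.Ra_core k.mul.symm ha a1 hu (comm_mul u1 u2) u1 u3 this sL g1 g2

theorem sylV : IsSyl 2 (V4 s w) (𝒞₁ a ⊓ 𝒞₁ u) :=
  haveI : Fact (Nat.Prime 2) := ⟨Nat.prime_two⟩
  isSyl_of_maximal (fun _ hv => ⟨mem_c1.2 (h.R_V k ha hv).symm, mem_c1.2 (comm_V u1 u2 hv).symm⟩) k.p2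
    fun _ a2 b c _ hy => h.cRa_V k ha a1 (V_left s w) k.s1 (mem_c1.1 (c hy).1)
      (h.ab2 a2 hy (b (V_left s w))) (h.sq2 a2 hy)

theorem Rb (sL : s ∈ L u) (wL : w ∈ L u) (g1 : g * a = a * g) (g2 : g * u = u * g) : g ∈ L u := by
  have : Fact (Nat.Prime 2) := ⟨Nat.prime_two⟩
  obtain ⟨i, hi, e⟩ := h.exists_odd g
  obtain ⟨c, hc, e1⟩ := (h.sylV k ha a1 hu u1 u2 u3).exists_conj_mem
    (pow_mem (⟨mem_c1.2 g1, mem_c1.2 g2⟩ : g ∈ 𝒞₁ a ⊓ 𝒞₁ u) i) ⟨1, by rwa [pow_one, sq]⟩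
  have := h.conj_mem' hu (closure_pair_le sL wL e1) (mem_c1.1 (inv_mem hc).2)
  exact (h.pow_mem_iff hu g2 hi).1 (by simpa [mul_assoc] using this)

theorem Ra' (sL : s ∈ L u) (wL : w ∈ L u) (hv : v ∈ V4 s w) (v1 : v ≠ 1) (g1 : g * a = a * g)
    (g2 : g * (u * v) = u * v * g) : g ∈ V4 s w := by
  have vL := closure_pair_le sL wL hv
  have k' := h.kp hu ⟨V_sq k hv, v1⟩ vL
  have c : ∀ c ∈ V4 s w, u * v * c = c * (u * v) := fun c hc =>
    (comm_mul (comm_V u1 u2 hc).symm (h.ab2 k.p2 hc hv)).symm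
  refine h.Ra k ha a1 k'.mul.symm.iv (c s (V_left s w)) (c w (V_right s w)) ?_ (fun e => h.nm _
    k'.mul.symm.iv (mul_mem (h.arc_last k' vL) (closure_pair_le e.1 e.2 hv))) g1 g2
  rw [show u * v * a * (u * v)⁻¹ = u * (v * a * v⁻¹) * u⁻¹ by group, ← h.R_V k ha hv,
    mul_inv_cancel_right, u3]

/-- the involutions centralizing `a` centralize `u` -/
theorem Rc (sL : s ∈ L u) (wL : w ∈ L u) (j2 : j * j = 1) (ja : j * a = a * j) : j * u = u * j := by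
  have k' := (h.kp hu k.iv sL).mul.symm
  have ia : u * s * a * (u * s)⁻¹ = a⁻¹ := by
    rw [show u * s * a * (u * s)⁻¹ = u * (s * a * s⁻¹) * u⁻¹ by group, ← h.R_V k ha (V_left s w),
      mul_inv_cancel_right, u3]
  obtain ⟨i, hi, e⟩ := h.exists_odd (j * (u * s))
  have z1 : j * (j * (u * s)) ^ i = (j * (u * s)) ^ i * j := mul_inv_eq_iff_eq_mul.1 (by
    rw [inv_pow_of (w := j) (by
      rw [← mul_assoc, j2, one_mul, mul_inv_rev j, inv_self_of k'.ss]), inv_self_of e])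
  have z2 : u * s * (j * (u * s)) ^ i = (j * (u * s)) ^ i * (u * s) := mul_inv_eq_iff_eq_mul.1 (by
    rw [inv_pow_of (w := u * s) (by
      rw [← mul_assoc, mul_inv_cancel_right, mul_inv_rev j, inv_self_of k'.ss, inv_self_of j2]),
      inv_self_of e])
  have z3 := inverts_odd_pow (show j * (u * s) * a * (j * (u * s))⁻¹ = a⁻¹ by
    rw [show j * (u * s) * a * (j * (u * s))⁻¹ = j * (u * s * a * (u * s)⁻¹) * j⁻¹ by group, ia,
      (Commute.inv_right (ja : Commute j a)).eq, mul_inv_cancel_right]) hi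
  generalize (j * (u * s)) ^ i = z at e z1 z2 z3
  have hv := mul_mem (V_left s w) (h.Ra' k ha a1 hu u1 u2 u3 sL wL (V_left s w) k.s1
    (g := u * s * z) (mul_inv_eq_iff_eq_mul.1 (by
      rw [show u * s * z * a * (u * s * z)⁻¹ = u * s * (z * a * z⁻¹) * (u * s)⁻¹ by group, z3,
        inverts_inv ia])) (by rw [mul_assoc (u * s), ← z2]))
  have ez : z = u * (s * (u * s * z)) := by
    rw [← mul_assoc u, ← mul_assoc, k'.ss, one_mul]
  generalize s * (u * s * z) = v at hv ez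
  subst ez
  by_cases v1 : v = 1
  · simpa [v1] using z1
  · exact (comm_V u1 u2 (h.Ra' k ha a1 hu u1 u2 u3 sL wL hv v1 ja z1)).symm

theorem Rd (sL : s ∈ L u) (wL : w ∈ L u) (j2 : j * j = 1) (ja : j * a = a * j)
    (hb : b ∈ RR m (V4 s w)) : j * b = b * j := by
  have e := h.Rc k ha a1 hu u1 u2 u3 sL wL j2 ja
  have e1 := h.Rc k ha a1 hu u1 u2 u3 sL wL (conj_sq j2 b) (by
    have := conj_comm ja b
    rwa [h.R_ab k hb ha, mul_inv_cancel_right] at this)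
  have e2 := h.invR k ha a1 u1 u2 u3 b hb
  refine comm_of_sq (h.R_odd k hb) ?_
  calc _ = b * (u * b * u⁻¹ * (u * j * u⁻¹) * (u * b * u⁻¹)⁻¹) * b := by
        rw [e2, ← e, mul_inv_cancel_right]; group
    _ = b * (u * (b * j * b⁻¹) * u⁻¹) * b := by group
    _ = _ := by rw [← e1]; group

end R

theorem exists_u (k : KP s w) : ∃ u, Iv u ∧ s ∈ L u ∧ w ∈ L u := by
  have key : ∀ a b c d, KP a b → b ∈ L a → KP c d → ∃ g, V4 c d = cj g (V4 a b) :=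
    fun a b c d k1 e k2 => by
      have f : ∀ c d, KP c d → d ∈ L c → ∃ g, V4 c d = cj g (V4 a b) := fun c d k2 e2 => by
        obtain ⟨g, rfl, rfl⟩ := h.arc_conj k1.iv k1.symm.iv e k2.iv k2.symm.iv e2
        exact ⟨g, by rw [V4, V4, cj, MonoidHom.map_closure, Set.image_pair]; rfl⟩
      rcases h.cent c k2.iv d k2.comm with e2 | e2
      exacts [f c d k2 e2, V_mul k2 ▸ f c _ k2.mul e2]
  obtain ⟨a, ha, b, hb, k1⟩ := h.exists_kp k.iv
  obtain ⟨g, e⟩ : ∃ g, V4 s w = cj g (V4 a b) := by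
    rcases h.cent a k1.iv b k1.comm with e2 | e2
    exacts [key a b s w k1 e2 k, V_mul k1 ▸ key a _ s w k1.mul e2 k]
  have : V4 s w ≤ L (g * s * g⁻¹) := by
    rw [e, h.cnj s k.iv]; exact cj_mono g (closure_pair_le ha hb)
  exact ⟨_, k.iv.conj g, this (V_left s w), this (V_right s w)⟩

theorem u_inv (k : KP s w) (hu : Iv u) (sL : s ∈ L u) (wL : w ∈ L u) (ha : a ∈ RR m (V4 s w)) :
    u * a * u⁻¹ = a⁻¹ := by
  refine (((h.rs k).2.2.2.1 u (h.comm u hu s sL) (h.comm u hu w wL)).resolve_left ?_).2 a ha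
  rintro ⟨v, hv, b, hb, rfl⟩
  have e := hu.ss
  rw [mul_assoc, ← mul_assoc b, h.R_V k hb hv, mul_assoc, ← mul_assoc, V_sq k hv, one_mul] at e
  rw [eq_one_of_odd (h.R_odd k hb) e, mul_one] at hu sL wL
  exact h.nm v hu (closure_pair_le sL wL hv)

theorem u_conj (hu : Iv u) (sL : s ∈ L u) (wL : w ∈ L u)
    (hg : ∀ v ∈ V4 s w, g⁻¹ * v * g ∈ V4 s w) : s ∈ L (g * u * g⁻¹) ∧ w ∈ L (g * u * g⁻¹) := by
  rw [h.cnj u hu, mem_cj, mem_cj]
  exact ⟨closure_pair_le sL wL (hg s (V_left s w)), closure_pair_le sL wL (hg w (V_right s w))⟩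

theorem u_uniq (k : KP s w) (hu : Iv u) (sL : s ∈ L u) (wL : w ∈ L u) (ht : Iv t) (sL' : s ∈ L t)
    (wL' : w ∈ L t) : ∃ b ∈ RR m (V4 s w), b⁻¹ * u * b = t := by
  obtain ⟨a, ha, a1⟩ := h.exists_R k
  obtain ⟨v, hv, b, hb, e⟩ := h.cRa k ha a1 (V_left s w) k.s1 (g := u * t) (mul_inv_eq_iff_eq_mul.1 (by
    rw [show u * t * a * (u * t)⁻¹ = u * (t * a * t⁻¹) * u⁻¹ by group, h.u_inv k ht sL' wL' ha,
      inverts_inv (h.u_inv k hu sL wL ha)])) (comm_mul (h.comm u hu s sL).symm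
      (h.comm t ht s sL').symm).symm
  obtain ⟨c, hc, e1⟩ := conj_of_inv (h.u_inv k hu sL wL hb) (h.R_odd k hb)
  have cR := zpowers_le.2 hb hc
  have e2 : c * t * c⁻¹ = u * v := by
    rw [← hu.sl t, e, ← h.R_V k hb hv, ← mul_assoc u, ← e1, mul_assoc _ c v, h.R_V k cR hv]
    group
  have e3 := h.u_conj ht sL' wL' (g := c) fun x hx => by
    rwa [mul_assoc, ← h.R_V k cR hx, inv_mul_cancel_left]
  rw [e2] at e3
  by_cases v1 : v = 1
  · exact ⟨c, cR, by rw [← mul_one u, ← v1, ← e2]; group⟩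
  · have vL := closure_pair_le sL wL hv
    have k' := h.kp hu ⟨V_sq k hv, v1⟩ vL
    exact absurd (mul_mem (h.arc_last k' vL) (closure_pair_le e3.1 e3.2 hv)) (h.nm _ k'.mul.symm.iv)

omit h in
theorem cyc_last (k : KP s w) (x1 : x * s * x⁻¹ = w) (x2 : x * w * x⁻¹ = s * w) :
    x * (s * w) * x⁻¹ = s := by
  rw [show x * (s * w) * x⁻¹ = x * s * x⁻¹ * (x * w * x⁻¹) by group, x1, x2, ← k.comm, k.symm.sl]

omit h in
theorem cyc_V (k : KP s w) (x1 : x * s * x⁻¹ = w) (x2 : x * w * x⁻¹ = s * w) :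
    ∀ v ∈ V4 s w, x⁻¹ * v * x ∈ V4 s w := fun v hv =>
  conj_mem_of_mem_normalizer' (mem_normalizer_of_forall fun y hy => by
    rcases (memV k).1 hy with rfl | rfl | rfl | rfl
    · simp
    · rw [x1]; exact V_right _ _
    · rw [x2]; exact mul_mem (V_left _ _) (V_right _ _)
    · rw [cyc_last k x1 x2]; exact V_left _ _) hv

theorem cyc_R (k : KP s w) (x1 : x * s * x⁻¹ = w) (x2 : x * w * x⁻¹ = s * w)
    (ha : a ∈ RR m (V4 s w)) : x * a * x⁻¹ ∈ RR m (V4 s w) :=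
  (h.memR k).2 ⟨cyc_last k x1 x2 ▸ conj_comm (h.R_V k ha (mul_mem (V_left s w) (V_right s w))) x,
    x1 ▸ conj_comm (h.R_V k ha (V_left s w)) x, conj_pow_one ((h.memR k).1 ha).2.2 x⟩

omit h in
theorem cube_comm (k : KP s w) (x1 : x * s * x⁻¹ = w) (x2 : x * w * x⁻¹ = s * w) :
    x ^ 3 * s = s * x ^ 3 ∧ x ^ 3 * w = w * x ^ 3 := by
  have n6 : ∀ y, x * (x * (x * y * x⁻¹) * x⁻¹) * x⁻¹ = x ^ 3 * y * (x ^ 3)⁻¹ := fun y => by
    simp [pow_succ, mul_assoc]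
  have n3 := cyc_last k x1 x2
  exact ⟨mul_inv_eq_iff_eq_mul.1 (by rw [← n6, x1, x2, n3]),
    mul_inv_eq_iff_eq_mul.1 (by rw [← n6, x2, n3, x1])⟩

theorem exists_sigma (k : KP s w) : ∃ x u, Iv u ∧ s ∈ L u ∧ w ∈ L u ∧ x ^ 3 = 1 ∧
    x * s * x⁻¹ = w ∧ x * w * x⁻¹ = s * w ∧ x * u = u * x := by
  obtain ⟨u, hu, sL, wL⟩ := h.exists_u k
  obtain ⟨g, g1, g2⟩ := h.cycle k
  have e := h.u_conj hu sL wL (cyc_V k g1 g2)
  obtain ⟨b, hb, e1⟩ := h.u_uniq k hu sL wL (hu.conj g) e.1 e.2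
  have c : ∀ v ∈ V4 s w, b * v * b⁻¹ = v := fun v hv => by rw [h.R_V k hb hv, mul_inv_cancel_right]
  have x1 : b * g * s * (b * g)⁻¹ = w := by rw [← c w (V_right s w), ← g1]; group
  have x2 : b * g * w * (b * g)⁻¹ = s * w := by
    rw [← c _ (mul_mem (V_left s w) (V_right s w)), ← g2]; group
  have x3 : b * g * u = u * (b * g) := by
    calc _ = b * (g * u * g⁻¹) * g := by group
      _ = _ := by rw [← e1]; group
  generalize b * g = x at x1 x2 x3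
  obtain ⟨c1, c2⟩ := cube_comm k x1 x2
  have c3 : x ^ 3 * x ^ 3 = 1 := by
    refine ((h.rs k).2.2.2.1 _ c1 c2).elim ?_ And.left
    rintro ⟨v, hv, a, ha, e⟩
    have := comm_pow x3.symm 3
    rw [e, ← mul_assoc, comm_V (h.comm u hu s sL) (h.comm u hu w wL) hv, mul_assoc, mul_assoc,
      mul_left_cancel_iff] at this
    rw [e, eq_one_of_inv (h.R_odd k ha) this (h.u_inv k hu sL wL ha), mul_one, V_sq k hv]
  have n4 : ∀ y, x * x ^ 3 * y * (x * x ^ 3)⁻¹ = x * (x ^ 3 * y * (x ^ 3)⁻¹) * x⁻¹ := fun y => by group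
  refine ⟨x * x ^ 3, u, hu, sL, wL, ?_, by rw [n4, c1, mul_inv_cancel_right, x1],
    by rw [n4, c2, mul_inv_cancel_right, x2], (comm_mul x3.symm (comm_pow x3.symm 3)).symm⟩
  calc _ = (x ^ 3 * x ^ 3) ^ 2 := by group
    _ = 1 := by rw [c3, one_pow]

theorem not3m : ¬ 3 ∣ m := fun h3 => by
  have : Fact (Nat.Prime 3) := ⟨Nat.prime_three⟩
  obtain ⟨t, ht⟩ := h.ex
  obtain ⟨s, -, w, -, k⟩ := h.exists_kp ht
  obtain ⟨x, u, hu, sL, wL, x3, x1, x2, xu⟩ := h.exists_sigma k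
  obtain ⟨a, ha, oa⟩ := exists_orderOf_eq_of_dvd_card (p := 3) (H := RR m (V4 s w)) (by
    rwa [h.cardR k])
  have a3 : a ^ 3 = 1 := oa ▸ pow_orderOf_eq_one a
  have a1 : a ≠ 1 := by rintro rfl; simp at oa
  have x0 : x ≠ 1 := by rintro rfl; exact k.ne (by simpa using x1.symm)
  have xa : x * a = a * x := by
    obtain ⟨i, hi⟩ := mem_powers_iff_mem_zpowers.2 (mem_zp_of_cyc (h.rs k).2.1 ha (h.cyc_R k x1 x2 ha)
      oa (conj_pow_one a3 x))
    simp only [] at hi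
    rw [← pow_mod_orderOf, oa] at hi
    have : i % 3 < 3 := Nat.mod_lt _ (by norm_num)
    generalize i % 3 = i at hi this
    interval_cases i
    · exact absurd (by simpa using hi.symm) a1
    · rw [pow_one, eq_mul_inv_iff_mul_eq] at hi; exact hi.symm
    · exact absurd (eq_one_of_odd_inverts (odd_of_pow' (by decide) x3) (h.R_odd k ha) (by
        rw [← hi, eq_inv_iff_mul_eq_one, ← pow_succ, a3])) a1
  obtain ⟨c, rfl⟩ := h3
  obtain ⟨v, k', hx⟩ := h.exists_V hu xu (by rw [pow_mul, x3, one_pow])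
  obtain ⟨t, ht, uL, vL⟩ := h.exists_u k'
  have ia := h.u_inv k hu sL wL ha
  have e := h.Rc k' hx x0 ht (h.comm t ht u uL) (h.comm t ht v vL) (h.u_inv k' ht uL vL hx) uL vL
    (sq_of_inv hu.ss ia) (comm_mul xu xa).symm
  rw [← mul_assoc, h.comm t ht u uL, mul_assoc, mul_assoc, mul_left_cancel_iff] at e
  exact h.antisymm ht hu uL (h.Rb k ha a1 hu (h.comm u hu s sL) (h.comm u hu w wL) ia sL wL e.symm
    (h.comm t ht u uL))

theorem fix_u (k : KP s w) (x3 : x ^ 3 = 1) (x1 : x * s * x⁻¹ = w) (x2 : x * w * x⁻¹ = s * w) :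
    ∃ u, Iv u ∧ s ∈ L u ∧ w ∈ L u ∧ x * u = u * x := by
  have : Fact (Nat.Prime 3) := ⟨Nat.prime_three⟩
  obtain ⟨u, hu, sL, wL⟩ := h.exists_u k
  obtain ⟨t, ht, e⟩ := exists_comm_of_not_dvd (p := 3) (k := 1) (z := x) (by simpa)
    (S := {t | Iv t ∧ s ∈ L t ∧ w ∈ L t})
    (fun t ht => ⟨ht.1.conj x, h.u_conj ht.1 ht.2.1 ht.2.2 (cyc_V k x1 x2)⟩) (by
      rw [show {t | Iv t ∧ s ∈ L t ∧ w ∈ L t} = (fun b => b⁻¹ * u * b) '' RR m (V4 s w) from
        Set.ext fun t => ⟨fun ht => h.u_uniq k hu sL wL ht.1 ht.2.1 ht.2.2, by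
          rintro ⟨b, hb, rfl⟩
          simpa using And.intro (hu.conj b⁻¹) (h.u_conj hu sL wL (g := b⁻¹) fun x hx => by
            rwa [inv_inv, h.R_V k hb hx, mul_inv_cancel_right])⟩,
        Set.InjOn.ncard_image fun a ha b hb e => by
          have e1 := mul_mem ha (inv_mem hb)
          refine mul_inv_eq_one.1 (eq_one_of_inv (h.R_odd k e1) ?_ (h.u_inv k hu sL wL e1))
          calc _ = a * (a⁻¹ * u * a) * b⁻¹ := by group
            _ = _ := by rw [show a⁻¹ * u * a = b⁻¹ * u * b from e]; group,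
        ← Nat.card_coe_set_eq]
      exact fun e => h.not3m (h.cardR k ▸ e))
  exact ⟨t, ht.1, ht.2.1, ht.2.2, e⟩

end JG

end Cfsg.GJ
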