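import Cfsg.Agent.GS.J3

/-! Elements of order dividing `m` do not commute with the other elements of odd order. -/

set_option autoImplicit false
set_option linter.unusedSectionVars false

namespace Cfsg.GJ

open Subgroup Cfsg.L0 Cfsg.H8

local notation "𝒩" X:max => Subgroup.normalizer (SetLike.coe X)
local notation "𝒞₁" x:max => Subgroup.centralizer (singleton x : Set _)

variable {G : Type*} [Group G]

/-- a group of odd order on which a four-group acts without fixed points -/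
structure OW (s w : G) (M : Subgroup G) : Prop where
  kp : KP s w
  odd : Odd (Nat.card M)
  ns : s ∈ 𝒩 M
  nw : w ∈ 𝒩 M
  fix : ∀ x ∈ M, x * s = s * x → x * w = w * x → x = 1

namespace OW

variable {s w x y : G} {M N : Subgroup G} (h : OW s w M)
include h

theorem symm : OW w s M := ⟨h.kp.symm, h.odd, h.nw, h.ns, fun x a b c => h.fix x a c b⟩

theorem mul : OW s (s * w) M := ⟨h.kp.mul, h.odd, h.ns, mul_mem h.ns h.nw, fun x a b c =>
  h.fix x a b (by rwa [← mul_assoc, b, mul_assoc, mul_assoc, mul_left_cancel_iff] at c)⟩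

theorem od (hx : x ∈ M) : Odd (orderOf x) := odd_orderOf_of_mem h.odd hx

theorem nV : V4 s w ≤ 𝒩 M := closure_pair_le h.ns h.nw

theorem sub (hN : N ≤ M) (n : V4 s w ≤ 𝒩 N) : OW s w N :=
  ⟨h.kp, h.odd.of_dvd_nat (card_dvd_of_le hN), n (V_left s w), n (V_right s w),
    fun x hx => h.fix x (hN hx)⟩

variable [Finite G]

theorem inv' : ∀ x ∈ M ⊓ 𝒞₁ s, w * x * w⁻¹ = x⁻¹ :=
  inverts_of_fpf (mem_normalizer_of_forall fun _ hy => ⟨conj_mem_of_mem_normalizer h.nw hy.1,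
    conj_mem_of_mem_normalizer (mem_norm_c1 (conj_mem_zp_of_comm h.kp.comm.symm)) hy.2⟩)
    (by simp [h.kp.ww]) fun y hy e => h.fix y hy.1 (mem_c1.1 hy.2) e.symm

theorem inv (hx : x ∈ M) (e : x * s = s * x) : w * x * w⁻¹ = x⁻¹ := h.inv' x ⟨hx, mem_c1.2 e⟩

theorem ab (hx : x ∈ M) (e : x * s = s * x) (hy : y ∈ M) (e' : y * s = s * y) : x * y = y * x :=
  comm_of_inverts h.inv' x ⟨hx, mem_c1.2 e⟩ y ⟨hy, mem_c1.2 e'⟩

theorem fac (hx : x ∈ M) : ∃ c ∈ M, ∃ y ∈ M, ∃ z ∈ M, c * s = s * c ∧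
    y * (s * w) = s * w * y ∧ z * w = w * z ∧ x = c * y * z :=
  fac3 (fun _ => h.od) h.kp h.ns h.nw hx

theorem ca : FT.CA (V4 s w) M := FT.mkCA_p Nat.prime_two h.nV h.kp.p2 h.odd.not_two_dvd_nat

theorem ty {r : ℕ} (hx : x ∈ M) (e : x * s = s * x) (h1 : x ≠ 1) (h2 : x ^ r = 1) : Ty r s w x :=
  ⟨h2, h1, e, h.inv hx e⟩

end OW

theorem card_ncard (H : Subgroup G) : Nat.card H = (H : Set G).ncard := Nat.card_coe_set_eq _

theorem coset_cnt [Finite G] {X T : Subgroup G} {J : Set G} (hJ : J ⊆ X) (hT : T ≤ X)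
    (inj : ∀ i ∈ J, ∀ j ∈ J, i⁻¹ * j ∈ T → i = j) : J.ncard * Nat.card T ≤ Nat.card X := by
  rw [card_ncard, card_ncard, ← Set.ncard_prod]
  refine Set.ncard_le_ncard_of_injOn (fun p => p.1 * p.2) (fun p hp => mul_mem (hJ hp.1) (hT hp.2))
    fun a ha b hb e => ?_
  have e1 : a.1 = b.1 := inj _ ha.1 _ hb.1 (by
    rw [show a.1⁻¹ * b.1 = a.2 * b.2⁻¹ by
      rw [inv_mul_eq_iff_eq_mul, ← mul_assoc, show a.1 * a.2 = b.1 * b.2 from e,
        mul_inv_cancel_right]]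
    exact mul_mem ha.2 (inv_mem hb.2))
  exact Prod.ext e1 (mul_left_cancel (a := a.1) (by rw [show a.1 * a.2 = _ from e, e1]))

theorem kr_arith {m N l b c : ℕ} (m5 : 5 ≤ m) (hl : l = 3 ∨ l = 5) (hd : l ∣ N) (om : Odd m)
    (hN : N = 2 * m + 1 ∨ N + 1 = 2 * m ∨ (N = 4 * m + 1 ∧ ¬ 3 ∣ N)) (hc : c + l = N)
    (h1 : c * m ≤ N * (b + 1)) (h2 : b * l * m ≤ N * (b + 1)) : False := by
  have om := Nat.odd_iff.1 om
  rcases hl with rfl | rfl <;> rcases hN with e | e | e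
  · have : b ≤ 2 := by by_contra hn; nlinarith
    nlinarith
  · have : b ≤ 1 := by by_contra hn; nlinarith
    nlinarith
  · exact e.2 hd
  · have : b = 0 := by by_contra hn; nlinarith [Nat.pos_of_ne_zero hn]
    subst this; nlinarith
  · have : b = 0 := by by_contra hn; nlinarith [Nat.pos_of_ne_zero hn]
    subst this; nlinarith
  · have m11 : 11 ≤ m := by omega
    have : b ≤ 4 := by by_contra hn; nlinarith
    nlinarith

/-- a self-centralizing subgroup of odd order of `L t` inverted by `s` -/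
structure SC (L : G → Subgroup G) (m : ℕ) (t s : G) (T : Subgroup G) (N : ℕ) : Prop where
  kp : KP t s
  sL : s ∈ L t
  le : T ≤ L t
  card : Nat.card T = N
  odd : Odd N
  inv : ∀ e ∈ T, s * e * s⁻¹ = e⁻¹
  cent : ∀ e ∈ T, e ≠ 1 → ∀ g ∈ L t, g * e = e * g → g ∈ T
  ivs : ∀ e ∈ T, e ≠ 1 → ∀ j ∈ L t, j * j = 1 → j * e * j⁻¹ = e⁻¹ → s * j ∈ T
  num : N = 2 * m + 1 ∨ N + 1 = 2 * m ∨ (N = 4 * m + 1 ∧ ¬ 3 ∣ N)
  cop : N.Coprime m

theorem SC.od {L : G → Subgroup G} {m N : ℕ} {t s e : G} {T : Subgroup G} (c : SC L m t s T N)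
    (he : e ∈ T) : Odd (orderOf e) := odd_orderOf_of_mem (c.card ▸ c.odd) he

/-- `M = O(C(y))` -/
structure OC (t s y : G) (T M : Subgroup G) : Prop extends OW t s M where
  le : M ≤ 𝒞₁ y
  mem : ∀ g, g * y = y * g → Odd (orderOf g) → g ∈ M
  cov : ∀ g, g * y = y * g → g ∈ M ∨ g * t ∈ M
  cT : ∀ g ∈ M, g * t = t * g → g ∈ T

namespace JG

variable {L : G → Subgroup G} {q p n m N : ℕ} {s t u v w a b g x y j : G} {T M : Subgroup G}
  (h : JG L q p n m)
include h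
variable [Finite G]

theorem m5 : 5 ≤ m := by
  have := h.num.m3; have := h.not3m; have := Nat.odd_iff.1 h.num.om; omega

theorem n3 : 3 ∣ n := h.num.three.resolve_right h.not3m

theorem sc_t (c : SC L m t s T N) (hy : y ∈ T) : y * t = t * y := (h.comm t c.kp.iv y (c.le hy)).symm

theorem sc_cent (c : SC L m t s T N) (hy : y ∈ T) (y1 : y ≠ 1) (g1 : g * y = y * g)
    (g2 : g * t = t * g) : g ∈ T ∨ t * g ∈ T :=
  (h.cent t c.kp.iv g g2).imp (fun e => c.cent y hy y1 g e g1) fun e =>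
    c.cent y hy y1 _ e (comm_mul (h.sc_t c hy) g1.symm).symm

theorem exists_oc (c : SC L m t s T N) (hy : y ∈ T) (y1 : y ≠ 1) : ∃ M, OC t s y T M := by
  have yt := h.sc_t c hy
  obtain ⟨M, o1, o2, o3, o4, o5⟩ := exists_oddpart (h.not_four (X := 𝒞₁ y) (mem_c1.2 yt.symm) c.kp.ss
    fun g hg g1 g2 => (h.sc_cent c hy y1 (mem_c1.1 hg) g1).imp
      (fun e => eq_one_of_odd (c.od e) g2) fun e => by
        rw [← c.kp.sl g, eq_one_of_odd (c.od e) (by
          rw [mul_assoc, ← mul_assoc g, g1, mul_assoc, g2, mul_one, c.kp.ss]), mul_one])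
  have cT : ∀ g ∈ M, g * t = t * g → g ∈ T := fun g hg e =>
    c.cent y hy y1 g (h.odd_mem c.kp.iv e (odd_orderOf_of_mem o2 hg)) (mem_c1.1 (o1 hg))
  exact ⟨M, ⟨c.kp, o2, o4 (mem_norm_c1 (conj_mem_zp_of_comm yt)),
    o4 (mem_norm_c1 (conj_mem_zp_of_inv (c.inv y hy))), fun g hg g1 g2 =>
      eq_one_of_inv (odd_orderOf_of_mem o2 hg) g2.symm (c.inv g (cT g hg g1))⟩, o1,
    fun g e => o3 g (mem_c1.2 e), fun g e => or_iff_not_imp_left.2 fun e1 => o5 g (mem_c1.2 e) t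
      (mem_c1.2 yt.symm) e1 fun e => c.kp.s1 (eq_one_of_odd (odd_orderOf_of_mem o2 e) c.kp.ss), cT⟩

theorem kr_cnt (c : SC L m t s T N) (k : KP s v) (hb : b ∈ RR m (V4 s v)) (b1 : b ≠ 1)
    (vL : v ∈ L t) : Nat.card ↥(T ⊓ 𝒞₁ b) ≤ 6 := by
  have ht := c.kp.iv
  have u1 := h.comm t ht s c.sL
  have u2 := h.comm t ht v vL
  have u3 := h.u_inv k ht c.sL vL hb
  have VX := (h.sylV k hb b1 ht u1 u2 u3).le
  have cV := fun v hv v1 g (hg : g ∈ 𝒞₁ b ⊓ 𝒞₁ t) e =>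
    h.cRu (v := v) (g := g) k hb b1 ht u1 u2 u3 hv v1 (mem_c1.1 hg.1) e (mem_c1.1 hg.2)
  set X := 𝒞₁ b ⊓ 𝒞₁ t with hX
  set T0 := T ⊓ 𝒞₁ b with hT0
  have TX : T0 ≤ X := fun e he => ⟨he.2, mem_c1.2 (h.sc_t c he.1)⟩
  have sX := VX (V_left s v)
  have vX := VX (V_right s v)
  set J := {j | j ∈ X ∧ j * j = 1 ∧ s * j ∉ T0} with hJ
  have sT : s ∉ T0 := fun e => k.s1 (eq_one_of_odd (c.od e.1) k.ss)
  have c1 := coset_cnt (X := X) (T := T0) (J := insert s J) (Set.insert_subset sX fun j hj => hj.1) TX (by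
    have key : ∀ i ∈ J, ∀ j ∈ J, i⁻¹ * j ∈ T0 → i = j := fun i hi j hj e => by
      by_contra hn
      refine hi.2.2 ⟨c.ivs _ e.1 (fun e => hn (inv_mul_eq_one.1 e)) i (h.Rb k hb b1 ht u1 u2 u3 c.sL vL
        (mem_c1.1 hi.1.1) (mem_c1.1 hi.1.2)) hi.2.1 ?_, mul_mem sX.1 hi.1.1⟩
      rw [mul_inv_cancel_left, mul_inv_rev, inv_inv, inv_self_of hi.2.1, inv_self_of hj.2.1]
    rintro i (rfl | hi) j (rfl | hj) e
    · rfl
    · exact absurd (by rwa [k.iv.inv] at e) hj.2.2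
    · exact absurd (by simpa [k.iv.inv] using inv_mem e) hi.2.2
    · exact key i hi j hj e)
  rw [Set.ncard_insert_of_notMem (fun e => e.2.2 (by rw [k.ss]; exact one_mem _))] at c1
  have J1 : (1 : G) ∈ J := ⟨one_mem _, one_mul 1, by rwa [mul_one]⟩
  have c2 : Nat.card T0 + 1 ≤ J.ncard := by
    rw [← SetLike.coe_sort_coe, Nat.card_coe_set_eq, ← Set.InjOn.ncard_image
      (f := fun e => e * v * e⁻¹) fun a ha d hd e => by
        have e1 := mul_mem (inv_mem hd) ha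
        refine (inv_mul_eq_one.1 (eq_one_of_odd (c.od e1.1) (V_sq k (cV v (V_right s v) k.w1 _
          (TX e1) ?_)))).symm
        calc _ = d⁻¹ * (a * v * a⁻¹) * a := by group
          _ = _ := by rw [show a * v * a⁻¹ = d * v * d⁻¹ from e]; group,
      ← Set.ncard_insert_of_notMem (a := 1) (by rintro ⟨e, -, e1⟩; exact k.w1 (by simpa using e1))]
    refine Set.ncard_le_ncard (Set.insert_subset J1 ?_)
    rintro _ ⟨e, he, rfl⟩
    refine ⟨mul_mem (mul_mem (TX he) vX) (inv_mem (TX he)), conj_sq k.ww e, fun e1 => ?_⟩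
    have e2 := mul_mem (mul_mem he e1) he
    rw [← mul_assoc e, show e * s = s * e⁻¹ from
      (mul_inv_eq_iff_eq_mul.1 (inverts_inv (c.inv e he.1))).symm, show s * e⁻¹ * (e * v * e⁻¹) * e = s * v by group] at e2
    exact k.mul.w1 (eq_one_of_odd (c.od e2.1) k.mul.ww)
  have c3 : Nat.card X ≤ 4 * {y | ∃ g ∈ X, g * s * g⁻¹ = y}.ncard := by
    rw [ncard_class, ← card_inf_mul_relIndex (𝒞₁ s) X]
    refine Nat.mul_le_mul_right _ ?_
    rw [← SetLike.coe_sort_coe, Nat.card_coe_set_eq]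
    refine (Set.ncard_le_ncard (t := {1, s, v, s * v}) fun g hg =>
      (memV k).1 (cV s (V_left s v) k.s1 g hg.2 (mem_c1.1 hg.1))).trans ?_
    refine (Set.ncard_insert_le _ _).trans (Nat.succ_le_succ ((Set.ncard_insert_le _ _).trans
      (Nat.succ_le_succ ((Set.ncard_insert_le _ _).trans (by simp)))))
  have c4 : {y | ∃ g ∈ X, g * s * g⁻¹ = y}.ncard ≤ Nat.card T0 + (J \ {1}).ncard := by
    rw [← SetLike.coe_sort_coe, Nat.card_coe_set_eq,
      ← Set.ncard_image_of_injective (T0 : Set G) (mul_right_injective s)]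
    refine (Set.ncard_le_ncard ?_).trans (Set.ncard_union_le _ _)
    rintro _ ⟨g, hg, rfl⟩
    by_cases e : s * (g * s * g⁻¹) ∈ T0
    · exact Or.inl ⟨_, e, k.sl _⟩
    · exact Or.inr ⟨⟨mul_mem (mul_mem hg sX) (inv_mem hg), conj_sq k.ss g, e⟩, (k.iv.conj g).ne⟩
  have c5 := Set.ncard_sdiff_singleton_add_one J1
  by_contra hn
  nlinarith

theorem kr_aux (hu : Iv u) (k : KP t u) (ia : t * a * t⁻¹ = a⁻¹) (a1 : a ≠ 1) (am : a ^ m = 1)
    (au : a * u = u * a) (ay : y * a = a * y) (yt : y * t = t * y) (yy : y * y ≠ 1) :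
    ∃ v, KP u v ∧ a ∈ RR m (V4 u v) ∧ u ∈ L t ∧ v ∈ L t := by
  obtain ⟨v, k', ha⟩ := h.exists_V hu au am
  refine ⟨v, k', ha, by_contra fun hn => yy (V_sq k' (h.Ra k' ha a1 k.iv k.comm.symm
    ((h.rs k').2.2.2.2 a ha a1 t k.comm.symm (by rw [ia]; group)) ia hn ay yt))⟩

theorem kr (c : SC L m t s T N) (hy : y ∈ T) (y1 : y ≠ 1) (am : a ^ m = 1) (ay : a * y = y * a)
    (au : a * s = s * a ∨ a * (t * s) = t * s * a) : a = 1 := by
  by_contra a1
  obtain ⟨M, o⟩ := h.exists_oc c hy y1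
  have aM := o.mem a ay (odd_of_pow' h.num.om am)
  have yy : y * y ≠ 1 := fun e => y1 (eq_one_of_odd (c.od hy) e)
  have ht := c.kp.iv
  rcases au with au | au
  swap
  · obtain ⟨v, -, -, e, -⟩ := h.kr_aux c.kp.mul.symm.iv c.kp.mul (o.mul.symm.inv aM au) a1 am au
      ay.symm (h.sc_t c hy) yy
    exact h.not_mem ht c.sL e
  obtain ⟨v, k, ha, -, vL⟩ := h.kr_aux c.kp.symm.iv c.kp (o.symm.inv aM au) a1 am au ay.symm
    (h.sc_t c hy) yy
  have u1 := h.comm t ht s c.sL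
  have u2 := h.comm t ht v vL
  have iv := fun b hb => h.u_inv (a := b) k ht c.sL vL hb
  set R := RR m (V4 s v) with hR
  have Rs := fun b (hb : b ∈ R) => h.R_V k hb (V_left s v)
  have Ry : ∀ b ∈ R, b * y = y * b := fun b hb => by
    have := h.Rd k ha a1 ht u1 u2 (iv a ha) c.sL vL (sq_of_inv k.ss (c.inv y hy))
      (comm_mul au ay).symm hb
    rw [← mul_assoc, Rs b hb, mul_assoc, mul_assoc, mul_left_cancel_iff] at this
    exact this.symm
  have RM : ∀ b ∈ R, b ∈ M := fun b hb => o.mem b (Ry b hb) (h.R_odd k hb)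
  have zT : zpowers y ≤ T := zpowers_le.2 hy
  have hl : ∀ b ∈ R, b ≠ 1 → (orderOf y = 3 ∨ orderOf y = 5) ∧ T ⊓ 𝒞₁ b ≤ zpowers y :=
    fun b hb b1 => by
      have c1 := h.kr_cnt c k hb b1 vL
      have c2 : zpowers y ≤ T ⊓ 𝒞₁ b := zpowers_le.2 ⟨hy, mem_c1.2 (Ry b hb).symm⟩
      have c3 := card_dvd_of_le c2
      have c4 := Nat.odd_iff.1 ((c.card ▸ c.odd).of_dvd_nat (card_dvd_of_le
        (inf_le_left : T ⊓ 𝒞₁ b ≤ T)))
      have c5 : orderOf y ≠ 1 := by simpa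
      rw [Nat.card_zpowers] at c3
      have c6 : Nat.card ↥(T ⊓ 𝒞₁ b) = orderOf y ∧ (orderOf y = 3 ∨ orderOf y = 5) := by
        generalize Nat.card ↥(T ⊓ 𝒞₁ b) = i at *
        have := Nat.le_of_dvd (by omega) c3
        generalize orderOf y = l at *
        interval_cases i <;> interval_cases l <;> simp_all
      exact ⟨c6.2, (eq_of_le_of_card_ge c2 (by rw [Nat.card_zpowers, c6.1])).ge⟩
  set B := M ⊓ 𝒞₁ (t * s) with hB
  have o' : OW (t * s) s M := by have := o.symm.mul.symm; rwa [c.kp.comm] at this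
  have sB : ∀ f ∈ B, s * f * s⁻¹ = f⁻¹ := o'.inv'
  have fB : ∀ b ∈ R, b ≠ 1 → ∀ f ∈ B, f * b = b * f → f = 1 := fun b hb b1 f hf e => by
    have := h.Rc k hb b1 ht u1 u2 (iv b hb) c.sL vL (sq_of_inv k.ss (sB f hf))
      (comm_mul (Rs b hb) e.symm).symm
    rw [← mul_assoc, u1, mul_assoc, mul_assoc, mul_left_cancel_iff] at this
    exact o.mul.fix f hf.1 this (mem_c1.1 hf.2)
  have up : {d | d ∈ M ∧ s * d * s⁻¹ = d⁻¹}.ncard ≤ N * Nat.card B := by
    rw [← c.card, ← SetLike.coe_sort_coe, ← SetLike.coe_sort_coe B, Nat.card_coe_set_eq,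
      Nat.card_coe_set_eq, ← Set.ncard_prod]
    refine (Set.ncard_le_ncard ?_).trans
      (Set.ncard_image_le (f := fun p : G × G => p.1 * (p.2 * p.2) * p.1))
    rintro d ⟨d1, d2⟩
    obtain ⟨x, hx, e⟩ := conj_of_inv d2 (o.od d1)
    obtain ⟨c1, -, f, hf, e1, he, c2, f2, e2, rfl⟩ := o.symm.fac (zpowers_le.2 d1 hx)
    have eT := o.cT e1 he e2
    have fB : f ∈ B := ⟨hf, mem_c1.2 (by rwa [c.kp.comm] at f2)⟩
    refine ⟨(e1, f), ⟨eT, fB⟩, mul_left_cancel (a := s) ?_⟩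
    calc s * (e1 * (f * f) * e1) = (s * e1 * s⁻¹) * (s * f * s⁻¹) * s * f * e1 := by group
      _ = e1⁻¹ * f⁻¹ * (c1⁻¹ * (s * c1)) * f * e1 := by
        rw [c.inv e1 eT, sB f fB, ← c2, inv_mul_cancel_left]
      _ = _ := by rw [← e]; group
  have mI : ∀ b ∈ R, ∀ d ∈ M, s * d * s⁻¹ = d⁻¹ →
      b * d * b⁻¹ ∈ {d | d ∈ M ∧ s * d * s⁻¹ = d⁻¹} := fun b hb d d1 d2 =>
    ⟨mul_mem (mul_mem (RM b hb) d1) (inv_mem (RM b hb)), by
      calc _ = s * b * d * (s * b)⁻¹ := by group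
        _ = b * (s * d * s⁻¹) * b⁻¹ := by rw [← Rs b hb]; group
        _ = _ := by rw [d2]; group⟩
  have TM : ∀ e ∈ T, e ∈ M := fun e he => o.mem e (comm_of_inverts c.inv e he y hy) (c.od he)
  have red : ∀ a ∈ R, ∀ b ∈ R, ∀ d e : G, a * d * a⁻¹ = b * e * b⁻¹ →
      b⁻¹ * a * d * (b⁻¹ * a)⁻¹ = e := fun a _ b _ d e e1 => by
    calc _ = b⁻¹ * (a * d * a⁻¹) * b := by group
      _ = e := by rw [e1]; group
  have C1 : ((T : Set G) \ zpowers y).ncard * m ≤ N * Nat.card B := by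
    refine le_trans ?_ up
    rw [← h.cardR k, ← SetLike.coe_sort_coe, Nat.card_coe_set_eq, ← Set.ncard_prod]
    refine Set.ncard_le_ncard_of_injOn (fun p => p.2 * p.1 * p.2⁻¹)
      (fun p hp => mI _ hp.2 _ (TM _ hp.1.1) (c.inv _ hp.1.1)) ?_
    rintro ⟨d, a⟩ ⟨hd, ha⟩ ⟨e, b⟩ ⟨he, hb⟩ e1
    have e2 := red a ha b hb d e e1
    have hr := mul_mem (inv_mem hb) ha
    have e3 : b⁻¹ * a = 1 := by
      by_contra r1
      generalize b⁻¹ * a = r at e2 hr r1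
      refine hd.2 ((hl _ (mul_mem hr hr) fun e => r1 (eq_one_of_odd (h.R_odd k hr) e)).2
        ⟨hd.1, mem_c1.2 ?_⟩)
      have e4 : r⁻¹ * d * r = e := by
        calc _ = t * r * t⁻¹ * (t * d * t⁻¹) * (t * r * t⁻¹)⁻¹ := by
              rw [iv r hr, ← h.sc_t c hd.1]; group
          _ = t * (r * d * r⁻¹) * t⁻¹ := by group
          _ = e := by rw [e2, ← h.sc_t c he.1]; group
      calc _ = r * (r⁻¹ * d * r) * r := by group
        _ = _ := by rw [e4, ← e2]; group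
    rw [e3, one_mul, inv_one, mul_one] at e2
    exact Prod.ext e2 (inv_mul_eq_one.1 e3).symm
  have C2 : ((B : Set G) \ {1}).ncard * orderOf y * m ≤ N * Nat.card B := by
    refine le_trans ?_ up
    rw [← h.cardR k, ← Nat.card_zpowers, card_ncard, card_ncard, ← Set.ncard_prod, ← Set.ncard_prod]
    have My : ∀ g ∈ M, ∀ z ∈ zpowers y, g * z = z * g := fun g hg z hz =>
      comm_zpowers (mem_c1.1 (o.le hg)) hz
    refine Set.ncard_le_ncard_of_injOn (fun p => p.2 * (p.1.1 * p.1.2) * p.2⁻¹)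
      (fun p hp => mI _ hp.2 _ (mul_mem hp.1.1.1.1 (TM _ (zT hp.1.2))) (by
        rw [show s * (p.1.1 * p.1.2) * s⁻¹ = s * p.1.1 * s⁻¹ * (s * p.1.2 * s⁻¹) by group,
          sB _ hp.1.1.1, c.inv _ (zT hp.1.2), ← mul_inv_rev, My _ hp.1.1.1.1 _ hp.1.2])) ?_
    rintro ⟨⟨f, z⟩, a⟩ ⟨⟨hf, hz⟩, ha⟩ ⟨⟨f', z'⟩, b⟩ ⟨⟨hf', hz'⟩, hb⟩ e1
    have e2 := red a ha b hb _ _ e1
    have hr := mul_mem (inv_mem hb) ha
    have hd := mul_mem hz' (inv_mem hz)
    have e5 : b⁻¹ * a * f * (b⁻¹ * a)⁻¹ = f' * (z' * z⁻¹) := by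
      rw [← mul_assoc, ← e2, show b⁻¹ * a * (f * z) * (b⁻¹ * a)⁻¹ * z⁻¹ =
        b⁻¹ * a * f * (z * (b⁻¹ * a)⁻¹) * z⁻¹ by group, ← My _ (RM _ (inv_mem hr)) z hz]
      group
    have tz : ∀ d ∈ zpowers y, t * s * d * (t * s)⁻¹ = d⁻¹ := fun d hd => by
      rw [show t * s * d * (t * s)⁻¹ = t * (s * d * s⁻¹) * t⁻¹ by group, c.inv d (zT hd),
        ← h.sc_t c (inv_mem (zT hd)), mul_inv_cancel_right]
    have e3 : b⁻¹ * a = 1 := by
      by_contra r1
      generalize b⁻¹ * a = r at e5 hr r1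
      generalize z' * z⁻¹ = d at e5 hd
      have ir : t * s * r * (t * s)⁻¹ = r⁻¹ := by
        rw [show t * s * r * (t * s)⁻¹ = t * (s * r * s⁻¹) * t⁻¹ by group, ← Rs r hr,
          mul_inv_cancel_right, iv r hr]
      have e4 : r⁻¹ * f * r = f' * d⁻¹ := by
        calc _ = t * s * r * (t * s)⁻¹ * (t * s * f * (t * s)⁻¹) * (t * s * r * (t * s)⁻¹)⁻¹ := by
              rw [ir, ← mem_c1.1 hf.1.2]; group
          _ = t * s * (r * f * r⁻¹) * (t * s)⁻¹ := by group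
          _ = t * s * f' * (t * s)⁻¹ * (t * s * d * (t * s)⁻¹) := by rw [e5]; group
          _ = _ := by rw [tz d hd, ← mem_c1.1 hf'.1.2, mul_inv_cancel_right]
      have rd := My r (RM r hr) d hd
      have e6 : r * r * f * (r * r)⁻¹ = f * (d * d) := by
        calc _ = r * (r * f * r⁻¹) * r⁻¹ := by group
          _ = r * (f' * d⁻¹) * r⁻¹ * (r * d * r⁻¹) * (r * d * r⁻¹) := by rw [e5]; group
          _ = _ := by rw [← e4, rd]; group
      have it : ∀ i : ℕ, (r * r) ^ i * f * ((r * r) ^ i)⁻¹ = f * (d * d) ^ i := fun i => by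
        induction i with
        | zero => simp
        | succ i ih =>
          calc _ = (r * r) ^ i * (r * r * f * (r * r)⁻¹) * ((r * r) ^ i)⁻¹ := by
                rw [pow_succ]; group
            _ = (r * r) ^ i * f * ((r * r) ^ i)⁻¹ * ((r * r) ^ i * (d * d) * ((r * r) ^ i)⁻¹) := by
                rw [e6]; group
            _ = _ := by
                rw [ih, My _ (RM _ (pow_mem (mul_mem hr hr) i)) _ (mul_mem hd hd),
                  mul_inv_cancel_right, pow_succ, mul_assoc]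
      have e7 := it N
      rw [show (d * d) ^ N = 1 from orderOf_dvd_iff_pow_eq_one.1
        (c.card ▸ T.orderOf_dvd_natCard (zT (mul_mem hd hd))), mul_one, mul_inv_eq_iff_eq_mul] at e7
      refine hf.2 (fB _ (pow_mem (mul_mem hr hr) N) (fun e => r1 (eq_one_of_odd (h.R_odd k hr)
        (eq_one_of_pow_coprime c.cop e ((h.memR k).1 (mul_mem hr hr)).2.2))) f hf.1 e7.symm)
    rw [e3, one_mul, inv_one, mul_one] at e5
    have e6 : z' * z⁻¹ = 1 := by
      refine eq_one_of_inv (c.od (zT hd)) ?_ (tz _ hd)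
      rw [eq_inv_mul_iff_mul_eq.2 e5.symm]
      exact (mem_c1.1 (mul_mem (inv_mem hf'.1) hf.1).2).symm
    rw [e6, mul_one] at e5
    exact Prod.ext (Prod.ext e5 (mul_inv_eq_one.1 e6).symm) (inv_mul_eq_one.1 e3).symm
  have c1 := Set.ncard_sdiff_singleton_add_one (s := (B : Set G)) (one_mem B)
  have c2 := Set.ncard_sdiff_add_ncard_of_subset (s := (zpowers y : Set G)) (t := T) zT
  rw [← Nat.card_coe_set_eq (zpowers y : Set G), ← Nat.card_coe_set_eq (T : Set G),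
    SetLike.coe_sort_coe, SetLike.coe_sort_coe, Nat.card_zpowers, c.card] at c2
  rw [← Nat.card_coe_set_eq (B : Set G), SetLike.coe_sort_coe] at c1
  rw [← c1] at C1 C2
  exact kr_arith h.m5 (hl a ha a1).1 (c.card ▸ orderOf_dvd_natCard _ hy) h.num.om c.num c2 C1 C2

end JG

end Cfsg.GJ
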