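import Cfsg.Agent.GS.J4

/-! Elements of order dividing `n`; the case `q ≡ 3 (mod 8)`. -/

set_option autoImplicit false
set_option linter.unusedSectionVars false

namespace Cfsg.GJ

open Subgroup Cfsg.L0 Cfsg.H8

local notation "𝒩" X:max => Subgroup.normalizer (SetLike.coe X)
local notation "𝒞" X:max => Subgroup.centralizer (SetLike.coe X)
local notation "𝒞₁" x:max => Subgroup.centralizer (singleton x : Set _)

variable {G : Type*} [Group G]

/-- primes dividing `n` -/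
def TP (n r : ℕ) : Prop := r.Prime ∧ r ≠ 2 ∧ r ∣ n

variable (G) in
/-- no commuting elements of order `r` of different types -/
def NP (r : ℕ) : Prop := ∀ s w a b : G, KP s w → Ty r s w a → Ty r w s b → a * b = b * a → False

variable (G) in
/-- no triangles -/
def NT (r : ℕ) : Prop := ∀ s w a x : G, KP s w → Ty r s w a → x ^ 3 = 1 → x * s * x⁻¹ = w →
  x * w * x⁻¹ = s * w → a * (x * a * x⁻¹) = x * a * x⁻¹ * a → False

/-- `SC` for one of the two involutions `w`, `t w` -/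
def SD (L : G → Subgroup G) (m : ℕ) (t w : G) (T : Subgroup G) (N : ℕ) : Prop :=
  SC L m t w T N ∨ SC L m t (t * w) T N

theorem OC.mul {t s y : G} {T M : Subgroup G} (o : OC t s y T M) : OC t (t * s) y T M :=
  ⟨o.toOW.mul, o.le, o.mem, o.cov, o.cT⟩

theorem OW.exists_comp [Finite G] {s w : G} {M : Subgroup G} (o : OW s w M) {r : ℕ} (hr : r.Prime)
    (h : r ∣ Nat.card M) : ∃ x ∈ M, x ≠ 1 ∧ x ^ r = 1 ∧
      (x * s = s * x ∨ x * w = w * x ∨ x * (s * w) = s * w * x) := by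
  have : Fact r.Prime := ⟨hr⟩
  obtain ⟨P, hP, nP⟩ := o.ca.exists_syl hr
  obtain ⟨x, hx, x1⟩ := FT.exists_ne_one (hP.ne_bot h)
  have key : ∀ u : G, ∀ c ∈ P, c ≠ 1 → c * u = u * c → ∃ x ∈ M, x ≠ 1 ∧ x ^ r = 1 ∧ x * u = u * x :=
    fun u c hc c1 e => by
      obtain ⟨i, a1, a2⟩ := exists_pow_prime hP.isPGroup hc c1
      exact ⟨_, hP.le (pow_mem hc i), a1, a2, (comm_pow e.symm i).symm⟩
  obtain ⟨c, hc, y, hy, z, hz, c1, y1, z1, rfl⟩ := (o.sub hP.le nP).fac hx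
  by_cases e1 : c = 1
  · by_cases e2 : z = 1
    · obtain ⟨x, a1, a2, a3, a4⟩ := key _ y hy (by simpa [e1, e2] using x1) y1
      exact ⟨x, a1, a2, a3, Or.inr (Or.inr a4)⟩
    · obtain ⟨x, a1, a2, a3, a4⟩ := key _ z hz e2 z1
      exact ⟨x, a1, a2, a3, Or.inr (Or.inl a4)⟩
  · obtain ⟨x, a1, a2, a3, a4⟩ := key _ c hc e1 c1
    exact ⟨x, a1, a2, a3, Or.inl a4⟩

/-- two components of the same prime give a commuting pair -/
theorem OW.two_comp [Finite G] {t u a e : G} {O : Subgroup G} (o : OW t u O) {p : ℕ} (hp : p.Prime)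
    (np : NP G p) (ha : a ∈ O) (a1 : a ≠ 1) (ap : a ^ p = 1) (at' : a * t = t * a) (he : e ∈ O)
    (ep : e ^ p = 1) (eu : e * u = u * e) : e = 1 := by
  have : Fact p.Prime := ⟨hp⟩
  by_contra e1
  have tu := o.ty ha at' a1 ap
  have te := o.symm.inv he eu
  obtain ⟨P, hP, nP, aP⟩ := o.ca.exists_syl_ge hp
    (isPGroup_zpowers (k := 1) (by simpa using tu.pow)) (zpowers_le.2 ha)
    (closure_pair_le (mem_norm_zp (conj_mem_zp_of_comm tu.comm))
      (mem_norm_zp (conj_mem_zp_of_inv tu.inv)))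
  have pr : ∀ X ≤ P, V4 t u ≤ 𝒩 X → ¬ X ≤ 𝒞₁ t → ∃ w, OW t w O ∧ ∃ y ∈ X, Ty p w t y :=
    fun X hX nX hn => by
      have key : ∀ w, OW t w O → ∀ y ∈ X, y ≠ 1 → y * w = w * y →
          ∃ w, OW t w O ∧ ∃ y ∈ X, Ty p w t y := fun w ow y hy y1 yw => by
        obtain ⟨i, a1, a2⟩ := exists_pow_prime hP.isPGroup (hX hy) y1
        exact ⟨w, ow, _, pow_mem hy i, ow.symm.ty (hP.le (hX (pow_mem hy i)))
          (comm_pow yw.symm i).symm a1 a2⟩
      obtain ⟨x, hx, x1⟩ := SetLike.not_le_iff_exists.1 hn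
      obtain ⟨c, hc, y, hy, z, hz, c1, y1, z1, rfl⟩ := (o.sub (hX.trans hP.le) nX).fac hx
      by_cases e2 : z = 1
      · exact key _ o.mul y hy (fun e => x1 (by simpa [e, e2] using mem_c1.2 c1)) y1
      · exact key _ o z hz e2 z1
  by_cases hc : P ≤ 𝒞₁ t
  · obtain ⟨y, hy, e2⟩ := hP.exists_conj_mem he ⟨1, by simpa⟩
    have e3 := mem_c1.1 (hc e2)
    have e4 : t * y⁻¹ * t⁻¹ * y ∈ O := mul_mem (conj_mem_of_mem_normalizer o.ns (inv_mem hy)) hy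
    refine e1 (eq_one_of_odd_inverts (o.od e4) (o.od he) ?_)
    rw [← te]
    calc _ = t * y⁻¹ * (t⁻¹ * (y * e * y⁻¹ * t)) * y * t⁻¹ := by group
      _ = _ := by rw [e3]; group
  obtain ⟨w', o', b, hb, tb⟩ := pr P le_rfl nP hc
  have nZ : V4 t u ≤ 𝒩 (P ⊓ 𝒞 P) :=
    le_normalizer_inf nP (nP.trans (H7.normalizer_le_normalizer_centralizer P))
  by_cases hz : P ⊓ 𝒞 P ≤ 𝒞₁ t
  · obtain ⟨z, z0, z1⟩ := FT.exists_ne_one (FT.inf_cent_ne_bot_of_pgroup hp hP.isPGroup hP.isPGroup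
      le_normalizer (FT.ne_bot_of_mem hb tb.ne))
    obtain ⟨i, a1, a2⟩ := exists_pow_prime hP.isPGroup z0.1 z1
    have z2 := pow_mem z0 i
    exact np _ _ _ _ o'.kp (o'.ty (hP.le z2.1) (mem_c1.1 (hz z2)) a1 a2) tb (z2.2 b hb).symm
  · obtain ⟨w'', o'', z, z0, tz⟩ := pr _ inf_le_left nZ hz
    exact np _ _ _ _ o''.kp (o''.ty ha at' a1 ap) tz (z0.2 a (aP (mem_zpowers a)))

namespace JG

variable {L : G → Subgroup G} {q p n m N r : ℕ} {s t u v w a b c g x y j : G} {T M : Subgroup G}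
  (h : JG L q p n m)
include h
variable [Finite G]

theorem sd_oc (c : SD L m t w T N) (hy : y ∈ T) (y1 : y ≠ 1) : ∃ M, OC t w y T M := by
  rcases c with c | c
  · exact h.exists_oc c hy y1
  · obtain ⟨M, o⟩ := h.exists_oc c hy y1
    exact ⟨M, by simpa only [c.kp.sl] using o.mul⟩

theorem sd_kr (c : SD L m t w T N) (hy : y ∈ T) (y1 : y ≠ 1) (am : a ^ m = 1) (ay : a * y = y * a)
    (au : a * w = w * a ∨ a * (t * w) = t * w * a) : a = 1 :=
  c.elim (fun c => h.kr c hy y1 am ay au) fun c => h.kr c hy y1 am ay (by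
    rw [c.kp.sl]; exact au.symm)

theorem tp (hr : r.Prime) (hn : r ∣ n) : TP n r :=
  ⟨hr, by rintro rfl; exact h.num.on.not_two_dvd_nat hn, hn⟩

omit h in
theorem _root_.Cfsg.GJ.TP.pow (hr : TP n r) (ha : a ^ r = 1) : a ^ n = 1 := by
  obtain ⟨c, rfl⟩ := hr.2.2
  rw [pow_mul, ha, one_pow]

theorem exists_tor (hs : Iv s) (ha : a ^ n = 1) (hc : a * s = s * a) :
    ∃ T u, Tor (L s) T u n ∧ a ∈ T := by
  obtain ⟨T, u, t⟩ := (h.ls s hs).tT
  exact t.exists_mem (h.odd_mem hs hc (odd_of_pow' h.num.on ha)) ha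

theorem T_odd (t : Tor (L s) T u n) (ha : a ∈ T) : Odd (orderOf a) := odd_of_pow' h.num.on (t.pow ha)

theorem T_sq (t : Tor (L s) T u n) (ha : a ∈ T) (a1 : a ≠ 1) : a * a ≠ 1 := fun e =>
  a1 (eq_one_of_odd (h.T_odd t ha) e)

theorem sc_tor (hs : Iv s) (t : Tor (L s) T u n) : SC L m s u T n :=
  ⟨h.kp hs ⟨t.uu, t.ne⟩ t.uK, t.uK, t.le, t.card, h.num.on, fun _ => t.inv',
    fun _ he e1 _ hg => t.cent hg he (h.T_sq t he e1),
    fun _ he e1 _ hj _ => t.inverter hj he (h.T_sq t he e1), by have := h.num.rel; omega, h.num.nm'⟩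

theorem tor_inv (k : KP s w) (t : Tor (L s) T u n) (ha : a ∈ T) (a1 : a ≠ 1)
    (ia : w * a * w⁻¹ = a⁻¹) : Tor (L s) T w n ∨ Tor (L s) T (s * w) n :=
  (h.cent s k.iv w k.comm).imp (fun e => t.change (t.inverter e ha (h.T_sq t ha a1) ia)) fun e =>
    t.change (t.inverter e ha (h.T_sq t ha a1) (by
      rw [← h.conj_tk k.iv e (t.le ha), k.sl, ia]))

theorem exists_sd (k : KP s w) (ha : a ^ n = 1) (a1 : a ≠ 1) (hc : a * s = s * a)
    (ia : w * a * w⁻¹ = a⁻¹) : ∃ T u, Tor (L s) T u n ∧ SD L m s w T n ∧ a ∈ T := by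
  obtain ⟨T, u, t, hT⟩ := h.exists_tor k.iv ha hc
  exact ⟨T, u, t, (h.tor_inv k t hT a1 ia).imp (h.sc_tor k.iv) (h.sc_tor k.iv), hT⟩

theorem C1 (hr : TP n r) (hs : Iv s) (ha : a ^ r = 1) (a1 : a ≠ 1) (hc : a * s = s * a)
    (h1 : y * a = a * y) (h2 : y * s = s * y) (h3 : y * y = 1) : y = 1 ∨ y = s := by
  obtain ⟨T, u, t, hT⟩ := h.exists_tor hs (hr.pow ha) hc
  refine (h.sc_cent (h.sc_tor hs t) hT a1 h1 h2).imp (fun e => eq_one_of_odd (h.T_odd t e) h3)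
    fun e => ?_
  rw [← hs.sl y, eq_one_of_odd (h.T_odd t e) (by
    rw [mul_assoc, ← mul_assoc y, h2, mul_assoc, h3, mul_one, hs.ss]), mul_one]

theorem C2 (hr : TP n r) (hs : Iv s) (ha : a ^ r = 1) (a1 : a ≠ 1) (hc : a * s = s * a)
    (h1 : y * a = a * y) (h2 : y * s = s * y) (h3 : y ^ r = 1) : y ∈ zpowers a := by
  obtain ⟨T, u, t, hT⟩ := h.exists_tor hs (hr.pow ha) hc
  exact t.mem_zp hr.1 hT (t.cent (h.odd_mem hs h2 (odd_of_pow hr.1 hr.2.1 h3)) hT (h.T_sq t hT a1) h1)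
    a1 ha h3

theorem C3 (hr : TP n r) (k : KP s w) (ha : Ty r s w a) (h1 : y * a = a * y) (h2 : y * s = s * y)
    (h3 : y * w = w * y) : y = 1 ∨ y = s := by
  obtain ⟨T, u, -, c, hT⟩ := h.exists_sd k (hr.pow ha.pow) ha.ne ha.comm ha.inv
  obtain ⟨M, o⟩ := h.sd_oc c hT ha.ne
  refine (o.cov y h1).imp (fun e => o.fix y e h2 h3) fun e => ?_
  rw [eq_inv_of_mul_eq_one_left (o.fix _ e (by rw [h2, mul_assoc, h2])
    (comm_mul h3.symm k.comm).symm), k.iv.inv]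

theorem C4 (hr : TP n r) (hs : Iv s) (ha : a ^ r = 1) (a1 : a ≠ 1) (hc : a * s = s * a)
    (h2 : y * s = s * y) (h1 : y⁻¹ * a * y ∈ zpowers a) : y⁻¹ * a * y = a ∨ y⁻¹ * a * y = a⁻¹ := by
  obtain ⟨T, u, t, hT⟩ := h.exists_tor hs (hr.pow ha) hc
  have key : ∀ c ∈ L s, c * a * c⁻¹ ∈ zpowers a → c * a * c⁻¹ = a ∨ c * a * c⁻¹ = a⁻¹ :=
    fun c hc e => (t.nrm' hc hT a1 (zpowers_le.2 hT e)).imp
      (fun e => by rw [t.ab e hT, mul_inv_cancel_right]) fun e => t.inv_of e hT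
  rw [show y⁻¹ * a * y = y⁻¹ * a * y⁻¹⁻¹ by rw [inv_inv]] at h1 ⊢
  obtain ⟨c, hc, e | e⟩ := h.exists_K hs (Commute.inv_left (h2 : Commute y s)).eq <;> rw [e] at h1 ⊢
  · exact key c hc h1
  · rw [h.conj_tk hs hc (t.le hT)] at h1 ⊢
    exact key c hc h1

theorem C5 (hr : TP n r) (k : KP s w) (ha : Ty r s w a) (hb : Ty r s w b) :
    ∃ c, c * s = s * c ∧ c * w = w * c ∧ c * b * c⁻¹ ∈ zpowers a := by
  obtain ⟨T, u, t, hT⟩ := h.exists_tor k.iv (hr.pow ha.pow) ha.comm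
  have key : ∀ w ∈ L s, w * a * w⁻¹ = a⁻¹ → w * b * w⁻¹ = b⁻¹ →
      ∃ c ∈ L s, c * w = w * c ∧ c * b * c⁻¹ ∈ zpowers a := fun w hw ia ib => by
    have t' := t.change (t.inverter hw hT (h.T_sq t hT ha.ne) ia)
    obtain ⟨y, hy, e⟩ := t.cnj b (h.odd_mem k.iv hb.comm (odd_of_pow hr.1 hr.2.1 hb.pow))
      (hr.pow hb.pow)
    have e1 := t'.inverter (mul_mem (mul_mem hy hw) (inv_mem hy)) e
      (h.T_sq t e (by simpa using hb.ne)) (by
        calc _ = y * (w * b * w⁻¹) * y⁻¹ := by group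
          _ = _ := by rw [ib]; group)
    obtain ⟨z, hz, e2⟩ := conj_of_inv (t'.inv' e1) (h.T_odd t e1)
    have zT := zpowers_le.2 e1 hz
    rw [t'.ul] at e2
    refine ⟨z * y, mul_mem (t.le zT) hy, ?_, t.mem_zp hr.1 hT ?_ ha.ne ha.pow (conj_pow_one hb.pow _)⟩
    · calc _ = z * (y * w * y⁻¹) * y := by group
        _ = _ := by rw [← e2]; group
    · simpa [mul_assoc] using mul_mem (mul_mem zT e) (inv_mem zT)
  rcases h.cent s k.iv w k.comm with hw | hw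
  · obtain ⟨c, hc, e⟩ := key _ hw ha.inv hb.inv
    exact ⟨c, (h.comm s k.iv c hc).symm, e⟩
  · obtain ⟨c, hc, e1, e2⟩ := key _ hw ha.mul.inv hb.mul.inv
    have e := (h.comm s k.iv c hc).symm
    exact ⟨c, e, by rwa [← mul_assoc, e, mul_assoc, mul_assoc, mul_left_cancel_iff] at e1, e2⟩

theorem C6 (hr : TP n r) (hs : Iv s) (ha : a ^ r = 1) (a1 : a ≠ 1) (hc : a * s = s * a) :
    ¬ 4 ∣ Nat.card (𝒞₁ a) :=
  h.not_four (mem_c1.2 hc.symm) hs.ss fun _ hy => h.C1 hr hs ha a1 hc (mem_c1.1 hy)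

/-- elements of order dividing `m` do not commute with elements of order dividing `n` centralized
by an involution -/
theorem no_mn (hs : Iv s) (y1 : y ≠ 1) (yn : y ^ n = 1) (ys : y * s = s * y) (am : a ^ m = 1)
    (ay : a * y = y * a) : a = 1 := by
  by_contra a1
  obtain ⟨T, u, t, hT⟩ := h.exists_tor hs yn ys
  have c := h.sc_tor hs t
  obtain ⟨M, o⟩ := h.exists_oc c hT y1
  obtain ⟨r, -, hr, r1, -⟩ := exists_prime_pow a1
  obtain ⟨x, hx, x1, xr, e⟩ := o.exists_comp hr (r1.trans (M.orderOf_dvd_natCard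
    (o.mem a ay (odd_of_pow' h.num.om am))))
  have xm : x ^ m = 1 := by
    obtain ⟨c, hc⟩ := r1.trans (orderOf_dvd_of_pow_eq_one am)
    rw [hc, pow_mul, xr, one_pow]
  rcases e with e | e
  · exact x1 (eq_one_of_pow_coprime h.num.nm' (t.pow (o.cT x hx e)) xm)
  · exact x1 (h.kr c hT y1 xm (mem_c1.1 (o.le hx)) e)

theorem eps : 4 * m + 1 = q := by
  have : Fact (Nat.Prime 3) := ⟨Nat.prime_three⟩
  refine (h.num.rel.resolve_right fun e => ?_).2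
  obtain ⟨t, ht⟩ := h.ex
  obtain ⟨s, -, w, -, k⟩ := h.exists_kp ht
  obtain ⟨x, u, hu, -, -, x3, x1, x2, xu⟩ := h.exists_sigma k
  obtain ⟨a, ha, e1⟩ := exists_comm_of_not_dvd (p := 3) (k := 1) (z := x) (by simpa)
    (S := (RR m (V4 s w) : Set G) \ {1}) (fun a ha => ⟨h.cyc_R k x1 x2 ha.1, by simpa using ha.2⟩) (by
      rw [Set.ncard_sdiff_singleton_of_mem (one_mem _), ← card_ncard, h.cardR k]
      have := h.n3
      omega)
  exact ha.2 (h.no_mn hu (by rintro rfl; exact k.ne (by simpa using x1.symm))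
    ((h.tp Nat.prime_three h.n3).pow x3) xu ((h.memR k).1 ha.1).2.2 e1.symm)

theorem no_sl2 {f : G} (oa : Odd (orderOf a)) (a1 : a ≠ 1) (ab : a * b = b * a) (g1 : g * b * g⁻¹ = b)
    (g2 : g * a * g⁻¹ = a * b) (f0 : f * a * f⁻¹ = a) (f2 : f * b * f⁻¹ = b * a⁻¹) : False := by
  have m1 : g * f * g * a * (g * f * g)⁻¹ = b := by
    calc _ = g * (f * (g * a * g⁻¹) * f⁻¹) * g⁻¹ := by group
      _ = g * (f * a * f⁻¹ * (f * b * f⁻¹)) * g⁻¹ := by rw [g2]; group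
      _ = b := by rw [f0, f2, ← mul_assoc a, ab, mul_inv_cancel_right, g1]
  have m2 : g * f * g * b * (g * f * g)⁻¹ = a⁻¹ := by
    calc _ = g * (f * (g * b * g⁻¹) * f⁻¹) * g⁻¹ := by group
      _ = g * (b * a⁻¹) * g⁻¹ := by rw [g1, f2]
      _ = g * b * g⁻¹ * (g * a * g⁻¹)⁻¹ := by group
      _ = a⁻¹ := by rw [g1, g2]; group
  generalize g * f * g = z at m1 m2
  have m3 : z ^ 2 * a * (z ^ 2)⁻¹ = a⁻¹ := by rw [← m2, ← m1]; simp [pow_succ, mul_assoc]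
  obtain ⟨i, hi, hj⟩ := h.exists_odd z
  have := inverts_odd_pow m3 hi
  rw [← pow_mul, mul_comm 2, pow_mul, sq, hj, one_mul, inv_one, mul_one] at this
  exact a1 (eq_one_of_odd oa (mul_eq_one_iff_eq_inv.2 this))

/-- uniqueness of neighbours -/
theorem nb (hr : TP n r) (k : KP s w) (hb : Ty r w s b) (ha : a ^ r = 1) (a1 : a ≠ 1)
    (h1 : a * s = s * a) (h2 : a * b = b * a) (hy : y ^ r = 1) (h3 : y * s = s * y)
    (h4 : y * b = b * y) : y ∈ zpowers a :=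
  h.C2 hr k.iv ha a1 h1 (comm_of_selfcent (X := 𝒞₁ b ⊓ 𝒞₁ s) (s := w)
    ⟨mem_c1.2 hb.comm.symm, mem_c1.2 k.comm⟩ k.ww k.w1
    (fun _ hz e => h.C3 hr k.symm hb (mem_c1.1 hz.1) e (mem_c1.1 hz.2))
    ⟨mem_c1.2 h4, mem_c1.2 h3⟩ ⟨mem_c1.2 h2, mem_c1.2 h1⟩ (odd_of_pow hr.1 hr.2.1 hy)
    (odd_of_pow hr.1 hr.2.1 ha)) h3 hy

theorem transv (hr : TP n r) (k : KP s w) (ha : Ty r s w a) (hb : Ty r w s b)
    (hc : c ^ r = 1) (c1 : c ≠ 1) (c2 : c * (s * w) = s * w * c) (ab : a * b = b * a)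
    (cb : c * b = b * c)
    (nt : ∀ y, y ^ r = 1 → y * (s * w) = s * w * y → y * a = a * y → y * b = b * y → y = 1) :
    ∃ g, g * b * g⁻¹ = b ∧ g * a * g⁻¹ = a * b := by
  have : Fact r.Prime := ⟨hr.1⟩
  have od : ∀ {y : G}, y ^ r = 1 → Odd (orderOf y) := odd_of_pow hr.1 hr.2.1
  obtain ⟨O, o1, o2, o3, o4, -⟩ := exists_oddpart (h.C6 hr k.symm.iv hb.pow hb.ne hb.comm)
  have nO : closure {s, w} ≤ 𝒩 O := (closure_pair_le (mem_norm_c1 (conj_mem_zp_of_inv hb.inv))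
    (mem_norm_c1 (conj_mem_zp_of_comm hb.comm))).trans o4
  obtain ⟨P, hP, nP, aP⟩ := (FT.mkCA_p Nat.prime_two nO k.p2 o2.not_two_dvd_nat).exists_syl_ge hr.1
    (isPGroup_zpowers (k := 1) (by simpa using ha.pow))
    (zpowers_le.2 (o3 a (mem_c1.2 ab) (od ha.pow)))
    (closure_pair_le (mem_norm_zp (conj_mem_zp_of_comm ha.comm))
      (mem_norm_zp (conj_mem_zp_of_inv ha.inv)))
  have ms : s ∈ closure {s, w} := subset_closure (by simp)
  have mw : w ∈ closure {s, w} := subset_closure (by simp)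
  have Pb : ∀ y ∈ P, y * b = b * y := fun y hy => mem_c1.1 (o1 (hP.le hy))
  have nC : ∀ g ∈ closure {s, w}, g ∈ 𝒩 (P ⊓ 𝒞₁ a) := fun g hg => le_normalizer_inf nP
    (closure_pair_le (mem_norm_c1 (conj_mem_zp_of_comm ha.comm))
      (mem_norm_c1 (conj_mem_zp_of_inv ha.inv))) hg
  have iC := inverts_of_fpf (nC _ (mul_mem ms mw)) (by simp [k.mul.ww]) fun y hy e => by
    by_contra h1
    obtain ⟨μ, h2, h3⟩ := exists_pow_prime hP.isPGroup hy.1 h1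
    exact h2 (nt _ h3 (comm_pow e μ).symm (comm_pow (mem_c1.1 hy.2).symm μ).symm
      (comm_pow (Pb y hy.1).symm μ).symm)
  have abC := comm_of_inverts iC
  have nab : zpowers b ≤ 𝒩 (zpowers a) := zpowers_le.2 (mem_norm_zp (conj_mem_zp_of_comm ab))
  have om : ∀ y ∈ P ⊓ 𝒞₁ a, y ^ r = 1 → y ∈ zpowers a ⊔ zpowers b := fun y hy e => by
    have hy' := conj_mem_of_mem_normalizer (nC s ms) hy
    have cm : Commute y (s * y * s⁻¹) := abC _ hy _ hy'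
    have e' := conj_pow_one e s
    have ssy : s * (s * y * s⁻¹) * s⁻¹ = y := by
      rw [inv_self_of k.ss]; simp [mul_assoc, k.sl, k.ss]
    refine mem_of_sq_mem (od e) ?_
    rw [show y * y = y * (s * y * s⁻¹) * ((s * y * s⁻¹)⁻¹ * y) by group]
    refine mul_mem (mem_sup_left ?_) (mem_sup_right ?_)
    · refine h.C2 hr k.iv ha.pow ha.ne ha.comm (mem_c1.1 (mul_mem hy hy').2) ?_ (by
        rw [cm.mul_pow, e, e', mul_one])
      refine (mul_inv_eq_iff_eq_mul.1 ?_).symm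
      rw [show s * (y * (s * y * s⁻¹)) * s⁻¹ = s * y * s⁻¹ * (s * (s * y * s⁻¹) * s⁻¹) by group, ssy,
        cm.eq]
    · have hm := mul_mem (inv_mem hy') hy
      refine h.C2 hr k.symm.iv hb.pow hb.ne hb.comm (Pb _ hm.1) ?_ (by
        rw [cm.symm.inv_left.mul_pow, inv_pow, e, e', inv_one, mul_one])
      have e1 := iC _ hm
      have e2 : s * ((s * y * s⁻¹)⁻¹ * y)⁻¹ * s⁻¹ = (s * y * s⁻¹)⁻¹ * y := by
        rw [show s * ((s * y * s⁻¹)⁻¹ * y)⁻¹ * s⁻¹ = (s * y * s⁻¹)⁻¹ * (s * (s * y * s⁻¹) * s⁻¹) by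
          group, ssy]
      refine (mul_inv_eq_iff_eq_mul.1 ?_).symm
      conv_rhs => rw [← e2, ← e1]
      rw [mul_inv_rev s w, inv_self_of k.ss]
      simp [mul_assoc, k.sl, k.ss]
  by_cases hE : P ⊓ 𝒞₁ a = P
  · exfalso
    obtain ⟨y, hy, e⟩ := hP.exists_conj_mem (o3 c (mem_c1.2 cb) (od hc)) ⟨1, by simpa⟩
    have e1 := iC _ (hE.ge e)
    have e2 : s * w * y * (s * w)⁻¹ * y⁻¹ ∈ O :=
      mul_mem (conj_mem_of_mem_normalizer (nO (mul_mem ms mw)) hy) (inv_mem hy)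
    refine c1 (conj_eq_one_iff.1 (eq_one_of_odd_inverts (odd_orderOf_of_mem o2 e2)
      (od (conj_pow_one hc y)) ?_))
    rw [← e1]
    calc _ = s * w * y * ((s * w)⁻¹ * (c * (s * w))) * y⁻¹ * (s * w)⁻¹ := by group
      _ = _ := by rw [c2]; group
  obtain ⟨g, hg, h2, h3⟩ := exists_mem_normalizer_not_mem hP.isPGroup inf_le_left hE
  obtain ⟨_, ⟨i, rfl⟩, _, ⟨j, rfl⟩, e⟩ := (mem_sup_of_le_normalizer_left nab).1 (om _
    (conj_mem_of_mem_normalizer h2 ⟨aP (mem_zpowers a), mem_c1.2 rfl⟩) (conj_pow_one ha.pow g))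
  simp only [] at e
  have cab : Commute a b := ab
  have gb : ∀ μ : ℕ, ∀ l : ℤ, g ^ μ * b ^ l * (g ^ μ)⁻¹ = b ^ l := fun μ l => by
    rw [((show Commute g b from Pb g hg).pow_left μ |>.zpow_right l).eq, mul_inv_cancel_right]
  have oa : orderOf a = r := orderOf_eq_prime ha.pow ha.ne
  have ob : orderOf b = r := orderOf_eq_prime hb.pow hb.ne
  have e1 : a ^ i = a := by
    have it : ∀ μ : ℕ, ∃ l : ℤ, g ^ μ * a * (g ^ μ)⁻¹ = a ^ i ^ μ * b ^ l := fun μ => by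
      induction μ with
      | zero => exact ⟨0, by simp⟩
      | succ μ ih =>
        obtain ⟨l, hl⟩ := ih
        refine ⟨l * i + j, ?_⟩
        calc _ = g ^ μ * (g * a * g⁻¹) * (g ^ μ)⁻¹ := by group
          _ = (g ^ μ * a * (g ^ μ)⁻¹) ^ i * (g ^ μ * b ^ j * (g ^ μ)⁻¹) := by
            rw [← e, conj_zpow]; group
          _ = _ := by rw [hl, gb, (cab.zpow_zpow _ _).mul_zpow]; group
    obtain ⟨μ, hm⟩ := isPGroup_iff_forall.1 hP.isPGroup g hg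
    obtain ⟨l, hl⟩ := it (r ^ μ)
    rw [hm, one_mul, inv_one, mul_one] at hl
    have e2 : b ^ l = 1 := by
      have e3 : b ^ l ∈ zpowers a := by
        rw [eq_inv_mul_of_mul_eq hl.symm]
        exact mul_mem (inv_mem (zpow_mem_zpowers _ _)) (mem_zpowers a)
      refine eq_one_of_odd (odd_orderOf_of_mem (K := zpowers b) (by
        rw [Nat.card_zpowers]; exact od hb.pow) (zpow_mem_zpowers _ _)) (mul_eq_one_iff_eq_inv.2 ?_)
      rw [← inv_zpowers hb.inv (zpow_mem_zpowers _ _), comm_zpowers ha.comm.symm e3,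
        mul_inv_cancel_right]
    rw [e2, mul_one] at hl
    rw [hl]
    conv_lhs => rw [← hl]
    rw [zpow_eq_zpow_iff_modEq, oa, ← ZMod.intCast_eq_intCast_iff]
    push_cast
    exact (ZMod.pow_card_pow _).symm
  rw [e1] at e
  have j0 : (j : ZMod r) ≠ 0 := fun e2 => h3 ⟨hg, mem_c1.2 (mul_inv_eq_iff_eq_mul.1 (by
    rw [← e, orderOf_dvd_iff_zpow_eq_one.1 (ob ▸ (ZMod.intCast_zmod_eq_zero_iff_dvd j r).1 e2),
      mul_one]))⟩
  have it : ∀ μ : ℕ, g ^ μ * a * (g ^ μ)⁻¹ = a * b ^ (j * μ) := fun μ => by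
    induction μ with
    | zero => simp
    | succ μ ih =>
      calc _ = g ^ μ * (g * a * g⁻¹) * (g ^ μ)⁻¹ := by group
        _ = (g ^ μ * a * (g ^ μ)⁻¹) * (g ^ μ * b ^ j * (g ^ μ)⁻¹) := by rw [← e]; group
        _ = _ := by rw [ih, gb]; push_cast; group
  refine ⟨g ^ (j : ZMod r)⁻¹.val, by simpa using gb _ 1, ?_⟩
  rw [it]
  congr 1
  conv_rhs => rw [← zpow_one b]
  rw [zpow_eq_zpow_iff_modEq, ob, ← ZMod.intCast_eq_intCast_iff]
  simp [j0]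

theorem no_pair (hr : TP n r) (tri : NT G r) : NP G r := by
  intro s w a b k ha hb ab
  obtain ⟨η, n1, n2, n0⟩ : ∃ η, η * s * η⁻¹ = w ∧ η * w * η⁻¹ = s * w ∧
      a * (η * a * η⁻¹) = η * a * η⁻¹ * a := by
    obtain ⟨η, n1, n2⟩ := h.cycle k
    have hb' := hb.mul.conj η⁻¹
    rw [k.comm, ← n2] at hb'
    nth_rewrite 1 [← n1] at hb'
    simp only [inv_inv, mul_assoc, inv_mul_cancel_left, inv_mul_cancel, mul_one] at hb'
    obtain ⟨c, c1, c2, c3⟩ := h.C5 hr k hb' ha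
    refine ⟨η * c, by rw [← n1, mul_assoc η, c1]; group, by rw [← n2, mul_assoc η, c2]; group,
      comm_zpowers ab ?_⟩
    obtain ⟨i, hi⟩ := c3
    refine ⟨i, ?_⟩
    calc _ = (η * (η⁻¹ * (b * η)) * η⁻¹) ^ i := by simp [mul_assoc]
      _ = _ := by rw [conj_zpow]; simp only [] at hi; rw [hi]; group
  clear hb ab
  have n3 : η * (s * w) * η⁻¹ = s := by
    rw [show η * (s * w) * η⁻¹ = η * s * η⁻¹ * (η * w * η⁻¹) by group, n1, n2, ← k.comm, k.symm.sl]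
  have t1 : Ty r w s (η * a * η⁻¹) := by simpa only [n1, n3] using ha.mul.conj η
  have t1' : Ty r w (s * w) (η * a * η⁻¹) := by simpa only [n1, n2] using ha.conj η
  have t2 : Ty r (s * w) s (η * (η * a * η⁻¹) * η⁻¹) := by simpa only [n2, n3] using t1'.conj η
  have t3 : Ty r s w (η * (η * (η * a * η⁻¹) * η⁻¹) * η⁻¹) := by
    simpa only [n1, n3] using t2.conj η
  by_cases nt : ∀ y, y ^ r = 1 → y * (s * w) = s * w * y → y * a = a * y →
      y * (η * a * η⁻¹) = η * a * η⁻¹ * y → y = 1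
  · obtain ⟨g, g1, g2⟩ := h.transv hr k ha t1 t2.pow t2.ne t2.comm n0 (conj_comm n0 η).symm nt
    obtain ⟨f, f1, f2⟩ := h.transv (c := η⁻¹ * a * η⁻¹⁻¹) hr k.symm t1 ha.inv' (conj_pow_one ha.pow _)
      (conj_eq_one_iff.not.2 ha.ne) (by
        have := conj_comm ha.comm η⁻¹
        rwa [← n3, show η⁻¹ * (η * (s * w) * η⁻¹) * η⁻¹⁻¹ = s * w by group, ← k.comm] at this)
      (Commute.inv_right (n0.symm : Commute _ a)).eq
      (Commute.inv_right (show _ * a = a * _ by simpa [mul_assoc] using conj_comm n0 η⁻¹)).eq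
      fun y y1 y2 y3 y4 => nt y y1 (by rwa [k.comm] at y2)
        (by simpa using (Commute.inv_right (y4 : Commute y a⁻¹)).eq) y3
    exact h.no_sl2 (odd_of_pow hr.1 hr.2.1 ha.pow) ha.ne n0 g1 g2 (by
      rw [← conj_inv] at f1; exact inv_injective f1) f2
  push Not at nt
  obtain ⟨y, y1, y2, y3, y4, y5⟩ := nt
  have k' : KP (s * w) w := by simpa only [k.comm] using k.symm.mul.symm
  have e1 := comm_zpowers y3.symm (h.nb hr k' t1' y1 y5 y2 y4 t2.pow t2.comm (conj_comm n0 η).symm)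
  have e2 := h.nb hr k t1 ha.pow ha.ne ha.comm n0 t3.pow t3.comm (conj_comm e1 η).symm
  have n6 : ∀ y, η * (η * (η * y * η⁻¹) * η⁻¹) * η⁻¹ = η ^ 3 * y * (η ^ 3)⁻¹ := fun y => by
    simp [pow_succ, mul_assoc]
  rw [n6] at e2
  have c1 : η ^ 3 * s = s * η ^ 3 := mul_inv_eq_iff_eq_mul.1 (by rw [← n6, n1, n2, n3])
  have c2 : η ^ 3 * w = w * η ^ 3 := mul_inv_eq_iff_eq_mul.1 (by rw [← n6, n2, n3, n1])
  have c3 : η ^ 3 * η ^ 3 = 1 := by
    rcases h.C4 (y := (η ^ 3)⁻¹) hr k.iv ha.pow ha.ne ha.comm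
      (Commute.inv_left (c1 : Commute _ s)).eq (by rwa [inv_inv]) with e | e <;> rw [inv_inv] at e
    · rcases h.C3 hr k ha (mul_inv_eq_iff_eq_mul.1 e) c1 c2 with e3 | e3 <;> rw [e3]
      exacts [one_mul 1, k.ss]
    · have e4 : w * η ^ 3 * a = a * (w * η ^ 3) := by
        refine mul_inv_eq_iff_eq_mul.1 ?_
        rw [show w * η ^ 3 * a * (w * η ^ 3)⁻¹ = w * (η ^ 3 * a * (η ^ 3)⁻¹) * w⁻¹ by group, e,
          inverts_inv ha.inv]
      rcases h.C3 hr k ha e4 (by rw [mul_assoc, c1, ← mul_assoc, k.comm, mul_assoc])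
        (by rw [mul_assoc, c2]) with e3 | e3 <;> rw [← k.symm.sl (η ^ 3), e3]
      exacts [by rw [mul_one, k.ww], k.symm.mul.ww]
  have n4 : ∀ y, η * η ^ 3 * y * (η * η ^ 3)⁻¹ = η * (η ^ 3 * y * (η ^ 3)⁻¹) * η⁻¹ := fun y => by group
  refine tri s w a (η * η ^ 3) k ha ?_ (by rw [n4, c1, mul_inv_cancel_right, n1])
    (by rw [n4, c2, mul_inv_cancel_right, n2]) (comm_zpowers n0 ?_)
  · calc _ = (η ^ 3 * η ^ 3) ^ 2 := by group
      _ = 1 := by rw [c3, one_pow]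
  · obtain ⟨i, hi⟩ := e2
    refine ⟨i, ?_⟩
    simp only [] at hi ⊢
    rw [n4, ← hi, conj_zpow]

end JG

end Cfsg.GJ
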