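import Cfsg.Agent.GS.J5

/-! No triangles for the prime `3`. -/

set_option autoImplicit false
set_option linter.unusedSectionVars false

namespace Cfsg.GJ

open Subgroup Cfsg.L0 Cfsg.H8

local notation "𝒩" X:max => Subgroup.normalizer (SetLike.coe X)
local notation "𝒞" X:max => Subgroup.centralizer (SetLike.coe X)
local notation "𝒞₁" x:max => Subgroup.centralizer (singleton x : Set _)

variable {G : Type*} [Group G]

section
variable {s w v a b c x y g a' b' c' : G} {A B Q : Subgroup G} {r : ℕ}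

theorem OW.le_of_cyc [Finite G] (o : OW s w A) (xA : x ∈ 𝒩 A) (xB : x ∈ 𝒩 B)
    (x1 : x * s * x⁻¹ = w) (x2 : x * w * x⁻¹ = s * w) (h : A ⊓ 𝒞₁ s ≤ B) : A ≤ B := fun g hg => by
  obtain ⟨c, hc, y, hy, z, hz, c1, y1, z1, rfl⟩ := o.fac hg
  refine mul_mem (mul_mem (h ⟨hc, mem_c1.2 c1⟩) ?_) ?_
  · have := conj_mem_of_mem_normalizer' xB (h ⟨conj_mem_of_mem_normalizer xA hy, mem_c1.2
      (JG.cyc_last o.kp x1 x2 ▸ conj_comm y1 x)⟩)
    simpa [mul_assoc] using this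
  · have := conj_mem_of_mem_normalizer xB (h ⟨conj_mem_of_mem_normalizer' xA hz, mem_c1.2 (by
      simpa [← x1, mul_assoc] using conj_comm z1 x⁻¹)⟩)
    simpa [mul_assoc] using this

theorem OW.om_cube [Finite G] (o : OW s w Q) (hQ : IsPGroup 3 Q) (xQ : x ∈ 𝒩 Q)
    (x1 : x * s * x⁻¹ = w) (x2 : x * w * x⁻¹ = s * w) (cyc : IsCyclic ↥(Q ⊓ 𝒞₁ s))
    (hy : y ∈ FT.Om 3 Q) : y ^ 3 = 1 := by
  have nJ := FT.norm_le_norm_Om 3 Q
  have JQ := FT.Om_le 3 Q
  set J := FT.Om 3 Q with hJ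
  have nD : 𝒩 J ≤ 𝒩 ⁅J, J⁆ := FT.norm_le_norm_der J
  have nE : 𝒩 J ≤ 𝒩 ⁅⁅J, J⁆, J⁆ := FT.le_norm_comm nD le_rfl
  have st : ∀ y ∈ J, ∀ z ∈ J, z ^ 3 = 1 → y ^ 3 ∈ ⁅⁅J, J⁆, J⁆ → (y * z) ^ 3 ∈ ⁅⁅J, J⁆, J⁆ :=
    fun y hy z hz z3 e => by
      have hc := commutator_mem_commutator (inv_mem hz) (inv_mem hy)
      have cJ := FT.der_le J hc
      have cn := fun g (hg : g ∈ J) d => conj_mem_of_mem_normalizer (x := d) (nE (le_normalizer hg))
      have e1 := commutator_mem_commutator hc hz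
      have := mul_mem e (cn _ (mul_mem hz cJ) _ (mul_mem (mul_mem (cn _ cJ _
        (commutator_mem_commutator (inv_mem hc) (inv_mem hy))) (cn _ (mul_mem cJ hz) _ e1)) e1))
      rw [← mul_one (y ^ 3 * _), ← show y⁻¹ * z ^ 3 * y = 1 by simp [z3]] at this
      simpa only [commutatorElement_def, pow_succ, pow_zero, one_mul, mul_inv_rev, inv_inv,
        mul_assoc, inv_mul_cancel_left, mul_inv_cancel_left, inv_mul_cancel, mul_one] using this
  have cube : ∀ y ∈ J, y ^ 3 ∈ ⁅⁅J, J⁆, J⁆ := fun y hy => by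
    refine closure_induction_right (p := fun y _ => y ^ 3 ∈ ⁅⁅J, J⁆, J⁆) (by simp)
      (fun y hy z hz => st y hy z (subset_closure hz) hz.2) (fun y hy z hz => st y hy _
        (inv_mem (subset_closure hz)) (by rw [inv_pow, hz.2, inv_one])) hy
  have oJ := o.sub JQ (o.nV.trans nJ)
  have nil := FT.nil_of_pgroup Nat.prime_three (hQ.to_le JQ)
  by_cases hP : J ⊓ 𝒞₁ s ≤ ⁅J, J⁆
  · by_contra hn
    exact (nil.sol.der_lt (FT.ne_bot_of_mem hy fun e => hn (by simp [e]))).not_ge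
      (oJ.le_of_cyc (nJ xQ) (nD (nJ xQ)) x1 x2 hP)
  obtain ⟨g, hg, e⟩ := (FT.Cyc.mono cyc (inf_le_inf_right _ JQ)).exists_zpowers
  have e1 := (oJ.sub (FT.der_le J) (oJ.nV.trans nD)).le_of_cyc (nD (nJ xQ)) (nE (nJ xQ)) x1 x2
    fun y hy => by
      obtain ⟨i, rfl⟩ := mem_powers_iff_mem_zpowers.2 (e.ge ⟨FT.der_le J hy.1, hy.2⟩)
      by_cases h3 : 3 ∣ i
      · obtain ⟨j, rfl⟩ := h3
        simp only []
        rw [mul_comm, pow_mul]
        exact cube _ (pow_mem hg.1 j)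
      · obtain ⟨k, hk⟩ := isPGroup_iff_forall.1 hQ g (JQ hg.1)
        exact absurd (e.ge.trans (zpowers_le.2 (mem_of_pow_mem (Nat.Coprime.pow_right k
          ((Nat.Prime.coprime_iff_not_dvd Nat.prime_three).2 h3).symm) hy.1 (by simp [hk])))) hP
  have e2 : ⁅J, J⁆ = ⊥ := by_contra fun hn => (nil.comm_lt (FT.der_nrm J) hn).not_ge e1
  simpa [e2] using cube y hy

theorem comm_zp (h : a * b = b * a) (ha : a' ∈ zpowers a) (hb : b' ∈ zpowers b) :
    a' * b' = b' * a' := comm_zpowers (comm_zpowers h.symm ha).symm hb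

theorem zp_pow (h : a ^ r = 1) (ha : a' ∈ zpowers a) : a' ^ r = 1 := by
  obtain ⟨i, rfl⟩ := ha
  simp only []
  rw [← zpow_natCast, ← zpow_mul, mul_comm, zpow_mul, zpow_natCast, h, one_zpow]

theorem mem_zp3 (h : a ^ 3 = 1) (ha : a' ∈ zpowers a) : a' = 1 ∨ a' = a ∨ a' = a⁻¹ := by
  obtain ⟨i, rfl⟩ := ha
  have e : ∀ j : ℤ, a ^ (3 * j) = 1 := fun j => by rw [zpow_mul, zpow_ofNat, h, one_zpow]
  obtain ⟨j, rfl | rfl | rfl⟩ : ∃ j, i = 3 * j ∨ i = 3 * j + 1 ∨ i = 3 * j + -1 :=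
    ⟨(i + 1) / 3, by omega⟩ <;> simp [zpow_add, e]

theorem comm_zp3 (h : a ^ 3 = 1) (ha : a' ∈ zpowers a) (a1 : a' ≠ 1)
    (e : g * (a' * a') = a' * a' * g) : g * a = a * g := by
  have := comm_of_sq (odd_of_pow' (by decide) (zp_pow h ha)) e
  rcases (mem_zp3 h ha).resolve_left a1 with rfl | rfl
  · exact this
  · simpa using (Commute.inv_right (this : Commute g a⁻¹)).eq

theorem sq3 (h : a ^ 3 = 1) : a * a = a⁻¹ := by
  rw [eq_inv_iff_mul_eq_one, ← h, pow_succ, sq]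

/-- membership in `⟨a, b, c⟩` -/
def In3 (a b c y : G) : Prop :=
  ∃ a' ∈ zpowers a, ∃ b' ∈ zpowers b, ∃ c' ∈ zpowers c, y = a' * b' * c'

/-- transvections -/
def TV (c a b : G) : Prop := ∃ g, g * c * g⁻¹ = c * a ∧ g * a * g⁻¹ = a ∧ g * b * g⁻¹ = b

/-- elements centralized by an involution -/
def CI (y : G) : Prop := ∃ t, Iv t ∧ y * t = t * y

theorem CI.conj (h : CI y) (g : G) : CI (g * y * g⁻¹) :=
  let ⟨_, h1, h2⟩ := h; ⟨_, h1.conj g, conj_comm h2 g⟩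

theorem CI.inv (h : CI y) : CI y⁻¹ :=
  let ⟨t, h1, h2⟩ := h; ⟨t, h1, (Commute.inv_left (h2 : Commute y t)).eq⟩

theorem TV.conj (h : TV c a b) (x : G) : TV (x * c * x⁻¹) (x * a * x⁻¹) (x * b * x⁻¹) := by
  obtain ⟨g, h1, h2, h3⟩ := h
  have e : ∀ y, x * g * x⁻¹ * (x * y * x⁻¹) * (x * g * x⁻¹)⁻¹ = x * (g * y * g⁻¹) * x⁻¹ :=
    fun y => by group
  exact ⟨x * g * x⁻¹, by rw [e, h1]; group, by rw [e, h2], by rw [e, h3]⟩

/-- triangles -/
structure Tri (r : ℕ) (s w v a b c : G) : Prop where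
  kp : KP s w
  e : s * w = v
  ta : Ty r s w a
  tb : Ty r w v b
  tc : Ty r v s c
  ab : a * b = b * a
  bc : b * c = c * b
  ca : c * a = a * c

namespace Tri

variable (T : Tri r s w v a b c)
include T

theorem wv : w * v = s := by rw [← T.e, ← T.kp.comm, T.kp.symm.sl]

theorem rot : Tri r w v s b c a :=
  ⟨by simpa only [T.kp.comm, T.e] using T.kp.symm.mul, T.wv, T.tb, T.tc, T.ta, T.bc, T.ca, T.ab⟩

theorem swap : Tri r w s v b a c :=
  ⟨T.kp.symm, T.kp.comm.trans T.e, T.wv ▸ T.tb.mul, T.e ▸ T.ta.mul, T.rot.wv ▸ T.tc.mul, T.ab.symm,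
    T.ca.symm, T.bc.symm⟩

theorem in_swap (h : In3 a b c y) : In3 b a c y :=
  let ⟨_, ha, _, hb, _, hc, e⟩ := h; ⟨_, hb, _, ha, _, hc, by rw [e, comm_zp T.ab ha hb]⟩

theorem in_rot (h : In3 a b c y) : In3 b c a y :=
  let ⟨_, ha, _, hb, _, hc, e⟩ := h
  ⟨_, hb, _, hc, _, ha, by rw [e, comm_zp T.ab ha hb, mul_assoc, mul_assoc, comm_zp T.ca hc ha]⟩

theorem inv3 (ha : a' ∈ zpowers a) (hb : b' ∈ zpowers b) (hc : c' ∈ zpowers c) :
    (a' * b' * c')⁻¹ = a'⁻¹ * b'⁻¹ * c'⁻¹ := by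
  rw [comm_zp T.ab ha hb, mul_assoc, ← comm_zp T.ca hc ha, ← mul_assoc, comm_zp T.bc hb hc]
  group

theorem conj3 (ha : a' ∈ zpowers a) (hb : b' ∈ zpowers b) (hc : c' ∈ zpowers c) :
    s * (a' * b' * c') * s⁻¹ = a' * b'⁻¹ * c'⁻¹ := by
  rw [← inv_zpowers T.swap.ta.inv hb, ← inv_zpowers T.tc.inv hc, ← mul_assoc, ← mul_assoc,
    comm_zpowers T.ta.comm.symm ha]
  group

theorem ci_neg (ha : a' ∈ zpowers a) (hb : b' ∈ zpowers b) (hc : c' ∈ zpowers c)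
    (h : CI (a' * b' * c')) : CI (a'⁻¹ * b' * c') := by
  have := (h.conj s).inv
  rwa [T.conj3 ha hb hc, T.inv3 ha (inv_mem hb) (inv_mem hc), inv_inv, inv_inv] at this

end Tri

theorem Tri.nca (T : Tri 3 s w v a b c) : c ∉ zpowers a := fun h =>
  T.tc.ne (eq_one_of_inv (odd_of_pow' (by decide) T.tc.pow) (comm_zpowers T.ta.comm.symm h) T.tc.inv)

theorem Tri.ci_one (T : Tri 3 s w v a b c) (ha : a' ∈ zpowers a) (hb : b' ∈ zpowers b)
    (hc : c' ∈ zpowers c) (a1 : a' ≠ 1) (h : CI (a' * b' * c')) : CI (a * b' * c') := by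
  rcases (mem_zp3 T.ta.pow ha).resolve_left a1 with rfl | rfl
  · exact h
  · simpa using T.ci_neg ha hb hc h

theorem Tri.tv (T : Tri 3 s w v a b c) (og : Odd (orderOf g)) (ga : g * a = a * g)
    (gb : g * b = b * g) (gw : g * w = w * g) (hc : In3 a b c (g * c * g⁻¹)) (nt : ¬ TV c a b) :
    g * c = c * g := by
  obtain ⟨b', hb, a', ha, c', hc, e⟩ := T.in_swap hc
  have e1 := T.swap.conj3 hb ha hc
  rw [← e, show w * (g * c * g⁻¹) * w⁻¹ = w * g * c * (w * g)⁻¹ by group, ← gw,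
    show g * w * c * (g * w)⁻¹ = g * (w * c * w⁻¹) * g⁻¹ by group, T.swap.tc.inv, ← conj_inv, e,
    T.swap.inv3 hb ha hc, mul_left_inj, mul_left_inj] at e1
  rw [eq_one_of_odd (odd_of_pow' (by decide) (zp_pow T.tb.pow hb)) (mul_eq_one_iff_inv_eq.2 e1),
    one_mul] at e
  have ga' := comm_zpowers ga ha
  have ac := comm_zp T.ca (mem_zpowers c) ha
  rcases mem_zp3 T.tc.pow hc with rfl | rfl | rfl
  · rw [mul_one, mul_inv_eq_iff_eq_mul, ← ga', mul_left_cancel_iff] at e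
    exact absurd (e ▸ ha) T.nca
  · rcases mem_zp3 T.ta.pow ha with rfl | rfl | rfl
    · simpa [mul_inv_eq_iff_eq_mul] using e
    · exact absurd ⟨g, e.trans ac.symm, by rw [ga, mul_inv_cancel_right],
        by rw [gb, mul_inv_cancel_right]⟩ nt
    · refine absurd ⟨g⁻¹, ?_, by rw [inv_inv, mul_assoc, ← ga, inv_mul_cancel_left],
        by rw [inv_inv, mul_assoc, ← gb, inv_mul_cancel_left]⟩ nt
      calc _ = g⁻¹ * (a * (a⁻¹ * c')) * g := by group
        _ = g⁻¹ * (a * g) * c' := by rw [← e]; group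
        _ = _ := by rw [← ga, T.ca]; group
  · refine absurd ?_ T.nca
    rw [eq_inv_of_mul_eq_one_left (eq_one_of_odd_inverts (x := c * a') og (odd_of_pow' (r := 3)
      (by decide) (by rw [Commute.mul_pow ac, T.tc.pow, zp_pow T.ta.pow ha, one_mul])) ?_)]
    · exact inv_mem ha
    calc _ = g * c * g⁻¹ * (g * a' * g⁻¹) := by group
      _ = a' * (c⁻¹ * a') := by rw [e, ga']; group
      _ = _ := by
        rw [(Commute.inv_left (ac : Commute c a')).eq, ← mul_assoc, sq3 (zp_pow T.ta.pow ha),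
          mul_inv_rev]

end

namespace JG

variable {L : G → Subgroup G} {q p n m N r : ℕ} {s t u v w a b c g x y j : G} {T M : Subgroup G}
  (h : JG L q p n m)
include h
variable [Finite G]

theorem tp3 : TP n 3 := h.tp Nat.prime_three h.n3

theorem tv_false (oa : Odd (orderOf a)) (a1 : a ≠ 1) (ab : a * b = b * a) (ca : c * a = a * c)
    (h1 : TV a b c) (h2 : TV b c a) (h3 : TV c a b) : False := by
  obtain ⟨g, g1, g2, -⟩ := h1
  obtain ⟨f, f1, f2, f3⟩ := h2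
  obtain ⟨e, e1, e2, e3⟩ := h3
  have i : ∀ f y : G, f * y * f⁻¹ = y → f⁻¹ * y * f = y := fun f y e => by
    conv_lhs => rw [← e]
    group
  refine h.no_sl2 (f := f * e * f⁻¹ * e⁻¹) oa a1 ab g2 g1 ?_ ?_
  · calc _ = f * (e * (f⁻¹ * (e⁻¹ * a * e) * f) * e⁻¹) * f⁻¹ := by group
      _ = _ := by rw [i _ _ e2, i _ _ f3, e2, f3]
  · have f4 : f⁻¹ * b * f = b * c⁻¹ := by
      calc _ = f⁻¹ * (b * c) * f * (f⁻¹ * c * f)⁻¹ := by group
        _ = _ := by rw [← f1, i _ _ f2]; group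
    calc _ = f * (e * (f⁻¹ * (e⁻¹ * b * e) * f) * e⁻¹) * f⁻¹ := by group
      _ = f * (e * b * e⁻¹ * (e * c * e⁻¹)⁻¹) * f⁻¹ := by rw [i _ _ e3, f4]; group
      _ = f * b * f⁻¹ * (f * c * f⁻¹ * (f * a * f⁻¹))⁻¹ := by rw [e3, e1]; group
      _ = _ := by rw [f1, f2, f3, ca]; group

theorem ci_conj (hr : TP n r) (hs : Iv s) (ha : a ^ r = 1) (a1 : a ≠ 1) (hc : a * s = s * a)
    (hy : y ^ r = 1) (ci : CI y) : ∃ g, g * y * g⁻¹ ∈ zpowers a := by
  obtain ⟨t, ht, e⟩ := ci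
  obtain ⟨g, rfl⟩ := h.one t s ht hs
  obtain ⟨T, u, tt, hT⟩ := h.exists_tor hs (hr.pow ha) hc
  have e1 := conj_pow_one hy g
  obtain ⟨z, -, e2⟩ := tt.cnj _ (h.odd_mem hs (conj_comm e g) (odd_of_pow hr.1 hr.2.1 e1)) (hr.pow e1)
  exact ⟨z * g, by simpa [mul_assoc] using tt.mem_zp hr.1 hT e2 a1 ha (conj_pow_one e1 z)⟩

theorem nt3 : NT G 3 := by
  intro s w a x k ha x3 x1 x2 ab
  have : Fact (Nat.Prime 3) := ⟨Nat.prime_three⟩
  have hr := h.tp3
  have x0 := cyc_last k x1 x2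
  obtain ⟨b, xa⟩ : ∃ b, x * a * x⁻¹ = b := ⟨_, rfl⟩
  obtain ⟨c, xb⟩ : ∃ c, x * b * x⁻¹ = c := ⟨_, rfl⟩
  have xc : x * c * x⁻¹ = a := by
    calc _ = x ^ 3 * a * (x ^ 3)⁻¹ := by rw [← xb, ← xa]; simp [pow_succ, mul_assoc]
      _ = a := by simp [x3]
  rw [xa] at ab
  have tb : Ty 3 w (s * w) b := by simpa only [x1, x2, xa] using ha.conj x
  have T : Tri 3 s w (s * w) a b c := ⟨k, rfl, ha, tb, by simpa only [x2, x0, xb] using tb.conj x, ab,
    by simpa only [xa, xb] using conj_comm ab x,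
    by simpa only [xa, xb, xc] using conj_comm (conj_comm ab x) x⟩
  have od : ∀ {y : G}, y ^ 3 = 1 → Odd (orderOf y) := odd_of_pow' (by decide)
  have F1 : ¬ TV c a b := fun e => h.tv_false (od ha.pow) ha.ne ab T.ca
    (by simpa only [xa, xb, xc] using e.conj x) (by simpa only [xa, xb, xc] using (e.conj x).conj x) e
  have F2 : ¬ TV b a c := fun e => h.tv_false (od ha.pow) ha.ne T.ca.symm ab.symm
    (by simpa only [xa, xb, xc] using (e.conj x).conj x) (by simpa only [xa, xb, xc] using e.conj x) e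
  have F3 : ¬ TV b c a := fun e => F1 (by simpa only [xa, xb, xc] using e.conj x)
  have F4 : ¬ TV c b a := fun e => F2 (by simpa only [xa, xb, xc] using (e.conj x).conj x)
  obtain ⟨D, u, tD, sd, aD⟩ := h.exists_sd k (hr.pow ha.pow) ha.ne ha.comm ha.inv
  obtain ⟨M, o⟩ := h.sd_oc sd aD ha.ne
  set Z := 𝒞₁ a ⊓ 𝒞₁ b ⊓ 𝒞₁ c with hZ
  have ZM : Z ≤ M := fun g hg => o.mem g (mem_c1.1 hg.1.1) (by
    obtain ⟨i, hi, e⟩ := h.exists_odd g
    by_cases e1 : g ^ i = 1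
    · exact odd_of_pow' hi e1
    have hg' := pow_mem hg i
    exact absurd (h.C2 hr ⟨e, e1⟩ tb.pow tb.ne (mem_c1.1 hg'.1.2).symm ab (mem_c1.1 hg'.1.1).symm
      ha.pow) T.rot.nca)
  have n1 : ∀ {s w v a b c : G}, Tri 3 s w v a b c → V4 s w ≤ 𝒩 (𝒞₁ a) := fun T =>
    closure_pair_le (mem_norm_c1 (conj_mem_zp_of_comm T.ta.comm))
      (mem_norm_c1 (conj_mem_zp_of_inv T.ta.inv))
  have nZ : V4 s w ≤ 𝒩 Z := le_normalizer_inf (le_normalizer_inf (n1 T) (V_symm s w ▸ n1 T.swap))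
    (by rw [← V_mul k, ← V_symm]; exact n1 T.rot.rot)
  have xZ : x ∈ 𝒩 Z := mem_normalizer_of_forall fun y hy =>
    ⟨⟨mem_c1.2 (xc ▸ conj_comm (mem_c1.1 hy.2) x), mem_c1.2 (xa ▸ conj_comm (mem_c1.1 hy.1.1) x)⟩,
      mem_c1.2 (xb ▸ conj_comm (mem_c1.1 hy.1.2) x)⟩
  have oZ := o.toOW.sub ZM nZ
  obtain ⟨Q, hQ, nQ⟩ := oZ.ca.exists_syl Nat.prime_three
  have xQ : x ∈ 𝒩 Q := by
    obtain ⟨c, hc, e⟩ := oZ.ca.syl_conj Nat.prime_three hQ (hQ.cj_of_mem xZ) nQ fun v hv => by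
      rw [← cj_normalizer, mem_cj]; exact nQ (cyc_V k x1 x2 v hv)
    rw [oZ.fix c hc.1 (hc.2 s (V_left s w)).symm (hc.2 w (V_right s w)).symm, cj_one] at e
    exact cj_eq_iff.1 e.symm
  have oQ := oZ.sub hQ.le nQ
  have om : ∀ y ∈ Q, y ^ 3 = 1 → In3 a b c y := fun y hy y3 => by
    have cyc := tD.cyc
    have cb := fun y => oQ.om_cube (y := y) hQ.isPGroup xQ x1 x2 (Subgroup.isCyclic_of_le
      (H' := D) fun y hy => o.cT y (ZM (hQ.le hy.1)) (mem_c1.1 hy.2))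
    have JZ := (FT.Om_le 3 Q).trans hQ.le
    obtain ⟨a', ha', c', hc', b', hb', e1, e2, e3, rfl⟩ := (oQ.sub (FT.Om_le 3 Q)
      (nQ.trans (FT.norm_le_norm_Om 3 Q))).fac (FT.mem_Om hy y3)
    refine ⟨a', h.C2 hr k.iv ha.pow ha.ne ha.comm (mem_c1.1 (JZ ha').1.1) e1 (cb _ ha'), b',
      h.C2 hr k.symm.iv tb.pow tb.ne tb.comm (mem_c1.1 (JZ hb').1.2) e3 (cb _ hb'), c',
      h.C2 hr k.mul.symm.iv T.tc.pow T.tc.ne T.tc.comm (mem_c1.1 (JZ hc').2) e2 (cb _ hc'), ?_⟩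
    rw [mul_assoc, mul_assoc, comm_zpowers (mem_c1.1 (JZ hc').1.2) (h.C2 hr k.symm.iv tb.pow tb.ne
      tb.comm (mem_c1.1 (JZ hb').1.2) e3 (cb _ hb'))]
  have mQ : ∀ y ∈ Z, y ^ 3 = 1 → Z ≤ 𝒞₁ y → y ∈ Q := fun y hy y3 e =>
    hQ.mem_of_mem_normalizer hy ⟨1, by simpa⟩ (centralizer_le_normalizer _ fun g hg =>
      mem_c1.1 (e (hQ.le hg)))
  have bZ : b ∈ Z := ⟨⟨mem_c1.2 ab.symm, mem_c1.2 rfl⟩, mem_c1.2 T.bc⟩
  have bQ := mQ b bZ tb.pow fun _ e => e.1.2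
  have cQ := mQ c ⟨⟨mem_c1.2 T.ca, mem_c1.2 T.bc.symm⟩, mem_c1.2 rfl⟩ T.tc.pow fun _ e => e.2
  have aQ := mQ a ⟨⟨mem_c1.2 rfl, mem_c1.2 ab⟩, mem_c1.2 T.ca.symm⟩ ha.pow fun _ e => e.1.1
  obtain ⟨S, hS, nS, QS⟩ := o.ca.exists_syl_ge Nat.prime_three hQ.isPGroup (hQ.le.trans ZM) nQ
  obtain rfl : Q = S := by
    by_contra hn
    obtain ⟨g, hg, g1, g2⟩ := exists_mem_normalizer_not_mem hS.isPGroup QS hn
    have key : ∀ g ∈ S ⊓ 𝒩 Q, (g * s = s * g ∨ g * (s * w) = s * w * g ∨ g * w = w * g) → g ∈ Q :=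
      fun g hg e => by
        have gM := hS.le hg.1
        have ga := mem_c1.1 (o.le gM)
        have og := o.od gM
        have ib := om _ (conj_mem_of_mem_normalizer hg.2 bQ) (conj_pow_one tb.pow g)
        have ic := om _ (conj_mem_of_mem_normalizer hg.2 cQ) (conj_pow_one T.tc.pow g)
        suffices g * b = b * g ∧ g * c = c * g from hQ.mem_of_mem_normalizer
          ⟨⟨mem_c1.2 ga, mem_c1.2 this.1⟩, mem_c1.2 this.2⟩
          (isPGroup_iff_forall.1 hS.isPGroup g hg.1) hg.2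
        rcases e with e | e | e
        · have mE : ∀ y, s * y * s⁻¹ = y⁻¹ → In3 a b c (g * y * g⁻¹) →
              g * y * g⁻¹ ∈ zpowers b ⊔ zpowers c := by
            rintro y iy ⟨a', ha', b', hb', c', hc', e1⟩
            have e2 := T.conj3 ha' hb' hc'
            rw [← e1, show s * (g * y * g⁻¹) * s⁻¹ = s * g * y * (s * g)⁻¹ by group, ← e,
              show g * s * y * (g * s)⁻¹ = g * (s * y * s⁻¹) * g⁻¹ by group, iy, ← conj_inv, e1,
              T.inv3 ha' hb' hc', mul_left_inj, mul_left_inj] at e2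
            rw [e1, eq_one_of_odd (od (zp_pow ha.pow ha')) (mul_eq_one_iff_inv_eq.2 e2), one_mul]
            exact mul_mem (mem_sup_left hb') (mem_sup_right hc')
          obtain ⟨d, hd, d1⟩ := FT.exists_ne_one (FT.inf_cent_ne_bot_of_pgroup Nat.prime_three
            (hS.isPGroup.to_le (zpowers_le.2 hg.1)) (N := zpowers b ⊔ zpowers c)
            (hQ.isPGroup.to_le (sup_le (zpowers_le.2 bQ) (zpowers_le.2 cQ))) (zpowers_le.2
              (FT.mem_norm_of_cj_le (by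
                rw [cj_sup, FT.cj_zpowers', FT.cj_zpowers']
                exact sup_le (zpowers_le.2 (mE b T.swap.ta.inv ib)) (zpowers_le.2 (mE c T.tc.inv ic)))))
            (FT.ne_bot_of_mem (mem_sup_left (mem_zpowers b)) tb.ne))
          obtain ⟨b', hb', c', hc', rfl⟩ := (mem_sup_of_le_normalizer_left (zpowers_le.2
            (mem_norm_zp (conj_mem_zp_of_comm T.bc)))).1 hd.1
          have d2 : Commute g (b' * c') := hd.2 g (mem_zpowers g)
          have d3 : Commute g (b' * c'⁻¹) := by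
            have := conj_comm d2.eq w
            rw [o.inv gM e, show w * (b' * c') * w⁻¹ = w * b' * w⁻¹ * (w * c' * w⁻¹) by group,
              inv_zpowers T.swap.tc.inv hc', comm_zpowers tb.comm.symm hb', mul_inv_cancel_right] at this
            simpa using Commute.inv_left (this : Commute _ _)
          have bc := comm_zp T.bc hb' hc'
          by_cases b1 : b' = 1
          · rw [b1, one_mul] at d1 d2
            have gc := comm_zp3 T.tc.pow hc' d1 (d2.mul_right d2)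
            exact ⟨T.rot.rot.tv og gc ga e (T.rot.in_rot (T.in_rot ib)) F3, gc⟩
          · have gb := comm_zp3 tb.pow hb' b1 (g := g) (by
              have := d2.mul_right d3
              rwa [bc, mul_assoc, ← mul_assoc b', ← mul_assoc, ← (Commute.mul_left bc bc).eq,
                mul_inv_cancel_right] at this)
            exact ⟨gb, T.swap.tv og gb ga e (T.in_swap ic) F4⟩
        · have gc := o.mul.symm.ab gM e (ZM (hQ.le cQ)) T.tc.comm
          exact ⟨T.rot.rot.swap.tv og ga gc e (T.rot.rot.in_swap (T.rot.in_rot (T.in_rot ib))) F2, gc⟩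
        · have gb := o.symm.ab gM e (ZM bZ) tb.comm
          exact ⟨gb, T.tv og ga gb e ic F1⟩
    obtain ⟨c, hc, y, hy, z, hz, c1, y1, z1, rfl⟩ := (o.toOW.sub (inf_le_left.trans hS.le)
      (le_normalizer_inf nS (le_normalizer_normalizer nQ))).fac ⟨hg, g1⟩
    exact g2 (mul_mem (mul_mem (key c hc (Or.inl c1)) (key y hy (Or.inr (Or.inl y1))))
      (key z hz (Or.inr (Or.inr z1))))
  have z3 : (a * b * c) ^ 3 = 1 := by
    rw [Commute.mul_pow (comm_mul T.ca T.bc.symm).symm, Commute.mul_pow ab, ha.pow, tb.pow,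
      T.tc.pow, one_mul, one_mul]
  have ca : ∀ {g y z : G}, g * y * g⁻¹ ∈ zpowers a → y ≠ 1 → z * y = y * z → Odd (orderOf z) →
      g * z * g⁻¹ ∈ M := fun e y1 e1 oz => o.mem _ (comm_zp3 ha.pow e (by simpa)
        (comm_mul (conj_comm e1 _) (conj_comm e1 _))) (by rwa [orderOf_conj'])
  have xz : x * (a * b * c) = a * b * c * x := by
    rw [← mul_inv_eq_iff_eq_mul, show x * (a * b * c) * x⁻¹ =
      x * a * x⁻¹ * (x * b * x⁻¹) * (x * c * x⁻¹) by group, xa, xb, xc, mul_assoc, T.ca, ← mul_assoc,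
      ← ab]
  have nz : ¬ CI (a * b * c) := fun ci => by
    obtain ⟨g, e⟩ := h.ci_conj hr k.iv ha.pow ha.ne ha.comm z3 ci
    have pQ := FT.pgroup_sup (zpowers_le.2 xQ) hQ.isPGroup (isPGroup_zpowers (k := 1) (by simpa))
    have c1 := hS.card_le (isPGroup_cj pQ g) (by
      rintro _ ⟨y, hy, rfl⟩
      refine ca e (fun e => ha.ne ?_) (mem_c1.1 (sup_le (fun y hy => mem_c1.2 (comm_mul (comm_mul
        (mem_c1.1 (hQ.le hy).1.1) (mem_c1.1 (hQ.le hy).1.2)) (mem_c1.1 (hQ.le hy).2)))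
        (zpowers_le.2 (mem_c1.2 xz)) hy)) (odd_of_pow' (by decide : Odd 3).pow
          (isPGroup_iff_forall.1 pQ y hy).choose_spec)
      have := T.conj3 (mem_zpowers a) (mem_zpowers b) (mem_zpowers c)
      rw [e, mul_one, mul_inv_cancel, ← inv_one, ← e, T.inv3 (mem_zpowers a) (mem_zpowers b)
        (mem_zpowers c), mul_left_inj, mul_left_inj] at this
      exact eq_one_of_odd (od ha.pow) (mul_eq_one_iff_inv_eq.2 this))
    rw [card_cj] at c1
    have := mem_c1.1 (hQ.le ((eq_of_le_of_card_ge le_sup_left c1).ge (mem_sup_right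
      (mem_zpowers x)))).1.1
    rw [this, mul_inv_cancel_right] at xa
    exact T.rot.nca (xa ▸ mem_zpowers a)
  obtain ⟨u, hu, -, -, xu⟩ := h.fix_u k x3 x1 x2
  obtain ⟨g, e⟩ := h.ci_conj hr k.iv ha.pow ha.ne ha.comm x3 ⟨u, hu, xu⟩
  have x1' : x ≠ 1 := by rintro rfl; exact k.ne (by simpa using x1.symm)
  obtain ⟨f, hf, e1⟩ := hS.exists_conj_mem (ca e x1' xz.symm (od z3))
    ⟨1, by simpa using conj_pow_one z3 g⟩
  obtain ⟨a', ha', b', hb', c', hc', e2⟩ := om _ e1 (conj_pow_one (conj_pow_one z3 g) f)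
  have cf : ∀ y, CI y → ∀ z, y = z * x → CI (f * (g * z * g⁻¹) * f⁻¹ * (g * x * g⁻¹)) := by
    rintro _ ci z rfl
    have := (ci.conj g).conj f
    rwa [show f * (g * (z * x) * g⁻¹) * f⁻¹ = f * (g * z * g⁻¹) * f⁻¹ * (f * (g * x * g⁻¹) * f⁻¹) by
      group, comm_zpowers (mem_c1.1 (o.le hf)) e, mul_inv_cancel_right] at this
  have xd : b * c * c * x * (b * c * c)⁻¹ = a * b * c * x := by
    calc _ = b * c * c * (x * b * x⁻¹ * (x * c * x⁻¹) * (x * c * x⁻¹))⁻¹ * x := by group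
      _ = b * c * (c * (a * a)⁻¹) * c⁻¹ * x := by rw [xb, xc]; group
      _ = _ := by rw [sq3 ha.pow, inv_inv, T.ca, mul_assoc b, ← mul_assoc c, T.ca, ab]; group
  have c1 := cf _ (CI.conj ⟨u, hu, xu⟩ (b * c * c)) _ xd
  have c2 := cf _ (CI.conj ⟨u, hu, xu⟩ (b * c * c)⁻¹) (a * b * c)⁻¹ (by
    have hZ := hQ.le (mul_mem (mul_mem bQ cQ) cQ)
    have := comm_mul (comm_mul (mem_c1.1 hZ.1.1) (mem_c1.1 hZ.1.2)) (mem_c1.1 hZ.2)
    generalize b * c * c = y at xd this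
    generalize a * b * c = z at xd this
    calc _ = z⁻¹ * (y⁻¹ * (y * z)) * y⁻¹ * x * y := by group
      _ = z⁻¹ * y⁻¹ * (z * x) * y := by rw [this]; group
      _ = _ := by rw [← xd]; group)
  rw [← conj_inv, ← conj_inv, e2, T.inv3 ha' hb' hc'] at c2
  rw [e2] at c1
  have c3 : ¬ CI (a' * b' * c') := fun ci => nz (by
    rw [← e2] at ci
    simpa [mul_assoc] using (ci.conj f⁻¹).conj g⁻¹)
  have d1 : g * x * g⁻¹ ≠ 1 := by simpa
  generalize g * x * g⁻¹ = d at e c1 c2 d1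
  have mv : ∀ a' b' c', b' ∈ zpowers b → c' ∈ zpowers c → a' * b' * c' * d = a' * d * b' * c' :=
    fun a' b' c' hb hc => by
      rw [mul_assoc, comm_zp T.ca hc e, ← mul_assoc, mul_assoc a', ← comm_zp ab e hb, ← mul_assoc]
  rw [mv _ _ _ hb' hc'] at c1
  rw [mv _ _ _ (inv_mem hb') (inv_mem hc')] at c2
  have d3 := zp_pow ha.pow e
  have : Fact (orderOf a).Prime := ⟨orderOf_eq_prime ha.pow ha.ne ▸ Nat.prime_three⟩
  rcases mem_zp3 d3 (show a' ∈ zpowers d from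
    (FT.eq_zpowers_of_prime (by rw [Nat.card_zpowers]; exact this.out) e d1).ge ha') with
    rfl | rfl | rfl
  · rw [one_mul] at c1 c3
    by_cases b1 : b' = 1
    · exact c3 ⟨_, k.mul.symm.iv, by rw [b1, one_mul, comm_zpowers T.tc.comm.symm hc']⟩
    by_cases c0 : c' = 1
    · exact c3 ⟨_, k.symm.iv, by rw [c0, mul_one, comm_zpowers tb.comm.symm hb']⟩
    have r : ∀ {s w v a b c a' b' c' : G}, Tri 3 s w v a b c → a' ∈ zpowers a → b' ∈ zpowers b →
        c' ∈ zpowers c → a' ≠ 1 → CI (a' * b' * c') → CI (b' * c' * a) := by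
      intro s w v a b c a' b' c' T ha hb hc a1 ci
      simpa [mul_assoc] using (T.ci_one ha hb hc a1 ci).conj a⁻¹
    exact nz (r T.rot.rot hc' (mem_zpowers a) (mem_zpowers b) c0
      (r T.rot hb' hc' (mem_zpowers a) b1 (r T e hb' hc' d1 c1)))
  · rw [sq3 d3] at c1
    exact c3 (by simpa using T.ci_neg (inv_mem e) hb' hc' c1)
  · rw [inv_inv, sq3 d3, ← T.inv3 e hb' hc'] at c2
    exact c3 (T.ci_neg e hb' hc' (by simpa using c2.inv))

end JG

end Cfsg.GJ
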