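import Cfsg.Agent.GS.J6

/-! The Sylow `p`-subgroups of the groups `L t`. -/

set_option autoImplicit false
set_option linter.unusedSectionVars false

namespace Cfsg.GJ

open Subgroup Cfsg.L0 Cfsg.H8

local notation "𝒩" X:max => Subgroup.normalizer (SetLike.coe X)
local notation "𝒞" X:max => Subgroup.centralizer (SetLike.coe X)
local notation "𝒞₁" x:max => Subgroup.centralizer (singleton x : Set _)

variable {G : Type*} [Group G]

theorem card_dvd_of_free [Finite G] {A : Subgroup G} {Y : Set G}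
    (hY : ∀ a ∈ A, ∀ y ∈ Y, a * y * a⁻¹ ∈ Y) (hf : ∀ a ∈ A, ∀ y ∈ Y, a * y = y * a → a = 1) :
    Nat.card A ∣ Y.ncard := by
  have : Finite (ConjAct G) := ‹Finite G›
  rw [← card_map_of_injective (f := (ConjAct.toConjAct (G := G)).toMonoidHom)
    ConjAct.toConjAct.injective]
  refine H3.card_dvd_ncard_of_free _ Y ?_ ?_
  · rintro _ ⟨a, ha, rfl⟩ y hy
    exact hY a ha y hy
  · rintro _ ⟨a, ha, rfl⟩ y hy e
    rw [hf a ha y hy (mul_inv_eq_iff_eq_mul.1 e), map_one]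

theorem cj_V (g s w : G) : cj g (V4 s w) = V4 (g * s * g⁻¹) (g * w * g⁻¹) := by
  rw [V4, V4, cj, MonoidHom.map_closure, Set.image_pair]; rfl

/-- a Borel subgroup of `L t` whose torus contains an involution of `V` -/
structure PB (L : G → Subgroup G) (q p m : ℕ) (V : Subgroup G) (t : G) (P D : Subgroup G) (w : G) :
    Prop where
  bt : BT (L t) P D w q p m
  ex : ∃ s ∈ D, KP t s ∧ V4 t s = V

theorem PB.iv {L : G → Subgroup G} {q p m : ℕ} {V P D : Subgroup G} {t w : G}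
    (b : PB L q p m V t P D w) : Iv t := b.ex.choose_spec.2.1.iv

namespace JG

variable {L : G → Subgroup G} {q p n m N r : ℕ} {s t u v w w' a b c d g x y j : G}
  {T M V P D P' D' A : Subgroup G} (h : JG L q p n m)
include h
variable [Finite G]

theorem pb_conj (b : PB L q p m V t P D w) (g : G) :
    PB L q p m (cj g V) (g * t * g⁻¹) (cj g P) (cj g D) (g * w * g⁻¹) := by
  obtain ⟨s, hs, k, rfl⟩ := b.ex
  exact ⟨h.cnj t k.iv g ▸ b.bt.conj g, _, conj_mem_cj hs, k.conj g, (cj_V g t s).symm⟩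

theorem P_odd (b : PB L q p m V t P D w) (hx : x ∈ P) : Odd (orderOf x) :=
  odd_of_pow' h.num.op (b.bt.pw x hx)

theorem pb_t (b : PB L q p m V t P D w) (hx : x ∈ L t) : x * t = t * x := (h.comm t b.iv x hx).symm

theorem pb_cent (b : PB L q p m V t P D w) (hx : x ∈ P) (x1 : x ≠ 1) (og : Odd (orderOf g))
    (g1 : g * t = t * g) (g2 : g * x = x * g) : g ∈ P :=
  b.bt.bor.centP (h.odd_mem b.iv g1 og) hx x1 g2

theorem pb_V (b : PB L q p m V t P D w) (hd : d ∈ D) (hv : v ∈ V) :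
    d * v = v * d ∧ w * v = v * w := by
  obtain ⟨s, hs, k, rfl⟩ := b.ex
  exact ⟨comm_V (h.pb_t b (b.bt.tor.le hd)) (b.bt.tor.ab hd hs) hv, comm_V (h.pb_t b b.bt.tor.uK)
    (mul_inv_eq_iff_eq_mul.1 (by rw [b.bt.tor.inv' hs, inv_self_of k.ww])) hv⟩

theorem pb_R (b : PB L q p m V t P D w) (ha : a ∈ RR m V) : a ∈ D := by
  obtain ⟨s, hs, k, rfl⟩ := b.ex
  have o := h.R_odd k ha
  refine (b.bt.tor.nrm' (h.odd_mem k.iv (h.R_V k ha (V_left t s)) o) hs k.w1 (by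
    rwa [h.R_V k ha (V_right t s), mul_inv_cancel_right])).elim id fun e => ?_
  rw [eq_one_of_odd o (b.bt.tor.sq_of e)]; exact one_mem _

theorem pb_D (b : PB L q p m V t P D w) (hg : ∀ v ∈ V, g * v = v * g) (hx : x ∈ P) (x1 : x ≠ 1)
    (e : g * x * g⁻¹ ∈ P) : g ∈ D ∨ t * g ∈ D := by
  obtain ⟨s, hs, k, rfl⟩ := b.ex
  have key : ∀ c ∈ L t, c * s = s * c → c * x * c⁻¹ ∈ P → c ∈ D := fun c hc c1 c2 =>
    b.bt.bor.memD_of (inv_mem_iff.1 (b.bt.bor.conjP (inv_mem hc) hx x1 (mem_sup_left (by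
      rwa [inv_inv])))) hs k.w1 (by rwa [mul_assoc, ← c1, inv_mul_cancel_left])
  refine (h.cent t k.iv g (hg t (V_left t s))).imp (fun e1 => key g e1 (hg s (V_right t s)) e)
    fun e1 => key _ e1 (comm_mul k.comm (hg s (V_right t s)).symm).symm ?_
  rwa [show t * g * x * (t * g)⁻¹ = t * (g * x * g⁻¹) * t⁻¹ by group,
    ← h.pb_t b (b.bt.bor.PK e), mul_inv_cancel_right]

theorem pb_nV (b : PB L q p m V t P D w) : V ≤ 𝒩 P := by
  obtain ⟨s, hs, k, rfl⟩ := b.ex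
  exact closure_pair_le (mem_normalizer_of_forall fun x hx => by
    rwa [← h.pb_t b (b.bt.bor.PK hx), mul_inv_cancel_right]) (b.bt.bor.DN hs)

theorem pb_nR (b : PB L q p m V t P D w) : RR m V ≤ 𝒩 P := fun _ ha => b.bt.bor.DN (h.pb_R b ha)

theorem pb_irr (b : PB L q p m V t P D w) (hA : A ≤ P) (n1 : V ≤ 𝒩 A) (n2 : RR m V ≤ 𝒩 A)
    (ha : a ∈ A) (a1 : a ≠ 1) : A = P := by
  have nD : ∀ d ∈ D, d ∈ 𝒩 A := fun d hd => by
    obtain ⟨s, hs, k, rfl⟩ := b.ex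
    obtain ⟨c, hc, c1⟩ := h.exists_R k
    obtain ⟨v, hv, e, he, rfl⟩ := h.cRa k hc c1 (V_left t s) k.s1 (b.bt.tor.ab hd (h.pb_R b hc))
      (h.pb_V b hd (V_left t s)).1
    exact mul_mem (n1 hv) (n2 he)
  have c1 := card_dvd_of_free (A := D) (Y := (A : Set G) \ {1})
    (fun d hd y hy => ⟨conj_mem_of_mem_normalizer (nD d hd) hy.1, by simpa using hy.2⟩)
    fun d hd y hy e => (b.bt.bor.fpf d hd y (hA hy.1) e).resolve_right hy.2
  rw [Set.ncard_sdiff_singleton_of_mem (one_mem _), ← card_ncard, b.bt.tor.card] at c1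
  have c2 := card_dvd_of_le hA
  have c3 := (one_lt_card_iff_ne_bot A).2 (FT.ne_bot_of_mem ha a1)
  refine eq_of_le_of_card_ge hA ?_
  rw [b.bt.bor.cP] at c2 ⊢
  have e1 := h.eps
  have e2 := h.num.rel
  have e3 := h.num.n5
  obtain ⟨i, hi⟩ := c1
  have c4 := Nat.le_of_dvd (by omega) c2
  rcases i with _ | _ | i
  · omega
  · rw [show Nat.card A = n by omega] at c2
    have := h.num.qn.symm.eq_one_of_dvd c2
    omega
  · have : Nat.card A - 1 = 2 * m * i + 4 * m := by rw [hi]; ring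
    omega

theorem pb_two (b : PB L q p m V t P D w) (b' : PB L q p m V t P' D' w') : P' = P ∨ P' = cj w P := by
  obtain ⟨s, hs, k, rfl⟩ := b.ex
  have sN := h.pb_nV b' (V_right t s)
  obtain ⟨x, hx, x1⟩ := b'.bt.bor.exists_ne
  obtain ⟨y, hy, e⟩ := b.bt.cnj x (b'.bt.bor.PK hx) (b'.bt.pw x hx)
  have e1 : cj y P' = P := eq_of_le_of_card_ge (by
    rintro _ ⟨z, hz, rfl⟩
    exact b.bt.bor.centP (mul_mem (mul_mem hy (b'.bt.bor.PK hz)) (inv_mem hy)) e (by simpa)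
      (conj_comm (b'.bt.bor.ab z hz x hx) y)) (by rw [card_cj, b.bt.bor.cP, b'.bt.bor.cP])
  have e2 := b.bt.bor.conjP (mul_mem (mul_mem hy (b.bt.bor.DK hs)) (inv_mem hy)) e (by simpa)
    (mem_sup_left (by
      rw [← e1, mem_cj]
      simpa [mul_assoc] using conj_mem_of_mem_normalizer' sN hx))
  rw [← cj_inv_cj y P', e1]
  refine (b.bt.bor.conjD (inv_mem hy) hs k.w1 (by rwa [inv_inv])).imp
    (fun e => cj_eq_iff.2 (b.bt.bor.BN e)) fun e => ?_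
  rw [← b.bt.bor.wl y⁻¹, cj_mul, cj_eq_iff.2 (b.bt.bor.BN e)]

theorem exists_pb (k : KP t s) (ha : Ty p t s a) : ∃ P D w, PB L q p m (V4 t s) t P D w ∧ a ∈ P := by
  have key : ∀ s, KP t s → Ty p t s a → s ∈ L t →
      ∃ P D w, PB L q p m (V4 t s) t P D w ∧ a ∈ P := fun s k ha sL => by
    obtain ⟨P, D, w, b⟩ := (h.ls t k.iv).bt h.eps
    obtain ⟨y, hy, e⟩ := b.cnj a (h.odd_mem k.iv ha.comm (odd_of_pow' h.num.op ha.pow)) ha.pow
    have b := b.conj y⁻¹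
    rw [cj_eq_of_mem (inv_mem hy)] at b
    have aP : a ∈ cj y⁻¹ P := mem_cj.2 (by simpa)
    generalize cj y⁻¹ P = P at b aP
    generalize cj y⁻¹ D = D at b
    generalize y⁻¹ * w * y⁻¹⁻¹ = w at b
    obtain ⟨x, hx, d, hd, e⟩ := b.bor.memB.1 (inv_mem_iff.1 (b.bor.conjP (inv_mem sL) aP ha.ne
      (mem_sup_left (by rw [inv_inv, ha.inv]; exact inv_mem aP))))
    obtain ⟨z, hz, e1⟩ := b.bor.conj_xd hx hd (by
      rintro rfl
      rw [mul_one] at e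
      exact k.w1 (eq_one_of_odd (odd_of_pow' h.num.op (b.pw s (e ▸ hx))) k.ww))
    have b' := b.conj z
    rw [cj_eq_of_mem (b.bor.PK hz), cj_eq_of_mem hz] at b'
    exact ⟨P, _, _, ⟨b', s, e ▸ e1 ▸ conj_mem_cj hd, k, rfl⟩, aP⟩
  rcases h.cent t k.iv s k.comm with e | e
  exacts [key s k ha e, V_mul k ▸ key _ k.mul ha.mul e]

theorem pb_sd (b : PB L q p m V t P D w) (k : KP t s) (e : V4 t s = V) : SD L m t s P q := by
  obtain ⟨s', hs, k', rfl⟩ := b.ex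
  have iv : ∀ x ∈ P, s' * x * s'⁻¹ = x⁻¹ := inverts_of_fpf (b.bt.bor.DN hs) (by simp [k'.ww])
    fun x hx e => (b.bt.bor.fpf s' hs x hx e).resolve_left k'.w1
  have c : SC L m t s' P q := ⟨k', b.bt.bor.DK hs, b.bt.bor.PK, b.bt.bor.cP, h.num.oq, iv,
    fun _ he e1 _ hg => b.bt.bor.centP hg he e1, fun x hx x1 j hj j2 e => b.bt.bor.centP
      (mul_mem (b.bt.bor.DK hs) hj) hx x1 (mul_inv_eq_iff_eq_mul.1 (by
        rw [show s' * j * x * (s' * j)⁻¹ = s' * (j * x * j⁻¹) * s'⁻¹ by group, e,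
          inverts_inv (iv x hx)])),
    Or.inr (Or.inr ⟨h.eps.symm, fun e => h.num.p3 (h.num.eq_p Nat.prime_three e).symm⟩),
    h.num.qm.coprime_mul_left_right⟩
  rcases (memV k).1 (e ▸ V_right t s') with rfl | rfl | rfl | rfl
  exacts [absurd rfl k'.w1, absurd rfl k'.ne, Or.inl c, Or.inr c]

theorem ord3 (hs : Iv s) (oa : Odd (orderOf a)) (e : a * s = s * a) :
    a ^ p = 1 ∨ a ^ n = 1 ∨ a ^ m = 1 :=
  ((h.ls s hs).ord a (h.odd_mem hs e oa)).imp_right (Or.imp_right fun e => eq_one_of_odd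
    (oa.of_dvd_nat (orderOf_pow_dvd m)) (by rw [← pow_add, ← two_mul, e]))

/-- an invariant subgroup centralizing an element of `P` -/
theorem comp (b : PB L q p m V t P D w) (k : KP t s) (e : V4 t s = V) (o : OW t s M)
    (nR : RR m V ≤ 𝒩 M) (hx : x ∈ P) (x1 : x ≠ 1) (hM : M ≤ 𝒞₁ x) (ha : a ∈ M) (a1 : a ≠ 1)
    (as : a * s = s * a) : ∃ P' D' w', PB L q p m V s P' D' w' ∧ P' ≤ M := by
  subst e
  have nR' : RR m (V4 t s) ≤ 𝒩 (M ⊓ 𝒞₁ s) := le_normalizer_inf nR fun c hc =>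
    le_normalizer (mem_c1.2 (h.R_V k hc (V_right t s)))
  rcases h.ord3 k.symm.iv (o.od ha) as with e | e | e
  · obtain ⟨P', D', w', b', aP⟩ := h.exists_pb k.symm (o.symm.ty ha as a1 e)
    rw [V_symm] at b'
    refine ⟨P', D', w', b', (h.pb_irr b' (A := M ⊓ 𝒞₁ s) (fun y hy => h.pb_cent b' aP a1 (o.od hy.1)
      (mem_c1.1 hy.2) (o.symm.ab hy.1 (mem_c1.1 hy.2) ha as)) (le_normalizer_inf o.nV fun v hv =>
        le_normalizer (mem_c1.2 (h.ab2 k.p2 hv (V_right t s)))) nR' ⟨ha, mem_c1.2 as⟩ a1).ge.trans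
      inf_le_left⟩
  · obtain ⟨T, u, tt, aT⟩ := h.exists_tor k.symm.iv e as
    obtain ⟨c, hc, c1⟩ := h.exists_R k
    have cL := h.odd_mem k.symm.iv (h.R_V k hc (V_right t s)) (h.R_odd k hc)
    have := conj_mem_of_mem_normalizer (nR' hc) ⟨ha, mem_c1.2 as⟩
    exact absurd ((tt.nrm' cL aT a1 (tt.cent (mul_mem (mul_mem cL (tt.le aT)) (inv_mem cL)) aT
      (h.T_sq tt aT a1) (o.symm.ab this.1 (mem_c1.1 this.2) ha as))).elim
      (fun e => eq_one_of_pow_coprime h.num.nm' (tt.pow e) ((h.memR k).1 hc).2.2)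
      fun e => eq_one_of_odd (h.R_odd k hc) (tt.sq_of e)) c1
  · exact absurd (h.sd_kr (h.pb_sd b k rfl) hx x1 e (mem_c1.1 (hM ha)) (Or.inl as)) a1

theorem exists_N (b : PB L q p m V t P D w) (k : KP t s) (e : V4 t s = V) :
    ∃ M, OW t s M ∧ (∀ g, g ∈ M ↔ g ∈ 𝒞 P ∧ Odd (orderOf g)) ∧ 𝒩 P ≤ 𝒩 M ∧
      ∀ g ∈ 𝒞 P, g ∈ M ∨ g * t ∈ M := by
  obtain ⟨x, hx, x1⟩ := b.bt.bor.exists_ne
  obtain ⟨M, o⟩ := h.sd_oc (h.pb_sd b k e) hx x1
  have mM : ∀ g, g ∈ M ⊓ 𝒞 P ↔ g ∈ 𝒞 P ∧ Odd (orderOf g) := fun g =>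
    ⟨fun e => ⟨e.2, o.od e.1⟩, fun e => ⟨o.mem g (e.1 x hx).symm e.2, e.1⟩⟩
  have nM : 𝒩 P ≤ 𝒩 (M ⊓ 𝒞 P) := fun g hg => mem_normalizer_of_forall fun y hy => (mM _).2
    ⟨conj_mem_of_mem_normalizer (FT.norm_le_norm_cent P hg) hy.2, by
      rw [orderOf_conj']; exact o.od hy.1⟩
  exact ⟨_, o.toOW.sub inf_le_left (e ▸ (h.pb_nV b).trans nM), mM, nM, fun g hg =>
    (o.cov g (hg x hx).symm).imp (fun e => ⟨e, hg⟩) fun e => ⟨e, mul_mem hg fun y hy =>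
      h.pb_t b (b.bt.bor.PK hy)⟩⟩

theorem comp_mem (b : PB L q p m V s P D w) (o : OW s t M) (hP : P ≤ M) (hy : y ∈ M)
    (e : y * s = s * y) : y ∈ P := by
  obtain ⟨x, hx, x1⟩ := b.bt.bor.exists_ne
  exact h.pb_cent b hx x1 (o.od hy) e (o.ab hy e (hP hx) (h.pb_t b (b.bt.bor.PK hx)))

theorem comps {A B C DA DB DC : Subgroup G} {a b c : G} (o : OW t s M)
    (bA : PB L q p m V t A DA a) (bB : PB L q p m V s B DB b) (bC : PB L q p m V (t * s) C DC c)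
    (hA : A ≤ M) (hB : B ≤ M) (hC : C ≤ M) (hr : r.Prime) (h1 : r ∣ Nat.card M) : r = p := by
  obtain ⟨x, hx, x1, xr, e⟩ := o.exists_comp hr h1
  by_contra hn
  refine x1 (eq_one_of_pow_coprime ((Nat.coprime_primes hr h.num.pp).2 hn) xr ?_)
  rcases e with e | e | e
  exacts [bA.bt.pw x (h.comp_mem bA o hA hx e), bB.bt.pw x (h.comp_mem bB o.symm hB hx e),
    bC.bt.pw x (h.comp_mem bC o.mul.symm hC hx e)]

theorem le_N (b : PB L q p m V t P D w) (hM : ∀ g, g ∈ M ↔ g ∈ 𝒞 A ∧ Odd (orderOf g))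
    (e : P ≤ 𝒞 A) : P ≤ M := fun _ hx => (hM _).2 ⟨e hx, h.P_odd b hx⟩

theorem path {A B C DA DB DC : Subgroup G} {a b c : G} (k : KP t s) (e : V4 t s = V)
    (bA : PB L q p m V t A DA a) (bB : PB L q p m V s B DB b) (bC : PB L q p m V (t * s) C DC c)
    (hB : B ≤ 𝒞 A) (hC : C ≤ 𝒞 A) : C ≤ 𝒩 (A ⊔ B) := by
  have : Fact p.Prime := ⟨h.num.pp⟩
  obtain ⟨M, o, mM, nM, -⟩ := h.exists_N bA k e
  have AM := h.le_N bA mM fun x hx y hy => bA.bt.bor.ab y hy x hx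
  have BM := h.le_N bB mM hB
  have CM := h.le_N bC mM hC
  by_cases hE : A ⊔ B = M
  · exact hE ▸ CM.trans le_normalizer
  obtain ⟨g, hg, g1, g2⟩ := exists_mem_normalizer_not_mem (FT.PiG.pgroup h.num.pp
    fun r hr h1 => h.comps o bA bB bC AM BM CM hr h1) (sup_le AM BM) hE
  have nX : ∀ U : Subgroup G, U ≤ 𝒩 A → U ≤ 𝒩 B → U ≤ 𝒩 (M ⊓ 𝒩 (A ⊔ B)) := fun U a b =>
    le_normalizer_inf (a.trans nM) (le_normalizer_normalizer (le_normalizer_sup a b))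
  have nV := nX V (h.pb_nV bA) (h.pb_nV bB)
  obtain ⟨x, hx, y, hy, z, hz, x1, y1, z1, rfl⟩ := (o.sub inf_le_left (e ▸ nV)).fac ⟨hg, g1⟩
  refine (h.pb_irr bC (A := C ⊓ (M ⊓ 𝒩 (A ⊔ B))) inf_le_left (le_normalizer_inf (h.pb_nV bC) nV)
    (le_normalizer_inf (h.pb_nR bC) (nX _ (h.pb_nR bA) (h.pb_nR bB)))
    ⟨h.comp_mem bC o.mul.symm CM hy.1 y1, hy⟩ ?_).ge.trans (inf_le_right.trans inf_le_right)
  rintro rfl
  exact g2 (mul_mem (mul_mem (mem_sup_left (h.comp_mem bA o AM hx.1 x1)) (one_mem _))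
    (mem_sup_right (h.comp_mem bB o.symm BM hz.1 z1)))

omit h in
theorem cyc_cj (k : KP t s) (x1 : x * t * x⁻¹ = s) (x2 : x * s * x⁻¹ = t * s) :
    cj x (V4 t s) = V4 t s := by
  rw [cj_V, x1, x2, ← k.comm, V_mul k.symm, V_symm]

theorem no_tri (k : KP t s) (b : PB L q p m (V4 t s) t P D w) (x3 : x ^ 3 = 1)
    (x1 : x * t * x⁻¹ = s) (x2 : x * s * x⁻¹ = t * s) (e : cj x P ≤ 𝒞 P) : False := by
  have b1 := h.pb_conj b x
  rw [cyc_cj k x1 x2, x1] at b1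
  have b2 := h.pb_conj b1 x
  rw [cyc_cj k x1 x2, x2] at b2
  have e1 := cj_mono x e
  rw [cj_centralizer] at e1
  have e2 := cj_mono x e1
  have xx : ∀ y, x * (x * (x * y * x⁻¹) * x⁻¹) * x⁻¹ = y := fun y => by
    calc _ = x ^ 3 * y * (x ^ 3)⁻¹ := by simp [pow_succ, mul_assoc]
      _ = y := by simp [x3]
  rw [cj_centralizer, ← cj_mul, ← cj_mul, show x * x * x = 1 by rw [← x3, pow_succ, sq], cj_one] at e2
  obtain ⟨u, hu, -, -, xu⟩ := h.fix_u k x3 x1 x2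
  have x0 : x ≠ 1 := by rintro rfl; exact k.ne (by simpa using x1.symm)
  obtain ⟨T, v, tt, xT⟩ := h.exists_tor hu (h.tp3.pow x3) xu
  obtain ⟨M, o⟩ := h.exists_oc (h.sc_tor hu tt) xT x0
  obtain ⟨a, ha, a1⟩ := b.bt.bor.exists_ne
  have hb := conj_mem_cj (g := x) ha
  have hc := conj_mem_cj (g := x) hb
  have ab := e hb a ha
  have bc := e1 hc _ hb
  have ca := e2 ha _ hc
  have xa := xx a
  obtain ⟨N, oN, mN, -⟩ := h.exists_N b k rfl
  have PN := h.le_N b mN fun x hx y hy => b.bt.bor.ab y hy x hx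
  have T : Tri p t s (t * s) a (x * a * x⁻¹) (x * (x * a * x⁻¹) * x⁻¹) := by
    have ta := oN.ty (PN ha) (h.pb_t b (b.bt.bor.PK ha)) a1 (b.bt.pw a ha)
    have tb : Ty p s (t * s) (x * a * x⁻¹) := by simpa only [x1, x2] using ta.conj x
    exact ⟨k, rfl, ta, tb, by simpa only [x2, cyc_last k x1 x2] using tb.conj x, ab, bc, ca⟩
  generalize hb' : x * a * x⁻¹ = b' at *
  generalize hc' : x * b' * x⁻¹ = c' at *
  have dp : (a * b' * c') ^ p = 1 := by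
    rw [Commute.mul_pow (comm_mul ca bc.symm).symm, Commute.mul_pow ab, T.ta.pow, T.tb.pow,
      T.tc.pow, one_mul, one_mul]
  have : Fact p.Prime := ⟨h.num.pp⟩
  obtain ⟨f, hf, f1, fp, e3⟩ := o.exists_comp h.num.pp (orderOf_eq_prime dp (fun e => a1 (by
    have := T.conj3 (mem_zpowers _) (mem_zpowers _) (mem_zpowers _)
    rw [e, mul_one, mul_inv_cancel, ← inv_one, ← e, T.inv3 (mem_zpowers _) (mem_zpowers _)
      (mem_zpowers _), mul_left_inj, mul_left_inj] at this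
    exact eq_one_of_odd (h.P_odd b ha) (mul_eq_one_iff_inv_eq.2 this))) ▸ M.orderOf_dvd_natCard
    (o.mem _ (by
      symm
      rw [← mul_inv_eq_iff_eq_mul, show x * (a * b' * c') * x⁻¹ =
        x * a * x⁻¹ * (x * b' * x⁻¹) * (x * c' * x⁻¹) by group, hb', hc', xa, mul_assoc, ca,
        ← mul_assoc, ← ab]) (odd_of_pow' h.num.op dp)))
  obtain ⟨j, hj, fj⟩ : CI f := by
    rcases e3 with e3 | e3 | e3
    exacts [⟨_, o.kp.iv, e3⟩, ⟨_, o.kp.symm.iv, e3⟩, ⟨_, o.kp.mul.symm.iv, e3⟩]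
  obtain ⟨g, rfl⟩ := h.one j t hj k.iv
  obtain ⟨y, -, fP⟩ := b.bt.cnj _ (h.odd_mem k.iv (conj_comm fj g) (odd_of_pow' h.num.op
    (conj_pow_one fp g))) (conj_pow_one fp g)
  obtain ⟨M', o'⟩ := h.sd_oc (h.pb_sd b k rfl) fP (by simpa)
  have : Fact (Nat.Prime 3) := ⟨Nat.prime_three⟩
  have x3' := conj_pow_one (conj_pow_one x3 g) y
  exact h.num.p3 (h.comps o'.toOW b b1 b2
    (fun z hz => o'.mem z (b.bt.bor.ab z hz _ fP) (h.P_odd b hz))
    (fun z hz => o'.mem z (e hz _ fP).symm (h.P_odd b1 hz))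
    (fun z hz => o'.mem z (e2 fP z hz) (h.P_odd b2 hz)) Nat.prime_three
    (orderOf_eq_prime x3' (by simpa) ▸ M'.orderOf_dvd_natCard (o'.mem _ (conj_comm (conj_comm
      (mem_c1.1 (o.le hf)).symm g) y) (odd_of_pow' (by decide) x3')))).symm

theorem no_edge (k : KP t s) (b : PB L q p m (V4 t s) t P D w) (b' : PB L q p m (V4 t s) s P' D' w')
    (e : P' ≤ 𝒞 P) : False := by
  obtain ⟨g, g1, g2, rfl⟩ : ∃ g, g * t * g⁻¹ = s ∧ g * s * g⁻¹ = t * s ∧ P' = cj g P := by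
    obtain ⟨g, g1, g2⟩ := h.cycle k
    have b1 := h.pb_conj b g
    rw [cyc_cj k g1 g2, g1] at b1
    rcases h.pb_two b1 b' with e | e
    · exact ⟨g, g1, g2, e⟩
    have c := fun v hv => (h.pb_V (v := v) b1 (one_mem _) hv).2
    generalize g * w * g⁻¹ = f at c e
    have n : ∀ y, f * g * y * (f * g)⁻¹ = f * (g * y * g⁻¹) * f⁻¹ := fun y => by group
    exact ⟨f * g, by rw [n, g1, c s (V_right t s), mul_inv_cancel_right], by
      rw [n, g2, c _ (mul_mem (V_left t s) (V_right t s)), mul_inv_cancel_right], by rw [cj_mul, e]⟩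
  have eV := cyc_cj k g1 g2
  have g3 := cyc_last k g1 g2
  obtain ⟨c1, c2⟩ := cube_comm k g1 g2
  have b2 := h.pb_conj b' g
  rw [eV, g2] at b2
  have b0 := h.pb_conj b g⁻¹
  rw [show g⁻¹ * t * g⁻¹⁻¹ = t * s by rw [inv_inv, mul_assoc, inv_mul_eq_iff_eq_mul, ← mul_inv_eq_iff_eq_mul.1 g3],
    show cj g⁻¹ (V4 t s) = V4 t s by rw [← cj_inj g, cj_cj_inv, eV]] at b0
  obtain ⟨a, ha, a1⟩ := b.bt.bor.exists_ne
  have tD := fun d hd => (h.pb_V (d := d) b hd (V_left t s)).1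
  rcases h.pb_two b2 b0 with e0 | e0
  · have e1 : cj (g ^ 3) P = P := by
      rw [pow_succ', sq, cj_mul, cj_mul, ← e0, cj_cj_inv]
    have e2 : (g ^ 3) ^ (2 * m) = 1 := by
      rcases h.pb_D b (fun v hv => comm_V c1 c2 hv) ha a1 (e1 ▸ conj_mem_cj ha) with e2 | e2
      · exact b.bt.tor.pow e2
      · have := b.bt.tor.pow e2
        rwa [Commute.mul_pow c1.symm, pow_mul t, sq, k.ss, one_pow, one_mul] at this
    obtain ⟨i, hi⟩ : ∃ i, 2 * m * (2 * m) = 3 * i + 1 := by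
      have := h.not3m
      obtain ⟨i, rfl | rfl⟩ : ∃ i, m = 3 * i + 1 ∨ m = 3 * i + 2 := ⟨m / 3, by omega⟩
      exacts [⟨12 * i * i + 8 * i + 1, by ring⟩, ⟨12 * i * i + 16 * i + 5, by ring⟩]
    have n : ∀ y, g * (g ^ 3) ^ i * y * (g * (g ^ 3) ^ i)⁻¹ =
      g * ((g ^ 3) ^ i * y * ((g ^ 3) ^ i)⁻¹) * g⁻¹ := fun y => by group
    refine h.no_tri k b (x := g * (g ^ 3) ^ i) ?_ (by
      rw [n, ← comm_pow c1.symm, mul_inv_cancel_right, g1]) (by
      rw [n, ← comm_pow c2.symm, mul_inv_cancel_right, g2]) (by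
      rwa [cj_mul, cj_eq_iff.2 (pow_mem (cj_eq_iff.1 e1) i)])
    rw [← pow_mul, ← pow_succ', ← hi, ← pow_mul, mul_comm _ 3, pow_mul, pow_mul, e2, one_pow]
  have n0 := h.path k rfl b b' b0 e (by
    rw [cj_le_iff, inv_inv, cj_centralizer]; exact FT.cent_symm e)
  have n2 := h.path k.symm (V_symm t s) b' b (k.comm ▸ b2) (FT.cent_symm e) (by
    rw [← cj_centralizer]; exact cj_mono g e)
  rw [sup_comm] at n2
  rw [e0] at n0
  generalize cj g (cj g P) = C at b2 n0 n2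
  generalize cj g D' = E at b2
  generalize g * w' * g⁻¹ = f at b2 n0
  obtain ⟨x, hx, x1⟩ := b2.bt.bor.exists_ne
  have B := b2.bt.bor
  obtain ⟨y, hy, z, hz, d, hd, e1⟩ := (B.bru _ (mul_mem (mul_mem B.wK (B.PK hx)) B.wK)).resolve_left
    fun ⟨y, hy, d, hd, e⟩ => x1 (B.sep x hx y hy d hd e)
  have n1 : f * d ∈ 𝒩 (P ⊔ cj g P) := by
    have := mul_mem (mul_mem (inv_mem (n2 hy)) (n0 (conj_mem_cj hx)))
      (inv_mem (n2 (B.nrm _ (inv_mem hd) z hz)))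
    rwa [B.winv, e1, show y⁻¹ * (y * f * (z * d)) * (d⁻¹ * z * d⁻¹⁻¹)⁻¹ = f * d by group] at this
  have cV : ∀ v ∈ V4 t s, f * d * v = v * (f * d) := fun v hv =>
    (comm_mul (h.pb_V b2 hd hv).2.symm (h.pb_V b2 hd hv).1.symm).symm
  obtain ⟨N, oN, mN, -⟩ := h.exists_N b k rfl
  have PN := h.le_N b mN fun x hx y hy => b.bt.bor.ab y hy x hx
  obtain ⟨c, hc, c0⟩ := h.exists_R k
  have cD := h.pb_R b hc
  refine c0 (eq_one_of_inv (g := f * d) (h.R_odd k hc) ?_ (b2.bt.tor.inv_of (by rwa [B.wl])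
    (h.pb_R b2 hc)))
  rcases h.pb_D b cV ha a1 (h.comp_mem b oN PN (sup_le PN (h.le_N b' mN e)
    (conj_mem_of_mem_normalizer n1 (mem_sup_left ha))) (by
      have := conj_comm (h.pb_t b (b.bt.bor.PK ha)) (f * d)
      rwa [cV t (V_left t s), mul_inv_cancel_right] at this)) with e2 | e2
  · exact b.bt.tor.ab e2 cD
  · have := b.bt.tor.ab e2 cD
    rwa [← mul_assoc c, tD c cD, mul_assoc t, mul_assoc t, mul_left_cancel_iff] at this

theorem cP (b : PB L q p m V t P D w) (hg : g ∈ 𝒞 P) : g * t = t * g := by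
  obtain ⟨s, -, k, rfl⟩ := b.ex
  obtain ⟨M, o, mM, nM, cov⟩ := h.exists_N b k rfl
  obtain ⟨x, hx, x1⟩ := b.bt.bor.exists_ne
  have key : ∀ s, KP t s → OW t s M → PB L q p m (V4 t s) t P D w → ∀ a ∈ M, a * s = s * a → a = 1 :=
    fun s k o b a ha e => by_contra fun a1 => by
      obtain ⟨P', D', w', b', e1⟩ := h.comp b k rfl o ((h.pb_nR b).trans nM) hx x1
        (fun y hy => FT.cent_le_cent1 hx ((mM y).1 hy).1) ha a1 e
      exact h.no_edge k b b' fun y hy => ((mM y).1 (e1 hy)).1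
  have Mt : ∀ a ∈ M, a * t = t * a := fun a ha => by
    obtain ⟨c, -, y, hy, z, hz, c1, y1, z1, rfl⟩ := o.fac ha
    rwa [key _ k.mul o.mul ((V_mul k).symm ▸ b) y hy y1, key s k o b z hz z1, mul_one, mul_one]
  exact (cov g hg).elim (Mt g) fun e => mul_right_cancel ((Mt _ e).trans (mul_assoc _ _ _).symm)

theorem sylP (b : PB L q p m V t P D w) : IsSyl p P ⊤ := by
  have : Fact p.Prime := ⟨h.num.pp⟩
  obtain ⟨i, hi⟩ := h.num.qp
  refine isSyl_of_maximal le_top (IsPGroup.of_card (b.bt.bor.cP.trans hi)) fun Q hQ e _ => ?_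
  by_contra hn
  obtain ⟨g, hg, g1, g2⟩ := exists_mem_normalizer_not_mem hQ e fun e => hn e.ge
  obtain ⟨j, hj⟩ := isPGroup_iff_forall.1 hQ g hg
  obtain ⟨x, hx, x1⟩ := b.bt.bor.exists_ne
  have B := b.bt.bor
  have c1 : g * t * g⁻¹ ∈ 𝒞 P := conj_mem_of_mem_normalizer (FT.norm_le_norm_cent P g1)
    fun y hy => h.pb_t b (B.PK hy)
  have c2 := h.cP b c1
  have i2 := b.iv.conj g
  have gt : g * t = t * g := by
    rcases h.cent t b.iv _ c2 with e | e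
    · exact absurd (eq_one_of_odd (h.P_odd b (B.centP e hx x1 (c1 x hx).symm)) i2.ss) i2.ne
    · have := eq_one_of_odd (h.P_odd b (B.centP e hx x1 (comm_mul (h.pb_t b (B.PK hx))
        (c1 x hx)).symm)) (by rw [mul_assoc, ← mul_assoc _ t, c2, mul_assoc, i2.ss, mul_one, b.iv.ss])
      rw [← mul_inv_eq_iff_eq_mul, eq_inv_of_mul_eq_one_right this, b.iv.inv]
  obtain ⟨y, hy, d, hd, rfl⟩ := B.memB.1 (B.conjP (h.odd_mem b.iv gt (odd_of_pow' h.num.op.pow hj))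
    hx x1 (mem_sup_left (conj_mem_of_mem_normalizer' g1 hx)))
  by_cases d1 : d = 1
  · exact g2 (by rwa [d1, mul_one])
  obtain ⟨z, -, e⟩ := B.conj_xd hy hd d1
  rw [← e] at hj
  exact d1 (conj_eq_one_iff.1 (eq_one_of_pow_coprime (h.num.pm.pow_left j) hj
    (conj_pow_one (b.bt.tor.pow hd) z)))

theorem np_p : NP G p := by
  intro s w a b k ha hb ab
  have : Fact p.Prime := ⟨h.num.pp⟩
  obtain ⟨P, D, u, bP, aP⟩ := h.exists_pb k ha
  obtain ⟨M, o⟩ := h.sd_oc (h.pb_sd bP k rfl) aP ha.ne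
  have ob := odd_of_pow' h.num.op hb.pow
  obtain ⟨S, hS, nS, bS⟩ := o.ca.exists_syl_ge h.num.pp
    (isPGroup_zpowers (k := 1) (by simpa using hb.pow)) (zpowers_le.2 (o.mem b ab.symm ob))
    (closure_pair_le (mem_norm_zp (conj_mem_zp_of_inv hb.inv))
      (mem_norm_zp (conj_mem_zp_of_comm hb.comm)))
  obtain ⟨c, hc, e⟩ := o.ca.syl_conj h.num.pp hS ((h.sylP bP).mono (fun z hz => o.mem z
    (bP.bt.bor.ab z hz a aP) (h.P_odd bP hz)) le_top) nS (h.pb_nV bP)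
  rw [o.fix c hc.1 (hc.2 s (V_left s w)).symm (hc.2 w (V_right s w)).symm, cj_one] at e
  exact hb.ne (eq_one_of_inv ob (h.pb_t bP (bP.bt.bor.PK (e ▸ bS (mem_zpowers b)))).symm hb.inv)

end JG

end Cfsg.GJ
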