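import Cfsg.Agent.GS.J7

/-! Centralizers of the elements of order dividing `n` or `p` lie in the involution centralizer. -/

set_option autoImplicit false
set_option linter.unusedSectionVars false

namespace Cfsg.GJ

open Subgroup Cfsg.L0 Cfsg.H8

local notation "𝒩" X:max => Subgroup.normalizer (SetLike.coe X)
local notation "𝒞" X:max => Subgroup.centralizer (SetLike.coe X)
local notation "𝒞₁" x:max => Subgroup.centralizer (singleton x : Set _)

variable {G : Type*} [Group G]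

theorem OW.abel [Finite G] {s w : G} {M : Subgroup G} (o : OW s w M)
    (h : ∀ x ∈ M, x * w = w * x → x = 1) : ∀ x ∈ M, ∀ y ∈ M, x * y = y * x :=
  comm_of_inverts (inverts_of_fpf o.nw (by simp [o.kp.ww]) fun x hx e => h x hx e.symm)

theorem OC.comm [Finite G] {t s y g : G} {T M : Subgroup G} (o : OC t s y T M)
    (h : ∀ v, v = s ∨ v = t * s → OW t v M → ∀ a ∈ M, a * v = v * a → a = 1) (hg : g * y = y * g) :
    g * t = t * g := by
  have Mt : ∀ a ∈ M, a * t = t * a := fun a ha => by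
    obtain ⟨c, -, y, hy, z, hz, c1, y1, z1, rfl⟩ := o.fac ha
    rwa [h _ (Or.inr rfl) o.mul.toOW y hy y1, h s (Or.inl rfl) o.toOW z hz z1, mul_one, mul_one]
  exact (o.cov g hg).elim (Mt g) fun e => mul_right_cancel ((Mt _ e).trans (mul_assoc _ _ _).symm)

namespace JG

variable {L : G → Subgroup G} {q p n m N r : ℕ} {s t u v w a b c d g x y z j : G}
  {T M V P D : Subgroup G} (h : JG L q p n m)
include h
variable [Finite G]

theorem tt (hr : TP n r) (np : NP G r) (k : KP s w) (ha : Ty r s w a) (hb : Ty n w s b)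
    (ab : a * b = b * a) : False := by
  obtain ⟨T, u, t, sd, bT⟩ := h.exists_sd k.symm hb.pow hb.ne hb.comm hb.inv
  obtain ⟨M, o⟩ := h.sd_oc sd bT hb.ne
  obtain ⟨e, he, e1, er⟩ := t.exists_ord hr.1 hr.2.2
  exact ha.ne (o.two_comp hr.1 np (o.mem e (t.ab he bT) (h.T_odd t he)) e1 er
    (h.comm w k.symm.iv e (t.le he)).symm (o.mem a ab (odd_of_pow hr.1 hr.2.1 ha.pow)) ha.pow ha.comm)

theorem np3 : NP G 3 := h.no_pair h.tp3 h.nt3

theorem c3 (ht : Iv t) (y3 : y ^ 3 = 1) (y1 : y ≠ 1) (yt : y * t = t * y) (hr : TP n r)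
    (zr : z ^ r = 1) (zy : z * y = y * z) : z * t = t * z := by
  obtain ⟨T, s, tt, yT⟩ := h.exists_tor ht (h.tp3.pow y3) yt
  have c := h.sc_tor ht tt
  obtain ⟨M, o⟩ := h.exists_oc c yT y1
  have yM := o.mem y rfl (c.od yT)
  have pc : ∀ v, v = s ∨ v = t * s → OW t v M → ∀ a ∈ M, a * v = v * a → a ^ p = 1 :=
    fun v hv ov a ha e => by
      by_cases a1 : a = 1
      · simp [a1]
      rcases h.ord3 ov.kp.symm.iv (o.od ha) e with e1 | e1 | e1
      · exact e1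
      · exact (h.tt h.tp3 h.np3 ov.kp (ov.ty yM yt y1 y3) (ov.symm.ty ha e a1 e1)
          (mem_c1.1 (o.le ha)).symm).elim
      · exact absurd (h.kr c yT y1 e1 (mem_c1.1 (o.le ha)) (by
          rcases hv with rfl | rfl; exacts [Or.inl e, Or.inr e])) a1
  have ab : ∀ x ∈ M, ∀ y ∈ M, x * y = y * x := by
    by_cases e : ∀ x ∈ M, x * s = s * x → x = 1
    · exact o.abel e
    push Not at e
    obtain ⟨a, ha, e, a1⟩ := e
    refine o.mul.abel fun x hx e1 => o.symm.mul.two_comp h.num.pp h.np_p ha a1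
      (pc s (Or.inl rfl) o.toOW a ha e) e hx (pc _ (Or.inr rfl) o.mul.toOW x hx e1) ?_
    rwa [c.kp.comm]
  obtain ⟨a, ha, b, hb, d, hd, a1, b1, d1, e⟩ := o.fac (o.mem z zy (odd_of_pow hr.1 hr.2.1 zr))
  refine mem_c1.1 (mem_of_pow_mem (h.num.pn.coprime_dvd_right hr.2.2) ?_ (by rw [zr]; exact one_mem _))
  rw [e, Commute.mul_pow (ab _ (mul_mem ha hb) d hd), Commute.mul_pow (ab a ha b hb),
    pc _ (Or.inr rfl) o.mul.toOW b hb b1, pc s (Or.inl rfl) o.toOW d hd d1, mul_one, mul_one]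
  exact pow_mem (mem_c1.2 a1) p

theorem np (hr : TP n r) : NP G r := h.no_pair hr fun s w a x k ha x3 x1 x2 ab => by
  have x0 := cyc_last k x1 x2
  obtain ⟨b, xa⟩ : ∃ b, x * a * x⁻¹ = b := ⟨_, rfl⟩
  obtain ⟨c, xb⟩ : ∃ c, x * b * x⁻¹ = c := ⟨_, rfl⟩
  have xc : x * c * x⁻¹ = a := by
    calc _ = x ^ 3 * a * (x ^ 3)⁻¹ := by rw [← xb, ← xa]; simp [pow_succ, mul_assoc]
      _ = a := by simp [x3]
  rw [xa] at ab
  have tb : Ty r w (s * w) b := by simpa only [x1, x2, xa] using ha.conj x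
  have T : Tri r s w (s * w) a b c := ⟨k, rfl, ha, tb, by simpa only [x2, x0, xb] using tb.conj x, ab,
    by simpa only [xa, xb] using conj_comm ab x,
    by simpa only [xa, xb, xc] using conj_comm (conj_comm ab x) x⟩
  obtain ⟨u, hu, sL, wL, xu⟩ := h.fix_u k x3 x1 x2
  have us := h.comm u hu s sL
  have e := h.c3 (z := a * b * c) hu x3 (by rintro rfl; exact k.ne (by simpa using x1.symm)) xu hr (by
    rw [Commute.mul_pow (comm_mul T.ca T.bc.symm).symm, Commute.mul_pow ab, ha.pow, tb.pow,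
      T.tc.pow, one_mul, one_mul]) (by
    symm
    rw [← mul_inv_eq_iff_eq_mul, show x * (a * b * c) * x⁻¹ =
      x * a * x⁻¹ * (x * b * x⁻¹) * (x * c * x⁻¹) by group, xa, xb, xc, mul_assoc, T.ca, ← mul_assoc,
      ← ab])
  have e1 := conj_comm e s
  rw [T.conj3 (mem_zpowers a) (mem_zpowers b) (mem_zpowers c), ← us, mul_inv_cancel_right] at e1
  have e2 := comm_mul e1.symm e.symm
  rw [show a * b⁻¹ * c⁻¹ * (a * b * c) = a * a by
    rw [mul_assoc a b, T.bc, ← mul_assoc a c, ← T.ca, mul_assoc c, ab]; group] at e2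
  rcases h.C3 hr k ha (comm_of_sq (odd_of_pow hr.1 hr.2.1 ha.pow) e2) us (h.comm u hu w wL) with
    e | rfl
  exacts [hu.ne e, h.nm u hu sL]

theorem exists_tp (a1 : a ≠ 1) (an : a ^ n = 1) : ∃ r i, TP n r ∧ a ^ i ≠ 1 ∧ (a ^ i) ^ r = 1 :=
  let ⟨r, i, hr, h1, h2, h3⟩ := exists_prime_pow a1
  ⟨r, i, h.tp hr (h1.trans (orderOf_dvd_of_pow_eq_one an)), h2, h3⟩

theorem tt' (k : KP s w) (ha : Ty n s w a) (hb : Ty n w s b) (ab : a * b = b * a) : False :=
  let ⟨_, i, hr, h1, h2⟩ := h.exists_tp ha.ne ha.pow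
  h.tt hr (h.np hr) k ⟨h2, h1, (comm_pow ha.comm.symm i).symm, inv_pow_of ha.inv i⟩ hb
    (comm_pow ab.symm i).symm

theorem pt (k : KP t s) (hx : Ty p t s x) (hy : Ty n s t y) (xy : x * y = y * x) : False := by
  obtain ⟨T, u, tt, sd, yT⟩ := h.exists_sd k.symm hy.pow hy.ne hy.comm hy.inv
  obtain ⟨M, o⟩ := h.sd_oc sd yT hy.ne
  have ox := odd_of_pow' h.num.op hx.pow
  have xM := o.mem x xy ox
  have ab := o.mul.abel fun a ha e => by_contra fun a1 => by
    rcases h.ord3 k.symm.mul.symm.iv (o.od ha) e with e1 | e1 | e1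
    · exact a1 (o.symm.mul.two_comp h.num.pp h.np_p xM hx.ne hx.pow hx.comm ha e1 (by rwa [← k.comm]))
    · exact h.tt' k.symm.mul hy.mul (o.mul.symm.ty ha e a1 e1) (mem_c1.1 (o.le ha)).symm
    · exact a1 (h.sd_kr sd yT hy.ne e1 (mem_c1.1 (o.le ha)) (Or.inr e))
  obtain ⟨P, D, w, b, xP⟩ := h.exists_pb k hx
  have sd' := h.pb_sd b k rfl
  obtain ⟨M', o'⟩ := h.sd_oc sd' xP hx.ne
  have TM : ∀ e ∈ T, e ∈ M' := fun e he => o'.mem e
    (ab e (o.mem e (tt.ab he yT) (h.T_odd tt he)) x xM) (h.T_odd tt he)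
  have ab' := o'.mul.abel fun a ha e => by_contra fun a1 => by
    rcases h.ord3 k.mul.symm.iv (o'.od ha) e with e1 | e1 | e1
    · exact a1 (o'.mul.two_comp h.num.pp h.np_p (o'.mem x rfl ox) hx.ne hx.pow hx.comm ha e1 e)
    · obtain ⟨r, i, hr, h1, h2⟩ := h.exists_tp a1 e1
      obtain ⟨f, hf, f1, fr⟩ := tt.exists_ord hr.1 hr.2.2
      exact h1 (o'.symm.mul.two_comp hr.1 (h.np hr) (TM f hf) f1 fr
        (h.comm s k.symm.iv f (tt.le hf)).symm (pow_mem ha i) h2 (by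
          rw [k.comm]; exact (comm_pow e.symm i).symm))
    · exact a1 (h.sd_kr sd' xP hx.ne e1 (mem_c1.1 (o'.le ha)) (Or.inr e))
  exact hy.ne (eq_one_of_inv (h.T_odd tt yT) (h.cP b fun z hz => ab' z (o'.mem z
    (b.bt.bor.ab z hz x xP) (h.P_odd b hz)) y (TM y yT)).symm hy.inv)

theorem cT (ht : Iv t) (yn : y ^ n = 1) (y1 : y ≠ 1) (yt : y * t = t * y) (hg : g * y = y * g) :
    g * t = t * g := by
  obtain ⟨T, s, tt, yT⟩ := h.exists_tor ht yn yt
  have c := h.sc_tor ht tt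
  obtain ⟨M, o⟩ := h.exists_oc c yT y1
  refine o.comm (fun v hv ov a ha e => by_contra fun a1 => ?_) hg
  have ty := ov.ty (o.mem y rfl (c.od yT)) yt y1 yn
  have ay := mem_c1.1 (o.le ha)
  rcases h.ord3 ov.kp.symm.iv (o.od ha) e with e1 | e1 | e1
  · exact h.pt ov.kp.symm (ov.symm.ty ha e a1 e1) ty ay
  · exact h.tt' ov.kp ty (ov.symm.ty ha e a1 e1) ay.symm
  · exact a1 (h.kr c yT y1 e1 ay (by rcases hv with rfl | rfl; exacts [Or.inl e, Or.inr e]))

theorem cPx (b : PB L q p m V t P D w) (hx : x ∈ P) (x1 : x ≠ 1) (hg : g * x = x * g) :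
    g * t = t * g := by
  obtain ⟨s, -, k, rfl⟩ := b.ex
  have c := h.pb_sd b k rfl
  obtain ⟨M, o⟩ := h.sd_oc c hx x1
  refine o.comm (fun v hv ov a ha e => by_contra fun a1 => ?_) hg
  have tx := ov.ty (o.mem x rfl (h.P_odd b hx)) (h.pb_t b (b.bt.bor.PK hx)) x1 (b.bt.pw x hx)
  have ax := mem_c1.1 (o.le ha)
  rcases h.ord3 ov.kp.symm.iv (o.od ha) e with e1 | e1 | e1
  · exact h.np_p _ _ _ _ ov.kp tx (ov.symm.ty ha e a1 e1) ax.symm
  · exact h.pt ov.kp tx (ov.symm.ty ha e a1 e1) ax.symm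
  · exact a1 (h.sd_kr c hx x1 e1 ax (by rcases hv with rfl | rfl; exacts [Or.inl e, Or.inr e]))

omit h in
theorem pb_of (ht : Iv t) (b : BT (L t) P D w q p m) (hc : ∀ k ∈ L t, t * k = k * t) (hn : t ∉ L t) :
    ∃ V, PB L q p m V t P D w := by
  obtain ⟨s, hs, s1, s2⟩ := b.tor.exists_ord Nat.prime_two (Dvd.intro _ rfl)
  exact ⟨_, b, s, hs, ⟨ht.ss, by rwa [sq] at s2, ht.ne, s1, fun e => hn (e ▸ b.tor.le hs),
    (hc s (b.tor.le hs)).symm⟩, rfl⟩

/-- a subgroup acting freely on the involutions different from `t` -/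
theorem idx_mod (c : SC L m t s T N) (hc : ∀ y ∈ T, y ≠ 1 → ∀ g, g * y = y * g → g * t = t * g) :
    ∃ i, (𝒞₁ t).index = N * i + 1 := by
  have ht := c.kp.iv
  obtain ⟨i, hi⟩ := card_dvd_of_free (A := T) (Y := {s : G | s * s = 1 ∧ s ≠ 1} \ {t})
    (fun a ha y hy => ⟨⟨conj_sq hy.1.1 a, by simpa using hy.1.2⟩, fun e => hy.2 (by
      rw [Set.mem_singleton_iff, mul_inv_eq_iff_eq_mul, ← h.sc_t c ha] at e
      exact mul_left_cancel e)⟩) fun a ha y hy e => by_contra fun a1 => by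
      have yt := hc a ha a1 y e.symm
      rcases h.sc_cent c ha a1 e.symm yt with e1 | e1
      · exact hy.1.2 (eq_one_of_odd (c.od e1) hy.1.1)
      · exact hy.2 (eq_inv_of_mul_eq_one_right (eq_one_of_odd (c.od e1) (by
          rw [mul_assoc, ← mul_assoc y, yt, mul_assoc, hy.1.1, mul_one, ht.ss])) |>.trans ht.inv)
  refine ⟨i, ?_⟩
  rw [← h.ncard_inv ht, ← c.card, ← hi, Set.ncard_sdiff_singleton_add_one (by exact ⟨ht.ss, ht.ne⟩)]

end JG

end Cfsg.GJ
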