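import Cfsg.Agent.GS.J8
import Cfsg.Agent.H8.ReeC2

/-! The character theoretic equation. -/

set_option autoImplicit false
set_option linter.unusedSectionVars false

namespace Cfsg.GJ

open Subgroup Cfsg.L0 Cfsg.H8 Cfsg.FT
open scoped ComplexConjugate

variable {G : Type} [Group G] [Finite G]

theorem jt_equation {t : G} (hI : ∀ s : G, IsConj t s ↔ s * s = 1 ∧ s ≠ 1) {γ α : G → ℂ} {i m : ℕ}
    {c e : ℤ} (c0 : c ≠ 0) (hi : Nat.card {s // IsConj t s} = i) (hm : Nat.card G = i * m)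
    (hγ : VCh ⊤ γ) (hα : VCh ⊤ α) (g3 : dot ⊤ γ γ = 3) (g1 : dot ⊤ γ (cf1 ⊤) = 1)
    (a2 : dot ⊤ α α = 2) (a1 : dot ⊤ α (cf1 ⊤) = 0) (ga : dot ⊤ γ α = -1) (γ1 : γ 1 = 0)
    (γt : γ t = 0) (α1 : α 1 = 0) (αt : α t = 2 * c) (αA : dot ⊤ α acnt = 0)
    (γA : dot ⊤ γ acnt = e) :
    ∃ y : ℤ, y ≠ 0 ∧ y + 1 ≠ 0 ∧ i * (y - (c - 1)) ^ 2 = m * e * y * (y + 1) := by
  have key : ∀ a b d : G → ℂ, Dirr ⊤ a → Dirr ⊤ b → Dirr ⊤ d → γ - cf1 ⊤ = a + b → α = d + -b →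
      ∃ y : ℤ, y ≠ 0 ∧ y + 1 ≠ 0 ∧ i * (y - (c - 1)) ^ 2 = m * e * y * (y + 1) := by
    intro a b d ha hb hd e1 e2
    have da := dot_acnt hI ha
    have db := dot_acnt hI hb
    have dc := dot_acnt hI hd
    have d1 := dot_acnt hI (irr_cf1 ⊤).dirr
    rw [hi, hm] at da db dc d1
    have i0 : (i : ℂ) ≠ 0 := Nat.cast_ne_zero.2 fun e => (Nat.card_pos (α := G)).ne' (by simp [hm, e])
    have v : ∀ x, γ x = 1 + a x + b x := fun x => by
      have := congrFun e1 x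
      simp only [Pi.sub_apply, Pi.add_apply, cf1_of_mem (mem_top x)] at this
      linear_combination this
    have w : ∀ x, α x = d x - b x := fun x => by rw [e2]; simp [sub_eq_add_neg]
    rw [e2, dot_add_left, dot_neg_left] at αA
    rw [sub_eq_iff_eq_add.1 e1, dot_add_left, dot_add_left] at γA
    rw [w] at α1 αt
    rw [v] at γ1 γt
    simp only [cf1_of_mem (mem_top _)] at d1
    obtain ⟨y, hy⟩ := ha.vch.one_int
    have b1 : b 1 = -(y + 1) := by linear_combination γ1 - hy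
    have e3 : (d t - b t) * (d t + b t) = 0 := by
      apply mul_left_cancel₀ (pow_ne_zero 2 i0)
      linear_combination db - dc + (i * m : ℕ) * d 1 * αA +
        dot ⊤ b acnt * (i * m : ℕ) * α1
    have e4 : d t + b t = 0 := (mul_eq_zero.1 e3).resolve_left (by rw [αt]; simpa using c0)
    have bt : b t = -c := by linear_combination (e4 - αt) / 2
    have at' : a t = c - 1 := by linear_combination γt - bt
    refine ⟨y, fun e => ha.one_ne_zero (by rw [hy, e, Int.cast_zero]), fun e => hb.one_ne_zero (by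
      rw [b1]; exact_mod_cast (by rw [e, neg_zero] : -(y + 1) = 0)), ?_⟩
    rw [hy, at'] at da
    rw [b1, bt] at db
    have : (i : ℂ) * (y - (c - 1)) ^ 2 = m * e * y * (y + 1) := by
      apply mul_left_cancel₀ i0
      push_cast at da db d1
      linear_combination (i * m * y * (y + 1) : ℂ) * γA - (y + 1) * da + y * db - y * (y + 1) * d1
    exact_mod_cast this
  have h1 := vch_cf1 (⊤ : Subgroup G)
  obtain ⟨a, b, ha, hb, -, e1⟩ := (hγ.sub h1).exists_add_of_two (by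
    rw [dot_sub_left, dot_sub_right, dot_sub_right, g3, g1, dot_symm_one g1, dot_cf1_self]; norm_num)
  obtain ⟨c, e, hc, he, -, e2⟩ := hα.exists_add_of_two a2
  rcases exists_neg_pair ha hb hc he (by
    rw [← e1, ← e2, dot_sub_left, ga, dot_symm_zero a1, sub_zero]) with e3 | e3 | e3 | e3
  · exact key b a e hb ha he (by rw [e1, add_comm]) (by rw [e2, e3, neg_neg, add_comm])
  · exact key b a c hb ha hc (by rw [e1, add_comm]) (by rw [e2, e3, neg_neg])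
  · exact key a b e ha hb he e1 (by rw [e2, e3, neg_neg, add_comm])
  · exact key a b c ha hb hc e1 (by rw [e2, e3, neg_neg])

theorem jt_aux {c m : ℤ} (c0 : 0 < c) (m0 : 0 < m) (d1 : c ∣ m)
    (d2 : 2 * m + 1 ∣ (c - 1) * (c + 1)) : c = 1 := by
  by_contra hn
  obtain ⟨k, rfl⟩ := d1
  obtain ⟨l, hl⟩ := d2
  have k0 : 0 < k := pos_of_mul_pos_right m0 c0.le
  have l0 : 0 < l := pos_of_mul_pos_right (hl ▸ mul_pos (by omega) (by omega)) (by omega)
  obtain ⟨r, hr⟩ : ∃ r, r = c - 2 * k * l := ⟨_, rfl⟩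
  have e5 : l + 1 = c * r := by rw [hr]; linear_combination -hl
  have r0 : 0 < r := pos_of_mul_pos_right (e5 ▸ by omega) c0.le
  have e6 : c * (2 * k * r - 1) = 2 * k - r := by linear_combination hr - 2 * k * e5
  nlinarith [show 2 ≤ c by omega, mul_pos k0 r0]

theorem jt_number {q m i : ℕ} {y : ℤ} (hq : 4 * m + 1 = q) (m3 : 3 ≤ m) (io : Odd i) {a b : ℕ}
    (ia : i = q * a + 1) (ib : i = (2 * m + 1) * b + 1) (y0 : y ≠ 0) (y1 : y + 1 ≠ 0)
    (h : i * (y + q) ^ 2 = (q * (q - 1) * (q + 1) : ℤ) * (q + 1) * y * (y + 1)) : False := by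
  have ia' : (i : ℤ) = q * a + 1 := by exact_mod_cast ia
  have ib' : (i : ℤ) = (2 * m + 1) * b + 1 := by exact_mod_cast ib
  have hq' : (q : ℤ) = 4 * m + 1 := by exact_mod_cast hq.symm
  obtain ⟨j, hj⟩ := io
  have hj' : (i : ℤ) = 2 * j + 1 := by exact_mod_cast hj
  have c2 : IsCoprime (2 : ℤ) i := ⟨-j, 1, by rw [hj']; ring⟩
  have c1 : IsCoprime ((q : ℤ) + 1) i := by
    rw [show (q : ℤ) + 1 = 2 * (2 * m + 1) by rw [hq']; ring]
    exact c2.mul_left ⟨-b, 1, by rw [ib']; ring⟩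
  obtain ⟨u, hu⟩ : (q : ℤ) + 1 ∣ y + q := (Int.pow_dvd_pow_iff two_ne_zero).1
    ((c1.pow_left (m := 2)).dvd_of_dvd_mul_left ⟨q * (q - 1) * y * (y + 1), by rw [h]; ring⟩)
  have q1 : (q : ℤ) + 1 ≠ 0 := by omega
  obtain rfl : y = (q + 1) * u - q := by linear_combination hu
  set c : ℤ := q * (q - 1) with hc
  have c0 : 0 < c := mul_pos (by omega) (by omega)
  have e0 : i * u ^ 2 = c * (((q + 1) * u - q) * ((q + 1) * u - q + 1)) := by
    apply mul_left_cancel₀ (pow_ne_zero 2 q1)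
    linear_combination h
  have u0 : u ≠ 0 := by
    rintro rfl
    exact (mul_ne_zero c0.ne' (mul_ne_zero y0 y1)) (by rw [← e0]; simp)
  obtain ⟨w, hw⟩ : ∃ w : ℤ, w = (q + 1) ^ 2 * u - (q + 1) * (2 * q - 1) := ⟨_, rfl⟩
  have e1 : i * u ^ 2 = c * (c + u * w) := by rw [e0, hw, hc]; ring
  obtain ⟨g, u1, c', g0, cop, rfl, e2⟩ := Int.exists_gcd_one' (Int.gcd_pos_of_ne_zero_left c u0)
  have cop' : IsCoprime u1 c' := Int.isCoprime_iff_gcd_eq_one.2 cop
  have g1 : (g : ℤ) ≠ 0 := by omega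
  have e3 : i * u1 ^ 2 = c' * (c' + u1 * w) := by
    apply mul_left_cancel₀ (pow_ne_zero 2 g1)
    rw [e2] at e1
    linear_combination e1
  have v1 : IsUnit u1 := (cop'.mul_right cop').isUnit_of_dvd
    ⟨i * u1 - c' * w, by linear_combination -e3⟩
  have uu : u1 * u1 = 1 := by rcases Int.isUnit_iff.1 v1 with rfl | rfl <;> rfl
  have e4 : (i : ℤ) = c' * (c' + u1 * w) := by linear_combination e3 - i * uu
  have c'0 : 0 < c' := pos_of_mul_pos_left (e2 ▸ c0) (by omega)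
  have d1 : c' ∣ m := by
    have k1 : IsCoprime c' (q * (2 * 2)) := IsCoprime.of_isCoprime_of_dvd_left
      (IsCoprime.mul_right ⟨1, -a, by rw [ia']; ring⟩ (c2.symm.mul_right c2.symm)) ⟨_, e4⟩
    exact k1.dvd_of_dvd_mul_left ⟨g, by rw [← e2, hc, hq']; ring⟩
  have d2 : (2 * m + 1 : ℤ) ∣ (c' - 1) * (c' + 1) :=
    ⟨b - c' * u1 * 2 * ((q + 1) * (u1 * g) - (2 * q - 1)), by
      linear_combination ib' - e4 - c' * u1 * hw - c' * u1 * ((q + 1) * (u1 * g) - (2 * q - 1)) * hq'⟩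
  obtain rfl : c' = 1 := jt_aux c'0 (by omega) d1 d2
  have : (q : ℤ) ∣ u1 := ⟨a - u1 * ((q + 1) ^ 2 * u1 * (q - 1) - 2 * q - 1), by
    rw [one_mul] at e2
    linear_combination ia' - e4 - u1 * hw + (q + 1) ^ 2 * u1 * u1 * (e2 - hc)⟩
  have := Int.le_of_dvd (by decide) (this.trans (⟨u1, uu.symm⟩ : u1 ∣ 1))
  omega

namespace JG

variable {L : G → Subgroup G} {q p n m N : ℕ} {s t u w a b d g x y : G} {T X Y P D V : Subgroup G}
  {μ φ F : G → ℂ} (h : JG L q p n m) (ht : Iv t)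
include h ht

theorem memT (hX : X ≤ L t) : y ∈ zpowers t ⊔ X ↔ y ∈ X ∨ t * y ∈ X := by
  have n : zpowers t ≤ 𝒩 X := zpowers_le.2 (mem_normalizer_of_forall fun y hy => by
    rwa [h.comm t ht y (hX hy), mul_inv_cancel_right])
  rw [mem_sup_of_le_normalizer_right n]
  constructor
  · rintro ⟨a, ha, b, hb, rfl⟩
    rcases (mem_zp_inv ht.ss).1 ha with rfl | rfl
    · left; rwa [one_mul]
    · right; rwa [ht.sl]
  · rintro (e | e)
    · exact ⟨1, one_mem _, y, e, one_mul y⟩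
    · exact ⟨t, mem_zpowers t, _, e, ht.sl y⟩

theorem not_memX (hX : X ≤ L t) (hy : y ∈ X) : t * y ∉ X := fun e => h.not_mem ht (hX hy) (hX e)

omit h ht in
theorem tmem (hy : y ∈ X) : t * y ∈ zpowers t ⊔ X :=
  mul_mem (mem_sup_left (mem_zpowers t)) (mem_sup_right hy)

omit h in
theorem sum_t (X : Subgroup G) (f : G → ℂ) :
    ∑ y ∈ fs {y | t * y ∈ X}, f y = ∑ y ∈ fs (X : Set G), f (t * y) :=
  (sum_fs_equiv (A := X) (B := {y | t * y ∈ X}) (Equiv.mulLeft t) (by simp [ht.sl]) f).symm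

theorem sum_T (hX : X ≤ L t) (f : G → ℂ) : ∑ y ∈ fs ((zpowers t ⊔ X : Subgroup G) : Set G), f y =
    ∑ y ∈ fs (X : Set G), (f y + f (t * y)) := by
  rw [show ((zpowers t ⊔ X : Subgroup G) : Set G) = (X : Set G) ∪ {y | t * y ∈ X} from
    Set.ext fun _ => h.memT ht hX, sum_fs_union (B := {y | t * y ∈ X})
      (Set.disjoint_left.2 fun y a => h.not_memX ht hX a), sum_t ht, Finset.sum_add_distrib]

theorem card_T (hX : X ≤ L t) : (♯(zpowers t ⊔ X) : ℂ) = 2 * ♯X := by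
  have := h.sum_T ht hX fun _ => 1
  rw [sum_sub_const, sum_sub_const] at this
  linear_combination this

theorem exists_phi (hX : X ≤ L t) (hμ : VCh (zpowers t ⊔ X) μ) : ∃ φ, VCh (zpowers t ⊔ X) φ ∧
    (∀ b ∈ X, φ (t * b) = 2 * μ (t * b)) ∧ ∀ y, φ y ≠ 0 → t * y ∈ X := by
  have n : X ⊴ zpowers t ⊔ X := ⟨le_sup_right, sup_le (zpowers_le.2
    (mem_normalizer_of_forall fun y hy => by
      rwa [h.comm t ht y (hX hy), mul_inv_cancel_right])) le_normalizer⟩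
  have e := ind_of_inert n.le (res_sp X μ) (hμ.cf.res_nrm n).le_inert
  have e2 : (X.relIndex (zpowers t ⊔ X) : ℂ) = 2 := by
    apply mul_left_cancel₀ (card_ne_zero_c X)
    rw [card_mul_ri_c n.le, h.card_T ht hX, mul_comm]
  rw [e2] at e
  refine ⟨(2 : ℕ) • μ - (2 : ℂ) • res X μ, (hμ.nsmul 2).sub
    (e ▸ (hμ.res n.le).ind n.le), fun b hb => ?_, fun y hy => ?_⟩
  · simp [res_of_not_mem (h.not_memX ht hX hb)]
  · by_cases e1 : y ∈ X
    · simp [res_of_mem e1] at hy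
    · refine ((h.memT ht hX).1 (hμ.sp.mem fun e => hy ?_)).resolve_left e1
      simp [res_of_not_mem e1, e]

theorem dot_t (hY : Y ≤ X) (hX : X ≤ L t) (φ2 : ∀ y, φ y ≠ 0 → t * y ∈ Y) (F : G → ℂ) :
    dot (zpowers t ⊔ X) φ F * (2 * ♯X) = ∑ b ∈ fs (Y : Set G), φ (t * b) * conj (F (t * b)) := by
  rw [dot_of_sp (A := {y | t * y ∈ Y}) (fun y hy => by_contra fun e => hy (φ2 y e))
    fun y hy => (h.memT ht hX).2 (Or.inr (hY hy)), sum_t ht, h.card_T ht hX, mul_comm,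
    mul_inv_cancel_left₀ (mul_ne_zero two_ne_zero (card_ne_zero_c X))]

theorem fus_t (ha : a * t = t * a) (oa : Odd (orderOf a)) (hb : b * t = t * b) (ob : Odd (orderOf b))
    (e : t * (y⁻¹ * (t * a) * y) = b) : y * t = t * y ∧ y⁻¹ * a * y = b := by
  have o := oa.mul ob
  have e1 : y * t = t * y := by
    have e2 := congrArg (· ^ (orderOf a * orderOf b)) ((ht.sl _).symm.trans (congrArg (t * ·) e))
    rwa [show y⁻¹ * (t * a) * y = y⁻¹ * (t * a) * y⁻¹⁻¹ by rw [inv_inv], conj_pow,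
      Commute.mul_pow ha.symm, Commute.mul_pow hb.symm, ht.pow o, pow_mul, pow_orderOf_eq_one,
      one_pow, mul_comm (orderOf a), pow_mul, pow_orderOf_eq_one, one_pow, mul_one, inv_inv,
      mul_assoc, inv_mul_eq_iff_eq_mul, eq_comm] at e2
  refine ⟨e1, ?_⟩
  rw [← e, ← mul_assoc y⁻¹, (Commute.inv_left (e1 : Commute y t)).eq, mul_assoc t, mul_assoc t, ht.sl]

section
variable (c : SC L m t s T N) (hφ : Sp X φ) (φ2 : ∀ y, φ y ≠ 0 → t * y ∈ T)
include c hφ φ2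

theorem ind_t : ind X ⊤ φ t * ♯X = 8 * (q * n * m) * φ t := by
  rw [ind_apply_on hφ (S := 𝒞₁ t) fun y hy => mem_c1.2 (h.fus_t ht (a := 1) (by simp) (by simp)
      (h.sc_t c (φ2 _ hy)) (c.od (φ2 _ hy)) (by rw [mul_one])).1,
    sum_fs_congr (f' := fun _ => φ t) fun y hy => by
      rw [mul_assoc, ← mem_c1.1 hy, inv_mul_cancel_left], sum_sub_const, h.cardC ht, mul_comm,
    mul_inv_cancel_left₀ (card_ne_zero_c X)]
  push_cast; ring

theorem ind_odd (og : Odd (orderOf g)) : ind X ⊤ φ g = 0 :=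
  ind_apply_zero hφ fun y => by_contra fun e => by
    have e1 := (h.pow_mem_iff ht (g := y⁻¹ * g * y) (by
      rw [← ht.sl (y⁻¹ * g * y), mul_assoc t, h.sc_t c (φ2 _ e)]) og).1 (by
        rw [show y⁻¹ * g * y = y⁻¹ * g * y⁻¹⁻¹ by rw [inv_inv], conj_pow, pow_orderOf_eq_one]
        simp)
    exact h.not_mem ht e1 (c.le (φ2 _ e))

theorem ind_cop {M : ℕ} (hc : M.Coprime N) (om : Odd M) (ha : a * t = t * a) (a1 : a ≠ 1)
    (aM : a ^ M = 1) : ind X ⊤ φ (t * a) = 0 :=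
  ind_apply_zero hφ fun y => by_contra fun e => by
    have e1 := φ2 _ e
    rw [← (h.fus_t ht ha (odd_of_pow' om aM) (h.sc_t c e1) (c.od e1) rfl).2] at e1
    exact a1 (conj_eq_one_iff.1 (eq_one_of_pow_coprime hc (conj_pow_one aM y⁻¹) (by
      rw [inv_inv]
      exact orderOf_dvd_iff_pow_eq_one.1 (c.card ▸ T.orderOf_dvd_natCard e1))))

end

theorem acnt_t : acnt t = 2 * (q * n) := by
  have cI : {k | k ∈ L t ∧ k * k = 1 ∧ k ≠ 1}.ncard = q * n := by
    obtain ⟨W, w, tt⟩ := (h.ls t ht).tW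
    obtain ⟨v, hv, v1, v2⟩ := tt.exists_ord Nat.prime_two (Dvd.intro _ rfl)
    rw [sq] at v2
    have e1 : W.relIndex (𝒞₁ v ⊓ L t) = 2 := by
      refine relIndex_eq_two_iff.2 ⟨w, ⟨mem_c1.2 (mul_inv_eq_iff_eq_mul.1 (by
        rw [tt.inv' hv, inv_self_of v2])), tt.uK⟩, fun b hb => ?_⟩
      rcases tt.nrm' hb.2 hv v1 (by rwa [mem_c1.1 hb.1, mul_inv_cancel_right]) with e | e
      · exact Or.inr ⟨e, fun e' => tt.nu (by simpa using mul_mem (inv_mem e) e')⟩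
      · exact Or.inl ⟨by simpa [tt.uinv, inv_self_of (tt.sq_of e)] using inv_mem e,
          fun e' => tt.nu (by simpa using mul_mem e (inv_mem e'))⟩
    have e2 := card_mul_relIndex (show W ≤ 𝒞₁ v ⊓ L t from fun x hx => ⟨mem_c1.2 (tt.ab hx hv),
      tt.le hx⟩)
    have e3 := card_inf_mul_relIndex (𝒞₁ v) (L t)
    rw [← e2, e1, tt.card, (h.ls t ht).card, ← ncard_class,
      show 4 * (q * n * m) = 2 * m * 2 * (q * n) by ring] at e3
    rw [← Nat.eq_of_mul_eq_mul_left (by have := h.num.m3; omega) e3]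
    congr 1
    ext k
    refine ⟨fun ⟨a, b, c⟩ => (h.ls t ht).iconj (tt.le hv) a v2 v1 b c, ?_⟩
    rintro ⟨g, hg, rfl⟩
    exact ⟨mul_mem (mul_mem hg (tt.le hv)) (inv_mem hg), conj_sq v2 g, by simpa⟩
  have e : {i : G | (i * i = 1 ∧ i ≠ 1) ∧ i * t * (i * t) = 1 ∧ i * t ≠ 1} =
      {k | k ∈ L t ∧ k * k = 1 ∧ k ≠ 1} ∪ (t * ·) '' {k | k ∈ L t ∧ k * k = 1 ∧ k ≠ 1} := by
    ext i
    constructor
    · rintro ⟨⟨a, b⟩, c, d⟩
      have e : i * t = t * i := by rw [← inv_self_of c, mul_inv_rev, ht.inv, inv_self_of a]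
      obtain ⟨k, hk, rfl | rfl⟩ := h.exists_K ht e
      · exact Or.inl ⟨hk, a, b⟩
      · exact Or.inr ⟨k, ⟨hk, by rwa [h.tk_sq ht hk] at a, by rintro rfl; simp [ht.ss] at d⟩, rfl⟩
    · rintro (⟨a, b, c⟩ | ⟨k, ⟨a, b, c⟩, rfl⟩)
      · exact ⟨⟨b, c⟩, by rw [← h.comm t ht i a, h.tk_sq ht a, b], by
          rw [← h.comm t ht i a]; exact fun e => h.not_mem ht a (e ▸ one_mem _)⟩
      · simp only []
        exact ⟨⟨by rw [h.tk_sq ht a, b], fun e => h.not_mem ht a (e ▸ one_mem _)⟩,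
          by rw [mul_assoc t, ← h.comm t ht k a, ht.sl]; exact ⟨b, c⟩⟩
  rw [acnt, e, Set.ncard_union_eq (Set.disjoint_left.2 (by
    rintro _ ⟨a, -⟩ ⟨k, ⟨b, -⟩, rfl⟩; exact h.not_mem ht b a)),
    Set.ncard_image_of_injective _ (mul_right_injective t), cI]
  push_cast; ring

section
variable (c : SC L m t s T N) (hc : ∀ y ∈ T, y ≠ 1 → ∀ g, g * y = y * g → g * t = t * g)
include c hc

theorem fus_sc (ha : a ∈ T) (a1 : a ≠ 1) (e : y⁻¹ * a * y ∈ T) : y * t = t * y := by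
  have e1 := conj_comm (h.sc_t c ha).symm y⁻¹
  have i2 := ht.conj y⁻¹
  rw [inv_inv] at e1 i2
  have a2 : y⁻¹ * a * y ≠ 1 := by rwa [mul_assoc, Ne, inv_mul_eq_one, right_eq_mul]
  have e2 := hc _ e a2 _ e1
  rcases h.sc_cent c e a2 e1 e2 with e3 | e3
  · exact absurd (eq_one_of_odd (c.od e3) i2.ss) i2.ne
  · have := eq_inv_of_mul_eq_one_right (eq_one_of_odd (c.od e3) (by
      rw [mul_assoc, ← mul_assoc _ t, e2, mul_assoc, i2.ss, mul_one, ht.ss]))
    rwa [ht.inv, mul_assoc, inv_mul_eq_iff_eq_mul, eq_comm] at this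

theorem acnt_sc (he : g ∈ zpowers t ⊔ T) (h1 : g * g ≠ 1) : acnt g = 2 * N := by
  have ee : g * g ∈ T := by
    rcases (h.memT ht c.le).1 he with e1 | e1
    · exact mul_mem e1 e1
    · rw [← ht.sl g, h.tk_sq ht (c.le e1)]; exact mul_mem e1 e1
  have sq : ∀ a ∈ zpowers t ⊔ T, s * a * (s * a) = 1 ∧ s * a ≠ 1 := fun a ha => by
    rcases (h.memT ht c.le).1 ha with e1 | e1
    · exact ⟨sq_of_inv c.kp.ww (c.inv a e1), fun e => c.kp.w1 (eq_one_of_odd
        (c.od (eq_inv_of_mul_eq_one_left e ▸ inv_mem e1)) c.kp.ww)⟩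
    · have uK := mul_mem c.sL (c.le e1)
      rw [show s * a = t * (s * (t * a)) by rw [← mul_assoc s, c.kp.comm, mul_assoc, ht.sl],
        h.tk_sq ht uK]
      exact ⟨sq_of_inv c.kp.ww (c.inv _ e1), fun e => h.not_mem ht uK (e ▸ one_mem _)⟩
  have e1 : {i : G | (i * i = 1 ∧ i ≠ 1) ∧ i * g * (i * g) = 1 ∧ i * g ≠ 1} =
      (s * ·) '' (zpowers t ⊔ T : Subgroup G) := by
    ext i
    constructor
    · rintro ⟨⟨a, -⟩, e, -⟩
      have := inv_pow_of (inv_of_sq a e) 2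
      rw [pow_two] at this
      refine ⟨s * i, ?_, c.kp.symm.sl i⟩
      obtain ⟨k, hk, rfl | rfl⟩ := h.exists_K ht (h.fus_sc ht c hc (y := i) ee h1 (by
        have e2 := inv_mem ee
        rw [← this] at e2
        rwa [inv_self_of a] at e2 ⊢))
      · exact mem_sup_right (c.ivs _ ee h1 _ hk a this)
      · rw [h.conj_tk ht hk (c.le ee)] at this
        rw [h.tk_sq ht hk] at a
        rw [← mul_assoc, c.kp.comm, mul_assoc]
        exact tmem (c.ivs _ ee h1 _ hk a this)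
    · rintro ⟨a, ha, rfl⟩
      simp only []
      exact ⟨sq a ha, by rw [mul_assoc s]; exact sq _ (mul_mem ha he)⟩
  rw [acnt, e1, Set.ncard_image_of_injective _ (mul_right_injective s), ncard_sub, h.card_T ht c.le,
    c.card]

end

theorem exists_mu (tt : Tor (L t) T u n) :
    ∃ μ, Lin (zpowers t ⊔ T) μ ∧ μ t = 1 ∧ ∃ d ∈ T, μ d ≠ 1 := by
  have ab : Abel (zpowers t ⊔ T) := abel_sup (cyc_zpowers t).abel (Cyc.abel tt.cyc)
    (zpowers_le.2 fun y hy => (h.comm t ht y (tt.le hy)).symm)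
  obtain ⟨μ, hμ⟩ := exists_irrKD (H := T) (ab.nrm le_sup_left) fun e => by
    obtain ⟨d, hd, d1, -⟩ := tt.exists_ord Nat.prime_three h.n3
    exact h.nm t ht (((mem_zp_inv ht.ss).1 (e hd)).resolve_left d1 ▸ tt.le hd)
  obtain ⟨a, b, c⟩ := mem_irrKD.1 hμ
  have l := a.lin_of_abel ab
  exact ⟨μ, l, l.mem_cker.1 (b (mem_zpowers t)), by_contra fun hn => c fun d hd =>
    l.mem_cker.2 (by_contra fun e => hn ⟨d, hd, e⟩)⟩

section mu

variable (tt : Tor (L t) T u n) (hμ : Lin (zpowers t ⊔ T) μ) (μt : μ t = 1) (μD : ∃ d ∈ T, μ d ≠ 1)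
include tt hμ μt μD

theorem sum_mu (a b c : ℂ) : ∑ d ∈ fs (T : Set G), (a * μ d + b * (μ d * μ d) + c * μ d⁻¹) = 0 := by
  have m : ∀ {d}, d ∈ T → d ∈ zpowers t ⊔ T := fun e => mem_sup_right e
  obtain ⟨e, he, e1⟩ := μD
  have s1 : ∑ d ∈ fs (T : Set G), μ d = 0 := by
    have := sum_mul_left he μ
    rw [sum_fs_congr fun d hd => hμ.map_mul (m he) (m hd), ← Finset.mul_sum] at this
    exact (mul_eq_zero.1 (by linear_combination this)).resolve_left (sub_ne_zero.2 e1)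
  have s2 : ∑ d ∈ fs (T : Set G), μ d * μ d = 0 := by
    have := sum_mul_left he fun d => μ d * μ d
    rw [sum_fs_congr (f' := fun d => μ e * μ e * (μ d * μ d)) fun d hd => by
      rw [hμ.map_mul (m he) (m hd)]; ring, ← Finset.mul_sum] at this
    refine (mul_eq_zero.1 (by linear_combination this)).resolve_left
      (sub_ne_zero.2 fun (e2 : μ e * μ e = 1) => e1 ?_)
    obtain ⟨k, hk⟩ := h.T_odd tt he
    have e3 := hμ.pow_eq_one (m he) (pow_orderOf_eq_one e)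
    rwa [hk, pow_succ, pow_mul, sq, e2, one_pow, one_mul] at e3
  rw [Finset.sum_add_distrib, Finset.sum_add_distrib, ← Finset.mul_sum, ← Finset.mul_sum,
    ← Finset.mul_sum, sum_inv, s1, s2]
  simp

theorem mu_t (hb : b ∈ T) : μ (t * b) = μ b := by
  rw [hμ.map_mul (mem_sup_left (mem_zpowers t)) (mem_sup_right hb), μt, one_mul]

theorem dot_psi {a b c : ℂ}
    (f : ∀ d ∈ T, d ≠ 1 → conj (F d) + conj (F (t * d)) = a + b * μ d + c * μ d⁻¹) :
    dot (zpowers t ⊔ T) (cf1 (zpowers t ⊔ T) - μ) F * 2 = a - c := by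
  have e2 := h.sum_mu ht tt hμ μt μD (b - a) (-b) c
  have e3 := sum_sub_const T (a - c)
  rw [dot_def, h.sum_T ht tt.le, h.card_T ht tt.le, sum_fs_congr (f' := fun d =>
    ((b - a) * μ d + -b * (μ d * μ d) + c * μ d⁻¹) + (a - c)) fun d hd => by
      have a1 : d ∈ zpowers t ⊔ T := mem_sup_right hd
      simp only [Pi.sub_apply, cf1_of_mem a1, cf1_of_mem (tmem hd), h.mu_t ht tt hμ μt μD hd]
      by_cases d1 : d = 1
      · simp only [d1, hμ.one, inv_one]; ring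
      · linear_combination (1 - μ d) * f d hd d1 - c * hμ.mul_inv a1,
    Finset.sum_add_distrib, e2, e3]
  have n1 := card_ne_zero_c T
  field_simp
  ring

theorem dot_phi (φ1 : ∀ b ∈ T, φ (t * b) = 2 * μ (t * b)) (φ2 : ∀ y, φ y ≠ 0 → t * y ∈ T)
    {c0 a b c : ℂ} (f0 : conj (F t) = c0)
    (f2 : ∀ d ∈ T, d ≠ 1 → conj (F (t * d)) = a + b * μ d + c * μ d⁻¹) :
    dot (zpowers t ⊔ T) φ F * n = c0 + c * n - a - b - c := by
  have e1 := h.dot_t ht le_rfl tt.le φ2 F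
  have e2 := h.sum_mu ht tt hμ μt μD a b 0
  have e3 := sum_sub_const T c
  rw [sum_sub_sharp] at e1 e2 e3
  rw [sum_fs_congr (f' := fun d => 2 * (a * μ d + b * (μ d * μ d) + 0 * μ d⁻¹ + c)) fun d hd => by
      rw [φ1 d hd.1, h.mu_t ht tt hμ μt μD hd.1, f2 d hd.1 hd.2]
      linear_combination 2 * c * hμ.mul_inv (mem_sup_right hd.1), ← Finset.mul_sum,
    Finset.sum_add_distrib, φ1 1 (one_mem _), mul_one, μt, f0] at e1
  simp only [inv_one, hμ.one, tt.card] at e1 e2 e3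
  linear_combination e1 / 2 + e2 + e3

end mu

theorem exists_phiN (B : Bor (L t) P D w q) : ∃ φ, VCh (zpowers t ⊔ (P ⊔ D)) φ ∧
    φ t = 2 * (q - 1) ∧ (∀ x ∈ P, x ≠ 1 → φ (t * x) = -2) ∧ ∀ y, φ y ≠ 0 → t * y ∈ P := by
  obtain ⟨φ, hφ, φ1, φ2⟩ := h.exists_phi ht B.DK (vch_cf1 _)
  obtain ⟨ψ, hψ, ψ1, ψ2⟩ := h.exists_phi ht B.BK (vch_cf1 _)
  have le : zpowers t ⊔ D ≤ zpowers t ⊔ (P ⊔ D) := sup_le_sup_left le_sup_right _
  have ψ3 : ∀ b ∈ P ⊔ D, ψ (t * b) = 2 := fun b hb => by rw [ψ1 b hb, cf1_of_mem (tmem hb), mul_one]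
  have φ3 : ∀ b ∈ D, φ (t * b) = 2 := fun b hb => by rw [φ1 b hb, cf1_of_mem (tmem hb), mul_one]
  have cn : ∀ y ∈ zpowers t ⊔ (P ⊔ D), ∃ k ∈ P ⊔ D, (k ∈ D → y ∈ zpowers t ⊔ D) ∧
      ∀ b ∈ L t, (t * (y⁻¹ * (t * b) * y) = k⁻¹ * b * k) := fun y hy => by
    have e : ∀ k ∈ P ⊔ D, ∀ b, t * (k⁻¹ * (t * b) * k) = k⁻¹ * b * k := fun k hk b => by
      rw [← mul_assoc k⁻¹, ← h.comm t ht _ (B.BK (inv_mem hk)), mul_assoc t, mul_assoc t, ht.sl]
    rcases (h.memT ht B.BK).1 hy with e1 | e1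
    · exact ⟨y, e1, mem_sup_right, fun b _ => e y e1 b⟩
    · refine ⟨_, e1, fun e => (h.memT ht B.DK).2 (Or.inr e), fun b hb => ?_⟩
      rw [← e _ e1, show (t * y)⁻¹ * (t * b) * (t * y) = y⁻¹ * (b * t) * y by group,
        h.comm t ht b hb]
  have hi := hφ.ind le
  refine ⟨_, hi.sub hψ, ?_, fun x hx x1 => ?_, fun y hy => by_contra fun hn => hy ?_⟩
  · have e := ψ3 1 (one_mem _)
    rw [mul_one] at e
    rw [Pi.sub_apply, e, hφ.sp.ind_apply, sum_fs_congr (f' := fun _ => 2) fun y hy => by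
      obtain ⟨k, -, -, e⟩ := cn y hy
      have := e 1 (one_mem _)
      rw [mul_one, mul_one, inv_mul_cancel] at this
      rw [← ht.sl (y⁻¹ * t * y), this, φ3 1 (one_mem _)], sum_sub_const, h.card_T ht B.DK,
      h.card_T ht B.BK, B.cardB]
    have := card_ne_zero_c D
    push_cast
    field_simp
  · rw [Pi.sub_apply, ψ3 x (mem_sup_left hx), hφ.sp.ind_apply, sum_fs_eq_zero fun y hy => by
      obtain ⟨k, hk, -, e⟩ := cn y hy
      by_contra hn
      have := φ2 _ hn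
      rw [e x (B.PK hx)] at this
      have := B.PD (conj_mem_of_mem_normalizer' (B.BN hk) hx) this
      exact x1 (by rwa [mul_assoc, inv_mul_eq_one, right_eq_mul] at this)]
    simp
  by_cases e : t * y ∈ P ⊔ D
  · obtain ⟨x, hx, d, hd, e1⟩ := B.memB.1 e
    have d1 : d ≠ 1 := by rintro rfl; exact hn (by rwa [← e1, mul_one])
    obtain ⟨z, hz, e2⟩ := B.conj_xd hx hd d1
    rw [Pi.sub_apply, ← ht.sl y, ψ3 _ e, ← e1, ← e2, ← mul_assoc t, ← mul_assoc t,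
      h.comm t ht z (B.PK hz), mul_assoc z, hi.cf.cnj z (mem_sup_right (mem_sup_left hz)),
      hφ.sp.ind_apply, ← sum_fs_subset (A := (zpowers t ⊔ D : Subgroup G)) le fun y hy hn => by
        obtain ⟨k, hk, e1, e⟩ := cn y hy
        by_contra h0
        have := φ2 _ h0
        rw [e d (B.DK hd)] at this
        exact hn (e1 (B.memD_of hk hd d1 this)),
      sum_fs_congr fun y hy => hφ.cf.cnj' hy _, sum_sub_const,
      inv_mul_cancel_left₀ (card_ne_zero_c _), φ3 d hd, sub_self]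
  · rw [Pi.sub_apply, (by_contra fun e1 => e (ψ2 y e1) : ψ y = 0), hφ.sp.ind_apply,
      sum_fs_eq_zero fun z hz => by_contra fun h0 => e (by
        have := mul_mem (mul_mem hz (tmem (t := t) (X := P ⊔ D) (mem_sup_right (φ2 _ h0))))
          (inv_mem hz)
        rw [ht.sl, show z * (z⁻¹ * y * z) * z⁻¹ = y by group] at this
        refine ((h.memT ht B.BK).1 this).resolve_left fun e1 => ?_
        have e2 := conj_mem_of_mem_normalizer' (sup_le (zpowers_le.2 (mem_normalizer_of_forall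
          fun y hy => by rwa [h.comm t ht y hy, mul_inv_cancel_right])) (B.BK.trans le_normalizer) hz)
          (B.BK e1)
        exact h.not_mem ht e2 (B.DK (φ2 _ h0)))]
    simp

theorem dot_phiN (B : Bor (L t) P D w q) (cD : ♯D = 2 * m) (φt : φ t = 2 * (q - 1))
    (φ1 : ∀ x ∈ P, x ≠ 1 → φ (t * x) = -2) (φ2 : ∀ y, φ y ≠ 0 → t * y ∈ P) {c0 c1 : ℂ}
    (f0 : conj (F t) = c0) (f1 : ∀ x ∈ P, x ≠ 1 → conj (F (t * x)) = c1) :
    dot (zpowers t ⊔ (P ⊔ D)) φ F * q = 2 * (c0 - c1) := by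
  have e1 := h.dot_t ht le_sup_left B.BK φ2 F
  have e3 := sum_sub_const P (-2 * c1)
  rw [sum_sub_sharp] at e1 e3
  rw [sum_fs_congr (f' := fun _ => -2 * c1) fun x hx => by rw [φ1 x hx.1 hx.2, f1 x hx.1 hx.2],
    mul_one, φt, f0, B.cardB, cD] at e1
  rw [B.cP] at e3
  have e : (q : ℂ) = 4 * m + 1 := by exact_mod_cast h.eps.symm
  apply mul_left_cancel₀ (a := (4 * m : ℂ)) (by have := h.num.m3; norm_cast; omega)
  push_cast at e1
  linear_combination e1 + e3 + 2 * (c0 - c1) * e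

omit ht in
theorem false : False := by
  obtain ⟨t, ht⟩ := h.ex
  obtain ⟨T, u, tt⟩ := (h.ls t ht).tT
  obtain ⟨P, D, w, b⟩ := (h.ls t ht).bt h.eps
  obtain ⟨V, pb⟩ := pb_of ht b (h.comm t ht) (h.nm t ht)
  have B := b.bor
  have cT := h.sc_tor ht tt
  obtain ⟨s, cP⟩ : ∃ s, SC L m t s P q :=
    let ⟨_, _, k, e⟩ := pb.ex; (h.pb_sd pb k e).elim (fun e => ⟨_, e⟩) fun e => ⟨_, e⟩
  have hT : ∀ y ∈ T, y ≠ 1 → ∀ g, g * y = y * g → g * t = t * g := fun y hy y1 g =>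
    h.cT ht (tt.pow hy) y1 (h.sc_t cT hy)
  have hP : ∀ y ∈ P, y ≠ 1 → ∀ g, g * y = y * g → g * t = t * g := fun y hy y1 g => h.cPx pb hy y1
  obtain ⟨μ, hμ, μt, μD⟩ := h.exists_mu ht tt
  obtain ⟨φ, hφ, φ1, φ2⟩ := h.exists_phi ht tt.le hμ.vch
  obtain ⟨θ, hθ, θt, θ1, θ2⟩ := h.exists_phiN ht B
  have μT := fun d hd => h.mu_t (b := d) ht tt hμ μt μD hd
  have cμ : ∀ d, conj (μ d) = μ d⁻¹ := fun d => (hμ.vch.inv d).symm
  have nu : u ∉ zpowers t ⊔ T := fun e => ((h.memT ht tt.le).1 e).elim tt.nu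
    fun e => h.not_mem ht tt.uK (tt.le e)
  have ut : ∀ d ∈ T, u⁻¹ * (t * d) * u = t * d⁻¹ := fun d hd => by
    rw [tt.uinv, ← mul_assoc, ← h.comm t ht u tt.uK, ← tt.inv d hd]; simp [mul_assoc]
  have nT : ∀ a ∈ T, a ≠ 1 → ∀ y, y * t = t * y → y⁻¹ * a * y ∈ T →
      y ∈ zpowers t ⊔ T ∨ u⁻¹ * y ∈ zpowers t ⊔ T := fun a ha a1 y e1 e2 => by
    rw [tt.uinv]
    obtain ⟨k, hk, rfl | rfl⟩ := h.exists_K ht e1
    · exact (tt.nrm _ hk a ha a1 e2).imp mem_sup_right mem_sup_right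
    · rw [← mul_assoc u, cT.kp.comm, mul_assoc t]
      refine (tt.nrm _ hk a ha a1 ?_).imp tmem tmem
      rwa [mul_inv_rev, mul_assoc k⁻¹, ← mul_assoc _ t, mul_assoc k⁻¹, mul_assoc t⁻¹, h.sc_t cT ha,
        inv_mul_cancel_left] at e2
  have eq : (q : ℂ) = 4 * m + 1 := by exact_mod_cast h.eps.symm
  have en' : n = 2 * m + 1 := by have := h.eps; have := h.num.rel; omega
  have en : (n : ℂ) = 2 * m + 1 := by exact_mod_cast en'
  have q0 : (q : ℂ) ≠ 0 := Nat.cast_ne_zero.2 (by have := h.num.big; omega)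
  have n0 : (n : ℂ) ≠ 0 := Nat.cast_ne_zero.2 (by omega)
  have m0 : (m : ℂ) ≠ 0 := Nat.cast_ne_zero.2 (by have := h.num.m3; omega)
  have hα := (hφ.ind le_top).sub (hθ.ind le_top)
  set α := ind (zpowers t ⊔ T) ⊤ φ - ind (zpowers t ⊔ (P ⊔ D)) ⊤ θ with eα
  have αt : α t = 2 * (1 - q) := by
    have e1 := h.ind_t ht cT hφ.sp φ2
    have e2 := h.ind_t ht cP hθ.sp θ2
    have e3 := φ1 1 (one_mem _)
    rw [mul_one, μt] at e3
    rw [h.card_T ht tt.le, tt.card, e3] at e1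
    rw [h.card_T ht B.BK, B.cardB, b.tor.card, θt] at e2
    push_cast at e2
    apply mul_right_cancel₀ (mul_ne_zero (mul_ne_zero q0 n0) m0)
    rw [eα, Pi.sub_apply]
    linear_combination q * m / 2 * e1 - n / 4 * e2 - 2 * q * n * m * q * eq - 4 * q * n * m * (q - 1) * en
      + 2 * q * n * m * (q - 1) * eq
  have αx : ∀ x ∈ P, x ≠ 1 → α (t * x) = 2 := fun x hx x1 => by
    rw [eα, Pi.sub_apply, h.ind_cop ht cT hφ.sp φ2 h.num.pn h.num.op (h.sc_t cP hx) x1 (b.pw x hx),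
      ind_apply_one hθ.cf fun y hy => by
        have e := θ2 _ hy
        obtain ⟨e1, e2⟩ := h.fus_t ht (h.sc_t cP hx) (cP.od hx) (h.sc_t cP e) (cP.od e) rfl
        rw [← e2] at e
        obtain ⟨k, hk, rfl | rfl⟩ := h.exists_K ht e1
        · exact mem_sup_right (B.conjP hk hx x1 (mem_sup_left e))
        · refine tmem (B.conjP hk hx x1 (mem_sup_left ?_))
          rwa [mul_inv_rev, mul_assoc k⁻¹, ← mul_assoc _ t, mul_assoc k⁻¹, mul_assoc t⁻¹,
            h.sc_t cP hx, inv_mul_cancel_left] at e,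
      θ1 x hx x1]
    ring
  have αd : ∀ d ∈ T, d ≠ 1 → α (t * d) = 2 * μ d + 2 * μ d⁻¹ := fun d hd d1 => by
    rw [eα, Pi.sub_apply, h.ind_cop ht cP hθ.sp θ2 h.num.qn.symm h.num.on (h.sc_t cT hd) d1
      (tt.pow hd), ind_apply_two hφ.cf nu fun y hy => by
        have e := φ2 _ hy
        obtain ⟨e1, e2⟩ := h.fus_t ht (h.sc_t cT hd) (cT.od hd) (h.sc_t cT e) (cT.od e) rfl
        exact nT d hd d1 y e1 (e2 ▸ e),
      ut d hd, φ1 d hd, φ1 _ (inv_mem hd), μT d hd, μT _ (inv_mem hd), sub_zero]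
  have α0 : ∀ d ∈ T, α d = 0 := fun d hd => by
    rw [eα, Pi.sub_apply, h.ind_odd ht cT hφ.sp φ2 (cT.od hd), h.ind_odd ht cP hθ.sp θ2 (cT.od hd),
      sub_zero]
  have dα : ∀ F, CF ⊤ F → ∀ c0 c1 a b c : ℂ, conj (F t) = c0 →
      (∀ x ∈ P, x ≠ 1 → conj (F (t * x)) = c1) →
      (∀ d ∈ T, d ≠ 1 → conj (F (t * d)) = a + b * μ d + c * μ d⁻¹) →
      dot ⊤ α F * (q * n) = q * (c0 + c * n - a - b - c) - n * (2 * (c0 - c1)) :=
    fun F hF c0 c1 a b' c f0 f1 f2 => by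
      rw [eα, dot_sub_left, dot_ind_left le_top _ hF, dot_ind_left le_top _ hF]
      linear_combination q * h.dot_phi ht tt hμ μt μD φ1 φ2 f0 f2 -
        n * h.dot_phiN ht B b.tor.card θt θ1 θ2 f0 f1
  have hψ := (vch_cf1 (zpowers t ⊔ T)).sub hμ.vch
  have dψ := fun F a b c => h.dot_psi (F := F) ht tt hμ μt μD (a := a) (b := b) (c := c)
  set ψ := cf1 (zpowers t ⊔ T) - μ with eψ
  have ψ1 : ∀ d ∈ T, ψ d = 1 - μ d ∧ ψ (t * d) = 1 - μ d := fun d hd => by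
    simp only [eψ, Pi.sub_apply, cf1_of_mem (mem_sup_right hd : d ∈ zpowers t ⊔ T),
      cf1_of_mem (tmem hd), μT d hd, and_self]
  have ψ2 : ∀ y, ψ y ≠ 0 → y * y ∈ T ∧ y * y ≠ 1 := fun y hy => by
    rcases (h.memT ht tt.le).1 (hψ.sp.mem hy) with e | e
    · exact ⟨mul_mem e e, fun e1 => hy (by
        rw [(ψ1 y e).1, eq_one_of_odd (cT.od e) e1, hμ.one, sub_self])⟩
    · rw [← ht.sl y] at hy ⊢
      rw [h.tk_sq ht (tt.le e)]
      exact ⟨mul_mem e e, fun e1 => hy (by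
        rw [(ψ1 _ e).2, eq_one_of_odd (cT.od e) e1, hμ.one, sub_self])⟩
  have hγ := hψ.ind le_top
  set γ := ind (zpowers t ⊔ T) ⊤ ψ with eγ
  have sq : ∀ y g : G, y⁻¹ * g * y * (y⁻¹ * g * y) = y⁻¹ * (g * g) * y := fun y g => by group
  have γ0 : ∀ g, g * g = 1 → γ g = 0 := fun g e => ind_apply_zero hψ.sp fun y => by_contra
    fun e1 => (ψ2 _ e1).2 (by rw [sq, e, mul_one, inv_mul_cancel])
  have γ1 : ∀ g, g * g ∈ T → g * g ≠ 1 → γ g = ψ g + ψ (u⁻¹ * g * u) := fun g a b =>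
    ind_apply_two hψ.cf nu fun y hy => by
      have := (ψ2 _ hy).1
      rw [sq] at this
      exact nT _ a b y (h.fus_sc ht cT hT a b this) this
  have γd : ∀ d ∈ T, d ≠ 1 → conj (γ d) + conj (γ (t * d)) = 4 + -2 * μ d + -2 * μ d⁻¹ :=
    fun d hd d1 => by
      have a := mul_mem hd hd
      have b := h.T_sq tt hd d1
      rw [γ1 d a b, γ1 _ (by rwa [h.tk_sq ht (tt.le hd)]) (by rwa [h.tk_sq ht (tt.le hd)]), ut d hd,
        tt.uinv, tt.inv d hd, (ψ1 d hd).1, (ψ1 d hd).2, (ψ1 _ (inv_mem hd)).1,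
        (ψ1 _ (inv_mem hd)).2]
      simp only [map_add, map_sub, map_one, cμ, inv_inv]
      ring
  have hI : ∀ s : G, IsConj t s ↔ s * s = 1 ∧ s ≠ 1 := fun s =>
    ⟨fun e => by
      obtain ⟨g, rfl⟩ := isConj_iff.1 e
      exact ⟨conj_sq ht.ss g, (ht.conj g).ne⟩, fun e => isConj_iff.2 (h.one t s ht ⟨e.1, e.2⟩)⟩
  have c1 := cf_cf1 (⊤ : Subgroup G)
  have qn := mul_ne_zero q0 n0
  have aT : ∀ d ∈ T, d ≠ 1 → acnt (t * d) = 2 * n := fun d a b =>
    h.acnt_sc ht cT hT (tmem a) (by rw [h.tk_sq ht (tt.le a)]; exact h.T_sq tt a b)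
  obtain ⟨y, y0, y1, e⟩ := jt_equation (c := 1 - q) (e := q + 1) (i := (𝒞₁ t).index) (m := ♯(𝒞₁ t)) hI
    (by have := h.num.big; omega) (by
      rw [← h.ncard_inv ht, ← Nat.card_coe_set_eq]
      exact Nat.card_congr (Equiv.subtypeEquivRight hI))
    (by rw [mul_comm, card_mul_index]) hγ hα
    (by
      rw [eγ, dot_ind_left le_top _ hγ.cf]
      linear_combination dψ _ _ _ _ γd / 2)
    (by
      rw [eγ, dot_ind_left le_top _ c1]
      linear_combination dψ (cf1 ⊤) 2 0 0 (fun d _ _ => by simp; norm_num) / 2)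
    (by
      apply mul_right_cancel₀ qn
      rw [dα _ hα.cf (2 * (1 - q)) 2 0 2 2 (by simp [αt, map_ofNat])
        (fun x a b => by simp [αx x a b, map_ofNat])
        fun d a b => by simp [αd d a b, cμ, add_comm, map_ofNat]]
      linear_combination -2 * q * eq + 4 * q * en)
    (by
      apply mul_right_cancel₀ qn
      rw [dα _ c1 1 1 1 0 0 (by simp) (fun x _ _ => by simp) fun d _ _ => by simp]
      ring)
    (by
      rw [eγ, dot_ind_left le_top _ hα.cf]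
      linear_combination dψ α 0 2 2 (fun d a b => by
        simp [αd d a b, α0 d a, cμ, add_comm, map_ofNat]) / 2)
    (γ0 1 (mul_one 1)) (γ0 t ht.ss) (α0 1 (one_mem _)) (by rw [αt]; push_cast; ring)
    (by
      apply mul_right_cancel₀ qn
      rw [dα _ acnt_cf (2 * (q * n)) (2 * q) (2 * n) 0 0 (by rw [conj_acnt, h.acnt_t ht])
        (fun x a b => by
          rw [conj_acnt, h.acnt_sc ht cP hP (tmem a) (by
            rw [h.tk_sq ht (B.PK a)]; exact fun e => b (eq_one_of_odd (cP.od a) e))])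
        fun d a b => by rw [conj_acnt, aT d a b]; ring]
      linear_combination 2 * q * n * eq - 4 * q * n * en)
    (by
      rw [eγ, dot_ind_left le_top _ acnt_cf]
      push_cast
      linear_combination dψ acnt (4 * n) 0 0 (fun d a b => by
        rw [conj_acnt, conj_acnt, h.acnt_sc ht cT hT (mem_sup_right a) (h.T_sq tt a b), aT d a b]
        ring) / 2 - eq + 2 * en)
  obtain ⟨i, hi⟩ := h.idx_mod cP hP
  obtain ⟨j, hj⟩ := h.idx_mod cT hT
  refine jt_number h.eps h.num.m3 (h.odd t ht) hi (en' ▸ hj) y0 y1 ?_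
  rw [h.cardC ht, en', ← h.eps] at e
  rw [← h.eps]
  push_cast at e ⊢
  linear_combination e

end JG

end Cfsg.GJ
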