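import Cfsg.Agent.GS.J9
import Cfsg.Agent.GS.Defs
import Cfsg.Agent.H3.MinSimple
import Cfsg.Agent.H4.J1Id

/-! The Janko-Thompson theorem. -/

set_option autoImplicit false

namespace Cfsg.GS

open Subgroup Cfsg.L0 Cfsg.H8 Cfsg.GJ

theorem jt : JT := by
  intro G _ _ hs hna t K F _ _ ht odd dp h5 h8 ⟨e⟩
  have ⟨d1, d2, d3, d4, d5⟩ := dp
  have : Fact (Nat.Prime 2) := ⟨Nat.prime_two⟩
  have two : ∀ N : Subgroup G, N.index ≠ 2 := H4.JC.index_ne_two fun e => hna
    (have := isCyclic_of_prime_card e; inferInstance)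
  have tt : t * t = 1 := by rw [← sq, ← ht, pow_orderOf_eq_one]
  have t1 : t ≠ 1 := by rintro rfl; simp at ht
  by_cases q5 : Fintype.card F = 5
  · obtain ⟨H, ⟨f⟩⟩ := H3.exists_A5_iff.2 (show 5 ∣ Fintype.card F * (Fintype.card F ^ 2 - 1) by
      rw [q5]; decide)
    obtain rfl : H = ⊤ := eq_top_of_card_eq H (by
      rw [Nat.card_congr f.toEquiv, H3.Words.card_A5, H3.card_PSL2_eq_60.2 (Or.inr q5)])
    let φ := (zpowers t).subtype.noncommCoprod K.subtype fun a b => d3 a a.2 b b.2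
    have inj : Function.Injective φ := (injective_iff_map_eq_one φ).2 fun ⟨a, b⟩ e => by
      have e1 : (a : G) = (b : G)⁻¹ := eq_inv_of_mul_eq_one_left e
      have e2 : (a : G) = 1 := mem_bot.1 (d4.le ⟨a.2, e1 ▸ K.inv_mem b.2⟩)
      exact Prod.ext (Subtype.ext e2) (Subtype.ext (inv_eq_one.1 (e1.symm.trans e2)))
    have rg : φ.range = centralizer {t} := by
      rw [← d5]; exact (MonoidHom.noncommCoprod_range _ _ _).trans (by rw [range_subtype, range_subtype])
    let e1 : zpowers t ≃* Multiplicative (ZMod 2) := mulEquivOfPrimeCardEq (p := 2)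
      (by rw [Nat.card_zpowers, ht]) (by simp)
    let e2 := ((MulEquiv.subgroupCongr rg).symm.trans (MonoidHom.ofInjective inj).symm).trans
      (e1.prodCongr (e.trans (topEquiv.symm.trans f)))
    obtain ⟨g, hg⟩ := H4.exists_jc two (by
      rw [← card_mul_index (centralizer {t}), Nat.card_congr e2.toEquiv, Nat.card_prod,
        H3.Words.card_A5]
      obtain ⟨i, hi⟩ := odd
      simp only [hi, Nat.card_eq_fintype_card, Fintype.card_multiplicative, ZMod.card]
      omega) ht e2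
    exact Or.inr hg.isoJ1
  obtain ⟨p, hp⟩ := CharP.exists F
  obtain ⟨k, pp, hk⟩ := FiniteField.card F p
  by_cases p3 : p = 3
  · subst p3
    obtain ⟨j, e1 | e1⟩ := Nat.even_or_odd' (k : ℕ)
    · have : Fintype.card F % 8 = 1 := by
        rw [hk, e1, pow_mul, Nat.pow_mod]; simp
      omega
    · refine Or.inl ⟨hs, hna, t, K, j, ?_, ht, odd, dp, F, _, _, e1 ▸ hk, ⟨e⟩⟩
      rcases j with _ | j
      · rw [hk, e1] at h5; simp at h5
      · omega
  have : Fact p.Prime := ⟨pp⟩
  obtain ⟨n, m, num⟩ : ∃ n m, Num (Fintype.card F) p n m := by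
    rcases h8 with h8 | h8
    · exact ⟨(Fintype.card F - 1) / 2, (Fintype.card F + 1) / 4, pp, ⟨k, hk⟩,
        Nat.odd_iff.2 (by omega), Nat.odd_iff.2 (by omega), by omega, by omega, p3⟩
    · exact ⟨(Fintype.card F + 1) / 2, (Fintype.card F - 1) / 4, pp, ⟨k, hk⟩,
        Nat.odd_iff.2 (by omega), Nat.odd_iff.2 (by omega), by omega, by omega, p3⟩
  have ls := (ls_psl num).map (K.subtype.comp e.symm.toMonoidHom)
    (K.subtype_injective.comp e.symm.injective)
  rw [← map_map, map_top_of_surjective _ e.symm.surjective, ← MonoidHom.range_eq_map,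
    range_subtype] at ls
  obtain ⟨L, h⟩ := exists_jg num ls ⟨tt, t1⟩ (fun e => t1 (mem_bot.1 (d4 ▸ ⟨mem_zpowers t, e⟩)))
    (fun k hk => d3 t (mem_zpowers t) k hk) (fun g hg => by
      obtain ⟨a, ha, b, hb, rfl⟩ := (mem_sup_of_le_normalizer_right (zpowers_le.2
        (mem_normalizer_of_forall fun y hy => by
          rwa [d3 t (mem_zpowers t) y hy, mul_inv_cancel_right]))).1 (d5.ge (mem_c1.2 hg))
      rcases (mem_zp_inv tt).1 ha with rfl | rfl
      · left; rwa [one_mul]
      · right; rwa [← mul_assoc, tt, one_mul]) odd two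
  exact h.false.elim

end Cfsg.GS
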