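import Cfsg.Agent.GW.B1
import Cfsg.Agent.FT.PGen2
import Cfsg.Agent.H8.Trans

/-! A transfer lemma: `N(⟨u⟩) = C(u)` has the Sylow `p`-subgroup `⟨u⟩ × ⟨s⟩`, 1: counting. -/

set_option autoImplicit false
set_option linter.unusedSectionVars false

namespace Cfsg.GS.MC

open Subgroup Cfsg.L0 Cfsg.H8 Cfsg.FT Cfsg.FT.G4
open scoped commutatorElement

variable {G : Type} [Group G] [Finite G] {p m : ℕ} {u d x y g c n : G}
  {A B K L N P R S T W : Subgroup G}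

/-- a `p`-group acts trivially on a section of order `p` -/
theorem le_stab (hp : p.Prime) (hT : IsPGroup p T) (h : L.relIndex K ∣ p) (hK : K ≤ 𝒩 L)
    (h1 : T ≤ 𝒩 K) (h2 : T ≤ 𝒩 L) : T ≤ H7.stab K L := fun x hx => by
  obtain ⟨k, e⟩ := isPGroup_iff_forall.1 hT x hx
  refine mem_of_pow_mem (m := p - 1) (n := p ^ k) (Nat.Coprime.pow_right _ ?_)
    ((sec_aut hp h hK h1 h2).2 x hx) (e ▸ one_mem _)
  obtain ⟨j, rfl⟩ := Nat.exists_eq_add_one_of_ne_zero hp.ne_zero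
  simp

/-- the generators of the `T`-conjugates of `⟨u⟩` -/
def cl (p : ℕ) (u : G) (T : Subgroup G) : Set G :=
  {y | ∃ g ∈ T, g⁻¹ * y * g ∈ zpowers u ∧ g⁻¹ * y * g ∉ zpowers (u ^ p)}

theorem cl_mono (h : R ≤ T) : cl p u R ⊆ cl p u T := fun _ ⟨g, a, b⟩ => ⟨g, h a, b⟩

theorem cl_conj (hn : n ∈ T) (h : y ∈ cl p u T) : n⁻¹ * y * n ∈ cl p u T := by
  obtain ⟨g, a, b⟩ := h
  exact ⟨n⁻¹ * g, mul_mem (inv_mem hn) a, by
    rwa [show (n⁻¹ * g)⁻¹ * (n⁻¹ * y * n) * (n⁻¹ * g) = g⁻¹ * y * g by group]⟩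

structure Hy (p m : ℕ) (u : G) : Prop where
  hp : p.Prime
  p2 : p ≠ 2
  pu : IsPGroup p (zpowers u)
  ord : orderOf u = p * m
  nc : 𝒩 (zpowers u) ≤ 𝒞₁ u
  syl : ∀ P, IsSyl p P (𝒞₁ u) → ♯P = p * (p * m) ∧ ¬ Cyc P

/-- `p`-groups properly containing `⟨u⟩` -/
structure Gd (p : ℕ) (u : G) (R : Subgroup G) : Prop where
  pg : IsPGroup p R
  lt : zpowers u < R

theorem Gd.mem (h : Gd p u R) : u ∈ R := h.lt.le (mem_zpowers u)

theorem Gd.ge (h : Gd p u R) (hT : IsPGroup p T) (l : R ≤ T) : Gd p u T := ⟨hT, h.lt.trans_le l⟩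

theorem Gd.cj (h : Gd p u R) (hc : c ∈ 𝒞₁ u) : Gd p u (cj c R) :=
  ⟨isPGroup_cj h.pg c, by
    have := cj_lt c h.lt
    rwa [cj_eq_of_mem_cent (by rwa [cent_zpowers])] at this⟩

namespace Hy

variable (h : Hy p m u)
include h

theorem m0 : 0 < m := Nat.pos_of_mul_pos_left (h.ord ▸ orderOf_pos u)

theorem p3 : 3 ≤ p := by have := h.hp.two_le; have := h.p2; omega

theorem nmem : u ∉ zpowers (u ^ p) := fun e => by
  rw [mem_zpowers_pow_iff, h.ord, Nat.gcd_mul_right_right] at e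
  exact h.hp.one_lt.ne' e

theorem card1 : ♯(zpowers (u ^ p)) = m := by
  rw [card_zpow, orderOf_pow' _ h.hp.ne_zero, h.ord, Nat.gcd_mul_right_left,
    Nat.mul_div_cancel_left _ h.hp.pos]

theorem le1 : zpowers (u ^ p) ≤ zpowers u := zpowers_le.2 (pow_mem (mem_zpowers u) p)

theorem ri1 : (zpowers (u ^ p)).relIndex (zpowers u) = p :=
  Nat.eq_of_mul_eq_mul_left h.m0 (by
    rw [← h.card1, card_mul_ri h.le1, card_zpow, h.ord, h.card1, mul_comm])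

theorem gen (h1 : y ∈ zpowers u) (h2 : y ∉ zpowers (u ^ p)) : zpowers y = zpowers u := by
  obtain ⟨k, rfl⟩ := exists_pow_eq h1
  obtain ⟨j, e⟩ := card_eq_pow h.hp h.pu
  refine le_antisymm (zpowers_le.2 h1) (zpowers_le.2 (mem_zpowers_pow_iff.2 ?_))
  rw [← card_zpow, e]
  refine Nat.Coprime.pow_right _ (h.hp.coprime_iff_not_dvd.2 ?_).symm
  rintro ⟨i, rfl⟩
  exact h2 (by rw [pow_mul]; exact pow_mem (mem_zpowers _) _)

theorem ri_of (h1 : u ^ p ∈ K) (h2 : u ∉ K) : K.relIndex (zpowers u) = p := by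
  rw [← inf_relIndex_right, (eq_or_eq_of_ri_prime (le_inf (zpowers_le.2 h1) h.le1) inf_le_right
    (h.ri1.symm ▸ h.hp)).resolve_right fun e => h2 (e.ge (mem_zpowers u)).1, h.ri1]

theorem card_cl (T : Subgroup G) : (cl p u T).ncard = (𝒞₁ u).relIndex T * ((p - 1) * m) := by
  have := GW.B.dc_eq (fun y g : G => g⁻¹ * y * g ∈ zpowers u ∧ g⁻¹ * y * g ∉ zpowers (u ^ p))
    (S := cl p u T) (S' := T) (m := ♯(𝒞₁ u ⊓ T)) (n := (p - 1) * m) ?_ fun g hg => ?_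
  · rw [GW.B.ncard_sub, ← card_inf_mul_ri (𝒞₁ u) T, mul_comm, mul_assoc] at this
    exact Nat.eq_of_mul_eq_mul_left (card_pos' _) this
  · rintro y ⟨g, g1, g2, g3⟩
    rw [← GW.B.ncard_sub, ← GW.B.ncard_mul_left (fun k => k ∈ (T : Set G) ∧ k⁻¹ * y * k ∈ zpowers u ∧
      k⁻¹ * y * k ∉ zpowers (u ^ p)) g]
    congr 1; ext k
    simp only [Set.mem_ofPred_eq, SetLike.mem_coe, mem_inf, mul_mem_cancel_left g1,
      show (g * k)⁻¹ * y * (g * k) = k⁻¹ * (g⁻¹ * y * g) * k by group]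
    have e := h.gen g2 g3
    refine ⟨fun a => ⟨inv_mem_iff.1 (h.nc (cj_eq_iff.1 ?_)), a.1⟩, fun a => ?_⟩
    · nth_rewrite 1 [← e]
      rw [cj_zpowers', inv_inv, h.gen a.2.1 a.2.2]
    · rw [show k⁻¹ * (g⁻¹ * y * g) * k = g⁻¹ * y * g by
        rw [mul_assoc, ← mem_cent1.1 (cent1_le_of_mem_zpowers g2 a.1), inv_mul_cancel_left]]
      exact ⟨a.2, g2, g3⟩
  · rw [show {a | a ∈ cl p u T ∧ g⁻¹ * a * g ∈ zpowers u ∧ g⁻¹ * a * g ∉ zpowers (u ^ p)} =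
      {a | g⁻¹ * a * g ∈ zpowers u ∧ g⁻¹ * a * g ∉ zpowers (u ^ p)} from
      Set.ext fun a => and_iff_right_of_imp fun b => ⟨g, hg, b⟩,
      GW.B.ncard_conj (fun a => a ∈ zpowers u ∧ a ∉ zpowers (u ^ p)),
      show {a | a ∈ zpowers u ∧ a ∉ zpowers (u ^ p)} = (zpowers u : Set G) \ zpowers (u ^ p) from rfl,
      Set.ncard_sdiff h.le1, GW.B.ncard_sub, GW.B.ncard_sub, h.card1, card_zpow, h.ord,
      Nat.sub_one_mul]

theorem cl_sub (h1 : u ∈ R) (h2 : u ∉ K) (n1 : T ≤ 𝒩 R) (n2 : T ≤ 𝒩 K) :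
    cl p u T ⊆ (R : Set G) \ K := by
  rintro y ⟨g, g1, g2, g3⟩
  refine ⟨?_, fun e => h2 (zpowers_le.2 (conj_mem_of_norm' (n2 g1) e) (h.gen g2 g3 ▸ mem_zpowers u))⟩
  have := conj_mem_of_norm (n1 g1) (zpowers_le.2 h1 g2)
  rwa [show g * (g⁻¹ * y * g) * g⁻¹ = y by group] at this

theorem gsyl (r : Gd p u R) : IsSyl p (R ⊓ 𝒞₁ u) (𝒞₁ u) := by
  have := Fact.mk h.hp
  obtain ⟨P, a, b⟩ := exists_syl_ge h.hp (r.pg.to_inf_left (K := 𝒞₁ u)) inf_le_right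
  have l : zpowers u < R ⊓ 𝒞₁ u := (lt_inf_normalizer r.pg r.lt).trans_le (inf_le_inf_left _ h.nc)
  have e : (zpowers u).relIndex P = p := Nat.eq_of_mul_eq_mul_left (card_pos' _) (by
    rw [card_mul_ri (l.le.trans b), (h.syl P a).1, card_zpow, h.ord, mul_comm])
  rwa [(eq_or_eq_of_ri_prime l.le b (e.symm ▸ h.hp)).resolve_left l.ne']

theorem gcard (r : Gd p u R) : (𝒞₁ u).relIndex R * (p * (p * m)) = ♯R := by
  rw [← (h.syl _ (h.gsyl r)).1, mul_comm, inf_comm, card_inf_mul_ri]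

theorem phi_ge (r : Gd p u R) : ♯(Phi R) * (p * p) ≤ ♯R := by
  obtain ⟨k, e⟩ := ri_eq_pow h.hp r.pg (Phi R)
  rw [← card_mul_ri (Phi_le R), e, ← pow_two]
  refine Nat.mul_le_mul_left _ (Nat.pow_le_pow_right h.hp.pos (by_contra fun a => ?_))
  obtain ⟨x, hx, b⟩ := exists_sup_zpowers (Phi_le R) h.hp (by
    rw [e]; exact (pow_dvd_pow p (show k ≤ 1 by omega)).trans (pow_one p).dvd)
  exact (h.syl _ (h.gsyl r)).2 (((nil_of_pgroup h.hp r.pg).cyc_of_cycMod ⟨x, hx, b.ge⟩).mono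
    inf_le_left)

theorem u1 : u ∉ (⊥ : Subgroup G) := fun e => h.nmem (mem_bot.1 e ▸ one_mem _)

theorem lt_card (h1 : u ∈ R) (n1 : T ≤ 𝒩 R) : (𝒞₁ u).relIndex T * ((p - 1) * m) < ♯R := by
  have := Set.ncard_le_ncard (h.cl_sub h1 h.u1 n1 (norm_bot (X := G) ▸ le_top))
  rw [h.card_cl, Set.ncard_sdiff (SetLike.coe_subset_coe.2 bot_le), GW.B.ncard_sub, GW.B.ncard_sub,
    card_bot'] at this
  have := card_pos' R
  omega

theorem uPhi (r : Gd p u R) : u ∉ Phi R := fun e => by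
  have h1 := h.lt_card e (Phi_nrm R).norm
  have h2 := h.phi_ge r
  rw [← h.gcard r] at h2
  obtain ⟨j, rfl⟩ : ∃ j, p = j + 3 := ⟨p - 3, by have := h.p3; omega⟩
  rw [show j + 3 - 1 = j + 2 from rfl] at h1
  have : ♯(Phi R) ≤ (𝒞₁ u).relIndex R * m := Nat.le_of_mul_le_mul_right (c := (j + 3) * (j + 3))
    (h2.trans_eq (by ring)) (by positivity)
  nlinarith

theorem cardA (r : Gd p u R) : ♯(Phi R ⊔ zpowers u) = ♯(Phi R) * p := by
  rw [← card_mul_ri (le_sup_left : Phi R ≤ _), ri_sup (r.lt.le.trans (Phi_nrm R).norm),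
    h.ri_of (pow_mem_Phi h.hp r.pg r.mem) (h.uPhi r)]

theorem nrmA (r : Gd p u R) : Phi R ⊔ zpowers u ⊴ R :=
  nrm_of_der_le ((nil_of_pgroup h.hp r.pg).der_le_Phi.trans le_sup_left) (sup_le (Phi_le R) r.lt.le)

theorem phi_eq (r : Gd p u R) : ♯(Phi R) = (𝒞₁ u).relIndex R * m ∧
    cl p u R = ((Phi R ⊔ zpowers u : Subgroup G) : Set G) \ Phi R := by
  have s := h.cl_sub (mem_sup_right (mem_zpowers u)) (h.uPhi r) (h.nrmA r).norm (Phi_nrm R).norm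
  have c : (((Phi R ⊔ zpowers u : Subgroup G) : Set G) \ Phi R).ncard = ♯(Phi R) * (p - 1) := by
    rw [Set.ncard_sdiff (SetLike.coe_subset_coe.2 le_sup_left), GW.B.ncard_sub, GW.B.ncard_sub,
      h.cardA r, Nat.mul_sub_one]
  have h1 := Set.ncard_le_ncard s
  have h2 := h.phi_ge r
  rw [h.card_cl, c] at h1
  rw [← h.gcard r] at h2
  have p3 := h.p3
  have e : ♯(Phi R) = (𝒞₁ u).relIndex R * m := le_antisymm (Nat.le_of_mul_le_mul_right (c := p * p)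
    (h2.trans_eq (by ring)) (by positivity)) (Nat.le_of_mul_le_mul_right (c := p - 1)
      ((le_of_eq (by ring)).trans h1) (by omega))
  exact ⟨e, Set.eq_of_subset_of_ncard_le s (le_of_eq (by rw [h.card_cl, c, e]; ring))⟩

theorem phi_ri (r : Gd p u R) : (Phi R).relIndex R = p ^ 2 :=
  Nat.eq_of_mul_eq_mul_left (card_pos' _) (by
    rw [card_mul_ri (Phi_le R), (h.phi_eq r).1, ← h.gcard r]; ring)

/-- `g` normalizes `Φ(R) ⟨u⟩` modulo `R C(u)` -/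
theorem fac (hg : g * u * g⁻¹ ∈ cl p u T) : ∃ t ∈ T, ∃ c ∈ 𝒞₁ u, g = t * c := by
  obtain ⟨t, a, b, e⟩ := hg
  refine ⟨t, a, t⁻¹ * g, h.nc (cj_eq_iff.1 ?_), by group⟩
  rw [cj_zpowers', ← h.gen b e]; congr 1; group

theorem self_cl (hg : g ∈ T) : g * u * g⁻¹ ∈ cl p u T :=
  ⟨g, hg, by simpa [mul_assoc] using h.nmem⟩

section
variable (r : Gd p u R) (hT : IsPGroup p T) (l : R < T) (hn : T ≤ 𝒩 R)
include r hT l hn

theorem step_ri : R.relIndex T = p := by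
  obtain ⟨k, e⟩ := ri_eq_pow h.hp hT R
  have h1 := h.lt_card r.mem hn
  have h2 := h.gcard (r.ge hT l.le)
  rw [← card_mul_ri l.le, e] at h2
  have p3 := h.p3
  obtain _ | _ | k := k
  · exact absurd (relIndex_eq_one.1 e) l.not_ge
  · rw [e, zero_add, pow_one]
  have h3 : ♯R * p ^ k = (𝒞₁ u).relIndex T * m := Nat.eq_of_mul_eq_mul_right (m := p * p)
    (by positivity) (by rw [show ♯R * p ^ k * (p * p) = ♯R * p ^ (k + 1 + 1) by ring, ← h2]; ring)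
  have h4 : ♯R ≤ ♯R * p ^ k := Nat.le_mul_of_pos_right _ (by positivity)
  have h5 : m ≤ (p - 1) * m := Nat.le_mul_of_pos_left _ (by omega)
  have := Nat.mul_le_mul_left ((𝒞₁ u).relIndex T) h5
  omega

theorem step_syl : IsSyl p T (𝒩 R) := by
  obtain ⟨S, a, b⟩ := exists_syl_ge h.hp hT hn
  rwa [eq_of_card_le b (by
    rw [← card_mul_ri l.le, ← card_mul_ri (l.le.trans b), h.step_ri r hT l hn,
      h.step_ri r a.isPGroup (l.trans_le b) a.le])]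

theorem step_c : (𝒞₁ u).relIndex T = (𝒞₁ u).relIndex R * p := by
  have h1 := h.gcard (r.ge hT l.le)
  rw [← card_mul_ri l.le, h.step_ri r hT l hn, ← h.gcard r] at h1
  have := h.m0
  have := h.hp.pos
  exact Nat.eq_of_mul_eq_mul_right (m := p * (p * m)) (by positivity) (by rw [h1]; ring)

theorem step_cl : cl p u (𝒩 R) = cl p u T := by
  have := Fact.mk h.hp
  refine (Set.eq_of_subset_of_ncard_le (cl_mono hn) ?_).symm
  rw [h.card_cl, h.card_cl]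
  refine Nat.mul_le_mul_right _ ?_
  have h1 := h.lt_card r.mem (le_refl (𝒩 R))
  have s := (h.gsyl (r.ge hT l.le)).mono (le_inf inf_le_right (inf_le_left.trans hn)) inf_le_left
  obtain ⟨k, e⟩ := ri_eq_pow h.hp hT (𝒞₁ u)
  have h2 : (𝒞₁ u).relIndex T ∣ (T ⊓ 𝒞₁ u).relIndex (𝒞₁ u ⊓ 𝒩 R) * (𝒞₁ u).relIndex (𝒩 R) := by
    rw [← inf_relIndex_right (𝒞₁ u) (𝒩 R), ri_mul s.le inf_le_right, ← ri_mul inf_le_left hn,
      inf_relIndex_left]
    exact dvd_mul_right _ _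
  obtain ⟨i, hi⟩ := (e ▸ s.coprime.symm.pow_left k).dvd_of_dvd_mul_left h2
  rw [hi, ← h.gcard r, h.step_c r hT l hn] at h1
  rw [hi]
  have p3 := h.p3
  obtain ⟨j, rfl⟩ : ∃ j, p = j + 3 := ⟨p - 3, by omega⟩
  rw [show j + 3 - 1 = j + 2 from rfl] at h1
  have h3 : i * (j + 2) < j + 3 := Nat.lt_of_mul_lt_mul_left
    (a := (𝒞₁ u).relIndex R * (j + 3) * m) (by linarith)
  have : i ≤ 1 := by nlinarith
  nlinarith

theorem step_fac (hg : g ∈ 𝒩 R) : ∃ t ∈ T, ∃ c ∈ 𝒞₁ u, g = t * c :=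
  h.fac (h.step_cl r hT l hn ▸ h.self_cl hg)

theorem step_nA : ¬ T ≤ 𝒩 (Phi R ⊔ zpowers u) := fun e => by
  have := Set.ncard_le_ncard (h.cl_sub (mem_sup_right (mem_zpowers u)) (h.uPhi r) e
    (hn.trans (norm_le_norm_Phi R)))
  rw [← (h.phi_eq r).2, h.card_cl, h.card_cl, h.step_c r hT l hn] at this
  have p3 := h.p3
  have := Nat.le_of_mul_le_mul_right this (Nat.mul_pos (by omega) h.m0)
  have := relIndex_pos (𝒞₁ u) R
  nlinarith

/-- the maximal subgroup of `R` normal in `N(R)` -/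
theorem step_W : ∃ W, W ≤ R ∧ (Phi R).relIndex W = p ∧ 𝒩 R ≤ 𝒩 W ∧ 𝒩 R ≤ H7.stab R W := by
  have n := nil_of_pgroup h.hp hT
  have l1 : ⁅R, T⁆ ⊔ Phi R ≤ R := sup_le (comm_le_left hn) (Phi_le R)
  have l2 : ⁅R, T⁆ ⊔ Phi R ≠ R := fun e => (n.comm_lt ⟨l.le, hn⟩ r.lt.ne_bot).not_ge
    (le_of_le_Phi_sup (comm_le_left hn) le_rfl (e.ge.trans (sup_comm _ _).le))
  have l3 : ¬ ⁅R, T⁆ ⊔ Phi R ≤ Phi R ⊔ zpowers u := fun e => h.step_nA r hT l hn
    (le_norm_of_comm_le' (h.nrmA r).le (le_sup_left.trans e))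
  have l4 : T ≤ H7.stab R (⁅R, T⁆ ⊔ Phi R) :=
    H7.le_stab_iff.2 ⟨le_norm_of_comm_le' l1 le_sup_left, le_sup_left⟩
  have l5 : Phi R ≤ ⁅R, T⁆ ⊔ Phi R := le_sup_right
  generalize ⁅R, T⁆ ⊔ Phi R = W at *
  have e := ri_mul l5 l1
  rw [h.phi_ri r] at e
  have e1 : (Phi R).relIndex W = p := by
    obtain ⟨i, hi, a⟩ := (Nat.dvd_prime_pow h.hp).1 (Dvd.intro _ e)
    interval_cases i
    · exact absurd ((relIndex_eq_one.1 a).trans le_sup_left) l3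
    · rw [a, pow_one]
    · rw [a] at e
      exact absurd (le_antisymm l1 (relIndex_eq_one.1 (Nat.eq_of_mul_eq_mul_left
        (pow_pos h.hp.pos 2) (e.trans (mul_one _).symm)))) l2
  have e2 : W.relIndex R = p := Nat.eq_of_mul_eq_mul_left h.hp.pos (by rw [← pow_two, ← e, e1])
  have cW : ♯W = ♯(Phi R) * p := by rw [← card_mul_ri l5, e1]
  have uW : u ∉ W := fun a => l3 (eq_of_card_le (sup_le l5 (zpowers_le.2 a)) (by
    rw [cW, h.cardA r])).ge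
  have e3 : cl p u T = (R : Set G) \ W := by
    refine Set.eq_of_subset_of_ncard_le (h.cl_sub r.mem uW hn (l4.trans (H7.stab_le_normalizer _ _)))
      (le_of_eq ?_)
    rw [Set.ncard_sdiff (SetLike.coe_subset_coe.2 l1), GW.B.ncard_sub, GW.B.ncard_sub, h.card_cl,
      ← card_mul_ri l1, e2, ← Nat.mul_sub_one, cW, (h.phi_eq r).1, h.step_c r hT l hn]
    ring
  replace e3 := (h.step_cl r hT l hn).trans e3
  have nW : 𝒩 R ≤ 𝒩 W := fun g hg => mem_normalizer_of_forall fun w hw => by_contra fun a => by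
    have := e3.le (cl_conj hg (e3.ge ⟨conj_mem_of_norm hg (l1 hw), a⟩))
    rw [show g⁻¹ * (g * w * g⁻¹) * g = w by group] at this
    exact this.2 hw
  refine ⟨W, l1, e1, nW, fun g hg => ?_⟩
  obtain ⟨t, t1, c, c1, rfl⟩ := h.step_fac r hT l hn hg
  have c2 := nW ((mul_mem_cancel_left (hn t1)).1 hg)
  refine mul_mem (l4 t1) (zpowers_le.1 (H7.le_stab_iff.2 ⟨zpowers_le.2 c2, ?_⟩))
  rw [← sup_eq_of_ri_prime l1 r.lt.le (e2.symm ▸ h.hp) (by rwa [zpowers_le])]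
  refine H7.sup_commutator_le (le_norm W) (r.lt.le.trans ((le_norm R).trans nW))
    (comm_le_left (zpowers_le.2 c2)) ?_
  rw [comm_eq_bot_iff.2 (by rwa [cent_zpowers, zpowers_le])]
  exact bot_le

end

/-- `C(u)` is transitive on the `p`-groups of given order containing `u` -/
theorem trans (k : ℕ) : ∀ R S : Subgroup G, ♯R = k → ♯S = k → Gd p u R → Gd p u S →
    ∃ c ∈ 𝒞₁ u, cj c R = S := by
  have := Fact.mk h.hp
  induction k using Nat.strong_induction_on with | _ k ih => ?_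
  intro R S c1 c2 r s
  have e : (𝒞₁ u).relIndex R = (𝒞₁ u).relIndex S := Nat.eq_of_mul_eq_mul_right
    (Nat.mul_pos h.hp.pos (Nat.mul_pos h.hp.pos h.m0)) (by rw [h.gcard r, h.gcard s, c1, c2])
  by_cases a : R ≤ 𝒞₁ u
  · have b := relIndex_eq_one.1 (e ▸ relIndex_eq_one.2 a)
    exact (inf_eq_left.2 a ▸ h.gsyl r).exists_cj_eq (inf_eq_left.2 b ▸ h.gsyl s)
  have key : ∀ R : Subgroup G, Gd p u R → ¬ R ≤ 𝒞₁ u → ∃ A, Gd p u A ∧ A ⊴ R ∧ ♯A * p = ♯R :=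
    fun R r a => by
      have i : (Phi R ⊔ zpowers u).relIndex R = p := Nat.eq_of_mul_eq_mul_left (card_pos' _) (by
        rw [card_mul_ri (h.nrmA r).le, h.cardA r, ← card_mul_ri (Phi_le R), h.phi_ri r]; ring)
      refine ⟨_, ⟨r.pg.to_le (h.nrmA r).le, right_lt_sup.2 fun b => a ?_⟩, h.nrmA r, by
        rw [← i, card_mul_ri (h.nrmA r).le]⟩
      exact (sup_eq_right.2 b ▸ (h.nrmA r).norm).trans h.nc
  obtain ⟨A, a1, a2, a3⟩ := key R r a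
  obtain ⟨B, b1, b2, b3⟩ := key S s fun b => a (relIndex_eq_one.1 (e ▸ relIndex_eq_one.2 b))
  have lt : ♯B < k := by rw [← c2, ← b3]; exact lt_mul_of_one_lt_right (card_pos' _) h.hp.one_lt
  have ab : ♯A = ♯B := Nat.eq_of_mul_eq_mul_right h.hp.pos (by rw [a3, b3, c1, c2])
  obtain ⟨c, hc, rfl⟩ := ih _ lt A B ab rfl a1 b1
  have l1 : cj c A < S := lt_of_le_of_ne b2.le fun e => by rw [e] at lt; omega
  have l2 : cj c A < cj c R := cj_lt c (lt_of_le_of_ne a2.le fun e => by rw [← ab, e] at lt; omega)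
  obtain ⟨n, n1, n2⟩ := (h.step_syl b1 s.pg l1 b2.norm).exists_cj_eq
    (h.step_syl b1 (r.cj hc).pg l2 (a2.cj c).norm)
  obtain ⟨t, t1, z, z1, e1⟩ := h.step_fac b1 s.pg l1 b2.norm (inv_mem n1)
  refine ⟨z * c, mul_mem z1 hc, ?_⟩
  rw [cj_mul, ← n2, ← cj_mul, show z * n = t⁻¹ by rw [← inv_inv n, e1]; group]
  exact cj_eq_of_mem_norm (le_norm S (inv_mem t1))

end Hy

end Cfsg.GS.MC
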