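import Cfsg.Agent.GS.MC1

/-! A transfer lemma: `N(⟨u⟩) = C(u)` has the Sylow `p`-subgroup `⟨u⟩ × ⟨s⟩`, 2. -/

set_option autoImplicit false
set_option linter.unusedSectionVars false

namespace Cfsg.GS.MC

open Subgroup Cfsg.L0 Cfsg.H8 Cfsg.FT Cfsg.FT.G4 Matrix
open scoped commutatorElement

variable {G : Type} [Group G] [Finite G] {p m : ℕ} {u d x y g c n a b r s : G}
  {A B D E K L M N P R S T W : Subgroup G}

theorem p30 {Q : Type} [Group Q] {x a d r : Q} {k i : ℕ} (h1 : Commute ⁅x, a⁆ x)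
    (h2 : Commute ⁅x, a⁆ a) (h3 : Commute r a) (hx : d * x * d⁻¹ = x ^ k * r)
    (ha : d * a * d⁻¹ = a ^ i) : d * ⁅x, a⁆ * d⁻¹ = ⁅x, a⁆ ^ (k * i) := by
  have e : ⁅x ^ k * r, a ^ i⁆ = ⁅x ^ k, a ^ i⁆ := by
    simp only [commutatorElement_def, _root_.mul_inv_rev, mul_assoc]
    rw [← mul_assoc r, (h3.pow_right i).eq, mul_assoc, mul_inv_cancel_left]
  rw [conjugate_commutatorElement, hx, ha, e, commutatorElement_pow_right, commutatorElement_pow_left h1,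
    pow_mul]
  rw [commutatorElement_pow_left h1]
  exact h2.pow_left k

theorem p3 {k : ℕ} (hK : K ⊴ M) (hx : x ∈ M) (ha : a ∈ M) (hd : d ∈ M) (hr : r ∈ M)
    (h1 : ⁅⁅x, a⁆, x⁆ ∈ K) (h2 : ⁅⁅x, a⁆, a⁆ ∈ K) (h3 : ⁅r, a⁆ ∈ K) (e1 : d * x * d⁻¹ = x ^ k * r)
    (e2 : d * a * d⁻¹ = a) : d * ⁅x, a⁆ * d⁻¹ * (⁅x, a⁆ ^ k)⁻¹ ∈ K := by
  obtain ⟨Q, _, _, f, -, rfl⟩ := exists_quo hK
  lift x to M using hx
  lift a to M using ha
  lift d to M using hd
  lift r to M using hr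
  have c : ∀ v w : M, ⁅(v : G), (w : G)⁆ ∈ up f ⊥ → Commute (f v) (f w) := fun v w e => by
    rw [← commutatorElement_eq_one_iff_commute, ← map_commutatorElement]
    exact (coe_mem_up (x := ⁅v, w⁆)).1 e
  have := p30 (d := f d) (k := k) (i := 1) (map_commutatorElement f x a ▸ c ⁅x, a⁆ x h1)
    (map_commutatorElement f x a ▸ c ⁅x, a⁆ a h2) (c r a h3)
    (by rw [← map_inv, ← map_mul, ← map_mul, ← map_pow, ← map_mul]; congr 1; exact Subtype.ext e1)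
    (by rw [← map_inv, ← map_mul, ← map_mul, pow_one]; congr 1; exact Subtype.ext e2)
  refine (coe_mem_up (x := d * ⁅x, a⁆ * d⁻¹ * (⁅x, a⁆ ^ k)⁻¹)).2 ?_
  simp only [map_mul, map_inv, map_pow, map_commutatorElement, this, mul_one, mul_inv_cancel, one_mem]

theorem core (hp : p.Prime) (ab : Abel R) (hR : zpowers b ⊔ zpowers u = R) (bo : orderOf b = p)
    (bu : zpowers u ⊓ zpowers b = ⊥) (pT : IsPGroup p T) (hn : T ≤ 𝒩 R) (hT : R ⊔ zpowers x = T)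
    (dT : d ∈ 𝒩 T) (du : d ∈ 𝒞₁ u) (db : d ∈ 𝒩 (zpowers b)) (ho : Odd (orderOf d))
    (fx : R ⊓ 𝒞₁ d ≤ zpowers u) (xu : x ∉ 𝒩 (zpowers u)) : T ≤ 𝒞₁ b := by
  have := Fact.mk hp
  have bR : b ∈ R := hR ▸ mem_sup_left (mem_zpowers b)
  have uR : u ∈ R := hR ▸ mem_sup_right (mem_zpowers u)
  have RT : R ≤ T := hT ▸ le_sup_left
  have xT : x ∈ T := hT ▸ mem_sup_right (mem_zpowers x)
  have bp : b ^ p = 1 := bo ▸ pow_orderOf_eq_one b
  have cb : ♯(zpowers b) = p := (card_zpow b).trans bo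
  have dR : d ∈ 𝒩 R := hR ▸ zpowers_le.1 (le_norm_sup (zpowers_le.2 db)
    (le_norm_of_le_cent (by rwa [cent_zpowers, zpowers_le])))
  have dec : ∀ y ∈ R, ∃ v ∈ zpowers b, ∃ w ∈ zpowers u, v * w = y := fun y hy =>
    (mem_sup_l (ab.le_norm (zpowers_le.2 bR) |>.trans' (zpowers_le.2 uR))).1 (hR ▸ hy)
  have vp : ∀ v ∈ zpowers b, v ^ p = 1 := fun v hv =>
    orderOf_dvd_iff_pow_eq_one.1 (cb ▸ orderOf_dvd hv)
  have pw : ∀ v ∈ zpowers b, ∀ w ∈ zpowers u, (v * w) ^ p = w ^ p := fun v hv w hw => by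
    rw [Commute.mul_pow (ab.comm (zpowers_le.2 bR hv) (zpowers_le.2 uR hw)), vp v hv, one_mul]
  have n1 : 𝒩 R ≤ 𝒩 (zpowers (u ^ p)) := fun g hg => by
    rw [← cj_eq_iff, cj_zpowers']
    refine eq_of_card_le (zpowers_le.2 ?_) (by rw [← cj_zpowers', card_cj])
    obtain ⟨v, hv, w, hw, e⟩ := dec _ (conj_mem_of_norm hg uR)
    obtain ⟨j, rfl⟩ := exists_pow_eq hw
    rw [← conj_pow, ← e, pw v hv _ hw, ← pow_mul, mul_comm, pow_mul]
    exact pow_mem (mem_zpowers _) j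
  by_contra hc
  have nE : 𝒩 R ≤ 𝒩 (Om p R) := norm_le_norm_Om p R
  have bE : b ∈ Om p R := mem_Om bR bp
  have b1 : b ≠ 1 := fun e => hp.one_lt.ne (by rw [← bo, e, orderOf_one])
  have Z0 := inf_cent_ne_bot_of_pgroup hp pT (ab.elem_Om p).pgroup (hn.trans nE) (ne_bot_of_mem bE b1)
  have nZ : d ∈ 𝒩 (Om p R ⊓ 𝒞 T) := zpowers_le.1
    (le_norm_inf (zpowers_le.2 (nE dR)) (le_norm_cent (zpowers_le.2 dT)))
  have ZT : Om p R ⊓ 𝒞 T ≤ 𝒞 T := inf_le_right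
  have ZE : Om p R ⊓ 𝒞 T ≤ Om p R := inf_le_left
  generalize Om p R ⊓ 𝒞 T = Z at Z0 nZ ZT ZE
  have Zb : zpowers b ⊓ Z = ⊥ := inf_eq_bot_of_prime (cb ▸ hp) fun e =>
    hc (le_cent1_iff.2 (ZT (e (mem_zpowers b))))
  have cd : ⁅R, zpowers d⁆ ≤ zpowers b := by
    rw [← hR, sup_comm_of_cent (cent_symm (by rwa [cent_zpowers, zpowers_le]))
      ((zpowers_le.2 uR).trans (ab.le_norm ((comm_le_left (zpowers_le.2 db)).trans (zpowers_le.2 bR))))]
    exact comm_le_left (zpowers_le.2 db)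
  have Zd : Z ≤ 𝒞₁ d := by
    rw [← cent_zpowers, ← comm_eq_bot_iff', eq_bot_iff, ← Zb]
    exact le_inf ((comm_mono (ZE.trans (Om_le p R)) le_rfl).trans cd) (comm_le_left (zpowers_le.2 nZ))
  have ZU : Z ≤ zpowers u := (le_inf (ZE.trans (Om_le p R)) Zd).trans fx
  have el := (ab.elem_Om p).mono (F := Om p R ⊓ zpowers u) inf_le_left
  have Zeq : Z = Om p R ⊓ zpowers u := eq_of_card_le (le_inf ZE ZU)
    ((el.card_le_of_cyc hp ((cyc_zpowers u).mono inf_le_right)).trans (Nat.le_of_dvd (card_pos' _)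
      (dvd_card_of_pgroup hp (el.pgroup.to_le (le_inf ZE ZU)) Z0)))
  have hE : Z ⊔ zpowers b = Om p R := by
    refine le_antisymm (sup_le ZE (zpowers_le.2 bE)) fun y hy => ?_
    obtain ⟨v, hv, w, hw, rfl⟩ := dec y (Om_le p R hy)
    refine mul_mem (mem_sup_right hv) (mem_sup_left (Zeq ▸ ⟨mem_Om (zpowers_le.2 uR hw) ?_, hw⟩))
    rw [← pw v hv w hw, (ab.mem_Om.1 hy).2]
  have TZ : T ≤ 𝒩 Z := le_norm_of_le_cent (cent_symm ZT)
  have s1 := le_stab hp pT (K := Om p R) (L := Z) (by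
    rw [← hE, ri_sup ((zpowers_le.2 (RT bR)).trans TZ), ← cb]; exact ri_dvd_card _ _)
    (((Om_le p R).trans RT).trans TZ) (hn.trans nE) TZ
  have z1 : ⁅x, b⁆ ∈ Z := by simpa using inv_mem ((s1 xT).2 b bE)
  have z2 : ⁅x, b⁆ ≠ 1 := fun e => hc (hT ▸ sup_le (ab.trans (cent_le_cent1 bR))
    (zpowers_le.2 (mem_cent1.2 (commutatorElement_eq_one_iff_mul_comm.1 e))))
  have zp := (ab.mem_Om.1 (ZE z1)).2
  obtain ⟨r', r1, y, hy, e1⟩ := (mem_sup_r (zpowers_le.2 (hn xT))).1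
    (((sup_comm _ _).trans hT).ge (conj_mem_of_norm dT xT))
  obtain ⟨k, rfl⟩ := exists_pow_eq r1
  obtain ⟨l, e2⟩ := exists_pow_eq (conj_mem_of_norm db (mem_zpowers b))
  have e3 := p30 (mem_cent.1 (ZT z1) x xT).symm (mem_cent.1 (ZT z1) b (RT bR)).symm (ab.comm hy bR)
    e1.symm e2.symm
  rw [← mem_cent1.1 (Zd z1), mul_inv_cancel_right] at e3
  have k1 : ((k * l : ℕ) : ZMod p) = (1 : ℕ) := zmod_eq_of_pow hp (V := ⊥) (mem_bot.2 zp)
    (mem_bot.not.2 z2) (by rw [← e3, pow_one, mul_inv_cancel]; exact one_mem _)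
  have Z1 : Z ≤ zpowers (u ^ p) := by
    obtain ⟨z, hz, z1⟩ := exists_ne_one Z0
    by_contra a
    obtain ⟨j, rfl⟩ := exists_pow_eq (ZU hz)
    have o : zpowers (u ^ j) = Z := eq_zpowers_of_prime (by
      rw [(mk_el1 hp (le_antisymm (((ab.elem_Om p).mono ZE).card_le_of_cyc hp
        ((cyc_zpowers u).mono ZU)) (Nat.le_of_dvd (card_pos' _) (dvd_card_of_pgroup hp
          ((ab.elem_Om p).mono ZE).pgroup Z0))) le_rfl).card1]; exact hp) hz z1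
    by_cases pj : p ∣ j
    · obtain ⟨i, rfl⟩ := pj
      exact a (o ▸ zpowers_le.2 (by rw [pow_mul]; exact pow_mem (mem_zpowers _) i))
    obtain ⟨i, e⟩ := card_eq_pow hp ((pT.to_le RT).to_le (zpowers_le.2 uR))
    have : u ∈ Z := o ▸ mem_zpowers_pow_iff.2 (by
      rw [← card_zpow, e]; exact (hp.coprime_iff_not_dvd.2 pj).symm.pow_right i)
    exact xu (le_norm_of_le_cent (cent_symm ((zpowers_le.2 this).trans ZT)) xT)
  have l1 : zpowers (u ^ p) ≤ zpowers u := zpowers_le.2 (pow_mem (mem_zpowers u) p)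
  have WR : zpowers (u ^ p) ⊔ zpowers b ≤ R := sup_le (l1.trans (zpowers_le.2 uR)) (zpowers_le.2 bR)
  have TW : T ≤ H7.stab (zpowers (u ^ p) ⊔ zpowers b) (zpowers (u ^ p)) := by
    refine H7.le_stab_iff.2 ⟨hn.trans n1, H7.sup_commutator_le (le_norm _)
      ((zpowers_le.2 bR).trans ((le_norm R).trans n1)) (comm_le_left (hn.trans n1)) ?_⟩
    exact ((comm_mono (zpowers_le.2 bE) le_rfl).trans (H7.le_stab_iff.1 s1).2).trans Z1
  have TW' : T ≤ 𝒩 (zpowers (u ^ p) ⊔ zpowers b) :=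
    le_norm_of_comm_le ((H7.le_stab_iff.1 TW).2.trans le_sup_left)
  have s2 := le_stab hp pT (K := R) (L := zpowers (u ^ p) ⊔ zpowers b) (by
    have : zpowers (u ^ p) ⊔ zpowers b ⊔ zpowers u = R := by
      rw [sup_right_comm, sup_eq_right.2 l1, sup_comm, hR]
    rw [← this, ri_sup ((zpowers_le.2 (RT uR)).trans TW')]
    refine (ri_dvd_of_le_left le_sup_left _).trans ?_
    by_cases e : u ∈ zpowers (u ^ p)
    · rw [relIndex_eq_one.2 (zpowers_le.2 e)]; exact one_dvd _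
    refine (Nat.eq_of_mul_eq_mul_left (card_pos' (zpowers (u ^ p))) ?_).dvd
    have : p ∣ orderOf u := card_zpow u ▸ dvd_card_of_pgroup hp
      ((pT.to_le RT).to_le (zpowers_le.2 uR)) fun a => e (by simp [zpowers_eq_bot.1 a])
    rw [card_mul_ri l1, card_zpow, card_zpow, orderOf_pow' _ hp.ne_zero, Nat.gcd_eq_right this,
      Nat.div_mul_cancel this]) (RT.trans TW') hn TW'
  have w1 : ⁅x, u⁆ ∈ zpowers (u ^ p) ⊔ zpowers b := by simpa using inv_mem ((s2 xT).2 u uR)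
  have e4 := p3 (nrm_norm (zpowers (u ^ p))) (n1 (hn xT)) (n1 (le_norm R uR)) (n1 dR)
    (n1 (le_norm R hy)) ((TW xT).2 _ w1) ((TW (RT uR)).2 _ w1)
    (by rw [commutatorElement_eq_one_iff_mul_comm.2 (ab.comm hy uR)]; exact one_mem _) e1.symm
    (by rw [mem_cent1.1 du, mul_inv_cancel_right])
  obtain ⟨v, hv, w, hw, e5⟩ := (mem_sup_l ((zpowers_le.2 bR).trans ((le_norm R).trans n1))).1 w1
  have w2 : w ∉ zpowers (u ^ p) := fun a => xu (by
    rw [← cj_eq_iff, cj_zpowers']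
    refine eq_of_card_le (zpowers_le.2 ?_) (by rw [← cj_zpowers', card_cj])
    have := mul_mem (l1 (e5 ▸ mul_mem hv a)) (mem_zpowers u)
    rwa [commutatorElement_def, inv_mul_cancel_right] at this)
  have k2 : (l : ZMod p) = k := by
    refine zmod_eq_of_pow hp (vp w hw ▸ one_mem _) w2 ?_
    obtain ⟨j, rfl⟩ := exists_pow_eq hw
    have c : Commute v (b ^ j) := ab.comm (WR (mem_sup_left hv)) (pow_mem bR j)
    have dv := mem_cent1.1 (cent1_le_of_mem_zpowers (l1 hv) du)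
    rw [← e5, c.mul_pow, ← conj_mul, dv, mul_inv_cancel_right, ← conj_pow, ← e2, pow_right_comm,
      (c.pow_pow k k).eq, _root_.mul_inv_rev, mul_assoc, mul_mem_cancel_left hv, ← mul_assoc,
      ((c.pow_pow k l).inv_left.eq).symm, mul_assoc, mul_mem_cancel_left (inv_mem (pow_mem hv k))] at e4
    exact e4
  have e6 : d ^ 2 * b * (d ^ 2)⁻¹ = b := by
    rw [H1.conj_pow_pow e2.symm, pow_eq_of_zmod bp (n := 1), pow_one]
    push_cast at k1 ⊢
    rw [sq]; nth_rewrite 1 [k2]; exact k1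
  have : d ∈ 𝒞₁ b := mem_of_pow_mem (Nat.coprime_two_left.2 ho)
    (mem_cent1.2 (mul_inv_eq_iff_eq_mul.1 e6)) (pow_orderOf_eq_one d ▸ one_mem _)
  exact b1 (eq_one_of_mem bu ⟨fx ⟨bR, mem_cent1_comm.1 this⟩, mem_zpowers b⟩)

end Cfsg.GS.MC
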