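import Cfsg.Agent.GS.MC2

/-! A transfer lemma: `N(⟨u⟩) = C(u)` has the Sylow `p`-subgroup `⟨u⟩ × ⟨s⟩`, 3. -/

set_option autoImplicit false
set_option linter.unusedSectionVars false

namespace Cfsg.GS.MC

open Subgroup Cfsg.L0 Cfsg.H8 Cfsg.FT Cfsg.FT.G4 Matrix
open scoped commutatorElement

variable {G : Type} [Group G] [Finite G] {p m : ℕ} {u d x y g c n a b r s : G}
  {A B D E K L M N P R S T W : Subgroup G}

theorem mat_sq {F : Type} [Field F] (h2 : (2 : F) ≠ 0) {X : Matrix (Fin 2) (Fin 2) F} (h : X * X = 1)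
    (hd : X.det = 1) : X = 1 ∨ X = -1 := by
  have e0 := congrFun (congrFun h 0) 0
  have e1 := congrFun (congrFun h 0) 1
  have e2 := congrFun (congrFun h 1) 0
  simp only [Matrix.mul_apply, Fin.sum_univ_two, Matrix.one_apply_eq, ne_eq, zero_ne_one,
    one_ne_zero, not_false_eq_true, Matrix.one_apply_ne] at e0 e1 e2
  rw [Matrix.det_fin_two] at hd
  have t : X 0 0 + X 1 1 ≠ 0 := fun e => h2 (by linear_combination X 0 0 * e - e0 - hd)
  have b : X 0 1 = 0 := (mul_eq_zero.1 (by linear_combination e1)).resolve_right t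
  have c : X 1 0 = 0 := (mul_eq_zero.1 (by linear_combination e2)).resolve_right t
  rw [b] at e0 hd
  rcases mul_self_eq_one_iff.1 (show X 0 0 * X 0 0 = 1 by linear_combination e0) with a | a
  · left
    have : X 1 1 = 1 := by rw [a] at hd; linear_combination hd
    ext i j; fin_cases i <;> fin_cases j <;> simp [*]
  · right
    have : X 1 1 = -1 := by rw [a] at hd; linear_combination -hd
    ext i j; fin_cases i <;> fin_cases j <;> simp [*]

theorem lin0 (hp : p.Prime) (p2 : p ≠ 2) (hE : Elem p E) (cE : ♯E = p ^ 2) (hL : L ≤ 𝒩 E)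
    (pL : ¬ p ∣ ♯L) (fa : L ⊓ 𝒞 E = ⊥) (uE : u ∈ E) (u1 : u ≠ 1) (hN : L ⊓ 𝒩 (zpowers u) ≤ 𝒞₁ u)
    (dL : d ∈ L) (du : d ∈ 𝒞₁ u) (d1 : d ≠ 1) (ho : Odd (orderOf d)) : L ≤ 𝒞₁ u := by
  have := Fact.mk hp
  have od : Odd ♯⁅L, L⁆ := by
    by_contra a
    obtain ⟨x, hx, xo⟩ := exists_orderOf_eq Nat.prime_two (even_iff_two_dvd.1 (Nat.not_odd_iff_even.1 a))
    obtain ⟨k, ck, ⟨C⟩⟩ := Elem.exists_coord hp hE
    obtain rfl : k = 2 := Nat.pow_right_injective hp.two_le (ck.symm.trans cE)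
    obtain ⟨ρ, hρ⟩ := exists_mat C L.subtype (fun a => hL a.2) (fun a => by rw [norm_bot]; trivial)
    obtain ⟨xL, e⟩ := mem_up.1 ((abel_down_iff (f := (Matrix.detMonoidHom.comp ρ).toHomUnits)
      le_rfl).1 (fun a _ b _ => mul_comm _ _) hx)
    have x2 : x * x = 1 := by rw [← pow_two, ← xo, pow_orderOf_eq_one]
    have two : (2 : ZMod p) ≠ 0 := fun e => p2 ((Nat.prime_dvd_prime_iff_eq hp Nat.prime_two).1
      ((ZMod.natCast_eq_zero_iff 2 p).1 (by exact_mod_cast e)))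
    rcases mat_sq two (X := ρ ⟨x, xL⟩) (by
      rw [← map_mul, ← map_one ρ]; congr 1; exact Subtype.ext x2)
      (by simpa [Units.ext_iff] using e) with e1 | e1
    · have := eq_one_of_mem fa ⟨xL, (mat_eq_one_iff C (hL xL) (hρ ⟨x, xL⟩)).1 e1⟩
      simp [this] at xo
    · have e2 : C.π (x * u * x⁻¹) = _ := hρ ⟨x, xL⟩ u uE
      rw [e1, Matrix.neg_mulVec, Matrix.one_mulVec, ← C.map_inv uE, C.eq_iff
        (conj_mem_of_norm (hL xL) uE) (inv_mem uE), mem_bot, mul_inv_eq_one] at e2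
      have e3 : x ∈ 𝒞₁ u := hN ⟨xL, cj_eq_iff.1 (by
        rw [cj_zpowers', ← zpowers_inv (g := u)]; exact congrArg _ e2)⟩
      rw [mem_cent1.1 e3, mul_inv_cancel_right,
        eq_inv_iff_mul_eq_one, ← pow_two] at e2
      exact u1 (eq_one_of_pow_coprime ((Nat.coprime_primes Nat.prime_two hp).2 p2.symm) e2 (hE.pow uE))
  have n : zpowers d ≤ 𝒩 ⁅L, L⁆ := (zpowers_le.2 dL).trans (der_nrm L).norm
  have OL : ⁅L, L⁆ ⊔ zpowers d ≤ L := sup_le (der_le L) (zpowers_le.2 dL)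
  have nO := (nrm_of_der_le le_sup_left OL).norm
  have oO : Odd ♯(⁅L, L⁆ ⊔ zpowers d) := (od.mul (card_zpow d ▸ ho)).of_dvd_nat (card_sup_dvd n)
  have dO : d ∈ ⁅L, L⁆ ⊔ zpowers d := mem_sup_right (mem_zpowers d)
  generalize ⁅L, L⁆ ⊔ zpowers d = O at OL nO oO dO
  have ab : Abel O := abel_iff_der.2 (eq_bot_of_le fa (le_inf ((der_le O).trans OL)
    (G2.t2_6a hp oO (OL.trans hL) hE cE.le fun a => pL (a.trans (card_dvd OL)))))
  have e2 : El p 2 E E := ⟨le_rfl, hE, cE⟩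
  have key : ∀ Z, zpowers u ≤ Z → Z ≤ E ⊓ 𝒞₁ d → Z = zpowers u := fun Z a b =>
    e2.eq_of_lt hp (el_zpowers hp uE (hE.pow uE) u1) a (lt_of_le_of_ne (b.trans inf_le_left)
      fun e => d1 (eq_one_of_mem fa ⟨dL, le_cent1_iff.1 (e.ge.trans (b.trans inf_le_right))⟩))
  have ud : zpowers u ≤ E ⊓ 𝒞₁ d := zpowers_le.2 ⟨uE, mem_cent1_comm.1 du⟩
  have Ou : O ≤ 𝒞₁ u := (le_inf OL (key _ ud le_rfl ▸ le_norm_inf (OL.trans hL)
    (le_norm_cent1 (ab.trans (cent_le_cent1 dO))))).trans hN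
  exact (le_inf le_rfl (key (E ⊓ 𝒞 O) (zpowers_le.2 ⟨uE, le_cent1_iff.1 Ou⟩)
    (inf_le_inf_left _ (cent_le_cent1 dO)) ▸ le_norm_inf hL (le_norm_cent nO))).trans hN

theorem lin (hp : p.Prime) (p2 : p ≠ 2) (hE : Elem p E) (cE : ♯E = p ^ 2) (hL : L ≤ 𝒩 E)
    (pL : ¬ p ∣ ♯L) (uE : u ∈ E) (u1 : u ≠ 1) (hN : L ⊓ 𝒩 (zpowers u) ≤ 𝒞₁ u)
    (dL : d ∈ L) (du : d ∈ 𝒞₁ u) (d1 : d ∉ 𝒞 E) (ho : Odd (orderOf d)) : L ≤ 𝒞₁ u := by
  obtain ⟨Q, _, _, f, -, hk⟩ := exists_quo (K := L ⊓ 𝒞 E) (M := E ⊔ L) ⟨inf_le_left.trans le_sup_right,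
    sup_le (le_norm_of_le_cent (cent_symm inf_le_right)) (le_norm_inf (le_norm L) (le_norm_cent hL))⟩
  have EL : E ⊓ L = ⊥ := inf_eq_bot_of_cop (cop_of_pgroup hp hE.pgroup pL)
  have kE : up f ⊥ ⊓ E = ⊥ := eq_bot_of_le EL (hk ▸ le_inf inf_le_right (inf_le_left.trans inf_le_left))
  have l1 : E ≤ E ⊔ L := le_sup_left
  have l2 : L ≤ E ⊔ L := le_sup_right
  have cm : ∀ x (hx : x ∈ L), ∀ v (hv : v ∈ E), f ⟨x, l2 hx⟩ ∈ 𝒞₁ (f ⟨v, l1 hv⟩) → x ∈ 𝒞₁ v :=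
    fun x hx v hv e => by
      refine mem_cent1.2 (commutatorElement_eq_one_iff_mul_comm.1 (eq_one_of_mem kE ⟨?_, ?_⟩))
      · refine (coe_mem_up (x := ⁅(⟨x, l2 hx⟩ : ↥(E ⊔ L)), (⟨v, l1 hv⟩ : ↥(E ⊔ L))⁆)).2 ?_
        rw [map_commutatorElement, commutatorElement_eq_one_iff_mul_comm.2 (mem_cent1.1 e)]
        exact one_mem _
      · exact H7.commutator_mem_commutator' hv (mem_zpowers x) |> comm_le_left (zpowers_le.2 (hL hx))
  have cm' : ∀ x (hx : x ∈ L), ∀ v (hv : v ∈ E), x ∈ 𝒞₁ v → f ⟨x, l2 hx⟩ ∈ 𝒞₁ (f ⟨v, l1 hv⟩) :=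
    fun x hx v hv e => mem_cent1.2 (by
      rw [← map_mul, ← map_mul]; congr 1; exact Subtype.ext (mem_cent1.1 e))
  intro x hx
  refine cm x hx u uE (lin0 hp p2 (hE.down f) ((card_down_eq l1 kE).trans cE) (down_le_norm f hL)
    (fun a => pL (a.trans (card_down_dvd f L))) (eq_bot_iff.2 ?_) (mem_down_of_mem uE) (fun e => u1
      (eq_one_of_mem kE ⟨mem_up.2 ⟨_, e⟩, uE⟩)) ?_ (mem_down_of_mem dL) (cm' d dL u uE du)
      (fun e => d1 (hk.le (mem_up.2 ⟨_, e⟩)).2) (ho.of_dvd_nat ?_) (mem_down_of_mem hx))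
  · rintro _ ⟨a, b⟩
    obtain ⟨⟨y, yN⟩, hy, rfl⟩ := mem_down.1 a
    exact (mem_up.1 (hk.ge ⟨hy, mem_cent.2 fun v hv => (mem_cent1.1 (cm y hy v hv
      (cent_le_cent1 (mem_down_of_mem hv) b))).symm⟩)).2
  · rintro _ ⟨a, b⟩
    obtain ⟨⟨y, yN⟩, hy, rfl⟩ := mem_down.1 a
    refine cm' y hy u uE (hN ⟨hy, mem_norm_of_cj_le ?_⟩)
    rw [cj_zpowers', zpowers_le]
    obtain ⟨j, e⟩ := exists_pow_eq (conj_mem_of_norm b (mem_zpowers _))
    have m : u ^ j * (y * u * y⁻¹)⁻¹ ∈ E :=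
      mul_mem (pow_mem uE j) (inv_mem (conj_mem_of_norm (hL hy) uE))
    refine (mul_inv_eq_one.1 (eq_one_of_mem kE ⟨mem_up.2 ⟨l1 m, ?_⟩, m⟩)) ▸ pow_mem (mem_zpowers u) j
    rw [← map_pow, ← map_inv, ← map_mul, ← map_mul, ← mul_inv_eq_one, ← map_inv, ← map_mul] at e
    exact e
  · exact (orderOf_map_dvd f _).trans (orderOf_mk _ _).dvd

/-- the invariant of the induction -/
structure In (p : ℕ) (u : G) (R : Subgroup G) (d : G) : Prop extends Gd p u R where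
  dn : d ∈ 𝒩 R
  du : d ∈ 𝒞₁ u
  pi : PiElt {2, p}ᶜ d
  fx : R ⊓ 𝒞₁ d ≤ zpowers u
  inf : zpowers u ⊓ ⁅R, zpowers d⁆ = ⊥

theorem In.odd (i : In p u R d) : Odd (orderOf d) :=
  Nat.odd_iff.2 (Nat.two_dvd_ne_zero.1 fun e => i.pi 2 Nat.prime_two e (by simp))

theorem In.nd (i : In p u R d) (hp : p.Prime) : ¬ p ∣ ♯(zpowers d) := fun e =>
  i.pi p hp (card_zpow d ▸ e) (by simp)

theorem In.sup (i : In p u R d) (hp : p.Prime) : ⁅R, zpowers d⁆ ⊔ zpowers u = R :=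
  le_antisymm (sup_le (comm_le_left (zpowers_le.2 i.dn)) i.lt.le)
    ((mkCA_p' hp (zpowers_le.2 i.dn) i.pg (i.nd hp)).comm_sup_cent.ge.trans
      (sup_le_sup_left (cent_zpowers d ▸ i.fx) _))

namespace Hy

variable (h : Hy p m u)
include h

section
variable (i : In p u R d) (hT : IsPGroup p T) (l : R < T) (hn : T ≤ 𝒩 R)
include i hT l hn

theorem step_fx : T ⊓ 𝒞₁ d ≤ zpowers u := by
  by_contra a
  have r : Gd p u (T ⊓ 𝒞₁ d) := ⟨hT.to_inf_left, lt_of_le_not_ge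
    (zpowers_le.2 ⟨l.le i.toGd.mem, mem_cent1_comm.1 i.du⟩) a⟩
  have := Fact.mk h.hp
  have e := (h.gsyl i.toGd).eq_of_le (hT.to_inf_left (K := 𝒞₁ u)) (inf_le_inf_right _ l.le)
    inf_le_right
  have := card_le ((le_inf ((inf_le_inf_right _ inf_le_left).trans (e.le.trans inf_le_left))
    (inf_le_left.trans inf_le_right)).trans i.fx : T ⊓ 𝒞₁ d ⊓ 𝒞₁ u ≤ _)
  rw [(h.syl _ (h.gsyl r)).1, card_zpow, h.ord] at this
  exact this.not_gt (lt_mul_of_one_lt_left (Nat.mul_pos h.hp.pos h.m0) h.hp.one_lt)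

theorem step_nB (dT : d ∈ 𝒩 T) : T ≤ 𝒩 ⁅R, zpowers d⁆ := by
  have hp := h.hp
  have sup := i.sup hp
  have dR := zpowers_le.2 i.dn
  have BR := comm_le_left dR
  have nB := left_le_norm_comm R (zpowers d)
  have R1 : ⁅R, R⁆ ≤ ⁅R, zpowers d⁆ := by
    nth_rewrite 1 2 [← sup]
    refine (der_sup_le (i.lt.le.trans nB)).trans (sup_le le_rfl ?_)
    rw [abel_iff_der.1 (cyc_zpowers u).abel]; exact bot_le
  have cB : ⁅R, R⁆.relIndex ⁅R, zpowers d⁆ ∣ p := by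
    refine ri_dvd_of_le hp (i.pg.to_le BR) (Nat.le_of_mul_le_mul_left ?_ (card_pos' ⁅R, R⁆))
    have c1 := card_sup_of_inf (i.lt.le.trans nB) ((inf_comm _ _).trans i.inf)
    have c2 := ri_cent1_le (R := R) (x := u) (Z := ⁅R, R⁆) fun r hr =>
      commutator_mem_commutator hr i.toGd.mem
    rw [sup, card_zpow, h.ord, ← h.gcard i.toGd] at c1
    rw [card_mul_ri R1]
    exact (Nat.eq_of_mul_eq_mul_right (Nat.mul_pos hp.pos h.m0) (c1.symm.trans
      (mul_assoc _ _ _).symm)).le.trans (Nat.mul_le_mul_right p c2)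
  rcases (Nat.dvd_prime hp).1 cB with e | e
  · rw [← le_antisymm R1 (relIndex_eq_one.1 e)]; exact hn.trans (norm_le_norm_der R)
  obtain ⟨Q, _, _, f, -, hk⟩ := exists_quo (K := ⁅R, R⁆) (M := 𝒩 R)
    ⟨(der_le R).trans (le_norm R), norm_le_norm_der R⟩
  have RN := le_norm R
  have c1 : ♯(down f ⁅R, zpowers d⁆) = p := by rw [card_down f (BR.trans RN), hk, e]
  obtain ⟨b, -, hb⟩ := (cyc_of_prime (c1 ▸ hp)).exists_zpowers
  obtain ⟨x, xT, hx⟩ := exists_sup_zpowers l.le hp (h.step_ri i.toGd hT l hn).dvd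
  have zu := down_zpowers f ⟨u, RN i.toGd.mem⟩
  have zd := down_zpowers f ⟨d, i.dn⟩
  have UN := i.lt.le.trans RN
  have := core (b := b) (u := f ⟨u, RN i.toGd.mem⟩) (x := f ⟨x, hn xT⟩) (d := f ⟨d, i.dn⟩) hp
    ((abel_down_iff RN).2 hk.ge) (by rw [hb, ← zu, ← down_sup f (BR.trans RN) UN, sup])
    ((card_zpow b).symm.trans (hb ▸ c1))
    (by rw [hb, ← zu, ← down_inf (BR.trans RN) (hk ▸ R1), i.inf, down_bot]) (isPGroup_down f hT)
    (down_le_norm f hn)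
    (by rw [← down_zpowers f ⟨x, hn xT⟩, ← down_sup f RN (zpowers_le.2 (hn xT)), hx])
    (down_normalizer_le f T (mem_down_of_mem dT))
    (mem_cent1.2 (by rw [← map_mul, ← map_mul]; congr 1; exact Subtype.ext (mem_cent1.1 i.du)))
    (hb ▸ down_le_norm f (right_le_norm_comm R _) (mem_down_of_mem (mem_zpowers d)))
    (i.odd.of_dvd_nat ((orderOf_map_dvd f _).trans (orderOf_mk _ _).dvd))
    (by
      rw [← cent_zpowers, ← zd, ← (mkCA_p' hp dR i.pg (i.nd hp)).down_cent f dR, cent_zpowers, ← zu]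
      exact down_mono f i.fx)
    fun a => h.step_nA i.toGd hT l hn (by
      rw [← hx]
      refine sup_le (h.nrmA i.toGd).norm ?_
      rw [← sup_eq_left.2 (nil_of_pgroup hp i.pg).der_le_Phi, sup_assoc, ← hk]
      refine le_norm_sup (zpowers_le.2 (norm_le_norm_Phi R (hn xT))) ((down_le_norm_iff
        (zpowers_le.2 (hn xT)) (sup_le (up_le f _) UN) le_sup_left).1 ?_)
      rwa [down_ker_sup f UN, zu, down_zpowers f ⟨x, hn xT⟩, zpowers_le])
  refine (down_le_norm_iff hn (BR.trans RN) (hk ▸ R1)).1 ?_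
  rw [← hb]
  exact le_norm_of_le_cent (cent_zpowers b ▸ this)

theorem step_in (dT : d ∈ 𝒩 T) : In p u T d := by
  have hp := h.hp
  have fx := h.step_fx i hT l hn
  refine ⟨i.toGd.ge hT l.le, dT, i.du, i.pi, fx, ?_⟩
  have dR := zpowers_le.2 i.dn
  have l1 := h.step_nB i hT l hn dT
  have l2 := right_le_norm_comm R (zpowers d)
  obtain ⟨Q, _, _, f, -, hk⟩ := exists_quo (nrm_norm ⁅R, zpowers d⁆)
  have UT := i.lt.le.trans l.le
  have e : down f R = down f (zpowers u) := by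
    rw [← down_ker_sup f (UT.trans l1), hk, i.sup hp]
  have ca := (mkCA_p' hp (zpowers_le.2 dT) hT (i.nd hp))
  have c1 : down f T ≤ 𝒞 (down f R) := by
    rw [← ca.comm_sup_cent, down_sup f ((comm_le_left ca.norm).trans l1) (inf_le_left.trans l1),
      down_commutator f l1 l2]
    refine sup_le ((comm_mono le_sup_left le_sup_right).trans (cyc_der_cent (e ▸ (cyc_zpowers u).down f)
      (sup_le (down_le_norm f hn) (down_le_norm f dR)))) ?_
    rw [e]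
    exact (down_mono f (cent_zpowers d ▸ fx)).trans ((cyc_zpowers u).abel.down f)
  have ab : Abel (down f T) := abel_of_ri hp (le_inf (down_mono f l.le) (cent_symm c1))
    ((ri_down_dvd f R l1).trans (h.step_ri i.toGd hT l hn).dvd)
  have := ab.comm_inf_cent (ca.down f).norm (ca.down f).cop'
  refine eq_bot_of_le i.inf (le_inf inf_le_left (hk ▸ (down_eq_bot_iff
    (inf_le_left.trans (UT.trans l1))).1 (eq_bot_of_le this (le_inf ?_ ?_))))
  · rw [← down_commutator f l1 l2]; exact down_mono f inf_le_right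
  · exact (down_mono f inf_le_left).trans (down_le_cent f (cent_symm (by
      rw [cent_zpowers, zpowers_le]; exact i.du)))

theorem step_lift : ∃ a, In p u R a ∧ a ∈ 𝒩 T := by
  have hp := h.hp
  have := Fact.mk hp
  obtain ⟨W, w1, w2, w3, w4⟩ := h.step_W i.toGd hT l hn
  have WR := w1.trans (Phi_nrm R).norm
  have TK : T ≤ 𝒩 R ⊓ H7.stab W (Phi R) := le_inf hn (le_stab hp hT w2.dvd WR (hn.trans w3)
    (hn.trans (norm_le_norm_Phi R)))
  have s := (h.step_syl i.toGd hT l hn).mono TK inf_le_left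
  obtain ⟨k, hk, n, n1, e⟩ := s.frattini (g := d) (le_norm_inf (le_norm _)
    (H7.le_normalizer_stab w3 (norm_le_norm_Phi R)) i.dn)
  obtain ⟨z, hz, t, ht, rfl⟩ := s.exists_mul_of_forall (inf_le_left.trans (norm_le_norm_cent R))
    (fun x hx => by
      obtain ⟨j, c⟩ := exists_pow_coprime p x
      have a := zpowers_le.2 (pow_mem hx (p ^ j))
      have ca := mkCA_p' hp (a.trans inf_le_left) i.pg (by
        rw [card_zpow]; exact hp.coprime_iff_not_dvd.1 c.symm)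
      refine ⟨j, zpowers_le.1 (ca.cent_of_Phi ?_)⟩
      rw [← comm_comm ca.norm ca.cop']
      exact (comm_mono (H7.le_stab_iff.1 ((a.trans inf_le_left).trans w4)).2 le_rfl).trans
        (H7.le_stab_iff.1 (a.trans inf_le_right)).2) hk
  obtain ⟨a, a1, b, b1, a2, b2, e1⟩ := exists_piPart {2, p}ᶜ (t * n)
  have e2 : t * n = z⁻¹ * d := by rw [e]; group
  have b3 : b ∈ 𝒞 R := by
    obtain ⟨j, rfl⟩ := exists_pow_eq b1
    refine mem_of_pow_mem (PiNat.cop i.pi b2) ?_ (by rw [pow_orderOf_eq_one]; exact one_mem _)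
    rw [pow_right_comm, e2]
    exact pow_mem (mul_pow_mem (inv_mem hz) (norm_le_norm_cent R i.dn)
      (pow_orderOf_eq_one d ▸ one_mem _)) j
  have e3 : a = z⁻¹ * d * b⁻¹ := by rw [← e2, ← e1, mul_inv_cancel_right]
  have c : ∀ v ∈ R, a ∈ 𝒞₁ v ↔ d ∈ 𝒞₁ v := fun v hv => by
    rw [e3, mul_mem_cancel_right (inv_mem (cent_le_cent1 hv b3)),
      mul_mem_cancel_left (inv_mem (cent_le_cent1 hv hz))]
  refine ⟨a, ⟨i.toGd, e3 ▸ mul_mem (mul_mem (inv_mem (cent_le_norm R hz)) i.dn)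
    (inv_mem (cent_le_norm R b3)), (c u i.toGd.mem).2 i.du, a2, fun v hv => i.fx ⟨hv.1,
      mem_cent1_comm.1 ((c v hv.1).1 (mem_cent1_comm.1 hv.2))⟩, eq_bot_of_le i.inf
      (inf_le_inf_left _ ?_)⟩, zpowers_le.2 (mul_mem (le_norm T ht) n1) a1⟩
  rw [← comm_sup_of_cent (zpowers_le.2 i.dn) (le_refl (𝒞 R))]
  exact comm_mono le_rfl (zpowers_le.2 (e3 ▸ mul_mem (mul_mem (inv_mem (mem_sup_right hz))
    (mem_sup_left (mem_zpowers d))) (inv_mem (mem_sup_right b3))))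

end

theorem top (i : In p u P d) : ∃ S a, In p u S a ∧ IsSyl p S ⊤ := by
  have := Fact.mk h.hp
  obtain ⟨S, ⟨a, j⟩, mx⟩ := exists_max_card' (S := fun S => ∃ a, In p u S a) ⟨P, d, i⟩
  obtain ⟨T, t1, t2⟩ := exists_syl_ge h.hp j.pg le_top
  refine ⟨S, a, j, by_contra fun n => ?_⟩
  have l := lt_inf_normalizer t1.isPGroup (lt_of_le_of_ne t2 fun e => n (e ▸ t1))
  obtain ⟨b, b1, b2⟩ := h.step_lift j t1.isPGroup.to_inf_left l inf_le_right
  exact (card_lt l).not_ge (mx _ ⟨b, h.step_in b1 t1.isPGroup.to_inf_left l inf_le_right b2⟩)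

theorem fix (i : In p u S d) (hS : IsSyl p S ⊤) (hn : n ∈ 𝒩 S) : ⁅n, u⁆ ∈ Phi S := by
  have hp := h.hp
  obtain ⟨Q, _, _, f, fs, hk⟩ := exists_quo (K := Phi S) (M := 𝒩 S)
    ⟨(Phi_le S).trans (le_norm S), norm_le_norm_Phi S⟩
  have SN := le_norm S
  have uN := SN i.toGd.mem
  have s := (hS.mono SN le_top).down f le_rfl
  have nS := down_le_norm f (le_refl (𝒩 S))
  have el : Elem p (down f S) := (elem_down_iff SN).2 (hk ▸ (Phi_le_iff hp i.pg).1 le_rfl)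
  obtain ⟨V, v1, v2⟩ := exists_sd_syl hp s nS
  have dR := zpowers_le.2 i.dn
  have ca := (mkCA_p' hp dR i.pg (i.nd hp))
  obtain ⟨k, k1, k2⟩ := (ca.down f).exists_le_cj v1.norm (v1.sup ▸ down_mono f dR)
  have cm : ∀ x : 𝒩 S, f x ∈ 𝒞₁ (f ⟨u, uN⟩) ↔ ⁅(x : G), u⁆ ∈ Phi S := fun x => by
    rw [← hk, mem_cent1, ← commutatorElement_eq_one_iff_mul_comm,
      ← map_commutatorElement]
    exact (coe_mem_up (x := ⁅x, (⟨u, uN⟩ : 𝒩 S)⁆) (Y := ⊥)).symm
  have uS : f ⟨u, uN⟩ ∈ down f S := mem_down_of_mem i.toGd.mem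
  have nk : k ∈ 𝒩 (down f S) := le_norm _ k1
  have := lin (L := cj k V) (d := f ⟨d, i.dn⟩) hp h.p2 el
    (by rw [card_down f SN, hk, h.phi_ri i.toGd])
    (by rw [← cj_eq_of_mem_norm nk, ← cj_norm]; exact cj_mono k v1.norm) (by rwa [card_cj]) uS
    (fun e => h.uPhi i.toGd (hk ▸ mem_up.2 ⟨uN, e⟩)) ?_ (k2 (mem_down_of_mem (mem_zpowers d)))
    ((cm ⟨d, i.dn⟩).2 (by
      rw [commutatorElement_eq_one_iff_mul_comm.2 (mem_cent1.1 i.du)]; exact one_mem _))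
    (fun e => ?_) (i.odd.of_dvd_nat ((orderOf_map_dvd f _).trans (orderOf_mk _ _).dvd))
  · refine (cm ⟨n, hn⟩).1 (sup_le (el.abel.trans (cent_le_cent1 uS)) this ?_)
    rw [← cj_eq_of_mem_norm nk, ← cj_sup, v1.sup,
      cj_eq_of_mem_norm (le_norm _ (v1.le_left k1))]
    exact mem_down_of_mem hn
  · rintro y ⟨-, b⟩
    obtain ⟨x, rfl⟩ := fs y
    have UN := i.lt.le.trans SN
    have b1 : zpowers (x : G) ≤ 𝒩 (up f ⊥ ⊔ zpowers u) := (down_le_norm_iff (zpowers_le.2 x.2)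
      (sup_le (up_le f _) UN) le_sup_left).1 (by
        rwa [down_ker_sup f UN, down_zpowers f ⟨u, uN⟩, down_zpowers f x, zpowers_le])
    obtain ⟨t, t1, c, c1, e⟩ := h.fac ((h.phi_eq i.toGd).2.ge ⟨hk ▸ conj_mem_of_norm (zpowers_le.1 b1)
      (mem_sup_right (mem_zpowers u)), fun a => h.uPhi i.toGd (by
        simpa [mul_assoc] using conj_mem_of_norm' (norm_le_norm_Phi S x.2) a)⟩)
    rw [cm, e, show ⁅t * c, u⁆ = ⁅t, u⁆ by
      simp only [commutatorElement_def, _root_.mul_inv_rev, mul_assoc]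
      rw [← mul_assoc c, mem_cent1.1 c1, mul_assoc, mul_inv_cancel_left]]
    exact (nil_of_pgroup hp i.pg).der_le_Phi (commutator_mem_commutator t1 i.toGd.mem)
  · refine i.lt.not_ge ((le_inf le_rfl (cent_zpowers d ▸ cent_symm (ca.cent_of_Phi ?_))).trans i.fx)
    rw [← hk, ← down_le_cent_iff dR SN, down_zpowers f ⟨d, i.dn⟩, zpowers_le]
    exact e

end Hy

theorem tr (hp : p.Prime) (hP : IsSyl p P ⊤) (h2 : ⁅P, P⁆ ≤ K) (hx : x ∈ P)
    (h1 : ∀ g (k : ℕ), g⁻¹ * x ^ k * g ∈ P → g⁻¹ * x ^ k * g * (x ^ k)⁻¹ ∈ K)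
    (hq : x ∈ ⁅(⊤ : Subgroup G), (⊤ : Subgroup G)⁆) : x ∈ K := by
  have := Fact.mk hp
  let ν : P →* Abelianization P ⧸ (K.subgroupOf P).map Abelianization.of :=
    (QuotientGroup.mk' _).comp Abelianization.of
  have hν : ∀ x : P, ν x = 1 ↔ (x : G) ∈ K := fun x => by
    refine ⟨fun h => ?_, fun h => (QuotientGroup.eq_one_iff _).2 ⟨x, h, rfl⟩⟩
    obtain ⟨y, hy, e⟩ := (QuotientGroup.eq_one_iff _).1 h
    have h3 : y⁻¹ * x ∈ _root_.commutator P := by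
      rw [← Abelianization.ker_of, MonoidHom.mem_ker, map_mul, map_inv, e, inv_mul_cancel]
    have := K.mul_mem hy (h2 (map_subtype_commutator P ▸ mem_map_of_mem P.subtype h3))
    simpa using this
  have h3 := transfer_eq_pow_elt ν ⟨x, hx⟩ fun g k hy => by
    rw [← map_pow, ← mul_inv_eq_one, ← map_inv, ← map_mul, hν]
    exact h1 g k hy
  have h4 : MonoidHom.transfer ν x = 1 := Abelianization.commutator_subset_ker _ hq
  rw [show ((⟨x, hx⟩ : P) : G) = x from rfl, h4, ← map_pow, eq_comm, hν] at h3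
  obtain ⟨k, hk⟩ := isPGroup_iff_forall.1 hP.isPGroup x hx
  have h5 := hP.coprime
  rw [relIndex_top_right] at h5
  exact mem_of_pow_mem (h5.pow_right k) h3 (hk ▸ K.one_mem)

theorem Hy.fin (h : Hy p m u) (i : In p u S d) (hS : IsSyl p S ⊤) :
    u ∉ ⁅(⊤ : Subgroup G), (⊤ : Subgroup G)⁆ := fun e => by
  have hp := h.hp
  have BS := comm_le_left (zpowers_le.2 i.dn)
  have nB := left_le_norm_comm S (zpowers d)
  have uS := i.toGd.mem
  have up := pow_mem_Phi hp i.pg uS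
  have dS := (nil_of_pgroup hp i.pg).der_le_Phi
  have : u ∈ Phi S ⊔ ⁅S, zpowers d⁆ := tr hp hS (dS.trans le_sup_left) uS (fun g k hy => ?_) e
  · exact h.u1 (i.inf ▸ ⟨mem_zpowers u, le_of_le_Phi_sup BS le_rfl ((i.sup hp).ge.trans
      (sup_le le_sup_right (zpowers_le.2 this))) uS⟩)
  by_cases pk : p ∣ k
  · obtain ⟨j, rfl⟩ := pk
    refine mul_mem ?_ (inv_mem (mem_sup_left (by rw [pow_mul]; exact pow_mem up j)))
    obtain ⟨b, hb, v, hv, e1⟩ := (mem_sup_l (i.lt.le.trans nB)).1 ((i.sup hp).ge hy)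
    refine e1 ▸ mul_mem (mem_sup_right hb) (mem_sup_left (zpowers_le.2 up (by_contra fun a => ?_)))
    have h1 := mul_pow_mul_inv_mem hb (nB (i.lt.le hv)) m
    have h2 : (b * v) ^ m = 1 := by
      have := conj_pow (a := g⁻¹) (b := u ^ (p * j)) (i := m)
      rw [inv_inv] at this
      rw [e1, this, ← pow_mul, mul_right_comm p, ← h.ord, pow_mul, pow_orderOf_eq_one]; simp
    rw [h2, one_mul, inv_mem_iff] at h1
    have h3 := orderOf_dvd_of_pow_eq_one (eq_one_of_mem i.inf ⟨pow_mem hv m, h1⟩)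
    rw [← card_zpow, h.gen hv a, card_zpow, h.ord] at h3
    exact (Nat.le_of_dvd h.m0 h3).not_gt (lt_mul_of_one_lt_left h.m0 hp.one_lt)
  · have h1 : g⁻¹ * u * g ∈ S := by
      have : zpowers (u ^ k) = zpowers u := h.gen (pow_mem (mem_zpowers u) k) fun a => by
        obtain ⟨j, e⟩ := exists_pow_eq a
        rw [← pow_mul, pow_eq_pow_iff_modEq, h.ord] at e
        exact pk ((e.of_mul_right m).dvd_iff dvd_rfl |>.1 (dvd_mul_right p j))
      have h2 : cj g⁻¹ (zpowers (u ^ k)) ≤ S := by rwa [cj_zpowers', inv_inv, zpowers_le]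
      rw [this, cj_zpowers', inv_inv] at h2
      exact zpowers_le.1 h2
    have r : Gd p u (cj g S) := ⟨isPGroup_cj i.pg g, lt_of_le_of_ne (zpowers_le.2 (mem_cj.2 h1))
      fun e => (card_lt i.lt).ne (by rw [e, card_cj])⟩
    obtain ⟨c, c1, c2⟩ := h.trans _ _ S (card_cj g S) rfl r i.toGd
    rw [← cj_mul, cj_eq_iff] at c2
    have h2 := h.fix i hS (inv_mem c2)
    have h3 : g⁻¹ * u ^ k * g = (⁅(c * g)⁻¹, u⁆ * u) ^ k := by
      rw [commutatorElement_def, inv_mul_cancel_right, conj_pow, inv_inv, _root_.mul_inv_rev,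
        mul_assoc g⁻¹ c⁻¹, mem_cent1.1 (inv_mem (cent1_le_cent1_pow u k c1))]
      group
    rw [h3]
    exact mem_sup_left (mul_pow_mul_inv_mem h2 ((Phi_nrm S).norm uS) k)

/-- the transfer lemma -/
theorem mc (hp : p.Prime) (hu : IsPGroup p (zpowers u)) (u1 : u ≠ 1) (hN : 𝒩 (zpowers u) ≤ 𝒞₁ u)
    (hs : orderOf s = p) (su : s ∉ zpowers u) (hP : IsSyl p (zpowers u ⊔ zpowers s) (𝒞₁ u))
    (du : d ∈ 𝒞₁ u) (dn : d ∈ 𝒩 (zpowers s)) (dc : d ∉ 𝒞₁ s) (hd : Odd (orderOf d)) :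
    u ∉ ⁅(⊤ : Subgroup G), (⊤ : Subgroup G)⁆ := by
  have := Fact.mk hp
  have cs : ♯(zpowers s) = p := (card_zpow s).trans hs
  have p2 : p ≠ 2 := by
    rintro rfl
    exact dc (by simpa [cent_zpowers] using cyc_aut hp cs.dvd dn)
  obtain ⟨m, hm⟩ := dvd_card_of_pgroup hp hu (zpowers_eq_bot.not.2 u1)
  have sc : zpowers s ≤ 𝒞 (zpowers u) := cent_zpowers u ▸ le_sup_right.trans hP.le
  have i0 : zpowers s ⊓ zpowers u = ⊥ := inf_eq_bot_of_prime (cs ▸ hp) (by rwa [zpowers_le])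
  have cP : ♯(zpowers u ⊔ zpowers s) = p * m * p := by
    rw [card_sup_of_inf (le_norm_of_le_cent sc) ((inf_comm _ _).trans i0), hm, cs]
  have h : Hy p m u := ⟨hp, p2, hu, (card_zpow u).symm.trans hm, hN, fun P a => ⟨by
    rw [a.card_eq hP, cP, mul_comm], fun c => by
      obtain ⟨g, -, e⟩ := a.exists_cj_eq hP
      obtain ⟨Y, y1, y2⟩ := exists_card_eq hp (Dvd.intro m hm.symm)
      exact ((mk_el1 hp y2 (y1.trans le_sup_left)).sup_one hp (mk_el1 hp cs le_sup_right)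
        (cent_mono (cent_symm sc) y1 le_rfl) fun l => su (y1 (l (mem_zpowers s)))).not_cyc' hp
        (e ▸ c.cj g)⟩⟩
  obtain ⟨b, b1, a, a1, b2, a2, e⟩ := exists_piPart {p} d
  have an := zpowers_le.2 dn a1
  have au := zpowers_le.2 du a1
  have ac : a ∉ 𝒞₁ s := fun c => dc (e ▸ mul_mem ?_ c)
  · have lt : zpowers u < zpowers u ⊔ zpowers s := left_lt_sup.2 (by rwa [zpowers_le])
    have ua := zpowers_le.2 (mem_cent1_comm.1 au)
    refine (h.top (P := zpowers u ⊔ zpowers s) (d := a) ⟨⟨hP.isPGroup, lt⟩,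
      zpowers_le.1 (le_norm_sup (le_norm_of_le_cent (by rwa [cent_zpowers, zpowers_le]))
        (zpowers_le.2 an)), au, fun q q1 q2 => ?_, ?_, ?_⟩).elim fun S ⟨c, j, k⟩ => h.fin j k
    · rintro (rfl | rfl)
      · exact (hd.of_dvd_nat (orderOf_dvd_of_mem_zpowers a1)).not_two_dvd_nat q2
      · exact a2 _ q1 q2 rfl
    · refine ((eq_or_eq_of_ri_prime (le_inf le_sup_left ua) inf_le_left ?_).resolve_right fun e =>
        ac (mem_cent1_comm.1 (e.ge (mem_sup_right (mem_zpowers s))).2)).le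
      rwa [ri_eq_of_sd (le_norm_of_le_cent sc) ((inf_comm _ _).trans i0), cs]
    · refine eq_bot_of_le ((inf_comm _ _).trans i0) (inf_le_inf_left _ ?_)
      rw [sup_comm, sup_comm_of_cent (cent_zpowers a ▸ ua) (le_norm_of_cent (cent_symm sc)
        (comm_le_left (zpowers_le.2 an)))]
      exact comm_le_left (zpowers_le.2 an)
  · have pb := (piG_single hp).1 (piG_zpowers.2 b2)
    have bn := zpowers_le.2 (zpowers_le.2 dn b1)
    exact mem_cent1_comm.1 (cent_le_cent1 (mem_sup_right (mem_zpowers b)) (le_cent_of_card_le hp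
      (pgroup_sup bn (isPGroup_of_card cs) pb) (nrm_sup_left bn) cs.le (mem_zpowers s)))

theorem mc' (hp : p.Prime) (hu : IsPGroup p (zpowers u)) (u1 : u ≠ 1) (hN : 𝒩 (zpowers u) ≤ 𝒞₁ u)
    (hs : orderOf s = p) (su : s ∉ zpowers u) (hP : IsSyl p (zpowers u ⊔ zpowers s) (𝒞₁ u))
    (du : d ∈ 𝒞₁ u) (dn : d ∈ 𝒩 (zpowers s)) (dc : d ∉ 𝒞₁ s) (hd : Odd (orderOf d)) :
    ∃ K : Subgroup G, K.Normal ∧ K.index = p := by
  have := Fact.mk hp
  obtain ⟨K, -, k1, k2⟩ := exists_nrm_ri_eq (H := (⊤ : Subgroup G)) hp (by_contra fun a => by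
    obtain ⟨k, e⟩ := isPGroup_iff_forall.1 hu u (mem_zpowers u)
    exact mc hp hu u1 hN hs su hP du dn dc hd (mem_of_pow_mem ((hp.coprime_iff_not_dvd.2 a).pow_left k)
      (e ▸ one_mem _) (pow_relIndex_mem (der_nrm ⊤).norm (mem_top u))))
  exact ⟨K, nrm_top_iff.1 k1, relIndex_top_right K ▸ k2⟩

end Cfsg.GS.MC
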