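import Cfsg.Agent.GS.MC3
import Cfsg.Agent.GS.W0

/-! `TaskMC`. -/

set_option autoImplicit false

namespace Cfsg.GW2

theorem taskMC : TaskMC := fun _ _ _ _ _ _ _ hp hu u1 hN hs su hP du dn dc hd =>
  Cfsg.GS.MC.mc hp hu u1 hN hs su hP du dn dc hd

end Cfsg.GW2
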