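import Cfsg.Agent.GS.Fin4
import Cfsg.Agent.GS.Y6
import Cfsg.Agent.GS.Z4
import Cfsg.Agent.GS.WMain
import Cfsg.Agent.GS.O1
import Cfsg.Agent.GS.I5
import Cfsg.Agent.GS.G4
import Cfsg.Agent.GS.G6
import Cfsg.Agent.GS.P5
import Cfsg.Agent.GS.X6
import Cfsg.Agent.GS.X9
import Cfsg.Agent.FT.Main

/-! Goldschmidt's theorem modulo the two last pieces. -/

set_option autoImplicit false

namespace Cfsg.GS

theorem goldSimple_of (h1 : T4.U4b) (h2 : T4.Fld) : GoldSimple :=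
  Nx.finG Yx.u8 (Zx.w8a (GW2.jt2 FT.oddOrder)) Ox.w8b h1 Ix.u4c
    (T4.lu_of Gx.taskG1 Gx.taskG2 Px.csz Xx.cu3 Xx.cl2 h2)

end Cfsg.GS
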