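import Cfsg.Agent.GS.T4
import Cfsg.Agent.GS.A2

/-! The Sylow `2`-subgroups of the three families `L₂(q)`, `Sz(q)`, `U₃(q)`: `Tor`, `U3G`, `Ty`. -/

set_option autoImplicit false

namespace Cfsg.GS.Nx

open Subgroup Cfsg.L0 Cfsg.H8 Cfsg.FT Cfsg.BS Cfsg.BS.R Cfsg.GS.T3 Cfsg.GS.T4
open scoped commutatorElement

section
variable {G : Type} [Group G] {A T : Subgroup G} {a b g k x y : G}

theorem mul_self_of_elem (h : Elem 2 A) (ha : a ∈ A) : a * a = 1 := (sq a).symm.trans (h.pow ha)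

theorem elem_of_sq (h : ∀ a ∈ A, a * a = 1) : Elem 2 A := by
  refine elem_iff.2 ⟨⟨⟨fun x y => Subtype.ext ?_⟩⟩, fun x hx => (sq x).trans (h x hx)⟩
  have i : ∀ z ∈ A, z⁻¹ = z := fun z hz => inv_eq_of_mul_eq_one_right (h z hz)
  rw [coe_mul, coe_mul, ← i _ (mul_mem x.2 y.2), mul_inv_rev, i _ x.2, i _ y.2]

theorem conj_pow' (g k : G) (n : ℕ) : (g * k * g⁻¹) ^ n = g * k ^ n * g⁻¹ := conj_pow

theorem tor_cj [Finite G] (h : Tor A k) (g : G) : Tor (cj g A) (g * k * g⁻¹) where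
  odd := by rw [orderOf_cj]; exact h.odd
  kA := by rw [← cj_norm]; exact conj_mem_cj h.kA
  tr := fun a ha b hb a1 b1 => by
    obtain ⟨n, hn⟩ := h.tr _ (mem_cj.1 ha) _ (mem_cj.1 hb) (by simpa using conj_ne_one a1 g⁻¹)
      (by simpa using conj_ne_one b1 g⁻¹)
    exact ⟨n, by rw [conj_pow', show b = g * (g⁻¹ * b * g) * g⁻¹ by group, ← hn]; group⟩

/-- the torus has no fixed point on `A#` -/
theorem tor_fix [Finite G] (h : Tor A k) (h2 : 2 < ♯A) (ha : a ∈ A) (hc : k * a = a * k) : a = 1 := by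
  by_contra a1
  have : A ≤ zpowers a := fun b hb => by
    by_cases e : b = 1
    · exact e ▸ one_mem _
    obtain ⟨n, hn⟩ := h.tr a ha b hb a1 e
    rw [← hn, ((show Commute k a from hc).pow_left n).eq, mul_inv_cancel_right]
    exact mem_zpowers a
  have e : ∀ b ∈ A, b = 1 ∨ b = a := fun b hb => or_iff_not_imp_left.2 fun e => by
    obtain ⟨n, hn⟩ := h.tr a ha b hb a1 e
    rw [← hn, ((show Commute k a from hc).pow_left n).eq, mul_inv_cancel_right]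
  have : (A : Set G) ⊆ {1, a} := fun b hb => e b hb
  have := (Set.ncard_le_ncard this).trans (Set.ncard_insert_le _ _)
  rw [Set.ncard_singleton, ← Nat.card_coe_set_eq] at this
  exact absurd h2 (not_lt.2 this)

/-- a nontrivial subgroup of `A` normalized by the torus is `A` -/
theorem tor_irr (h : Tor A k) {B : Subgroup G} (hB : B ≤ A) (h0 : B ≠ ⊥) (hk : k ∈ 𝒩 B) : B = A := by
  obtain ⟨b, b1, b2⟩ := exists_ne_one h0
  refine le_antisymm hB fun a ha => ?_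
  by_cases e : a = 1
  · exact e ▸ one_mem _
  obtain ⟨n, rfl⟩ := h.tr b (hB b1) a ha b2 e
  exact conj_mem_of_norm (pow_mem hk n) b1

end

theorem subring_top {F : Type} [Field F] [Fintype F] (K : Subring F)
    (h : Fintype.card F < Nat.card K ^ 2) : K = ⊤ := by
  refine eq_top_iff.2 fun c _ => by_contra fun n => ?_
  have : Function.Injective fun p : K × K => (p.1 : F) + p.2 * c := fun p r e => by
    have e' : (p.1 : F) + p.2 * c = r.1 + r.2 * c := e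
    have i : (p.2 : F) = r.2 := by_contra fun i => n (by
      have d : (p.2 : F) - r.2 ≠ 0 := sub_ne_zero.2 i
      have d2 := FiniteField.pow_card_sub_one_eq_one _ d
      have d3 := Fintype.one_lt_card (α := F)
      rw [show Fintype.card F - 1 = Fintype.card F - 2 + 1 by omega, pow_succ] at d2
      rw [show c = (r.1 - p.1) * ((p.2 : F) - r.2) ^ (Fintype.card F - 2) by
        linear_combination (((p.2 : F) - r.2) ^ (Fintype.card F - 2)) * e' - c * d2]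
      exact mul_mem (sub_mem r.1.2 p.1.2) (pow_mem (sub_mem p.2.2 r.2.2) _))
    exact Prod.ext (Subtype.ext (by rw [i] at e'; exact add_right_cancel e')) (Subtype.ext i)
  have := Nat.card_le_card_of_injective _ this
  rw [Nat.card_prod, Nat.card_eq_fintype_card (α := F), ← pow_two] at this
  omega

theorem order_le_subring {F : Type} [Field F] [Fintype F] (K : Subring F) {l : F} (h : l ∈ K)
    (h0 : l ≠ 0) : orderOf l + 1 ≤ Nat.card K := by
  have a : insert 0 (Units.val '' (zpowers (Units.mk0 l h0) : Set Fˣ)) ⊆ K := by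
    rintro _ (rfl | ⟨u, hu, rfl⟩)
    · exact zero_mem K
    obtain ⟨n, rfl⟩ := mem_powers_iff_mem_zpowers.2 hu
    simpa using pow_mem h n
  have b := Set.ncard_le_ncard a
  rw [Set.ncard_insert_of_notMem (by rintro ⟨u, -, e⟩; exact u.ne_zero e),
    Set.ncard_image_of_injective _ Units.val_injective, ← Nat.card_coe_set_eq,
    ← Nat.card_coe_set_eq] at b
  have c : Nat.card (zpowers (Units.mk0 l h0)) = orderOf l := by
    rw [Nat.card_zpowers, ← orderOf_units, Units.val_mk0]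
  exact c ▸ b

/-- the coordinates of `U3G` -/
structure Co3 {G F : Type} [Group G] [Field F] [Fintype F] (A T : Subgroup G) (k : G)
    (π ι : G → F) (l : F) : Prop where
  pg : IsPGroup 2 T
  le : A ≤ T
  cA : T ≤ 𝒞 A
  kT : k ∈ 𝒩 T
  card : Fintype.card F = ♯A ^ 2
  add : ∀ x ∈ T, ∀ y ∈ T, π (x * y) = π x + π y
  ker : ∀ x ∈ T, π x = 0 ↔ x ∈ A
  onto : ∀ c, ∃ x ∈ T, π x = c
  iadd : ∀ a ∈ A, ∀ b ∈ A, ι (a * b) = ι a + ι b
  iinj : ∀ a ∈ A, ι a = 0 → a = 1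
  sq : ∀ x ∈ T, x * x ∈ A
  isq : ∀ x ∈ T, ι (x * x) = π x ^ (♯A + 1)
  kπ : ∀ x ∈ T, π (k * x * k⁻¹) = l * π x
  kι : ∀ a ∈ A, ι (k * a * k⁻¹) = l ^ (♯A + 1) * ι a
  ord : orderOf l * Nat.gcd 3 (♯A + 1) + 1 = ♯A ^ 2

theorem co3_of {G : Type} [Group G] {A T : Subgroup G} {k : G} (h : U3G A T k) :
    ∃ (F : Type) (_ : Field F) (_ : Fintype F) (π ι : G → F) (l : F), Co3 A T k π ι l := by
  obtain ⟨F, _, _, π, ι, l, a1, a2, a3, a4, a5, a6, a7, a8, a9, a10⟩ := h.ex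
  exact ⟨F, _, _, π, ι, l, h.pg, h.le, h.cA, h.kT, a1, a2, a3, a4, a5, a6, fun x hx => (a7 x hx).1,
    fun x hx => (a7 x hx).2, a8, a9, a10⟩

namespace Co3
variable {G F : Type} [Group G] [Field F] [Fintype F] {A T Y : Subgroup G} {a b g k x y : G}
  {π ι : G → F} {l c : F} (h : Co3 A T k π ι l)
include h

theorem u3g : U3G A T k := ⟨h.pg, h.le, h.cA, h.kT, F, _, _, π, ι, l, h.card, h.add, h.ker, h.onto,
  h.iadd, h.iinj, fun x hx => ⟨h.sq x hx, h.isq x hx⟩, h.kπ, h.kι, h.ord⟩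

theorem π_one : π 1 = 0 := (h.ker 1 (one_mem _)).2 (one_mem _)

theorem ι_one : ι 1 = 0 := by simpa using h.iadd 1 (one_mem _) 1 (one_mem _)

theorem one (ha : a ∈ A) : a * a = 1 := h.iinj _ (mul_mem ha ha) (by
  rw [h.isq a (h.le ha), (h.ker a (h.le ha)).2 ha, zero_pow (by omega)])

theorem elem : Elem 2 A := elem_of_sq fun _ ha => h.one ha

theorem mem_of_sq (hx : x ∈ T) (h1 : x * x = 1) : x ∈ A :=
  (h.ker x hx).1 (pow_eq_zero_iff (n := ♯A + 1) (by omega) |>.1 (by rw [← h.isq x hx, h1, h.ι_one]))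

theorem two_le : 2 ≤ ♯A := by
  have := Fintype.one_lt_card (α := F)
  rw [h.card] at this
  by_contra i
  interval_cases ♯A <;> simp at this

theorem exists_pow : ∃ n, 1 ≤ n ∧ ♯A = 2 ^ n := by
  have : Finite A := Nat.finite_of_card_ne_zero (by have := h.two_le; omega)
  obtain ⟨n, hn⟩ := IsPGroup.iff_card.1 (h.pg.to_le h.le)
  refine ⟨n, Nat.pos_of_ne_zero fun e => ?_, hn⟩
  have := h.two_le
  rw [hn, e] at this; omega

theorem charP : CharP F 2 := by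
  obtain ⟨n, -, hn⟩ := h.exists_pow
  exact charP_of_card_eq_prime_pow (f := n * 2) (by rw [h.card, hn, ← pow_mul])

theorem add_pow (c e : F) : (c + e) ^ ♯A = c ^ ♯A + e ^ ♯A := by
  have := h.charP
  obtain ⟨n, -, hn⟩ := h.exists_pow
  rw [hn, add_pow_char_pow]

theorem pow_pow (c : F) : (c ^ ♯A) ^ ♯A = c := by
  rw [← pow_mul, ← pow_two, ← h.card, FiniteField.pow_card]

theorem add_self (c : F) : c + c = 0 := by have := h.charP; exact CharTwo.add_self_eq_zero c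

theorem π_inv (hx : x ∈ T) : π x⁻¹ = π x := by
  have := h.add x hx _ (inv_mem hx)
  rw [mul_inv_cancel, h.π_one] at this
  linear_combination h.add_self (π x⁻¹) + this

theorem eq_iff (hx : x ∈ T) (hy : y ∈ T) : π x = π y ↔ x * y⁻¹ ∈ A := by
  rw [← h.ker _ (mul_mem hx (inv_mem hy)), h.add x hx _ (inv_mem hy), h.π_inv hy]
  exact ⟨fun e => e ▸ h.add_self _, fun e => by linear_combination e - h.add_self (π y)⟩

theorem ι_inj (ha : a ∈ A) (hb : b ∈ A) (e : ι a = ι b) : a = b := by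
  have := h.iinj _ (mul_mem ha hb) (by rw [h.iadd a ha b hb, e, h.add_self])
  rw [← mul_right_inj b, h.one hb, ← this, h.elem.abel.comm ha hb]

theorem comm_mem (hx : x ∈ T) (hy : y ∈ T) : ⁅x, y⁆ ∈ A := Ux.der_le_of_sq h.sq
  (commutator_mem_commutator hx hy)

/-- the commutator form -/
theorem ι_comm (hx : x ∈ T) (hy : y ∈ T) : ι ⁅x, y⁆ = π x ^ ♯A * π y + π x * π y ^ ♯A := by
  have a := mul_mem (inv_mem hx) hy
  rw [Ux.comm_eq_sq, h.iadd _ (mul_mem (h.sq x hx) (h.sq _ a)) _ (h.sq _ (inv_mem hy)),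
    h.iadd _ (h.sq x hx) _ (h.sq _ a), h.isq x hx, h.isq _ a, h.isq _ (inv_mem hy),
    h.add _ (inv_mem hx) y hy, h.π_inv hx, h.π_inv hy, pow_succ, pow_succ, pow_succ, h.add_pow]
  linear_combination h.add_self (π x ^ ♯A * π x) + h.add_self (π y ^ ♯A * π y)

theorem exists_ne : ∃ c : F, c ^ ♯A ≠ c := by
  obtain ⟨c, hc⟩ := H3.frobq_exists_ne h.card
  exact ⟨c, H2.frobq_apply h.card c ▸ hc⟩

theorem mem_of_cent (hx : x ∈ T) (hc : x ∈ 𝒞 T) : x ∈ A := by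
  by_contra n
  have x0 : π x ≠ 0 := fun e => n ((h.ker x hx).1 e)
  obtain ⟨c, hc'⟩ := h.exists_ne
  obtain ⟨y, hy, e⟩ := h.onto (c * π x)
  have := h.ι_comm hx hy
  rw [commutatorElement_eq_one_iff_mul_comm.2 (mem_cent.1 hc y hy).symm, h.ι_one, e, mul_pow] at this
  exact hc' (mul_right_cancel₀ (mul_ne_zero x0 (pow_ne_zero (♯A) x0))
    (by linear_combination -this - h.add_self (π x ^ ♯A * (c * π x))))

theorem ctr : 𝒵 T = A := le_antisymm (fun _ hx => h.mem_of_cent hx.1 hx.2)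
  (le_inf h.le (cent_symm h.cA))

theorem kA : k ∈ 𝒩 A := h.ctr ▸ norm_le_norm_ctr T h.kT

theorem l_ne : l ≠ 0 := fun e => by
  have := h.ord
  have h2 := h.two_le
  rw [e, orderOf_zero] at this
  nlinarith

theorem π_pow (hx : x ∈ T) (n : ℕ) : π (k ^ n * x * (k ^ n)⁻¹) = l ^ n * π x := by
  induction n with
  | zero => simp
  | succ n ih =>
    rw [show k ^ (n + 1) * x * (k ^ (n + 1))⁻¹ = k * (k ^ n * x * (k ^ n)⁻¹) * k⁻¹ by
      rw [pow_succ']; group, h.kπ _ (Ux.pow_conj_mem h.kT hx n), ih]; ring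

theorem ι_pow (ha : a ∈ A) (n : ℕ) : ι (k ^ n * a * (k ^ n)⁻¹) = (l ^ n) ^ (♯A + 1) * ι a := by
  induction n with
  | zero => simp
  | succ n ih =>
    rw [show k ^ (n + 1) * a * (k ^ (n + 1))⁻¹ = k * (k ^ n * a * (k ^ n)⁻¹) * k⁻¹ by
      rw [pow_succ']; group, h.kι _ (Ux.pow_conj_mem h.kA ha n), ih]; ring

theorem norm_w : (l ^ (♯A - 1)) ^ (♯A + 1) = 1 := by
  have h2 := h.two_le
  rw [← pow_mul, show (♯A - 1) * (♯A + 1) = Fintype.card F - 1 by
    rw [h.card, mul_comm, ← Nat.sq_sub_sq]]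
  exact FiniteField.pow_card_sub_one_eq_one l h.l_ne

/-- the power `w = k ^ (q - 1)` centralizes `A` -/
theorem w_cent : k ^ (♯A - 1) ∈ 𝒞 A := mem_cent.2 fun a ha =>
  (mul_inv_eq_iff_eq_mul.1 (h.ι_inj (Ux.pow_conj_mem h.kA ha _) ha
    (by rw [h.ι_pow ha, h.norm_w, one_mul]))).symm

theorem w_ne (h4 : 4 ≤ ♯A) : l ^ (♯A - 1) ≠ 1 := fun e => by
  have a := Nat.le_of_dvd (by omega) (orderOf_dvd_of_pow_eq_one e)
  have b : Nat.gcd 3 (♯A + 1) ≤ 3 := Nat.gcd_le_left _ (by norm_num)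
  have c := Nat.mul_le_mul a b
  have := h.ord
  obtain ⟨m, hm⟩ : ∃ m, ♯A = m + 1 := ⟨♯A - 1, by omega⟩
  rw [hm] at this c h4
  simp only [Nat.add_sub_cancel] at c
  nlinarith

/-- `w` has no fixed point on `T / A` -/
theorem w_fix (h4 : 4 ≤ ♯A) (hx : x ∈ T)
    (e : k ^ (♯A - 1) * x * (k ^ (♯A - 1))⁻¹ * x⁻¹ ∈ A) : x ∈ A := by
  rw [← h.eq_iff (Ux.pow_conj_mem h.kT hx _) hx, h.π_pow hx] at e
  exact (h.ker x hx).1 (by_contra fun i => h.w_ne h4 (mul_right_cancel₀ i (by rw [e, one_mul])))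

theorem w_onto (h4 : 4 ≤ ♯A) (hy : y ∈ T) :
    ∃ x ∈ T, ∃ a ∈ A, y = a * (k ^ (♯A - 1) * x * (k ^ (♯A - 1))⁻¹ * x⁻¹) := by
  have n : l ^ (♯A - 1) + 1 ≠ 0 := fun e => h.w_ne h4 (by linear_combination e - h.add_self 1)
  obtain ⟨x, hx, e⟩ := h.onto (π y / (l ^ (♯A - 1) + 1))
  have m := Ux.pow_conj_mem h.kT hx (♯A - 1)
  refine ⟨x, hx, _, (h.eq_iff hy (mul_mem m (inv_mem hx))).1 ?_, (inv_mul_cancel_right _ _).symm⟩
  rw [h.add _ m _ (inv_mem hx), h.π_pow hx, h.π_inv hx, e]; field_simp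

/-- `π` as a homomorphism -/
def πH : T →* Multiplicative F := MonoidHom.mk' (fun x => Multiplicative.ofAdd (π x))
  fun x y => congrArg Multiplicative.ofAdd (h.add x x.2 y y.2)

theorem card_T : ♯T = ♯A ^ 3 := by
  have a := card_eq_card_quotient_mul_card_subgroup h.πH.ker
  rw [Nat.card_congr (QuotientGroup.quotientKerEquivOfSurjective h.πH (fun c => by
    obtain ⟨x, hx, e⟩ := h.onto c.toAdd
    exact ⟨⟨x, hx⟩, congrArg Multiplicative.ofAdd e⟩)).toEquiv,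
    show h.πH.ker = A.subgroupOf T from Subgroup.ext fun x => h.ker x x.2,
    Nat.card_congr (subgroupOfEquivOfLe h.le).toEquiv,
    Nat.card_eq_fintype_card (α := Multiplicative F), Fintype.card_multiplicative, h.card] at a
  rw [a]; ring

theorem norm_fix (c : F) : (c ^ (♯A + 1)) ^ ♯A = c ^ (♯A + 1) := by
  rw [pow_succ, mul_pow, h.pow_pow, mul_comm]

/-- every element of `A` is a square in `T` -/
theorem exists_sq (ht : Tor A k) (ha : a ∈ A) : ∃ x ∈ T, x * x = a := by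
  by_cases e : a = 1
  · exact ⟨1, one_mem _, by rw [e, one_mul]⟩
  obtain ⟨x, hx, e1⟩ := h.onto 1
  obtain ⟨n, rfl⟩ := ht.tr _ (h.sq x hx) a ha (fun i => one_ne_zero
    (e1.symm.trans ((h.ker x hx).2 (h.mem_of_sq hx i)))) e
  exact ⟨_, Ux.pow_conj_mem h.kT hx n, Ux.conj_mul_self ..⟩

theorem ι_fix (ht : Tor A k) (ha : a ∈ A) : ι a ^ ♯A = ι a := by
  obtain ⟨x, hx, rfl⟩ := h.exists_sq ht ha
  rw [h.isq x hx, h.norm_fix]

theorem ι_onto (hc : c ^ ♯A = c) : ∃ a ∈ A, ι a = c := by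
  obtain ⟨e, he⟩ := H3.frobq_norm h.card c ((H2.frobq_apply h.card c).trans hc)
  obtain ⟨x, hx, rfl⟩ := h.onto e
  exact ⟨_, h.sq x hx, by rw [h.isq x hx, ← he, H2.frobq_mul_self]⟩

/-- the torus is irreducible on `T / A` -/
theorem irr [Finite G] (h4 : 4 ≤ ♯A) (h1 : A ≤ Y) (h2 : Y ≤ T) (hk : k ∈ 𝒩 Y) : Y = A ∨ Y = T := by
  refine or_iff_not_imp_left.2 fun n => ?_
  obtain ⟨y, y1, y2⟩ := SetLike.not_le_iff_exists.1 fun e => n (le_antisymm e h1)
  have y0 : π y ≠ 0 := fun e => y2 ((h.ker y (h2 y1)).1 e)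
  have mem : ∀ x ∈ T, ∀ z ∈ Y, π x = π z → x ∈ Y := fun x hx z hz e =>
    (mul_mem_cancel_right (inv_mem hz)).1 (h1 ((h.eq_iff hx (h2 hz)).1 e))
  let K : Subring F :=
    { carrier := {c | ∀ x ∈ T, ∀ z ∈ Y, π x = c * π z → x ∈ Y}
      one_mem' := fun x hx z hz e => mem x hx z hz (by rw [e, one_mul])
      zero_mem' := fun x hx z hz e => h1 ((h.ker x hx).1 (by rw [e, zero_mul]))
      mul_mem' := fun {c e} hc he x hx z hz i => by
        obtain ⟨t, t1, t2⟩ := h.onto (e * π z)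
        exact hc x hx t (he t t1 z hz t2) (by rw [i, t2, mul_assoc])
      add_mem' := fun {c e} hc he x hx z hz i => by
        obtain ⟨t, t1, t2⟩ := h.onto (c * π z)
        obtain ⟨s, s1, s2⟩ := h.onto (e * π z)
        exact mem x hx _ (mul_mem (hc t t1 z hz t2) (he s s1 z hz s2))
          (by rw [h.add t t1 s s1, i, t2, s2, add_mul])
      neg_mem' := fun {c} hc x hx z hz i => hc x hx z hz
        (by linear_combination i - h.add_self (c * π z)) }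
  have lK : l ∈ K := fun x hx z hz e => mem x hx _ (conj_mem_of_norm hk hz) (by
    rw [e, h.kπ z (h2 hz)])
  have c1 := order_le_subring K lK h.l_ne
  have c4 : K = ⊤ := subring_top K (by
    have b : Nat.gcd 3 (♯A + 1) ≤ 3 := Nat.gcd_le_left _ (by norm_num)
    have := h.ord
    rw [h.card]
    refine Nat.pow_lt_pow_left ?_ two_ne_zero
    nlinarith [Nat.mul_le_mul_left (orderOf l) b])
  exact le_antisymm h2 fun x hx => (c4.ge (Subring.mem_top (π x / π y)) : _ ∈ K) x hx y y1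
    (div_mul_cancel₀ _ y0).symm

theorem cj (g : G) : Co3 (cj g A) (cj g T) (g * k * g⁻¹) (fun x => π (g⁻¹ * x * g))
    (fun x => ι (g⁻¹ * x * g)) l where
  pg := isPGroup_cj h.pg g
  le := cj_mono g h.le
  cA := by rw [← cj_cent]; exact cj_mono g h.cA
  kT := by rw [← cj_norm]; exact conj_mem_cj h.kT
  card := by rw [card_cj, h.card]
  add := fun x hx y hy => by rw [← h.add _ (mem_cj.1 hx) _ (mem_cj.1 hy)]; congr 1; group
  ker := fun x hx => by rw [h.ker _ (mem_cj.1 hx), mem_cj]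
  onto := fun c => by
    obtain ⟨x, hx, e⟩ := h.onto c
    exact ⟨_, conj_mem_cj hx, by rw [← e]; congr 1; group⟩
  iadd := fun x hx y hy => by rw [← h.iadd _ (mem_cj.1 hx) _ (mem_cj.1 hy)]; congr 1; group
  iinj := fun x hx e => eq_one_of_conj' (h.iinj _ (mem_cj.1 hx) e)
  sq := fun x hx => by
    rw [mem_cj]; convert h.sq _ (mem_cj.1 hx) using 1; group
  isq := fun x hx => by rw [card_cj, ← h.isq _ (mem_cj.1 hx)]; congr 1; group
  kπ := fun x hx => by rw [← h.kπ _ (mem_cj.1 hx)]; congr 1; group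
  kι := fun x hx => by rw [card_cj, ← h.kι _ (mem_cj.1 hx)]; congr 1; group
  ord := by rw [card_cj, h.ord]

end Co3

section lift
variable {G Q : Type} [Group G] [Group Q] {H T A : Subgroup G} {f : H →* Q} {k : H}

theorem tor_lift (hA : A ≤ H) (hi : up f ⊥ ⊓ A = ⊥) (hk : (k : G) ∈ 𝒩 A)
    (ho : Odd (orderOf (k : G))) (h : Tor (down f A) (f k)) : Tor A (k : G) where
  odd := ho
  kA := hk
  tr := fun a ha b hb a1 b1 => by
    have n : ∀ a (ha : a ∈ A), a ≠ 1 → f ⟨a, hA ha⟩ ≠ 1 := fun a ha a1 e =>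
      a1 (Ax.eq_of_f hi (x := ⟨a, hA ha⟩) (y := 1) ha (one_mem _) (by rw [e, map_one]))
    obtain ⟨m, hm⟩ := h.tr _ (mem_down_of_mem (x := ⟨a, hA ha⟩) ha) _
      (mem_down_of_mem (x := ⟨b, hA hb⟩) hb) (n a ha a1) (n b hb b1)
    exact ⟨m, Ax.eq_of_f hi (x := k ^ m * ⟨a, hA ha⟩ * (k ^ m)⁻¹) (y := ⟨b, hA hb⟩)
      (Ux.pow_conj_mem hk ha m) hb (by rw [map_mul, map_mul, map_inv, map_pow, hm])⟩

theorem tor_down (h : Tor A (k : G)) (f : H →* Q) : Tor (down f A) (f k) where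
  odd := h.odd.of_dvd_nat ((orderOf_map_dvd f k).trans (orderOf_coe k).symm.dvd)
  kA := zpowers_le.1 (by
    rw [← down_zpowers]; exact down_le_norm f (zpowers_le.2 h.kA))
  tr := by
    rintro _ ⟨a, ha, rfl⟩ _ ⟨b, hb, rfl⟩ a1 b1
    obtain ⟨n, hn⟩ := h.tr a ha b hb (fun e => a1 (by rw [show a = 1 from Subtype.ext e, map_one]))
      (fun e => b1 (by rw [show b = 1 from Subtype.ext e, map_one]))
    exact ⟨n, by rw [← map_pow, ← map_inv, ← map_mul, ← map_mul]; exact congrArg f (Subtype.ext hn)⟩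

open Classical in
theorem u3g_lift (hT : T ≤ H) (hi : up f ⊥ ⊓ T = ⊥) (hA : A ≤ T) (hk : (k : G) ∈ 𝒩 T)
    (hp : IsPGroup 2 T) (h : U3G (down f A) (down f T) (f k)) : U3G A T (k : G) := by
  obtain ⟨F, _, _, π, ι, l, c⟩ := co3_of h
  have e : ♯(down f A) = ♯A :=
    card_down_eq (hA.trans hT) (eq_bot_of_le hi (inf_le_inf_left _ hA))
  let φ : G → Q := fun x => if hx : x ∈ H then f ⟨x, hx⟩ else 1
  have p : ∀ x : H, φ x = f x := fun x => dif_pos x.2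
  have m : ∀ x ∈ T, φ x ∈ down f T := fun x hx => (p ⟨x, hT hx⟩).symm ▸ mem_down_of_mem hx
  have mA : ∀ x ∈ T, φ x ∈ down f A ↔ x ∈ A := fun x hx => by
    rw [p ⟨x, hT hx⟩]
    exact ⟨Ax.mem_of_f hi hA hx, fun i => mem_down_of_mem i⟩
  have mul : ∀ x ∈ T, ∀ y ∈ T, φ (x * y) = φ x * φ y := fun x hx y hy => by
    rw [p ⟨x, hT hx⟩, p ⟨y, hT hy⟩, ← map_mul]; exact p (⟨x, hT hx⟩ * ⟨y, hT hy⟩)
  have cn : ∀ x ∈ T, φ (k * x * (k : G)⁻¹) = f k * φ x * (f k)⁻¹ := fun x hx => by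
    rw [p ⟨x, hT hx⟩, ← map_inv, ← map_mul, ← map_mul]; exact p (k * ⟨x, hT hx⟩ * k⁻¹)
  have inj : ∀ x ∈ T, ∀ y ∈ T, φ x = φ y → x = y := fun x hx y hy i =>
    Ax.eq_of_f hi (x := ⟨x, hT hx⟩) (y := ⟨y, hT hy⟩) hx hy
      ((p ⟨x, hT hx⟩).symm.trans (i.trans (p ⟨y, hT hy⟩)))
  refine Co3.u3g (π := fun x => π (φ x)) (ι := fun x => ι (φ x)) (l := l) ⟨hp, hA,
    fun t ht => mem_cent.2 fun a ha => inj _ (mul_mem (hA ha) ht) _ (mul_mem ht (hA ha)) ?_, hk,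
    e ▸ c.card, fun x hx y hy => ?_, fun x hx => ?_, fun y => ?_, fun x hx y hy => ?_,
    fun x hx i => ?_, fun x hx => ?_, fun x hx => ?_, fun x hx => ?_, fun x hx => ?_, e ▸ c.ord⟩
  · rw [mul _ (hA ha) _ ht, mul _ ht _ (hA ha), mem_cent.1 (c.cA (m t ht)) _ ((mA _ (hA ha)).2 ha)]
  · rw [mul x hx y hy, c.add _ (m x hx) _ (m y hy)]
  · rw [c.ker _ (m x hx), mA x hx]
  · obtain ⟨_, ⟨x, hx, rfl⟩, i⟩ := c.onto y
    exact ⟨x, hx, by rw [p, i]⟩
  · rw [mul x (hA hx) y (hA hy), c.iadd _ ((mA _ (hA hx)).2 hx) _ ((mA _ (hA hy)).2 hy)]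
  · exact inj _ (hA hx) _ (one_mem _) ((c.iinj _ ((mA _ (hA hx)).2 hx) i).trans
      ((p 1).trans (map_one f)).symm)
  · rw [← mA _ (mul_mem hx hx), mul x hx x hx]; exact c.sq _ (m x hx)
  · rw [mul x hx x hx, c.isq _ (m x hx), e]
  · rw [cn x hx, c.kπ _ (m x hx)]
  · rw [cn x (hA hx), c.kι _ ((mA _ (hA hx)).2 hx), e]

theorem ty_lift (hT : T ≤ H) (hi : up f ⊥ ⊓ T = ⊥) (hA : A ≤ T) (hk : (k : G) ∈ 𝒩 T)
    (hkA : (k : G) ∈ 𝒩 A) (ho : Odd (orderOf (k : G))) (hp : IsPGroup 2 T)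
    (h : Ty (down f A) (down f T) (f k)) : Ty A T (k : G) := by
  refine ⟨tor_lift (hA.trans hT) (eq_bot_of_le hi (inf_le_inf_left _ hA)) hkA ho h.1, ?_⟩
  rcases h.2 with e | e | e
  · exact .inl (le_antisymm (fun x hx => Ax.mem_of_f hi hA (x := ⟨x, hT hx⟩) hx
      (e ▸ mem_down_of_mem hx)) hA)
  · exact .inr (.inl (Ax.s2g_lift hT hi hA hk ho hp e))
  · exact .inr (.inr (u3g_lift hT hi hA hk hp e))

end lift

section
variable {G : Type} [Group G] {A T Y : Subgroup G} {a b g k x y : G}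

theorem u3g_cj (h : U3G A T k) (g : G) : U3G (cj g A) (cj g T) (g * k * g⁻¹) := by
  obtain ⟨F, _, _, π, ι, l, c⟩ := co3_of h
  exact (c.cj g).u3g

theorem s2g_cj [Finite G] (h : S2G A T k) (g : G) : S2G (cj g A) (cj g T) (g * k * g⁻¹) where
  pg := isPGroup_cj h.pg g
  ctr := by rw [← h.ctr, cj_inf, cj_cent]
  card := by rw [card_cj, card_cj, h.card]
  sq := fun x hx => by rw [mem_cj]; convert h.sq _ (mem_cj.1 hx) using 1; group
  one := fun x hx => eq_one_of_conj' (g := g) (by rw [← h.one _ (mem_cj.1 hx)]; group)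
  inj := fun x hx y hy e => by
    rw [mem_cj]
    convert h.inj _ (mem_cj.1 hx) _ (mem_cj.1 hy) (by
      calc _ = g⁻¹ * (x * x) * g := by group
        _ = _ := by rw [e]; group) using 1
    group
  cen := fun x hx n y hy e => by
    rw [mem_cj, mem_cj]
    convert h.cen _ (mem_cj.1 hx) (fun i => n (mem_cj.2 i)) _ (mem_cj.1 hy) (by
      calc _ = g⁻¹ * (x * y) * g := by group
        _ = _ := by rw [e]; group) using 2
    group
  hyp := fun x hx y hy e => by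
    rw [mem_cj, mem_cj]
    convert h.hyp _ (mem_cj.1 hx) _ (mem_cj.1 hy) (fun s hs => by
      obtain ⟨t, t1, t2⟩ := e _ (conj_mem_cj (g := g) hs)
      refine ⟨_, mem_cj.1 t1, ?_⟩
      calc _ = g⁻¹ * ⁅x, g * s * g⁻¹⁆ * g := by simp only [commutatorElement_def]; group
        _ = _ := by rw [t2]; simp only [commutatorElement_def]; group) using 2
    group
  odd := by rw [orderOf_cj]; exact h.odd
  kT := by rw [← cj_norm]; exact conj_mem_cj h.kT
  tr := (tor_cj ⟨h.odd, Ux.S2.kA h, h.tr⟩ g).tr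

theorem tor_of_s2g (h : S2G A T k) : Tor A k := ⟨h.odd, Ux.S2.kA h, h.tr⟩

theorem ty_cj [Finite G] (h : Ty A T k) (g : G) : Ty (cj g A) (cj g T) (g * k * g⁻¹) :=
  ⟨tor_cj h.1 g, h.2.imp (congrArg _) (Or.imp (s2g_cj · g) (u3g_cj · g))⟩

theorem u3g_ctr (h : U3G A T k) : 𝒵 T = A := by
  obtain ⟨F, _, _, π, ι, l, c⟩ := co3_of h
  exact c.ctr

theorem u3g_card (h : U3G A T k) : ♯T = ♯A ^ 3 := by
  obtain ⟨F, _, _, π, ι, l, c⟩ := co3_of h
  exact c.card_T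

theorem ty_le (h : Ty A T k) : A ≤ T := by
  rcases h.2 with e | e | e
  exacts [e.ge, Ux.S2.AT e, e.le]

theorem ty_kT (h : Ty A T k) : k ∈ 𝒩 T := by
  rcases h.2 with e | e | e
  exacts [e ▸ h.1.kA, e.kT, e.kT]

theorem ty_sq (h : Ty A T k) (hx : x ∈ T) : x * x ∈ A := by
  rcases h.2 with e | e | e
  · exact e ▸ mul_mem hx hx
  · exact e.sq x hx
  · obtain ⟨F, _, _, π, ι, l, c⟩ := co3_of e
    exact c.sq x hx

theorem ty_comm (h : Ty A T k) (hx : x ∈ T) (hy : y ∈ T) : ⁅x, y⁆ ∈ A :=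
  Ux.der_le_of_sq (fun _ => ty_sq h) (commutator_mem_commutator hx hy)

theorem ty_mem (h : Ty A T k) (hx : x ∈ T) (h1 : x * x = 1) : x ∈ A := by
  rcases h.2 with e | e | e
  · exact e ▸ hx
  · exact Ux.S2.mem_of_sq e hx h1
  · obtain ⟨F, _, _, π, ι, l, c⟩ := co3_of e
    exact c.mem_of_sq hx h1

theorem ty_ctr (h : Ty A T k) (hx : x ∈ T) (h1 : x ∈ 𝒞 T) : x ∈ A := by
  rcases h.2 with e | e | e
  · exact e ▸ hx
  · exact e.ctr.le ⟨hx, h1⟩
  · exact (u3g_ctr e).le ⟨hx, h1⟩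

theorem ty_cA (h : Ty A T k) (he : Elem 2 A) : T ≤ 𝒞 A := by
  rcases h.2 with e | e | e
  exacts [e ▸ he.abel, cent_symm (Ux.S2.AcT e), e.cA]

theorem ty_pg (h : Ty A T k) (he : Elem 2 A) : IsPGroup 2 T := by
  rcases h.2 with e | e | e
  exacts [e ▸ he.pgroup, e.pg, e.pg]

theorem ty_Om (h : Ty A T k) (he : Elem 2 A) : Om 2 T = A :=
  le_antisymm (Om_le_iff.2 fun x hx e => ty_mem h hx (by rwa [← sq])) (he.le_Om (ty_le h))

theorem ty_card (h : Ty A T k) : ♯T = ♯A ∨ ♯T = ♯A ^ 2 ∨ ♯T = ♯A ^ 3 :=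
  h.2.imp (fun e => by rw [e]) (Or.imp S2G.card u3g_card)

theorem ty_nA (h : Ty A T k) (he : Elem 2 A) : 𝒩 T ≤ 𝒩 A := ty_Om h he ▸ norm_le_norm_Om 2 T

/-- the torus has no fixed point on `T / A` -/
theorem ty_fix [Finite G] (h : Ty A T k) (he : Elem 2 A) (h2 : 2 < ♯A) (hx : x ∈ T)
    (e : k * x * k⁻¹ * x⁻¹ ∈ A) : x ∈ A := by
  refine ty_mem h hx (tor_fix h.1 h2 (ty_sq h hx) (mul_inv_eq_iff_eq_mul.1 ?_))
  have c := mem_cent.1 (ty_cA h he hx) _ e
  have s := mul_self_of_elem he e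
  generalize hz : k * x * k⁻¹ * x⁻¹ = z at c s
  rw [← Ux.conj_mul_self, show k * x * k⁻¹ = z * x by rw [← hz]; group]
  calc z * x * (z * x) = z * (x * z) * x := by group
    _ = z * z * (x * x) := by rw [← c]; group
    _ = _ := by rw [s, one_mul]

/-- the torus is irreducible on `T / A` -/
theorem ty_irr [Finite G] (h : Ty A T k) (h4 : 4 ≤ ♯A) (h1 : A ≤ Y) (h2 : Y ≤ T) (hk : k ∈ 𝒩 Y) :
    Y = A ∨ Y = T := by
  rcases h.2 with e | e | e
  · exact .inl (le_antisymm (e ▸ h2) h1)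
  · refine or_iff_not_imp_left.2 fun n => le_antisymm h2 fun x hx => by_contra fun i => ?_
    obtain ⟨y, y1, y2⟩ := SetLike.not_le_iff_exists.1 fun e => n (le_antisymm e h1)
    obtain ⟨m, hm⟩ := Ux.S2.trT e (h2 y1) hx y2 fun j => i (h1 j)
    exact i (inv_mem_iff.1 ((mul_mem_cancel_left (Ux.pow_conj_mem hk y1 m)).1 (h1 hm)))
  · obtain ⟨F, _, _, π, ι, l, c⟩ := co3_of e
    exact c.irr h4 h1 h2 hk

/-- the types exclude each other -/
theorem not_s2g_u3g [Finite G] {k' : G} (h : S2G A T k) (h' : U3G A T k') : False := by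
  obtain ⟨F, _, _, π, ι, l, c⟩ := co3_of h'
  have := c.two_le
  have := Nat.pow_right_injective this (h.card.symm.trans c.card_T)
  omega

end

end Cfsg.GS.Nx
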