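import Cfsg.Agent.GS.N3

/-! Geometry of the general uniqueness case: points `G/M`, the class `I`, lemma (b). -/

set_option autoImplicit false

namespace Cfsg.GS.Xx

open Subgroup Cfsg.L0 Cfsg.H8 Cfsg.FT Cfsg.BS Cfsg.BS.R Cfsg.GS.T3 Cfsg.GS.T4 Cfsg.GS.Ax MulAction
open scoped commutatorElement

/-- the uniqueness case together with the action on the points -/
structure GB {G Ω : Type} [Group G] [MulAction G Ω] (S A : Subgroup G) (α : Ω) : Prop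
    extends UG S A (𝒮 α) where
  tr : ∀ β : Ω, ∃ g : G, g • α = β

theorem gb_of {G : Type} [Group G] {S A M : Subgroup G} (h : UG S A M) :
    GB S A ((1 : G) : G ⧸ M) ∧ stabilizer G ((1 : G) : G ⧸ M) = M := by
  have e : stabilizer G ((1 : G) : G ⧸ M) = M := stabilizer_quotient M
  refine ⟨⟨e.symm ▸ h, fun β => ?_⟩, e⟩
  obtain ⟨g, rfl⟩ := QuotientGroup.mk_surjective β
  exact ⟨g, by simp [MulAction.Quotient.smul_mk]⟩

theorem mg_cj {G : Type} [Group G] {S A : Subgroup G} (h : Mg S A) (g : G) :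
    Mg (cj g S) (cj g A) where
  simple := h.simple
  nab := h.nab
  ih := h.ih
  syl := h.syl.cj_of_mem (by rw [normalizer_eq_top]; trivial)
  sc := ⟨cj_mono g h.sc.le, fun x hx k _ hk => by
    rw [mem_cj] at hx hk ⊢
    have := h.sc.conj hx (g := g⁻¹ * k * g) trivial (by convert hk using 1; group)
    convert this using 1; group⟩
  elem := h.elem.cj g
  four := by rw [card_cj]; exact h.four
  irr := fun B h1 h2 => by
    rcases h.irr (L0.cj g⁻¹ B) (le_cj_iff.1 h1)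
      (by rw [← cj_norm, ← cj_le_iff, cj_norm]; exact h2) with e | e
    · left; rw [← cj_cj_inv g B, e, cj_bot]
    · right; rw [← cj_cj_inv g B, e]
  two := fun K h1 h2 => h.two (L0.cj g⁻¹ K) (le_cj_iff.1 (by rw [cj_norm]; exact h1)) (by
    rw [← relIndex_cj g, cj_cj_inv, cj_norm]; exact h2)

namespace GB
variable {G Ω : Type} [Group G] [Finite G] [MulAction G Ω] {A B S P H T : Subgroup G}
  {a b c d g x y z w : G} {α β γ δ : Ω}

omit [Finite G] in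
theorem cj (h : GB S A α) (g : G) : GB (cj g S) (cj g A) (g • α) where
  toMg := mg_cj h.toMg g
  ne := fun e => h.ne (by rw [← cj_St] at e; rw [← cj_inv_cj g (𝒮 α), e, cj_top])
  nA := by rw [← cj_St, ← cj_norm]; exact cj_mono g h.nA
  cA := fun a ha h1 => by
    have := cj_mono g (h.cA _ (mem_cj.1 ha) (fun e => h1 (by
      rw [show a = g * (g⁻¹ * a * g) * g⁻¹ by group, e]; group)))
    rwa [cj_St, cj_cent1, show g * (g⁻¹ * a * g) * g⁻¹ = a by group] at this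
  tr := fun β => let ⟨k, hk⟩ := h.tr β; ⟨k * g⁻¹, by rw [mul_smul, inv_smul_smul, hk]⟩

variable (h : GB S A α)
include h

/-- `A` is strongly closed in every `2`-subgroup containing it -/
theorem scl (hP : IsPGroup 2 P) (h1 : A ≤ P) : SC A P ⊤ := Ux.sc_of_le h.syl h.sc hP h1

theorem mem_of (hP : IsPGroup 2 P) (h1 : A ≤ P) (hx : x ∈ P) (h2 : InI A x) : x ∈ A := by
  obtain ⟨_, k, hk⟩ := h2
  have := (h.scl hP h1).conj hk (g := k⁻¹) trivial (by convert hx using 1; group)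
  convert this using 1; group

/-- change of the Sylow subgroup -/
theorem syl' (hT : IsSyl 2 T ⊤) (h1 : A ≤ T) : GB T A α :=
  ⟨⟨⟨h.simple, h.nab, h.ih, hT, h.scl hT.isPGroup h1, h.elem, h.four, h.irr, h.two⟩,
    h.ne, h.nA, h.cA⟩, h.tr⟩

omit [Finite G] in
theorem ivo (hx : InI A x) : Ivo x := inI_ivo h.elem hx

omit [Finite G] in
theorem AM : A ≤ 𝒮 α := (le_norm A).trans h.nA

omit [Finite G] in
theorem CM : 𝒞 A ≤ 𝒮 α := (cent_le_norm A).trans h.nA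

theorem SN' : S ≤ 𝒩 A := h.sc.le_norm le_top

theorem sylM : IsSyl 2 S (𝒮 α) := h.syl.mono (h.SN'.trans h.nA) le_top

theorem exA : ∃ a ∈ A, a ≠ 1 := exists_ne1 (by have := h.four; omega)

omit [Finite G] in
theorem nt (β : Ω) : ∃ γ, γ ≠ β := by
  by_contra e
  push Not at e
  exact h.ne (eq_top_iff.2 fun g _ => (e _).trans (e α).symm)

theorem finite : Finite Ω := Finite.of_surjective (fun g : G => g • α) h.tr

/-- an element of `I` fixing `α` is conjugate into `A` in `M` -/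
theorem conj_mem (hx : InI A x) (h1 : x • α = α) : ∃ m ∈ 𝒮 α, m * x * m⁻¹ ∈ A := by
  obtain ⟨m, hm, h2⟩ := h.sylM.exists_conj_mem h1 ⟨1, by simpa [sq] using (h.ivo hx).2⟩
  exact ⟨m, hm, h.mem_of h.syl.isPGroup h.sc.le h2 (inI_conj hx m)⟩

theorem uq0 (ha : a ∈ A) (h1 : a ≠ 1) (h2 : a • β = β) : β = α := by
  obtain ⟨g, rfl⟩ := h.tr β
  obtain ⟨m, hm, h3⟩ := h.conj_mem (inI_conj (inI_of_mem ha h1) g⁻¹)
    (by have := conj_fix h2 g⁻¹; rwa [inv_smul_smul] at this)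
  obtain ⟨n, hn, e⟩ := h.sc.fusion h.syl h.elem.abel ha (g := m * g⁻¹) trivial
    (by convert h3 using 1; group)
  have : n⁻¹ * (m * g⁻¹) ∈ 𝒮 α := h.cA a ha h1 (mem_cent1.2 (by
    rw [mul_assoc, show m * g⁻¹ * a = n * a * n⁻¹ * (m * g⁻¹) by rw [e]; group]; group))
  have h4 : g⁻¹ ∈ 𝒮 α := by
    have := mul_mem (inv_mem hm) (mul_mem (h.nA hn.2) this)
    rwa [show m⁻¹ * (n * (n⁻¹ * (m * g⁻¹))) = g⁻¹ by group] at this
  exact inv_mem_iff.1 h4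

omit [Finite G] in
theorem ex_pt (hx : InI A x) : ∃ β : Ω, x • β = β := by
  obtain ⟨_, k, hk⟩ := hx
  have := conj_fix (mem_St.1 (h.AM hk)) k⁻¹
  exact ⟨k⁻¹ • α, by rwa [show k⁻¹ * (k * x * k⁻¹) * k⁻¹⁻¹ = x by group] at this⟩

/-- an element of `I` fixes only one point -/
theorem uq (hx : InI A x) (h1 : x • β = β) (h2 : x • γ = γ) : β = γ := by
  obtain ⟨h0, k, hk⟩ := hx
  have h3 : k * x * k⁻¹ ≠ 1 := fun e => h0 (by simpa using e)
  have := (h.uq0 hk h3 (conj_fix h1 k)).trans (h.uq0 hk h3 (conj_fix h2 k)).symm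
  exact smul_left_cancel k this

theorem fix_of_conj (hx : InI A x) (h1 : x • β = β) (h2 : (g * x * g⁻¹) • γ = γ) : g • β = γ :=
  h.uq (inI_conj hx g) (conj_fix h1 g) h2

theorem fix_of_comm (hx : InI A x) (h1 : x • β = β) (hc : c * x = x * c) : c • β = β :=
  h.fix_of_conj hx h1 (by rw [hc]; simpa using h1)

theorem ex_I (β : Ω) : ∃ x, InI A x ∧ x • β = β := by
  obtain ⟨g, rfl⟩ := h.tr β
  obtain ⟨a, ha, h1⟩ := h.exA
  exact ⟨_, inI_conj (inI_of_mem ha h1) g, conj_fix (h.AM ha) g⟩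

/-- the normalizer of a subgroup of `A` lies in `M` -/
theorem nB (hB : B ≤ A) (h0 : B ≠ ⊥) : 𝒩 B ≤ 𝒮 α := fun n hn => by
  obtain ⟨b, hb, h1⟩ := exists_ne_one h0
  exact h.fix_of_conj (inI_of_mem (hB hb) h1) (h.AM (hB hb)) (h.AM (hB (conj_mem_of_norm hn hb)))

/-- the elements of `I` in a `2`-group lie in one conjugate of `A` -/
theorem pg_in (hP : IsPGroup 2 P) : ∃ g : G, ∀ x ∈ P, InI A x → g * x * g⁻¹ ∈ A := by
  obtain ⟨g, -, hg⟩ := h.syl.exists_cj_le hP le_top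
  exact ⟨g, fun x hx h1 => h.mem_of h.syl.isPGroup h.sc.le (hg (conj_mem_cj hx)) (inI_conj h1 g)⟩

theorem mul_mem_I (hx : InI A x) (hy : InI A y) (hc : x * y = y * x) (h1 : x * y ≠ 1) :
    InI A (x * y) := by
  obtain ⟨g, hg⟩ := h.pg_in (four_pg (h.ivo hx).2 (h.ivo hy).2 hc)
  refine ⟨h1, g, ?_⟩
  have := mul_mem (hg x (mem_sup_left (mem_zpowers x)) hx) (hg y (mem_sup_right (mem_zpowers y)) hy)
  convert this using 1; group

/-- if `x` and `x w` lie in `I` and commute then `w ∈ I` -/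
theorem of_mul (hx : InI A x) (hy : InI A (x * w)) (hc : w * x = x * w) (h1 : w ≠ 1) : InI A w := by
  have e : x * (x * w) = w := by rw [← mul_assoc, (h.ivo hx).2, one_mul]
  have := h.mul_mem_I hx hy (by rw [e, ← hc, mul_assoc, (h.ivo hx).2, mul_one]) (e.symm ▸ h1)
  rwa [e] at this

theorem odd_mul (hx : InI A x) (hy : InI A y) (h1 : x • β = β) (h2 : y • γ = γ) (hne : β ≠ γ) :
    Odd (orderOf (x * y)) := by
  refine odd_mul_of (h.ivo hx).2 (h.ivo hy).2 fun w hw hm c1 c2 => hne ?_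
  have hI : InI A w := h.of_mul hx (by
    rcases dih (h.ivo hx).2 (h.ivo hy).2 hm with ⟨⟨g, -, e⟩, -⟩ | ⟨⟨g, -, e⟩, -⟩
    · exact e ▸ inI_conj hx g
    · exact e ▸ inI_conj hy g) c1 hw.1
  obtain ⟨δ, hδ⟩ := h.ex_pt hI
  exact (h.uq hx h1 (h.fix_of_comm hI hδ c1.symm)).trans (h.uq hy (h.fix_of_comm hI hδ c2.symm) h2)

theorem conj_ne (hx : InI A x) (hy : InI A y) (h1 : x • β = β) (h2 : y • γ = γ) (hne : β ≠ γ)
    (m1 : x ∈ H) (m2 : y ∈ H) : ∃ g ∈ H, g * x * g⁻¹ = y ∧ g • β = γ := by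
  obtain ⟨g, hg, e⟩ := exists_conj_of_odd_orderOf_mul (h.ivo hx).2 (h.ivo hy).2
    (h.odd_mul hx hy h1 h2 hne)
  exact ⟨g, zpowers_le.2 (mul_mem m1 m2) hg, e, h.fix_of_conj hx h1 (e ▸ h2)⟩

/-- if the elements of `I ∩ H` have two different points they are conjugate in `H` -/
theorem conj_in (hc : InI A c) (hd : InI A d) (h1 : c • β = β) (h2 : d • γ = γ) (hne : β ≠ γ)
    (m1 : c ∈ H) (m2 : d ∈ H) (hx : InI A x) (hy : InI A y) (m3 : x ∈ H) (m4 : y ∈ H) :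
    ∃ g ∈ H, g * x * g⁻¹ = y := by
  obtain ⟨δ, p1⟩ := h.ex_pt hx
  obtain ⟨ε, p2⟩ := h.ex_pt hy
  by_cases e : δ = ε
  · subst e
    have : ∃ u ζ, InI A u ∧ u • ζ = ζ ∧ u ∈ H ∧ δ ≠ ζ := by
      by_cases e : δ = β
      · exact ⟨d, γ, hd, h2, m2, e ▸ hne⟩
      · exact ⟨c, β, hc, h1, m1, e⟩
    obtain ⟨u, ζ, q1, q2, q3, q4⟩ := this
    obtain ⟨g, hg, e1, -⟩ := h.conj_ne hx q1 p1 q2 q4 m3 q3
    obtain ⟨k, hk, e2, -⟩ := h.conj_ne q1 hy q2 p2 q4.symm q3 m4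
    exact ⟨k * g, mul_mem hk hg, by rw [← e2, ← e1]; group⟩
  · obtain ⟨g, hg, e1, -⟩ := h.conj_ne hx hy p1 p2 e m3 m4
    exact ⟨g, hg, e1⟩

/-- `I` is one conjugacy class -/
theorem conj_I (hx : InI A x) (hy : InI A y) : ∃ g, g * x * g⁻¹ = y := by
  obtain ⟨β, hβ⟩ := h.nt α
  obtain ⟨c, c1, c2⟩ := h.ex_I α
  obtain ⟨d, d1, d2⟩ := h.ex_I β
  obtain ⟨g, -, e⟩ := h.conj_in (H := ⊤) c1 d1 c2 d2 hβ.symm trivial trivial hx hy trivial trivial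
  exact ⟨g, e⟩

theorem trA (ha : a ∈ A) (hb : b ∈ A) (h1 : a ≠ 1) (h2 : b ≠ 1) : ∃ n ∈ 𝒩 A, n * a * n⁻¹ = b := by
  obtain ⟨g, e⟩ := h.conj_I (inI_of_mem ha h1) (inI_of_mem hb h2)
  obtain ⟨n, hn, e2⟩ := h.sc.fusion h.syl h.elem.abel ha (g := g) trivial (e ▸ hb)
  exact ⟨n, hn.2, e2.trans e⟩

/-- lemma (b), existence -/
theorem lemB (hz : Ivo z) (hI : ¬ InI A z) (hx : InI A x) (h1 : x • β = β) (h2 : z • β ≠ β) :
    ∃ c, InI A c ∧ c * z = z * c ∧ z * c * x = x * (z * c) ∧ Ivo (z * c) ∧ ¬ InI A (z * c) ∧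
      z * c ∈ zpowers (x * z) := by
  by_contra e
  have := odd_mul_of (h.ivo hx).2 hz.2 fun w hw hm c1 c2 => e (by
    have hw' : ¬ InI A w := fun q => by
      obtain ⟨δ, hδ⟩ := h.ex_pt q
      have := h.uq hx h1 (h.fix_of_comm q hδ c1.symm)
      exact h2 (this ▸ h.fix_of_comm q hδ c2.symm)
    have e : z * (z * w) = w := by rw [← mul_assoc, hz.2, one_mul]
    rcases dih (h.ivo hx).2 hz.2 hm with ⟨⟨g, -, q⟩, -⟩ | ⟨-, g, -, q⟩
    · exact absurd (h.of_mul hx (q ▸ inI_conj hx g) c1 hw.1) hw'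
    · refine ⟨z * w, q ▸ inI_conj hx g, by rw [e, ← c2, mul_assoc, hz.2, mul_one], ?_⟩
      rw [e]; exact ⟨c1, hw, hw', hm⟩)
  obtain ⟨g, -, q⟩ := exists_conj_of_odd_orderOf_mul (h.ivo hx).2 hz.2 this
  exact hI (q ▸ inI_conj hx g)

/-- lemma (b), uniqueness -/
theorem lemB_mem (hz : z * z = 1) (hx : InI A x) (h1 : x • β = β) (h2 : z • β ≠ β) (hc : InI A c)
    (c1 : c * z = z * c) (c2 : z * c * x = x * (z * c)) : z * c ∈ zpowers (x * z) := by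
  obtain ⟨δ, hδ⟩ := h.ex_pt hc
  have ho := h.odd_mul hx hc h1 hδ fun e => h2 (e ▸ h.fix_of_comm hc hδ c1.symm)
  have hcc := (h.ivo hc).2
  have e : x * z = x * c * (z * c) := by
    rw [mul_assoc, ← mul_assoc c, c1, mul_assoc z, hcc, mul_one]
  have hcm : Commute (x * c) (z * c) :=
    Commute.mul_left c2.symm (show c * (z * c) = z * c * c by rw [← mul_assoc, c1])
  have w2 : z * c * (z * c) = 1 := by
    rw [mul_assoc, ← mul_assoc c, c1, mul_assoc z, hcc, mul_one, hz]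
  obtain ⟨m, hm⟩ : Odd _ := ho
  refine ⟨(orderOf (x * c) : ℕ), ?_⟩
  simp only [zpow_natCast]
  rw [e, hcm.mul_pow, pow_orderOf_eq_one, one_mul, hm, pow_succ, pow_mul, sq, w2, one_pow, one_mul]

theorem lemB_uq (hz : z * z = 1) (hI : ¬ InI A z) (hx : InI A x) (h1 : x • β = β) (h2 : z • β ≠ β) (hc : InI A c)
    (c1 : c * z = z * c) (c2 : z * c * x = x * (z * c)) (hd : InI A d)
    (d1 : d * z = z * d) (d2 : z * d * x = x * (z * d)) : c = d := by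
  have k : ∀ {c : G}, InI A c → c * z = z * c → z * c * x = x * (z * c) → Ivo (z * c) :=
    fun {c} hc c1 c2 => ⟨fun e => by
      have e2 : z = c := by rw [← mul_one z, ← (h.ivo hc).2, ← mul_assoc, e, one_mul]
      exact hI (e2 ▸ hc), by
      rw [mul_assoc, ← mul_assoc c, c1, mul_assoc z, (h.ivo hc).2, mul_one, hz]⟩
  exact mul_left_cancel (ivo_uq (h.lemB_mem hz hx h1 h2 hc c1 c2)
    (h.lemB_mem hz hx h1 h2 hd d1 d2) (k hc c1 c2) (k hd d1 d2))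

/-- a `2`-group fixing a point centralizes an element of `I` at this point -/
theorem exI' (hP : IsPGroup 2 P) (h1 : P ≤ 𝒮 β) : ∃ x, InI A x ∧ x • β = β ∧ x ∈ 𝒞 P := by
  obtain ⟨g, rfl⟩ := h.tr β
  obtain ⟨m, hm, h2⟩ := (h.cj g).sylM.exists_cj_le hP h1
  have h' := (h.cj g).cj m⁻¹
  have h3 : P ≤ L0.cj m⁻¹ (L0.cj g S) := (cj_le_iff m).1 h2
  obtain ⟨x, hx, x1⟩ := exists_ne_one (inf_cent_ne_bot_of_pgroup Nat.prime_two hP h'.elem.pgroup
    (h3.trans h'.SN') (ne_bot_of_card (by have := h'.four; omega)))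
  refine ⟨x, (inI_cj g).1 ((inI_cj m⁻¹).1 (inI_of_mem hx.1 x1)), ?_, hx.2⟩
  have := h'.AM hx.1
  rwa [inv_fix hm] at this

theorem exI (hz : z * z = 1) (h1 : z • β = β) : ∃ x, InI A x ∧ x • β = β ∧ x ∈ 𝒞₁ z := by
  obtain ⟨x, q1, q2, q3⟩ := h.exI' (card_zp2 hz) (zpowers_le.2 h1)
  exact ⟨x, q1, q2, cent_zpowers z ▸ q3⟩

/-- the centralizer of a `2`-group is transitive on its fixed points -/
theorem tr_fix' (hP : IsPGroup 2 P) (h1 : P ≤ 𝒮 β) (h2 : P ≤ 𝒮 γ) : ∃ g ∈ 𝒞 P, g • β = γ := by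
  by_cases e : β = γ
  · exact ⟨1, one_mem _, by rw [one_smul, e]⟩
  obtain ⟨x, x1, x2, x3⟩ := h.exI' hP h1
  obtain ⟨y, y1, y2, y3⟩ := h.exI' hP h2
  obtain ⟨g, hg, -, q⟩ := h.conj_ne x1 y1 x2 y2 e x3 y3
  exact ⟨g, hg, q⟩

theorem tr_fix (hz : z * z = 1) (h1 : z • β = β) (h2 : z • γ = γ) : ∃ g ∈ 𝒞₁ z, g • β = γ := by
  obtain ⟨g, q1, q2⟩ := h.tr_fix' (card_zp2 hz) (zpowers_le.2 h1) (zpowers_le.2 h2)
  exact ⟨g, cent_zpowers z ▸ q1, q2⟩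

/-- a `2`-group fixes a point -/
theorem ex_fix' (hP : IsPGroup 2 P) : ∃ β : Ω, P ≤ 𝒮 β := by
  obtain ⟨g, -, hg⟩ := h.syl.exists_cj_le hP le_top
  exact ⟨g⁻¹ • α, by rw [← cj_St]; exact (cj_le_iff g).1 (hg.trans h.sylM.le)⟩

theorem ex_fix (hz : z * z = 1) : ∃ β : Ω, z • β = β :=
  let ⟨β, q⟩ := h.ex_fix' (card_zp2 hz); ⟨β, q (mem_zpowers z)⟩

omit [Finite G] in
/-- the action is faithful -/
theorem faith (h1 : z ≠ 1) : ∃ β : Ω, z • β ≠ β := by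
  by_contra e
  push Not at e
  have hn : (𝒮 α).normalCore = ⊥ := (h.simple.eq_bot_or_eq_top_of_normal _ inferInstance).resolve_right
    fun q => h.ne (eq_top_iff.2 (q ▸ normalCore_le _))
  refine h1 (eq_one_of_mem hn fun g => ?_)
  have := conj_fix (e (g⁻¹ • α)) g
  rwa [smul_inv_smul] at this

/-- the elements of `I ∩ C(z)` are conjugate in `C(z)` if `z` fixes two points -/
theorem conj_cent (hz : z * z = 1) (h1 : z • β = β) (h2 : z • γ = γ) (hne : β ≠ γ) (hx : InI A x)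
    (hy : InI A y) (m1 : x ∈ 𝒞₁ z) (m2 : y ∈ 𝒞₁ z) : ∃ g ∈ 𝒞₁ z, g * x * g⁻¹ = y := by
  obtain ⟨c, c1, c2, c3⟩ := h.exI hz h1
  obtain ⟨d, d1, d2, d3⟩ := h.exI hz h2
  exact h.conj_in c1 d1 c2 d2 hne c3 d3 hx hy m1 m2

/-- (d): an involution outside `I` fixes two points -/
theorem two_fix (hz : Ivo z) (hI : ¬ InI A z) (β : Ω) : ∃ γ, γ ≠ β ∧ z • γ = γ := by
  by_contra e
  push Not at e
  have u : ∀ γ : Ω, z • γ = γ → γ = β := fun γ q => by_contra fun r => e γ r q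
  obtain ⟨γ, hγ⟩ := h.nt β
  obtain ⟨x, x1, x2⟩ := h.ex_I γ
  obtain ⟨c, c1, c2, c3, c4, c5, -⟩ := h.lemB hz hI x1 x2 (e γ hγ)
  obtain ⟨δ, hδ⟩ := h.ex_pt c1
  obtain rfl := u δ (h.fix_of_comm c1 hδ c2.symm)
  have cw : c * (z * c) = z * c * c := by rw [← mul_assoc, c2]
  obtain ⟨ε, hε⟩ := h.faith c4.1
  obtain ⟨y, y1, y2⟩ := h.ex_I ε
  obtain ⟨d, d1, d2, d3, -⟩ := h.lemB c4 c5 y1 y2 hε
  obtain ⟨g, hg, q⟩ := h.conj_in (H := 𝒞₁ (z * c)) c1 x1 hδ x2 hγ.symm (mem_cent1.2 cw)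
    (mem_cent1.2 c3.symm) d1 c1 (mem_cent1.2 d2) (mem_cent1.2 cw)
  have e1 : g * (z * c * d) * g⁻¹ = z := by
    rw [← mul_assoc, mem_cent1.1 hg, mul_assoc, mul_assoc, ← mul_assoc g, q, mul_assoc,
      (h.ivo c1).2, mul_one]
  obtain ⟨ζ, hζ⟩ := h.ex_pt d1
  have w1 : (z * c) • ζ = ζ := h.fix_of_comm d1 hζ d2.symm
  have f1 := u _ (e1 ▸ conj_fix (h.fix_of_comm y1 y2 d3) g)
  have f2 := u _ (e1 ▸ conj_fix (show (z * c * d) • ζ = ζ by rw [mul_smul, hζ, w1]) g)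
  exact hε (smul_left_cancel g (f1.trans f2.symm) ▸ w1)

/-- the centralizer of an involution outside `I` fixes no point -/
theorem cent_not_le (hz : Ivo z) (hI : ¬ InI A z) (β : Ω) : ¬ 𝒞₁ z ≤ 𝒮 β := fun e => by
  obtain ⟨γ, q1, q2⟩ := h.two_fix hz hI β
  obtain ⟨x, x1, x2, x3⟩ := h.exI hz.2 q2
  exact q1 (h.uq x1 x2 (e x3))

theorem cent1_ne (h1 : z ≠ 1) : 𝒞₁ z ≠ ⊤ := fun e => by
  obtain ⟨β, hβ⟩ := h.faith h1
  obtain ⟨x, x1, x2⟩ := h.ex_I β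
  exact hβ (h.fix_of_comm x1 x2 (mem_cent1.1 (e ▸ mem_top x)).symm)

end GB

end Cfsg.GS.Xx
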