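import Cfsg.Agent.GS.N3
import Cfsg.Agent.GS.D4
import Cfsg.Agent.GS.X1

/-! `CSz`, part 1: the action on the cosets of `M`, subgroups not contained in `M`. -/

set_option autoImplicit false

namespace Cfsg.GS.Px

open Subgroup Cfsg.L0 Cfsg.H8 Cfsg.FT Cfsg.BS Cfsg.BS.R Cfsg.GS.T3 Cfsg.GS.T4 Cfsg.GS.Kx Cfsg.GS.Dx
  Cfsg.GS.Nx MulAction
open scoped commutatorElement

export Cfsg.GS.Dx (pt smul_pt)

variable {G : Type} [Group G] [Finite G] {S A M V H K L P R T X : Subgroup G}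
  {a b c g k u v x y z : G} {γ δ : G ⧸ M}

namespace U
variable (h : UG S A M)
include h

theorem SN : S ≤ 𝒩 A := h.sc.le_norm le_top
theorem SM : S ≤ M := (SN h).trans h.nA
omit [Finite G] in
theorem AM : A ≤ M := (le_norm A).trans h.nA
theorem syM : IsSyl 2 S M := h.syl.mono (SM h) le_top
omit [Finite G] in
theorem aa (ha : a ∈ A) : a * a = 1 := (sq a).symm.trans (h.elem.pow ha)
theorem sc (hT : IsPGroup 2 T) (h1 : A ≤ T) : SC A T ⊤ := Ux.sc_of_le h.syl h.sc hT h1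

theorem exA : ∃ a ∈ A, a ≠ 1 := exists_ne_one (ne_bot_of_card fun e => by have := h.four; omega)

omit [Finite G] in
theorem norm_ne (h1 : X ≠ ⊥) (h2 : X ≤ M) : 𝒩 X ≠ ⊤ := fun e =>
  (h.simple.eq_bot_or_eq_top_of_normal X (normal_of_top_le e.ge)).elim h1
    fun e' => h.ne (top_le_iff.1 (e'.ge.trans h2))

omit [Finite G] in
theorem cent_ne (h1 : u ≠ 1) (h2 : u ∈ M) : 𝒞₁ u ≠ ⊤ := fun e =>
  norm_ne h (ne_bot_of_mem (mem_zpowers u) h1) (zpowers_le.2 h2)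
    (top_le_iff.1 (e.ge.trans ((cent_zpowers u).ge.trans (cent_le_norm _))))

omit [Finite G] in
theorem ii (hx : InI A x) : x * x = 1 := by
  obtain ⟨-, g, hg⟩ := hx
  have := aa h hg
  rwa [Ux.conj_mul_self, conj_eq_one_iff] at this

theorem memA (hT : IsPGroup 2 T) (h1 : A ≤ T) (hx : InI A x) (h2 : x ∈ T) : x ∈ A := by
  obtain ⟨-, g, hg⟩ := hx
  simpa [mul_assoc] using (sc h hT h1).conj hg (mem_top g⁻¹) (by simpa [mul_assoc] using h2)

theorem memS (hx : InI A x) (h2 : x ∈ S) : x ∈ A := memA h h.syl.isPGroup h.sc.le hx h2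

theorem ini_mul (hx : InI A x) (hy : InI A y) (hc : x * y = y * x) (h1 : x * y ≠ 1) :
    InI A (x * y) := by
  obtain ⟨g, -, hg⟩ := h.syl.exists_cj_le (pg_two (ii h hx) (ii h hy) hc) le_top
  have := mul_mem (memS h (ini_conj hx g) (hg (conj_mem_cj (mem_sup_left (mem_zpowers x)))))
    (memS h (ini_conj hy g) (hg (conj_mem_cj (mem_sup_right (mem_zpowers y)))))
  exact ⟨h1, g, by simpa [mul_assoc] using this⟩

/-- a `2`-subgroup fixing a point -/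
theorem move (hP : IsPGroup 2 P) (h1 : ∀ x ∈ P, x • γ = γ) :
    ∃ g : G, g • pt M = γ ∧ ∀ x ∈ P, g⁻¹ * x * g ∈ S := by
  obtain ⟨g, rfl⟩ := exists_pt γ
  obtain ⟨m, hm, e⟩ := (syM h).exists_cj_le (isPGroup_cj hP g⁻¹)
    (cj_le_iff_forall.2 fun x hx => by simpa using fix_iff.1 (h1 x hx))
  exact ⟨g * m⁻¹, by rw [mul_smul, smul_pt.2 (inv_mem hm)], fun x hx => by
    simpa [mul_assoc] using e (conj_mem_cj (conj_mem_cj hx))⟩

theorem uA (ha : a ∈ A) (h1 : a ≠ 1) (h2 : a • γ = γ) : γ = pt M := by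
  obtain ⟨g, rfl, hg⟩ := move h (card_zp2 (aa h ha)) fun x hx =>
    (zpowers_le.2 (mem_stabilizer_iff.2 h2) hx : x ∈ stabilizer G γ)
  have := hg a (mem_zpowers a)
  obtain ⟨n, hn, e⟩ := h.sc.fusion h.syl h.elem.abel ha (mem_top g⁻¹)
    (h.sc.conj ha (mem_top _) (by simpa using this))
  refine smul_pt.2 ((mul_mem_cancel_right (h.nA hn.2)).1 (h.cA a ha h1 (mem_cent1.2 ?_)))
  rw [mul_assoc, ← mul_inv_cancel_right (n * a) n⁻¹, e]; group

theorem uniq (hx : InI A x) (h1 : x • γ = γ) (h2 : x • δ = δ) : γ = δ := by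
  obtain ⟨h0, g, hg⟩ := hx
  exact smul_left_cancel g ((uA h hg (conj_ne_one h0 g) (fix_conj.2 h1)).trans
    (uA h hg (conj_ne_one h0 g) (fix_conj.2 h2)).symm)

theorem cfix (hx : InI A x) (h1 : x • γ = γ) (h2 : g * x = x * g) : g • γ = γ :=
  uniq h hx (fix_comm h1 h2) h1

omit [Finite G] in
theorem exP (hx : InI A x) : ∃ γ : G ⧸ M, x • γ = γ := by
  obtain ⟨-, g, hg⟩ := hx
  exact ⟨g⁻¹ • pt M, fix_iff.2 (by simpa using AM h hg)⟩

theorem exI (γ : G ⧸ M) : ∃ x, InI A x ∧ x • γ = γ := by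
  obtain ⟨g, rfl⟩ := exists_pt γ
  obtain ⟨a, ha, h1⟩ := exA h
  exact ⟨_, ini_conj (ini_of_mem ha h1) g, fix_conj.2 (smul_pt.2 (AM h ha))⟩

/-- lemma (b) -/
theorem dih (hz : z * z = 1) (z1 : ¬ InI A z) (hx : InI A x) (h1 : x • γ = γ) (h2 : z • γ ≠ γ) :
    ∃ c, InI A c ∧ z * c = c * z ∧ z * c * x = x * (z * c) ∧ ¬ InI A (z * c) ∧
      (∀ g, g * z = z * g → g * x = x * g → g * c = c * g) ∧ ∀ H : Subgroup G, z ∈ H → x ∈ H → c ∈ H := by
  have x2 := ii h hx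
  obtain ⟨j, j1, -, j3, j4⟩ := exists_dih ((sq z).trans hz) ((sq x).trans x2) fun o => by
    obtain ⟨g, -, e⟩ := exists_conj_of_odd_orderOf_mul hz x2 o
    exact z1 (ini_conj_iff.1 (e ▸ hx))
  have e : ∀ i, InI A (x * (z * x) ^ (2 * i)) := fun i => by
    have := inverts_pow (inverts_mul_right hz x2) i
    rw [mul_inv_eq_iff_eq_mul] at this
    convert ini_conj hx ((z * x) ^ i)⁻¹ using 1
    rw [← this, two_mul, pow_add]; group
  have n : ¬ InI A ((z * x) ^ j) := fun i => h2 (cfix h i (cfix h hx h1 j4.symm) j3)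
  have c1 : z * (z * (z * x) ^ j) = (z * x) ^ j := by rw [← mul_assoc, hz, one_mul]
  refine ⟨z * (z * x) ^ j, ?_, by rw [mul_assoc, ← j3], by rw [c1, j4], c1.symm ▸ n, fun g a b => ?_,
    fun H a b => mul_mem a (pow_mem (mul_mem a b) j)⟩
  · obtain ⟨i, rfl | rfl⟩ := Nat.even_or_odd' j
    · refine (n ?_).elim
      have c2 : x * (x * (z * x) ^ (2 * i)) = (z * x) ^ (2 * i) := by rw [← mul_assoc, x2, one_mul]
      exact c2 ▸ ini_mul h hx (e i) (by rw [mul_assoc, ← j4]) (c2.symm ▸ j1)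
    · rw [pow_succ', mul_assoc z x, ← mul_assoc z z, hz, one_mul]; exact e i
  · exact (Commute.mul_right a ((Commute.mul_right a b).pow_right j)).eq

theorem dih_uniq (hz : z * z = 1) (z1 : ¬ InI A z) (hx : InI A x) (h1 : x • γ = γ) (h2 : z • γ ≠ γ)
    (b1 : InI A b) (b2 : z * b = b * z) (b3 : z * b * x = x * (z * b))
    (c1 : InI A c) (c2 : z * c = c * z) (c3 : z * c * x = x * (z * c)) : b = c := by
  obtain ⟨d, d1, d2, d3, -, d4, -⟩ := dih h hz z1 hx h1 h2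
  suffices ∀ c, InI A c → z * c = c * z → z * c * x = x * (z * c) → d = c from
    (this b b1 b2 b3).symm.trans (this c c1 c2 c3)
  intro c c1 c2 c3
  have e : d * c = z * d * (z * c) := by rw [d2, mul_assoc, ← mul_assoc z, hz, one_mul]
  have f1 : d * c * z = z * (d * c) := ((Commute.mul_right d2 c2).eq).symm
  have f2 : d * c * x = x * (d * c) := e ▸ (Commute.mul_left d3 c3).eq
  have f3 := d4 _ f1 f2
  rw [mul_assoc, mul_left_cancel_iff] at f3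
  by_contra n
  have i := ini_mul h d1 c1 f3.symm fun e => n
    ((eq_inv_of_mul_eq_one_left e).trans (inv_eq_of_mul_eq_one_left (ii h c1)))
  exact h2 (cfix h i (cfix h hx h1 f2) f1.symm)

theorem inf_Fx (hM : ¬ H ≤ M) (ha : a ∈ A) (h1 : a ∈ Fx M H) : a = 1 := by_contra fun e =>
  hM fun g hg => smul_pt.1 (uA h ha e (h1 g hg))

theorem odd_le (ho : Odd ♯X) (hn : A ≤ 𝒩 X) : X ≤ M :=
  SFx.gen1 h.elem (by have := h.four; omega) ho hn fun a ha => inf_le_right.trans (h.cA a ha.1 ha.2)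

/-- the structure of a proper subgroup containing `A` and not contained in `M` -/
theorem kh0 (hH : H ≠ ⊤) (hT : IsSyl 2 T H) (hA : A ≤ T) (hM : ¬ H ≤ M) :
    ∃ (Q : Type) (_ : Group Q) (_ : Finite Q) (f : H →* Q) (L : Subgroup Q) (k : Q),
      Function.Surjective f ∧ up f ⊥ = O2 H ∧ L.Normal ∧ BenP L (down f T ⊓ L) k ∧
      down f A = Om 2 (down f T ⊓ L) ∧ M.relIndex H = ♯(down f T ⊓ L) + 1 ∧ ♯(down f A) = ♯A ∧
      up f (𝒞 L) ≤ Fx M H := by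
  have s := (sc h hT.isPGroup hA).mono hA le_rfl (le_top : H ≤ ⊤)
  have AH := hA.trans hT.le
  obtain ⟨Q, _, _, f, L, k, hf, hk, hL, p, e⟩ := kG G H T A M (h.ih H hH) hT s h.elem
    h.four (inf_le_right.trans h.nA) (fun b a c => inf_le_right.trans (h.cA b a c)) hM
  have ca := ca_ker hk AH h.elem.pgroup
  have cd : ♯(down f A) = ♯A := card_down_eq AH (inf_eq_bot_of_cop ca.cop')
  have kM : up f ⊥ ≤ H ⊓ M := le_inf (up_le _ _) (odd_le h (hk ▸ odd_O2 H) ca.norm)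
  have nL : ⊤ ≤ 𝒩 L := normalizer_eq_top_iff.2 hL ▸ le_rfl
  have m1 : 𝒩 (down f T ⊓ L) ≤ down f (H ⊓ M) := by
    refine ((norm_le_norm_Om 2 _).trans ?_).trans (down_mono f (inf_le_inf_left H h.nA))
    rw [ca.down_norm_ker AH le_rfl (up_le _ _), down_top hf, top_inf_eq, e]
  have m2 : down f (H ⊓ M) ≤ 𝒩 (down f T ⊓ L) := by
    have t : down f T ⊓ L ≤ down f (H ⊓ M) ⊓ L := le_inf ((le_norm _).trans m1) inf_le_right
    rcases p.mx _ t inf_le_right with i | i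
    · exact (le_norm_inf (le_norm _) (le_top.trans nL)).trans
        (syl_norm_le Nat.prime_two (p.syl.mono t inf_le_right) i)
    · refine (hM ((le_of_down_le le_rfl inf_le_left kM fun g _ => ?_).trans inf_le_right)).elim
      obtain ⟨l, hl, n, hn, rfl⟩ := p.syl.frattini (nL (mem_top g))
      exact mul_mem ((i.ge.trans inf_le_left) hl) (m1 hn)
  refine ⟨Q, _, ‹_›, f, L, k, hf, hk, hL, p, e, ?_, cd, fun g hg x hx => fix_iff.2 ?_⟩
  · rw [← inf_relIndex_left, ← ri_down inf_le_left le_rfl kM, le_antisymm m2 m1, down_top hf,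
      p.idx_top]
  · obtain ⟨g1, g2⟩ := mem_up.1 hg
    have : f ⟨x⁻¹ * g * x, mul_mem (mul_mem (inv_mem hx) g1) hx⟩ ∈ 𝒞 L := by
      have := conj_mem_of_norm' (le_norm_cent nL (mem_top (f ⟨x, hx⟩))) g2
      rwa [← map_inv, ← map_mul, ← map_mul] at this
    exact ((up_le_of_le_down inf_le_left kM (((cent_anti inf_le_right).trans
      (cent_le_norm _)).trans m1)) (coe_mem_up.2 this)).2

theorem nI (hu : u * u = 1) (uA : u ∉ A) (hc : u ∈ 𝒞 A) : ¬ InI A u := fun i =>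
  uA (memA h (pgroup_sup (zpowers_le.2 (cent_le_norm A hc)) h.elem.pgroup (card_zp2 hu))
    le_sup_left i (mem_sup_right (mem_zpowers u)))

theorem nle (hu : u * u = 1) (uA : u ∉ A) (hc : u ∈ 𝒞 A) : ¬ 𝒞₁ u ≤ M := by
  obtain ⟨g, e⟩ := Xx.gb_of h
  exact e ▸ g.cent_not_le ⟨(ne_of_mem_of_not_mem (one_mem A) uA).symm, hu⟩ (nI h hu uA hc) _

omit [Finite G] in
theorem cne (uA : u ∉ A) (hc : u ∈ 𝒞 A) : 𝒞₁ u ≠ ⊤ :=
  cent_ne h (fun i => uA (i ▸ one_mem _)) (h.nA (cent_le_norm A hc))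

theorem TN (hT : IsPGroup 2 T) (h1 : A ≤ T) : T ≤ 𝒩 A := (sc h hT h1).le_norm le_top

/-- some centralizer `C_H(u a)` is not contained in `M` -/
theorem two (hA : A ≤ H) (hM : ¬ H ≤ M) (h1 : u ∈ H) (hu : u * u = 1) (uA : u ∉ A)
    (hc : u ∈ 𝒞 A) : ∃ a ∈ A, ¬ H ⊓ 𝒞₁ (u * a) ≤ M := by
  by_contra! n
  have n1 := n 1 (one_mem _)
  rw [mul_one] at n1
  obtain ⟨g, g1, g2⟩ := SetLike.not_le_iff_exists.1 hM
  obtain ⟨b, b1, b2⟩ := exA h
  have x1 := ini_conj (ini_of_mem b1 b2) g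
  have x2 : (g * b * g⁻¹) • g • pt M = g • pt M := fix_conj.2 (smul_pt.2 (AM h b1))
  have x3 : g * b * g⁻¹ ∈ H := mul_mem (mul_mem g1 (hA b1)) (inv_mem g1)
  by_cases e : u • g • pt M = g • pt M
  · obtain ⟨T, hT, a⟩ := exists_syl_ge Nat.prime_two h.elem.pgroup (le_inf hA (AM h))
    obtain ⟨m, m1, m2⟩ := hT.exists_conj_mem (x := g⁻¹ * u * g)
      ⟨H.mul_mem (H.mul_mem (H.inv_mem g1) h1) g1, fix_iff.1 e⟩
      ⟨1, by rw [pow_one, sq]; simpa using Cx.conj_sq g⁻¹ hu⟩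
    obtain ⟨a, a1, a2⟩ := exists_ne_one (inf_cent_ne_bot_of_pgroup Nat.prime_two
      (hT.isPGroup.to_le (zpowers_le.2 m2)) h.elem.pgroup
      ((zpowers_le.2 m2).trans (TN h hT.isPGroup a)) (ne_bot_of_mem b1 b2))
    have i := ini_conj (ini_of_mem a1.1 a2) (g * m⁻¹)
    have j := uniq h i (smul_pt.2 (n1 ⟨conj_mem_of_norm (le_norm H (H.mul_mem g1 (H.inv_mem m1.1)))
      (hA a1.1), by
        have := (mem_cent1_conj (g := g * m⁻¹)).2 (cent_le_cent1 (mem_zpowers _) a1.2)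
        simpa [mul_assoc] using this⟩)) (fix_conj.2 (smul_pt.2 (AM h a1.1)))
    rw [mul_smul, smul_pt.2 (inv_mem m1.2)] at j
    exact g2 (smul_pt.1 j.symm)
  · obtain ⟨c, c1, c2, c3, -, -, c4⟩ := dih h hu (nI h hu uA hc) x1 x2 e
    have c5 : c ∈ H ⊓ 𝒞₁ u := ⟨c4 H h1 x3, mem_cent1.2 c2.symm⟩
    obtain ⟨T, hT, a⟩ := exists_syl_ge Nat.prime_two h.elem.pgroup (le_inf hA (le_cent1_iff.2 hc))
    obtain ⟨m, m1, m2⟩ := hT.exists_conj_mem c5 ⟨1, (pow_two c).trans (ii h c1)⟩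
    have := n _ (memA h hT.isPGroup a (ini_conj c1 m) m2) (show m * (g * b * g⁻¹) * m⁻¹ ∈ _ from
      ⟨conj_mem_of_norm (le_norm H m1.1) x3, by
        have := (mem_cent1_conj (g := m)).2 (mem_cent1.2 c3.symm)
        rwa [← mul_assoc m u c, mem_cent1.1 m1.2, mul_assoc u, mul_assoc u] at this⟩)
    have j := uniq h (ini_conj x1 m) (fix_conj.2 x2) (smul_pt.2 this)
    rw [← mul_smul, smul_pt] at j
    exact g2 ((mul_mem_cancel_left (n1 m1)).1 j)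

end U

omit [Finite G] in
/-- the fixed points of a graph automorphism commute -/
theorem gr_comm (h : Gr A T k g) (h1 : g ∈ 𝒩 T) (h2 : g ∈ 𝒞 A) (hx : x ∈ T) (hy : y ∈ T)
    (x1 : g * x = x * g) (y1 : g * y = y * g) : x * y = y * x := by
  obtain ⟨u, z, hz, n⟩ := h
  obtain ⟨F, _, _, π, ι, l, c⟩ := co3_of u
  have z1 := conj_mem_of_norm h1 hz
  have key : ∀ x ∈ T, g * x = x * g → (π (g * z * g⁻¹) + π z) ^ ♯A * π x =
      (π (g * z * g⁻¹) + π z) * π x ^ ♯A := fun x hx x1 => by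
    have e : ⁅g * z * g⁻¹, x⁆ = ⁅z, x⁆ := by
      have := mem_cent.1 h2 _ (c.comm_mem hz hx)
      rw [← mul_inv_cancel_right ⁅z, x⁆ g, this, commutatorElement_def, commutatorElement_def]
      calc _ = g * z * (g⁻¹ * (x * g)) * z⁻¹ * (x * g)⁻¹ := by group
        _ = _ := by rw [← x1]; group
    have e1 := c.ι_comm z1 hx
    rw [e, c.ι_comm hz hx] at e1
    have := c.charP
    rw [c.add_pow]
    linear_combination (exp := 1) e1 + c.add_self (π (g * z * g⁻¹) ^ ♯A * π x) -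
      c.add_self (π z * π x ^ ♯A)
  have d : π (g * z * g⁻¹) + π z ≠ 0 := fun e => n ((c.eq_iff z1 hz).1 (by
    linear_combination e - c.add_self (π z)))
  refine commutatorElement_eq_one_iff_mul_comm.1 (c.ι_inj (c.comm_mem hx hy) (one_mem _) ?_)
  rw [c.ι_comm hx hy, c.ι_one]
  refine mul_left_cancel₀ d ?_
  linear_combination c.add_self ((π (g * z * g⁻¹) + π z) ^ ♯A * π x * π y) - key x hx x1 * π y -
    key y hy y1 * π x

omit [Finite G] in
theorem sz_of (p : BenP L T k) (h1 : 3 ∣ ♯(Om 2 T) + 1) (h2 : ¬ 3 ∣ ♯L) :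
    Lie.IsoSuzuki L ∧ SzP L T k := by
  have d := ri_dvd_card (𝒩 T) L
  rw [p.idx] at d
  rcases p.iso with ⟨_, _, _, -, e, -⟩ | e | ⟨_, _, _, -, e, -⟩
  · rw [← e] at h1
    exact (h2 (h1.trans d)).elim
  · exact e
  · refine (h2 ((h1.trans ?_).trans d)).elim
    rw [u3g_card e]
    exact Odd.nat_add_dvd_pow_add_pow _ 1 (by decide : Odd 3) |>.trans (by simp)

/-- the normal closure of `A` in `C(u)` has order prime to `3` modulo `O(C(u))` -/
def N3 (A : Subgroup G) (u : G) : Prop := ∃ (K : Subgroup G) (n : ℕ), K ⊴ 𝒞₁ u ∧ A ≤ K ∧ ¬ 3 ∣ n ∧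
  ∀ y ∈ K, y ^ n ∈ O2 (𝒞₁ u)

theorem N3.sec {Q : Type} [Group Q] [Finite Q] {f : H →* Q} {L : Subgroup Q} (h : N3 A u)
    (hL : Smp L) (hA : A ≤ H) (h0 : down f A ≠ ⊥) (h1 : down f A ≤ L)
    (h2 : L ≤ down f (H ⊓ 𝒞₁ u)) : ¬ 3 ∣ ♯L := fun d => by
  obtain ⟨K, n, k1, k2, k3, k4⟩ := h
  have a := ((k1.le_inf (inf_le_right : H ⊓ 𝒞₁ u ≤ _)).down f).le_inf h2
  have b := (((Op_nrm {2}ᶜ _).le_inf (inf_le_right : H ⊓ 𝒞₁ u ≤ _)).down f).le_inf h2
  have a1 := (hL.simple _ a).resolve_left (ne_bot_of_le h0 (le_inf h1 (down_mono f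
    (le_inf (le_inf hA (k2.trans k1.le)) k2))))
  have b1 := (hL.simple _ b).resolve_right fun e => (odd_of_le (odd_down f (odd_of_le
    (odd_O2 (𝒞₁ u)) inf_le_right)) (e.ge.trans inf_le_right)).not_two_dvd_nat hL.even
  obtain ⟨x, x1, x2⟩ := exists_orderOf_eq Nat.prime_three d
  obtain ⟨y, y1, rfl⟩ := (a1.ge x1).2
  exact k3 (x2 ▸ orderOf_dvd_of_pow_eq_one (eq_one_of_mem b1 ⟨pow_mem x1 n, map_pow f y n ▸
    mem_down_of_mem (x := y ^ n) ⟨pow_mem y1.1 n, k4 _ y1.2⟩⟩))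

end Cfsg.GS.Px
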