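import Cfsg.Agent.GS.P1

/-! `CSz`, part 2: involutions of type `Sz`; all involutions of `S₂` lie in `P`. -/

set_option autoImplicit false

namespace Cfsg.GS.Px

open Subgroup Cfsg.L0 Cfsg.H8 Cfsg.FT Cfsg.BS Cfsg.BS.R Cfsg.GS.T3 Cfsg.GS.T4 Cfsg.GS.Kx Cfsg.GS.Dx
  Cfsg.GS.Nx Cfsg.GS.Bx Cfsg.GS.Cx
open scoped commutatorElement

variable {G : Type} [Group G] [Finite G] {S A M V H K L P R T X S1 : Subgroup G}
  {a b c g k s t u v x y z : G}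

omit [Finite G] in
theorem u3_two (h : U3G A T k) (h4 : 4 ≤ ♯A) :
    ∃ x ∈ T, ∃ y ∈ T, x * x = y * y ∧ x * y⁻¹ * (x * y⁻¹) ≠ 1 := by
  obtain ⟨F, _, _, π, ι, l, c⟩ := co3_of h
  obtain ⟨x, hx, e⟩ := c.onto 1
  have n := conj_mem_of_norm (pow_mem c.kT (♯A - 1)) hx
  refine ⟨_, n, x, hx, ?_, fun i => one_ne_zero (e ▸ (c.ker x hx).2
    (c.w_fix h4 hx (c.mem_of_sq (mul_mem n (inv_mem hx)) i)))⟩
  rw [Ux.conj_mul_self, ← mem_cent.1 c.w_cent _ (c.sq x hx), mul_inv_cancel_right]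

namespace LL
variable (l : Loc A P T R v k)
include l

omit [Finite G] in
theorem TP : T ≤ P := l.sup ▸ le_sup_left
omit [Finite G] in
theorem vv : v * v = 1 := mul_self_of_elem l.el l.vR
omit [Finite G] in
theorem vA : v ∉ A := fun e => l.v1 (eq_one_of_mem l.inf ⟨ty_le l.ty e, l.vR⟩)
omit [Finite G] in
theorem Pv : P ≤ 𝒞₁ v := l.sup ▸ sup_le (le_cent1_iff.2 (l.cm l.vR)) (le_cent1_iff.2 (l.el.abel l.vR))
omit [Finite G] in
theorem PA (he : Elem 2 A) : P ≤ 𝒞 A :=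
  l.sup ▸ sup_le (ty_cA l.ty he) (l.cm.trans (cent_anti (ty_le l.ty)))
theorem pg (he : Elem 2 A) : IsPGroup 2 P :=
  l.sup ▸ pgroup_sup (le_norm_of_le_cent l.cm) (ty_pg l.ty he) l.el.pgroup

omit [Finite G] in
theorem inj (s : S2G A T k) (hx : x ∈ P) (hy : y ∈ P) (e : x * x = y * y) :
    x * y⁻¹ * (x * y⁻¹) = 1 := by
  have sq : ∀ t ∈ T, ∀ r ∈ R, t * r * (t * r) = t * t := fun t ht r hr => by
    rw [mul_assoc, ← mul_assoc r, ← mem_cent.1 (l.cm hr) t ht, mul_assoc, mul_self_of_elem l.el hr,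
      mul_one]
  obtain ⟨t, ht, r, hr, rfl⟩ := (mem_sup_l (le_norm_of_le_cent l.cm)).1 (l.sup ▸ hx)
  obtain ⟨t', ht', r', hr', rfl⟩ := (mem_sup_l (le_norm_of_le_cent l.cm)).1 (l.sup ▸ hy)
  rw [sq t ht r hr, sq t' ht' r' hr'] at e
  rw [show t * r * (t' * r')⁻¹ = t * t'⁻¹ * (r * r'⁻¹) by
    rw [mul_assoc t t'⁻¹, mem_cent.1 (l.cm (mul_mem hr (inv_mem hr'))) _ (inv_mem ht')]; group,
    sq _ (mul_mem ht (inv_mem ht')) _ (mul_mem hr (inv_mem hr'))]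
  exact s.one _ (s.inj t ht t' ht' e)

end LL

theorem s2g_ex (s : S2G A T k) (h2 : 2 ≤ ♯A) : ∃ t ∈ T, t * t ≠ 1 := by
  obtain ⟨t, ht, tA⟩ := SetLike.not_le_iff_exists.1 (show ¬ T ≤ A from fun e => by
    have := card_le e
    rw [s.card] at this; nlinarith)
  exact ⟨t, ht, fun e => tA (by simpa using s.inj t ht 1 (one_mem _) (by rw [e, mul_one]))⟩

theorem szp_aut (q : SzP L T k) (h1 : g ∈ 𝒩 L) (h2 : g ∈ 𝒩 T) (h3 : ∃ n, g ^ 2 ^ n = 1) :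
    g ∈ 𝒞 (𝒵 T) := by
  obtain ⟨a, a1, c, c1, rfl⟩ := (mem_sup_l (cent_le_norm L)).1 (q.aut2 _ h1 h3)
  obtain ⟨n, hn⟩ := h3
  have c2 := cent_anti q.syl.le c1
  rw [Commute.mul_pow (mem_cent.1 c1 a a1), mul_eq_one_iff_eq_inv] at hn
  exact mul_mem (cent_symm inf_le_right (q.syl.mem_of_mem_normalizer a1 ⟨n, q.smp.eq_one (pow_mem a1 _)
    (hn ▸ inv_mem (pow_mem c1 _))⟩ ((mul_mem_cancel_right (cent_le_norm T c2)).1 h2)))
    (cent_anti inf_le_left c2)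

omit [Finite G] in
theorem not_u3_self (h4 : 4 ≤ ♯A) (i : T = A) : ¬ U3G A T k := fun e => by
  have := u3g_card e
  rw [i] at this
  nlinarith [Nat.pow_le_pow_left h4 2]

theorem sylP (h : UG S A M) (l : Loc A P T R v k) (s : S2G A T k) :
    IsSyl 2 P (𝒞₁ v) ∧ 8 ≤ ♯A ∧ 3 ∣ ♯A + 1 ∧ N3 A v := by
  have he := h.elem
  have AP := (ty_le l.ty).trans (LL.TP l)
  have vC := l.cm.trans (cent_anti (ty_le l.ty)) l.vR
  obtain ⟨S1, s1, s2⟩ := exists_isSyl_ge (LL.pg l he) (LL.Pv l)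
  have c1 : S1 ⊓ 𝒞 A ≤ P := by
    have p := s1.isPGroup.to_le (inf_le_left : S1 ⊓ 𝒞 A ≤ S1)
    refine ((nil_of_pgroup Nat.prime_two p).eq_of_norm_le (le_inf s2 (LL.PA l he))
      fun x hx => ?_).ge
    exact (l.top x ⟨⟨s1.le hx.1.1, hx.1.2⟩, hx.2⟩ (isPGroup_iff_forall.1 p x hx.1)).resolve_right
      fun e => not_s2g_u3g s e.1
  obtain ⟨Q, _, _, f, L, κ, hf, hk, hL, p, e, -, cA, -⟩ := U.kh0 h (U.cne h (LL.vA l) vC) s1
    (AP.trans s2) (U.nle h (LL.vv l) (LL.vA l) vC)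
  have nL : ⊤ ≤ 𝒩 L := normalizer_eq_top_iff.2 hL ▸ le_rfl
  have AH := AP.trans (LL.Pv l)
  have AL : down f A ≤ L := e.le.trans ((Om_le _ _).trans inf_le_right)
  have hi : up f ⊥ ⊓ S1 = ⊥ := inf_eq_bot_of_cop (hk ▸ (cop_of_pgroup Nat.prime_two s1.isPGroup
    (odd_O2 _).not_two_dvd_nat).symm)
  have c2 : ∀ x : 𝒞₁ v, (x : G) ∈ S1 → f x ∈ 𝒞 (down f A) → (x : G) ∈ P := fun x hx i =>
    c1 ⟨hx, mem_cent.2 fun a ha => eq_of_f hi (a := ⟨a, AH ha⟩ * x) (b := x * ⟨a, AH ha⟩)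
      (mul_mem (s2 (AP ha)) hx) (mul_mem hx (s2 (AP ha))) (by
        rw [map_mul, map_mul]; exact mem_cent.1 i _ (mem_down_of_mem ha))⟩
  rcases p.iso with ⟨_, _, _, -, i, -⟩ | ⟨i, q⟩ | ⟨_, _, _, -, i, -⟩
  · exfalso
    obtain ⟨t, ht, t1⟩ := s2g_ex s (by have := h.four; omega)
    have t2 := LL.TP l ht
    have t3 : f ⟨t, LL.Pv l t2⟩ ∈ down f S1 := mem_down_of_mem (s2 t2)
    rcases p.split (isPGroup_down f s1.isPGroup) rfl t3 (nL trivial) (e ▸ down_le_cent f (LL.PA l he)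
      (mem_down_of_mem t2)) with ⟨a, a1, c, c3, j⟩ | j
    · refine t1 (sq_of_f hi (a := ⟨t, LL.Pv l t2⟩) (s2 t2) (p.smp.eq_one ?_ ?_))
      · exact AL (map_mul f _ _ ▸ mem_down_of_mem (s.sq t ht))
      · rw [← j, mul_assoc, ← mul_assoc c, ← mem_cent.1 c3.2 a a1.2, mul_assoc, ← mul_assoc,
          (p.mem_om.1 (i ▸ a1)).2, one_mul]
        exact mul_mem c3.2 c3.2
    · exact not_u3_self p.four i j.1
  · obtain ⟨n, n1, -, n2⟩ := q.deg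
    have e2 := e.trans (szp_om q)
    refine ⟨(le_antisymm s2 fun x hx => c2 ⟨x, s1.le hx⟩ hx ?_) ▸ s1, cA ▸ e2 ▸ szp_card q, ?_,
      up f L, ♯L, ⟨up_le _ _, le_normalizer_up f L⟩, (down_le_iff' AH).1 AL, not_three_of_sz i,
      fun y hy => ?_⟩
    · have x1 : f ⟨x, s1.le hx⟩ ∈ down f S1 := mem_down_of_mem hx
      exact e2 ▸ szp_aut q (nL trivial) (le_norm_inf (le_norm _) (le_top.trans nL) x1)
        (isPGroup_iff_forall.1 (isPGroup_down f s1.isPGroup) _ x1)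
    · rw [← cA, e2, n2]
      exact Odd.nat_add_dvd_pow_add_pow 2 1 n1 |>.trans (by simp)
    · obtain ⟨y1, y2⟩ := mem_up.1 hy
      refine hk ▸ (coe_mem_up (x := ⟨y, y1⟩ ^ ♯L)).2 ?_
      rw [map_pow, mem_bot]
      exact orderOf_dvd_iff_pow_eq_one.1 (orderOf_dvd y2)
  · exfalso
    obtain ⟨_, ⟨⟨x, x1, rfl⟩, x2⟩, _, ⟨⟨y, y1, rfl⟩, y2⟩, j, n⟩ := u3_two i p.four
    refine n ?_
    rw [← map_inv, ← map_mul]
    exact f_sq (LL.inj l s (c2 x x1 (e ▸ p.cA ⟨mem_down_of_mem x1, x2⟩))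
      (c2 y y1 (e ▸ p.cA ⟨mem_down_of_mem y1, y2⟩)) (eq_of_f hi (a := x * x) (b := y * y)
        (S1.mul_mem x1 x1) (S1.mul_mem y1 y1) (by simpa using j)))

/-- the hypotheses of `CSz`, no involution of type `U₃` -/
structure Z0 (S A M : Subgroup G) : Prop extends U2 S A M where
  a2 : AllL2 A
  n3 : ∀ P T R S2 v k, T4.Loc2 A P T R S2 v k → ¬ U3G A T k

theorem loc3 (h : UG S A M) (l : T4.Loc2 A P T R S1 v k) (s : S2G A T k) :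
    T3.Loc2 A P T R S1 v k :=
  ⟨⟨s, (sylP h l.toLoc s).1, l.sup, l.inf, l.cm, l.vR, l.v1, l.el, l.kR⟩, l.le, l.p2, l.cA, l.n1,
    l.kS, l.comm, l.onto⟩

/-- `Loc2` holds at every involution of `C(A) \ A` centralized by an element of order `4` -/
def All3 (A : Subgroup G) : Prop := ∀ (v g : G) (S1 : Subgroup G), v * v = 1 → v ∉ A → v ∈ 𝒞 A →
  g ∈ 𝒞 A → g * v = v * g → (∃ n, g ^ 2 ^ n = 1) → g * g ≠ 1 → IsSyl 2 S1 (𝒞₁ v) → A ≤ S1 →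
  N3 A v ∧ ∃ T R S2 k, T3.Loc2 A S1 T R S2 v k

theorem Z0.all3 (h : Z0 S A M) : All3 A := by
  intro v g S1 v2 vA vC g1 g2 g3 g4 s1 s2
  have hU := h.toUG
  obtain ⟨P, T, R, k, l, n⟩ := h.all v S1 ⟨(ne_of_mem_of_not_mem (one_mem A) vA).symm, v2⟩ vA vC
    s1.isPGroup (le_inf s1.le (U.TN hU s1.isPGroup s2))
  obtain ⟨S2, k', l2⟩ := h.a2 P T R v k l
  rcases l2.ty.2 with e | e | e
  · exfalso
    obtain ⟨n, g3⟩ := g3
    obtain ⟨c, c1, c2⟩ := s1.exists_cj_le (pgroup_sup (zpowers_le.2 (cent_le_norm A g1)) h.elem.pgroup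
      (isPGroup_zpowers g3)) (sup_le (le_cent1_iff.2 vC) (zpowers_le.2 (mem_cent1.2 g2)))
    have c3 := (U.sc hU s1.isPGroup s2).mem_norm trivial ((cj_mono c le_sup_left).trans c2)
    have c4 := c2 (conj_mem_cj (mem_sup_right (mem_zpowers g)))
    rcases l.top _ ⟨⟨s1.le c4, conj_mem_of_norm (norm_le_norm_cent A c3) g1⟩, ‹S1 ≤ _› c4⟩
      (isPGroup_iff_forall.1 s1.isPGroup _ c4) with i | i
    · rw [← l.sup, e] at i
      have := mul_self_of_elem (h.elem.sup l.el (cent_symm (e ▸ l.cm))) i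
      rw [Ux.conj_mul_self, conj_eq_one_iff] at this
      exact g4 this
    · exact not_u3_self h.four e i.1
  · have l3 := loc3 hU l2 e
    obtain rfl := l3.syl.eq_of_le s1.isPGroup (s1.le_of_normalizes l3.syl.isPGroup l3.syl.le n) s1.le
    exact ⟨(sylP hU l2.toLoc e).2.2.2, T, R, S2, k', l3⟩
  · exact (h.n3 _ _ _ _ _ _ l2 e).elim

namespace L2
variable (h : T3.Loc2 A S1 T R P v k) (a2 : All3 A) (hq : 2 ≤ ♯A)
include h a2 hq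

theorem at1 (hu : u ∈ S1) (uu : u * u = 1) (uA : u ∉ A) (hS : IsSyl 2 X (𝒞₁ u)) (h1 : A ≤ X) :
    N3 A u ∧ ∃ T R S2 k, T3.Loc2 A X T R S2 u k := by
  have l := h.toLoc1
  obtain ⟨t, ht, t1⟩ := s2g_ex h.toS2G hq
  exact a2 u t X uu uA (L1.ScA l hu) (L1.ScA l (L1.TS l ht))
    (mem_cent.1 (L1.cen l hu uu) t (L1.TS l ht)) (isPGroup_iff_forall.1 h.pg t ht) t1 hS h1

theorem cu (hu : u ∈ S1) (uu : u * u = 1) (uA : u ∉ A) (hx : x ∈ P)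
    (e : x * u = u * x) : x ∈ S1 := by
  have : Fact (Nat.Prime 2) := ⟨Nat.prime_two⟩
  have l := h.toLoc1
  obtain ⟨S', hS, hle⟩ := exists_isSyl_ge (h.p2.to_le inf_le_left) (inf_le_right : P ⊓ 𝒞₁ u ≤ _)
  have h1 : S1 ≤ S' := (le_inf h.le (le_cent1_iff.2 (L1.cen l hu uu))).trans hle
  obtain ⟨-, T', R', P', k', h'⟩ := at1 h a2 hq hu uu uA hS ((L1.AS l).trans h1)
  rw [← Cx.L2.CP h]
  exact ⟨hx, mem_cent1.2 (mem_cent.1 (L1.cen h'.toLoc1 (h1 (L1.vS l)) (L1.vv l)) x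
    (hle ⟨hx, mem_cent1.2 e⟩))⟩

theorem pa (hz : z ∈ P) (zz : z * z = 1) (zS : z ∉ S1) : PA A P := by
  have l := h.toLoc1
  refine ⟨h.p2, (L1.AS l).trans h.le, h.cA, h.one, fun x hx => ?_⟩
  have zt : ∀ z ∈ P, z * z = 1 → z ∉ S1 → ∀ t ∈ S1, z * t * z⁻¹ * t⁻¹ ∈ A := fun z hz zz zS t ht => by
    have h1 := conj_mem_of_norm (h.n1 hz) ht
    have h2 := L1.inj l h1 ht (by
      calc _ = z * (t * t) * z⁻¹ := by group
        _ = _ := by rw [← mem_cent.1 (h.cA hz) _ (L1.sqA l ht)]; group)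
    by_contra c
    refine zS (cu h a2 hq (mul_mem h1 (inv_mem ht)) h2 c hz ?_)
    nth_rw 2 [← inv_of_sq h2]
    calc _ = z * z * (t * z⁻¹ * t⁻¹) := by group
      _ = t * z * t⁻¹ := by rw [zz, inv_of_sq zz, one_mul]
      _ = _ := by group
  by_cases c : x ∈ S1
  · exact L1.sqA l c
  have ne : ∀ x ∈ P, x ∉ S1 → x * v * x⁻¹ * v⁻¹ ≠ 1 := fun x hx c e =>
    c (Cx.L2.CP h ▸ ⟨hx, mem_cent1.2 (comm_of_c e)⟩)
  obtain ⟨n, hn⟩ := h.tr _ (Cx.L2.vH h (L1.vS l) (L1.vv l) hz) _ (Cx.L2.vH h (L1.vS l) (L1.vv l) hx)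
    (ne z hz zS) (ne x hx c)
  have h1 := conj_mem_of_norm (pow_mem h.kS n) hz
  have h2 : (k ^ n * z * (k ^ n)⁻¹)⁻¹ * x ∈ S1 := Cx.L2.CP h ▸ ⟨P.mul_mem (P.inv_mem h1) hx,
    mem_cent1.2 (comm_of_conj_eq (by
      have e := mem_cent.1 (pow_mem h.kR n) v h.vR
      calc _ = k ^ n * z * (k ^ n)⁻¹ * (v * k ^ n) * z⁻¹ * (v * k ^ n)⁻¹ * v := by group
        _ = k ^ n * (z * v * z⁻¹ * v⁻¹) * (k ^ n)⁻¹ * v := by rw [e]; group
        _ = _ := by rw [hn]; group))⟩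
  have h3 := Cx.conj_sq (k ^ n) zz
  have h4 : k ^ n * z * (k ^ n)⁻¹ ∉ S1 := fun e => c ((S1.mul_mem_cancel_left (inv_mem e)).1 h2)
  generalize k ^ n * z * (k ^ n)⁻¹ = w at h1 h2 h3 h4
  have := mul_mem (zt w h1 h3 h4 _ h2) (L1.sqA l h2)
  convert this using 1
  calc _ = x * (w * w)⁻¹ * x := by rw [h3]; group
    _ = _ := by group

theorem at2 (hp : PA A P) (hs : s ∈ P) (sA : s ∉ A) (ss : s * s = 1) (hS : IsSyl 2 X (𝒞₁ s))
    (h1 : A ≤ X) : N3 A s ∧ ∃ T R S2 k, T3.Loc2 A X T R S2 s k := by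
  have l := h.toLoc1
  by_cases c : s ∈ S1
  · exact at1 h a2 hq c ss sA hS h1
  by_cases e : ∃ g ∈ S1 ⊓ 𝒞₁ s, g * g ≠ 1
  · obtain ⟨g, g1, g2⟩ := e
    exact a2 s g X ss sA (hp.cA hs) (L1.ScA l g1.1) (mem_cent1.1 g1.2)
      (isPGroup_iff_forall.1 h.syl.isPGroup g g1.1) g2 hS h1
  exfalso
  push Not at e
  have n := le_norm_of_le_cent h.cm
  have c1 := card_lt (show S1 ⊓ 𝒞₁ s < A ⊔ R from lt_of_le_of_ne (fun x hx => by
    obtain ⟨a, ha, r, hr, rfl⟩ := L1.memV l hx.1 (e x hx)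
    exact mul_mem_sup ha hr) fun i => c (Cx.L2.CP h ▸
      ⟨hs, mem_cent1_comm.1 (i.ge (mem_sup_right h.vR)).2⟩))
  have c2 := card_inf_mul_ri (𝒞₁ s) S1
  have c3 := Set.ncard_le_ncard (s := {z | ∃ y ∈ S1, y * s * y⁻¹ = z}) (t := {z | s⁻¹ * z ∈ A}) (by
    rintro _ ⟨y, hy, rfl⟩
    simpa [mul_assoc] using conj_mem_of_norm' (cent_le_norm _ (hp.cA hs)) (hp.c (h.le hy) hs))
  rw [ncard_coset, ← card_orbit S1 s {z | ∃ y ∈ S1, y * s * y⁻¹ = z} fun _ => Iff.rfl] at c3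
  rw [card_sup_of_inf (le_norm_of_cent h.cm (L1.AT l))
    (eq_bot_of_le h.inf (inf_le_inf_right _ (L1.AT l)))] at c1
  rw [inf_comm, ← congrArg (fun X : Subgroup G => ♯X) h.sup, card_sup_of_inf n h.inf, h.card] at c2
  nlinarith [Nat.mul_le_mul_left ♯(S1 ⊓ 𝒞₁ s) c3, Nat.mul_lt_mul_of_pos_right c1 (card_pos' A)]

theorem loc (hp : PA A P) (hs : s ∈ P) (sA : s ∉ A) (ss : s * s = 1) :
    ∃ k, LP A P s k ∧ IsSyl 2 (P ⊓ 𝒞₁ s) (𝒞₁ s) := by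
  have : Fact (Nat.Prime 2) := ⟨Nat.prime_two⟩
  have l := h.toLoc1
  obtain ⟨S', hS, hle⟩ := exists_isSyl_ge (hp.pg.to_le hp.le) ((hp.AS hs).trans inf_le_right)
  obtain ⟨-, T', R', P', k', h'⟩ := at2 h a2 hq hp hs sA ss hS hle
  obtain ⟨g, hg, e⟩ := (Cx.L2.sylH h').exists_cj_le hp.pg fun x hx => ⟨hp.cA hx, hp.c hx hs⟩
  obtain ⟨t, ht, e2⟩ := Cx.L2.adj h' hg
  have e3 : P ≤ cj (t⁻¹ * g)⁻¹ P' := by
    rw [← cj_le_iff, cj_mul]; exact cj_le_of_mem (inv_mem ht) e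
  have e4 : t⁻¹ * g ∈ 𝒞 A := mul_mem (inv_mem (h'.cA ht)) hg.1
  generalize t⁻¹ * g = c at e2 e3 e4
  have hv : c * v * c⁻¹ ∈ P' := by simpa using mem_cj.1 (e3 (h.le (L1.vS l)))
  have vv := Cx.conj_sq c (L1.vv l)
  have e5 : cj c⁻¹ P' = P := (Cx.L2.sylH h).eq_of_le (isPGroup_cj h'.p2 _) e3 fun x hx => by
    have hx' : c * x * c⁻¹ ∈ P' := by simpa using mem_cj.1 hx
    refine ⟨by simpa [mul_assoc] using mul_mem (mul_mem (inv_mem e4) (h'.cA hx')) e4, ?_⟩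
    have : c * x * c⁻¹ * (c * v * c⁻¹) * (c * x * c⁻¹)⁻¹ * (c * v * c⁻¹)⁻¹ ∈ A := by
      by_cases c1 : c * v * c⁻¹ ∈ S'
      · exact Cx.L2.vH h' c1 vv hx'
      · exact (pa h' a2 hq hv vv c1).c hx' hv
    have := conj_mem_of_norm' (cent_le_norm _ e4) this
    convert this using 1; group
  have e6 : c⁻¹ * s * c⁻¹⁻¹ = s := by rw [mem_cent1.1 (inv_mem e2)]; group
  have l' := (Cx.L2.lp h' hq).cj ((L1.AS h'.toLoc1).trans h'.le) c⁻¹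
  rw [e5, e6, cj_eq_of_mem_cent (inv_mem e4)] at l'
  have e7 := hS.cj c⁻¹
  rw [← Cx.L2.CP h', cj_inf, e5, cj_cent1, e6] at e7
  exact ⟨_, l', e7⟩

end L2

theorem l3 (big : 8 ≤ ♯A) (a2 : All3 A) (h : T3.Loc2 A S1 T R P v k) (hz : z ∈ P) (zz : z * z = 1) :
    z ∈ S1 := by
  by_contra zS
  have : Fact (Nat.Prime 2) := ⟨Nat.prime_two⟩
  have h2 : 2 ≤ ♯A := by omega
  have hp := L2.pa h a2 h2 hz zz zS
  have l := Cx.L2.lp h h2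
  have nA : 𝒩 P ≤ 𝒩 A := fun g hg => mem_normalizer_of_forall fun a ha => by
    obtain ⟨x, hx, rfl⟩ := l.ex a ha
    have := hp.sq _ (conj_mem_of_norm hg hx.1)
    convert this using 1; group
  have syl : IsSyl 2 P (𝒩 P) := ⟨le_norm P, hp.pg, fun d => by
    obtain ⟨g, hg, h3, h4⟩ := exists_pow_mem_of_dvd_relIndex le_rfl d
    rw [sq] at h4
    obtain ⟨s, hs, sA, ss, e⟩ := hp.fix_sing (by
      have := card_lt (l.ltV hp)
      rw [l.cardP hp]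
      have h0 := card_pos' A
      calc ♯A ^ 3 = ♯A * (♯A * ♯A) := by ring
        _ < _ := by gcongr) hg (nA hg) h4
    obtain ⟨k', l', e2⟩ := L2.loc h a2 h2 hp hs sA ss
    obtain ⟨x, hx, e3⟩ := l'.onto _ e
    have e4 : x⁻¹ * g ∈ 𝒞₁ s := mem_cent1.2 (comm_of_conj_eq (by rw [e3, ← hp.cm e hs]; group))
    have e5 : x⁻¹ * g ∈ 𝒩 P := mul_mem (inv_mem (le_norm P hx)) hg
    have := e2.mem_of_mem_normalizer e4 ⟨3, by
      have : x⁻¹ * g * (x⁻¹ * g) ∈ P := by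
        have := mul_mem (mul_mem (inv_mem hx) (conj_mem_of_norm hg (inv_mem hx))) h4
        convert this using 1; group
      rw [show 2 ^ 3 = 2 * 4 by norm_num, pow_mul, sq, hp.p4 this]⟩
      (le_norm_inf (zpowers_le.2 e5) (zpowers_le.2 (le_norm _ e4)) (mem_zpowers _))
    exact h3 ((P.mul_mem_cancel_left (inv_mem hx)).1 this.1)⟩
  obtain ⟨Y, sd, hY⟩ := exists_sd_syl Nat.prime_two syl le_rfl
  have ho : Odd ♯Y := Nat.not_even_iff_odd.1 fun e => hY e.two_dvd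
  refine EP.false' (A := A) (P := P) (Y := Y) ⟨hp, big, ho, oddOrder Y ho, sd.norm,
    sd.norm.trans nA, fun s hs sA ss => ?_, v, l.sP, z, hz, l.ss, zz,
    fun e => zS (Cx.L2.CP h ▸ ⟨hz, mem_cent1.2 e.symm⟩)⟩
  obtain ⟨k', l', -⟩ := L2.loc h a2 h2 hp hs sA ss
  obtain ⟨x, hx, y, hy, rfl⟩ := sd.mem l'.kP
  have act : ∀ a ∈ A, y * a * y⁻¹ = x * y * a * (x * y)⁻¹ := fun a ha => by
    rw [← hp.cj (conj_mem_of_norm (nA (sd.norm hy)) ha) hx]; group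
  refine ⟨y, hy, { l' with
    kP := sd.norm hy
    kA := nA (sd.norm hy)
    tr := fun a ha b hb a1 b1 => ?_
    kV := fun u hu uu => ?_ }⟩
  · obtain ⟨n, hn⟩ := l'.tr a ha b hb a1 b1
    exact ⟨n, by rw [pow_act l'.kA act n a ha, hn]⟩
  · have := mul_mem (inv_mem (hp.c hx (conj_mem_of_norm (sd.norm hy) hu.1))) (l'.kV u hu uu)
    convert this using 1; group

end Cfsg.GS.Px
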