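import Cfsg.Agent.GS.P2

/-! `CSz`, part 3: the Sylow `2`-subgroup, lines, the final contradiction. -/

set_option autoImplicit false

namespace Cfsg.GS.Px

open Subgroup Cfsg.L0 Cfsg.H8 Cfsg.FT Cfsg.BS Cfsg.BS.R Cfsg.GS.T3 Cfsg.GS.T4 Cfsg.GS.Kx Cfsg.GS.Bx
  Cfsg.GS.Nx MulAction
open Cfsg.GS.Dx hiding Y
open scoped commutatorElement

variable {G : Type} [Group G] [Finite G] {S A M V H K P T R X S1 : Subgroup G}
  {a b c g k u v w x y z : G} {γ δ ε : G ⧸ M}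

/-- there is an involution outside `I`, of type `Sz`; `V = Ω₁(S)` -/
structure Y (S A V M : Subgroup G) : Prop extends UG S A M where
  big : 8 ≤ ♯A
  three : 3 ∣ ♯A + 1
  sA : S ≤ 𝒞 A
  mV : ∀ x, x ∈ V ↔ x ∈ S ∧ x * x = 1
  ab : Abel V
  cm : ∀ u ∈ V, ∀ s ∈ S, s * u * s⁻¹ * u⁻¹ ∈ A
  sq : ∀ u ∈ V, u ∉ A → ∀ s ∈ S, s * u = u * s → s * s ∈ A
  cV : ∀ u ∈ V, u ∉ A → ∀ s ∈ S, s * u = u * s → s ∈ 𝒞 V
  n3 : ∀ u ∈ V, u ∉ A → N3 A u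
  syl1 : ∀ u ∈ V, u ∉ A → IsSyl 2 (S ⊓ 𝒞₁ u) (𝒞₁ u)
  onto : ∀ u ∈ V, u ∉ A → ∀ a ∈ A, ∃ s ∈ S, s * u * s⁻¹ = u * a
  tor : ∃ v ∈ V, v ∉ A ∧ ∃ k ∈ 𝒩 S, k * v = v * k ∧
    (∀ a ∈ A, ∀ b ∈ A, a ≠ 1 → b ≠ 1 → ∃ n : ℕ, k ^ n * a * (k ^ n)⁻¹ = b) ∧
    ∀ u ∈ V, k * u * k⁻¹ * u⁻¹ ∈ A
  mo : M ≤ O2 M ⊔ 𝒩 A

theorem exists_Y (h : UG S A M) (a2 : All3 A) (l : T3.Loc2 A S1 T R P v k) (big : 8 ≤ ♯A)
    (three : 3 ∣ ♯A + 1) (mo : M ≤ O2 M ⊔ 𝒩 A) : ∃ V, Y P A V M := by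
  have l3 : ∀ z ∈ P, z * z = 1 → z ∈ S1 := fun z => l3 big a2 l
  have hq : 2 ≤ ♯A := by omega
  have l1 := l.toLoc1
  have AP := (L1.AS l1).trans l.le
  have mV : ∀ x, x ∈ Om 2 (𝒵 S1) ↔ x ∈ P ∧ x * x = 1 := fun x => by
    rw [(abel_ctr S1).mem_Om, sq]
    exact ⟨fun e => ⟨l.le e.1.1, e.2⟩, fun e => ⟨⟨l3 x e.1 e.2, L1.cen l1 (l3 x e.1 e.2) e.2⟩, e.2⟩⟩
  have ab : Abel (Om 2 (𝒵 S1)) := (abel_ctr S1).mono (Om_le _ _)
  generalize Om 2 (𝒵 S1) = V at mV ab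
  have m1 : ∀ u ∈ V, u ∈ S1 := fun u hu => l3 u ((mV u).1 hu).1 ((mV u).1 hu).2
  have m2 : ∀ u ∈ V, u * u = 1 := fun u hu => ((mV u).1 hu).2
  have s0 : ∀ u ∈ V, u ∉ A → N3 A u ∧ IsSyl 2 S1 (𝒞₁ u) := fun u hu uA => by
    obtain ⟨S', hS, hle⟩ := exists_isSyl_ge l.syl.isPGroup
      (le_cent1_iff.2 (L1.cen l1 (m1 u hu) (m2 u hu)))
    obtain ⟨n, T', R', P', k', h'⟩ := L2.at1 l a2 hq (m1 u hu) (m2 u hu) uA hS
      ((L1.AS l1).trans hle)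
    refine ⟨n, ?_⟩
    rwa [l.syl.eq_of_le hS.isPGroup hle
      (le_cent1_iff.2 (L1.cen h'.toLoc1 (hle (L1.vS l1)) (L1.vv l1)))] at hS
  have s1 := fun u hu uA => (s0 u hu uA).2
  have e1 : ∀ u ∈ V, u ∉ A → ∀ Q : Subgroup G, IsPGroup 2 Q → P ≤ Q → Q ⊓ 𝒞₁ u = S1 := fun u hu uA Q a b =>
    (s1 u hu uA).eq_of_le (a.to_le inf_le_left) (le_inf (l.le.trans b) (s1 u hu uA).le) inf_le_right
  have cm : ∀ u ∈ V, ∀ s ∈ P, s * u * s⁻¹ * u⁻¹ ∈ A := fun u hu s hs =>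
    Cx.L2.vH l (m1 u hu) (m2 u hu) hs
  have sub : ∀ u ∈ V, ∀ Q : Subgroup G, (∀ s ∈ Q, s * u * s⁻¹ * u⁻¹ ∈ A) →
      {z | ∃ y ∈ Q, y * u * y⁻¹ = z} ⊆ {z | u⁻¹ * z ∈ A} := by
    rintro u hu Q hQ _ ⟨y, hy, rfl⟩
    simpa [mul_assoc] using conj_mem_of_norm' (cent_le_norm _ (L1.ScA l1 (m1 u hu))) (hQ y hy)
  have vV := (mV v).2 ⟨l.le (L1.vS l1), L1.vv l1⟩
  have c1 : ∀ u ∈ V, u ∉ A → ∀ Q : Subgroup G, IsPGroup 2 Q → P ≤ Q →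
      ♯S1 * {z | ∃ y ∈ Q, y * u * y⁻¹ = z}.ncard = ♯Q := fun u hu uA Q a b => by
    rw [← card_orbit Q u {z | ∃ y ∈ Q, y * u * y⁻¹ = z} fun _ => Iff.rfl, ← e1 u hu uA Q a b, inf_comm, card_inf_mul_ri]
  have c2 : ♯S1 * ♯A = ♯P := by
    rw [← c1 v vV (L1.vA l1) P l.p2 le_rfl, (sub v vV P (cm v vV)).antisymm fun z hz => by
      simpa using l.onto _ hz, ncard_coset]
  have sy : IsSyl 2 P ⊤ := IsSyl.of_normalizer (isSyl_of_maximal (le_inf le_top (le_norm P)) l.p2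
    fun Q a b c => by
      have VP : V ≤ P := fun x hx => ((mV x).1 hx).1
      obtain ⟨W, w1, w2⟩ := exists_chief_gt (M := Q) (U := V) (V := A)
        ⟨VP.trans b, (c.trans inf_le_right).trans (norm_of_mV mV)⟩
        ⟨AP.trans b, (U.sc h a (AP.trans b)).le_norm le_top⟩
        (lt_of_le_of_ne (fun x hx => (mV x).2 ⟨AP hx, l.one x hx⟩) fun e => L1.vA l1 (e ▸ vV))
      obtain ⟨u, u1, u2⟩ := SetLike.exists_of_lt w2.lt
      have := Set.ncard_le_ncard (sub u (w1 u1) Q fun s hs => by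
        have := w2.comm_le_of_nil (nil_of_pgroup Nat.prime_two a) (Nrm.refl Q)
        rw [commutator_comm] at this
        exact this (commutator_mem_commutator hs u1))
      refine (eq_of_card_le b ?_).ge
      rw [← c1 u (w1 u1) u2 Q a b, ← c2, ← ncard_coset u A]
      exact Nat.mul_le_mul_left _ this)
  refine ⟨V, ⟨⟨h.simple, h.nab, h.ih, sy, U.sc h l.p2 AP, h.elem, h.four, h.irr, h.two⟩,
    h.ne, h.nA, h.cA⟩, big, three, l.cA, mV, ab, cm, fun u hu uA s hs e => L1.sqA l1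
    (e1 u hu uA P l.p2 le_rfl ▸ ⟨hs, mem_cent1.2 e⟩), fun u hu uA s hs e => mem_cent.2 fun x hx =>
    (mem_cent.1 (L1.cen l1 (m1 x hx) (m2 x hx)) s
      (e1 u hu uA P l.p2 le_rfl ▸ ⟨hs, mem_cent1.2 e⟩)).symm, fun u hu uA => (s0 u hu uA).1,
    fun u hu uA => (e1 u hu uA P l.p2 le_rfl).symm ▸
    s1 u hu uA, fun u hu uA a ha => ?_, ⟨v, vV, L1.vA l1, k, l.kS,
    (mem_cent.1 l.kR v l.vR).symm, l.tr, fun u hu => L1.kV l1 (m1 u hu) (m2 u hu)⟩, mo⟩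
  have := Set.eq_of_subset_of_ncard_le (sub u hu P (cm u hu)) (by
    rw [ncard_coset]
    exact (Nat.eq_of_mul_eq_mul_left (card_pos' S1) (c2.trans (c1 u hu uA P l.p2 le_rfl).symm)).le)
  exact (Set.ext_iff.1 this (u * a)).2 (by simpa using ha)

namespace Y
variable (h : Y S A V M)
include h

omit [Finite G] in
theorem VS : V ≤ S := fun x hx => ((h.mV x).1 hx).1
omit [Finite G] in
theorem vv (hu : u ∈ V) : u * u = 1 := ((h.mV u).1 hu).2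
omit [Finite G] in
theorem AV : A ≤ V := fun x hx => (h.mV x).2 ⟨h.sc.le hx, U.aa h.toUG hx⟩
theorem VM : V ≤ M := h.VS.trans (U.SM h.toUG)
omit [Finite G] in
theorem VC (hu : u ∈ V) : V ≤ 𝒞₁ u := le_cent1_iff.2 (h.ab hu)
omit [Finite G] in
theorem AC (hu : u ∈ V) : A ≤ 𝒞₁ u := h.AV.trans (h.VC hu)
omit [Finite G] in
theorem mulA (hu : u ∈ V) (uA : u ∉ A) (ha : a ∈ A) : u * a ∈ V ∧ u * a ∉ A :=
  ⟨mul_mem hu (h.AV ha), fun e => uA ((mul_mem_cancel_right ha).1 e)⟩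
theorem nI (hu : u ∈ V) (uA : u ∉ A) : ¬ InI A u := fun i => uA (U.memS h.toUG i (h.VS hu))
theorem cne (hu : u ∈ V) (uA : u ∉ A) : 𝒞₁ u ≠ ⊤ :=
  U.cent_ne h.toUG (fun e => uA (e ▸ one_mem _)) (h.VM hu)

theorem nle (hu : u ∈ V) (uA : u ∉ A) : ¬ 𝒞₁ u ≤ M := U.nle h.toUG (h.vv hu) uA (h.sA (h.VS hu))

/-- a proper subgroup containing `A` and an involution of `V \ A` is of type `Sz` -/
theorem kh (hu : u ∈ V) (uA : u ∉ A) (uH : u ∈ H) (hH : H ≠ ⊤) (hT : IsSyl 2 T H) (hA : A ≤ T)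
    (hM : ¬ H ≤ M) :
    ∃ (Q : Type) (_ : Group Q) (_ : Finite Q) (f : H →* Q) (L : Subgroup Q) (k : Q),
      Function.Surjective f ∧ up f ⊥ = O2 H ∧ L.Normal ∧ SzP L (down f T ⊓ L) k ∧
      down f A = 𝒵 (down f T ⊓ L) ∧ M.relIndex H = ♯A ^ 2 + 1 ∧ ♯(down f A) = ♯A ∧
      up f (𝒞 L) ≤ Fx M H ∧ Lie.IsoSuzuki L := by
  have hU := h.toUG
  obtain ⟨Q, _, _, f, L, k, hf, hk, hL, p, e, c, cA, i⟩ := U.kh0 hU hH hT hA hM
  have AH := hA.trans hT.le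
  have AL : down f A ≤ L := e.le.trans ((Om_le _ _).trans inf_le_right)
  have nL : ⊤ ≤ 𝒩 L := normalizer_eq_top_iff.2 hL ▸ le_rfl
  have A0 : down f A ≠ ⊥ := ne_bot_of_card (by have := h.big; omega)
  suffices ¬ 3 ∣ ♯L by
    obtain ⟨q0, q⟩ := sz_of p (e ▸ cA.symm ▸ h.three) this
    refine ⟨Q, _, ‹_›, f, L, k, hf, hk, hL, q, e.trans (szp_om q), ?_, cA, i, q0⟩
    rw [c, q.s2g.card, ← szp_om q, ← e, cA]
  obtain ⟨a, ha, n⟩ := U.two hU AH hM uH (h.vv hu) uA (h.sA (h.VS hu))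
  obtain ⟨u1, u2⟩ := h.mulA hu uA ha
  have u3 := mul_mem uH (AH ha)
  generalize u * a = w at n u1 u2 u3
  have w2 : f ⟨w, u3⟩ * f ⟨w, u3⟩ = 1 := Cx.f_sq (h.vv u1)
  have wA : f ⟨w, u3⟩ ∈ 𝒞 (down f A) := down_le_cent f (zpowers_le.2 (h.sA (h.VS u1)))
    (mem_down_of_mem (mem_zpowers w))
  rcases p.aut2 _ (nL trivial) ⟨1, (pow_two _).trans w2⟩ (e ▸ wA) with j | j
  · obtain ⟨l, hl, d, hd, e1⟩ := (mem_sup_l p.cent_le).1 j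
    have l2 : l * l = 1 := p.smp.eq_one (mul_mem hl.2 hl.2) (by
      rw [← e1, mul_assoc, ← mul_assoc d, ← mem_cent.1 hd l hl.2, mul_assoc, ← mul_assoc] at w2
      exact (mul_mem_cancel_right (mul_mem hd hd)).1 (w2 ▸ one_mem _))
    obtain ⟨b, hb, rfl⟩ := exists_of_mem_down (show l ∈ down f A from e ▸ p.mem_om.2 ⟨hl, l2⟩)
    obtain ⟨v1, v2⟩ := h.mulA u1 u2 hb
    refine (h.n3 _ v1 v2).sec p.smp AH A0 AL ?_
    have := down_cent1 hk (b := ⟨w, u3⟩ * b) (h.vv v1)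
    rw [Subgroup.coe_mul] at this
    rw [this, down_top hf, top_inf_eq, le_cent1_iff, map_mul,
      ← e1, mul_assoc, ← mem_cent.1 hd _ hl.2, ← mul_assoc, l2, one_mul]
    exact hd
  exfalso
  have A1 := le_inf AH (h.AC u1)
  obtain ⟨T', t1, t2⟩ := exists_syl_ge Nat.prime_two h.elem.pgroup A1
  obtain ⟨Q', _, _, f', L', k', hf', hk', hL', p', e', -, cA', -⟩ := U.kh0 hU
    (fun j => hH (top_le_iff.1 (j.ge.trans inf_le_left))) t1 t2 n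
  have AL' : down f' A ≤ L' := e'.le.trans ((Om_le _ _).trans inf_le_right)
  have A0' : down f' A ≠ ⊥ := ne_bot_of_card (by have := h.big; omega)
  have e3 : down f' (H ⊓ 𝒞₁ w ⊓ 𝒞₁ w) = ⊤ := by rw [inf_assoc, inf_idem, down_top hf']
  obtain ⟨-, q⟩ := sz_of p' (e' ▸ cA'.symm ▸ h.three)
    ((h.n3 _ u1 u2).sec p'.smp A1 A0' AL' (e3 ▸ le_top))
  have n1 : H ⊓ 𝒞₁ w ⊓ up f L ⊴ H ⊓ 𝒞₁ w :=
    Nrm.le_inf ⟨up_le f L, le_normalizer_up f L⟩ inf_le_left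
  have n2 := (p'.smp.simple _ ((n1.down f').le_inf (down_top hf' ▸ le_top))).resolve_left
    (ne_bot_of_le A0' (le_inf AL' (down_mono f' (le_inf A1 ((down_le_iff' AH).1 AL)))))
  have s1 := (t1.inf n1.le (t1.le.trans n1.norm)).down f' n1.le
  have s2 := s1.eq_of_le ((isPGroup_down f' t1.isPGroup).to_le inf_le_left)
    (le_inf (down_mono f' inf_le_left) s1.le) inf_le_right
  refine szp_not_abel q (Abel.mono (Abel.down (fun x hx => mem_cent.2 fun y hy => ?_) f')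
    ((inf_le_inf_left _ (n2.ge.trans inf_le_right)).trans s2.le))
  have hi : up f ⊥ ⊓ T' = ⊥ := inf_eq_bot_of_cop (hk ▸ (cop_of_pgroup Nat.prime_two t1.isPGroup
    (odd_O2 _).not_two_dvd_nat).symm)
  have m : ∀ x (hx : x ∈ T' ⊓ (H ⊓ 𝒞₁ w ⊓ up f L)), f ⟨x, hx.2.1.1⟩ ∈ down f T ⊓ L ∧
      f ⟨w, u3⟩ * f ⟨x, hx.2.1.1⟩ = f ⟨x, hx.2.1.1⟩ * f ⟨w, u3⟩ := fun x hx => by
    have x1 : f ⟨x, hx.2.1.1⟩ ∈ down f T' := mem_down_of_mem hx.1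
    refine ⟨p.syl.mem_of_mem_normalizer (coe_mem_up.1 hx.2.2) (isPGroup_iff_forall.1
      (isPGroup_down f t1.isPGroup) _ x1) (p.nA ⟨nL trivial, e ▸ down_le_norm f
        (U.TN hU t1.isPGroup t2) x1⟩), ?_⟩
    rw [← map_mul, ← map_mul]
    exact congrArg f (Subtype.ext (mem_cent1.1 hx.2.1.2).symm)
  refine Cx.eq_of_f hi (a := ⟨y, hy.2.1.1⟩ * ⟨x, hx.2.1.1⟩) (b := ⟨x, hx.2.1.1⟩ * ⟨y, hy.2.1.1⟩)
    (T'.mul_mem hy.1 hx.1) (T'.mul_mem hx.1 hy.1) ?_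
  rw [map_mul, map_mul]
  exact gr_comm j (p.nA ⟨nL trivial, cent_le_norm _ (e ▸ wA)⟩) (e ▸ wA) (m y hy).1 (m x hx).1
    (m y hy).2 (m x hx).2

theorem idx (hu : u ∈ V) (uA : u ∉ A) (uH : u ∈ H) (hH : H ≠ ⊤) (hA : A ≤ H) (hM : ¬ H ≤ M) : (orbit H (pt M)).ncard = ♯A ^ 2 + 1 := by
  obtain ⟨T, hT, a⟩ := exists_syl_ge Nat.prime_two h.elem.pgroup hA
  obtain ⟨_, _, _, _, _, _, -, -, -, -, -, e, -⟩ := h.kh hu uA uH hH hT a hM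
  rw [card_orb, e]

theorem o1' (hu : u ∈ V) (uA : u ∉ A) (uH : u ∈ H) (hH : H ≠ ⊤) (hA : A ≤ H) (hM : ¬ H ≤ M) (h1 : X ≤ H) (ho : Odd ♯X) (hn : A ≤ 𝒩 X) :
    X ≤ Fx M H := by
  obtain ⟨T, hT, a⟩ := exists_syl_ge Nat.prime_two h.elem.pgroup hA
  obtain ⟨Q, _, _, f, L, k, -, -, hL, p, e, -, c, i, -⟩ := h.kh hu uA uH hH hT a hM
  have nL : ⊤ ≤ 𝒩 L := normalizer_eq_top_iff.2 hL ▸ le_rfl
  have n := down_le_norm f hn
  have o := odd_down f ho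
  have AL : down f A ≤ L := e.le.trans (inf_le_left.trans inf_le_right)
  have b : down f X ⊓ L = ⊥ := eq_bot_iff.2 (SFx.gen1 (h.elem.down f) (by have := h.big; omega)
    (odd_of_le o inf_le_left) (le_norm_inf n (le_top.trans nL)) fun a ha => (eq_bot_of_le
      (inf_eq_bot_of_cop (cop_of_pgroup Nat.prime_two p.syl.isPGroup o.not_two_dvd_nat))
      (le_inf ((inf_le_inf_right _ inf_le_right).trans (p.cz a (e ▸ ha.1) ha.2))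
        (inf_le_left.trans inf_le_left))).le)
  have c1 : down f X ≤ 𝒞 (down f A) := comm_eq_bot_iff'.1 (eq_bot_of_le b
    (le_inf (comm_le_left n) (comm_le_of_le_of_norm AL (le_top.trans nL))))
  exact ((down_le_iff' h1).1 fun x hx =>
    p.autO x (nL (mem_top x)) (odd_of_mem o hx) (e ▸ c1 hx)).trans i

theorem o2 (hu : u ∈ V) (uA : u ∉ A) (uH : u ∈ H) (hH : H ≠ ⊤) (hA : A ≤ H) (hM : ¬ H ≤ M) (h1 : v ∈ H) (h2 : v * v = 1) (h3 : v ∈ 𝒞 A) :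
    ∃ a ∈ A, v * a ∈ Fx M H := by
  obtain ⟨T, hT, a⟩ := exists_syl_ge Nat.prime_two h.elem.pgroup hA
  obtain ⟨Q, _, _, f, L, k, -, -, hL, p, e, -, c, i, -⟩ := h.kh hu uA uH hH hT a hM
  have nL : ⊤ ≤ 𝒩 L := normalizer_eq_top_iff.2 hL ▸ le_rfl
  have v2 : f ⟨v, h1⟩ * f ⟨v, h1⟩ = 1 := by
    rw [← map_mul, ← map_one f]; exact congrArg f (Subtype.ext h2)
  have vA : f ⟨v, h1⟩ ∈ 𝒞 (down f A) := down_le_cent f (zpowers_le.2 h3)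
    (mem_down_of_mem (mem_zpowers v))
  obtain ⟨d, hd, l, hl, e1⟩ := (mem_sup_r (cent_le_norm L)).1
    (sup_comm L _ ▸ p.aut2 _ (nL (mem_top _)) ⟨1, (pow_two _).trans v2⟩)
  have dl := mem_cent.1 hd l hl
  have l2 : l * l = 1 := p.smp.eq_one (mul_mem hl hl) (by
    rw [← e1, mul_assoc, ← mul_assoc l, dl, mul_assoc, ← mul_assoc] at v2
    exact (mul_mem_cancel_left (mul_mem hd hd)).1 (v2 ▸ one_mem _))
  obtain ⟨z, z1, z2⟩ := exists_ne_one (ne_bot_of_card (A := down f A) fun e => by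
    have := h.big; omega)
  have lA : l ∈ 𝒞 (down f A) := (mul_mem_cancel_left
    (cent_anti (e.le.trans (inf_le_left.trans inf_le_right)) hd)).1 (e1 ▸ vA)
  obtain ⟨b, hb, rfl⟩ : l ∈ down f A := e ▸ (szp_mem p).2
    ⟨p.cz z (e ▸ z1) z2 ⟨hl, cent_le_cent1 z1 lA⟩, l2⟩
  refine ⟨b, hb, i (coe_mem_up (x := ⟨v, h1⟩ * b).2 ?_)⟩
  rwa [map_mul, ← e1, mul_assoc, l2, mul_one]

theorem orb_eq (hu : u ∈ V) (uA : u ∉ A) (uH : u ∈ H) (uK : u ∈ K) (hH : H ≠ ⊤) (hA : A ≤ H)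
    (hM : ¬ H ≤ M) (hK : K ≠ ⊤) (hA' : A ≤ K) (hM' : ¬ K ≤ M)
    (h1 : ∀ g ∈ H, ∃ k ∈ K, k • pt M = g • pt M) : Fx M H ≤ Fx M K := by
  have := Set.eq_of_subset_of_ncard_le (s := orbit H (pt M)) (t := orbit K (pt M))
    (fun γ hγ => by obtain ⟨g, hg, rfl⟩ := mem_orb.1 hγ; exact mem_orb.2 (h1 g hg))
    (by rw [h.idx hu uA uH hH hA hM, h.idx hu uA uK hK hA' hM'])
  intro x hx k hk
  obtain ⟨g, hg, e⟩ := mem_orb.1 (this ▸ mem_orb.2 ⟨k, hk, rfl⟩)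
  exact e ▸ hx g hg

theorem trans0 (hu : u ∈ V) (h1 : u • γ = γ) : ∃ c ∈ 𝒞₁ u, c • pt M = γ := by
  obtain ⟨g, rfl, hg⟩ := U.move h.toUG (card_zp2 (h.vv hu)) fun x hx =>
    (zpowers_le.2 (mem_stabilizer_iff.2 h1) hx : x ∈ stabilizer G γ)
  obtain ⟨P, hP, a⟩ := exists_syl_ge Nat.prime_two h.elem.pgroup (h.AC hu)
  obtain ⟨c, hc, e⟩ := hP.exists_cj_le (isPGroup_cj h.elem.pgroup g) (cj_le_iff_forall.2 fun x hx => by
    have := mem_cent1_conj (g := g).2 (le_cent1_iff.2 (h.sA (hg u (mem_zpowers u))) hx)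
    simpa [mul_assoc] using this)
  obtain ⟨b, hb, b1⟩ := U.exA h.toUG
  have i := ini_conj (ini_conj (ini_of_mem hb b1) g) c
  refine ⟨c⁻¹, inv_mem hc, inv_smul_eq_iff.2 (U.uniq h.toUG i (smul_pt.2 (U.AM h.toUG
    (U.memA h.toUG hP.isPGroup a i (e (conj_mem_cj (conj_mem_cj hb)))))) ?_)⟩
  exact fix_conj.2 (fix_conj.2 (smul_pt.2 (U.AM h.toUG hb)))

theorem fx (hu : u ∈ V) (hx : x ∈ Fx M (𝒞₁ u)) (h1 : u • γ = γ) : x • γ = γ := by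
  obtain ⟨c, hc, rfl⟩ := h.trans0 hu h1
  exact hx c hc

theorem mem_Fx (hu : u ∈ V) : u ∈ Fx M (𝒞₁ u) := fun _ hc =>
  fix_comm (smul_pt.2 (h.VM hu)) (mem_cent1.1 hc)

theorem conjA (hu : u ∈ V) (uA : u ∉ A) (hc : InI A c) (h1 : u * c = c * u) :
    ∃ g ∈ 𝒞₁ u, g * c * g⁻¹ ∈ A := by
  obtain ⟨g, hg, e⟩ := (h.syl1 u hu uA).exists_conj_mem (mem_cent1.2 h1.symm)
    ⟨1, (pow_two c).trans (U.ii h.toUG hc)⟩
  exact ⟨g, hg, U.memS h.toUG (ini_conj hc g) e.1⟩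

theorem card_fix (h1 : w * w = 1) (h2 : w ≠ 1) (h3 : ¬ InI A w) :
    {γ : G ⧸ M | w • γ = γ}.ncard = ♯A ^ 2 + 1 := by
  obtain ⟨g, -, e⟩ := h.syl.exists_conj_mem (mem_top w) ⟨1, (pow_two w).trans h1⟩
  have hu := (h.mV _).2 ⟨e, Cx.conj_sq g h1⟩
  have uA : g * w * g⁻¹ ∉ A := fun i => h3 ⟨h2, g, i⟩
  rw [← h.idx hu uA (self_mem_cent1 _) (h.cne hu uA) (h.AC hu) (h.nle hu uA),
    ← Set.ncard_image_of_injective _ (MulAction.injective g)]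
  congr 1
  ext γ
  rw [mem_orb]
  refine ⟨by rintro ⟨δ, hδ, rfl⟩; exact h.trans0 hu (fix_conj.2 hδ), ?_⟩
  rintro ⟨c, hc, rfl⟩
  exact ⟨g⁻¹ • c • pt M, (fix_conj (g := g)).1 (by rw [smul_inv_smul]; exact h.mem_Fx hu c hc),
    smul_inv_smul _ _⟩

/-- two lines with commuting involutions and two common points -/
theorem line (w2 : w * w = 1) (w1 : w ≠ 1) (wI : ¬ InI A w) (u2 : u * u = 1) (e : w * u = u * w)
    (h1 : w • γ = γ) (h2 : u • γ = γ) (h3 : w • δ = δ) (h4 : u • δ = δ) (ne : γ ≠ δ)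
    (h5 : w • ε = ε) : u • ε = ε := by
  obtain ⟨g, rfl, hg⟩ := U.move h.toUG (γ := γ) (pg_two w2 u2 e) fun x hx =>
    (sup_le (zpowers_le.2 (mem_stabilizer_iff.2 h1)) (zpowers_le.2 (mem_stabilizer_iff.2 h2)) hx :
      x ∈ stabilizer G γ)
  have m : ∀ x ∈ zpowers w ⊔ zpowers u, x * x = 1 → g⁻¹ * x * g⁻¹⁻¹ ∈ V := fun x hx x2 =>
    (h.mV _).2 ⟨by simpa using hg x hx, Cx.conj_sq _ x2⟩
  have hw := m w (mem_sup_left (mem_zpowers w)) w2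
  have hu := m u (mem_sup_right (mem_zpowers u)) u2
  have wA : g⁻¹ * w * g⁻¹⁻¹ ∉ A := fun i => wI ⟨w1, _, i⟩
  obtain ⟨a, a1, a2⟩ := h.o2 hw wA (self_mem_cent1 _) (h.cne hw wA) (h.AC hw) (h.nle hw wA) (h.VC hw hu) (h.vv hu)
    (h.sA (h.VS hu))
  obtain rfl : a = 1 := by_contra fun i => ne (smul_eq_iff_eq_inv_smul g |>.2 (U.uA h.toUG a1 i
    (fix_mul (fix_conj.2 h4) (h.fx hw a2 (fix_conj.2 h3)))).symm)
  exact fix_conj.1 (h.fx hw (by simpa only [mul_one] using a2) (fix_conj.2 h5))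

omit [Finite G] in
theorem exists_move (uA : u ∉ A) : ∃ γ : G ⧸ M, u • γ ≠ γ := by
  by_contra! i
  exact U.norm_ne h.toUG (X := Fx M ⊤) (ne_bot_of_mem (x := u) (fun g _ => i _)
    fun e => uA (e ▸ one_mem _)) Fx_le (top_le_iff.1 le_norm_Fx)

theorem step2 (hc : ∀ x ∈ M, ∀ y ∈ M, x * x = 1 → y * y = 1 → x * y = y * x) : False := by
  have hU := h.toUG
  have hc' : ∀ (γ : G ⧸ M) (x y : G), x • γ = γ → y • γ = γ → x * x = 1 → y * y = 1 →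
      x * y = y * x := fun γ x y a b c d => by
    obtain ⟨g, rfl⟩ := exists_pt γ
    simpa [mul_assoc] using Cx.conj_comm g (hc _ (fix_iff.1 a) _ (fix_iff.1 b)
      (by simpa using Cx.conj_sq g⁻¹ c) (by simpa using Cx.conj_sq g⁻¹ d))
  obtain ⟨v, hv, vA, -⟩ := h.tor
  have v2 := h.vv hv
  have vI := h.nI hv vA
  have sq : ∀ c, InI A c → v * c = c * v → v * c * (v * c) = 1 := fun c a b => by
    rw [mul_assoc, ← mul_assoc c, ← b, mul_assoc, U.ii hU a, mul_one, v2]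
  have ex : ∀ γ : G ⧸ M, v • γ ≠ γ →
      ∃ c, InI A c ∧ v * c = c * v ∧ (v * c) • γ = γ ∧ ¬ InI A (v * c) := fun γ e => by
    obtain ⟨x, hx, x1⟩ := U.exI hU γ
    obtain ⟨c, c1, c2, c3, c4, -⟩ := U.dih hU v2 vI hx x1 e
    exact ⟨c, c1, c2, U.cfix hU hx x1 c3, c4⟩
  have ne1 : ∀ c, InI A c → v * c ≠ 1 := fun c a e => vI
    ((eq_inv_of_mul_eq_one_left e).trans (inv_eq_of_mul_eq_one_left (U.ii hU a)) ▸ a)
  obtain ⟨γ, hγ⟩ := h.exists_move vA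
  obtain ⟨c, c1, c2, c3, c4⟩ := ex γ hγ
  obtain ⟨x, hx, x1⟩ := U.exI hU γ
  have x2 := U.ii hU hx
  have cx := hc' γ _ _ c3 x1 (sq c c1 c2) x2
  have xx : v * c * x * x = v * c := by rw [mul_assoc, x2, mul_one]
  have w2 : v * c * x * (v * c * x) = 1 := by
    rw [← mul_assoc, mul_assoc (v * c), ← cx, ← mul_assoc, sq c c1 c2, one_mul, x2]
  have w1 : v * c * x ≠ 1 := fun e => c4 (by rw [← xx, e, one_mul]; exact hx)
  have wI : ¬ InI A (v * c * x) := fun i =>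
    c4 (xx ▸ U.ini_mul hU i hx (by rw [← mul_assoc, ← cx]) (xx.symm ▸ ne1 c c1))
  have wγ : (v * c * x) • γ = γ := by rw [mul_smul, x1, c3]
  have disj : ∀ δ : G ⧸ M, v • δ = δ → (v * c * x) • δ = δ → False := fun δ a b => by
    have := hc' δ _ _ a b v2 w2
    rw [← mul_assoc, show v * (v * c) = v * c * v by rw [mul_assoc, ← c2], mul_assoc _ v x,
      mul_assoc _ x v, mul_left_cancel_iff] at this
    exact hγ (U.cfix hU hx x1 this)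
  have cd := h.card_fix w2 w1 wI
  generalize v * c * x = w at w2 w1 wI wγ disj cd
  obtain ⟨Q, _, _, f, L, k, hf, hk, hL, p, e, -, cA, i, -⟩ := h.kh hv vA (self_mem_cent1 _) (h.cne hv vA) (h.syl1 v hv vA)
    (le_inf h.sc.le (h.AC hv)) (h.nle hv vA)
  have nK := le_normalizer_up f L
  have AK : A ≤ up f L := (down_le_iff' (h.AC hv)).1 (e.le.trans (inf_le_left.trans inf_le_right))
  have IK : ∀ c, InI A c → v * c = c * v → c ∈ up f L := fun c a b => by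
    obtain ⟨g, g1, g2⟩ := h.conjA hv vA a b
    simpa [mul_assoc] using conj_mem_of_norm' (nK g1) (AK g2)
  have KI : ∀ z ∈ up f L, Ivo z → InI A z := fun z a b => by
    obtain ⟨g, g1, g2⟩ := (h.syl1 v hv vA).exists_conj_mem (up_le _ _ a) ⟨1, (pow_two z).trans b.2⟩
    obtain ⟨t1, t2⟩ := mem_up.1 (conj_mem_of_norm (nK g1) a)
    obtain ⟨y, y1, y2⟩ : f ⟨_, t1⟩ ∈ down f A := e ▸ (szp_mem p).2 ⟨⟨mem_down_of_mem g2, t2⟩, by
      rw [← map_mul, ← map_one f]; exact congrArg f (Subtype.ext (b.conj g).2)⟩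
    have := eq_one_of_mem (inf_eq_bot_of_cop (cop_of_pgroup Nat.prime_two h.syl.isPGroup
      (odd_O2 (𝒞₁ v)).not_two_dvd_nat)) ⟨S.mul_mem (S.inv_mem (h.sc.le y1)) g2.1, hk ▸
        (coe_mem_up (f := f) (x := y⁻¹ * ⟨_, t1⟩)).2 (by rw [map_mul, map_inv, y2]; simp)⟩
    exact ⟨b.1, g, inv_mul_eq_one.1 this ▸ y1⟩
  have oY : Odd ♯(up f L ⊓ 𝒞₁ w) := odd_of_no_ivo fun z a b => by
    obtain ⟨δ, hδ⟩ := U.exP hU (KI z a.1 b)
    exact disj δ (U.cfix hU (KI z a.1 b) hδ (mem_cent1.1 (up_le _ _ a.1)).symm)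
      (U.cfix hU (KI z a.1 b) hδ (mem_cent1.1 a.2).symm)
  have vw : ∀ (γ : G ⧸ M) c, w • γ = γ → InI A c → v * c = c * v → (v * c) • γ = γ →
      v * c ∈ 𝒞₁ w := fun γ c a b d e => mem_cent1.2 (hc' γ _ _ e a (sq c b d) w2)
  have cH : c ∈ 𝒞₁ v := mem_cent1.2 c2.symm
  have nY : c ∈ 𝒩 (up f L ⊓ 𝒞₁ w) := (mul_mem_cancel_left (cent_le_norm _ (le_cent1_iff.1
    (inf_le_left.trans (up_le f L))))).1 (zpowers_le.1 (le_norm_inf (zpowers_le.2 (nK (mul_mem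
      (self_mem_cent1 v) cH))) (le_norm_cent1 (zpowers_le.2 (vw γ c wγ c1 c2 c3)))))
  have YL : down f (up f L ⊓ 𝒞₁ w) ≤ L := (down_mono f inf_le_left).trans (down_up_le f L)
  have o := odd_down f oY
  have ab := SFx.abel_of_fpf (a := f ⟨c, cH⟩) (by
      rw [← map_mul, ← map_one f]; exact congrArg f (Subtype.ext (U.ii hU c1))) o
    (down_normalizer_le f _ (mem_down_of_mem nY)) ((eq_bot_iff_forall _).2 fun y hy => by
      obtain ⟨g, g1, g2⟩ := h.conjA hv vA c1 c2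
      have z1 : f ⟨g, g1⟩ * f ⟨c, cH⟩ * (f ⟨g, g1⟩)⁻¹ ∈ down f A := by
        rw [← map_inv, ← map_mul, ← map_mul]; exact mem_down_of_mem g2
      obtain ⟨n, hn⟩ := isPGroup_iff_forall.1 p.syl.isPGroup _ (p.cz _ (e ▸ z1) (fun j =>
        (show Ivo c from ⟨c1.1, U.ii hU c1⟩).not_mem (odd_O2 _) (hk ▸ (coe_mem_up (x := ⟨c, cH⟩)).2
          (conj_eq_one_iff.1 j))) ⟨hL.conj_mem _ (YL hy.1) _, mem_cent1_conj.2 hy.2⟩)
      exact eq_one_of_pElt_of_coprime ⟨n, by rwa [conj_pow, conj_eq_one_iff] at hn⟩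
        (Nat.coprime_two_right.2 (odd_of_mem o hy.1)))
  have le := p.noab _ YL ab o
  have ex' : ∀ γ : G ⧸ M, ∃ d : 𝒞₁ v, w • γ = γ →
      InI A (d : G) ∧ (v * d) • γ = γ ∧ ¬ InI A (v * d) := fun γ => by
    by_cases a : w • γ = γ
    · obtain ⟨d, d1, d2, d3⟩ := ex γ fun b => disj γ b a
      exact ⟨⟨d, mem_cent1.2 d2.symm⟩, fun _ => ⟨d1, d3⟩⟩
    · exact ⟨1, fun b => (a b).elim⟩
  choose φ hφ using ex'
  have := Set.ncard_le_ncard_of_injOn (s := {γ : G ⧸ M | w • γ = γ})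
    (t := (down f (up f L ⊓ 𝒞₁ w) : Set Q)) (fun γ => f (⟨c, cH⟩ * φ γ)) (fun δ a => by
      obtain ⟨d1, d2, -⟩ := hφ δ a
      have d3 := (mem_cent1.1 (φ δ).2).symm
      refine mem_down_of_mem ⟨mul_mem (IK c c1 c2) (IK _ d1 d3), ?_⟩
      have := mul_mem (vw γ c wγ c1 c2 c3) (vw δ _ a d1 d3 d2)
      rwa [c2, mul_assoc, ← mul_assoc v, v2, one_mul] at this) fun δ a ε b j => by
      obtain ⟨d1, d2, d4⟩ := hφ δ a
      obtain ⟨e1, e2, -⟩ := hφ ε b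
      have d3 := (mem_cent1.1 (φ δ).2).symm
      have k1 : (φ δ : G) * φ ε ∈ O2 (𝒞₁ v) := hk ▸ (coe_mem_up (x := φ δ * φ ε)).2 (by
        simp only [map_mul, mul_left_cancel_iff] at j
        rw [map_mul, ← j, ← map_mul, show φ δ * φ δ = 1 from Subtype.ext (U.ii hU d1), map_one]
        exact one_mem _)
      obtain ⟨β, hβ⟩ := U.exP hU d1
      have vβ := U.cfix hU d1 hβ d3
      have k2 := hc' β _ _ hβ (fix_mul hβ (h.fx hv (i (up_mono f bot_le (hk ▸ k1))) vβ))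
        (U.ii hU d1) (U.ii hU e1)
      have k3 : (φ δ : G) = φ ε := by_contra fun n =>
        (Ivo.mul ⟨d1.1, U.ii hU d1⟩ ⟨e1.1, U.ii hU e1⟩ n k2).not_mem (odd_O2 _) k1
      by_contra n
      exact disj β vβ (h.line (sq _ d1 d3) (ne1 _ d1) d4 w2 (mem_cent1.1 (vw δ _ a d1 d3 d2)) d2 a
        (k3 ▸ e2) b n (by rw [mul_smul, hβ, vβ]))
  rw [cd, ← Nat.card_coe_set_eq] at this
  rw [← e, cA] at le
  exact absurd (this.trans le) (by simp)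

end Y

end Cfsg.GS.Px
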