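import Cfsg.Agent.GS.P3

/-! `CSz`, part 4: `V O(M)` is normal in `M`, `O(M) = 1`, and the conclusion. -/

set_option autoImplicit false

namespace Cfsg.GS.Px

open Subgroup Cfsg.L0 Cfsg.H8 Cfsg.FT Cfsg.BS Cfsg.BS.R Cfsg.GS.T3 Cfsg.GS.T4 Cfsg.GS.Kx Cfsg.GS.Bx
  Cfsg.GS.Nx MulAction
open Cfsg.GS.Dx hiding Y
open scoped commutatorElement

variable {G : Type} [Group G] [Finite G] {S A M V H K L P T R X : Subgroup G}
  {a b c g k s t u v w x y z : G} {γ δ ε : G ⧸ M} {p : ℕ}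

/-- an element without fixed points on `S` has no fixed coset -/
theorem mem_of_fpf (h1 : P ≤ S) (h2 : z ∈ 𝒩 P) (h3 : S ⊓ 𝒞₁ z = ⊥) (hs : s ∈ S)
    (h4 : s⁻¹ * (z * s * z⁻¹) ∈ P) : s ∈ P := by
  have i : ∀ x ∈ S, ∀ y ∈ S, x⁻¹ * (z * x * z⁻¹) = y⁻¹ * (z * y * z⁻¹) → x = y := fun x a y b e =>
    mul_inv_eq_one.1 (eq_one_of_mem h3 ⟨S.mul_mem a (S.inv_mem b), mem_cent1.2 (by
      calc _ = x * (y⁻¹ * (z * y * z⁻¹)) * (z * y⁻¹) := by group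
        _ = _ := by rw [← e]; group)⟩)
  obtain ⟨x, e⟩ := Finite.injective_iff_surjective.1 (show Function.Injective fun x : P =>
    (⟨x.1⁻¹ * (z * x * z⁻¹), mul_mem (inv_mem x.2) (conj_mem_of_norm h2 x.2)⟩ : P) from
      fun x y e => Subtype.ext (i _ (h1 x.2) _ (h1 y.2) (congrArg Subtype.val e))) ⟨_, h4⟩
  exact i _ (h1 x.2) s hs (congrArg Subtype.val e) ▸ x.2

omit [Finite G] in
theorem iso_up {Q : Type} [Group Q] {f : H →* Q} {L : Subgroup Q} (hf : Function.Surjective f)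
    (hk : up f ⊥ = ⊥) (h : Lie.IsoSuzuki L) : Lie.IsoSuzuki (up f L) := by
  obtain ⟨φ, hφ, e⟩ := exists_inj_down (f := f) (up_le f L) (by rw [hk, inf_bot_eq])
  have := e _ le_rfl
  rw [down_up hf, subgroupOf_self, ← MonoidHom.range_eq_map] at this
  obtain ⟨F, _, _, m, a, b, ⟨ψ⟩⟩ := h
  exact ⟨F, _, _, m, a, b, ⟨((MonoidHom.ofInjective hφ).trans
    (MulEquiv.subgroupCongr this.symm)).trans ψ⟩⟩

namespace Y
variable (h : Y S A V M)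
include h

omit [Finite G] in
theorem pV : IsPGroup 2 V := h.syl.isPGroup.to_le h.VS

theorem ca (ho : Odd ♯X) (hn : V ≤ 𝒩 X) : CA V X := mkCA_p Nat.prime_two hn h.pV ho.not_two_dvd_nat

theorem sylR (hu : u ∈ V) (uA : u ∉ A) : IsSyl 2 (V ⊓ Fx M (𝒞₁ u)) (Fx M (𝒞₁ u)) := by
  have n : Fx M (𝒞₁ u) ⊔ V ≤ 𝒩 (Fx M (𝒞₁ u)) := sup_le (le_norm _) ((h.VC hu).trans le_norm_Fx)
  obtain ⟨P, hP, a⟩ := exists_syl_ge Nat.prime_two h.pV (le_sup_right : V ≤ Fx M (𝒞₁ u) ⊔ V)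
  obtain ⟨m, -, e⟩ := h.syl.exists_cj_le hP.isPGroup le_top
  have mA := h.sc.mem_norm (mem_top m) ((cj_mono m (h.AV.trans a)).trans e)
  have mV : m ∈ 𝒩 V := mem_norm_of_cj_le (cj_le_iff_forall.2 fun x hx =>
    (h.mV _).2 ⟨e (conj_mem_cj (a hx)), Cx.conj_sq m (h.vv hx)⟩)
  have o := fun a => U.inf_Fx (a := a) h.toUG (h.nle hu uA)
  refine (le_antisymm (inf_le_inf_right _ a) fun x hx => ⟨?_, hx.2⟩ : _ = _) ▸
    hP.inf le_sup_left (hP.le.trans n)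
  have x1 := e (conj_mem_cj hx.1)
  have u1 := conj_mem_of_norm mV hu
  have e1 := Cx.comm_of_c (o _ (by simpa [mul_assoc] using conj_mem_of_norm' mA (h.cm _ u1 _ x1))
    (mul_mem (mul_mem (mul_mem hx.2 (h.mem_Fx hu)) (inv_mem hx.2)) (inv_mem (h.mem_Fx hu))))
  have e2 := o _ (by simpa [mul_assoc] using conj_mem_of_norm' mA (h.sq _ u1 (fun i => uA (by
    simpa [mul_assoc] using conj_mem_of_norm' mA i)) _ x1 (Cx.conj_comm m e1))) (mul_mem hx.2 hx.2)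
  simpa [mul_assoc] using conj_mem_of_norm' mV ((h.mV _).2 ⟨x1, Cx.conj_sq m e2⟩)

/-- `C(A) ∩ N(S)` centralizes `V / A` -/
theorem star (y1 : y ∈ 𝒞 A) (y2 : y ∈ 𝒩 S) (hu : u ∈ V) : u⁻¹ * (y * u * y⁻¹) ∈ A := by
  have nV := norm_of_mV h.mV
  obtain ⟨v, hv, vA, k, k1, k2, tr, kV⟩ := h.tor
  obtain ⟨a, ha, a1⟩ := U.exA h.toUG
  obtain ⟨s, hs, e⟩ := h.onto v hv vA a ha
  have va : ∀ a ∈ A, v * a * v⁻¹ = a := fun a ha => by
    rw [← mem_cent.1 (h.sA (h.VS hv)) a ha, mul_inv_cancel_right]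
  have sV : s ∉ 𝒞 V := fun i => a1 (by
    rw [← mem_cent.1 i v hv, mul_inv_cancel_right] at e; exact left_eq_mul.1 e)
  have s1 := conj_mem_of_norm y2 hs
  obtain ⟨n, hn⟩ := tr a ha _ (h.cm v hv _ s1) a1 fun i => sV (by
    simpa [mul_assoc] using conj_mem_of_norm' (norm_le_norm_cent V (nV y2))
      (h.cV v hv vA _ s1 (Cx.comm_of_c i)))
  have kv : k ^ n * v = v * k ^ n := (Commute.pow_left k2 n).eq
  have kA : ∀ a ∈ A, a ≠ 1 → k ^ n * a = a * k ^ n → k ^ n ∈ 𝒞 A := fun a ha a1 i =>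
    mem_cent.2 fun b hb => by
      by_cases b1 : b = 1
      · simp [b1]
      obtain ⟨m, rfl⟩ := tr a ha b hb a1 b1
      exact ((Commute.pow_pow_self k n m).mul_right i |>.mul_right
        (Commute.pow_pow_self k n m).inv_right).symm.eq
  have kV' : ∀ u ∈ V, k ^ n * u * (k ^ n)⁻¹ * u⁻¹ ∈ A := fun u hu => by
    have kA := h.sc.norm_le ⟨trivial, k1⟩
    generalize n = m
    induction m with
    | zero => simp
    | succ m ih =>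
      convert mul_mem (conj_mem_of_norm kA ih) (kV u hu) using 1
      rw [pow_succ']; group
  have k3 := pow_mem k1 n
  generalize k ^ n = κ at hn kv kA kV' k3
  have s2 := conj_mem_of_norm k3 hs
  have e1 : (y * s * y⁻¹)⁻¹ * (κ * s * κ⁻¹) ∈ 𝒞 V := h.cV v hv vA _ (mul_mem (inv_mem s1) s2)
    (Cx.comm_of_conj_eq (by
      calc _ = κ * (v * a * v⁻¹) * κ⁻¹ * v := by rw [va a ha, hn]; group
        _ = κ * s * κ⁻¹ * (κ * v) * s⁻¹ * (v * κ)⁻¹ * v := by rw [← e, ← kv]; group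
        _ = _ := by rw [kv]; group))
  have z1 := mul_mem (inv_mem y2) k3
  have d : s⁻¹ * (y * s * y⁻¹) ∈ 𝒞 V := by
    have : S ⊓ 𝒞₁ (y⁻¹ * κ) ≠ ⊥ := fun i => sV (mem_of_fpf (P := S ⊓ 𝒞 V) inf_le_left
      (zpowers_le.1 (le_norm_inf (zpowers_le.2 z1) (le_norm_cent (zpowers_le.2 (nV z1))))) i hs
      ⟨S.mul_mem (S.inv_mem hs) (conj_mem_of_norm z1 hs), by
        simpa [mul_assoc] using conj_mem_of_norm' (norm_le_norm_cent V (nV y2)) e1⟩).2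
    obtain ⟨t, t1, t2⟩ := exists_ne_one (Om_ne_bot Nat.prime_two (h.syl.isPGroup.to_le inf_le_left) this)
    have t3 : t ∈ V ⊓ 𝒞₁ (y⁻¹ * κ) := (Om_le_iff (N := V ⊓ _) (A := S ⊓ _)).2 (fun x a b =>
      ⟨(h.mV x).2 ⟨a.1, (pow_two x).symm.trans b⟩, a.2⟩) t1
    have t4 : κ * t * κ⁻¹ = y * t * y⁻¹ := by
      calc _ = y * (y⁻¹ * κ * t) * κ⁻¹ := by group
        _ = _ := by rw [← mem_cent1.1 t3.2]; group
    by_cases i : t ∈ A
    · rw [← mem_cent.1 y1 t i, mul_inv_cancel_right, mul_inv_eq_iff_eq_mul] at t4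
      rw [← mem_cent.1 (kA t i t2 t4) a ha, mul_inv_cancel_right, ← va a ha, ← e, mul_left_inj] at hn
      exact h.cV v hv vA _ (mul_mem (inv_mem hs) s1) (Cx.comm_of_conj_eq hn)
    · refine h.cV t t3.1 i _ (mul_mem (inv_mem hs) s1) (Cx.comm_of_conj_eq ?_)
      have j := kV' t t3.1
      rw [t4] at j
      have j1 := mem_cent.1 (h.sA s1) _ j
      have j2 := mem_cent.1 y1 _ (h.cm t t3.1 s hs)
      have j3 := h.elem.abel.comm j (h.cm t t3.1 s hs)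
      calc _ = (y * t * y⁻¹ * t⁻¹)⁻¹ * (y * t * y⁻¹ * t⁻¹ * (s * t * s⁻¹ * t⁻¹)) * t := by group
        _ = (y * t * y⁻¹ * t⁻¹)⁻¹ * (s * t * s⁻¹ * t⁻¹ * y) * t * y⁻¹ := by rw [j3]; group
        _ = (y * t * y⁻¹ * t⁻¹)⁻¹ * (y * s * y⁻¹ * (y * t * y⁻¹ * t⁻¹)) * t * (y * s * y⁻¹)⁻¹ := by
          rw [j2]; group
        _ = _ := by rw [← j1]; group
  by_contra n
  have u1 := conj_mem_of_norm (nV y2) hu
  refine sV (h.cV _ (mul_mem (inv_mem hu) u1) n s hs (Cx.comm_of_c_eq ?_))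
  calc _ = y * (s * u * s⁻¹ * u⁻¹) * y⁻¹ := by
        rw [← mem_cent.1 y1 _ (h.cm u hu s hs), mul_inv_cancel_right]
    _ = s * (s⁻¹ * (y * s * y⁻¹) * (y * u * y⁻¹)) * (y * s * y⁻¹)⁻¹ * (y * u * y⁻¹)⁻¹ := by group
    _ = _ := by rw [← mem_cent.1 d _ u1]; group

theorem OC : O2 (𝒞 A) ≤ O2 M := by
  have n := (cent_nrm A).Op {2}ᶜ
  have n1 := (n.le.trans h.nA).trans (Op_nrm {2}ᶜ M).norm
  refine le_sup_right.trans (le_Op_compl Nat.prime_two (N := O2 M ⊔ O2 (𝒞 A)) (Odd.of_dvd_nat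
    ((odd_O2 M).mul (odd_O2 _)) (card_sup_dvd n1)).not_two_dvd_nat
    ⟨sup_le (Op_le _ _) (n.le.trans h.nA), h.mo.trans (sup_le (le_sup_left.trans (le_norm _))
      (le_norm_sup (h.nA.trans (Op_nrm _ M).norm) n.norm))⟩)

theorem zs (hg : g ∈ 𝒞 A) (hu : u ∈ V) : g * u * g⁻¹ * u⁻¹ ∈ O2 M ⊔ A := by
  have AC : A ≤ 𝒞 A := h.elem.abel
  obtain ⟨Q, _, _, f, hf, hk⟩ := exists_quo0 (⟨AC, cent_le_norm A⟩ : A ⊴ 𝒞 A)
  have sy := (h.syl.mono h.sA le_top).down f le_rfl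
  have k1 : ∀ x : 𝒞 A, f x = 1 ↔ (x : G) ∈ A := fun x => by rw [← mem_bot, ← coe_mem_up, hk]
  have z : ∀ x : 𝒞 A, (x : G) ∈ V → f x ∈ 𝒞 (down f S) := fun x hx => mem_cent.2 fun y hy => by
    obtain ⟨s, s1, rfl⟩ := exists_of_mem_down hy
    exact Cx.comm_of_c (by simpa using (k1 (s * x * s⁻¹ * x⁻¹)).2 (h.cm x hx s s1))
  have uC := h.sA (h.VS hu)
  have := zstarA sy (x := f ⟨u, uC⟩) (mem_down_of_mem (h.VS hu)) (fun x hx e => by
    obtain ⟨x, rfl⟩ := hf x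
    rw [← map_inv, ← map_mul, ← map_mul] at e
    have e1 : (x : G) * u * (x : G)⁻¹ ∈ V := (h.mV _).2 ⟨up_le_of_le_down h.sA (hk.le.trans h.sc.le) le_rfl
      (coe_mem_up.2 e), Cx.conj_sq _ (h.vv hu)⟩
    obtain ⟨n, n1, n2⟩ := abel_syl_fusion Nat.prime_two sy (A := zpowers (f ⟨u, uC⟩))
      (zpowers_le.2 (z _ hu)) hx (by
        rw [cj_zpowers', ← map_inv, ← map_mul, ← map_mul]; exact zpowers_le.2 (z _ e1))
    obtain ⟨n, rfl⟩ := hf n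
    rw [← n2 _ (mem_zpowers _), eq_comm, ← inv_mul_eq_one]
    simpa using (k1 ((⟨u, uC⟩ : 𝒞 A)⁻¹ * (n * ⟨u, uC⟩ * n⁻¹))).2 (h.star n.2 (zpowers_le.1
      ((down_le_norm_iff (zpowers_le.2 n.2) h.sA (hk.le.trans h.sc.le)).1
        (down_zpowers f n ▸ zpowers_le.2 n1.2))) hu)) (f ⟨g, hg⟩) (mem_down_of_mem hg)
  have n := nrm_up le_rfl (up_le f ⊥) (Op_nrm {2}ᶜ (down f (𝒞 A)))
  have a : A ≤ up f (Op {2}ᶜ (down f (𝒞 A))) := hk.ge.trans (ker_le_up f _)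
  have s : IsSyl 2 A (up f (Op {2}ᶜ (down f (𝒞 A)))) := ⟨a, h.elem.pgroup, by
    nth_rewrite 1 [← hk]
    rw [ri_up_up (Op_le _ _), relIndex_bot_left]
    exact not_dvd_Op_compl Nat.prime_two _⟩
  obtain ⟨x, x1, y, y1, e⟩ := (npc_sd Nat.prime_two (burnside Nat.prime_two s
    (inf_le_left.trans n.le)) s).mem
    ((coe_mem_up (x := ⟨g, hg⟩ * ⟨u, uC⟩ * (⟨g, hg⟩ : 𝒞 A)⁻¹ * (⟨u, uC⟩ : 𝒞 A)⁻¹)).2
      (by rw [map_mul, map_mul, map_mul, map_inv, map_inv]; exact this))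
  exact (show _ = g * u * g⁻¹ * u⁻¹ from e) ▸ mul_mem_sup (h.OC (Op_le_Op_of_nrm _ n x1)) y1

theorem nWV : M ≤ 𝒩 (O2 M ⊔ V) := by
  have nW := (Op_nrm {2}ᶜ M).norm
  refine h.mo.trans (sup_le (le_sup_left.trans (le_norm _)) fun g hg => ?_)
  obtain ⟨c, c1, n, n1, rfl⟩ := (h.syl.mono h.sA le_top).frattini (norm_le_norm_cent A hg)
  have cM := h.nA (cent_le_norm A c1)
  refine mul_mem (mem_norm_of_cj_le ?_) (zpowers_le.1 (le_norm_sup (zpowers_le.2 (nW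
    ((mul_mem_cancel_left cM).1 (h.nA hg)))) (zpowers_le.2 (norm_of_mV h.mV n1))))
  rw [cj_sup, cj_eq_of_mem_norm (nW cM)]
  exact sup_le le_sup_left (cj_le_iff_forall.2 fun u hu => by
    simpa using mul_mem (sup_le_sup_left h.AV _ (h.zs c1 hu)) (mem_sup_right hu))

theorem abO (hu : u ∈ V) (uA : u ∉ A) (h1 : X ≤ Fx M (𝒞₁ u)) (ho : Odd ♯X) :
    X ≤ O2 (Fx M (𝒞₁ u)) := by
  have hU := h.toUG
  refine npc_le_Op Nat.prime_two (burnside Nat.prime_two (h.sylR hu uA) fun g hg =>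
    mem_cent.2 fun r hr => ?_) h1 ho.not_two_dvd_nat
  have nW := (Op_nrm {2}ᶜ M).norm
  have AW := (U.AM hU).trans nW
  have nA : M ≤ 𝒩 (O2 M ⊔ A) := h.mo.trans (sup_le (le_sup_left.trans (le_norm _))
    (le_norm_sup (h.nA.trans nW) le_rfl))
  have sy : IsSyl 2 A (O2 M ⊔ A) := ⟨le_sup_right, h.elem.pgroup, by
    rw [(mk_sd AW (inf_eq_bot_of_cop (cop_of_pgroup Nat.prime_two h.elem.pgroup
      (odd_O2 M).not_two_dvd_nat).symm)).ri']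
    exact (odd_O2 M).not_two_dvd_nat⟩
  have o : Odd ♯((O2 M ⊔ A) ⊓ Fx M (𝒞₁ u)) := odd_of_no_ivo fun z a b => by
    obtain ⟨m, -, e⟩ := sy.exists_conj_mem a.1 ⟨1, (pow_two z).trans b.2⟩
    exact h.nle hu uA fun c hc => smul_pt.1
      (U.uniq hU ⟨b.1, m, e⟩ (a.2 c hc) (smul_pt.2 (Fx_le a.2)))
  have gM := Fx_le hg.1
  obtain ⟨Q, _, _, f, hf, hk⟩ := exists_quo0 (Op_nrm {2}ᶜ M)
  replace hk : up f ⊥ = O2 M := hk
  have c1 : f ⟨g, gM⟩ ∈ down f (M ⊓ 𝒞 A) := by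
    rw [(ca_ker hk (U.AM hU) h.elem.pgroup).down_cent_ker (U.AM hU) le_rfl (up_le _ _)]
    refine ⟨mem_down_of_mem gM, (down_le_cent_iff (zpowers_le.2 gM)
      (U.AM hU)).2 ?_ (mem_down_of_mem (x := ⟨g, gM⟩) (mem_zpowers g))⟩
    refine hk ▸ le_of_cop_ri (sup_le (le_norm _) AW) (comm_le_of_le_of_norm' le_sup_right
      ((zpowers_le.2 gM).trans nA)) ?_
    rw [ri_sup AW]
    exact (cop_of_pgroup Nat.prime_two h.elem.pgroup (odd_of_le o (le_inf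
      (comm_le_of_le_of_norm' le_sup_right ((zpowers_le.2 gM).trans nA))
      (comm_le_of_le_of_norm (zpowers_le.2 hg.1) ((h.AC hu).trans le_norm_Fx)))).not_two_dvd_nat
      ).symm.coprime_dvd_right (ri_dvd_card _ _)
  obtain ⟨c, c2, c3⟩ := exists_of_mem_down c1
  have c4 : (c : G)⁻¹ * g ∈ O2 M := hk ▸ (coe_mem_up (x := c⁻¹ * ⟨g, gM⟩)).2 (by simp [c3])
  have r1 := conj_mem_of_norm hg.2 hr
  have r2 : g * r * g⁻¹ * r⁻¹ ∈ O2 M ⊔ A := by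
    have := mul_mem (conj_mem_of_norm (nA c.2) (mem_sup_left (T := A) (mul_mem c4
      (conj_mem_of_norm (nW (h.VM hr.1)) (inv_mem c4))))) (h.zs c2.2 hr.1)
    convert this using 1; group
  have r3 := mul_mem r1 (inv_mem hr)
  exact (Cx.comm_of_c (by_contra fun i => Ivo.not_mem ⟨i, h.vv r3.1⟩ o ⟨r2, r3.2⟩)).symm

theorem o1 (hu : u ∈ V) (uA : u ∉ A) (h1 : X ≤ 𝒞₁ u) (ho : Odd ♯X) (hn : V ≤ 𝒩 X) :
    X ≤ Fx M (𝒞₁ u) :=
  h.o1' hu uA (self_mem_cent1 _) (h.cne hu uA) (h.AC hu) (h.nle hu uA) h1 ho (h.AV.trans hn)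

theorem noX (hu : u ∈ V) (uA : u ∉ A) (ha : a ∈ A) (a1 : a ≠ 1) (h0 : X ≤ M) (h1 : 𝒞₁ u ≤ 𝒩 X)
    (h2 : 𝒞₁ (u * a) ≤ 𝒩 X) : X = ⊥ := by_contra fun e => by
  obtain ⟨b, b1, b2⟩ := h.o2 hu uA (h1 (self_mem_cent1 u)) (U.norm_ne h.toUG e h0) ((h.AC hu).trans h1)
    (fun i => h.nle hu uA (h1.trans i)) (h1 (self_mem_cent1 u)) (h.vv hu) (h.sA (h.VS hu))
  obtain rfl := U.inf_Fx h.toUG (h.nle hu uA) b1 fun c hc => fix_mul (h.mem_Fx hu c hc) (b2 c (h1 hc))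
  obtain ⟨u1, u2⟩ := h.mulA hu uA ha
  exact a1 (U.inf_Fx h.toUG (h.nle u1 u2) ha fun c hc =>
    fix_mul (by simpa using b2 c (h2 hc)) (h.mem_Fx u1 c hc))

theorem leW (h1 : X ≤ O2 M ⊔ V) (ho : Odd ♯X) : X ≤ O2 M := by
  have n := h.VM.trans (Op_nrm {2}ᶜ M).norm
  refine le_of_cop_ri (sup_le (le_norm _) n) h1 ?_
  rw [ri_sup n]
  exact (cop_of_pgroup Nat.prime_two h.pV ho.not_two_dvd_nat).symm.coprime_dvd_right
    (ri_dvd_card _ _)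

theorem hall (hu : u ∈ V) (uA : u ∉ A) (hp : p.Prime) (hd : p ∣ ♯(O2 (Fx M (𝒞₁ u)))) :
    ∃ P, IsSyl p P (O2 M) ∧ V ≤ 𝒩 P ∧ P ≤ Fx M (𝒞₁ u) := by
  have := Fact.mk hp
  have nX := le_norm_Op {2}ᶜ (le_norm_Fx (M := M) (H := 𝒞₁ u))
  have oX := odd_O2 (Fx M (𝒞₁ u))
  have XM := (Op_le {2}ᶜ _).trans (Fx_le (M := M) (H := 𝒞₁ u))
  have nW := (Op_nrm {2}ᶜ M).norm
  obtain ⟨P, hP, n⟩ := (h.ca oX ((h.VC hu).trans nX)).exists_syl hp
  have fr : ∀ c ∈ 𝒞₁ u, ∃ g ∈ 𝒩 P, g • pt M = c • pt M := fun c hc => by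
    obtain ⟨g, hg, x, hx, rfl⟩ := hP.frattini' (nX hc)
    exact ⟨g, hg, by rw [mul_smul, smul_pt.2 (XM hx)]⟩
  have oK : Odd ♯(O2 M ⊔ P) := Odd.of_dvd_nat ((odd_O2 M).mul (odd_of_le oX hP.le))
    (card_sup_dvd ((hP.le.trans XM).trans nW))
  obtain ⟨T, hT, n1, le⟩ := (h.ca oK (le_norm_sup (h.VM.trans nW) n)).exists_syl_ge hp hP.isPGroup
    le_sup_right n
  have n2 := le_norm_inf n1 (le_norm_norm n)
  have o2 := odd_of_le oK ((inf_le_left : T ⊓ 𝒩 P ≤ T).trans hT.le)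
  obtain rfl := (nil_of_pgroup hp hT.isPGroup).eq_of_norm_le le (hP.eq_of_le
    (hT.isPGroup.to_le inf_le_left) (le_inf le (le_norm P)) (h.abO hu uA ((h.o1' hu uA (n hu)
      (U.norm_ne h.toUG (hP.ne_bot hd) (hP.le.trans XM)) (h.AV.trans n) (fun i => h.nle hu uA
        fun c hc => by
          obtain ⟨g, hg, e⟩ := fr c hc
          exact smul_pt.1 (e ▸ smul_pt.2 (i hg))) inf_le_right o2 (h.AV.trans n2)).trans
      fun x hx c hc => by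
        obtain ⟨g, hg, e⟩ := fr c hc
        exact e ▸ hx g hg) o2)).le
  exact ⟨_, hT.inf le_sup_left ((hP.le.trans XM).trans nW), le_norm_inf n (h.VM.trans nW),
    inf_le_left.trans (hP.le.trans (Op_le _ _))⟩

theorem oG_le (hu : u ∈ V) (uA : u ∉ A) (ha : a ∈ A) :
    O2 (Fx M (𝒞₁ u)) ≤ O2 (Fx M (𝒞₁ (u * a))) := by
  obtain ⟨u1, u2⟩ := h.mulA hu uA ha
  have nG := (h.VC hu).trans (le_norm_Fx (M := M) (H := 𝒞₁ u))
  have nX := le_norm_Op {2}ᶜ nG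
  have oX := odd_O2 (Fx M (𝒞₁ u))
  have XM := (Op_le {2}ᶜ _).trans (Fx_le (M := M) (H := 𝒞₁ u))
  have nW := (Op_nrm {2}ᶜ M).norm
  have w : O2 M ⊓ Fx M (𝒞₁ u) ≤ Fx M (𝒞₁ (u * a)) := le_of_forall_syl fun p hp hd => by
    have := Fact.mk hp
    obtain ⟨P, hP, n, le⟩ := h.hall hu uA hp (hd.trans (card_dvd (h.abO hu uA inf_le_right
      (odd_of_le (odd_O2 M) inf_le_left))))
    obtain ⟨s, s1, s2⟩ := h.onto u hu uA a ha
    have sM := U.SM h.toUG s1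
    obtain ⟨c, c1, c2⟩ := (h.ca (odd_O2 M) (h.VM.trans nW)).syl_conj hp (hP.cj_of_mem (nW sM)) hP
      (by rw [← cj_norm]; exact (cj_eq_of_mem_norm (norm_of_mV h.mV (le_norm S s1))).ge.trans (cj_mono s n)) n
    refine ⟨P, hP.mono (le_inf hP.le le) inf_le_left, ?_⟩
    rw [← c2, ← cj_eq_of_mem_norm (le_norm_Fx (cent_le_cent1 u1 c1.2))]
    exact cj_mono c (cj_le_iff_forall.2 fun x hx => s2 ▸ conj_Fx sM (le hx))
  refine h.abO u1 u2 ((h.ca oX nX).comm_sup_cent.ge.trans (sup_le ((le_inf (h.leW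
    (comm_le_of_le_of_norm le_sup_right (XM.trans h.nWV)) (odd_of_le oX (comm_le_left nX)))
    ((comm_le_left nX).trans (Op_le _ _))).trans w) (h.o1 u1 u2 (inf_le_right.trans
      (cent_le_cent1 u1)) (odd_of_le oX inf_le_left) ?_))) oX
  exact le_norm_inf nX (le_norm_cent (le_norm V))

theorem oG (hu : u ∈ V) (uA : u ∉ A) : O2 (Fx M (𝒞₁ u)) = ⊥ := by
  obtain ⟨a, ha, a1⟩ := U.exA h.toUG
  obtain ⟨u1, u2⟩ := h.mulA hu uA ha
  have := h.oG_le u1 u2 ha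
  rw [mul_assoc, U.aa h.toUG ha, mul_one] at this
  exact h.noX hu uA ha a1 ((Op_le _ _).trans Fx_le) (le_norm_Op _ le_norm_Fx)
    (le_antisymm (h.oG_le hu uA ha) this ▸ le_norm_Op _ le_norm_Fx)

theorem eq_bot (hu : u ∈ V) (uA : u ∉ A) (h1 : X ≤ 𝒞₁ u) (ho : Odd ♯X) (hn : V ≤ 𝒩 X) : X = ⊥ :=
  eq_bot_of_le (h.oG hu uA) (h.abO hu uA (h.o1 hu uA h1 ho hn) ho)

theorem cW (hu : u ∈ V) (uA : u ∉ A) : O2 M ⊓ 𝒞₁ u = ⊥ :=
  h.eq_bot hu uA inf_le_right (odd_of_le (odd_O2 M) inf_le_left)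
    (le_norm_inf (h.VM.trans (Op_nrm _ M).norm) (le_norm_cent1 (h.VC hu)))

theorem invW (hu : u ∈ V) (uA : u ∉ A) (hx : x ∈ O2 M) : u * x * u⁻¹ = x⁻¹ :=
  inverts_of_fpf ((Op_nrm _ M).norm (h.VM hu)) (fun y _ => by rw [h.vv hu, one_mul, mul_one])
    (fun _ a b => eq_one_of_mem (h.cW hu uA) ⟨a, mem_cent1.2 b.symm⟩) x hx

theorem cW' (hu : u ∈ V) (uA : u ∉ A) (hv : v ∈ V) (vA : v ∉ A) : u * v ∈ 𝒞 (O2 M) :=
  mem_cent.2 fun x hx => by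
    have := h.invW hu uA (inv_mem hx)
    rw [← h.invW hv vA hx, h.invW hv vA hx, inv_inv] at this
    nth_rewrite 1 [← this, ← h.invW hv vA hx]
    group

theorem AW : A ≤ 𝒞 (O2 M) := fun a ha => by
  obtain ⟨v, hv, vA, -⟩ := h.tor
  obtain ⟨u1, u2⟩ := h.mulA hv vA ha
  have := h.cW' hv vA u1 u2
  rwa [← mul_assoc, h.vv hv, one_mul] at this

theorem MN : M ≤ 𝒩 A := h.mo.trans (sup_le (le_norm_of_le_cent (cent_symm h.AW)) le_rfl)

theorem cenI (z2 : z * z = 1) (h1 : z • γ = γ) (hx : InI A x) (h2 : x • γ = γ) :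
    z * x = x * z := by
  obtain ⟨g, rfl, hg⟩ := U.move h.toUG (card_zp2 z2) fun x hx =>
    (zpowers_le.2 (mem_stabilizer_iff.2 h1) hx : x ∈ stabilizer G γ)
  have i := ini_conj hx g⁻¹
  have := U.memA h.toUG (pgroup_sup (zpowers_le.2 (h.MN (by simpa using fix_iff.1 h2))) h.elem.pgroup
    (card_zp2 (U.ii h.toUG i))) le_sup_left i (mem_sup_right (mem_zpowers _))
  simpa [mul_assoc] using Cx.conj_comm g (mem_cent.1 (h.sA (hg z (mem_zpowers z))) _ this).symm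

variable (hv : v ∈ V) (vA : v ∉ A) (w2 : ∀ u ∈ V, u ∉ A → v * u ∈ A)
include hv vA w2

omit hv vA in
theorem gam (hu : u ∈ V) (uA : u ∉ A) (hx : x ∈ Fx M (𝒞₁ u)) : x = 1 ∨ x = u := by
  have o := fun a => U.inf_Fx (a := a) h.toUG (h.nle hu uA)
  have r : ∀ x ∈ V ⊓ Fx M (𝒞₁ u), x = 1 ∨ x = u := fun x hx => by
    by_cases i : x ∈ A
    · exact .inl (o x i hx.2)
    · exact .inr (inv_mul_eq_one.1 (o _ (by
        simpa [mul_assoc] using mul_mem (inv_mem (w2 u hu uA)) (w2 x hx.1 i))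
        (mul_mem (inv_mem (h.mem_Fx hu)) hx.2))).symm
  have := (npc_sd Nat.prime_two (burnside Nat.prime_two (h.sylR hu uA) fun g hg =>
    mem_cent.2 fun y hy => by
      rcases r y hy with rfl | rfl
      · simp
      · exact (mul_inv_eq_iff_eq_mul.1 ((r _ (conj_mem_of_norm hg.2 hy)).resolve_left
          (conj_ne_one (fun e => uA (by rw [e]; exact one_mem _)) g))).symm) (h.sylR hu uA)).mem hx
  obtain ⟨a, a1, b, b1, rfl⟩ := this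
  rw [eq_one_of_mem (h.oG hu uA) a1, one_mul]
  exact r b b1

omit w2 in
theorem exL : ∃ L k, 𝒞₁ v ≤ 𝒩 L ∧ L ≤ 𝒞₁ v ∧ ¬ L ≤ M ∧ SzP L (S ⊓ 𝒞₁ v ⊓ L) k ∧
    A = 𝒵 (S ⊓ 𝒞₁ v ⊓ L) := by
  have a := le_inf h.sc.le (h.AC hv)
  have s1 := h.syl1 v hv vA
  obtain ⟨Q, _, _, f, L, κ, hf, hk, hL, p, e, -, cA, -, i⟩ := h.kh hv vA (self_mem_cent1 _)
    (h.cne hv vA) s1 a (h.nle hv vA)
  replace hk := hk.trans (h.eq_bot hv vA (Op_le _ _) (odd_O2 _)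
    (le_norm_Op _ ((h.VC hv).trans (le_norm _))))
  have n := le_normalizer_up f L
  have s2 := s1.inf (up_le f L) (s1.le.trans n)
  obtain ⟨k, q⟩ := k0 G (up f L) _ (iso_up hf hk i) s2
  have e1 : A = 𝒵 (S ⊓ 𝒞₁ v ⊓ up f L) := le_antisymm (fun x hx => (szp_mem q).2
    ⟨⟨a hx, (down_le_iff' (h.AC hv)).1 (e.le.trans (inf_le_left.trans inf_le_right)) hx⟩,
      U.aa h.toUG hx⟩) fun x hx => by
    obtain ⟨x1, x2⟩ := (szp_mem q).1 hx
    refine up_le_of_le_down (f := f) (h.AC hv) (hk ▸ bot_le) e.ge ((coe_mem_up (x := ⟨x, x1.1.2⟩)).2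
      ((szp_mem p).2 ⟨⟨mem_down_of_mem x1.1, coe_mem_up.1 x1.2⟩, Cx.f_sq x2⟩))
  refine ⟨_, k, n, up_le f L, fun j => h.nle hv vA fun g hg => ?_, q, e1⟩
  obtain ⟨l, hl, m, hm, rfl⟩ := s2.frattini (n hg)
  exact mul_mem (j hl) (h.nA (e1 ▸ norm_le_norm_ctr _ hm))

theorem cenT : ∀ s ∈ S ⊓ 𝒞₁ v, s ∈ 𝒞 (O2 M) ∨ s * v ∈ 𝒞 (O2 M) := by
  have hU := h.toUG
  obtain ⟨L, k, n1, n2, n3, q, e⟩ := h.exL hv vA
  have TL : S ⊓ 𝒞₁ v ⊓ L ≤ L := inf_le_right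
  have TM : S ⊓ 𝒞₁ v ⊓ L ≤ M := inf_le_left.trans (inf_le_left.trans (U.SM hU))
  have eT : ∀ x ∈ S ⊓ 𝒞₁ v, x ∈ L → x ∈ S ⊓ 𝒞₁ v ⊓ L := fun _ a b => ⟨a, b⟩
  generalize S ⊓ 𝒞₁ v ⊓ L = T at q e TL TM eT
  have nW := (Op_nrm {2}ᶜ M).norm
  have NM : 𝒩 T ≤ M := ((norm_le_norm_ctr T).trans (e ▸ le_rfl)).trans h.nA
  have HL : ∀ c ∈ 𝒞₁ v, ∃ l ∈ L, l • pt M = c • pt M := fun c hc => by
    obtain ⟨l, hl, n, hn, rfl⟩ := q.syl.frattini (n1 hc)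
    exact ⟨l, hl, by rw [mul_smul, smul_pt.2 (NM hn)]⟩
  have LM : L ⊓ M ≤ 𝒩 T := (q.mx _ (le_inf TL TM) inf_le_left).resolve_right
    fun i => n3 (i.ge.trans inf_le_right)
  have AL : A ≤ L := e.le.trans (inf_le_left.trans TL)
  obtain ⟨w, w1, ww, w3, w4⟩ := q.wl
  have wM : w • pt M ≠ pt M := fun i => w3 (LM ⟨w1, smul_pt.1 i⟩)
  have semi : ∀ t ∈ T, t • w • pt M = w • pt M → t = 1 := fun t ht i => by
    have j : ∀ a ∈ 𝒵 T, a • w • pt M = w • pt M → a = 1 := fun a ha i => by_contra fun j =>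
      wM (U.uA hU (e ▸ ha) j i)
    exact j t ((szp_mem q).2 ⟨ht, j _ (q.s2g.sq t ht) (by rw [mul_smul, i, i])⟩) i
  have kN : zpowers k ≤ 𝒩 T := zpowers_le.2 q.s2g.kT
  have yw : ∀ y ∈ zpowers k, y • w • pt M = w • pt M := fun y hy => fix_iff.2 (by
    have := inverts_of_mem_zpowers (v := w⁻¹) (x := k) (by
      rw [← w4, inv_inv, inv_eq_of_mul_eq_one_left ww]) hy
    rw [inv_inv] at this
    exact this ▸ inv_mem (NM (kN hy)))
  have fix : ∀ y ∈ zpowers k, y ≠ 1 → ∀ γ : G ⧸ M, y • γ = γ → γ = pt M ∨ γ = w • pt M := by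
    intro y hy y1 γ i
    have yL := zpowers_le.2 q.kL hy
    have yv := mem_cent1.1 (n2 yL)
    by_cases j : v • γ = γ
    · obtain ⟨c, hc, rfl⟩ := h.trans0 hv j
      obtain ⟨l, hl, e1⟩ := HL c hc
      rw [← e1] at i ⊢
      refine or_iff_not_imp_left.2 fun l1 => ?_
      obtain ⟨t, ht, e2⟩ := q.rb.two l hl w w1 (fun a => l1 (smul_pt.2 (NM a))) w3
      have e3 : t • w • pt M = l • pt M := by
        rw [← inv_smul_eq_iff, ← mul_smul, ← mul_smul, smul_pt.2 (NM e2)]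
      have e4 := semi _ (mul_mem (inv_mem ht) (conj_mem_of_norm (kN hy) ht)) (by
        rw [mul_smul, mul_smul, yw _ (inv_mem hy), mul_smul, e3, i, ← e3, inv_smul_smul])
      rw [← e3, (reg_iff.1 (reg_k q) y hy t ht (by
        rw [← mul_inv_eq_iff_eq_mul.1 (inv_mul_eq_one.1 e4).symm])).resolve_left y1, one_smul]
    · obtain ⟨x, hx, x1⟩ := U.exI hU γ
      obtain ⟨c, c1, c2, c3, -⟩ := U.dih hU (h.vv hv) (h.nI hv vA) hx x1 j
      have e1 : v * (y * c * y⁻¹) = y * (v * c) * y⁻¹ := by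
        rw [← mul_assoc, ← mul_assoc, ← yv, mul_assoc y]
      have := U.dih_uniq hU (h.vv hv) (h.nI hv vA) hx x1 j (ini_conj c1 y)
        (mem_cent1.1 (mul_mem (mul_mem (n2 yL) (mem_cent1.2 c2.symm)) (inv_mem (n2 yL)))).symm
        (h.cenI (e1 ▸ Cx.conj_sq y (by
          rw [mul_assoc, ← mul_assoc c, ← c2, mul_assoc, U.ii hU c1, mul_one, h.vv hv]))
          (by rw [e1, ← i, fix_conj]; exact U.cfix hU hx x1 c3) hx x1) c1 c2 c3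
      obtain ⟨g, g1, g2⟩ := h.conjA hv vA c1 c2
      exact (y1 (eq_one_k q (n1 g1) hy (e ▸ g2) c1.1 (mul_inv_eq_iff_eq_mul.1 this))).elim
  have reg : Reg (O2 M) (zpowers k) := reg_iff.2 fun y hy x hx i => by
    by_contra! j
    have xM := Op_le _ _ hx
    have ox := odd_of_mem (odd_O2 M) hx
    have x1 : w⁻¹ * x * w ∈ M := fix_iff.1 ((fix y hy j.1 _ (fix_comm (yw y hy) i)).resolve_left
      fun a => wM ((smul_left_cancel_iff x).1 (a.trans (smul_pt.2 xM).symm)))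
    have wv := mem_cent1.1 (n2 w1)
    have x2 : w⁻¹ * x * w ∈ O2 M := by
      have o : Odd (orderOf (w⁻¹ * x * w)) := by
        rwa [← H7.orderOf_conj' w⁻¹ x, inv_inv] at ox
      have := mul_mem (mem_sup_right hv : v ∈ O2 M ⊔ V)
        (conj_mem_of_norm (h.nWV x1) (inv_mem (mem_sup_right hv : v ∈ O2 M ⊔ V)))
      rw [show v * (w⁻¹ * x * w * v⁻¹ * (w⁻¹ * x * w)⁻¹) = (w⁻¹ * x * w)⁻¹ * (w⁻¹ * x * w)⁻¹ by
        rw [← mul_assoc, mul_right_cancel_iff, mul_inv_rev, mul_inv_rev, inv_inv, ← h.invW hv vA hx,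
          ← mul_assoc, ← mul_assoc, ← mul_assoc, (Commute.inv_left wv).symm.eq, mul_assoc _ w,
          (Commute.inv_right wv).eq]
        group] at this
      exact h.leW (zpowers_le.2 (inv_mem_iff.1 (BS.mem_of_sq_mem (by rwa [orderOf_inv]) this)))
        (by rwa [card_zpow]) (mem_zpowers _)
    have n : ∀ a ∈ 𝒞₁ x, a ∈ 𝒩 (zpowers x) := fun a ha => cent_le_norm _ (cent_zpowers x ▸ ha)
    have H0 := mem_normalizer_zpowers_of_inverts (h.invW hv vA hx)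
    have H1 := U.norm_ne hU (ne_bot_of_mem (mem_zpowers x) j.2) (zpowers_le.2 xM)
    have H2 : A ≤ 𝒩 (zpowers x) := fun a ha => n a (cent_le_cent1 hx (h.AW ha))
    have H3 : ¬ 𝒩 (zpowers x) ≤ M := fun a => by
      obtain ⟨b, b1, b2⟩ := U.exA hU
      have := mem_cent1_conj (g := w).2 (cent_le_cent1 x2 (h.AW b1))
      exact wM (U.uniq hU (ini_conj (ini_of_mem b1 b2) w) (fix_conj.2 (smul_pt.2 (U.AM hU b1)))
        (smul_pt.2 (a (n _ (by simpa [mul_assoc] using this)))))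
    obtain ⟨a, a1, a2⟩ := h.o2 hv vA H0 H1 H2 H3 H0
      (h.vv hv) (h.sA (h.VS hv))
    obtain ⟨u1, u2⟩ := h.mulA hv vA a1
    rcases h.gam w2 u1 u2 (h.orb_eq hv vA H0 (h.VC u1 hv) H1 H2 H3 (h.cne u1 u2) (h.AC u1) (h.nle u1 u2)
      (fun g hg => h.trans0 u1 (a2 g hg)) (h.o1' hv vA H0 H1 H2 H3 (le_norm _) (card_zpow x ▸ ox) H2
        (mem_zpowers x))) with b | b
    · exact j.2 b
    · exact (show Ivo x from ⟨j.2, b ▸ h.vv u1⟩).not_odd ox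
  have k1 : zpowers k ≠ ⊥ := ne_bot_of_card fun i => by
    have := q.ord
    have := szp_card q
    rw [card_zpow] at i; omega
  have := SFx.wie kN (reg_k q) (ne_bot_of_le (ne_bot_of_card fun i => by
    have := szp_card q; omega) (inf_le_left : 𝒵 T ≤ T)) k1 (TM.trans nW) ((kN.trans NM).trans nW)
    (cop_of_pgroup Nat.prime_two q.syl.isPGroup (odd_O2 M).not_two_dvd_nat).symm
    (reg.cop ((kN.trans NM).trans nW)) (oddOrder _ (odd_O2 M))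
  rw [reg.cent_eq_bot le_rfl k1, relIndex_bot_right, one_pow, one_mul] at this
  have TW := cent_symm ((eq_of_card_le inf_le_left this.le).ge.trans inf_le_right)
  intro s hs
  obtain ⟨n, hn⟩ := isPGroup_iff_forall.1 h.syl.isPGroup s hs.1
  obtain ⟨l, hl, c, hc, rfl⟩ := (mem_sup_l (cent_le_norm L)).1 (q.aut2 s (n1 hs.2) ⟨n, hn⟩)
  rcases h.gam w2 hv vA (x := c) (fun g hg => by
    obtain ⟨l, hl, i⟩ := HL g hg
    rw [← i, ← mul_smul, ← mem_cent.1 hc l hl, mul_smul, smul_pt.2 (h.nA (cent_le_norm _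
      (cent_anti AL hc)))]) with rfl | rfl
  · exact .inl (TW (eT _ hs (mul_mem hl (one_mem _))))
  · refine .inr (TW (eT _ (mul_mem hs ⟨h.VS hv, self_mem_cent1 _⟩) ?_))
    rwa [mul_assoc, h.vv hv, mul_one]

theorem case2 (k1 : k ∈ 𝒩 S) (k2 : k * v = v * k)
    (tr : ∀ a ∈ A, ∀ b ∈ A, a ≠ 1 → b ≠ 1 → ∃ n : ℕ, k ^ n * a * (k ^ n)⁻¹ = b) : O2 M = ⊥ := by
  have hU := h.toUG
  have SM := U.SM hU
  have nW := (Op_nrm {2}ᶜ M).norm
  obtain ⟨Q, _, _, f, hf, hk⟩ := exists_quo0 (Op_nrm {2}ᶜ M).cent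
  have k0 : ∀ x : M, f x = 1 ↔ (x : G) ∈ 𝒞 (O2 M) := fun x => by
    rw [← mem_bot, ← coe_mem_up, hk]; exact ⟨fun i => i.2, fun i => ⟨x.2, i⟩⟩
  obtain ⟨v, vM, rfl⟩ : ∃ (y : M) (_ : True), (y : G) = v := ⟨⟨v, h.VM hv⟩, trivial, rfl⟩
  obtain ⟨k, kM, rfl⟩ : ∃ (y : M) (_ : True), (y : G) = k :=
    ⟨⟨k, h.nA (h.sc.norm_le ⟨trivial, k1⟩)⟩, trivial, rfl⟩
  have cv : ∀ d, f v * d = d * f v := fun d => by
    obtain ⟨m, rfl⟩ := hf d
    have := (k0 ⁅m, v⁆).2 (SFx.inv_cent (h.vv hv) (odd_O2 M) (nW v.2) (h.cW hv vA) nW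
      (commutator_mem_commutator m.2 (mem_zpowers _)))
    rw [map_commutatorElement, commutatorElement_eq_one_iff_mul_comm] at this
    exact this.symm
  have v2 : f v * f v = 1 := by
    rw [← map_mul, show v * v = 1 from Subtype.ext (h.vv hv), map_one]
  have c1 : ∀ s : M, (s : G) ∈ S → (s : G) * v = v * s → f s = 1 ∨ f s = f v := fun s a b =>
    (h.cenT hv vA w2 s ⟨a, mem_cent1.2 b⟩).imp (k0 s).2 fun i => by
      rw [← mul_one (f s), ← v2, ← mul_assoc, ← map_mul, (k0 (s * v)).2 i, one_mul]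
  have sA : ∀ s ∈ S, ∀ a ∈ A, s * a * s⁻¹ = a := fun s hs a ha => by
    rw [← mem_cent.1 (h.sA hs) a ha, mul_inv_cancel_right]
  have mul : ∀ s ∈ S, ∀ t a b, b ∈ A → s * v * s⁻¹ = v * a → t * v * t⁻¹ = v * b →
      s * t * v * (s * t)⁻¹ = v * (a * b) := fun s hs t a b hb i j => by
    rw [← mul_assoc (v : G), ← i, ← sA s hs b hb, mul_assoc s t, mul_inv_rev, ← mul_assoc _ t⁻¹,
      mul_assoc s, j]
    group
  have ex : ∀ s ∈ S, ∃ a ∈ A, s * v * s⁻¹ = v * a := fun s hs => ⟨_, h.cm v hv s hs, by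
    rw [← mem_cent.1 (h.sA (h.VS hv)) _ (h.cm v hv s hs), inv_mul_cancel_right]⟩
  have sq : ∀ s : M, (s : G) ∈ S → f s * f s = 1 ∨ f v = 1 := fun s hs => by
    obtain ⟨a, ha, e⟩ := ex s hs
    by_cases a1 : a = 1
    · rw [a1, mul_one, mul_inv_eq_iff_eq_mul] at e
      exact .inl (map_mul f s s ▸ (k0 _).2 (h.AW (h.sq v hv vA s hs e)))
    have e1 := mul s hs s a a ha e e
    rw [U.aa hU ha, mul_one, mul_inv_eq_iff_eq_mul] at e1
    refine (c1 (s * s) (mul_mem hs hs) e1).imp (map_mul f s s ▸ id) fun e2 => ?_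
    have all : ∀ t : M, (t : G) ∈ S → ∀ b ∈ A, b ≠ 1 → t * v * (t : G)⁻¹ = v * b →
        f t ^ 2 = f v := fun t ht b hb b1 e3 => by
      obtain ⟨n, hn⟩ := tr a ha b hb a1 b1
      have kv : (k : G) ^ n * v = v * k ^ n := (Commute.pow_left k2 n).eq
      have := c1 ((k ^ n * s * (k ^ n)⁻¹)⁻¹ * t)
        (S.mul_mem (S.inv_mem (conj_mem_of_norm (pow_mem k1 n) hs)) ht) (Cx.comm_of_conj_eq (by
          rw [e3, ← hn, ← mul_assoc, ← mul_assoc, ← kv, mul_assoc _ (v : G) a, ← e]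
          push_cast
          rw [mul_assoc _ _ (v : G), (Commute.inv_left kv).eq]
          group))
      have e4 : f (k ^ n * s * (k ^ n)⁻¹) ^ 2 = f v := by
        rw [← map_pow, conj_pow, pow_two, map_mul, map_mul, e2, ← cv, map_inv, mul_inv_cancel_right]
      rw [map_mul, map_inv] at this
      rcases this with i | i
      · rw [← inv_mul_eq_one.1 i, e4]
      · rw [inv_mul_eq_iff_eq_mul.1 i, Commute.mul_pow (cv _).symm 2, e4, pow_two, v2, mul_one]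
    obtain ⟨x, x1, y, y1, z, z1, n1, n2, n3, n4, n5, n6, n7⟩ := seven h.big
    obtain ⟨r, r1, r2⟩ := h.onto v hv vA x x1
    obtain ⟨t, t1, t2⟩ := h.onto v hv vA y y1
    obtain ⟨w, w1, w2⟩ := h.onto v hv vA z z1
    have rt := mul r r1 t x y y1 r2 t2
    rw [← all (⟨r, SM r1⟩ * ⟨t, SM t1⟩ * ⟨w, SM w1⟩) (mul_mem (mul_mem r1 t1) w1) _
      (mul_mem (mul_mem x1 y1) z1) n7 (mul _ (mul_mem r1 t1) w _ z z1 rt w2), map_mul, map_mul]
    exact sq_seven cv ((pow_two _).trans v2) (all _ r1 x x1 n1 r2) (all _ t1 y y1 n2 t2)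
      (all _ w1 z z1 n3 w2)
      (map_mul f _ _ ▸ all (⟨r, SM r1⟩ * ⟨t, SM t1⟩) (mul_mem r1 t1) _ (mul_mem x1 y1) n4 rt)
      (map_mul f _ _ ▸ all (⟨r, SM r1⟩ * ⟨w, SM w1⟩) (mul_mem r1 w1) _ (mul_mem x1 z1) n5
        (mul r r1 w x z z1 r2 w2))
      (map_mul f _ _ ▸ all (⟨t, SM t1⟩ * ⟨w, SM w1⟩) (mul_mem t1 w1) _ (mul_mem y1 z1) n6
        (mul t t1 w y z z1 t2 w2))
  refine eq_bot_of_le (h.cW hv vA) (le_inf le_rfl (le_cent1_iff.2 ((k0 v).1 (by_contra fun i => i ?_))))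
  have ab : Abel (down f S) := fun x hx => mem_cent.2 fun y hy => by
    have : ∀ x ∈ down f S, x⁻¹ = x := by
      rintro _ ⟨s, hs, rfl⟩
      exact inv_eq_of_mul_eq_one_left ((sq s hs).resolve_right i)
    rw [← this _ (mul_mem hy hx), mul_inv_rev, this x hx, this y hy]
  have le : S ≤ ⁅M, M⁆ := (syl_le_iff Nat.prime_two (U.syM hU) (der_nrm M)).2 fun j => by
    obtain ⟨N, -, n1, n2⟩ := exists_nrm_ri_eq Nat.prime_two j
    exact h.two N (n1.le.trans h.MN) (le_antisymm h.MN h.nA ▸ n2)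
  have := mem_der_of_central (down_top hf ▸ (U.syM hU).down f le_rfl) (mem_down_of_mem (h.VS hv))
    (mem_center_iff.2 fun d => (cv d).symm) (by
      rw [_root_.commutator_def, ← down_top hf, ← down_commutator f le_rfl le_rfl]
      exact mem_down_of_mem (le (h.VS hv)))
  rwa [abel_iff_der.1 ab, mem_bot] at this

omit hv vA w2 in
theorem false' : False := by
  have : O2 M = ⊥ := by
    obtain ⟨v, hv, vA, k, k1, k2, tr, -⟩ := h.tor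
    by_cases w2 : ∀ u ∈ V, u ∉ A → v * u ∈ A
    · exact h.case2 hv vA w2 k1 k2 tr
    push Not at w2
    obtain ⟨u, hu, uA, e⟩ := w2
    exact eq_bot_of_le (h.cW (mul_mem hv hu) e) (le_inf le_rfl (le_cent1_iff.2 (h.cW' hv vA hu uA)))
  have n := h.nWV
  rw [this, bot_sup_eq] at n
  have m : ∀ x ∈ M, x * x = 1 → x ∈ V := fun x a b => by
    obtain ⟨g, g1, g2⟩ := (U.syM h.toUG).exists_conj_mem a ⟨1, (pow_two x).trans b⟩
    simpa [mul_assoc] using conj_mem_of_norm' (n g1) ((h.mV _).2 ⟨g2, Cx.conj_sq g b⟩)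
  exact h.step2 fun x a y b c d => h.ab.comm (m x a c) (m y b d)

end Y

theorem csz' (h : Z0 S A M) {S2 : Subgroup G} (l : T4.Loc2 A P T R S2 v k) (s : S2G A T k) : False := by
  obtain ⟨-, a, b, -⟩ := sylP h.toUG l.toLoc s
  obtain ⟨V, y⟩ := exists_Y h.toUG h.all3 (loc3 h.toUG l s) a b h.mo
  exact y.false'

end Cfsg.GS.Px
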