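import Cfsg.Agent.GS.T7
import Cfsg.Agent.GS.IR1
import Cfsg.Agent.GS.IW1
import Cfsg.Agent.GS.E3

/-! Commuting strongly closed subgroups, 1: the signalizer functor. -/

set_option autoImplicit false
set_option linter.unusedSectionVars false

namespace Cfsg.GS.PFx

open Subgroup Cfsg.L0 Cfsg.H8 Cfsg.FT Cfsg.BS Cfsg.BS.R Cfsg.GS.T3 Cfsg.GS.T4 Cfsg.GS.SFx
open scoped commutatorElement

section defs
variable {G : Type} [Group G]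

/-- `O(C(x))` -/
abbrev Oc (x : G) : Subgroup G := O2 (𝒞₁ x)

/-- two normal sets of involutions which commute modulo the core in every proper subgroup -/
structure Pr (I J : Set G) : Prop where
  ivI : ∀ s ∈ I, Ivo s
  ivJ : ∀ t ∈ J, Ivo t
  cjI : ∀ s ∈ I, ∀ g, g * s * g⁻¹ ∈ I
  cjJ : ∀ t ∈ J, ∀ g, g * t * g⁻¹ ∈ J
  loc : ∀ H : Subgroup G, H ≠ ⊤ → ∀ s ∈ I, ∀ t ∈ J, s ∈ H → t ∈ H → ⁅s, t⁆ ∈ O2 H
  neI : ∀ s ∈ I, 𝒞₁ s ≠ ⊤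
  neJ : ∀ t ∈ J, 𝒞₁ t ≠ ⊤
  neP : ∀ s ∈ I, ∀ t ∈ J, s * t = t * s → 𝒞₁ (s * t) ≠ ⊤

/-- `⟨I ∩ H⟩` -/
def JH (I : Set G) (H : Subgroup G) : Subgroup G := closure {s | s ∈ I ∧ s ∈ H}

/-- two commuting four-groups -/
structure F4 (I J : Set G) (E F : Subgroup G) : Prop extends Pr I J where
  elE : Elem 2 E
  elF : Elem 2 F
  cE : ♯E = 4
  cF : ♯F = 4
  iE : ∀ a ∈ sharp E, a ∈ I
  iF : ∀ b ∈ sharp F, b ∈ J
  cm : E ≤ 𝒞 F

/-- members -/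
structure Mb (E F X : Subgroup G) : Prop where
  odd : Odd ♯X
  nE : E ≤ 𝒩 X
  nF : F ≤ 𝒩 X
  le : ∀ a ∈ sharp E, ∀ b ∈ sharp F, X ⊓ 𝒞₁ a ⊓ 𝒞₁ b ≤ Oc a ⊓ Oc b

/-- `W(a,b)` -/
def Wd (a b : G) : Subgroup G :=
  ⁅Oc a, zpowers b⁆ ⊔ ⁅Oc b, zpowers a⁆ ⊔ ⁅Oc (a * b), zpowers a⁆ ⊔ (Oc a ⊓ Oc b)

end defs

variable {G : Type} [Group G] [Finite G] {I J : Set G} {A B C D E F H K N U V X Y : Subgroup G}
  {a b c d g s t x y : G}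

theorem Oc_le (x : G) : Oc x ≤ 𝒞₁ x := Op_le _ _

theorem nOc (h : A ≤ 𝒞₁ x) : A ≤ 𝒩 (Oc x) := h.trans (Op_nrm _ _).norm

theorem core0 (hN : N ⊴ H) (ha : a ∈ H) (a2 : a * a = 1) (h : ⁅N, zpowers a⁆ ≤ O2 H) :
    Oc a ⊓ N ≤ O2 H ∧ ⁅Oc a ⊓ H, N⁆ ≤ O2 H := by
  have o := Op_nrm {2}ᶜ H
  have n := o.sup hN
  have z := zpowers_le.2 ha
  have e : O2 H ⊔ N ≤ O2 H ⊔ ((O2 H ⊔ N) ⊓ 𝒞₁ a) := by
    rw [← cent_zpowers]
    exact (ca2 a2 (o.norm ha) (odd_O2 H)).le_sup_cent le_sup_left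
      (H7.sup_commutator_le (le_norm _) (hN.le.trans o.norm) (o.comm_le z) h)
  have k : Oc a ⊓ (O2 H ⊔ N) ≤ O2 H := by
    have m : Oc a ⊓ (O2 H ⊔ N) ≤ 𝒩 (O2 H) := inf_le_right.trans (n.le.trans o.norm)
    refine le_sup_right.trans ((le_Op ((Op_pi _ H).sup ((Op_pi _ _).mono inf_le_left) m)
      ⟨sup_le le_sup_left inf_le_right, e.trans (sup_le (le_norm_of_le le_sup_left) ?_)⟩).trans
        (Op_le_Op_of_nrm _ n))
    exact le_norm_sup (inf_le_left.trans (n.le.trans o.norm))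
      (le_norm_inf (nOc inf_le_right) (le_norm_of_le inf_le_left))
  refine ⟨(inf_le_inf_left _ le_sup_right).trans k, (comm_mono le_rfl (le_sup_right.trans e)).trans
    (H7.commutator_sup_le (le_norm _) (inf_le_left.trans (n.le.trans o.norm))
      (comm_le_right (inf_le_right.trans o.norm)) (le_trans (le_inf ?_ ?_) k))⟩
  · exact comm_le_of_le_of_norm' inf_le_left (nOc inf_le_right)
  · exact comm_le_of_le_of_norm inf_le_left (inf_le_right.trans n.norm)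

theorem comm_le_mod (h1 : C ≤ 𝒞 X) (h2 : A ≤ 𝒩 X) (h3 : B ≤ A ⊔ C) : ⁅X, B⁆ ≤ ⁅X, A⁆ :=
  (comm_mono le_rfl h3).trans (comm_sup_of_cent h2 h1).le

theorem comm_ab (b2 : a * a = 1) (h1 : X ≤ 𝒞₁ (a * b)) (h2 : a ∈ 𝒩 X) :
    ⁅X, zpowers b⁆ ≤ ⁅X, zpowers a⁆ :=
  comm_le_mod (zpowers_le.2 (le_cent1_iff.1 h1)) (zpowers_le.2 h2) (zpowers_le.2 (by
    simpa [← mul_assoc, b2] using mul_mem (mem_sup_left (mem_zpowers a))
      (mem_sup_right (T := zpowers (a * b)) (mem_zpowers (a * b)))))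

theorem c_ab (a2 : a * a = 1) (h1 : x ∈ 𝒞₁ (a * b)) (h2 : x ∈ 𝒞₁ a) : x ∈ 𝒞₁ b := by
  rw [mem_cent1_comm] at h1 h2 ⊢
  simpa [← mul_assoc, a2] using mul_mem h2 h1

theorem four_gen (hE : Elem 2 E) (h4 : ♯E = 4) (ha : a ∈ sharp E) (hb : b ∈ sharp E) (ne : a ≠ b) :
    E ≤ zpowers a ⊔ zpowers b := by
  refine (eq_of_card_le (sup_le (zpowers_le.2 ha.1) (zpowers_le.2 hb.1)) ?_).ge
  rw [IWx.ri2 (hE.pow hb.1) (fun q => (mem_zp2 (sq1 hE ha.1) q).elim hb.2 ne.symm)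
    (hE.abel.le_norm (zpowers_le.2 ha.1) hb.1), card_zpow, hE.orderOf_eq Nat.prime_two ha.1 ha.2, h4]

theorem mem_JH (h1 : s ∈ I) (h2 : s ∈ H) : s ∈ JH I H := subset_closure ⟨h1, h2⟩

theorem cj_Wd (g a b : G) : cj g (Wd a b) = Wd (g * a * g⁻¹) (g * b * g⁻¹) := by
  simp only [Wd, cj_sup, cj_inf, cj_commutator, cj_Op, cj_cent1, cj_zpowers', conj_mul]

theorem Wd_comm (a2 : a * a = 1) (b2 : b * b = 1) (h : a * b = b * a) : Wd a b = Wd b a := by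
  have e : ⁅Oc (a * b), zpowers a⁆ = ⁅Oc (b * a), zpowers b⁆ := by
    refine le_antisymm ?_ ?_
    · rw [h]
      exact comm_ab b2 (Oc_le _) (zpowers_le.1 (nOc (zpowers_le.2 (mem_cent1.2 (by
        rw [← h, ← mul_assoc, ← h])))))
    · rw [← h]
      exact comm_ab a2 (Oc_le _) (zpowers_le.1 (nOc (zpowers_le.2 (mem_cent1.2 (by
        rw [mul_assoc, h])))))
  rw [Wd, Wd, e, sup_comm ⁅Oc a, _⁆, inf_comm]

namespace Pr
variable (h : Pr I J)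
include h

theorem symm : Pr J I := ⟨h.ivJ, h.ivI, h.cjJ, h.cjI, fun H hH s hs t ht h1 h2 => by
  rw [← commutatorElement_inv]; exact inv_mem (h.loc H hH t ht s hs h2 h1), h.neJ, h.neI,
  fun s hs t ht e => e ▸ h.neP t ht s hs e.symm⟩

theorem nrm (H : Subgroup G) : JH I H ⊴ H := ⟨(closure_le _).2 fun _ q => q.2,
  le_norm_closure fun g hg x hx => ⟨h.cjI x hx.1 g, conj_mem_of_norm (le_norm H hg) hx.2⟩⟩

theorem cJ (hH : H ≠ ⊤) : ⁅JH I H, JH J H⁆ ≤ O2 H := by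
  refine H7.commutator_closure_le fun t ht => ⟨(Op_nrm _ H).norm ht.2, fun x hx => ?_⟩
  have : ⁅zpowers t, JH I H⁆ ≤ O2 H := H7.commutator_closure_le fun s hs =>
    ⟨(Op_nrm _ H).norm hs.2, fun y hy => by
      rcases mem_zp2 (h.ivJ t ht.1).2 hy with rfl | rfl
      · simp
      · exact h.symm.loc H hH y ht.1 s hs.1 ht.2 hs.2⟩
  rw [← commutatorElement_inv]
  exact inv_mem (this (commutator_mem_commutator (mem_zpowers t) hx))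

theorem p1 (hH : H ≠ ⊤) (hX : X ≤ H) (hA : A ≤ JH I H) (hB : B ≤ JH J H) (h1 : X ≤ ⁅X, A⁆)
    (h2 : X ≤ ⁅X, B⁆) : X ≤ O2 H :=
  h2.trans ((comm_mono (h1.trans (comm_le_of_le_of_norm hA (hX.trans (h.nrm H).norm))) hB).trans
    (h.cJ hH))

theorem p2 (hH : H ≠ ⊤) (ha : a ∈ I) (h1 : a ∈ H) : ⁅Oc a ⊓ H, JH J H⁆ ≤ O2 H :=
  (core0 (h.symm.nrm H) h1 (h.ivI a ha).2 ((comm_mono le_rfl (zpowers_le.2 (mem_JH ha h1))).trans
    (h.symm.cJ hH))).2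

theorem p3 (hH : H ≠ ⊤) (ha : a ∈ I) (hb : b ∈ J) (h1 : a ∈ H) (h2 : b ∈ H) :
    Oc a ⊓ Oc b ⊓ H ≤ O2 H := by
  have o := (Op_nrm {2}ᶜ H).norm
  have n : H ⊓ H7.stab (JH I H) (O2 H) ⊴ H :=
    (Nrm.refl H).inf_norm (H7.le_normalizer_stab (h.nrm H).norm o)
  refine le_trans (le_inf (inf_le_left.trans inf_le_left) (le_inf inf_le_right ?_))
    (core0 n h1 (h.ivI a ha).2 ?_).1
  · refine H7.le_stab_iff.2 ⟨inf_le_right.trans o, ?_⟩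
    rw [Subgroup.commutator_comm]
    exact (comm_mono (inf_le_inf_right _ inf_le_right) le_rfl).trans (h.symm.p2 hH hb h2)
  · rw [Subgroup.commutator_comm]
    exact (comm_mono (zpowers_le.2 (mem_JH ha h1)) inf_le_right).trans (H7.commutator_stab_le _ _)

end Pr

theorem Mb.symm (m : Mb E F X) : Mb F E X := ⟨m.odd, m.nF, m.nE, fun a ha b hb => by
  rw [inf_right_comm, inf_comm (Oc a)]; exact m.le b hb a ha⟩

theorem Mb.sub (m : Mb E F X) (h1 : Y ≤ X) (h2 : E ≤ 𝒩 Y) (h3 : F ≤ 𝒩 Y) : Mb E F Y :=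
  ⟨odd_of_le m.odd h1, h2, h3, fun a ha b hb =>
    (inf_le_inf_right _ (inf_le_inf_right _ h1)).trans (m.le a ha b hb)⟩

namespace F4
variable (h : F4 I J E F)
include h

theorem symm : F4 J I F E := ⟨h.toPr.symm, h.elF, h.elE, h.cF, h.cE, h.iF, h.iE, cent_symm h.cm⟩

theorem el : Elem 2 (E ⊔ F) := h.elE.sup h.elF h.cm

theorem ce (hx : x ∈ E ⊔ F) : E ≤ 𝒞₁ x := le_sup_left.trans (h.el.abel.trans (cent_le_cent1 hx))

theorem cf (hx : x ∈ E ⊔ F) : F ≤ 𝒞₁ x := le_sup_right.trans (h.el.abel.trans (cent_le_cent1 hx))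

theorem two : 2 < ♯E := by rw [h.cE]; norm_num

theorem eJ (h1 : E ≤ H) : E ≤ JH I H := fun a ha => by
  by_cases q : a = 1
  · exact q ▸ one_mem _
  · exact mem_JH (h.iE a ⟨ha, q⟩) (h1 ha)

theorem comm (ha : a ∈ E) (hb : b ∈ F) : a * b = b * a := (mem_cent.1 (h.cm ha) b hb).symm

theorem ne (hx : x ∈ sharp (E ⊔ F)) : 𝒞₁ x ≠ ⊤ := by
  obtain ⟨a, ha, b, hb, rfl⟩ := (mem_sup_r (le_norm_of_le_cent h.cm)).1 hx.1
  by_cases p : a = 1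
  · subst p; rw [one_mul] at hx ⊢; exact h.neJ b (h.iF b ⟨hb, hx.2⟩)
  by_cases q : b = 1
  · subst q; rw [mul_one]; exact h.neI a (h.iE a ⟨ha, p⟩)
  exact h.neP a (h.iE a ⟨ha, p⟩) b (h.iF b ⟨hb, q⟩) (h.comm ha hb)

theorem shE (ha : a ∈ sharp E) : a ∈ sharp (E ⊔ F) := ⟨mem_sup_left ha.1, ha.2⟩

theorem shF (hb : b ∈ sharp F) : b ∈ sharp (E ⊔ F) := ⟨mem_sup_right hb.1, hb.2⟩

theorem shP (ha : a ∈ sharp E) (hb : b ∈ sharp F) : a * b ∈ sharp (E ⊔ F) :=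
  ⟨mul_mem (mem_sup_left ha.1) (mem_sup_right hb.1), fun q =>
    h.neP a (h.iE a ha) b (h.iF b hb) (h.comm ha.1 hb.1) (q ▸ cent1_one)⟩

theorem card : ♯(E ⊔ F) = 16 := by
  rw [card_sup_of_inf (le_norm_of_le_cent (cent_symm h.cm)) (eq_bot_iff.2 fun x hx => by_contra
    fun q => (h.shP ⟨hx.1, q⟩ ⟨hx.2, q⟩).2 (sq1 h.elE hx.1)), h.cE, h.cF]

/-- `Δ(a,b) ∩ C(x) ≤ O_x` -/
theorem q3 (ha : a ∈ sharp E) (hb : b ∈ sharp F) (hx : x ∈ sharp (E ⊔ F)) :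
    Oc a ⊓ Oc b ⊓ 𝒞₁ x ≤ Oc x :=
  h.p3 (h.ne hx) (h.iE a ha) (h.iF b hb) (h.ce hx.1 ha.1) (h.cf hx.1 hb.1)

theorem q1 (hx : x ∈ sharp (E ⊔ F)) (hX : X ≤ 𝒞₁ x) (h1 : X ≤ ⁅X, E⁆) (h2 : X ≤ ⁅X, F⁆) :
    X ≤ Oc x := h.p1 (h.ne hx) hX (h.eJ (h.ce hx.1)) (h.symm.eJ (h.cf hx.1)) h1 h2

theorem mle (m : Mb E F X) (hx : x ∈ sharp (E ⊔ F)) (hX : X ≤ 𝒞₁ x) : X ≤ Oc x :=
  gen1 h.elE h.two m.odd m.nE fun a ha => gen1 h.elF h.symm.two (odd_of_le m.odd inf_le_left)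
    (le_norm_inf m.nF (le_norm_cent1 (h.cf (mem_sup_left ha.1)))) fun b hb =>
      (le_inf (m.le a ha b hb) (inf_le_left.trans (inf_le_left.trans hX))).trans (h.q3 ha hb hx)

theorem mbA (ha : a ∈ sharp E) (h1 : X ≤ Oc a) (nE : E ≤ 𝒩 X) (nF : F ≤ 𝒩 X)
    (h2 : ∀ b ∈ sharp F, X ⊓ 𝒞₁ b ≤ Oc b) : Mb E F X :=
  ⟨odd_of_le (odd_O2 _) h1, nE, nF, fun c hc b hb =>
    have := (inf_le_inf_right _ (inf_le_left (b := 𝒞₁ c))).trans (h2 b hb)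
    le_inf ((le_inf (le_inf (inf_le_left.trans (inf_le_left.trans h1)) this)
      (inf_le_left.trans inf_le_right)).trans (h.q3 ha hb (h.shE hc))) this⟩

/-- the largest member in `C(a)` -/
theorem thA (ha : a ∈ sharp E) (hc : c ∈ sharp F) : Mb E F (Oc a ⊓ Oc c ⊓ 𝒞 F ⊔ ⁅Oc a, F⁆) := by
  have e1 := nOc (h.ce (mem_sup_left ha.1))
  have f1 := nOc (h.cf (mem_sup_left ha.1))
  have eF : E ≤ 𝒩 F := le_norm_of_le_cent h.cm
  have l : Oc a ⊓ Oc c ⊓ 𝒞 F ⊔ ⁅Oc a, F⁆ ≤ Oc a :=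
    sup_le (inf_le_left.trans inf_le_left) (comm_le_left f1)
  have nF : F ≤ 𝒩 (Oc a ⊓ Oc c ⊓ 𝒞 F ⊔ ⁅Oc a, F⁆) :=
    le_norm_sup (le_norm_of_le_cent (cent_symm inf_le_right)) (right_le_norm_comm _ _)
  have p : ∀ b ∈ sharp F, ⁅Oc a ⊓ 𝒞₁ b, F⁆ ≤ Oc b := fun b hb =>
    (comm_mono le_rfl (h.symm.eJ (h.cf (mem_sup_right hb.1)))).trans
      (h.p2 (h.ne (h.shF hb)) (h.iE a ha) (h.ce (mem_sup_right hb.1) ha.1))
  have q : ∀ b ∈ sharp F, ∀ c ∈ sharp F, Oc a ⊓ Oc b ⊓ 𝒞 F ≤ Oc c := fun b hb c hc =>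
    (inf_le_inf_left _ (cent_le_cent1 hc.1)).trans (h.q3 ha hb (h.shF hc))
  have r : ⁅Oc a, F⁆ ⊓ 𝒞 F ≤ Oc a ⊓ Oc c ⊓ 𝒞 F := IRx.rk2' h.elF h.symm.two (odd_O2 _) f1
    (le_norm_inf (le_norm_inf (le_norm_of_le inf_le_left)
      (nOc (inf_le_right.trans (cent_le_cent1 hc.1)))) (le_norm_of_le inf_le_right)) fun b hb b1 =>
    have u : ⁅Oc a ⊓ 𝒞₁ b, F⁆ ≤ Oc a := comm_le_of_le_of_norm' inf_le_left f1
    le_inf (le_inf (inf_le_left.trans u) ((inf_le_inf_right _ (le_inf u (p b ⟨hb, b1⟩))).trans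
      (q b ⟨hb, b1⟩ c hc))) inf_le_right
  refine h.mbA ha l (le_norm_sup (le_norm_inf (le_norm_inf e1 (nOc (h.ce (mem_sup_right hc.1))))
    (le_norm_cent eF)) (le_norm_comm e1 eF)) nF fun b hb => ?_
  refine (caE h.elF (odd_of_le (odd_O2 _) (inf_le_left.trans l)) (IRx.nCa h.elF nF hb.1)
    ).comm_sup_cent.ge.trans (sup_le ((comm_mono (inf_le_inf_right _ l) le_rfl).trans (p b hb))
    ((inf_le_inf_right _ inf_le_left).trans ?_))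
  rw [dedekind_l inf_le_right (le_norm_comm (le_norm_of_le (inf_le_left.trans inf_le_left))
    (le_norm_of_le_cent inf_le_right)), sup_eq_left.2 r]
  exact q c hc b hb

theorem thA' (ha : a ∈ sharp E) : Mb E F ⁅Oc a, F⁆ := by
  obtain ⟨c, hc, -⟩ := ex_ne h.symm.two 1
  exact (h.thA ha hc).sub le_sup_right (le_norm_comm (nOc (h.ce (mem_sup_left ha.1)))
    (le_norm_of_le_cent h.cm)) (right_le_norm_comm _ _)

theorem bigA (ha : a ∈ sharp E) :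
    ∃ T, Mb E F T ∧ T ≤ 𝒞₁ a ∧ ∀ X, Mb E F X → X ≤ 𝒞₁ a → X ≤ T := by
  obtain ⟨c, hc, -⟩ := ex_ne h.symm.two 1
  refine ⟨_, h.thA ha hc, (sup_le (inf_le_left.trans inf_le_left)
    (comm_le_left (nOc (h.cf (mem_sup_left ha.1))))).trans (Oc_le a), fun X m l => ?_⟩
  refine (caE h.elF m.odd m.nF).comm_sup_cent.ge.trans (sup_le ((comm_mono (h.mle m (h.shE ha) l)
    le_rfl).trans le_sup_right) ((le_inf (le_trans ?_ (m.le a ha c hc)) inf_le_right).trans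
      le_sup_left))
  exact le_inf (le_inf inf_le_left (inf_le_left.trans l)) (inf_le_right.trans (cent_le_cent1 hc.1))

theorem nz (ha : a ∈ E) : E ≤ 𝒩 (zpowers a) ∧ F ≤ 𝒩 (zpowers a) :=
  ⟨h.elE.abel.le_norm (zpowers_le.2 ha), le_norm_of_cent (cent_symm h.cm) (zpowers_le.2 ha)⟩

/-- `U = [X,a] = [U,E] = [U,F]` -/
theorem uu (ha : a ∈ E) (hb : b ∈ F) (ho : Odd ♯X) (nE : E ≤ 𝒩 X) (nF : F ≤ 𝒩 X)
    (h1 : X ≤ 𝒞₁ (a * b)) :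
    ⁅X, zpowers a⁆ ≤ ⁅⁅X, zpowers a⁆, E⁆ ∧ ⁅X, zpowers a⁆ ≤ ⁅⁅X, zpowers a⁆, F⁆ := by
  have z := zpowers_le.2 (nE ha)
  have e := (comm_comm z (ca2 (sq1 h.elE ha) (nE ha) ho).cop').ge
  refine ⟨e.trans (comm_mono le_rfl (zpowers_le.2 ha)), e.trans (comm_le_mod (C := zpowers (a * b))
    (zpowers_le.2 (le_cent1_iff.1 ((comm_le_left z).trans h1))) (le_norm_comm nF (h.nz ha).2)
    (zpowers_le.2 ?_))⟩
  simpa [h.comm ha hb, ← mul_assoc, sq1 h.elF hb] using mul_mem (mem_sup_left hb)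
    (mem_sup_right (S := F) (mem_zpowers (a * b)))

theorem mbD (ha : a ∈ sharp E) (hb : b ∈ sharp F) (ho : Odd ♯X) (nE : E ≤ 𝒩 X) (nF : F ≤ 𝒩 X)
    (h1 : X ≤ 𝒞₁ (a * b)) (h2 : X ⊓ 𝒞₁ a ≤ Oc a ⊓ Oc b) : Mb E F X := by
  refine ⟨ho, nE, nF, fun c hc d hd => ?_⟩
  have n : ∀ A, A ≤ 𝒩 X → A ≤ E ⊔ F → A ≤ 𝒩 (X ⊓ 𝒞₁ c ⊓ 𝒞₁ d) := fun A a1 a2 =>
    le_norm_inf (le_norm_inf a1 (le_norm_cent1 (a2.trans (sup_le (h.ce (h.shE hc).1)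
      (h.cf (h.shE hc).1))))) (le_norm_cent1 (a2.trans (sup_le (h.ce (h.shF hd).1)
        (h.cf (h.shF hd).1))))
  have l : X ⊓ 𝒞₁ c ⊓ 𝒞₁ d ≤ X := inf_le_left.trans inf_le_left
  have o := odd_of_le ho l
  have n1 := n E nE le_sup_left
  obtain ⟨u1, u2⟩ := h.uu ha.1 hb.1 o n1 (n F nF le_sup_right) (l.trans h1)
  have u := comm_le_left (zpowers_le.2 (n1 ha.1))
  refine (ca2 (sq1 h.elE ha.1) (n1 ha.1) o).comm_sup_cent.ge.trans (sup_le (le_inf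
    (h.q1 (h.shE hc) (u.trans (inf_le_left.trans inf_le_right)) u1 u2)
    (h.q1 (h.shF hd) (u.trans inf_le_right) u1 u2)) ?_)
  rw [cent_zpowers]
  have v := (inf_le_inf_right _ l).trans h2
  exact le_inf ((le_inf v (inf_le_left.trans (inf_le_left.trans inf_le_right))).trans
    (h.q3 ha hb (h.shE hc))) ((le_inf v (inf_le_left.trans inf_le_right)).trans
      (h.q3 ha hb (h.shF hd)))

theorem key1 (ha : a ∈ sharp E) (nE : E ≤ 𝒩 U) (nF : F ≤ 𝒩 U) (u1 : U ≤ ⁅U, E⁆) (u2 : U ≤ ⁅U, F⁆)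
    (h1 : U ≤ 𝒞₁ a) : Mb E F U :=
  (h.thA' ha).sub (u2.trans (comm_mono (h.q1 (h.shE ha) h1 u1 u2) le_rfl)) nE nF

theorem key2 (ha : a ∈ sharp E) (hb : b ∈ sharp F) (hc : c ∈ sharp E) (hd : d ∈ sharp F)
    (ac : a ≠ c) : E ≤ F ⊔ (zpowers (a * b) ⊔ zpowers (c * d)) := by
  refine (four_gen h.elE h.cE ha hc ac).trans (sup_le (zpowers_le.2 ?_) (zpowers_le.2 ?_))
  · simpa using mul_mem (mem_sup_right (S := F) (mem_sup_left (T := zpowers (c * d))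
      (mem_zpowers (a * b)))) (inv_mem (mem_sup_left hb.1))
  · simpa using mul_mem (mem_sup_right (S := F) (mem_sup_right (S := zpowers (a * b))
      (mem_zpowers (c * d)))) (inv_mem (mem_sup_left hd.1))

theorem key (ha : a ∈ sharp E) (hb : b ∈ sharp F) (hx : x ∈ E ⊔ F) (x1 : x ∉ zpowers (a * b))
    (ho : Odd ♯U) (nE : E ≤ 𝒩 U) (nF : F ≤ 𝒩 U) (u1 : U ≤ ⁅U, E⁆) (u2 : U ≤ ⁅U, F⁆)
    (h1 : U ≤ 𝒞₁ (a * b)) (h2 : U ≤ 𝒞₁ x) : Mb E F U := by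
  by_cases p : ∃ a ∈ sharp E, U ≤ 𝒞₁ a
  · obtain ⟨a, ha, p⟩ := p
    exact h.key1 ha nE nF u1 u2 p
  by_cases q : ∃ b ∈ sharp F, U ≤ 𝒞₁ b
  · obtain ⟨b, hb, q⟩ := q
    exact (h.symm.key1 hb nF nE u2 u1 q).symm
  have p' : ∀ a ∈ E, a ∈ 𝒞 U → a = 1 := fun a a1 a2 => by_contra fun a3 =>
    p ⟨a, ⟨a1, a3⟩, le_cent1_iff.2 a2⟩
  have q' : ∀ a ∈ F, a ∈ 𝒞 U → a = 1 := fun a a1 a2 => by_contra fun a3 =>
    q ⟨a, ⟨a1, a3⟩, le_cent1_iff.2 a2⟩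
  obtain ⟨c, hc, d, hd, rfl⟩ := (mem_sup_r (le_norm_of_le_cent h.cm)).1 hx
  rw [le_cent1_iff] at h1 h2
  have c1 : c ≠ 1 := by
    rintro rfl
    rw [q' d hd (by simpa using h2)] at x1
    simp at x1
  have d1 : d ≠ 1 := by
    rintro rfl
    exact c1 (p' c hc (by simpa using h2))
  have ac : a ≠ c := by
    rintro rfl
    have := q' (b⁻¹ * d) (mul_mem (inv_mem hb.1) hd) (by
      simpa [mul_assoc] using mul_mem (inv_mem h1) h2)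
    rw [inv_mul_eq_one] at this
    exact x1 (this ▸ mem_zpowers _)
  have bd : b ≠ d := by
    rintro rfl
    exact ac (mul_inv_eq_one.1 (p' (a * c⁻¹) (mul_mem ha.1 (inv_mem hc)) (by
      simpa [mul_assoc] using mul_mem h1 (inv_mem h2))))
  have cU : zpowers (a * b) ⊔ zpowers (c * d) ≤ 𝒞 U := sup_le (zpowers_le.2 h1) (zpowers_le.2 h2)
  have k1 := h.key2 ha hb ⟨hc, c1⟩ ⟨hd, d1⟩ ac
  have st : ∀ a ∈ sharp E, ∃ b ∈ sharp F, ⁅U ⊓ 𝒞₁ a, E⁆ ≤ Oc a ⊓ Oc b := fun a ha => by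
    obtain ⟨b, hb, y, hy, e⟩ := (mem_sup_l (le_norm_of_le_cent ((sup_le (zpowers_le.2
      (h.shP ‹_› ‹_›).1) (zpowers_le.2 hx)).trans (h.el.abel.trans (cent_anti le_sup_right))))).1
      (k1 ha.1)
    have b1 : b ∈ sharp F := ⟨hb, fun i => ha.2 (p' a ha.1 (by rw [← e, i, one_mul]; exact cU hy))⟩
    have n := IRx.nCa h.elE nE ha.1
    have l : ⁅U ⊓ 𝒞₁ a, E⁆ ≤ U ⊓ 𝒞₁ a := comm_le_left n
    have v1 := (comm_comm n (cop2 h.elE (odd_of_le ho inf_le_left))).ge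
    have v2 := v1.trans (comm_le_mod (cU.trans (cent_anti (l.trans inf_le_left))) (le_norm_comm
      (le_norm_inf nF (le_norm_cent1 (h.cf (h.shE ha).1))) (le_norm_of_le_cent (cent_symm h.cm))) k1)
    refine ⟨b, b1, le_inf (h.q1 (h.shE ha) (l.trans inf_le_right) v1 v2)
      (h.q1 (h.shF b1) (l.trans (le_cent1_iff.2 ?_)) v1 v2)⟩
    rw [eq_mul_inv_of_mul_eq e]
    exact mul_mem (le_cent1_iff.1 inf_le_right) (inv_mem (cent_anti inf_le_left (cU hy)))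
  have cb : U ⊓ 𝒞₁ a ≤ 𝒞₁ b := fun y hy => c_ab (sq1 h.elE ha.1) (le_cent1_iff.2 h1 hy.1) hy.2
  have ca : U ⊓ 𝒞 E ≤ U ⊓ 𝒞₁ a := inf_le_inf_left _ (cent_le_cent1 ha.1)
  have r : ⁅U, E⁆ ⊓ 𝒞 E ≤ Oc a ⊓ Oc b := IRx.rk2' h.elE h.two ho nE
    (le_norm_inf (nOc (ca.trans inf_le_right)) (nOc (ca.trans cb))) fun e e1 e2 => by
    obtain ⟨f, hf, k⟩ := st e ⟨e1, e2⟩
    have l := (inf_le_inf_right (𝒞 E) ((comm_le_left (IRx.nCa h.elE nE e1)).trans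
      inf_le_left)).trans ca
    exact le_inf ((le_inf (inf_le_left.trans k) (l.trans inf_le_right)).trans
      (h.q3 ⟨e1, e2⟩ hf (h.shE ha))) ((le_inf (inf_le_left.trans k) (l.trans cb)).trans
        (h.q3 ⟨e1, e2⟩ hf (h.shF hb)))
  refine h.mbD ha hb ho nE nF (le_cent1_iff.2 h1) ((caE h.elE (odd_of_le ho inf_le_left)
    (IRx.nCa h.elE nE ha.1)).comm_sup_cent.ge.trans (sup_le ?_
      ((inf_le_inf_right _ (inf_le_left.trans u1)).trans r)))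
  obtain ⟨f, hf, k⟩ := st a ha
  exact le_inf (k.trans inf_le_left) ((le_inf k ((comm_le_left (IRx.nCa h.elE nE ha.1)).trans
    cb)).trans (h.q3 ha hf (h.shF hb)))

theorem dl (ha : a ∈ sharp E) (hb : b ∈ sharp F) : Oc a ⊓ Oc b ≤ Oc (a * b) :=
  (le_inf le_rfl fun x hx => mem_cent1_comm.1 (mul_mem (mem_cent1_comm.1 (Oc_le a hx.1))
    (mem_cent1_comm.1 (Oc_le b hx.2)))).trans (h.q3 ha hb (h.shP ha hb))

theorem nO (hx : x ∈ E ⊔ F) : E ⊔ F ≤ 𝒩 (Oc x) := nOc (sup_le (h.ce hx) (h.cf hx))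

theorem rk3 (ha : a ∈ sharp E) (hb : b ∈ sharp F) :
    ⁅Oc (a * b), zpowers a⁆ ⊓ 𝒞₁ a ≤ Oc a ⊓ Oc b := by
  have ab := h.shP ha hb
  have a2 := sq1 h.elE ha.1
  have nY := h.nO ab.1
  have nz := sup_le (h.nz ha.1).1 (h.nz ha.1).2
  have nC : ∀ x ∈ E ⊔ F, E ⊔ F ≤ 𝒩 (𝒞₁ x) := fun x hx => le_norm_cent1 (sup_le (h.ce hx) (h.cf hx))
  have l : ∀ x ∈ E ⊔ F, ⁅Oc (a * b) ⊓ 𝒞₁ x, zpowers a⁆ ≤ Oc (a * b) ⊓ 𝒞₁ x := fun x hx =>
    comm_le_left (zpowers_le.2 (le_norm_inf nY (nC x hx) (h.shE ha).1))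
  have da : Oc a ⊓ Oc b ≤ 𝒞₁ a := inf_le_left.trans (Oc_le a)
  have l' : ∀ x ∈ E ⊔ F, Oc a ⊓ Oc b ⊓ 𝒞₁ x ⊔ ⁅Oc (a * b) ⊓ 𝒞₁ x, zpowers a⁆ ≤
      Oc (a * b) ⊓ 𝒞₁ x := fun x hx => sup_le (inf_le_inf_right _ (h.dl ha hb)) (l x hx)
  have iv : ∀ x ∈ E ⊔ F, E ⊔ F ≤ 𝒩 (Oc a ⊓ Oc b ⊓ 𝒞₁ x ⊔ ⁅Oc (a * b) ⊓ 𝒞₁ x, zpowers a⁆) :=
    fun x hx => le_norm_sup (le_norm_inf (le_norm_inf (h.nO (h.shE ha).1) (h.nO (h.shF hb).1))
      (nC x hx)) (le_norm_comm (le_norm_inf nY (nC x hx)) nz)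
  have k : ∀ x ∈ E ⊔ F, x ∉ zpowers (a * b) →
      (Oc a ⊓ Oc b ⊓ 𝒞₁ x ⊔ ⁅Oc (a * b) ⊓ 𝒞₁ x, zpowers a⁆) ⊓ 𝒞₁ a ≤ Oc a ⊓ Oc b := fun x hx x1 => by
    have n := le_norm_inf nY (nC x hx)
    have o : Odd ♯(Oc (a * b) ⊓ 𝒞₁ x) := odd_of_le (odd_O2 _) inf_le_left
    have c := (l x hx).trans (inf_le_left.trans (Oc_le _))
    obtain ⟨u1, u2⟩ := h.uu ha.1 hb.1 o (le_sup_left.trans n) (le_sup_right.trans n)
      (inf_le_left.trans (Oc_le _))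
    rw [dedekind_l (inf_le_left.trans da) (le_norm_comm (le_norm_of_le (inf_le_inf_right _
      (h.dl ha hb))) (le_norm_of_le_cent (by rw [cent_zpowers]; exact inf_le_left.trans da)))]
    exact sup_le inf_le_left ((le_inf le_rfl fun y hy => c_ab a2 (c hy.1) hy.2).trans
      ((h.key ha hb hx x1 (odd_of_le o (l x hx)) (le_sup_left.trans (le_norm_comm n nz))
        (le_sup_right.trans (le_norm_comm n nz)) u1 u2 c ((l x hx).trans inf_le_right)).le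
          a ha b hb))
  have nm : ∀ c ∈ sharp E, c ∉ zpowers (a * b) := fun c hc q => by
    rcases mem_zp2 (sq1 h.el ab.1) q with i | i
    · exact hc.2 i
    · have : b ∈ E := (mul_mem_cancel_left ha.1).1 (i ▸ hc.1)
      exact (h.shP ⟨this, hb.2⟩ hb).2 (sq1 h.elF hb.1)
  obtain ⟨W, -, -, w, -⟩ := complete_ker
    (θ := fun x => Oc a ⊓ Oc b ⊓ 𝒞₁ x ⊔ ⁅Oc (a * b) ⊓ 𝒞₁ x, zpowers a⁆) oddOrder h.el
    (zpowers_le.2 ab.1) (by rw [h.card, card_zpow, h.el.orderOf_eq Nat.prime_two ab.1 ab.2])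
    (fun x hx _ => (l' x hx).trans inf_le_right) (fun x hx _ => iv x hx)
    (fun x hx y hy x1 _ => by
      refine (ca2 a2 (le_norm_inf (iv x hx) (nC y hy) (h.shE ha).1) (odd_of_le (odd_O2 _)
        (inf_le_left.trans ((l' x hx).trans inf_le_left)))).comm_sup_cent.ge.trans (sup_le
          ((comm_mono (inf_le_inf_right _ ((l' x hx).trans inf_le_left)) le_rfl).trans
            le_sup_right) (le_trans ?_ le_sup_left))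
      rw [cent_zpowers]
      exact le_inf ((inf_le_inf_right _ inf_le_left).trans (k x hx x1))
        (inf_le_left.trans inf_le_right))
    (odd_O2 (𝒞₁ (a * b))) fun x hx _ => (l' x hx).trans inf_le_left
  obtain ⟨c, hc, ne⟩ := ex_ne h.two a
  have ac := mul_sharp h.elE ha hc ne.symm
  refine (inf_le_inf_right _ ((fourG a2 (sq1 h.elE hc.1) (h.elE.abel.comm ha.1 hc.1) (odd_O2 _)
    (nY (h.shE ha).1) (nY (h.shE hc).1)).trans (sup_le (b := _) (c := W)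
      (le_sup_right.trans ((w c (h.shE hc).1 (nm c hc)).ge.trans inf_le_left))
      (le_sup_right.trans ((w _ (h.shE ac).1 (nm _ ac)).ge.trans inf_le_left))))).trans ?_
  exact (le_inf (w a (h.shE ha).1 (nm a ha)).le inf_le_right).trans (k a (h.shE ha).1 (nm a ha))

/-- the largest member in `C(ab)` -/
theorem thD (ha : a ∈ sharp E) (hb : b ∈ sharp F) :
    Mb E F (Oc a ⊓ Oc b ⊔ ⁅Oc (a * b), zpowers a⁆) := by
  have nY := h.nO (h.shP ha hb).1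
  have l : Oc a ⊓ Oc b ⊔ ⁅Oc (a * b), zpowers a⁆ ≤ Oc (a * b) :=
    sup_le (h.dl ha hb) (comm_le_left (zpowers_le.2 (nY (h.shE ha).1)))
  have n := le_norm_sup (le_norm_inf (h.nO (h.shE ha).1) (h.nO (h.shF hb).1))
    (le_norm_comm nY (sup_le (h.nz ha.1).1 (h.nz ha.1).2))
  have da : Oc a ⊓ Oc b ≤ 𝒞₁ a := inf_le_left.trans (Oc_le a)
  refine h.mbD ha hb (odd_of_le (odd_O2 _) l) (le_sup_left.trans n) (le_sup_right.trans n)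
    (l.trans (Oc_le _)) ?_
  rw [dedekind_l da (le_norm_comm (le_norm_of_le (h.dl ha hb))
    (le_norm_of_le_cent (by rwa [cent_zpowers])))]
  exact sup_le le_rfl (h.rk3 ha hb)

theorem big (hx : x ∈ sharp (E ⊔ F)) :
    ∃ T, Mb E F T ∧ T ≤ 𝒞₁ x ∧ ∀ X, Mb E F X → X ≤ 𝒞₁ x → X ≤ T := by
  obtain ⟨a, ha, b, hb, rfl⟩ := (mem_sup_r (le_norm_of_le_cent h.cm)).1 hx.1
  by_cases p : a = 1
  · subst p
    rw [one_mul] at hx ⊢
    obtain ⟨T, t1, t2, t3⟩ := h.symm.bigA ⟨hb, hx.2⟩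
    exact ⟨T, t1.symm, t2, fun X m => t3 X m.symm⟩
  by_cases q : b = 1
  · subst q; rw [mul_one]; exact h.bigA ⟨ha, p⟩
  refine ⟨_, h.thD ⟨ha, p⟩ ⟨hb, q⟩, (sup_le (h.dl ⟨ha, p⟩ ⟨hb, q⟩)
    (comm_le_left (zpowers_le.2 (h.nO hx.1 (mem_sup_left ha))))).trans (Oc_le _), fun X m l => ?_⟩
  refine (ca2 (sq1 h.elE ha) (m.nE ha) m.odd).comm_sup_cent.ge.trans (sup_le
    ((comm_mono (h.mle m hx l) le_rfl).trans le_sup_right) (le_trans ?_ le_sup_left))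
  rw [cent_zpowers]
  exact (le_inf le_rfl fun y hy => c_ab (sq1 h.elE ha) (l hy.1) hy.2).trans
    (m.le a ⟨ha, p⟩ b ⟨hb, q⟩)

/-- the largest member is `W(a,b)` -/
theorem wE : ∃ W, Mb E F W ∧ ∀ a ∈ sharp E, ∀ b ∈ sharp F, Wd a b = W := by
  choose! θ t1 t2 t3 using fun x (hx : x ∈ sharp (E ⊔ F)) => h.big hx
  have f : Fn (E ⊔ F) θ := ⟨h.el, by rw [h.card]; norm_num, fun x hx => (t1 x hx).odd, t2,
    fun x hx => sup_le (t1 x hx).nE (t1 x hx).nF, fun x hx y hy => t3 y hy _ ((t1 x hx).sub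
      inf_le_left (le_norm_inf (t1 x hx).nE (le_norm_cent1 (h.ce hy.1)))
      (le_norm_inf (t1 x hx).nF (le_norm_cent1 (h.cf hy.1)))) inf_le_right⟩
  have w := sfg G _ θ f
  have m : Mb E F (Gn (E ⊔ F) θ) := ⟨w.odd, le_sup_left.trans w.inv, le_sup_right.trans w.inv,
    fun a ha b hb => (le_inf (le_inf (inf_le_left.trans (w.le a (h.shE ha)))
      (inf_le_left.trans inf_le_right)) inf_le_right).trans ((t1 a (h.shE ha)).le a ha b hb)⟩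
  refine ⟨_, m, fun a ha b hb => le_antisymm ?_ ?_⟩
  · have g : ∀ x ∈ sharp (E ⊔ F), ∀ X, Mb E F X → X ≤ Oc x → X ≤ Gn (E ⊔ F) θ :=
      fun x hx X m l => (t3 x hx X m (l.trans (Oc_le x))).trans (le_Gn hx)
    have d := g _ (h.shP ha hb) _ (h.thD ha hb) (sup_le (h.dl ha hb)
      (comm_le_left (zpowers_le.2 (h.nO (h.shP ha hb).1 (h.shE ha).1))))
    exact sup_le (sup_le (sup_le ((comm_mono le_rfl (zpowers_le.2 hb.1)).trans (g a (h.shE ha) _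
      (h.thA' ha) (comm_le_left (le_sup_right.trans (h.nO (h.shE ha).1)))))
      ((comm_mono le_rfl (zpowers_le.2 ha.1)).trans (g b (h.shF hb) _ (h.symm.thA' hb).symm
        (comm_le_left (le_sup_left.trans (h.nO (h.shF hb).1)))))) (le_sup_right.trans d))
      (le_sup_left.trans d)
  have o : ∀ x ∈ sharp (E ⊔ F), Gn (E ⊔ F) θ ⊓ 𝒞₁ x ≤ Oc x := fun x hx =>
    (w.le x hx).trans (h.mle (t1 x hx) hx (t2 x hx))
  refine (ca2 (sq1 h.elE ha.1) (m.nE ha.1) m.odd).comm_sup_cent.ge.trans (sup_le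
    ((fourG (sq1 h.elE ha.1) (sq1 h.elF hb.1) (h.comm ha.1 hb.1) m.odd (m.nE ha.1)
      (m.nF hb.1)).trans ((sup_le_sup ((comm_mono (o b (h.shF hb)) le_rfl).trans le_sup_right)
        (comm_mono (o _ (h.shP ha hb)) le_rfl)).trans le_sup_left)) ?_)
  rw [cent_zpowers]
  refine (ca2 (sq1 h.elF hb.1) (le_norm_inf m.nF (le_norm_cent1 (h.cf (h.shE ha).1)) hb.1)
    (odd_of_le m.odd inf_le_left)).comm_sup_cent.ge.trans (sup_le_sup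
      ((comm_mono (o a (h.shE ha)) le_rfl).trans (le_sup_left.trans le_sup_left)) ?_)
  rw [cent_zpowers]
  exact m.le a ha b hb

end F4

end Cfsg.GS.PFx
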