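import Cfsg.Agent.GS.PF1

/-! Commuting strongly closed subgroups, 2: the minimal counterexample in the disjoint case. -/

set_option autoImplicit false
set_option linter.unusedSectionVars false

namespace Cfsg.GS.PFx

open Subgroup Cfsg.L0 Cfsg.H8 Cfsg.FT Cfsg.BS Cfsg.BS.R Cfsg.GS.T3 Cfsg.GS.T4 Cfsg.GS.SFx
open scoped commutatorElement

section defs
variable {G : Type} [Group G]

/-- conjugates of involutions of `A` -/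
def Ic (A : Subgroup G) : Set G := {x | Ivo x ∧ ∃ g, g * x * g⁻¹ ∈ A}

/-- the hypotheses of `PF0` -/
structure Hp (H S A B : Subgroup G) : Prop where
  syl : IsSyl 2 S H
  scA : SC A S H
  scB : SC B S H
  cm : A ≤ 𝒞 B
  dis : A ⊓ B = ⊥

/-- the reduced situation -/
structure PM (S A B : Subgroup G) : Prop extends Hp ⊤ S A B where
  o : O2 (⊤ : Subgroup G) = ⊥
  zA : ∀ a ∈ A, Ivo a → 𝒞₁ a ≠ ⊤
  zB : ∀ b ∈ B, Ivo b → 𝒞₁ b ≠ ⊤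
  ih : ∀ H T C D : Subgroup G, H ≠ ⊤ → Hp H T C D → ⁅ncl H C, ncl H D⁆ ≤ O2 H

/-- the stabilizer of a set of subgroups -/
def Fx (P : Set (Subgroup G)) : Subgroup G where
  carrier := {g | ∀ W, cj g W ∈ P ↔ W ∈ P}
  one_mem' W := by rw [cj_one]
  mul_mem' h1 h2 W := by rw [cj_mul, h1, h2]
  inv_mem' h W := by rw [← h, cj_cj_inv]

/-- `P(t)` -/
def Pt (I : Set G) (t : G) : Set (Subgroup G) := {W | ∃ s ∈ I, s * t = t * s ∧ W = Wd s t}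

end defs

variable {G : Type} [Group G] [Finite G] {I J : Set G} {A B C D E F H K M N S T W : Subgroup G}
  {a b c d g s s' t t' x y : G}

theorem Ic.conj (h : s ∈ Ic A) (g : G) : g * s * g⁻¹ ∈ Ic A :=
  ⟨h.1.conj g, h.2.elim fun u hu => ⟨u * g⁻¹, by simpa [mul_assoc] using hu⟩⟩

theorem mem_Ic (h : Ivo a) (ha : a ∈ A) : a ∈ Ic A := ⟨h, 1, by simpa using ha⟩

theorem _root_.Cfsg.GS.SC.memI (h : SC A S ⊤) (hs : s ∈ Ic A) (h1 : g * s * g⁻¹ ∈ S) :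
    g * s * g⁻¹ ∈ A := by
  obtain ⟨u, hu⟩ := hs.2
  simpa [mul_assoc] using h.conj hu (mem_top (g * u⁻¹)) (by simpa [mul_assoc] using h1)

theorem sc_cj (h : SC A S ⊤) (h1 : cj g T ≤ S) : SC (cj g⁻¹ A ⊓ T) T H :=
  ⟨inf_le_right, fun x hx u _ q => ⟨mem_cj.2 (by
    simpa [mul_assoc] using h.conj (mem_cj.1 hx.1) (mem_top (g * u * g⁻¹)) (by
      simpa [mul_assoc] using h1 (conj_mem_cj q))), q⟩⟩

theorem comm_conj (h : s * t = t * s) (g : G) :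
    g * s * g⁻¹ * (g * t * g⁻¹) = g * t * g⁻¹ * (g * s * g⁻¹) := by rw [conj_mul, conj_mul, h]

theorem four_of (ha : Ivo a) (hb : Ivo b) (ne : a ≠ b) (h : a * b = b * a) :
    Elem 2 (zpowers a ⊔ zpowers b) ∧ ♯(zpowers a ⊔ zpowers b) = 4 := by
  have c : b ∈ 𝒞 (zpowers a) := by rw [cent_zpowers]; exact mem_cent1.2 h.symm
  refine ⟨(elem_zpowers ((pow_two a).trans ha.2)).sup (elem_zpowers ((pow_two b).trans hb.2))
    (cent_symm (zpowers_le.2 c)), ?_⟩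
  rw [IWx.ri2 ((pow_two b).trans hb.2) (fun q => (mem_zp2 ha.2 q).elim hb.1 ne.symm)
    (cent_le_norm _ c), card_zpow, ha.orderOf]

theorem pg2 (ha : a * a = 1) (hb : b * b = 1) (h : a * b = b * a) :
    IsPGroup 2 ↥(zpowers a ⊔ zpowers b) :=
  pgroup_sup (le_norm_of_le_cent (zpowers_le.2 (by rw [cent_zpowers]; exact mem_cent1.2 h.symm)))
    (card_zp2 ha) (card_zp2 hb)

/-- dihedral groups -/
theorem dih (hs : s * s = 1) (ht : t * t = 1) : ∃ w, Odd (orderOf w) ∧ s * w * s = w⁻¹ ∧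
    (∃ n, (s * (w * t * w⁻¹)) ^ 2 ^ n = 1) ∧ w ∈ 𝒞₁ (s * (w * t * w⁻¹)) ∧
    (s * (w * t * w⁻¹) = w * t * w⁻¹ * s → w ∈ zpowers ⁅s, t⁆) := by
  haveI := Fact.mk Nat.prime_two
  obtain ⟨u, r, hu, hr, u2, r2, e⟩ := exists_pPart 2 (s * t)
  have iv : s * (s * t) * s = (s * t)⁻¹ := by
    rw [← mul_assoc, hs, one_mul, mul_inv_rev, inv_eq_of_mul_eq_one_right hs,
      inv_eq_of_mul_eq_one_right ht]
  have ro : Odd (orderOf r) := Nat.coprime_two_right.1 r2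
  obtain ⟨w, hw, w2⟩ : ∃ w ∈ zpowers r, w * w = r := by
    obtain ⟨m, hm⟩ := ro
    exact ⟨r ^ (m + 1), npow_mem_zpowers _ _, by
      rw [← pow_add, show m + 1 + (m + 1) = orderOf r + 1 by omega, pow_succ, pow_orderOf_eq_one,
        one_mul]⟩
  have hw' := zpowers_le.2 hr hw
  have wo : Odd (orderOf w) := ro.of_dvd_nat (orderOf_dvd_of_mem_zpowers hw)
  have sw := inv_pow' hs iv hw'
  have uw : u * w = w * u := (cyc_zpowers (s * t)).abel.comm hu hw'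
  have e1 : t = s * u * (w * w) := by rw [w2, mul_assoc, ← e, ← mul_assoc, hs, one_mul]
  have e2 : s * (w * t * w⁻¹) = u := by
    calc _ = s * w * s * (u * w) := by rw [e1]; group
      _ = u := by rw [sw, uw]; group
  refine ⟨w, wo, sw, e2 ▸ u2, e2 ▸ mem_cent1.2 uw.symm, fun c => ?_⟩
  have uu : u * u = 1 := by
    calc _ = s * (w * t * w⁻¹) * (w * t * w⁻¹ * s) := by rw [← c, e2]
      _ = s * w * (t * t) * w⁻¹ * s := by group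
      _ = 1 := by rw [ht]; simpa using hs
  have e3 : ⁅s, t⁆ = w ^ 4 := by
    rw [commutatorElement_def, inv_eq_of_mul_eq_one_right hs, inv_eq_of_mul_eq_one_right ht,
      mul_assoc, e, ← w2]
    have : Commute u (w * w) := Commute.mul_right uw uw
    rw [← pow_two, this.mul_pow, pow_two u, uu, one_mul, ← pow_two w, ← pow_mul]
  rw [e3, mem_zpowers_pow_iff]
  exact Nat.Coprime.pow_left 2 (Nat.coprime_two_left.2 wo)

theorem Hp.symm (h : Hp H S A B) : Hp H S B A :=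
  ⟨h.syl, h.scB, h.scA, cent_symm h.cm, inf_comm A B ▸ h.dis⟩

theorem nWd (s2 : s * s = 1) (h : s * t = t * s) : s ∈ 𝒩 (Wd s t) ∧ t ∈ 𝒩 (Wd s t) :=
  ⟨cj_eq_iff.1 (by rw [cj_Wd, h]; simp), cj_eq_iff.1 (by rw [cj_Wd, ← h]; simp)⟩

theorem Pt_cj (hI : ∀ s ∈ I, ∀ g, g * s * g⁻¹ ∈ I) (h : W ∈ Pt I t) (g : G) :
    cj g W ∈ Pt I (g * t * g⁻¹) := by
  obtain ⟨s, s1, s2, rfl⟩ := h
  exact ⟨_, hI s s1 g, comm_conj s2 g, cj_Wd _ _ _⟩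

theorem Pt_iff (hI : ∀ s ∈ I, ∀ g, g * s * g⁻¹ ∈ I) (g : G) :
    cj g W ∈ Pt I (g * t * g⁻¹) ↔ W ∈ Pt I t :=
  ⟨fun h => by simpa [cj_inv_cj, mul_assoc] using Pt_cj hI h g⁻¹, fun h => Pt_cj hI h g⟩

theorem Pt_fix (hI : ∀ s ∈ I, ∀ g, g * s * g⁻¹ ∈ I) : 𝒞₁ t ≤ Fx (Pt I t) := fun g hg W => by
  have := Pt_iff (W := W) (t := t) hI g
  rwa [mem_cent1.1 hg, mul_inv_cancel_right] at this

namespace PM
variable (h : PM S A B)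
include h

theorem symm : PM S B A := ⟨h.toHp.symm, h.o, h.zB, h.zA, h.ih⟩

theorem toS (hT : IsPGroup 2 T) : ∃ g, cj g T ≤ S :=
  haveI := Fact.mk Nat.prime_two
  (h.syl.exists_cj_le hT le_top).imp fun _ q => q.2

theorem isol (hx : x ∈ S) (ne : 𝒞₁ x ≠ ⊤) : ∃ g, g * x * g⁻¹ ∈ S ∧ g * x * g⁻¹ ≠ x := by
  by_contra! q
  exact ne (eq_top_iff.2 fun g _ => mem_cent1.2 (commutatorElement_eq_one_iff_mul_comm.1
    (eq_one_of_mem h.o (zstarA h.syl hx (fun g _ => q g) g trivial))))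

theorem neI (hs : s ∈ Ic A) : 𝒞₁ s ≠ ⊤ := fun q => by
  obtain ⟨g, hg⟩ := hs.2
  exact h.zA _ hg (hs.1.conj g) (by rw [← cj_cent1, q, cj_top])

theorem two (hT : IsPGroup 2 T) (hs : s ∈ Ic A) (ht : t ∈ Ic B) (h1 : s ∈ T) (h2 : t ∈ T) :
    s * t = t * s := by
  obtain ⟨g, hg⟩ := h.toS hT
  have := mem_cent.1 (h.cm (h.scA.memI hs (hg (conj_mem_cj h1)))) _
    (h.scB.memI ht (hg (conj_mem_cj h2)))
  simpa [conj_mul] using this.symm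

theorem pr : Pr (Ic A) (Ic B) := by
  haveI := Fact.mk Nat.prime_two
  refine ⟨fun _ q => q.1, fun _ q => q.1, fun _ q => Ic.conj q, fun _ q => Ic.conj q,
    fun H hH s hs t ht h1 h2 => ?_, fun _ => h.neI, fun _ => h.symm.neI, fun s hs t ht e q => ?_⟩
  · obtain ⟨T, hT⟩ := exists_isSyl 2 H
    obtain ⟨g, hg⟩ := h.toS hT.isPGroup
    have k : ∀ A s, SC A S ⊤ → s ∈ Ic A → s ∈ H → s ∈ ncl H (cj g⁻¹ A ⊓ T) := fun A s sc hs h1 => by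
      obtain ⟨u, hu, i⟩ := hT.exists_conj_mem h1 ⟨1, (pow_two s).trans hs.1.2⟩
      refine cj_le_ncl _ (inv_mem hu) (mem_cj.2 ?_)
      rw [inv_inv]
      exact ⟨mem_cj.2 (by simpa using sc.memI (Ic.conj hs u) (hg (conj_mem_cj i))), i⟩
    refine h.ih H T _ _ hH ⟨hT, sc_cj h.scA hg, sc_cj h.scB hg, cent_mono (A := cj g⁻¹ A)
      (by rw [← cj_cent]; exact cj_mono _ h.cm) inf_le_left inf_le_left, eq_bot_iff.2 ?_⟩
      (commutator_mem_commutator (k A s h.scA hs h1) (k B t h.scB ht h2))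
    refine (inf_le_inf inf_le_left inf_le_left).trans ?_
    rw [← cj_inf, h.dis, cj_bot]
  obtain ⟨g, hg⟩ := h.toS (pg2 hs.1.2 ht.1.2 e)
  have a := h.scA.memI hs (hg (conj_mem_cj (mem_sup_left (mem_zpowers s))))
  have b := h.scB.memI ht (hg (conj_mem_cj (mem_sup_right (mem_zpowers t))))
  obtain ⟨u, u1, u2⟩ := h.isol (h.scA.le a) (h.neI (Ic.conj hs g))
  have c : 𝒞₁ (g * s * g⁻¹ * (g * t * g⁻¹)) = ⊤ := by rw [conj_mul, ← cj_cent1, q, cj_top]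
  generalize g * s * g⁻¹ = x at *
  generalize g * t * g⁻¹ = y at *
  have e : x⁻¹ * (u * x * u⁻¹) = y * (u * y * u⁻¹)⁻¹ := by
    have := mem_cent1.1 (c.ge (mem_top u))
    calc _ = x⁻¹ * (u * (x * y)) * y⁻¹ * u⁻¹ := by group
      _ = _ := by rw [this]; group
  have m : u * y * u⁻¹ ∈ S := by
    rw [← inv_mem_iff, ← mul_mem_cancel_left (h.scB.le b), ← e]
    exact mul_mem (inv_mem (h.scA.le a)) u1
  exact u2 (inv_mul_eq_one.1 (eq_one_of_mem h.dis (mem_inf.2 ⟨mul_mem (inv_mem a)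
    (h.scA.conj a trivial u1), e ▸ mul_mem b (inv_mem (h.scB.conj b trivial m))⟩))).symm

theorem four (ha : a ∈ A) (a1 : Ivo a) : ∃ z, Ivo z ∧ ∀ a ∈ A, Ivo a →
    ∃ E, Elem 2 E ∧ ♯E = 4 ∧ E ≤ A ∧ a ∈ E ∧ z ∈ E := by
  have p := h.syl.isPGroup.to_le h.scA.le
  obtain ⟨z, hz, z2⟩ := exists_orderOf_eq Nat.prime_two (dvd_card_of_pgroup Nat.prime_two
    (p.to_le (inf_le_left (b := 𝒞 A))) (ctr_ne_bot (nil_of_pgroup Nat.prime_two p)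
      (ne_bot_of_mem ha a1.1)))
  have iz := ivo_of_orderOf z2
  have k : ∀ a ∈ A, Ivo a → a ≠ z → ∃ E, Elem 2 E ∧ ♯E = 4 ∧ E ≤ A ∧ a ∈ E ∧ z ∈ E :=
    fun a ha a1 ne => ⟨_, (four_of a1 iz ne (mem_cent.1 hz.2 a ha)).1,
      (four_of a1 iz ne (mem_cent.1 hz.2 a ha)).2, sup_le (zpowers_le.2 ha) (zpowers_le.2 hz.1),
      mem_sup_left (mem_zpowers a), mem_sup_right (mem_zpowers z)⟩
  refine ⟨z, iz, fun a ha a1 => ?_⟩
  by_cases q : a = z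
  · obtain ⟨g, g1, g2⟩ := h.isol (h.scA.le hz.1) (h.zA z hz.1 iz)
    obtain ⟨E, e1, e2, e3, -, e5⟩ := k _ (h.scA.conj hz.1 trivial g1) (iz.conj g) g2
    exact ⟨E, e1, e2, e3, q ▸ e5, e5⟩
  exact k a ha a1 q

theorem f4 (e1 : Elem 2 E) (e2 : ♯E = 4) (e3 : E ≤ A) (f1 : Elem 2 F) (f2 : ♯F = 4) (f3 : F ≤ B) :
    F4 (Ic A) (Ic B) E F :=
  ⟨h.pr, e1, f1, e2, f2, fun _ q => mem_Ic ⟨q.2, sq1 e1 q.1⟩ (e3 q.1),
    fun _ q => mem_Ic ⟨q.2, sq1 f1 q.1⟩ (f3 q.1), cent_mono h.cm e3 f3⟩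

theorem f1S (ha : a ∈ A) (a1 : Ivo a) (hb : b ∈ B) (b1 : Ivo b) (hc : c ∈ A) (c1 : Ivo c)
    (hd : d ∈ B) (d1 : Ivo d) : Wd a b = Wd c d := by
  obtain ⟨z, iz, hz⟩ := h.four ha a1
  obtain ⟨y, iy, hy⟩ := h.symm.four hb b1
  have k : ∀ a ∈ A, Ivo a → ∀ b ∈ B, Ivo b → Wd a b = Wd z y := fun a ha a1 b hb b1 => by
    obtain ⟨E, e1, e2, e3, e4, e5⟩ := hz a ha a1
    obtain ⟨F, f1, f2, f3, f4, f5⟩ := hy b hb b1
    obtain ⟨W, -, w⟩ := (h.f4 e1 e2 e3 f1 f2 f3).wE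
    rw [w a ⟨e4, a1.1⟩ b ⟨f4, b1.1⟩, w z ⟨e5, iz.1⟩ y ⟨f5, iy.1⟩]
  rw [k a ha a1 b hb b1, k c hc c1 d hd d1]

/-- (F1) -/
theorem f1 (hT : IsPGroup 2 T) (hs : s ∈ Ic A) (ht : t ∈ Ic B) (hs' : s' ∈ Ic A) (ht' : t' ∈ Ic B)
    (h1 : s ∈ T) (h2 : t ∈ T) (h3 : s' ∈ T) (h4 : t' ∈ T) : Wd s t = Wd s' t' := by
  obtain ⟨g, hg⟩ := h.toS hT
  rw [← cj_inj g, cj_Wd, cj_Wd]
  exact h.f1S (h.scA.memI hs (hg (conj_mem_cj h1))) (hs.1.conj g)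
    (h.scB.memI ht (hg (conj_mem_cj h2))) (ht.1.conj g) (h.scA.memI hs' (hg (conj_mem_cj h3)))
    (hs'.1.conj g) (h.scB.memI ht' (hg (conj_mem_cj h4))) (ht'.1.conj g)

theorem gen (hs : s ∈ Ic A) (ht : t ∈ Ic B) (e : s * t = t * s) : Odd ♯(Wd s t) ∧
    ∀ M, (∀ u ∈ Ic B, u * t = t * u → 𝒞₁ u ≤ M) → Wd s t ≤ M := by
  obtain ⟨g, hg⟩ := h.toS (pg2 hs.1.2 ht.1.2 e)
  have a := h.scA.memI hs (hg (conj_mem_cj (mem_sup_left (mem_zpowers s))))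
  have b := h.scB.memI ht (hg (conj_mem_cj (mem_sup_right (mem_zpowers t))))
  obtain ⟨z, -, hz⟩ := h.four a (hs.1.conj g)
  obtain ⟨y, -, hy⟩ := h.symm.four b (ht.1.conj g)
  obtain ⟨E, e1, e2, e3, e4, -⟩ := hz _ a (hs.1.conj g)
  obtain ⟨F, f1, f2, f3, f4, -⟩ := hy _ b (ht.1.conj g)
  have q := h.f4 e1 e2 e3 f1 f2 f3
  obtain ⟨W, m, w⟩ := q.wE
  have e := w _ ⟨e4, (hs.1.conj g).1⟩ _ ⟨f4, (ht.1.conj g).1⟩
  rw [← cj_Wd] at e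
  refine ⟨by rw [← card_cj g, e]; exact m.odd, fun M hM => ?_⟩
  rw [← cj_le_cj_iff g, e]
  refine gen1 f1 q.symm.two m.odd m.nF fun u hu => inf_le_right.trans ?_
  rw [le_cj_iff, cj_cent1]
  exact hM _ (Ic.conj (q.iF u hu) _) (by
    simpa [mul_assoc] using comm_conj (f1.abel.comm hu.1 f4) g⁻¹)

/-- (D) -/
theorem dh (hs : s ∈ Ic A) (ht : t ∈ Ic B) : ∃ w, s * (w * t * w⁻¹) = w * t * w⁻¹ * s ∧
    w ∈ zpowers ⁅s, t⁆ ∧ w ∈ Wd s (w * t * w⁻¹) ∧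
    ∀ H, H ≠ ⊤ → s ∈ H → t ∈ H → w ∈ ⁅O2 H, zpowers s⁆ := by
  obtain ⟨w, w1, w2, ⟨n, w3⟩, w4, w5⟩ := dih hs.1.2 ht.1.2
  have ht' := Ic.conj ht w
  have iv : s * (s * (w * t * w⁻¹)) * s = (s * (w * t * w⁻¹))⁻¹ := by
    rw [← mul_assoc, hs.1.2, one_mul, mul_inv_rev, hs.1.inv, ht'.1.inv]
  have c := h.two (pgroup_sup (zpowers_le.2 (mem_norm_zpowers hs.1.2 iv)) (isPGroup_zpowers w3)
    (card_zp2 hs.1.2)) hs ht' (mem_sup_right (mem_zpowers s)) (by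
      simpa using mul_mem (inv_mem (mem_sup_right (S := zpowers (s * (w * t * w⁻¹)))
        (mem_zpowers s))) (mem_sup_left (mem_zpowers (s * (w * t * w⁻¹)))))
  have k : ∀ H, H ≠ ⊤ → s ∈ H → t ∈ H → w ∈ ⁅O2 H, zpowers s⁆ := fun H hH h1 h2 =>
    inv_mem_comm hs.1.2 (zpowers_le.2 (h.pr.loc H hH s hs t ht h1 h2) (w5 c)) w1 w2
  refine ⟨w, c, w5 c, mem_sup_left (mem_sup_right (k _ (h.pr.neP s hs _ ht' c)
    (mem_cent1.2 (by rw [mul_assoc s, ← c])) ?_)), k⟩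
  have : w * t * w⁻¹ ∈ 𝒞₁ (s * (w * t * w⁻¹)) := mem_cent1.2 (by rw [← mul_assoc, ← c])
  simpa [mul_assoc] using mul_mem (mul_mem (inv_mem w4) this) w4

theorem pp (ht : t ∈ Ic B) (ht' : t' ∈ Ic B) (e : t' * t = t * t') :
    Pt (Ic A) t ⊆ Pt (Ic A) t' := by
  rintro _ ⟨s, hs, c, rfl⟩
  obtain ⟨w, w1, -, -, w4⟩ := h.dh hs ht'
  have m := w4 _ (h.symm.neI ht) (mem_cent1.2 c) (mem_cent1.2 e)
  have m1 : w ∈ Wd s t := mem_sup_left (mem_sup_left (mem_sup_right m))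
  have m2 : w ∈ 𝒞₁ t := comm_le_of_le_of_norm' (Oc_le t) (zpowers_le.2 (le_norm _ (mem_cent1.2 c))) m
  have hu := Ic.conj ht' w
  have u : w * t' * w⁻¹ ∈ 𝒞₁ t := mul_mem (mul_mem m2 (mem_cent1.2 e)) (inv_mem m2)
  rw [← Pt_iff h.pr.cjI w, cj_eq_of_mem m1]
  refine ⟨s, hs, w1, h.f1 (pgroup_sup (H := zpowers t) (le_norm_of_le_cent (cent_symm ?_))
    (pg2 hs.1.2 hu.1.2 w1) (card_zp2 ht.1.2)) hs ht hs hu (mem_sup_left (mem_sup_left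
      (mem_zpowers s))) (mem_sup_right (mem_zpowers t)) (mem_sup_left (mem_sup_left
        (mem_zpowers s))) (mem_sup_left (mem_sup_right (mem_zpowers _)))⟩
  rw [cent_zpowers]
  exact sup_le (zpowers_le.2 (mem_cent1.2 c)) (zpowers_le.2 u)

theorem fix (ht : t ∈ Ic B) : JH (Ic A) ⊤ ≤ Fx (Pt (Ic A) t) := (closure_le _).2 fun s hs => by
  obtain ⟨w, w1, -, w3, -⟩ := h.dh hs.1 ht
  have hu := Ic.conj ht w
  have := (h.gen hs.1 hu w1).2 (Fx (Pt (Ic A) (w * t * w⁻¹))) (fun u hu' e => by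
    rw [← (h.pp hu' hu e.symm).antisymm (h.pp hu hu' e)]; exact Pt_fix h.pr.cjI) w3
  rw [show Pt (Ic A) t = Pt (Ic A) (w * t * w⁻¹) from Set.ext fun W =>
    (Pt_iff h.pr.cjI w).symm.trans (this W)]
  exact Pt_fix h.pr.cjI (mem_cent1.2 w1)

theorem uniq (hs : s ∈ Ic A) (ht : t ∈ Ic B) (e : s * t = t * s) (h1 : W ∈ Pt (Ic A) t)
    (h2 : s ∈ 𝒩 W) : W = Wd s t := by
  haveI := Fact.mk Nat.prime_two
  obtain ⟨r, hr, c, rfl⟩ := h1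
  obtain ⟨T, t1, t2⟩ := exists_isSyl_ge (H := 𝒩 (Wd r t) ⊓ 𝒞₁ t) (pg2 hr.1.2 ht.1.2 c) (sup_le
    (zpowers_le.2 ⟨(nWd hr.1.2 c).1, mem_cent1.2 c⟩)
    (zpowers_le.2 ⟨(nWd hr.1.2 c).2, self_mem_cent1 t⟩))
  obtain ⟨n, hn, i⟩ := t1.exists_conj_mem (mem_inf.2 ⟨h2, mem_cent1.2 e⟩)
    ⟨1, (pow_two s).trans hs.1.2⟩
  have j := t2 (mem_sup_right (mem_zpowers t))
  rw [← cj_inj n, cj_eq_of_mem_norm hn.1, cj_Wd, mem_cent1.1 hn.2, mul_inv_cancel_right]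
  exact h.f1 t1.isPGroup hr ht (Ic.conj hs n) ht (t2 (mem_sup_left (mem_zpowers r))) j i j

theorem main (hs : s ∈ Ic A) (ht : t ∈ Ic B) : s * t = t * s := by
  obtain ⟨w, w1, w2, w3, -⟩ := h.dh hs ht
  have hu := Ic.conj ht w
  have n := (h.pr.nrm ⊤).inf (h.symm.pr.nrm ⊤)
  have m : w ∈ JH (Ic A) ⊤ ⊓ JH (Ic B) ⊤ := zpowers_le.2 (mem_inf.2
    ⟨(h.pr.nrm ⊤).comm_le le_top (commutator_mem_commutator (mem_JH hs trivial) (mem_top t)),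
      comm_le_right (h.symm.pr.nrm ⊤).norm (commutator_mem_commutator (mem_top s)
        (mem_JH ht trivial))⟩) w2
  have k : JH (Ic A) ⊤ ⊓ JH (Ic B) ⊤ ≤ 𝒩 (Wd s (w * t * w⁻¹)) := fun g hg => by
    refine cj_eq_iff.1 (h.uniq hs hu w1 ((h.fix hu hg.1 _).2 ⟨s, hs, w1, rfl⟩) ?_)
    obtain ⟨r, hr, c, e⟩ := (h.symm.fix hs hg.2 _).2 ⟨_, hu, w1.symm, Wd_comm hs.1.2 hu.1.2 w1⟩
    exact e ▸ (nWd hr.1.2 c).2
  have := eq_one_of_mem h.o (((le_O2 (odd_of_le (h.gen hs hu w1).1 inf_le_left) ⟨inf_le_right,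
    le_norm_inf k (le_norm _)⟩).trans (Op_le_Op_of_nrm _ n)) (mem_inf.2 ⟨w3, m⟩))
  simpa [this] using w1

end PM

end Cfsg.GS.PFx
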