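import Cfsg.Agent.GS.Y3

/-! The uniqueness case of Goldschmidt's theorem, 4: members. -/

set_option autoImplicit false

namespace Cfsg.GS.Yx

open Subgroup Cfsg.L0 Cfsg.H8 Cfsg.FT Cfsg.BS Cfsg.BS.R Cfsg.GS.T3 Cfsg.GS.T4 Cfsg.GS.Kx
open scoped commutatorElement

/-- `f` is the quotient map of a proper subgroup `H ≥ A` modulo `O(H)` -/
structure Br {G Q : Type} [Group G] [Group Q] (A : Subgroup G) {H : Subgroup G} (f : H →* Q) :
    Prop where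
  ne : H ≠ ⊤
  le : A ≤ H
  surj : Function.Surjective f
  ker : up f ⊥ = O2 H

/-- a component with centralizer `B` in `A` -/
structure Lo {G Q : Type} [Group G] [Group Q] (A B : Subgroup G) {H : Subgroup G} (f : H →* Q)
    (L : Subgroup Q) : Prop extends Br A f where
  cp : Cp L ⊤
  eq : A ⊓ up f (𝒞 L) = B
  nA : B ≠ A

/-- members -/
def Me {G : Type} [Group G] (A B : Subgroup G) : Prop := B ≠ ⊥ ∧ ∃ (H : Subgroup G) (Q : Type)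
  (_ : Group Q) (_ : Finite Q) (f : H →* Q) (L : Subgroup Q), Lo A B f L

/-- members of minimal order -/
structure Gd {G : Type} [Group G] (A B : Subgroup G) : Prop where
  me : Me A B
  min : ∀ D, Me A D → ♯B ≤ ♯D

variable {G Q : Type} [Group G] [Finite G] [Group Q] [Finite Q]
  {A B B' D E H M P S X Z : Subgroup G} {f : H →* Q} {L L' : Subgroup Q} {a b c d n x y : G}

omit [Finite G] [Finite Q] in
theorem dncl (f : H →* Q) (hK : M ≤ H) (hX : X ≤ H) :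
    down f (ncl M X) = ncl (down f M) (down f X) := by
  refine le_antisymm ((down_le_iff' (ncl_le hX (hK.trans (le_norm H)))).2
    (ncl_le_iff.2 fun g hg => ?_)) (ncl_le_iff.2 fun g hg => ?_)
  · refine (down_le_iff' (cj_le_of_mem (hK hg) hX)).1 ?_
    rw [down_cj f ⟨g, hK hg⟩]
    exact cj_le_ncl _ (mem_down_of_mem hg)
  · obtain ⟨g, h1, rfl⟩ := mem_down.1 hg
    rw [← down_cj]
    exact down_mono f (cj_le_ncl _ h1)

theorem exBr (h1 : H ≠ ⊤) (h2 : A ≤ H) :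
    ∃ (Q : Type) (_ : Group Q) (_ : Finite Q) (f : H →* Q), Br A f := by
  obtain ⟨Q, _, _, f, hf, hk⟩ := exists_quo0 (Op_nrm {2}ᶜ H)
  exact ⟨Q, _, ‹_›, f, h1, h2, hf, hk⟩

theorem exBr1 (h : Mg S A) (ha : a ∈ A) (a1 : a ≠ 1) :
    ∃ (Q : Type) (_ : Group Q) (_ : Finite Q) (f : 𝒞₁ a →* Q), Br A f :=
  exBr (Fx.cent1_ne h.simple h.nab a1) (h.elem.abel.trans (cent_le_cent1 ha))

namespace Br
variable (r : Br A f)
include r

theorem st (h : Mg S A) (hP : IsSyl 2 P H) (h1 : A ≤ P) : St ⊤ (down f P) (down f A) :=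
  down_top r.surj ▸ st_down (h.ih H r.ne) r.ker hP
    ((Ux.sc_of_le h.syl h.sc hP.isPGroup h1).mono h1 le_rfl le_top) h.elem.abel

theorem exP (h : Mg S A) : ∃ P, IsSyl 2 P H ∧ A ≤ P ∧ St ⊤ (down f P) (down f A) := by
  obtain ⟨P, a, b⟩ := exists_isSyl_ge h.elem.pgroup r.le
  exact ⟨P, a, b, r.st h a b⟩

omit [Finite Q] in
theorem dc (h1 : D ≤ H) (h2 : IsPGroup 2 D) : down f (H ⊓ 𝒞 D) = 𝒞 (down f D) := by
  rw [(ca_ker r.ker h1 h2).down_cent_ker h1 le_rfl (up_le _ _), down_top r.surj, top_inf_eq]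

omit [Finite Q] in
theorem dn (h1 : D ≤ H) (h2 : IsPGroup 2 D) : down f (H ⊓ 𝒩 D) = 𝒩 (down f D) := by
  rw [(ca_ker r.ker h1 h2).down_norm_ker h1 le_rfl (up_le _ _), down_top r.surj, top_inf_eq]

omit [Finite Q] in
theorem k0 (h2 : IsPGroup 2 P) : up f ⊥ ⊓ P = ⊥ := inf_eq_bot_of_cop
  (cop_of_pgroup Nat.prime_two h2 (r.ker ▸ not_dvd_Op_compl Nat.prime_two H)).symm

omit [Finite Q] in
theorem one (h2 : IsPGroup 2 P) {x : H} (hx : (x : G) ∈ P) (e : f x = 1) : (x : G) = 1 :=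
  eq_one_of_mem (r.k0 h2) ⟨coe_mem_up.2 e, hx⟩

omit [Finite Q] in
theorem mem (h2 : IsPGroup 2 P) (h1 : D ≤ P) {x : H} (hx : (x : G) ∈ P) (e : f x ∈ down f D) :
    (x : G) ∈ D := by
  obtain ⟨y, hy, e⟩ := mem_down.1 e
  have := r.one h2 (x := y⁻¹ * x) (mul_mem (inv_mem (h1 hy)) hx)
    (by rw [map_mul, map_inv, e, inv_mul_cancel])
  exact inv_mul_eq_one.1 this ▸ hy

omit [Finite Q] in
theorem comm (h2 : IsPGroup 2 P) {x y : H} (hx : (x : G) ∈ P) (hy : (y : G) ∈ P)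
    (e : f x * f y = f y * f x) : (x : G) * y = y * x :=
  commutatorElement_eq_one_iff_mul_comm.1 (r.one h2 (x := ⁅x, y⁆)
    (der_le P (commutator_mem_commutator hx hy))
    (by rwa [map_commutatorElement, commutatorElement_eq_one_iff_mul_comm]))

omit [Finite G] [Finite Q] in
theorem lo (hL : Cp L ⊤) (n : ¬ down f A ≤ 𝒞 L) : Lo A (A ⊓ up f (𝒞 L)) f L :=
  ⟨r, hL, rfl, fun e => n ((down_le_iff' r.le).2 (inf_eq_left.1 e))⟩

end Br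

namespace Lo
variable (l : Lo A B f L)
include l

omit [Finite G] [Finite Q] in
theorem le' : B ≤ A := l.eq ▸ inf_le_left

omit [Finite G] [Finite Q] in
theorem nc : ¬ down f A ≤ 𝒞 L := fun e =>
  l.nA (l.eq.symm.trans (inf_eq_left.2 ((down_le_iff' l.le).1 e)))

omit [Finite G] [Finite Q] in
theorem mem {x : H} (hx : (x : G) ∈ A) : f x ∈ 𝒞 L ↔ (x : G) ∈ B := by
  rw [← l.eq, mem_inf, coe_mem_up, and_iff_right hx]

omit [Finite G] [Finite Q] in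
theorem dB : down f B = down f A ⊓ 𝒞 L := by rw [← l.eq, down_inf_up]

omit [Finite G] [Finite Q] in
theorem ri : B.relIndex A = (𝒞 L).relIndex (down f A) := by
  rw [← l.eq, inf_comm, inf_relIndex_right, ri_up f _ l.le]

omit [Finite Q] in
theorem cent (he : Elem 2 A) : L ≤ down f (H ⊓ 𝒞 B) := by
  rw [l.dc (l.le'.trans l.le) (he.mono l.le').pgroup, l.dB]
  exact cent_symm inf_le_right

variable (h : Mg S A)
include h

theorem four : 4 ≤ B.relIndex A := by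
  obtain ⟨P, -, -, s⟩ := l.exP h
  exact l.ri ▸ fourA s l.cp l.nc (h.elem.down f)

theorem uq (l' : Lo A B' f L') (e : B' ≤ B) : L' = L := by
  obtain ⟨P, -, -, s⟩ := l.exP h
  exact uniq s l.cp l.nc (h.elem.down f) l'.cp
    (l'.dB.ge.trans ((down_mono f e).trans (l.dB.le.trans inf_le_right)))

theorem norm : H ⊓ 𝒩 A ⊓ 𝒩 B ≤ 𝒩 (up f L) := fun g hg => by
  refine cj_eq_iff.1 ((up_cj f ⟨g, hg.1.1⟩ L).symm.trans (congrArg _
    (l.uq h ⟨l.toBr, l.cp.cj (le_norm ⊤ trivial), ?_, l.nA⟩ le_rfl)))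
  have := congrArg (cj g) l.eq
  rwa [cj_inf, cj_eq_of_mem_norm hg.1.2, cj_eq_of_mem_norm hg.2, ← up_cj f ⟨g, hg.1.1⟩,
    cj_cent] at this

theorem tr (hx : x ∈ A) (hy : y ∈ A) (x1 : x ∉ B) (y1 : y ∉ B) :
    ∃ d ∈ 𝒩 A ⊓ 𝒞 B, d * x * d⁻¹ * y⁻¹ ∈ B := by
  obtain ⟨P, -, -, s⟩ := l.exP h
  obtain ⟨g, ⟨g1, g2⟩, e⟩ := trA s l.cp l.nc (h.elem.down f) (x := f ⟨x, l.le hx⟩)
    (y := f ⟨y, l.le hy⟩) (mem_down_of_mem hx) (mem_down_of_mem hy) (mt (l.mem hx).1 x1)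
    (mt (l.mem hy).1 y1)
  obtain ⟨d, hd, rfl⟩ := mem_down.1 ((l.dn l.le h.elem.pgroup).ge g2)
  refine ⟨d, ⟨hd.2, mem_cent.2 fun b hb => commutatorElement_eq_one_iff_mul_comm.1
    (l.one h.elem.pgroup (x := ⁅(⟨b, l.le (l.le' hb)⟩ : H), d⁆)
      (comm_le_left le_rfl (commutator_mem_commutator (l.le' hb) hd.2)) ?_)⟩,
    (l.mem (x := d * ⟨x, l.le hx⟩ * d⁻¹ * (⟨y, l.le hy⟩ : H)⁻¹)
      (mul_mem (conj_mem_of_norm hd.2 hx) (inv_mem hy))).1 (by simpa only [map_mul, map_inv])⟩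
  rw [map_commutatorElement, commutatorElement_eq_one_iff_mul_comm]
  exact (mem_cent.1 ((l.mem (l.le' hb)).2 hb) _ g1).symm

theorem split : A ≤ A ⊓ up f L ⊔ B := fun a ha => by
  obtain ⟨P, -, -, s⟩ := l.exP h
  obtain ⟨_, ⟨⟨u, u1, rfl⟩, u2⟩, c, c1, e⟩ := splitA s l.cp l.nc (h.elem.down f)
    (mem_down_of_mem (x := ⟨a, l.le ha⟩) ha)
  have := (l.mem (x := u⁻¹ * ⟨a, l.le ha⟩) (mul_mem (inv_mem u1) ha)).1
    (by rw [map_mul, map_inv, ← e, inv_mul_cancel_left]; exact c1.2)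
  simpa using mul_mem_sup (mem_inf.2 ⟨u1, coe_mem_up.2 u2⟩ : (u : G) ∈ A ⊓ up f L) this

theorem Cc_le (h1 : 𝒞 B ≤ H) : Cc A B ≤ up f L := by
  have n : 𝒩 A ⊓ 𝒞 B ≤ 𝒩 (A ⊓ up f L) := le_norm_inf inf_le_left ((le_inf (le_inf
    (inf_le_right.trans h1) inf_le_left) (inf_le_right.trans (cent_le_norm B))).trans (l.norm h))
  refine (comm_mono (l.split h) le_rfl).trans ?_
  rw [sup_comm_of_cent (cent_symm inf_le_right)
    (l.le'.trans (h.elem.abel.le_norm ((comm_le_left n).trans inf_le_left)))]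
  exact (comm_le_left n).trans inf_le_right

theorem sup : A ≤ B ⊔ Cc A B := fun c hc => by_contra fun c1 => by
  have key : ∀ x ∈ A, ∀ y ∈ A, x ∉ B → y ∉ B → x * y⁻¹ ∈ B ⊔ Cc A B := fun x hx y hy x1 y1 => by
    obtain ⟨d, hd, e⟩ := l.tr h hx hy x1 y1
    have := mul_mem (mem_sup_right (S := B) (commutator_mem_commutator hx hd)) (mem_sup_left e)
    rwa [show ⁅x, d⁆ * (d * x * d⁻¹ * y⁻¹) = x * y⁻¹ by rw [commutatorElement_def]; group] at this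
  have := SFx.Hy.card ⟨l.le', fun x hx y hy x1 y1 => by_contra fun e => by
    have i := key _ (mul_mem hx hy) c hc e fun j => c1 (mem_sup_left j)
    have j := key x hx y⁻¹ (inv_mem hy) x1 (by simpa using y1)
    rw [inv_inv] at j
    exact c1 (inv_mem_iff.1 ((mul_mem_cancel_left j).1 i))⟩
  have := card_mul_ri l.le'
  have := l.four h
  have := card_pos' B
  nlinarith

theorem sz (h1 : 𝒞 B ≤ H) (h0 : B ⊓ Cc A B ≠ ⊥) :
    (∀ x ∈ H ⊓ 𝒩 A ⊓ 𝒩 B, (∃ m, x ^ 2 ^ m = 1) → ∀ a ∈ A, ⁅x, a⁆ ∈ B) ∧ ∀ a ∈ A, a ∉ B →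
      ∃ x ∈ 𝒩 A ⊓ 𝒞 B, (∃ m, x ^ 2 ^ m = 1) ∧ x * a = a * x ∧ x ∉ 𝒞 A := by
  obtain ⟨P, p1, p2, s⟩ := l.exP h
  obtain ⟨s1, s2⟩ := (cent_or s l.cp l.nc (h.elem.down f)).resolve_left fun e => h0
    (eq_bot_iff.2 fun z hz => l.one h.elem.pgroup (x := ⟨z, l.le (l.le' hz.1)⟩) (l.le' hz.1)
      (eq_one_of_mem (z0 s l.cp l.nc (h.elem.down f) e)
        ⟨coe_mem_up.1 (l.Cc_le h h1 hz.2), (l.mem (l.le' hz.1)).2 hz.1⟩))
  refine ⟨fun x hx ⟨m, hm⟩ a ha => (l.mem (x := ⁅(⟨x, hx.1.1⟩ : H), ⟨a, l.le ha⟩⁆)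
    (comm_le_right le_rfl (commutator_mem_commutator hx.1.2 ha))).1 ?_, fun a ha a1 => ?_⟩
  · rw [map_commutatorElement]
    exact s1 _ ⟨down_up l.surj L ▸ down_le_norm f le_rfl (mem_down_of_mem (l.norm h hx)),
      down_le_norm f le_rfl (mem_down_of_mem hx.1.2)⟩
      ⟨m, by rw [← map_pow, ← map_one f]; exact congrArg f (Subtype.ext hm)⟩ _ (mem_down_of_mem ha)
  obtain ⟨_, ⟨⟨x, x1, rfl⟩, x2⟩, x3, x4⟩ := s2 (f ⟨a, l.le ha⟩) (mem_down_of_mem ha)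
    (mt (l.mem ha).1 a1)
  exact ⟨x, ⟨(Ux.sc_of_le h.syl h.sc p1.isPGroup p2).le_norm le_top x1, mem_cent.2 fun b hb =>
    l.comm p1.isPGroup (x := ⟨b, l.le (l.le' hb)⟩) (p2 (l.le' hb)) x1
      (mem_cent.1 ((l.mem (l.le' hb)).2 hb) _ x2).symm⟩, isPGroup_iff_forall.1 p1.isPGroup _ x1,
    l.comm p1.isPGroup (y := ⟨a, l.le ha⟩) x1 (p2 ha) x3,
    fun e => x4 (down_le_cent f le_rfl (mem_down_of_mem e))⟩

/-- pump-up -/
theorem pu {R : Type} [Group R] [Finite R] {φ : 𝒞₁ b →* R} (r : Br A φ) (hb : b ∈ B) :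
    ∃ K, Cp K ⊤ ∧ ¬ down φ A ≤ 𝒞 K ∧ A ⊓ up φ (𝒞 K) ≤ B := by
  by_contra! hn
  have c := l.cp.mono (l.cent h.elem) le_top
  have J : H ⊓ 𝒞 B ≤ 𝒞₁ b := inf_le_right.trans (cent_le_cent1 hb)
  have AJ : A ≤ H ⊓ 𝒞 B := le_inf l.le (h.elem.abel.trans (cent_anti l.le'))
  have kk : ∀ Z, Z ≤ H ⊓ 𝒞 B → L ≤ down f Z → A ⊓ up φ (𝒞 (down φ Z)) ≤ B := fun Z z1 z2 x hx => by
    have xz := zpowers_le.2 (AJ hx.1)
    refine (l.mem (x := ⟨x, l.le hx.1⟩) hx.1).1 (zpowers_le.1 (comm_eq_bot_iff'.1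
      (comm_bot_of_perfect c.qs.perfect (comm_eq_bot_iff'.2 (le_trans ?_
        (c.cent_of_sol (Op_nrm {2}ᶜ _).sn (solvable_of_odd _ (odd_O2 _))))))))
    refine (comm_mono le_rfl z2).trans (le_trans ?_ (down_Op_le f _ _))
    rw [← down_zpowers, ← down_commutator f (xz.trans inf_le_left) (z1.trans inf_le_left)]
    refine down_mono f (le_trans (le_inf ?_ ((comm_le_sup _ _).trans (sup_le xz z1))) (Op_inf_le _ J))
    exact ((down_le_cent_iff' (xz.trans J) (z1.trans J)).1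
      ((down_le_iff' (xz.trans J)).2 (zpowers_le.2 hx.2))).trans r.ker.le
  obtain ⟨P, -, -, s⟩ := r.exP h
  refine l.nA (le_antisymm l.le' fun a ha => r.mem h.elem.pgroup l.le' (x := ⟨a, r.le ha⟩) ha
    (genA s (h.elem.down φ) ?_ (fun K hK n => ?_) (mem_down_of_mem ha)))
  · rw [← down_inf_up]
    refine down_mono φ (le_trans (inf_le_inf_left _ (up_mono φ (cent_anti ?_)))
      (kk _ (ncl_le' AJ) ?_))
    · rw [dncl φ J r.le]; exact ncl_mono le_top le_rfl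
    · rw [dncl f inf_le_left l.le]
      exact (c.le_or (ncl_nrm (down_mono f AJ)).sn).resolve_right
        fun e => l.nc ((le_ncl _ _).trans e)
  have sn : SN (up φ K ⊓ (H ⊓ 𝒞 B)) (H ⊓ 𝒞 B) := by
    have := SN.inf_right (K := up φ ⊤) ((hK.sn.comap φ).map (𝒞₁ b).subtype) (H ⊓ 𝒞 B)
    rwa [up_top, inf_eq_right.2 J] at this
  rcases c.le_or ((sn.comap H.subtype).map f) with e | e
  · exact (hn K hK n (le_trans (inf_le_inf_left _ (up_mono φ (cent_anti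
      ((down_mono φ inf_le_left).trans (down_up_le φ K))))) (kk _ inf_le_right e))).elim
  · rintro _ ⟨⟨x, hx, rfl⟩, i⟩
    exact mem_down_of_mem ((l.mem (x := ⟨x, l.le hx⟩) hx).1
      (e ⟨⟨x, l.le hx⟩, ⟨coe_mem_up.2 i, AJ hx⟩, rfl⟩))

end Lo

theorem Me.cj (h : Me A B) (hn : n ∈ 𝒩 A) : Me A (cj n B) := by
  obtain ⟨h0, H, Q, _, _, f, L, l⟩ := h
  have e : ∀ Y, up (f.comp (cjEquiv n H).symm.toMonoidHom) Y = L0.cj n (up f Y) := fun Y => by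
    ext x
    rw [mem_cj, mem_up, mem_up]
    have k : ∀ a : x ∈ L0.cj n H, (cjEquiv n H).symm ⟨x, a⟩ = ⟨_, mem_cj.1 a⟩ := fun a =>
      (cjEquiv n H).symm_apply_eq.2 (Subtype.ext (show x = n * (n⁻¹ * x * n) * n⁻¹ by group))
    exact ⟨fun ⟨a, b⟩ => ⟨mem_cj.1 a, k a ▸ b⟩, fun ⟨a, b⟩ =>
      ⟨mem_cj.2 a, (congrArg f (k (mem_cj.2 a))).symm ▸ b⟩⟩
  refine ⟨mt cj_eq_bot_iff.1 h0, L0.cj n H, Q, _, ‹_›, f.comp (cjEquiv n H).symm.toMonoidHom, L,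
    ⟨fun i => l.ne ((cj_inj n).1 (i.trans (cj_top n).symm)),
      (cj_eq_of_mem_norm hn).ge.trans (cj_mono n l.le), l.surj.comp (cjEquiv n H).symm.surjective,
      by rw [e, l.ker, cj_Op]⟩, l.cp, ?_, fun i => l.nA ((cj_inj n).1 (i.trans
        (cj_eq_of_mem_norm hn).symm))⟩
  rw [e, ← l.eq, cj_inf, cj_eq_of_mem_norm hn]

omit [Finite G] [Finite Q] in
theorem Br.self {φ : 𝒞₁ a →* Q} (r : Br A φ) (L : Subgroup Q) : a ∈ up φ (𝒞 L) :=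
  mem_up.2 ⟨self_mem_cent1 a, mem_cent.2 fun y _ => by
    obtain ⟨y, rfl⟩ := r.surj y
    rw [← map_mul, ← map_mul]
    exact congrArg φ (Subtype.ext (mem_cent1.1 y.2))⟩

omit [Finite G] in
theorem Me.le (h : Me A B) : B ≤ A := let ⟨_, _, _, _, _, _, _, l⟩ := h; l.le'

omit [Finite G] in
theorem Me.nA (h : Me A B) : B ≠ A := let ⟨_, _, _, _, _, _, _, l⟩ := h; l.nA

namespace Gd
variable (g : Gd A B)
include g

theorem cj (hn : n ∈ 𝒩 A) : Gd A (cj n B) := ⟨g.me.cj hn, fun D hD => card_cj n B ▸ g.min D hD⟩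

variable (h : Mg S A)
include h

theorem ex {φ : 𝒞₁ b →* Q} (r : Br A φ) (hb : b ∈ B) (b1 : b ≠ 1) : ∃ L, Lo A B φ L := by
  obtain ⟨-, H, R, _, _, f, L, l⟩ := g.me
  obtain ⟨K, k1, k2, k3⟩ := l.pu h r hb
  have := r.lo k1 k2
  exact ⟨K, eq_of_card_le k3 (g.min _ ⟨ne_bot_of_mem ⟨l.le' hb, r.self K⟩ b1, _, Q, _, ‹_›, φ, K,
    this⟩) ▸ this⟩

theorem ex' (hb : b ∈ B) (b1 : b ≠ 1) : ∃ (Q : Type) (_ : Group Q) (_ : Finite Q)
    (φ : 𝒞₁ b →* Q) (L : Subgroup Q), Lo A B φ L := by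
  obtain ⟨Q, _, _, φ, r⟩ := exBr1 h (g.me.le hb) b1
  obtain ⟨L, l⟩ := g.ex h r hb b1
  exact ⟨Q, _, ‹_›, φ, L, l⟩

theorem dich (g' : Gd A B') : B' = B ∨ Cc A B ≤ B' ∨ B ⊓ B' = ⊥ := by
  refine or_iff_not_imp_left.2 fun e => or_iff_not_imp_right.2 fun i => ?_
  obtain ⟨b, hb, b1⟩ := exists_ne_one i
  obtain ⟨Q, _, _, φ, L, l⟩ := g.ex' h hb.1 b1
  obtain ⟨L', l'⟩ := g'.ex h l.toBr hb.2 b1
  exact l'.eq ▸ le_inf Cc_le ((l.Cc_le h (cent_le_cent1 hb.1)).trans (up_mono φ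
    (l.cp.cent l'.cp fun j => e (l'.eq.symm.trans (j ▸ l.eq)))))

theorem sup : B ⊔ Cc A B = A := by
  obtain ⟨-, H, R, _, _, f, L, l⟩ := g.me
  exact le_antisymm (sup_le l.le' Cc_le) (l.sup h)

/-- covers of Suzuki groups do not occur -/
theorem inf : B ⊓ Cc A B = ⊥ := by
  by_contra h0
  obtain ⟨z, hz, z1⟩ := exists_ne_one h0
  obtain ⟨n, hn, e⟩ : ∃ n ∈ 𝒩 A, B ⊓ L0.cj n B = ⊥ := by
    by_contra! e
    refine g.me.nA (le_antisymm g.me.le (SFx.span h.irr ⟨g.me.le hz.1, z1⟩ fun n hn => ?_))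
    have := (g.dich h (g.cj (inv_mem hn))).elim (fun i => i.ge hz.1)
      fun i => i.resolve_right (e _ (inv_mem hn)) hz.2
    rwa [mem_cj, inv_inv] at this
  have g' := g.cj hn
  have h0' : L0.cj n B ⊓ Cc A (L0.cj n B) ≠ ⊥ := by rwa [← cj_Cc hn, ← cj_inf, Ne, cj_eq_bot_iff]
  have c := card_cj n B
  have a0 := conj_mem_cj (g := n) hz.1
  have a1 := conj_ne_one z1 n
  generalize L0.cj n B = D, n * z * n⁻¹ = a at *
  obtain ⟨Q, _, _, φ, L, l⟩ := g.ex' h hz.1 z1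
  obtain ⟨R, _, _, ψ, K, k⟩ := g'.ex' h a0 a1
  obtain ⟨s1, s2⟩ := l.sz h (cent_le_cent1 hz.1) h0
  obtain ⟨x, x1, x2, x3, x4⟩ := s2 a (k.le' a0) fun i => a1 (eq_one_of_mem e ⟨i, a0⟩)
  have xD : x ∈ 𝒩 D := by
    rcases g'.dich h (g'.cj x1.1) with i | i | i
    · exact cj_eq_iff.1 i
    · have n1 := h.elem.abel.le_norm k.le'
      have i1 := card_sup_mul (Cc_le.trans n1 : Cc A D ≤ 𝒩 D)
      have i2 := card_le (sup_le l.le' k.le')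
      have i3 := card_le i
      have i4 := one_lt_card h0'
      have i5 := card_pos' B
      rw [card_sup_of_inf (k.le'.trans (h.elem.abel.le_norm l.le')) e, c] at i2
      rw [card_cj, c] at i3
      rw [g'.sup h, c] at i1
      nlinarith
    · refine (a1 (eq_one_of_mem i ⟨a0, ?_⟩)).elim
      have := conj_mem_cj (g := x) a0
      rwa [x3, mul_inv_cancel_right] at this
  refine x4 (mem_cent.2 fun y hy => (commutatorElement_eq_one_iff_mul_comm.1 (eq_one_of_mem e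
    ⟨s1 x ⟨⟨cent_le_cent1 hz.1 x1.2, x1.1⟩, cent_le_norm B x1.2⟩ x2 y hy,
      (k.sz h (cent_le_cent1 a0) h0').1 x ⟨⟨mem_cent1.2 x3, x1.1⟩, xD⟩ x2 y hy⟩)).symm)

theorem dp : DP B (Cc A B) A :=
  ⟨g.sup h, Cc_le.trans (h.elem.abel.trans (cent_anti g.me.le)), g.inf h⟩

theorem fam : Fam A fun P => ∃ n ∈ 𝒩 A, L0.cj n B = P := by
  have k : ∀ P, (∃ n ∈ 𝒩 A, L0.cj n B = P) → Gd A P := fun P ⟨n, a, b⟩ => b ▸ g.cj a
  refine ⟨h.elem, h.irr, fun P ⟨m, a, b⟩ n hn => ⟨n * m, mul_mem hn a, by rw [cj_mul, b]⟩,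
    fun P P' ⟨m, a, b⟩ ⟨n, c, d⟩ => ⟨n * m⁻¹, mul_mem c (inv_mem a), by
      rw [← b, cj_mul, cj_inv_cj, d]⟩, fun P p => (k P p).dp h, fun P p => (k P p).me.1,
    fun P p => ?_, fun P p x hx y hy x1 y1 => ?_, fun P P' p p' => (k P p).dich h (k P' p')⟩
  all_goals obtain ⟨-, H, R, _, _, f, L, l⟩ := (k P p).me
  · exact ((k P p).dp h).sd.ri ▸ l.four h
  have i := (k P p).inf h
  obtain ⟨d, hd, e⟩ := l.tr h (Cc_le hx) (Cc_le hy) (fun j => x1 (eq_one_of_mem i ⟨j, hx⟩))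
    fun j => y1 (eq_one_of_mem i ⟨j, hy⟩)
  exact ⟨d, hd, mul_inv_eq_one.1 (eq_one_of_mem i
    (mem_inf.2 ⟨e, mul_mem (cj_Cc' hd ▸ conj_mem_cj hx) (inv_mem hy)⟩))⟩

end Gd

/-- the uniqueness subgroup -/
theorem ug (h : Mg S A) (h1 : M ≠ ⊤) (h2 : 𝒩 A ≤ M) (h3 : ∀ a ∈ A, a ≠ 1 → O2 (𝒞₁ a) ≤ M)
    (h4 : ∀ B, Me A B → 𝒞 B ≤ M) : UG S A M := ⟨h, h1, h2, fun a ha a1 => by
  obtain ⟨Q, _, _, f, r⟩ := exBr1 h ha a1
  obtain ⟨P, -, -, s⟩ := r.exP h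
  refine (le_of_down_le (f := f) le_rfl inf_le_left (le_inf (up_le _ _) (r.ker.le.trans (h3 a ha a1)))
    (le_top.trans (s.gen' ?_ fun L hL n => ?_))).trans inf_le_right
  · rw [top_inf_eq, ← r.dn r.le h.elem.pgroup]
    exact down_mono f (inf_le_inf_left _ h2)
  · exact ((r.lo hL n).cent h.elem).trans (down_mono f (inf_le_inf_left _
      (h4 _ ⟨ne_bot_of_mem ⟨ha, r.self L⟩ a1, _, Q, _, ‹_›, f, L, r.lo hL n⟩)))⟩

/-- balance -/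
theorem balG (h : Mg S A) (h8 : 8 ≤ ♯A) (h1 : H ≠ ⊤) (h2 : A ≤ H) (hE : E ≤ A) (h0 : E ≠ ⊥)
    (h3 : ∀ e ∈ E, e ≠ 1 → X ≤ O2 (𝒞₁ e))
    (h4 : ∀ B, Me A B → E ⊓ B = ⊥ → 8 ≤ B.relIndex A) : X ⊓ H ≤ O2 H := by
  obtain ⟨Q, _, _, f, r⟩ := exBr h1 h2
  obtain ⟨P, -, -, s⟩ := r.exP h
  refine ((down_eq_bot_iff inf_le_right).1 (balE s (h.elem.down f) (down_mono f hE) (fun e => h0
    (eq_bot_of_le (r.k0 h.elem.pgroup) (le_inf ((down_eq_bot_iff (hE.trans h2)).1 e) hE))) ?_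
    fun L hL n e => ?_)).trans r.ker.le
  · rintro _ ⟨e, he, rfl⟩ e1
    rw [← down_top r.surj, ← down_cent1 r.ker (SFx.sq1 h.elem (hE he))]
    refine le_trans (down_mono f (le_trans (le_inf (inf_le_left.trans (h3 e he fun i => e1 ?_))
      (le_inf inf_le_right (inf_le_left.trans ((h3 e he fun i => e1 ?_).trans (Op_le _ _)))))
      (Op_inf_le _ inf_le_right))) (down_Op_le f _ _) <;>
    rw [show e = 1 from Subtype.ext i, map_one]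
  have l := r.lo hL n
  rw [← l.ri]
  by_cases i : A ⊓ up f (𝒞 L) = ⊥
  · rwa [i, relIndex_bot_left]
  refine h4 _ ⟨i, _, Q, _, ‹_›, f, L, l⟩ (eq_bot_of_le (r.k0 h.elem.pgroup) (le_inf
    ((down_eq_bot_iff (inf_le_left.trans (hE.trans h2))).1 (eq_bot_of_le e ?_))
    (inf_le_left.trans hE)))
  rw [← down_inf_up]
  exact down_mono f (inf_le_inf_left _ inf_le_right)

theorem Mg.nb (h : Mg S A) : A ≠ ⊥ := ne_bot_of_card (by have := h.four; omega)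

theorem Mg.nn (h : Mg S A) (h1 : X ≠ ⊥) (h2 : X ≤ 𝒞₁ a) (a1 : a ≠ 1) : 𝒩 X ≠ ⊤ :=
  GW.Mx.norm_ne_top' h.simple h1 (ne_top_of_le_ne_top (Fx.cent1_ne h.simple h.nab a1) h2)

theorem Mg.no (h : Mg S A) (h1 : X ≠ ⊥) (h2 : Odd ♯X) : 𝒩 X ≠ ⊤ :=
  GW.Mx.norm_ne_top' h.simple h1 fun e => Mg.nb h (eq_bot_of_le
    (inf_eq_bot_of_cop (SFx.cop2 h.elem h2)) (le_inf (le_top.trans e.ge) le_rfl))

/-- no members -/
theorem case3 (h : Mg S A) (h8 : 8 ≤ ♯A) (h0 : ∀ B, ¬ Me A B) : ∃ M, UG S A M := by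
  obtain ⟨W, w1, w2, w3⟩ := SFx.sf G A FT.oddOrder h.simple h.elem h8 h.irr fun H h1 h2 a ha a1 =>
    balG h h8 h1 h2 (zpowers_le.2 ha) (zpowers_ne_bot.2 a1)
      (fun e he e1 => ((Ux.zpow_cases (h.elem.pow ha) he).resolve_left e1).symm ▸ le_rfl)
      fun B hB => (h0 B hB).elim
  by_cases e : W = ⊥
  · obtain ⟨a, ha, a1⟩ := exists_ne_one (Mg.nb h)
    exact ⟨_, ug h (Mg.nn h (Mg.nb h) (h.elem.abel.trans (cent_le_cent1 ha)) a1) le_rfl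
      (fun a ha a1 => by rw [← w3 a ha a1, e, bot_inf_eq]; exact bot_le) fun B hB => (h0 B hB).elim⟩
  · exact ⟨_, ug h (Mg.no h e w1) w2 (fun a ha a1 => (w3 a ha a1).ge.trans
      (inf_le_left.trans (le_norm W))) fun B hB => (h0 B hB).elim⟩

end Cfsg.GS.Yx
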