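import Cfsg.Agent.GS.PF2
import Cfsg.Agent.GS.Y4

/-! Commuting strongly closed subgroups, 3: the disjoint case `PF0`. -/

set_option autoImplicit false
set_option linter.unusedSectionVars false

namespace Cfsg.GS.PFx

open Subgroup Cfsg.L0 Cfsg.H8 Cfsg.FT Cfsg.BS Cfsg.BS.R Cfsg.GS.T3 Cfsg.GS.T4 Cfsg.GS.SFx
open scoped commutatorElement

variable {G : Type} [Group G] [Finite G] {A B H M N S : Subgroup G}

theorem nK (A : Subgroup G) : ncl ⊤ A ⊴ ⊤ := Kx.ncl_nrm le_top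

/-- a normal subgroup with central Sylow `2`-subgroup -/
theorem le_syl (o : O2 (⊤ : Subgroup G) = ⊥) (hS : IsSyl 2 S ⊤) (hN : N ⊴ ⊤)
    (h : ∀ P : Subgroup G, IsPGroup 2 P → P ≤ N → P ≤ 𝒞 N) : N ≤ S := by
  haveI := Fact.mk Nat.prime_two
  obtain ⟨P, hP⟩ := exists_isSyl 2 N
  have e := (npc_sd Nat.prime_two (burnside Nat.prime_two hP (inf_le_left.trans
    (cent_symm (h P hP.isPGroup hP.le)))) hP).sup
  rw [eq_bot_of_le o (Op_le_Op_of_nrm _ hN), bot_sup_eq] at e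
  exact hS.le_of_normalizes (e ▸ hP.isPGroup) le_top (le_top.trans hN.norm)

/-- the induction hypothesis -/
def IH (n : ℕ) : Prop := ∀ (G : Type) [Group G] [Finite G] (H S A B : Subgroup G), ♯H < n →
  Hp H S A B → ⁅ncl H A, ncl H B⁆ ≤ O2 H

namespace Hp

theorem down (h : Hp H S A B) {Q : Type} [Group Q] [Finite Q] (f : H →* Q)
    (hk : ∀ x ∈ A, ∀ y ∈ B, x⁻¹ * y ∈ up f ⊥ → x ∈ up f ⊥) :
    Hp (down f H) (down f S) (down f A) (down f B) := by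
  haveI := Fact.mk Nat.prime_two
  refine ⟨h.syl.down f le_rfl, h.scA.down h.syl f le_rfl, h.scB.down h.syl f le_rfl,
    down_le_cent f h.cm, eq_bot_iff.2 ?_⟩
  rintro _ ⟨⟨x, hx, rfl⟩, y, hy, e⟩
  exact coe_mem_up.1 (hk x hx y hy ((coe_mem_up (x := x⁻¹ * y)).2 (by simp [e])))

theorem dn (h : Hp H S A B) {Q : Type} [Group Q] [Finite Q] (f : H →* Q) :
    H8.down f ⁅ncl H A, ncl H B⁆ =
      ⁅ncl (H8.down f H) (H8.down f A), ncl (H8.down f H) (H8.down f B)⁆ := by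
  have a := h.scA.le.trans h.syl.le
  have b := h.scB.le.trans h.syl.le
  rw [down_commutator f (Kx.ncl_le' a) (Kx.ncl_le' b), Yx.dncl f le_rfl a, Yx.dncl f le_rfl b]

variable (h : Hp ⊤ S A B)
include h

theorem nrm (l : ⁅ncl ⊤ A, ncl ⊤ B⁆ ≤ S) : ncl ⊤ A ≤ 𝒩 B := fun k hk =>
  mem_normalizer_of_forall fun y hy => h.scB.conj hy trivial (by
    simpa [commutatorElement_def] using mul_mem (l (commutator_mem_commutator hk
      (le_ncl ⊤ B hy))) (h.scB.le hy))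

/-- (E) -/
theorem eE (l : ⁅ncl ⊤ A, ncl ⊤ B⁆ ≤ S) : ⁅ncl ⊤ A, ncl ⊤ B⁆ = ⊥ := by
  have n := h.symm.nrm (Subgroup.commutator_comm (ncl ⊤ A) _ ▸ l)
  refine comm_eq_bot_iff'.2 (ncl_le (cent_symm (ncl_le_iff.2 fun g _ => ?_))
    (le_norm_cent (nK B).norm))
  refine le_cent_of_inf_eq_bot ((cj_le_ncl B (mem_top g)).trans n) ((le_ncl ⊤ A).trans ?_)
    (eq_bot_iff.2 fun x hx => h.dis.le ⟨hx.2, ?_⟩)
  · rw [← cj_norm, ← (nK A).cj_eq (mem_top g)]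
    exact cj_mono g (h.nrm l)
  · simpa [mul_assoc] using h.scB.conj (mem_cj.1 hx.1) (mem_top g)
      (by simpa [mul_assoc] using h.scA.le hx.2)

theorem quo (ih : IH (♯(⊤ : Subgroup G))) (o : O2 (⊤ : Subgroup G) = ⊥) (hN : N ⊴ ⊤) (n0 : N ≠ ⊥)
    (c : ncl ⊤ B ⊓ N ≤ 𝒞 (ncl ⊤ B)) (hk : ∀ x ∈ A, ∀ y ∈ B, x⁻¹ * y ∈ N → x ∈ N) :
    ⁅ncl ⊤ A, ncl ⊤ B⁆ = ⊥ := by
  obtain ⟨Q, _, _, f, -, rfl⟩ := exists_quo0 hN
  have r := ih Q _ _ _ _ (card_down_lt le_rfl (by rwa [inf_top_eq])) (h.down f hk)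
  rw [← h.dn f] at r
  have l : ⁅ncl ⊤ A, ncl ⊤ B⁆ ≤ ncl ⊤ B := comm_le_right (le_top.trans (nK B).norm)
  refine h.eE (le_syl o h.syl ((nK A).comm (nK B)) fun P p1 p2 =>
    (le_inf (p2.trans l) ((down_eq_bot_iff le_top).1 ?_)).trans (c.trans (cent_anti l)))
  by_contra q
  exact (odd_of_le (odd_O2 _) ((down_mono f p2).trans r)).not_two_dvd_nat
    (dvd_card_of_pgroup Nat.prime_two (isPGroup_down f p1) q)

/-- (Q) -/
theorem qQ (ih : IH (♯(⊤ : Subgroup G))) (o : O2 (⊤ : Subgroup G) = ⊥) (n0 : 𝒞 (ncl ⊤ B) ≠ ⊥) :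
    ⁅ncl ⊤ A, ncl ⊤ B⁆ = ⊥ := by
  haveI := Fact.mk Nat.prime_two
  refine h.quo ih o ⟨le_top, le_norm_cent (nK B).norm⟩ n0 inf_le_right fun x hx y hy c => ?_
  have := zstarA (h.syl.inf le_top (le_top.trans (nK B).norm)) ⟨h.scB.le hy, le_ncl ⊤ B hy⟩
    fun k hk q => by
      have e : x⁻¹ * (k * x * k⁻¹) = y⁻¹ * (k * y * k⁻¹) := by
        have c1 := mem_cent.1 c k hk
        have c2 := (mem_cent.1 (h.cm hx) y hy).symm
        have c3 := mem_cent.1 c _ (conj_mem_of_norm (le_norm _ hk) (le_ncl ⊤ B hy))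
        calc _ = x⁻¹ * (k * y * k⁻¹) * k * (y⁻¹ * x) * k⁻¹ := by group
          _ = x⁻¹ * (k * y * k⁻¹) * (k * (x⁻¹ * y) * k⁻¹)⁻¹ := by group
          _ = (x⁻¹ * y) * y⁻¹ * (k * y * k⁻¹) * (x⁻¹ * y)⁻¹ := by rw [c1]; group
          _ = _ := by
            rw [mul_assoc (x⁻¹ * y), ← mem_cent.1 c _ (mul_mem (inv_mem (le_ncl ⊤ B hy))
              (conj_mem_of_norm (le_norm _ hk) (le_ncl ⊤ B hy)))]; group
      have b := mul_mem (inv_mem hy) (h.scB.conj hy trivial q.1)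
      have a := h.scA.conj hx (mem_top k) ((mul_mem_cancel_left (inv_mem (h.scA.le hx))).1
        (e ▸ h.scB.le b))
      exact (inv_mul_eq_one.1 (eq_one_of_mem h.dis (mem_inf.2
        ⟨e ▸ mul_mem (inv_mem hx) a, b⟩))).symm
  have m : y ∈ 𝒞 (ncl ⊤ B) := mem_cent.2 fun k hk => commutatorElement_eq_one_iff_mul_comm.1
    (eq_one_of_mem o (Op_le_Op_of_nrm _ (nK B) (this k hk)))
  exact inv_mem_iff.1 ((mul_mem_cancel_right m).1 c)

theorem cen (ih : IH (♯(⊤ : Subgroup G))) (o : O2 (⊤ : Subgroup G) = ⊥) {a : G} (ha : a ∈ A)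
    (a1 : a ≠ 1) (c : 𝒞₁ a = ⊤) : ⁅ncl ⊤ A, ncl ⊤ B⁆ = ⊥ := by
  have z : zpowers a ≤ 𝒞 ⊤ := cent_symm (by rw [cent_zpowers, c])
  refine h.quo ih o ⟨le_top, le_norm_of_le_cent (cent_symm z)⟩ (ne_bot_of_mem (mem_zpowers a) a1)
    (inf_le_right.trans (z.trans (cent_anti le_top))) fun x hx y hy q => ?_
  rw [eq_one_of_mem h.dis ⟨(mul_mem_cancel_left (inv_mem hx)).1 (zpowers_le.2 ha q), hy⟩] at q
  simpa using q

theorem exI (ne : A ≠ ⊥) : ∃ a ∈ A, Ivo a :=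
  (exists_orderOf_eq Nat.prime_two (dvd_card_of_pgroup Nat.prime_two
    (h.syl.isPGroup.to_le h.scA.le) ne)).imp fun _ q => ⟨q.1, ivo_of_orderOf q.2⟩

theorem core (ih : IH (♯(⊤ : Subgroup G))) (o : O2 (⊤ : Subgroup G) = ⊥) :
    ⁅ncl ⊤ A, ncl ⊤ B⁆ = ⊥ := by
  by_contra hc
  have m : PM S A B := ⟨h, o, fun a ha a1 q => hc (h.cen ih o ha a1.1 q), fun a ha a1 q =>
    hc ((Subgroup.commutator_comm _ _).trans (h.symm.cen ih o ha a1.1 q)), fun H T C D hH =>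
      ih G H T C D (card_lt hH.lt_top)⟩
  have b0 : ∀ B : Subgroup G, B = ⊥ → ncl ⊤ B = ⊥ := fun B e =>
    eq_bot_iff.2 (ncl_le e.le (norm_bot (X := G)).ge)
  obtain ⟨a, ha, a1⟩ := h.exI fun e => hc (by rw [b0 A e]; simp)
  obtain ⟨b, hb, b1⟩ := h.symm.exI fun e => hc (by rw [b0 B e]; simp)
  have n := m.symm.pr.nrm ⊤
  have h' : Hp ⊤ S A (B ⊓ JH (Ic B) ⊤) := ⟨h.syl, h.scA, ⟨inf_le_left.trans h.scB.le,
    fun x hx g hg q => ⟨h.scB.conj hx.1 hg q, n.conj_mem hg hx.2⟩⟩,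
    h.cm.trans (cent_anti inf_le_left), eq_bot_of_le h.dis (inf_le_inf_left _ inf_le_left)⟩
  have j : JH (Ic B) ⊤ ≤ 𝒞₁ a :=
    (closure_le _).2 fun t ht => mem_cent1.2 (m.main (mem_Ic a1 ha) ht.1).symm
  have k := h'.qQ ih o (ne_bot_of_mem (cent_anti (ncl_le inf_le_right n.norm)
    (le_cent1_iff.1 j)) a1.1)
  exact hc ((Subgroup.commutator_comm _ _).trans (h.symm.qQ ih o (ne_bot_of_mem
    (comm_eq_bot_iff.1 k (le_ncl ⊤ _ (mem_inf.2 ⟨hb, mem_JH (mem_Ic b1 hb) trivial⟩))) b1.1)))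

end Hp

theorem ih_all (n : ℕ) : IH n := by
  induction n using Nat.strong_induction_on with
  | _ n ih =>
  intro G _ _ H S A B hn h
  obtain ⟨Q, _, _, f, hf, hk⟩ := exists_quo0 (Op_nrm {2}ᶜ H)
  have d := h.down f fun x hx y hy q => by
    have s := mul_mem (inv_mem (h.scA.le hx)) (h.scB.le hy)
    rw [hk] at q
    have := eq_one_of_mem (inf_eq_bot_of_cop (cop_of_pgroup Nat.prime_two h.syl.isPGroup
      (odd_O2 H).not_two_dvd_nat)) ⟨s, q⟩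
    rw [eq_one_of_mem h.dis ⟨hx, inv_mul_eq_one.1 this ▸ hy⟩]
    exact one_mem _
  have o := Op_down_eq_bot le_rfl hk
  have l := (Nat.le_of_dvd (card_pos' H) (card_down_dvd f H)).trans_lt hn
  have e := h.dn f
  rw [down_top hf] at d o l e
  rw [d.core (ih _ l) o, down_eq_bot_iff ((comm_le_sup _ _).trans (sup_le
    (Kx.ncl_le' (h.scA.le.trans h.syl.le)) (Kx.ncl_le' (h.scB.le.trans h.syl.le))))] at e
  exact e.trans hk.le

theorem pf0' (h : Hp H S A B) : ⁅ncl H A, ncl H B⁆ ≤ O2 H :=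
  ih_all _ G H S A B (Nat.lt_succ_self _) h

theorem pf0 : PF0 := fun _ _ _ _ _ _ h1 h2 h3 h4 h5 => pf0' ⟨h1, h2, h3, h4, h5⟩

end Cfsg.GS.PFx
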