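import Cfsg.Agent.GS.PF3

/-! Commuting strongly closed subgroups, 4: the general case, from `GoldSimple`. -/

set_option autoImplicit false
set_option linter.unusedSectionVars false

namespace Cfsg.GS.PFx

open Subgroup Cfsg.L0 Cfsg.H8 Cfsg.FT Cfsg.BS Cfsg.BS.R Cfsg.GS.T3 Cfsg.GS.T4 Cfsg.GS.Kx
open scoped commutatorElement

/-- the hypotheses of `PF` -/
structure Pq {G : Type} [Group G] (H S A B : Subgroup G) : Prop where
  syl : IsSyl 2 S H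
  scA : SC A S H
  scB : SC B S H
  cm : A ≤ 𝒞 B

/-- the induction hypothesis -/
def IH2 (n : ℕ) : Prop := ∀ (G : Type) [Group G] [Finite G] (H S A B : Subgroup G), ♯H < n →
  Pq H S A B → ⁅ncl H A, ncl H B⁆ ≤ ncl H (A ⊓ B) ⊔ O2 H

variable {G : Type} [Group G] [Finite G] {A B C D H L M N S : Subgroup G} {c g l x y : G}

theorem split0 (hS : IsSyl 2 S H) (hL : Cp L H) (h1 : x ∈ S) (h2 : x ∈ L ⊔ 𝒞 L) :
    ∃ l ∈ S ⊓ L, ∃ c ∈ S ⊓ 𝒞 L, l * c = x := by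
  haveI := Fact.mk Nat.prime_two
  have nL := sup_le (le_norm L) (cent_le_norm L) h2
  obtain ⟨l, l1, c, c1, rfl⟩ := (mem_sup_l (cent_le_norm L)).1 h2
  obtain ⟨a, a1, b, b1, a2, b2, e⟩ := exists_piPart {2} l
  have aL := zpowers_le.2 l1 a1
  have n : a ∈ 𝒩 (S ⊓ L) := by
    have n : l ∈ 𝒩 (S ⊓ L) := (mul_mem_cancel_right (le_norm_of_cent le_rfl inf_le_right c1)).1
      (zpowers_le.1 (le_norm_inf (zpowers_le.2 (le_norm S h1)) (zpowers_le.2 nL)))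
    exact zpowers_le.2 n a1
  have s := (hL.syl hS).mem_of_mem_normalizer aL (isPGroup_iff_forall.1
    ((piG_zpowers.2 a2).pgroup Nat.prime_two) a (mem_zpowers a)) n
  have bc : b * c ∈ S := (mul_mem_cancel_left (mem_inf.1 s).1).1 (by rwa [← mul_assoc, e])
  refine ⟨a, s, b * c, ⟨bc, mul_mem ?_ c1⟩, by rw [← mul_assoc, e]⟩
  have cm : Commute b c := mem_cent.1 c1 b (zpowers_le.2 l1 b1)
  obtain ⟨k, hk⟩ := isPGroup_iff_forall.1 hS.isPGroup _ bc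
  rw [cm.mul_pow, mul_eq_one_iff_eq_inv] at hk
  exact mem_of_pow_mem (((piNat_compl_single Nat.prime_two).1 b2 |>
    Nat.prime_two.coprime_iff_not_dvd.2).symm.pow_right k)
    (by rw [pow_orderOf_eq_one]; exact one_mem _) (hk ▸ inv_mem (pow_mem c1 _))

/-- `⟨A^G⟩` is semisimple -/
structure Ss {G : Type} [Group G] (S A : Subgroup G) : Prop extends St ⊤ S A where
  o2 : A ⊓ Op {2} ⊤ = ⊥

namespace Ss
variable (h : Ss S A) (hL : Cp L ⊤) (hK : L ≤ ncl ⊤ A)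
include h hL hK

theorem z0 : 𝒵 L = ⊥ :=
  eq_bot_of_le h.o2 (le_inf (Yx.zA h.toSt hL ((h.le_iff hL).1 hK)) (hL.ctr_le h.o))

theorem ex : ∃ a ∈ A ⊓ L, a ≠ 1 := by
  haveI := Fact.mk Nat.prime_two
  obtain ⟨a, ha, e⟩ := exists_orderOf_eq Nat.prime_two (dvd_card_of_pgroup Nat.prime_two
    (hL.syl h.syl).isPGroup ((hL.syl h.syl).ne_bot hL.even))
  exact ⟨a, ⟨h.om ha.1 (hK ha.2) (ivo_of_orderOf e).2, ha.2⟩, (ivo_of_orderOf e).1⟩

theorem gb : (∀ x ∈ A ⊓ L, x * x = 1) ∧ (S ⊓ L ≤ A ∨ RB L (S ⊓ L)) := by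
  haveI := Fact.mk Nat.prime_two
  obtain ⟨a, ha, a1⟩ := h.ex hL hK
  have ab := h.ab.mono (inf_le_left (b := L))
  obtain ⟨-, e, r⟩ := h.gold.hg G L (Nx.smp_of_qs hL.qs (h.z0 hL hK) hL.even)
    (involves_of_le le_top) _ _ (hL.syl h.syl) (h.sc.inf le_top) (ne_bot_of_mem ha a1) ab
  refine ⟨fun x hx => (pow_two x).symm.trans ((ab.elem_Om 2).pow ?_), r.imp (·.trans inf_le_left) id⟩
  exact (Om_le_iff.2 fun y hy y2 => mem_Om (e.ge (mem_Om hy y2)) y2) (e.le hx)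

theorem proj (sc : SC C S ⊤) (h1 : A ≤ C) (hl : l ∈ S ⊓ L) (hc : c ∈ S ⊓ 𝒞 L) (h2 : l * c ∈ C) :
    l ∈ C := by
  rcases (h.gb hL hK).2 with r | r
  · exact h1 (r hl)
  by_cases q : l ^ 2 = 1
  · exact h1 (h.om hl.1 (hK hl.2) ((pow_two l).symm.trans q))
  obtain ⟨y, hy, -, -, f1, -, f2, -⟩ := r.seven l hl q
  have k : ∀ y ∈ S ⊓ L, Fus L (S ⊓ L) l y → y * c ∈ C := by
    rintro _ hy ⟨g, hg, z, hz, z2, rfl⟩
    have e : g * (l * c) * g⁻¹ = g * l * g⁻¹ * c := by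
      rw [mul_assoc _ _ c, mem_cent.1 hc.2 _ (inv_mem hg)]; group
    rw [mul_assoc, mem_cent.1 hc.2 z hz.2, ← mul_assoc, ← e]
    exact mul_mem (sc.conj h2 trivial (e ▸ mul_mem ((mul_mem_cancel_right hz).1 hy).1 hc.1))
      (h1 (h.om hz.1 (hK hz.2) ((pow_two z).symm.trans z2)))
  simpa [mul_assoc] using mul_mem (k _ (mul_mem hl hy) f2) (inv_mem (k y hy f1))

theorem cK (g : G) : cj g L ≤ ncl ⊤ A := (cj_mono g hK).trans (h.nrm.cj_eq (mem_top g)).le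

theorem zN : ncl ⊤ L ⊓ 𝒞 (ncl ⊤ L) = ⊥ := by
  have n : ncl ⊤ L ⊓ 𝒞 (ncl ⊤ L) ⊴ ⊤ := (nK L).ctr
  have s := le_syl h.o h.syl n fun P _ p => p.trans (inf_le_right.trans (cent_anti inf_le_left))
  have p := h.syl.isPGroup.to_le s
  by_contra q
  obtain ⟨a, ha, e⟩ := exists_orderOf_eq Nat.prime_two (dvd_card_of_pgroup Nat.prime_two p q)
  exact (ivo_of_orderOf e).1 (eq_one_of_mem h.o2 ⟨h.om (s ha) (ncl_le hK h.nrm.norm ha.1)
    (ivo_of_orderOf e).2, le_Op_p Nat.prime_two p n ha⟩)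

theorem peel (sc : SC C S ⊤) (h1 : A ≤ C) (d1 : D ≤ C) (d2 : D ≤ ncl ⊤ L)
    (d3 : ∀ g, C ⊓ cj g L ≤ D) (hy : y ∈ C) (y2 : y ∈ ncl ⊤ L ⊔ 𝒞 (ncl ⊤ L)) :
    ∃ t ∈ D, t⁻¹ * y ∈ 𝒞 (ncl ⊤ L) := by
  have cp : ∀ g, Cp (cj g L) ⊤ := fun g => hL.cj (le_norm ⊤ (mem_top g))
  have : ∀ s : Set (Subgroup G), s.Finite → (∀ M ∈ s, ∃ g, M = cj g L) →
      ∃ t ∈ D, ∀ M ∈ s, t⁻¹ * y ∈ 𝒞 M := by
    intro s hs
    induction s, hs using Set.Finite.induction_on with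
    | empty => exact fun _ => ⟨1, one_mem _, fun _ q => q.elim⟩
    | @insert M s _ _ ih =>
      intro q
      obtain ⟨t, t1, t2⟩ := ih fun M hM => q M (.inr hM)
      obtain ⟨g, rfl⟩ := q M (.inl rfl)
      have m := mul_mem (inv_mem (d1 t1)) hy
      obtain ⟨l, hl, c, hc, e⟩ := split0 h.syl (cp g) (sc.le m) (sup_le ((ncl_le hK
        h.nrm.norm).trans (h.le_sup (cp g))) ((cent_anti (cj_le_ncl L (mem_top g))).trans
          le_sup_right) (mul_mem (inv_mem (mem_sup_left (d2 t1))) y2))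
      have e' : (t * l)⁻¹ * y = c := by rw [mul_inv_rev, mul_assoc, ← e]; group
      refine ⟨t * l, mul_mem t1 (d3 g ⟨h.proj (cp g) (h.cK hL hK g) sc h1 hl hc (e ▸ m), hl.2⟩),
        fun M hM => ?_⟩
      by_cases i : cj g L = M
      · exact i ▸ e' ▸ hc.2
      obtain ⟨u, rfl⟩ := q M hM
      rw [mul_inv_rev, mul_assoc]
      exact mul_mem (inv_mem ((cp g).cent (cp u) i hl.2)) (t2 _ (hM.resolve_left (Ne.symm i)))
  obtain ⟨t, t1, t2⟩ := this {M | ∃ g, M = cj g L} (Set.toFinite _) fun _ q => q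
  exact ⟨t, t1, le_cent1_iff.1 (ncl_le_iff.2 fun g _ => le_cent1_iff.2 (t2 _ ⟨g, rfl⟩))⟩

theorem inv (sc : SC C S ⊤) (h2 : C ⊓ L ≤ A) (g : G) : C ⊓ cj g L ≤ A := by
  haveI := Fact.mk Nat.prime_two
  have sc' : SC (C ⊓ ncl ⊤ A) S ⊤ := ⟨inf_le_left.trans sc.le, fun x hx g hg q =>
    ⟨sc.conj hx.1 hg q, h.nrm.conj_mem hg hx.2⟩⟩
  obtain ⟨k, hk, n, hn, rfl⟩ := sc_frat h.syl sc' h.nrm inf_le_right (mem_top g)
  rw [cj_mul, cj_eq_of_mem_norm (h.norm (hL.cj (le_norm ⊤ (mem_top n))) hk)]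
  intro x hx
  have x1 := h.cK hL hK n hx.2
  have x2 := mem_cj.1 hx.2
  have := (h.gb hL hK).1 _ ⟨h2 ⟨(conj_mem_of_norm' hn.2 (mem_inf.2 ⟨hx.1, x1⟩)).1, x2⟩, x2⟩
  refine h.om (sc.le hx.1) x1 ?_
  calc _ = n * (n⁻¹ * x * n * (n⁻¹ * x * n)) * n⁻¹ := by group
    _ = 1 := by rw [this]; group

theorem star (sc : SC C S ⊤) (h1 : A ≤ C) (h2 : C ⊓ L ≤ A) (h3 : C ≤ 𝒞 A) :
    C ≤ ncl ⊤ L ⊔ 𝒞 (ncl ⊤ L) := fun x hx => by
  haveI := Fact.mk Nat.prime_two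
  have cN : ncl ⊤ L ⊓ C ≤ A := fun y hy => by
    obtain ⟨t, t1, t2⟩ := h.peel hL hK (D := A ⊓ ncl ⊤ L) sc h1 (inf_le_left.trans h1) inf_le_right
      (fun g => le_inf (h.inv hL hK sc h2 g) (inf_le_right.trans (cj_le_ncl L (mem_top g)))) hy.2
      (mem_sup_left hy.1)
    exact inv_mul_eq_one.1 (eq_one_of_mem (h.zN hL hK)
      (mem_inf.2 ⟨mul_mem (inv_mem (mem_inf.1 t1).2) hy.1, t2⟩)) ▸ t1.1
  have n := nK L
  have cl : ∀ g, cj g L ≤ ncl ⊤ L := fun g => cj_le_ncl L (mem_top g)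
  have gen : ∀ K, (∀ g, cj g L ≤ K) → ncl ⊤ L ≤ K := fun K q => ncl_le_iff.2 fun g _ => q g
  generalize ncl ⊤ L = N at *
  have xn : zpowers x ≤ 𝒩 N := le_top.trans n.norm
  have xS := zpowers_le.2 (sc.le hx)
  have sy : IsSyl 2 (S ⊓ (zpowers x ⊔ N)) (zpowers x ⊔ N) := isSyl_of_maximal inf_le_right
    (h.syl.isPGroup.to_le inf_le_left) fun Q q1 q2 q3 => by
      refine le_inf ((le_inf q3 le_rfl).trans ?_) q3
      rw [dedekind_l ((le_inf xS le_sup_left).trans q2) xn, (h.syl.inf le_top (le_top.trans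
        n.norm)).eq_of_le (q1.to_le inf_le_right) (le_inf inf_le_right
          ((inf_le_inf_left _ le_sup_right).trans q2)) inf_le_left]
      exact sup_le xS inf_le_left
  have o : O2 (zpowers x ⊔ N) ≤ N := le_of_cop_ri (sup_le xn (le_norm N)) (Op_le _ _) (by
    rw [sup_comm, ri_sup xn]
    exact (cop_of_pgroup Nat.prime_two (h.syl.isPGroup.to_le xS) (odd_O2 _).not_two_dvd_nat
      ).symm.coprime_dvd_right (ri_dvd_card _ _))
  have st : St (zpowers x ⊔ N) (S ⊓ (zpowers x ⊔ N)) (C ⊓ (zpowers x ⊔ N)) :=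
    ⟨h.gold.mono (involves_of_le le_top), eq_bot_of_le h.o ((le_O2 (odd_O2 _)
      ((Op_nrm _ _).mono o le_sup_right)).trans (Op_le_Op_of_nrm _ n)), sy, sc.inf le_top, by
      rw [inf_comm, dedekind_l (zpowers_le.2 hx) xn]
      exact (abel_sup (cyc_zpowers x).abel h.ab (zpowers_le.2 (h3 hx))).mono
        (sup_le_sup_left cN _)⟩
  refine st.gen (inf_le_right.trans ((cent_anti (gen _ fun g => ?_)).trans le_sup_right))
    (fun M m _ => m.qs.perfect.ge.trans ((der_mono (m.le.trans (sup_comm _ _).le)).trans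
      ((der_sup_le xn).trans (sup_le le_sup_left ?_))))
    (le_ncl _ _ ⟨hx, mem_sup_left (mem_zpowers x)⟩)
  · have cp := hL.cj (le_norm ⊤ (mem_top g))
    obtain ⟨a, ha, a1⟩ := h.ex cp (h.cK hL hK g)
    exact (st.le_iff (cp.mono ((cl g).trans le_sup_right) le_top)).2 fun q => a1 (eq_one_of_mem
      (h.z0 cp (h.cK hL hK g)) ⟨ha.2, q ⟨h1 ha.1, mem_sup_right (cl g ha.2)⟩⟩)
  · rw [abel_iff_der.1 (cyc_zpowers x).abel]; exact bot_le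

end Ss

namespace Pq

theorem symm (h : Pq H S A B) : Pq H S B A := ⟨h.syl, h.scB, h.scA, cent_symm h.cm⟩

theorem down (h : Pq H S A B) {Q : Type} [Group Q] [Finite Q] (f : H →* Q) :
    Pq (down f H) (down f S) (down f A) (down f B) :=
  haveI := Fact.mk Nat.prime_two
  ⟨h.syl.down f le_rfl, h.scA.down h.syl f le_rfl, h.scB.down h.syl f le_rfl, down_le_cent f h.cm⟩

theorem sc0 (h : Pq H S A B) : SC (A ⊓ B) S H := ⟨inf_le_left.trans h.scA.le, fun _ hx _ hg q =>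
  ⟨h.scA.conj hx.1 hg q, h.scB.conj hx.2 hg q⟩⟩

theorem lift (h : Pq H S A B) {Q : Type} [Group Q] [Finite Q] (f : H →* Q)
    (hk : ∀ x ∈ A, ∀ y ∈ B, x⁻¹ * y ∈ up f ⊥ → x ∈ (A ⊓ B) ⊔ up f ⊥)
    (r : ⁅ncl (H8.down f H) (H8.down f A), ncl (H8.down f H) (H8.down f B)⁆ ≤
      ncl (H8.down f H) (H8.down f A ⊓ H8.down f B) ⊔ O2 (H8.down f H)) :
    ⁅ncl H A, ncl H B⁆ ≤ ncl H (A ⊓ B) ⊔ up f (O2 (H8.down f H)) := by
  have a := h.scA.le.trans h.syl.le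
  have b := h.scB.le.trans h.syl.le
  have c := inf_le_left.trans a (a := A ⊓ B)
  have e : H8.down f A ⊓ H8.down f B ≤ H8.down f (A ⊓ B) := by
    rintro _ ⟨⟨x, hx, rfl⟩, y, hy, e⟩
    rw [← down_sup_ker f c]
    exact mem_down_of_mem (hk x hx y hy ((coe_mem_up (x := x⁻¹ * y)).2 (by simp [e])))
  refine le_of_down_le ((comm_le_sup _ _).trans (sup_le (ncl_le' a) (ncl_le' b)))
    (sup_le (ncl_le' c) (up_le _ _)) ((ker_le_up f _).trans le_sup_right) ?_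
  rw [down_commutator f (ncl_le' a) (ncl_le' b), Yx.dncl f le_rfl a, Yx.dncl f le_rfl b,
    down_sup f (ncl_le' c) (up_le _ _), Yx.dncl f le_rfl c, down_up_of_le (Op_le _ _)]
  exact r.trans (sup_le_sup_right (ncl_mono le_rfl e) _)

variable (h : Pq ⊤ S A B)
include h

theorem quo (ih : IH2 (♯(⊤ : Subgroup G))) (o : O2 (⊤ : Subgroup G) = ⊥) (hN : N ⊴ ⊤) (n0 : N ≠ ⊥)
    (n1 : N ≤ ncl ⊤ (A ⊓ B)) (c : A ≤ N ⊔ 𝒞 N)
    (hk : ∀ x ∈ A, ∀ y ∈ B, x⁻¹ * y ∈ N → x ∈ (A ⊓ B) ⊔ N) :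
    ⁅ncl ⊤ A, ncl ⊤ B⁆ ≤ ncl ⊤ (A ⊓ B) := by
  have c' : ncl ⊤ A ≤ N ⊔ 𝒞 N := ncl_le c (le_norm_sup hN.norm (le_norm_cent hN.norm))
  obtain ⟨Q, _, _, f, -, rfl⟩ := exists_quo0 hN
  have r := h.lift f hk (ih Q _ _ _ _ (card_down_lt le_rfl (by rwa [inf_top_eq])) (h.down f))
  have n : up f (O2 (H8.down f ⊤)) ⊴ ⊤ := nrm_up le_rfl le_top (Op_nrm _ _)
  have p : ∀ P : Subgroup G, IsPGroup 2 P → P ≤ up f (O2 (H8.down f ⊤)) → P ≤ up f ⊥ :=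
    fun P p1 p2 => (down_eq_bot_iff le_top).1 (by_contra fun q =>
      (odd_of_le (odd_O2 _) ((down_le_iff' le_top).2 p2)).not_two_dvd_nat
        (dvd_card_of_pgroup Nat.prime_two (isPGroup_down f p1) q))
  refine (le_inf r (((nK A).comm_le le_top).trans c')).trans ?_
  rw [dedekind_l ((ncl_mono le_rfl inf_le_left).trans c') (le_top.trans n.norm), inf_comm (up f _),
    dedekind_l (ker_le_up f _) (le_norm_cent (le_norm _))]
  refine sup_le le_rfl (sup_le n1 ((p _ (h.syl.isPGroup.to_le (le_syl o h.syl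
    (Nrm.inf ⟨le_top, le_norm_cent hN.norm⟩ n) fun P p1 p2 => (p P p1 (p2.trans inf_le_right)).trans
      (cent_symm inf_le_left))) inf_le_right).trans n1))

theorem comp (ih : IH2 (♯(⊤ : Subgroup G))) (s : Ss S (A ⊓ B)) (hL : Cp L ⊤)
    (hK : L ≤ ncl ⊤ (A ⊓ B)) (h2 : A ⊓ L ≤ A ⊓ B) : ⁅ncl ⊤ A, ncl ⊤ B⁆ ≤ ncl ⊤ (A ⊓ B) := by
  have c := s.star hL hK h.scA inf_le_left h2 (h.cm.trans (cent_anti inf_le_right))
  refine h.quo ih s.o (nK L) (ne_bot_of_le (fun q => hL.not_cent (q.le.trans bot_le)) (le_ncl ⊤ L))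
    (ncl_le hK s.nrm.norm) c fun x hx y hy q => ?_
  have p : ∀ C y, SC C S ⊤ → A ⊓ B ≤ C → y ∈ C → y ∈ ncl ⊤ L ⊔ 𝒞 (ncl ⊤ L) →
      ∃ t ∈ C ⊓ ncl ⊤ L, t⁻¹ * y ∈ 𝒞 (ncl ⊤ L) := fun C y sc h1 => s.peel hL hK sc h1 inf_le_left
    inf_le_right fun g => inf_le_inf_left _ (cj_le_ncl L (mem_top g))
  obtain ⟨t, t1, t2⟩ := p A x h.scA inf_le_left hx (c hx)
  obtain ⟨u, u1, u2⟩ := p B y h.scB inf_le_right hy (by
    simpa using mul_mem (c hx) (mem_sup_left q))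
  have e : t⁻¹ * x = u⁻¹ * y := inv_mul_eq_one.1 (eq_one_of_mem (s.zN hL hK) (mem_inf.2
    ⟨?_, mul_mem (inv_mem t2) u2⟩))
  · rw [sup_comm, show x = t * (t⁻¹ * x) by group]
    exact mul_mem (mem_sup_left t1.2) (mem_sup_right (mem_inf.2 ⟨mul_mem
      (inv_mem (mem_inf.1 t1).1) hx, e ▸ mul_mem (inv_mem (mem_inf.1 u1).1) hy⟩))
  rw [show (t⁻¹ * x)⁻¹ * (u⁻¹ * y) = x⁻¹ * (t * u⁻¹) * x⁻¹⁻¹ * (x⁻¹ * y) by group]
  exact mul_mem ((nK L).conj_mem (mem_top _) (mul_mem (mem_inf.1 t1).2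
    (inv_mem (mem_inf.1 u1).2))) q

theorem dich (s : Ss S (A ⊓ B)) (hL : Cp L ⊤) (hK : L ≤ ncl ⊤ (A ⊓ B)) :
    A ⊓ L ≤ A ⊓ B ∨ B ⊓ L ≤ A ⊓ B := by
  by_contra! q
  obtain ⟨x, hx, x1⟩ := SetLike.not_le_iff_exists.1 q.1
  obtain ⟨y, hy, y1⟩ := SetLike.not_le_iff_exists.1 q.2
  have xT : x ∈ S ⊓ L := ⟨h.scA.le hx.1, hx.2⟩
  have yT : y ∈ S ⊓ L := ⟨h.scB.le hy.1, hy.2⟩
  have r := (s.gb hL hK).2.resolve_left fun i => x1 (i xT)
  have y2 : y ^ 2 ≠ 1 := fun i => y1 (s.om yT.1 (hK hy.2) ((pow_two y).symm.trans i))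
  obtain ⟨g, hg, e⟩ := r.conj _ (pow_mem yT 2) _ (pow_mem xT 2) (by rw [← pow_mul, r.four y yT])
    (by rw [← pow_mul, r.four x xT]) y2 fun i => x1 (s.om xT.1 (hK hx.2) ((pow_two x).symm.trans i))
  have zT := conj_mem_of_norm (r.ti g hg _ (pow_mem yT 2) y2 (e ▸ pow_mem xT 2)) yT
  have zB := h.scB.conj hy.1 trivial zT.1
  have c : Commute x (g * y * g⁻¹) := (mem_cent.1 (h.cm hx.1) _ zB).symm
  have := s.om (mul_mem xT zT).1 (hK (mul_mem xT zT).2) (by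
    rw [← pow_two, c.mul_pow, conj_pow, e, ← pow_add, r.four x xT])
  exact x1 ⟨hx.1, (mul_mem_cancel_right zB).1 this.2⟩

theorem core (hG : GoldSimple) (ih : IH2 (♯(⊤ : Subgroup G))) (o : O2 (⊤ : Subgroup G) = ⊥) :
    ⁅ncl ⊤ A, ncl ⊤ B⁆ ≤ ncl ⊤ (A ⊓ B) := by
  by_cases a0 : A ⊓ B = ⊥
  · exact ((pf0' ⟨h.syl, h.scA, h.scB, h.cm, a0⟩).trans o.le).trans bot_le
  have oS := Op_le_syl Nat.prime_two h.syl
  by_cases v : A ⊓ B ⊓ Op {2} ⊤ = ⊥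
  · have s : Ss S (A ⊓ B) := ⟨⟨hG.goldIn _, o, h.syl, h.sc0,
      cent_mono h.cm inf_le_left inf_le_right⟩, v⟩
    obtain ⟨L, hL, hK⟩ : ∃ L, Cp L ⊤ ∧ L ≤ ncl ⊤ (A ⊓ B) := by
      by_contra! q
      have := s.gen (Y := A ⊓ B) inf_le_left fun L a b => absurd b (q L a)
      exact a0 (eq_bot_of_le v (le_inf le_rfl ((le_ncl ⊤ _).trans (le_Op_p Nat.prime_two
        (h.syl.isPGroup.to_le (this.trans h.sc0.le)) s.nrm))))
    rcases h.dich s hL hK with d | d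
    · exact h.comp ih s hL hK d
    rw [inf_comm A] at s hK d ⊢
    rw [Subgroup.commutator_comm]
    exact h.symm.comp ih s hL hK d
  refine h.quo ih o ⟨le_top, fun g _ => mem_normalizer_of_forall fun x hx => ?_⟩ v
    (inf_le_left.trans (le_ncl ⊤ _)) ((h.cm.trans (cent_anti (inf_le_left.trans
      inf_le_right))).trans le_sup_right) fun x hx y hy q => mem_sup_left (mem_inf.2 ⟨hx, ?_⟩)
  · have := (Op_nrm _ _).conj_mem (mem_top g) hx.2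
    exact ⟨h.sc0.conj hx.1 trivial (oS this), this⟩
  · exact inv_mem_iff.1 ((mul_mem_cancel_right hy).1 (mem_inf.1 q.1).2)

end Pq

theorem ih2_all (hG : GoldSimple) (n : ℕ) : IH2 n := by
  induction n using Nat.strong_induction_on with
  | _ n ih =>
  intro G _ _ H S A B hn h
  obtain ⟨Q, _, _, f, hf, hk⟩ := exists_quo0 (Op_nrm {2}ᶜ H)
  have o := Op_down_eq_bot le_rfl hk
  have r := h.lift f (fun x hx y hy q => by
    have s := mul_mem (inv_mem (h.scA.le hx)) (h.scB.le hy)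
    rw [hk] at q
    have := eq_one_of_mem (inf_eq_bot_of_cop (cop_of_pgroup Nat.prime_two h.syl.isPGroup
      (odd_O2 H).not_two_dvd_nat)) ⟨s, q⟩
    exact mem_sup_left ⟨hx, inv_mul_eq_one.1 this ▸ hy⟩) (by
      have d := h.down f
      have l := (Nat.le_of_dvd (card_pos' H) (card_down_dvd f H)).trans_lt hn
      rw [down_top hf] at d o l ⊢
      exact (d.core hG (ih _ l) o).trans le_sup_left)
  rwa [show O2 (down f H) = ⊥ from o, hk] at r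

theorem pf (hG : GoldSimple) : T4.PF := fun G _ _ S A B h1 h2 h3 h4 =>
  ih2_all hG _ G ⊤ S A B (Nat.lt_succ_self _) ⟨h1, h2, h3, h4⟩

theorem pf' : PF' := fun hG _ => pf hG

end Cfsg.GS.PFx
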