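import Cfsg.Agent.GS.PF4

/-! Commuting strongly closed subgroups, 5: all universes. -/

set_option autoImplicit false

namespace Cfsg.GS.PFx

open Subgroup Cfsg.L0 Cfsg.H8 Cfsg.FT Cfsg.BS Cfsg.BS.R

theorem s2767 (hG : GoldSimple) {G : Type*} [Group G] [Finite G] (S : Sylow 2 G)
    (S₁ S₂ : Subgroup G) (h₁ : Cfsg.IsStronglyClosed S₁ (S : Subgroup G))
    (h₂ : Cfsg.IsStronglyClosed S₂ (S : Subgroup G)) (hc : ∀ a ∈ S₁, ∀ b ∈ S₂, a * b = b * a) :
    ⁅normalClosure (S₁ : Set G), normalClosure (S₂ : Set G)⁆ ≤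
      normalClosure ((S₁ ⊓ S₂ : Subgroup G) : Set G) ⊔ Cfsg.pPrimeCore 2 G := by
  haveI := Fact.mk Nat.prime_two
  have e := (Shrink.mulEquiv.{0} (α := G)).symm
  have := Finite.of_equiv _ e.toEquiv
  have s := isSyl_sylow S
  have t := map_top_of_surjective e.toMonoidHom e.surjective
  have r := pf hG _ _ _ _ (t ▸ s.map e.toMonoidHom) (t ▸ (sc_top_iff.2 h₁).map s e.toMonoidHom)
    (t ▸ (sc_top_iff.2 h₂).map s e.toMonoidHom) (by
      rintro _ ⟨x, hx, rfl⟩ _ ⟨y, hy, rfl⟩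
      rw [← map_mul, ← map_mul, hc x hx y hy])
  have n : ∀ A : Subgroup G, ncl ⊤ (A.map e.toMonoidHom) =
      (normalClosure (A : Set G)).map e.toMonoidHom := fun A => by
    rw [ncl_top, map_normalClosure _ _ e.surjective, coe_map]
  have o : O2 (⊤ : Subgroup (Shrink.{0} G)) ≤ (pPrimeCore 2 G).map e.toMonoidHom := by
    rw [← Op_top_compl,
      ← map_comap_eq_self_of_surjective (f := e.toMonoidHom) e.surjective (O2 ⊤)]
    refine map_mono (le_Op ?_ (nrm_top_iff.2 ((nrm_top_iff.1 (Op_nrm _ _)).comap _)))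
    have := Op_pi {2}ᶜ (⊤ : Subgroup (Shrink.{0} G))
    rwa [← map_comap_eq_self_of_surjective (f := e.toMonoidHom) e.surjective (Op _ ⊤), piG_iff,
      card_map_of_injective e.injective] at this
  rw [← map_inf_eq _ _ _ e.injective, n, n, n, ← map_commutator] at r
  rw [← map_le_map_iff_of_injective (f := e.toMonoidHom) e.injective, Subgroup.map_sup]
  exact r.trans (sup_le_sup_left o _)

end Cfsg.GS.PFx
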