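import Cfsg.Agent.GS.WB1
import Cfsg.Agent.GS.W0
import Cfsg.Agent.GW.C1

/-! The principal `2`-block of a group with a Sylow four-group and one class of involutions. -/

set_option autoImplicit false
set_option linter.unusedSectionVars false

open scoped ComplexConjugate

namespace Cfsg.GW2.Bx

open Subgroup Cfsg.L0 Cfsg.H8 Cfsg.FT Cfsg.GJ Cfsg.H5 Cfsg.GW

theorem cardV {X : Type} [Group X] [Finite X] {u w : X} (k : KP u w) : ♯(V4 u w) = 4 := by
  have e : (V4 u w : Set X) = {1, u, w, u * w} := Set.ext fun x => by simpa using memV k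
  have h1 : (1 : X) ≠ u * w := fun e => k.ne (mul_left_cancel (e.symm.trans k.ss.symm))
  have h2 : w ≠ u * w := fun e => k.s1 (by simpa using e)
  rw [← FT.ncard_sub, e, Set.ncard_insert_of_notMem (by simp [k.s1.symm, k.w1.symm, h1]),
    Set.ncard_insert_of_notMem (by simp [k.ne.symm, k.w1]), Set.ncard_pair h2]

theorem c4 : conj (4 : ℂ) = 4 := map_ofNat _ 4

theorem exists_N {X : Type} [Group X] [Finite X] {u w : X}
    (two : ∀ (y : X) (j : ℕ), y ^ 2 ^ j = 1 → y * y = 1) (k : KP u w) {m : ℕ} (hm : Odd m)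
    (hc : Nat.card X = 4 * m) : ∃ N : Subgroup (𝒞₁ u), N.Normal ∧ (Nat.card N).Coprime 2 ∧
      (∀ y, (orderOf y).Coprime 2 → y ∈ N) ∧ N.index = 4 := by
  have := Fintype.ofFinite X
  have c4 := cardV k
  have l : V4 u w ≤ 𝒞₁ u := fun g hg => mem_cent1.2 (comm_V rfl k.comm.symm hg).symm
  have s : IsSyl 2 (V4 u w) (𝒞₁ u) := ⟨l, IsPGroup.of_card (n := 2) c4, fun h => by
    have h1 := card_mul_ri l
    have h2 := (𝒞₁ u).card_mul_index
    rw [← h1, c4, hc, mul_assoc, Nat.mul_right_inj (by norm_num)] at h2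
    exact hm.not_two_dvd_nat (h2 ▸ h.mul_right _)⟩
  have b : NPC 2 (𝒞₁ u) := FT.burnside Nat.prime_two s fun g hg => by
    have gu := mem_cent1.1 hg.1
    have gw : g * w = w * g := by
      rcases (memV k).1 (conj_mem_of_norm hg.2 (V_right u w)) with e | e | e | e
      · exact absurd (by simpa using e) k.w1
      · refine absurd ?_ k.ne
        calc w = g⁻¹ * (g * w * g⁻¹) * g := by group
          _ = u := by rw [e, mul_assoc, ← gu, inv_mul_cancel_left]
      · exact mul_inv_eq_iff_eq_mul.1 e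
      · obtain ⟨j, ⟨i, rfl⟩, hj⟩ := exists_odd_pow two g
        have e1 : ∀ i : ℕ, g ^ (2 * i + 1) * w = u * w * g ^ (2 * i + 1) := fun i => by
          have e0 := mul_inv_eq_iff_eq_mul.1 e
          induction i with
          | zero => simpa using e0
          | succ i ih =>
            have : g * (g * (u * w)) = u * w * g * g := by
              calc _ = g * u * (g * w) := by
                    rw [← mul_assoc g u w, mul_assoc g u (g * w), ← mul_assoc u g w, ← gu]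
                _ = u * (g * u * w) * g := by rw [e0, gu]; nth_rewrite 2 [← gu]; group
                _ = u * (u * (g * w)) * g := by rw [gu, mul_assoc u g]
                _ = _ := by rw [e0, ← mul_assoc u u, k.ss, one_mul]
            calc _ = g * g * (g ^ (2 * i + 1) * w) := by group
              _ = g * (g * (u * w)) * g ^ (2 * i + 1) := by rw [ih]; group
              _ = _ := by rw [this]; group
        have e2 : g ^ (2 * i + 1) * w * (g ^ (2 * i + 1) * w) = u := by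
          nth_rewrite 1 [e1]
          rw [mul_assoc, ← mul_assoc (g ^ (2 * i + 1)), hj, one_mul, mul_assoc, k.ww, mul_one]
        exact absurd (two _ 2 (by
          rw [show 2 ^ 2 = 2 * 2 from rfl, pow_mul, sq (_ * w), e2, sq, k.ss]) ▸ e2).symm k.s1
    exact mem_cent.2 fun y hy => (comm_V gu gw hy).symm
  have sd := npc_sd Nat.prime_two b s
  refine ⟨(Op {2}ᶜ (𝒞₁ u)).subgroupOf _, (Op_nrm _ _).normal, ?_, fun y hy => ?_, ?_⟩
  · rw [Nat.card_congr (subgroupOfEquivOfLe (Op_nrm _ _).1).toEquiv, Nat.coprime_comm]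
    exact Nat.prime_two.coprime_iff_not_dvd.2 fun h => (Op_pi _ _) 2 Nat.prime_two h rfl
  · refine npc_le_Op Nat.prime_two b (zpowers_le.2 y.2) (fun h => ?_) (mem_zpowers _)
    rw [card_zpow, Subgroup.orderOf_coe] at h
    exact Nat.prime_two.coprime_iff_not_dvd.1 hy.symm h
  · have h1 := card_mul_ri (Op_nrm {2}ᶜ (𝒞₁ u)).1
    rw [sd.card, c4, Nat.mul_right_inj (card_ne_zero' _)] at h1
    exact h1

variable {G : Type} [Group G] [Finite G] {E : Subgroup G} {v w x y : G} {φ ψ D St : G → ℂ}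

/-- the characteristic function of the elements of even order -/
noncomputable def ev (E : Subgroup G) : G → ℂ := res E (1 - preg 2)

theorem cop_iff : (orderOf x).Coprime 2 ↔ Odd (orderOf x) := Nat.coprime_two_right

theorem preg_odd (h : Odd (orderOf x)) : preg 2 x = 1 := preg_of (cop_iff.2 h)

theorem preg_even (h : ¬ Odd (orderOf x)) : preg 2 x = 0 := preg_of_not (mt cop_iff.1 h)

theorem cf_preg (h : CF E φ) : CF E (preg 2 * φ) :=
  ⟨h.sp.mul_left _, fun g hg x => by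
    rw [Pi.mul_apply, Pi.mul_apply, h.cnj g hg, isClassFunction_preg 2 x g]⟩

theorem ev_cf (E : Subgroup G) : CF E (ev E) :=
  (cf_top_iff.2 fun a b => by simp [isClassFunction_preg 2 a b]).res le_top

theorem dot_od {c : ℂ} (h : ∀ x ∈ E, ¬ Odd (orderOf x) → ψ x = c) (φ : G → ℂ) :
    dot E (preg 2 * φ) ψ = dot E φ ψ - conj c * dot E φ (ev E) := by
  rw [← dot_smul_right, ← dot_sub_right, dot_def, dot_def]
  congr 1
  refine sum_fs_congr fun x hx => ?_
  by_cases e : Odd (orderOf x)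
  · simp [ev, res_of_mem hx, preg_odd e]
  · simp [ev, res_of_mem hx, preg_even e, h x hx e]

theorem dot_od_swap (φ ψ : G → ℂ) : dot E (preg 2 * φ) ψ = dot E φ (preg 2 * ψ) := by
  rw [dot_def, dot_def]
  congr 1
  exact sum_fs_congr fun x _ => by simp only [Pi.mul_apply, map_mul, conj_preg]; ring

theorem dot_od_congr {φ' : G → ℂ} (h : ∀ x ∈ E, Odd (orderOf x) → φ x = φ' x) (ψ : G → ℂ) :
    dot E (preg 2 * φ) ψ = dot E (preg 2 * φ') ψ :=
  dot_congr (fun x hx => by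
    by_cases e : Odd (orderOf x)
    · simp [h x hx e]
    · simp [preg_even e]) fun _ _ => rfl

/-- Sylow four-group `⟨v, w⟩`, one class of involutions -/
structure K4E (E : Subgroup G) (v w : G) : Prop where
  kp : KP v w
  vE : v ∈ E
  wE : w ∈ E
  two : ∀ (y : G) (j : ℕ), y ^ 2 ^ j = 1 → y * y = 1
  one : ∀ s ∈ E, s * s = 1 → s ≠ 1 → ∃ g ∈ E, g * v * g⁻¹ = s
  card : ∃ m, Odd m ∧ ♯E = 4 * m

namespace K4E

variable (h : K4E E v w)
include h

theorem ve : ¬ Odd (orderOf v) := fun e => h.kp.s1 (eq_one_of_odd e h.kp.ss)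

theorem key (hφ : Irr E φ) : (InB0 2 (fun x : E => φ x) → 4 * dot E φ (ev E) = φ v ∧
    ∀ x ∈ E, ¬ Odd (orderOf x) → φ x = φ v) ∧
    (¬ InB0 2 (fun x : E => φ x) → dot E φ (ev E) = 0) := by
  classical
  have := Fintype.ofFinite E
  have := Fintype.ofFinite (𝒞₁ (⟨v, h.vE⟩ : E))
  have two : ∀ (y : E) (j : ℕ), y ^ 2 ^ j = 1 → y * y = 1 := fun y j e =>
    Subtype.ext (h.two y j (congrArg Subtype.val e))
  have oc : OC (⟨v, h.vE⟩ : E) := ⟨Subtype.ext h.kp.ss, fun e => h.kp.s1 (congrArg Subtype.val e),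
    two, fun s e1 e2 => by
      obtain ⟨g, hg, e⟩ := h.one s s.2 (congrArg Subtype.val e1) fun e => e2 (Subtype.ext e)
      exact ⟨⟨g, hg⟩, Subtype.ext e⟩⟩
  obtain ⟨m, hm, hc⟩ := h.card
  obtain ⟨N, n1, n2, n3, n4⟩ := exists_N (u := (⟨v, h.vE⟩ : E)) (w := ⟨w, h.wE⟩) two
    ⟨oc.uu, Subtype.ext h.kp.ww, oc.ne, fun e => h.kp.w1 (congrArg Subtype.val e),
      fun e => h.kp.ne (congrArg Subtype.val e), Subtype.ext h.kp.comm⟩ hm hc
  have k := classInner_secInd_one Nat.prime_two oc.pow n2 n3 hφ.irr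
  have e : dot E φ (ev E) = classInner (fun x : E => φ x) (secInd 2 (⟨v, h.vE⟩ : E) fun _ => 1) := by
    rw [dot_eq]
    congr 1
    funext x
    rw [oc.secInd_eq, ev, res_coe, ← preg_coe]; rfl
  rw [n4, ← e] at k
  refine ⟨fun b => ⟨by rw [if_pos b] at k; exact_mod_cast k, fun x hx xe => ?_⟩, fun b => ?_⟩
  · obtain ⟨g, y, y1, y2, e1⟩ := oc.exists (x := ⟨x, hx⟩) (by
      rw [← Subgroup.orderOf_coe]; exact mt cop_iff.1 xe)
    have := b.apply_mul_eq Nat.prime_two oc.pow hφ.irr n2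
      (n3 ⟨y, mem_centralizer_singleton_iff.2 y2⟩ (by rwa [← Subgroup.orderOf_coe]))
    rw [show x = g * (v * y) * (g : G)⁻¹ from congrArg Subtype.val e1, hφ.cf.cnj g g.2]
    exact this
  · rw [if_neg b] at k
    exact (mul_eq_zero.1 k).resolve_left (by norm_num)

theorem inB0 (hφ : Irr E φ) (h0 : dot E φ (ev E) ≠ 0) : InB0 2 (fun x : E => φ x) :=
  by_contra fun b => h0 ((h.key hφ).2 b)

theorem cst (hφ : Dirr E φ) (h0 : dot E φ (ev E) ≠ 0) :
    4 * dot E φ (ev E) = φ v ∧ ∀ x ∈ E, ¬ Odd (orderOf x) → φ x = φ v := by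
  rcases hφ with a | a
  · exact (h.key a).1 (h.inB0 a h0)
  · obtain ⟨a1, a2⟩ := (h.key a).1 (h.inB0 a (by rwa [dot_neg_left, neg_ne_zero]))
    rw [dot_neg_left, mul_neg, Pi.neg_apply, neg_inj] at a1
    exact ⟨a1, fun x hx e => neg_inj.1 (a2 x hx e)⟩

theorem one_ev : 4 * dot E (cf1 E) (ev E) = 1 := by
  rw [((h.key (irr_cf1 E)).1 (by simpa [cf1_coe] using inB0_one (G := E) Nat.prime_two)).1,
    cf1_of_mem h.vE]

theorem ev_of {c : ℂ} (hc : ∀ x ∈ E, ¬ Odd (orderOf x) → φ x = c) : 4 * dot E φ (ev E) = c := by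
  rw [← mul_one c, ← h.one_ev, mul_left_comm, ← dot_smul_left E c, dot_def, dot_def]
  congr 2
  refine sum_fs_congr fun x hx => ?_
  by_cases e : Odd (orderOf x)
  · simp [ev, res_of_mem hx, preg_odd e]
  · simp [hc x hx e, cf1_of_mem hx]

theorem vch_ev : VCh E ((4 : ℂ) • ev E) := ((ev_cf E).smul 4).vch fun χ hχ => by
  obtain ⟨n, hn⟩ : ∃ n : ℤ, 4 * dot E χ (ev E) = n := by
    by_cases e : dot E χ (ev E) = 0
    · exact ⟨0, by simp [e]⟩
    rw [(h.cst hχ.dirr e).1]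
    refine hχ.vch.int_of_pow fun k hk => ?_
    rw [orderOf_eq_prime (p := 2) (by rw [sq, h.kp.ss]) h.kp.s1, Nat.coprime_two_right] at hk
    rw [(⟨h.kp.ss, h.kp.s1⟩ : Iv v).pow hk]
  exact ⟨n, dot_symm_int (by rw [dot_smul_right, c4, hn])⟩

theorem mod4 (hφ : VCh E φ) (hc : ∀ x ∈ E, ¬ Odd (orderOf x) → φ x = 1) :
    ∃ n : ℤ, φ 1 = n ∧ n % 4 = 1 := by
  have k := h.kp
  have l : V4 v w ≤ E := (closure_le _).2 (by rintro _ (rfl | rfl); exacts [h.vE, h.wE])
  have c4 := cardV k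
  obtain ⟨n, hn⟩ := hφ.dot_res_int l (vch_cf1 _)
  rw [dot_cf1_right, sum_sub_sharp, sum_fs_congr (f' := fun _ => 1) fun x hx => hc x (l hx.1)
    fun e => hx.2 (eq_one_of_odd e (V_sq k hx.1)), sum_fs_const, ncard_sharp, c4] at hn
  refine ⟨4 * n - 3, ?_, by omega⟩
  push_cast at hn ⊢
  linear_combination 4 * hn

end K4E

theorem orth_of_add {a b : G → ℂ} (ha : Dirr E a) (hb : Dirr E b) (hab : dot E a b = 0)
    (hψ : Dirr E ψ) (h : dot E (a + b) ψ = 0) : dot E a ψ = 0 := by_contra fun e => by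
  rw [dot_add_left] at h
  have e' : dot E b ψ ≠ 0 := fun e' => e (by rwa [e', add_zero] at h)
  rcases hb.eq_or_neg hψ e' with r | r
  · exact e (r ▸ hab)
  · rw [r, dot_neg_right, neg_eq_zero] at hab
    exact e hab

/-- the principal block `{1, St, φ₁, φ₂}` -/
structure B4 (E : Subgroup G) (St φ₁ φ₂ : G → ℂ) : Prop where
  d1 : Dirr E φ₁
  d2 : Dirr E φ₂
  o12 : dot E φ₁ φ₂ = 0
  o1 : dot E φ₁ (cf1 E) = 0
  o2 : dot E φ₂ (cf1 E) = 0
  s1 : dot E φ₁ St = 0
  s2 : dot E φ₂ St = 0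
  e1 : ∀ x ∈ E, ¬ Odd (orderOf x) → φ₁ x = 1
  e2 : ∀ x ∈ E, ¬ Odd (orderOf x) → φ₂ x = 1
  eq : (4 : ℂ) • ev E = cf1 E - St + φ₁ + φ₂

theorem K4E.exists_B4 (h : K4E E v w) (hS : Irr E St)
    (hc : ∀ x ∈ E, ¬ Odd (orderOf x) → St x = -1) : ∃ φ₁ φ₂, B4 E St φ₁ φ₂ := by
  have a1 := h.one_ev
  have a2 := h.ev_of hc
  have a3 : 4 * dot E (ev E) (ev E) = 1 :=
    h.ev_of fun x hx e => by simp [ev, res_of_mem hx, preg_even e]
  have a4 : dot E St (cf1 E) = 0 := hS.dot_cf1 fun e => by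
    have := hc v h.vE h.ve
    rw [e, cf1_of_mem h.vE] at this
    norm_num at this
  have b1 : dot E ((4 : ℂ) • ev E) (cf1 E) = 1 := dot_symm_one (by rw [dot_smul_right, c4, a1])
  have b2 : dot E ((4 : ℂ) • ev E) St = (-1 : ℤ) :=
    dot_symm_int (by rw [dot_smul_right, c4]; simpa using a2)
  have c1 : dot E ((4 : ℂ) • ev E - cf1 E + St) (cf1 E) = 0 := by
    rw [dot_add_left, dot_sub_left, b1, a4, dot_cf1_self]; ring
  have c2 : dot E ((4 : ℂ) • ev E - cf1 E + St) St = 0 := by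
    rw [dot_add_left, dot_sub_left, b2, dot_symm_zero a4, hS.dot_self]; simp
  have c3 : dot E ((4 : ℂ) • ev E - cf1 E + St) (ev E) = 1 / 2 := by
    rw [dot_add_left, dot_sub_left, dot_smul_left]; linear_combination a3 - a1 / 4 + a2 / 4
  obtain ⟨a, b, ha, hb, hab, e⟩ := ((h.vch_ev.sub (vch_cf1 E)).add hS.vch).exists_add_of_two (by
    rw [dot_add_right, dot_sub_right, c1, c2, dot_smul_right, c3, c4]; norm_num)
  rw [e] at c1 c2
  have o1 := orth_of_add ha hb hab (irr_cf1 E).dirr c1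
  have o2 := orth_of_add hb ha (dot_symm_zero hab) (irr_cf1 E).dirr (add_comm a b ▸ c1)
  have s1 := orth_of_add ha hb hab hS.dirr c2
  have s2 := orth_of_add hb ha (dot_symm_zero hab) hS.dirr (add_comm a b ▸ c2)
  have e' : (4 : ℂ) • ev E = cf1 E - St + a + b := by rw [add_assoc, ← e]; abel
  have k : ∀ c, Dirr E c → dot E c ((4 : ℂ) • ev E) = 1 → ∀ x ∈ E, ¬ Odd (orderOf x) → c x = 1 :=
    fun c hc e1 x hx xe => by
      rw [dot_smul_right, c4] at e1
      obtain ⟨k1, k2⟩ := h.cst hc fun e2 => by simp [e2] at e1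
      rw [k2 x hx xe, ← k1, e1]
  refine ⟨a, b, ha, hb, hab, o1, o2, s1, s2, k a ha ?_, k b hb ?_, e'⟩
  · rw [e', dot_add_right, dot_add_right, dot_sub_right, o1, s1, hab, ha.dot_self]; simp
  · rw [e', dot_add_right, dot_add_right, dot_sub_right, o2, s2, dot_symm_zero hab, hb.dot_self]
    simp

end Cfsg.GW2.Bx
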