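import Cfsg.Agent.GS.E3
import Cfsg.Agent.GS.WB2
import Cfsg.Agent.L0.Fpf3
import Cfsg.Agent.L0.KS12a

/-! `U4b`, part 1: the Sylow `2`-subgroup. -/

set_option autoImplicit false
set_option linter.unusedSectionVars false

namespace Cfsg.GS.Qx

open Subgroup Cfsg.L0 Cfsg.H8 Cfsg.FT Cfsg.BS Cfsg.BS.R Cfsg.GS.T4
open scoped commutatorElement

variable {G : Type} [Group G] [Finite G] {S A B T V Z : Subgroup G} {a b c g n s t u v w x y z : G}

theorem cop2 (h : IsPGroup 2 T) (ho : Odd (orderOf w)) : (♯T).Coprime ♯(zpowers w) :=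
  cop_of_pgroup Nat.prime_two h (by rw [card_zpow]; exact ho.not_two_dvd_nat)

theorem bound (hZ : Z ≤ T) (cZ : T ≤ 𝒞 Z) (h2 : ∀ z ∈ Z, z * z = 1) (sq : ∀ x ∈ T, x * x ∈ Z)
    (om : ∀ x ∈ T, x * x = 1 → x ∈ Z) : Z.relIndex T ≤ ♯Z ^ 2 := by
  have c0 : ∀ x ∈ T, ∀ z ∈ Z, ⁅x, z⁆ ∈ (⊥ : Subgroup G) := fun x hx z hz =>
    mem_bot.2 (commutatorElement_eq_one_iff_mul_comm.2 (mem_cent.1 (cZ hx) z hz).symm)
  obtain ⟨V, _, π₁, h₁⟩ := Hig.exists_sec hZ fun x hx y hy =>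
    Ux.der_le_of_sq sq (commutator_mem_commutator hx hy)
  obtain ⟨W, _, π, h⟩ := Hig.exists_sec (bot_le (a := Z)) fun x hx y hy => c0 x (hZ hx) y hy
  have hV : ∀ v : V, v + v = 0 := h₁.ind fun x hx => by
    rw [← h₁.add x hx x hx]; exact h₁.zero (sq x hx)
  have hW : ∀ v : W, v + v = 0 := h.ind fun x hx => by
    rw [← h.add x hx x hx, h2 x hx]; exact h.zero (one_mem _)
  obtain ⟨N, B, hB, -, e, hN⟩ := Hig.sq_quad h₁ h hV (fun x hx => by rw [pow_two]; exact sq x hx) c0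
    (fun x hx => by rw [pow_two, h2 x hx]; exact one_mem _) c0
  have := h₁.finite
  have := h.finite
  have := Hig.card_le_sq hV hW hB hN (h₁.ind fun x hx => by
    rw [e x hx, pow_two, h.ker _ (sq x hx), h₁.ker x hx, mem_bot]; exact ⟨om x hx, h2 x⟩)
  have e1 := h₁.card
  have e2 := h.card
  rw [card_bot, mul_one] at e2
  rw [← card_mul_ri hZ, mul_comm] at e1
  rw [Nat.eq_of_mul_eq_mul_right (card_pos' Z) e1, e2]
  exact this

/-- an elementary abelian Sylow `2`-subgroup whose automizer is semiregular -/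
theorem semi (hV : IsSyl 2 V ⊤) (he : Elem 2 V) (h8 : 8 ≤ ♯V) (ho : O2 (⊤ : Subgroup G) = ⊥)
    (h : ∀ v ∈ V, v ≠ 1 → 𝒞₁ v ⊓ 𝒩 V ≤ 𝒞 V) :
    ⊤ ≤ 𝒩 V ∨ ∀ v ∈ V, ∀ w ∈ V, v ≠ 1 → w ≠ 1 → ∃ n ∈ 𝒩 V, n * v * n⁻¹ = w := by
  have l : ∀ v ∈ V, V ≤ 𝒞₁ v := fun v hv => he.abel.trans (cent_le_cent1 hv)
  have np : ∀ v ∈ sharp V, NPC 2 (𝒞₁ v) := fun v hv =>
    burnside Nat.prime_two (hV.mono (l v hv.1) le_top) (h v hv.1 hv.2)
  have F : SFx.Fn V fun v => O2 (𝒞₁ v) := ⟨he, h8, fun _ _ => odd_O2 _, fun _ _ => Op_le _ _,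
    fun v hv => (l v hv.1).trans (Op_nrm _ _).norm, fun a _ b hb => npc_le_Op Nat.prime_two (np b hb)
      inf_le_right (odd_of_le (odd_O2 _) inf_le_left).not_two_dvd_nat⟩
  have I := T4.sfg G V _ F
  have nW : 𝒩 V ≤ 𝒩 (SFx.Gn V fun v => O2 (𝒞₁ v)) := fun n hn => mem_norm_of_cj_le
    ((cj_le_iff _).2 (SFx.Gn_le fun a ha => (cj_le_iff _).1 (by
      rw [cj_Op, cj_cent1]; exact SFx.le_Gn (θ := fun v => O2 (𝒞₁ v)) (SFx.conj_sharp hn ha))))
  have lW : ∀ v ∈ sharp V, O2 (𝒞₁ v) ≤ SFx.Gn V fun v => O2 (𝒞₁ v) := fun v hv =>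
    SFx.le_Gn (θ := fun v => O2 (𝒞₁ v)) hv
  generalize (SFx.Gn V fun v => O2 (𝒞₁ v)) = W at *
  by_cases e : W ⊔ 𝒩 V = ⊤
  · have := le_O2 I.odd (e ▸ nrm_sup_left nW)
    rw [ho, le_bot_iff] at this
    exact .inl (by rw [← e, this, bot_sup_eq])
  have VM : V ≤ W ⊔ 𝒩 V := (le_norm V).trans le_sup_right
  have sp : H9.SPE 2 (W ⊔ 𝒩 V) ⊤ := H9.spe_of_centralizer le_top e
    ((syl_iff7 Nat.prime_two).1 (hV.mono VM le_top)) (inf_le_right.trans le_sup_right)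
    fun v hv v1 _ => inf_le_right.trans (by
      rw [← (npc_sd Nat.prime_two (np v ⟨hv, v1⟩) (hV.mono (l v hv) le_top)).sup]
      exact sup_le ((lW v ⟨hv, v1⟩).trans le_sup_left) VM)
  refine .inr fun v hv w hw v1 w1 => ?_
  obtain ⟨g, -, e⟩ := KS12.spe_conj sp (VM hv) (VM hw) v1 w1 (SFx.sq1 he hv) (SFx.sq1 he hw)
  obtain ⟨n, hn, e2⟩ := abel_syl_fusion Nat.prime_two hV ((zpowers_le.2 hv).trans he.abel) (mem_top g)
    (by rw [cj_zpowers', e]; exact (zpowers_le.2 hw).trans he.abel)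
  exact ⟨n, hn.2, (e2 v (mem_zpowers v)).trans e⟩

/-- the hypotheses of `U4b` -/
structure U4 (S A : Subgroup G) : Prop extends Mg S A where
  c4 : ♯A = 4
  om : ∀ x ∈ S, x * x = 1 → x ∈ A
  ne : S ≠ A

namespace U4
variable (h : U4 S A)
include h

theorem AS : A ≤ S := h.sc.le
theorem pg : IsPGroup 2 S := h.syl.isPGroup
theorem sq (ha : a ∈ A) : a * a = 1 := SFx.sq1 h.elem ha
theorem cm (ha : a ∈ A) (hb : b ∈ A) : a * b = b * a := h.elem.abel.comm ha hb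
theorem NS : 𝒩 S ≤ 𝒩 A := fun _ hn => h.sc.norm_le ⟨trivial, hn⟩

theorem mem4 (ha : a ∈ A) (hb : b ∈ A) (a1 : a ≠ 1) (b1 : b ≠ 1) (ne : b ≠ a) (hx : x ∈ A) :
    x = 1 ∨ x = a ∨ x = b ∨ x = a * b := by
  have k : KP a b := ⟨h.sq ha, h.sq hb, a1, b1, ne, h.cm hb ha⟩
  have l : GJ.V4 a b ≤ A := (closure_le _).2 (by rintro _ (rfl | rfl); exacts [ha, hb])
  rw [← eq_of_card_le l (by rw [h.c4, GW2.Bx.cardV k])] at hx
  exact (GJ.memV k).1 hx

theorem ex : ∃ a ∈ A, a ≠ 1 := exists_ne_one (ne_bot_of_card (by rw [h.c4]; decide))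

theorem fix (hn : n ∈ 𝒩 A) (ha : a ∈ A) (a1 : a ≠ 1) (e : n * a = a * n) : n ∈ 𝒞 A := by
  classical
  by_contra hc
  obtain ⟨b, hb, nb⟩ : ∃ b ∈ A, b * n ≠ n * b := by
    by_contra k; push Not at k; exact hc (mem_cent.2 k)
  have b1 : b ≠ 1 := by rintro rfl; simp at nb
  have ba : b ≠ a := by rintro rfl; exact nb e.symm
  have ea : n * a * n⁻¹ = a := by rw [e, mul_inv_cancel_right]
  have eb : n * b * n⁻¹ = a * b := by
    rcases h.mem4 ha hb a1 b1 ba (conj_mem_of_norm hn hb) with k | k | k | k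
    · exact absurd k (conj_ne_one b1 n)
    · rw [← ea] at k; exact absurd (by simpa using k) ba
    · exact absurd (by rw [← k]; simp [mul_assoc, mul_inv_eq_iff_eq_mul.1 k]) nb
    · exact k
  have ec : n * (a * b) * n⁻¹ = b := by
    rw [show n * (a * b) * n⁻¹ = n * a * n⁻¹ * (n * b * n⁻¹) by group, ea, eb, ← mul_assoc, h.sq ha,
      one_mul]
  have ab1 : a * b ≠ 1 := fun k => ba (by rw [← mul_left_cancel_iff (a := a), k, h.sq ha])
  have aba : a * b ≠ a := by simpa using b1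
  have abb : a * b ≠ b := by simpa using a1
  have := Fintype.ofFinite A
  let φ : 𝒩 A →* ℤˣ := Equiv.Perm.sign.comp ((MulAut.toPerm A).comp A.normalizerMonoidHom)
  have e1 : φ ⟨n, hn⟩ = -1 := by
    have : (MulAut.toPerm A) (A.normalizerMonoidHom ⟨n, hn⟩) =
        Equiv.swap ⟨b, hb⟩ ⟨a * b, mul_mem ha hb⟩ := by
      ext x
      change n * x * n⁻¹ = _
      obtain ⟨x, hx⟩ := x
      rcases h.mem4 ha hb a1 b1 ba hx with rfl | rfl | rfl | rfl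
      · rw [Equiv.swap_apply_of_ne_of_ne (by simpa using b1.symm) (by simpa using ab1.symm)]; simp
      · rw [Equiv.swap_apply_of_ne_of_ne (by simpa using ba.symm) (by simpa using aba.symm)]; exact ea
      · rw [Equiv.swap_apply_left]; exact eb
      · rw [Equiv.swap_apply_right]; exact ec
    simp only [φ, MonoidHom.comp_apply, this]
    exact Equiv.Perm.sign_swap (by simpa using abb.symm)
  refine h.two (up φ ⊥) (up_le _ _) ?_
  rw [← card_down φ le_rfl, down_top fun y => ?_, card_top]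
  · simp
  · rcases Int.units_eq_one_or y with rfl | rfl
    exacts [⟨1, map_one φ⟩, ⟨_, e1⟩]

theorem SA : S ≤ 𝒞 A := fun s hs => by
  obtain ⟨a, ha, a1⟩ := exists_ne_one (inf_cent_ne_bot_of_pgroup Nat.prime_two h.pg h.elem.pgroup
    ((le_norm S).trans h.NS) (ne_bot_of_card (by rw [h.c4]; decide)))
  exact h.fix (h.NS (le_norm S hs)) ha.1 a1 (mem_cent.1 ha.2 s hs)

theorem cS (ha : a ∈ A) (hs : s ∈ S) : a * s = s * a := mem_cent.1 (h.SA hs) a ha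
theorem SC1 (ha : a ∈ A) : S ≤ 𝒞₁ a := h.SA.trans (cent_le_cent1 ha)
theorem sylC (ha : a ∈ A) : IsSyl 2 S (𝒞₁ a) := h.syl.mono (h.SC1 ha) le_top

theorem cyc3 (hn : n ∈ 𝒩 A) (hc : n ∉ 𝒞 A) (ha : a ∈ A) (a1 : a ≠ 1) :
    n * a * n⁻¹ ≠ a ∧ n * (n * a * n⁻¹) * n⁻¹ = a * (n * a * n⁻¹) := by
  have k : ∀ a ∈ A, a ≠ 1 → n * a * n⁻¹ ≠ a := fun a ha a1 e =>
    hc (h.fix hn ha a1 (mul_inv_eq_iff_eq_mul.1 e))
  have hb := conj_mem_of_norm hn ha
  have b1 := conj_ne_one a1 n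
  refine ⟨k a ha a1, ?_⟩
  rcases h.mem4 ha hb a1 b1 (k a ha a1) (conj_mem_of_norm hn hb) with e | e | e | e
  · exact absurd e (conj_ne_one b1 n)
  · refine absurd ?_ (k _ (mul_mem ha hb) fun e => k a ha a1 ?_)
    · rw [show ∀ x y : G, n * (x * y) * n⁻¹ = n * x * n⁻¹ * (n * y * n⁻¹) from fun _ _ => by group, e,
        h.cm hb ha]
    · rw [← mul_left_cancel_iff (a := a), e, h.sq ha]
  · exact absurd e (k _ hb b1)
  · exact e

theorem cube (hn : n ∈ 𝒩 A) : n ^ 3 ∈ 𝒞 A := by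
  by_cases hc : n ∈ 𝒞 A
  · exact pow_mem hc 3
  obtain ⟨a, ha, a1⟩ := h.ex
  refine h.fix (pow_mem hn 3) ha a1 (mul_inv_eq_iff_eq_mul.1 ?_)
  have e := (h.cyc3 hn hc ha a1).2
  have hb := conj_mem_of_norm hn ha
  calc _ = n * (n * (n * a * n⁻¹) * n⁻¹) * n⁻¹ := by simp [pow_succ, mul_assoc]
    _ = n * (a * (n * a * n⁻¹)) * n⁻¹ := by rw [e]
    _ = n * a * n⁻¹ * (n * (n * a * n⁻¹) * n⁻¹) := by group
    _ = a := by rw [e, ← mul_assoc, h.cm hb ha, mul_assoc, h.sq hb, mul_one]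

theorem tr (hn : n ∈ 𝒩 A) (hc : n ∉ 𝒞 A) (ha : a ∈ A) (a1 : a ≠ 1) (hb : b ∈ A) (b1 : b ≠ 1) :
    ∃ i < 3, n ^ i * a * (n ^ i)⁻¹ = b := by
  obtain ⟨e1, e2⟩ := h.cyc3 hn hc ha a1
  rcases h.mem4 ha (conj_mem_of_norm hn ha) a1 (conj_ne_one a1 n) e1 hb with e | e | e | e
  · exact absurd e b1
  · exact ⟨0, by decide, by simp [e]⟩
  · exact ⟨1, by decide, by simp [e]⟩
  · exact ⟨2, by decide, by rw [e, ← e2, pow_two]; group⟩

theorem inv (hx : x ∈ S) (x1 : x ≠ 1) : ∃ a ∈ zpowers x, a ∈ A ∧ a ≠ 1 := by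
  obtain ⟨a, ha, i⟩ := exists_ivo_zpowers (x := x) fun o => x1 (eq_one_of_pElt_of_coprime
    (isPGroup_iff_forall.1 h.pg x hx) (Nat.coprime_two_right.2 o))
  exact ⟨a, ha, h.om a (zpowers_le.2 hx ha) i.2, i.1⟩

theorem fix' (hn : n ∈ 𝒩 S) (hx : x ∈ S) (x1 : x ≠ 1) (e : n * x = x * n) : n ∈ 𝒞 A := by
  obtain ⟨a, h1, ha, a1⟩ := h.inv hx x1
  exact h.fix (h.NS hn) ha a1 (mem_cent1.1 (cent1_le_of_mem_zpowers h1 (mem_cent1.2 e)))

/-- a `3`-element of `N(S)` induces an automorphism of order at most `3` -/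
theorem nine (hv : v ∈ 𝒩 S) (o : Odd (orderOf v)) (h9 : v ^ 9 ∈ 𝒞 S) : v ^ 3 ∈ 𝒞 S := by
  by_contra h3
  obtain ⟨T, ⟨TS, vT, wT⟩, mn⟩ := exists_min_card'
    (S := fun T : Subgroup G => T ≤ S ∧ v ∈ 𝒩 T ∧ v ^ 3 ∉ 𝒞 T) ⟨S, le_rfl, hv, h3⟩
  have mn' : ∀ R < T, v ∈ 𝒩 R → zpowers (v ^ 3) ≤ 𝒞 R := fun R l hR => zpowers_le.2 (by_contra fun k =>
    (card_lt l).not_ge (mn R ⟨l.le.trans TS, hR, k⟩))
  have pT := h.pg.to_le TS
  have nW : zpowers (v ^ 3) ≤ 𝒩 T := zpowers_le.2 (pow_mem vT 3)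
  have cp : (♯T).Coprime ♯(zpowers (v ^ 3)) := cop2 pT (o.of_dvd_nat (orderOf_pow_dvd 3))
  have vW : ∀ i, v ∈ 𝒞 (zpowers (v ^ i)) := fun i => by
    rw [cent_zpowers]; exact mem_cent1.2 (Commute.self_pow v i)
  have e1 : ⁅T, zpowers (v ^ 3)⁆ = T := by_contra fun k => wT (cent_of_comm_cent nW cp
    (mn' _ (lt_of_le_of_ne (comm_le_left nW) k) (zpowers_le.1 (le_norm_comm (zpowers_le.2 vT)
      (zpowers_le.2 (cent_le_norm _ (vW 3)))))) (mem_zpowers _))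
  have T0 : T ≠ ⊥ := fun e => wT (by rw [e, cent_bot]; trivial)
  have e2 := mn' _ (Phi_lt T0) (norm_le_norm_Phi T vT)
  have e3 : T ≤ 𝒞 (Phi T) := by
    conv_lhs => rw [← e1]
    exact three_subgroups_cent (by rw [comm_eq_bot_iff'.2 e2]; exact bot_le)
      ((comm_le_left (Phi_nrm T).norm).trans (cent_symm e2))
  have e4 := inf_cent_le_der nW cp e1
  have e5 : ⁅T, T⁆ ≤ A := commutator_le.2 fun x hx y hy => by
    have c := commutator_mem_commutator hx hy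
    have := Hig.comm_sq x y
    rw [commutatorElement_eq_one_iff_mul_comm.2 (mem_cent.1 (e3 hy) _ (pow_mem_Phi Nat.prime_two pT hx)),
      commutatorElement_eq_one_iff_mul_comm.2
        (mem_cent.1 (e3 hx) _ ((nil_of_pgroup Nat.prime_two pT).der_le_Phi c)).symm, one_mul] at this
    exact h.om _ (TS (der_le T c)) (by rw [← pow_two, ← this])
  have e6 : T ⊓ 𝒞 (zpowers (v ^ 3)) ≤ T ⊓ A := le_inf inf_le_left (e4.trans e5)
  have bd := bound (Z := T ⊓ A) (T := T) inf_le_left (cent_mono h.SA TS inf_le_right)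
    (fun z hz => h.sq hz.2) (fun x hx => e6 ⟨mul_mem hx hx, cent_symm e2
      (by rw [← pow_two]; exact pow_mem_Phi Nat.prime_two pT hx)⟩) fun x hx e => ⟨hx, h.om x (TS hx) e⟩
  have b2 : ♯(T ⊓ A) ^ 2 ≤ 4 ^ 2 := Nat.pow_le_pow_left (h.c4 ▸ card_le inf_le_right) 2
  have c9 : zpowers (v ^ 9) ≤ 𝒞 T := zpowers_le.2 (cent_anti TS h9)
  obtain ⟨Q, _, _, f, -, fk⟩ := exists_quo (K := (T ⊓ A) ⊔ zpowers (v ^ 9)) (M := T ⊔ zpowers v)
    ⟨sup_le (inf_le_left.trans le_sup_left) ((zpowers_le.2 (pow_mem (mem_zpowers v) 9)).trans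
      le_sup_right), sup_le (le_norm_sup (le_norm_inf (le_norm T) (TS.trans ((le_norm S).trans h.NS)))
        (le_norm_of_le_cent (cent_symm c9))) (zpowers_le.2 (le_norm_sup (le_norm_inf (zpowers_le.2 vT)
          (zpowers_le.2 (h.NS hv))) (zpowers_le.2 (cent_le_norm _ (vW 9))) (mem_zpowers v)))⟩
  have vN : v ∈ T ⊔ zpowers v := mem_sup_right (mem_zpowers v)
  let y := f ⟨v, vN⟩
  have y9 : y ^ 9 = 1 := by
    rw [← map_pow, ← mem_bot, ← coe_mem_up, fk]; exact mem_sup_right (mem_zpowers _)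
  have d0 : down f T ≠ ⊥ := fun e => wT (cent_symm (((down_eq_bot_iff le_sup_left).1 e).trans
    (fk.le.trans (sup_le (inf_le_right.trans (cent_symm (zpowers_le.2 (h.cube (h.NS hv)))))
      (zpowers_le.2 (pow_mem (vW 3) 9))))) (mem_zpowers _))
  have d1 : down f T ⊓ 𝒞₁ (y ^ 3) = ⊥ := by
    rw [← cent_zpowers, ← map_pow, ← down_zpowers, SubgroupClass.coe_pow,
      ← (mkCA nW cp (sol_of_pgroup Nat.prime_two pT)).down_cent f (zpowers_le.2 (pow_mem vN 3)), down_eq_bot_iff (inf_le_left.trans le_sup_left), fk]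
    exact e6.trans le_sup_left
  have o9 : orderOf y = 3 ^ 2 := orderOf_eq_prime_pow (p := 3) (n := 1) (fun e => d0 (by
    rw [← d1, show y ^ 3 = 1 from e, cent1_one, inf_top_eq])) y9
  have rg : Reg (down f T) (zpowers y) := fun x hx x1 => by
    obtain ⟨i, rfl⟩ := mem_powers_iff_mem_zpowers.2 hx
    obtain ⟨m, hm⟩ : ∃ m, i * m % 9 = 3 := by
      have : i % 9 ≠ 0 := fun e => x1 (by simp only; rw [pow_eq_pow_mod i y9, e, pow_zero])
      have k : ∀ j < 9, j ≠ 0 → ∃ m < 9, j * m % 9 = 3 := by decide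
      obtain ⟨m, -, hm⟩ := k _ (Nat.mod_lt i (by decide)) this
      exact ⟨m, by rw [← hm, Nat.mod_mul_mod]⟩
    refine eq_bot_of_le d1 (inf_le_inf_left _ ((cent1_le_cent1_pow _ m).trans ?_))
    simp only
    rw [← pow_mul, pow_eq_pow_mod _ y9, hm]
  have dv := rg.card_dvd (by
    rw [← down_zpowers]; exact down_le_norm f (zpowers_le.2 vT))
  obtain ⟨k, hk⟩ := (isPGroup_down f pT).exists_card_eq
  have l1 : ♯(down f T) ≤ 16 := by
    rw [card_down f le_sup_left, fk]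
    exact (Nat.le_of_dvd (ri_pos _ _) (ri_dvd_of_le_left le_sup_left T)).trans (bd.trans b2)
  have l2 := one_lt_card d0
  rw [card_zpow, o9] at dv
  generalize ♯(down f T) = m at *
  have : m = 10 := by omega
  have : 5 ∣ 2 ^ k := ⟨2, by omega⟩
  exact absurd (Nat.prime_five.dvd_of_dvd_pow this) (by decide)

end U4

/-- `g` induces an automorphism of order `3` on `S` -/
structure U5 (S A : Subgroup G) (g : G) : Prop extends U4 S A where
  gN : g ∈ 𝒩 S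
  gA : g ∉ 𝒞 A
  g3 : g ^ 3 ∈ 𝒞 S
  p3 : IsPGroup 3 (zpowers g)

theorem U4.exists_g (h : U4 S A) : ∃ g, U5 S A g := by
  have : Fact (Nat.Prime 3) := ⟨Nat.prime_three⟩
  obtain ⟨a, ha, a1⟩ := h.ex
  obtain ⟨n, hn, nc⟩ : ∃ n ∈ 𝒩 S, n ∉ 𝒞 A := by
    by_contra k; push Not at k
    refine Fx.not_cent h.simple h.nab h.syl h.sc h.elem.abel ha a1 (le_trans ?_ (cent_le_cent1 ha))
    rw [← syl_frattini_sup Nat.prime_two (h.syl.mono h.SA le_top) (cent_nrm A)]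
    exact sup_le le_rfl fun x hx => k x hx.2
  obtain ⟨g, b, hg, hb, ⟨k, hk⟩, o, e⟩ := exists_pPart 3 n
  have gN := zpowers_le.2 hn hg
  refine ⟨g, h, gN, fun c => nc (e ▸ mul_mem c (mem_of_pow_mem o (by simp [pow_orderOf_eq_one])
    (h.cube (h.NS (zpowers_le.2 hn hb))))), ?_, isPGroup_zpowers hk⟩
  have o := Odd.of_dvd_nat (by decide : Odd 3).pow (orderOf_dvd_of_pow_eq_one hk)
  have : ∀ k, g ^ 3 ^ (k + 1) ∈ 𝒞 S → g ^ 3 ∈ 𝒞 S := fun k => by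
    induction k with
    | zero => exact fun e => by simpa using e
    | succ k ih =>
      refine fun e => ih ?_
      rw [pow_succ, pow_mul]
      exact h.nine (pow_mem gN _) (o.of_dvd_nat (orderOf_pow_dvd _))
        (by rwa [← pow_mul, show 3 ^ k * 9 = 3 ^ (k + 1 + 1) by ring])
  exact this k (by rw [pow_succ, pow_mul, hk, one_pow]; exact one_mem _)

end Cfsg.GS.Qx
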