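import Cfsg.Agent.GS.Q1

/-! `U4b`, part 2: the local structure. -/

set_option autoImplicit false
set_option linter.unusedSectionVars false

namespace Cfsg.GS.Qx

open Subgroup Cfsg.L0 Cfsg.H8 Cfsg.FT Cfsg.BS Cfsg.BS.R Cfsg.GS.T4
open scoped commutatorElement

variable {G : Type} [Group G] [Finite G] {S A B T V Z : Subgroup G} {a b c g n o s t u v w x y z : G}

theorem pow4 {n : ℕ} (h : n ∣ 2 ^ 6) (h3 : n % 3 = 1) : n = 1 ∨ n = 4 ∨ n = 16 ∨ n = 64 := by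
  obtain ⟨k, hk, rfl⟩ := (Nat.dvd_prime_pow Nat.prime_two).1 h
  interval_cases k <;> simp at h3 ⊢

theorem split2 (hS : IsSyl 2 S ⊤) (hn : n ∈ 𝒩 S) :
    ∃ s ∈ S, ∃ w ∈ zpowers n, s ∈ zpowers n ∧ Odd (orderOf w) ∧ n = s * w := by
  obtain ⟨s, w, hs, hw, k, o, e⟩ := exists_pPart 2 n
  exact ⟨s, hS.mem_of_mem_normalizer trivial k (zpowers_le.2 hn hs), w, hw, hs,
    Nat.coprime_two_right.1 o, e⟩

namespace U5
variable (h : U5 S A g)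
include h

theorem fpf (hx : x ∈ S) (e : g * x = x * g) : x = 1 := by_contra fun x1 => h.gA (h.fix' h.gN hx x1 e)

theorem f3 : Fpf3 (S.normalizerMonoidHom ⟨g, h.gN⟩).toMonoidHom := ⟨fun x => Subtype.ext (by
    change g * (g * (g * x * g⁻¹) * g⁻¹) * g⁻¹ = x
    calc _ = g ^ 3 * x * (g ^ 3)⁻¹ := by simp [pow_succ, mul_assoc]
      _ = x := by rw [← mem_cent.1 h.g3 x x.2, mul_inv_cancel_right]),
  fun x e => Subtype.ext (h.fpf x.2 (mul_inv_eq_iff_eq_mul.1 (congrArg Subtype.val e)))⟩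

theorem cj1 (hx : x ∈ S) : g * x * g⁻¹ ∈ S := conj_mem_of_norm h.gN hx

theorem comm (hx : x ∈ S) : x * (g * x * g⁻¹) = g * x * g⁻¹ * x :=
  congrArg Subtype.val (h.f3.comm ⟨x, hx⟩)

theorem cls2 (hx : x ∈ S) (hy : y ∈ S) (hz : z ∈ S) : z * ⁅x, y⁆ = ⁅x, y⁆ * z :=
  congrArg Subtype.val (mem_center_iff.1 (h.f3.commutator_le_center (fun w e => Subtype.ext
    (eq_one_of_pElt_of_coprime (isPGroup_iff_forall.1 h.pg w w.2) (by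
      rw [orderOf_coe]; exact Nat.Coprime.coprime_dvd_left (orderOf_dvd_of_pow_eq_one e) (by decide))))
    (commutator_mem_commutator (mem_top (⟨x, hx⟩ : S)) (mem_top ⟨y, hy⟩))) ⟨z, hz⟩)

theorem csq (hx : x ∈ S) (hy : y ∈ S) : ⁅x ^ 2, y⁆ = ⁅x, y⁆ ^ 2 := by
  rw [Hig.comm_sq, commutatorElement_eq_one_iff_mul_comm.2 (h.cls2 hx hy hx), one_mul]

theorem mod3 (hB : B ≤ S) (hg : g ∈ 𝒩 B) : ♯B % 3 = 1 := by
  have := card_modEq_cent Nat.prime_three h.p3 (zpowers_le.2 hg)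
  rwa [cent_zpowers, (eq_bot_iff_forall _).2 fun x (hx : x ∈ B ⊓ 𝒞₁ g) =>
    h.fpf (hB hx.1) (mem_cent1.1 hx.2).symm, card_bot] at this

theorem gC (hx : x ∈ S) : g ∈ 𝒩 (S ⊓ 𝒞₁ x) := by
  have k : ∀ y ∈ S ⊓ 𝒞₁ x, g * (g * y * g⁻¹) * g⁻¹ ∈ S ⊓ 𝒞₁ x := fun y hy => by
    have c1 : Commute x (g * x * g⁻¹) := h.comm hx
    have c2 : Commute (g * y * g⁻¹) (g * (g * y * g⁻¹) * g⁻¹) := h.comm (h.cj1 hy.1)
    have c3 : Commute (g * y * g⁻¹) (g * x * g⁻¹) := mem_cent1.1 (mem_cent1_conj.2 hy.2)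
    have c4 : Commute (x * (g * y * g⁻¹)) (g * x * g⁻¹ * (g * (g * y * g⁻¹) * g⁻¹)) := by
      have := h.comm (mul_mem hx (h.cj1 hy.1))
      rwa [show ∀ a b : G, g * (a * b) * g⁻¹ = g * a * g⁻¹ * (g * b * g⁻¹) from fun _ _ => by group] at this
    have c5 := c4.mul_left (c3.mul_right c2).inv_left
    rw [mul_inv_cancel_right] at c5
    have c6 := c1.inv_right.mul_right c5
    rw [inv_mul_cancel_left] at c6
    exact ⟨h.cj1 (h.cj1 hy.1), mem_cent1.2 c6.symm⟩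
  refine mem_normalizer_of_forall fun y hy => ?_
  have := k _ (k y hy)
  rwa [show g * (g * (g * (g * y * g⁻¹) * g⁻¹) * g⁻¹) * g⁻¹ = g ^ 3 * (g * y * g⁻¹) * (g ^ 3)⁻¹ by
    simp [pow_succ, mul_assoc], ← mem_cent.1 h.g3 _ (h.cj1 hy.1), mul_inv_cancel_right] at this

theorem sq_mem (na : ¬ Abel S) (hx : x ∈ S) : x * x ∈ A := by
  classical
  by_contra nx
  obtain ⟨m, hm⟩ := h.pg.exists_card_eq
  have ex : ∃ n, ∀ y ∈ S, y ^ 2 ^ n = 1 :=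
    ⟨m, fun y hy => orderOf_dvd_iff_pow_eq_one.1 (hm ▸ orderOf_dvd hy)⟩
  have h1 := Nat.find_spec ex
  obtain ⟨k, hk⟩ : ∃ k, Nat.find ex = k + 3 := Nat.exists_eq_add_of_le' (by
    by_contra l
    refine nx (h.om _ (mul_mem hx hx) ?_)
    obtain ⟨j, hj⟩ := pow_dvd_pow 2 (show Nat.find ex ≤ 2 by omega)
    rw [← pow_two, ← pow_two, ← pow_mul, ← pow_two, hj, pow_mul, h1 x hx, one_pow])
  have h2 := Nat.find_min ex (show k + 2 < Nat.find ex by omega)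
  rw [hk] at h1
  push Not at h2
  obtain ⟨u, hu, u1⟩ := h2
  have aA : u ^ 2 ^ (k + 2) ∈ A := h.om _ (pow_mem hu _) (by
    rw [← pow_two, ← pow_mul, ← pow_succ, h1 u hu])
  have cu : Commute u (g * u * g⁻¹) := h.comm hu
  have c : zpowers (g * u * g⁻¹) ≤ 𝒞 (zpowers u) := by
    rw [cent_zpowers, zpowers_le]; exact mem_cent1.2 cu.symm
  have HS : zpowers u ⊔ zpowers (g * u * g⁻¹) ≤ S := sup_le (zpowers_le.2 hu) (zpowers_le.2 (h.cj1 hu))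
  have ab := abel_sup (cyc_zpowers _).abel (cyc_zpowers _).abel (cent_symm c)
  have u0 : u ∈ zpowers u ⊔ zpowers (g * u * g⁻¹) := mem_sup_left (mem_zpowers _)
  have u' : g * u * g⁻¹ ∈ zpowers u ⊔ zpowers (g * u * g⁻¹) := mem_sup_right (mem_zpowers _)
  have bA := conj_mem_of_norm (h.NS h.gN) aA
  have ne := (h.cyc3 (h.NS h.gN) h.gA aA u1).1
  have i1 : ∀ a ∈ A, ∃ p ∈ zpowers u ⊔ zpowers (g * u * g⁻¹), p ^ 2 ^ (k + 2) = a := fun a ha => by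
    rcases h.mem4 aA bA u1 (conj_ne_one u1 g) ne ha with rfl | rfl | rfl | rfl
    exacts [⟨1, one_mem _, one_pow _⟩, ⟨u, u0, rfl⟩, ⟨_, u', conj_pow⟩,
      ⟨_, mul_mem u0 u', by rw [cu.mul_pow, conj_pow]⟩]
  have i2 : ∀ p ∈ zpowers u ⊔ zpowers (g * u * g⁻¹), p ^ 2 ^ (k + 2) = 1 →
      ∃ q ∈ zpowers u ⊔ zpowers (g * u * g⁻¹), q * q = p := fun p hp e => by
    obtain ⟨_, h3, _, h4, rfl⟩ := (mem_sup_l (le_norm_of_le_cent c)).1 hp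
    obtain ⟨i, rfl⟩ := mem_powers_iff_mem_zpowers.2 h3
    obtain ⟨j, rfl⟩ := mem_powers_iff_mem_zpowers.2 h4
    simp only at e ⊢
    rw [(cu.pow_pow i j).mul_pow, pow_right_comm, pow_right_comm _ j, conj_pow,
      pow_eq_pow_mod i ((pow_two _).trans (h.sq aA)), pow_eq_pow_mod j ((pow_two _).trans (h.sq bA))] at e
    have : i % 2 = 0 ∧ j % 2 = 0 := by
      rcases Nat.mod_two_eq_zero_or_one i with a | a <;> rcases Nat.mod_two_eq_zero_or_one j with b | b <;>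
        simp only [a, b, pow_zero, pow_one, one_mul, mul_one, and_self] at e ⊢
      · exact absurd e (conj_ne_one u1 g)
      · exact absurd e u1
      · exact absurd (by rw [← mul_left_cancel_iff (a := u ^ 2 ^ (k + 2)), e, h.sq aA]) ne
    refine ⟨u ^ (i / 2) * (g * u * g⁻¹) ^ (j / 2), mul_mem (pow_mem u0 _) (pow_mem u' _), ?_⟩
    rw [← pow_two, (cu.pow_pow _ _).mul_pow, ← pow_mul, ← pow_mul,
      Nat.div_mul_cancel (Nat.dvd_of_mod_eq_zero this.1), Nat.div_mul_cancel (Nat.dvd_of_mod_eq_zero this.2)]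
  generalize zpowers u ⊔ zpowers (g * u * g⁻¹) = H at *
  have st : ∀ y ∈ S, y * y ∈ H → y ∈ H := fun y hy e => by
    obtain ⟨q, hq, eq⟩ := i2 _ e (by rw [← pow_two, ← pow_mul, ← pow_succ', h1 y hy])
    have qS := inv_mem (HS hq)
    have zS := mul_mem hy qS
    have e1 : y * q⁻¹ * (y * q⁻¹) = ⁅q⁻¹, y⁆ := by
      calc _ = y * ⁅q⁻¹, y⁆ * y * (q * q)⁻¹ := by simp [commutatorElement_def, mul_assoc]
        _ = _ := by rw [h.cls2 qS hy hy, eq]; simp [mul_assoc]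
    have e2 : ⁅q⁻¹, y⁆ ∈ A := h.om _ (e1 ▸ mul_mem zS zS) (by
      rw [← pow_two, ← commutatorElement_inv, inv_pow, ← h.csq hy qS, inv_eq_one,
        commutatorElement_eq_one_iff_mul_comm, pow_two]
      exact ab.comm e (inv_mem hq))
    obtain ⟨p, hp, ep⟩ := i1 _ e2
    have rS := pow_mem (HS hp) (2 ^ k)
    have c1 : Commute ((p ^ 2 ^ k) ^ 2) (y * q⁻¹) := by
      rw [← commutatorElement_eq_one_iff_commute, h.csq rS zS, ← commutatorElement_inv, inv_pow,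
        ← h.csq zS rS, inv_eq_one, commutatorElement_eq_one_iff_mul_comm, pow_two, e1]
      exact h.cS e2 rS
    have e3 : y * q⁻¹ * ((p ^ 2 ^ k) ^ 2)⁻¹ ∈ A := h.om _ (mul_mem zS (inv_mem (pow_mem rS 2))) (by
      rw [← pow_two, c1.symm.inv_right.mul_pow, pow_two (y * q⁻¹), e1, inv_pow, ← ep, ← pow_mul, ← pow_mul,
        show 2 ^ k * (2 * 2) = 2 ^ (k + 2) by ring, mul_inv_cancel])
    obtain ⟨r, hr, er⟩ := i1 _ e3
    have := mul_mem (mul_mem (er ▸ pow_mem hr _) (pow_mem (pow_mem hp (2 ^ k)) 2)) hq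
    rwa [inv_mul_cancel_right, inv_mul_cancel_right] at this
  have : ∀ n, ∀ y ∈ S, y ^ 2 ^ n ∈ H → y ∈ H := fun n => by
    induction n with
    | zero => exact fun y _ e => by simpa using e
    | succ n ih => exact fun y hy e => ih y hy (st _ (pow_mem hy _) (by rwa [← pow_two, ← pow_mul, ← pow_succ]))
  exact na (ab.mono fun y hy => this _ y hy (by rw [h1 y hy]; exact one_mem _))

theorem dvd64 (na : ¬ Abel S) : ♯S ∣ 2 ^ 6 := by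
  have := bound h.AS h.SA (fun _ => h.sq) (fun _ => h.sq_mem na) h.om
  obtain ⟨m, hm⟩ := h.pg.exists_card_eq
  have e := card_mul_ri h.AS
  rw [h.c4] at this e
  rw [hm]
  exact pow_dvd_pow 2 ((Nat.pow_le_pow_iff_right one_lt_two).1 (by omega))

theorem ctr (na : ¬ Abel S) : 𝒵 S = A ∧ ♯S = 64 := by
  obtain ⟨y, hy, ny⟩ := SetLike.not_le_iff_exists.1 na
  have l1 : A ≤ 𝒵 S := le_inf h.AS (cent_symm h.SA)
  have l2 := card_lt (lt_of_le_of_ne (inf_le_inf_left S (cent_le_cent1 hy)) fun e =>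
    ny (e.ge ⟨hy, self_mem_cent1 y⟩).2)
  have l3 := card_lt (lt_of_le_of_ne (inf_le_left : S ⊓ 𝒞₁ y ≤ S) fun e =>
    ny (le_cent1_iff.1 (e.ge.trans inf_le_right)))
  have l0 := card_le l1
  have p1 := pow4 ((card_dvd inf_le_left).trans (h.dvd64 na)) (h.mod3 inf_le_left (norm_le_norm_ctr S h.gN))
  have p2 := pow4 ((card_dvd inf_le_left).trans (h.dvd64 na)) (h.mod3 inf_le_left (h.gC hy))
  have p3 := pow4 (h.dvd64 na) (h.mod3 le_rfl h.gN)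
  have := h.c4
  exact ⟨(eq_of_card_le l1 (by omega)).symm, by omega⟩

theorem cx (na : ¬ Abel S) (hx : x ∈ S) (nx : x ∉ A) : ♯(S ⊓ 𝒞₁ x) = 16 ∧ Abel (S ⊓ 𝒞₁ x) := by
  obtain ⟨e1, e2⟩ := h.ctr na
  have l1 : A < 𝒵 (S ⊓ 𝒞₁ x) := lt_of_le_of_ne (le_inf (le_inf h.AS (le_cent1_iff.2 (h.SA hx)))
    (cent_symm (inf_le_left.trans h.SA))) fun e => nx (e.ge ⟨⟨hx, self_mem_cent1 x⟩,
      le_cent1_iff.1 inf_le_right⟩)
  have l2 := card_le (inf_le_left : 𝒵 (S ⊓ 𝒞₁ x) ≤ _)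
  have l3 := card_lt (lt_of_le_of_ne (inf_le_left : S ⊓ 𝒞₁ x ≤ S) fun e =>
    nx (e1.le ⟨hx, le_cent1_iff.1 (e.ge.trans inf_le_right)⟩))
  have l0 := card_lt l1
  have p1 := pow4 ((card_dvd (inf_le_left.trans inf_le_left)).trans (h.dvd64 na))
    (h.mod3 (inf_le_left.trans inf_le_left) (norm_le_norm_ctr _ (h.gC hx)))
  have p2 := pow4 ((card_dvd inf_le_left).trans (h.dvd64 na)) (h.mod3 inf_le_left (h.gC hx))
  have := h.c4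
  exact ⟨by omega, (eq_of_card_le (inf_le_left : 𝒵 (S ⊓ 𝒞₁ x) ≤ _) (by omega)).ge.trans inf_le_right⟩

theorem der (na : ¬ Abel S) : ⁅S, S⁆ ≤ A := Ux.der_le_of_sq fun _ => h.sq_mem na

theorem ri4 (na : ¬ Abel S) (hx : x ∈ S) (nx : x ∉ A) : (𝒞₁ x).relIndex S = 4 := by
  have := card_inf_mul_ri (𝒞₁ x) S
  rw [inf_comm, (h.cx na hx nx).1, (h.ctr na).2] at this
  omega

theorem coset (na : ¬ Abel S) (hx : x ∈ S) (nx : x ∉ A) (ha : a ∈ A) : ∃ s ∈ S, s * x * s⁻¹ = a * x := by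
  have e : {y | ∃ s ∈ S, s * x * s⁻¹ = y} = (· * x) '' (A : Set G) := by
    refine Set.eq_of_subset_of_ncard_le ?_ (by
      rw [ncard_class, h.ri4 na hx nx, Set.ncard_image_of_injective _ (mul_left_injective x), ncard_sub,
        h.c4])
    rintro _ ⟨s, hs, rfl⟩
    exact ⟨⁅s, x⁆, h.der na (commutator_mem_commutator hs hx), by simp [commutatorElement_def]⟩
  exact e.ge ⟨a, ha, rfl⟩

theorem oddA (ab : Abel S) (hw : w ∈ 𝒩 S) (o : Odd (orderOf w)) (c : w ∈ 𝒞 A) : w ∈ 𝒞 S :=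
  zpowers_le.1 (ab.cent_of_cent_Om Nat.prime_two h.pg (zpowers_le.2 hw)
    (by rw [card_zpow]; exact o.not_two_dvd_nat) (zpowers_le.2
      (cent_anti (Om_le_iff.2 fun x hx e => h.om x hx (by rwa [← pow_two])) c)))

theorem s4 (na : ¬ Abel S) (hw : w ∈ 𝒩 S) (o : Odd (orderOf w)) (hx : x ∈ S) (nx : x ∉ A)
    (e : w * x * w⁻¹ * x⁻¹ ∈ A) : w ∈ 𝒞 S := by
  have c := h.cS e hx
  have wA : w ∈ 𝒞 A := h.fix' hw (mul_mem hx hx) (fun k => nx (h.om x hx k)) (mul_inv_eq_iff_eq_mul.1 (by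
    calc _ = w * x * w⁻¹ * x⁻¹ * x * (w * x * w⁻¹ * x⁻¹) * x := by group
      _ = _ := by rw [mul_assoc _ x, ← c, ← mul_assoc, h.sq e, one_mul]))
  have wB : w ∈ 𝒩 (S ⊓ 𝒞₁ x) := mem_normalizer_of_forall fun y hy => ⟨conj_mem_of_norm hw hy.1, by
    have c1 : Commute (w * y * w⁻¹) (w * x * w⁻¹) := mem_cent1.1 (mem_cent1_conj.2 hy.2)
    have c2 : Commute (w * y * w⁻¹) (w * x * w⁻¹ * x⁻¹) := (h.cS e (conj_mem_of_norm hw hy.1)).symm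
    have := c2.inv_right.mul_right c1
    rw [show (w * x * w⁻¹ * x⁻¹)⁻¹ * (w * x * w⁻¹) = x by group] at this
    exact mem_cent1.2 this⟩
  refine zpowers_le.1 (cent_of_selfcent (N := S ⊓ 𝒞₁ x) (le_norm_of_comm_le' inf_le_left ((h.der na).trans
    (le_inf h.AS (le_cent1_iff.2 (h.SA hx))))) (inf_le_inf_left _ (cent_le_cent1 ⟨hx, self_mem_cent1 x⟩))
    (zpowers_le.2 hw) (cop2 h.pg o) ((h.cx na hx nx).2.cent_of_cent_Om Nat.prime_two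
      (h.pg.to_le inf_le_left) (zpowers_le.2 wB) (by rw [card_zpow]; exact o.not_two_dvd_nat)
        (zpowers_le.2 (cent_anti (Om_le_iff.2 fun y (hy : y ∈ S ⊓ 𝒞₁ x) e => h.om y hy.1 (by rwa [← pow_two])) wA))))

theorem oddc (hw : w ∈ 𝒩 S) (o : Odd (orderOf w)) (hx : x ∈ S) (nx : x ∉ A) (e : w * x = x * w) :
    w ∈ 𝒞 S := by
  by_cases ab : Abel S
  · exact h.oddA ab hw o (h.fix' hw hx (fun k => nx (k ▸ one_mem A)) e)
  · exact h.s4 ab hw o hx nx (by rw [e]; simp)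

theorem OS (T : Subgroup G) : O2 T ⊓ S = ⊥ :=
  inf_eq_bot_of_cop (cop_of_pgroup Nat.prime_two h.pg (odd_O2 T).not_two_dvd_nat).symm

theorem SO (ha : a ∈ A) : S ≤ 𝒩 (O2 (𝒞₁ a)) := (h.SC1 ha).trans (Op_nrm _ _).norm

theorem nrmL (ha : a ∈ A) (a1 : a ≠ 1) : O2 (𝒞₁ a) ⊔ S ⊴ 𝒞₁ a := by
  have NA : 𝒞₁ a ⊓ 𝒩 A ≤ 𝒞 A := fun n hn => h.fix hn.2 ha a1 (mem_cent1.1 hn.1)
  have on := Op_nrm {2}ᶜ (𝒞₁ a)
  by_cases ab : Abel S
  · rw [(npc_sd Nat.prime_two (burnside Nat.prime_two (h.sylC ha) fun n hn => by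
      obtain ⟨s, hs, w, hw, -, o, e⟩ := split2 h.syl hn.2
      exact e ▸ mul_mem (ab hs) (h.oddA ab (zpowers_le.2 hn.2 hw) o
        (zpowers_le.2 (NA ⟨hn.1, h.NS hn.2⟩) hw))) (h.sylC ha)).sup]
    exact .refl _
  have AC := h.AS.trans (h.SC1 ha)
  obtain ⟨Q, _, _, f, fs, fk⟩ := exists_quo (K := O2 (𝒞₁ a) ⊔ A) (M := 𝒞₁ a) ⟨sup_le on.le AC,
    fun c hc => mem_norm_of_cj_le (by
      rw [cj_sup, on.cj_eq hc]
      refine sup_le le_sup_left (cj_le_iff_forall.2 fun b hb => ?_)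
      simpa [commutatorElement_def] using mul_mem_sup ((h.sc.mono h.AS le_rfl le_top).zstar (h.sylC ha)
        h.elem.abel hb (NA.trans (cent_le_cent1 hb)) c hc) hb)⟩
  have kS : up f ⊥ ⊓ S = A := by
    rw [fk, sup_comm, dedekind_l h.AS (h.AS.trans (h.SO ha)), h.OS, sup_bot_eq]
  have hV := (h.sylC ha).down f le_rfl
  rw [down_top fs] at hV
  have kA := kS.ge.trans inf_le_left
  have he : Elem 2 (down f S) := (elem_down_iff (h.SC1 ha)).2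
    ⟨(h.der ab).trans kA, fun x hx => kA (by rw [pow_two]; exact h.sq_mem ab hx)⟩
  have c16 := card_down_mul f (h.SC1 ha)
  rw [kS, h.c4, (h.ctr ab).2] at c16
  have uL : up f (down f S) = O2 (𝒞₁ a) ⊔ S := by
    rw [up_down f (h.SC1 ha), fk, sup_comm, sup_assoc, sup_eq_right.2 h.AS]
  have ho : O2 (⊤ : Subgroup Q) = ⊥ := by
    have n := (Op_nrm {2}ᶜ (⊤ : Subgroup Q)).up f
    rw [up_top] at n
    have s := (h.sylC ha).inf n.le ((h.SC1 ha).trans n.norm)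
    have e : S ⊓ up f (O2 ⊤) = A := le_antisymm (le_trans (le_inf ((down_eq_bot_iff (inf_le_left.trans
      (h.SC1 ha))).1 (by rw [down_inf_up]; exact inf_eq_bot_of_cop (cop_of_pgroup Nat.prime_two
        hV.isPGroup (odd_O2 _).not_two_dvd_nat))) inf_le_left) kS.le) (le_inf h.AS (kA.trans (ker_le_up f _)))
    rw [e] at s
    rw [← down_up fs (O2 ⊤), down_eq_bot_iff n.le, fk, ← (npc_sd Nat.prime_two (burnside Nat.prime_two s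
      ((inf_le_inf_right _ n.le).trans NA)) s).sup]
    exact sup_le_sup_right (Op_le_Op_of_nrm _ n) _
  have fr : ∀ q ∈ 𝒩 (down f S), ∃ v ∈ down f S, ∃ n : 𝒞₁ a, (n : G) ∈ 𝒩 S ∧ q = v * f n := fun q hq => by
    obtain ⟨c, rfl⟩ := fs q
    have lC : O2 (𝒞₁ a) ⊔ S ≤ 𝒞₁ a := sup_le on.le (h.SC1 ha)
    obtain ⟨l, hl, n, hn, e⟩ := ((h.sylC ha).mono le_sup_right lC).frattini
      (uL ▸ up_normalizer_le f _ (coe_mem_up.2 hq))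
    refine ⟨f ⟨l, lC hl⟩, coe_mem_up.1 (uL ▸ hl), ⟨l, lC hl⟩⁻¹ * c, by simpa [e] using hn, by simp⟩
  have kA' : ∀ x y : 𝒞₁ a, (x : G) ∈ S → (y : G) ∈ S → f x = f y → (x : G) * (y : G)⁻¹ ∈ A :=
    fun x y hx hy e => kS.le ⟨coe_mem_up.2 (show f (x * y⁻¹) ∈ _ by simp [e]), S.mul_mem hx (S.inv_mem hy)⟩
  have nA : ∀ x : 𝒞₁ a, f x ≠ 1 → (x : G) ∉ A := fun x x1 hx => x1 (coe_mem_up.1 (kA hx))
  rcases semi hV he (by omega) ho (fun v hv v1 q hq => by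
    obtain ⟨v', hv', n, hn, rfl⟩ := fr q hq.2
    obtain ⟨x, hx, rfl⟩ := mem_down.1 hv
    obtain ⟨s, hs, w, hw, -, o, e⟩ := split2 h.syl hn
    have wC := zpowers_le.2 n.2 hw
    have c1 : f n ∈ 𝒞₁ (f x) := (mul_mem_cancel_left (cent_le_cent1 hv (he.abel hv'))).1 hq.1
    have c2 : f ⟨w, wC⟩ ∈ 𝒞₁ (f x) := zpowers_le.2 c1 (down_zpowers f n ▸ mem_down_of_mem hw)
    have wS := h.s4 ab (zpowers_le.2 hn hw) o hx (nA x v1) (kA' (⟨w, wC⟩ * x * ⟨w, wC⟩⁻¹) x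
      (conj_mem_of_norm (zpowers_le.2 hn hw) hx) hx (by simp [mem_cent1.1 c2]))
    refine mul_mem (he.abel hv') ?_
    rw [show n = ⟨s, h.SC1 ha hs⟩ * ⟨w, wC⟩ from Subtype.ext e, map_mul]
    exact mul_mem (he.abel (mem_down_of_mem hs))
      (down_le_cent f (zpowers_le.2 wS) (mem_down_of_mem (mem_zpowers w)))) with k | k
  · exact ⟨sup_le on.le (h.SC1 ha), by simpa only [up_top, uL] using up_le_norm f k⟩
  exfalso
  obtain ⟨x, hx, nx⟩ := SetLike.not_le_iff_exists.1 fun l => h.ne (le_antisymm l h.AS)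
  have nx' : g * x * g⁻¹ ∉ A := by rwa [conj_mem_iff_of_norm (h.NS h.gN)]
  have f1 : ∀ x : 𝒞₁ a, (x : G) ∈ S → (x : G) ∉ A → f x ≠ 1 := fun x hx nx e =>
    nx (kS.le ⟨coe_mem_up.2 e, hx⟩)
  obtain ⟨q, hq, e⟩ := k _ (mem_down_of_mem (x := ⟨x, h.SC1 ha hx⟩) hx) _
    (mem_down_of_mem (x := ⟨_, h.SC1 ha (h.cj1 hx)⟩) (h.cj1 hx)) (f1 _ hx nx) (f1 _ (h.cj1 hx) nx')
  obtain ⟨v', hv', n, hn, rfl⟩ := fr q hq
  have nx1 := conj_mem_of_norm hn hx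
  have e1 := kA' (n * ⟨x, h.SC1 ha hx⟩ * n⁻¹) ⟨_, h.SC1 ha (h.cj1 hx)⟩ nx1 (h.cj1 hx) (by
    rw [← e, show ∀ a b c : Q, a * b * c * (a * b)⁻¹ = a * (b * c * b⁻¹) * a⁻¹ from fun _ _ _ => by group,
      ← map_inv, ← map_mul, ← map_mul, he.abel.comm hv' (mem_down_of_mem nx1), mul_inv_cancel_right])
  change n * x * (n : G)⁻¹ * (g * x * g⁻¹)⁻¹ ∈ A at e1
  have c := h.cS e1 (h.cj1 hx)
  have e2 := mem_cent.1 (NA ⟨n.2, h.NS hn⟩) _ (h.sq_mem ab hx)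
  refine nx (h.om x hx (h.fpf (mul_mem hx hx) (mul_inv_eq_iff_eq_mul.1 ?_)))
  generalize hb : n * x * (n : G)⁻¹ * (g * x * g⁻¹)⁻¹ = b at *
  calc _ = b * b * (g * x * g⁻¹) * (g * x * g⁻¹) := by rw [h.sq e1]; group
    _ = b * (g * x * g⁻¹) * (b * (g * x * g⁻¹)) := by
      generalize g * x * g⁻¹ = y at c
      rw [mul_assoc b y, ← mul_assoc y, ← c]; simp only [mul_assoc]
    _ = n * (x * x) * (n : G)⁻¹ := by rw [← hb]; group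
    _ = _ := by rw [← e2, mul_inv_cancel_right]

theorem frat (ha : a ∈ A) (a1 : a ≠ 1) (hc : c ∈ 𝒞₁ a) :
    ∃ o ∈ O2 (𝒞₁ a), ∃ n ∈ 𝒩 S, n ∈ 𝒞 A ∧ c = o * n := by
  have n := h.nrmL ha a1
  obtain ⟨l, hl, n, hn, e⟩ := ((h.sylC ha).mono le_sup_right n.le).frattini (n.norm hc)
  obtain ⟨o, ho, s, hs, rfl⟩ := (mem_sup_l (h.SO ha)).1 hl
  have k := mul_mem (le_norm S hs) hn
  rw [mul_assoc] at e
  exact ⟨o, ho, _, k, h.fix (h.NS k) ha a1 (mem_cent1.1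
    ((mul_mem_cancel_left (Op_le _ _ ho)).1 (e ▸ hc))), e⟩

theorem oS (ha : a ∈ A) (ho : o ∈ O2 (𝒞₁ a)) (hy : y ∈ S) (e : o * y * o⁻¹ ∈ S) : o * y * o⁻¹ = y :=
  mul_inv_eq_one.1 (eq_one_of_mem (h.OS (𝒞₁ a)) ⟨by
    simpa [mul_assoc] using mul_mem ho (conj_mem_of_norm (h.SO ha hy) (inv_mem ho)),
    S.mul_mem e (S.inv_mem hy)⟩)

theorem oddO (ha : a ∈ A) (a1 : a ≠ 1) (hw : w ∈ 𝒞 S) (o : Odd (orderOf w)) : w ∈ O2 (𝒞₁ a) := by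
  have np : NPC 2 (𝒞 S) := burnside Nat.prime_two (h.syl.inf le_top (le_norm_cent (le_norm S)))
    (inf_le_left.trans (cent_anti inf_le_left))
  have l : O2 (𝒞 S) ≤ 𝒞₁ a := (Op_le _ _).trans (cent_le_cent1 (h.AS ha))
  have on := Op_nrm {2}ᶜ (𝒞₁ a)
  refine le_Op ((Op_pi _ _).sup (Op_pi {2}ᶜ (𝒞 S)) (l.trans on.norm)) ⟨sup_le on.le l, fun c hc => ?_⟩
    (mem_sup_right (npc_le_Op Nat.prime_two np (zpowers_le.2 hw)
      (by rw [card_zpow]; exact o.not_two_dvd_nat) (mem_zpowers w)))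
  obtain ⟨o, ho, n, hn, nA, rfl⟩ := h.frat ha a1 hc
  exact mul_mem (le_norm _ (mem_sup_left ho)) (zpowers_le.1 (le_norm_sup (zpowers_le.2 (on.norm
    (cent_le_cent1 ha nA))) (zpowers_le.2 (norm_le_norm_Op _ _ (norm_le_norm_cent S hn)))))

theorem sd (hs : s ∈ S) (s1 : s ≠ 1) (hh : ∀ w ∈ 𝒩 S, Odd (orderOf w) → w * s = s * w → w ∈ 𝒞 S) :
    ∃ O, Odd ♯O ∧ SD O (S ⊓ 𝒞₁ s) (𝒞₁ s) := by
  obtain ⟨a, h1, ha, a1⟩ := h.inv hs s1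
  refine ⟨O2 (𝒞₁ a) ⊓ 𝒞₁ s, odd_of_le (odd_O2 _) inf_le_left, le_antisymm (sup_le inf_le_right
    inf_le_right) fun c hc => ?_, le_norm_inf (inf_le_left.trans (h.SO ha)) (le_norm_of_le inf_le_right),
    eq_bot_of_le (h.OS _) (inf_le_inf inf_le_left inf_le_left)⟩
  obtain ⟨o, ho, n, hn, nA, rfl⟩ := h.frat ha a1 (cent1_le_of_mem_zpowers h1 hc)
  have e : o * (n * s * n⁻¹) * o⁻¹ = s := by
    calc _ = o * n * s * (o * n)⁻¹ := by group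
      _ = s := by rw [mem_cent1.1 hc, mul_inv_cancel_right]
  have nc : n ∈ 𝒞₁ s := mem_cent1.2 (mul_inv_eq_iff_eq_mul.1
    ((h.oS ha ho (conj_mem_of_norm hn hs) (e.symm ▸ hs)).symm.trans e))
  obtain ⟨s', hs', w, hw, hs2, od, e2⟩ := split2 h.syl hn
  have wc := zpowers_le.2 nc hw
  refine mul_mem (mem_sup_left ⟨ho, (mul_mem_cancel_right nc).1 hc⟩) (e2 ▸ mul_mem
    (mem_sup_right ⟨hs', zpowers_le.2 nc hs2⟩) (mem_sup_left ⟨h.oddO ha a1 (hh w (zpowers_le.2 hn hw) od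
      (mem_cent1.1 wc)) od, wc⟩))

theorem fus (hy : y ∈ S) (e : c * y * c⁻¹ ∈ S) : ∃ n ∈ 𝒩 S, c * y * c⁻¹ = n * y * n⁻¹ := by
  obtain ⟨a, ha, a1⟩ := h.ex
  obtain ⟨n, hn, e1⟩ := Fx.ctrl h.syl h.sc h.elem.abel hy e
  obtain ⟨n', hn', k, hk, rfl⟩ := (h.syl.mono h.SA le_top).frattini' (norm_le_norm_cent A hn)
  obtain ⟨o, ho, m, hm, -, rfl⟩ := h.frat ha a1 (cent_le_cent1 ha hk)
  have e2 : c * y * c⁻¹ = n' * (o * (m * y * m⁻¹) * o⁻¹) * n'⁻¹ := by rw [e1]; group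
  rw [h.oS ha ho (conj_mem_of_norm hm hy) ((conj_mem_iff_of_norm hn').1 (e2 ▸ e))] at e2
  exact ⟨n' * m, mul_mem hn' hm, by rw [e2]; group⟩

theorem dec (hn : n ∈ 𝒩 S) : ∃ i < 3, ∃ m ∈ 𝒩 S, m ∈ 𝒞 A ∧ n = g ^ i * m := by
  obtain ⟨a, ha, a1⟩ := h.ex
  obtain ⟨i, hi, e⟩ := h.tr (h.NS h.gN) h.gA ha a1 (conj_mem_of_norm (h.NS hn) ha) (conj_ne_one a1 n)
  have k := mul_mem (inv_mem (pow_mem h.gN i)) hn
  refine ⟨i, hi, _, k, h.fix (h.NS k) ha a1 ?_, by group⟩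
  calc _ = (g ^ i)⁻¹ * (n * a * n⁻¹) * n := by group
    _ = _ := by rw [← e]; group

theorem hI (ha : a ∈ A) (a1 : a ≠ 1) (x : G) : IsConj a x ↔ x * x = 1 ∧ x ≠ 1 := by
  refine ⟨fun k => ?_, fun k => ?_⟩
  · obtain ⟨c, rfl⟩ := isConj_iff.1 k
    exact ⟨GW.sq_cj (h.sq ha) c, conj_ne_one a1 c⟩
  · obtain ⟨c, -, hc⟩ := h.syl.exists_conj_mem (mem_top x) ⟨1, by simpa [pow_two] using k.1⟩
    obtain ⟨i, -, e⟩ := h.tr (h.NS h.gN) h.gA ha a1 (h.om _ hc (GW.sq_cj k.1 c)) (conj_ne_one k.2 c)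
    exact isConj_iff.2 ⟨c⁻¹ * g ^ i, by rw [show c⁻¹ * g ^ i * a * (c⁻¹ * g ^ i)⁻¹ =
      c⁻¹ * (g ^ i * a * (g ^ i)⁻¹) * c by group, e]; group⟩

/-- the case `N(S)/O = S : 15` -/
theorem five (hu : u ∈ 𝒩 S) (uA : u ∈ 𝒞 A) (o : Odd (orderOf u)) (nu : u ∉ 𝒞 S) (ha : a ∈ A) (a1 : a ≠ 1) :
    (O2 (𝒞₁ a) ⊔ S).relIndex (𝒞₁ a) = 5 ∧
      ∀ x ∈ S, x ∉ A → ∀ y ∈ S, y ∉ A → ∃ n ∈ 𝒩 S, n * x * n⁻¹ = y := by
  have na : ¬ Abel S := fun ab => nu (h.oddA ab hu o uA)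
  have sn : S ≤ 𝒩 (𝒞 S) := le_norm_cent (le_norm S)
  have l1 : S ⊔ 𝒞 S ≤ 𝒩 S ⊓ 𝒞 A := sup_le (le_inf (le_norm S) h.SA) (le_inf (cent_le_norm S) (cent_anti h.AS))
  have r3 : (𝒩 S ⊓ 𝒞 A).relIndex (𝒩 S) = 3 := by
    have e : 𝒩 S ⊓ 𝒞 A = 𝒞₁ a ⊓ 𝒩 S := le_antisymm (le_inf (inf_le_right.trans (cent_le_cent1 ha))
      inf_le_left) fun n hn => ⟨hn.2, h.fix (h.NS hn.2) ha a1 (mem_cent1.1 hn.1)⟩
    rw [e, inf_relIndex_right, ← ncard_class, show 3 = ♯A - 1 by rw [h.c4], ← ncard_sharp]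
    congr 1
    ext b
    refine ⟨?_, fun hb => ?_⟩
    · rintro ⟨n, hn, rfl⟩; exact SFx.conj_sharp (h.NS hn) ⟨ha, a1⟩
    · obtain ⟨i, -, e⟩ := h.tr (h.NS h.gN) h.gA ha a1 hb.1 hb.2
      exact ⟨_, pow_mem h.gN i, e⟩
  have cl : ∀ x ∈ S, x ∉ A → {y | ∃ n ∈ 𝒩 S, n * x * n⁻¹ = y}.ncard =
      4 * ((S ⊔ 𝒞 S).relIndex (𝒩 S ⊓ 𝒞 A) * 3) := fun x hx nx => by
    have e : 𝒞₁ x ⊓ 𝒩 S = 𝒞₁ x ⊓ (S ⊔ 𝒞 S) := le_antisymm (fun n hn => ⟨hn.1, by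
      obtain ⟨s, hs, w, hw, -, od, e⟩ := split2 h.syl hn.2
      exact e ▸ mul_mem_sup hs (h.oddc (zpowers_le.2 hn.2 hw) od hx nx
        (mem_cent1.1 (zpowers_le.2 hn.1 hw)))⟩) (inf_le_inf_left _ (l1.trans inf_le_left))
    rw [ncard_class, ← inf_relIndex_right, e, ← ri_mul inf_le_right (l1.trans inf_le_left),
      ← ri_mul l1 inf_le_left, r3, inf_relIndex_right, ← h.ri4 na hx nx, ← ncard_class, ← ncard_class]
    congr 2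
    ext y
    refine ⟨?_, fun ⟨s, hs, e⟩ => ⟨s, mem_sup_left hs, e⟩⟩
    rintro ⟨d, hd, rfl⟩
    obtain ⟨s, hs, c, hc, rfl⟩ := (mem_sup_r sn).1 hd
    exact ⟨s, hs, by rw [mul_assoc s c, ← mem_cent.1 hc x hx]; group⟩
  have m2 : ¬ 2 ∣ (S ⊔ 𝒞 S).relIndex (𝒩 S ⊓ 𝒞 A) :=
    (h.syl.mono (le_sup_left.trans l1) le_top).not_dvd_of_le le_sup_left
  have m1 : (S ⊔ 𝒞 S).relIndex (𝒩 S ⊓ 𝒞 A) ≠ 1 := fun e => nu (mem_of_cop_ri (sup_le sn (le_norm _))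
    (relIndex_eq_one.1 e ⟨hu, uA⟩) (by
      rw [sup_comm, ri_sup sn, ← card_zpow]
      exact (cop2 h.pg o).symm.coprime_dvd_right (ri_dvd_card _ _)))
  have c60 : ((S : Set G) \ A).ncard = 60 := by
    rw [Set.ncard_sdiff h.AS, ncard_sub, ncard_sub, (h.ctr na).2, h.c4]
  have sb : ∀ x ∈ S, x ∉ A → {y | ∃ n ∈ 𝒩 S, n * x * n⁻¹ = y} ⊆ (S : Set G) \ A := by
    rintro x hx nx _ ⟨n, hn, rfl⟩
    exact ⟨conj_mem_of_norm hn hx, fun k => nx ((conj_mem_iff_of_norm (h.NS hn)).1 k)⟩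
  have tr : ∀ x ∈ S, x ∉ A → ∀ y ∈ S, y ∉ A → ∃ n ∈ 𝒩 S, n * x * n⁻¹ = y := fun x hx nx y hy ny => by
    by_contra k
    have := Set.ncard_le_ncard (Set.union_subset (sb x hx nx) (sb y hy ny))
    rw [Set.ncard_union_eq (Set.disjoint_left.2 (by
      rintro _ ⟨n, hn, rfl⟩ ⟨m, hm, e⟩
      exact k ⟨m⁻¹ * n, mul_mem (inv_mem hm) hn, by
        rw [show m⁻¹ * n * x * (m⁻¹ * n)⁻¹ = m⁻¹ * (n * x * n⁻¹) * m by group, ← e]; group⟩)),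
      cl x hx nx, cl y hy ny] at this
    omega
  refine ⟨?_, tr⟩
  obtain ⟨x, hx, nx⟩ := SetLike.not_le_iff_exists.1 fun l => h.ne (le_antisymm l h.AS)
  have e := cl x hx nx
  rw [(sb x hx nx).antisymm fun y hy => tr x hx nx y hy.1 hy.2, c60] at e
  have nl := h.nrmL ha a1
  have lC : 𝒩 S ⊓ 𝒞 A ≤ 𝒞₁ a := inf_le_right.trans (cent_le_cent1 ha)
  have e1 : O2 (𝒞₁ a) ⊔ S ⊔ 𝒩 S ⊓ 𝒞 A = 𝒞₁ a := le_antisymm (sup_le nl.le lC) fun c hc => by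
    obtain ⟨o, ho, n, hn, nA, rfl⟩ := h.frat ha a1 hc
    exact mul_mem_sup (mem_sup_left ho) ⟨hn, nA⟩
  have e2 : (O2 (𝒞₁ a) ⊔ S) ⊓ (𝒩 S ⊓ 𝒞 A) = S ⊔ 𝒞 S := le_antisymm (fun l hl => by
      obtain ⟨o, ho, s, hs, rfl⟩ := (mem_sup_l (h.SO ha)).1 hl.1
      have k := (mul_mem_cancel_right (le_norm S hs)).1 hl.2.1
      exact mul_mem (mem_sup_right (mem_cent.2 fun y hy => (mul_inv_eq_iff_eq_mul.1
        (h.oS ha ho hy (conj_mem_of_norm k hy))).symm)) (mem_sup_left hs))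
    (le_inf (sup_le le_sup_right fun c hc => by
      obtain ⟨s, hs, w, hw, -, od, e⟩ := split2 h.syl (cent_le_norm S hc)
      exact e ▸ mul_mem (mem_sup_right hs) (mem_sup_left (h.oddO ha a1 (zpowers_le.2 hc hw) od))) l1)
  have := ri_sup (lC.trans nl.norm)
  rw [e1, ← inf_relIndex_right _ (𝒩 S ⊓ 𝒞 A), e2] at this
  omega

end U5

end Cfsg.GS.Qx
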