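import Cfsg.Agent.GS.WB2

/-! Task BL. -/

set_option autoImplicit false
set_option linter.unusedSectionVars false

open scoped ComplexConjugate

namespace Cfsg.GW2.Bx

open Subgroup Cfsg.L0 Cfsg.H8 Cfsg.FT Cfsg.GJ Cfsg.H5 Cfsg.GW

variable {G : Type} [Group G] [Finite G] {E L B : Subgroup G} {t v w x y : G}
  {φ ψ χ κ D St φ₁ φ₂ : G → ℂ}

theorem perm_norm (hB : B ≤ E) (hw : w ∈ E) (wB : w ∉ B)
    (h : ∀ g ∈ E, g ∉ B → ∃ b ∈ B, ∃ b' ∈ B, g = b * w * b') :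
    dot E (ind B E (cf1 B)) (ind B E (cf1 B)) = 2 := by
  have c := card_ne_zero_c B
  have k1 : ∀ u ∈ E, ∀ c ∈ B, ∑ y ∈ fs (E : Set G), cf1 B (y⁻¹ * c * u) = ♯B := fun u hu c hc => by
    rw [← sum_inv, ← sum_mul_right (inv_mem (mul_mem (hB hc) hu)), ← sum_fs_subset (A := B) hB
      fun y _ e => by simpa [mul_assoc] using cf1_of_not_mem e,
      sum_fs_congr (f' := fun _ => 1) fun y e => by simpa [mul_assoc] using cf1_of_mem e,
      sum_sub_const, mul_one]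
  have k2 : ∀ y ∈ E, ∑ c ∈ fs (B : Set G), cf1 B (y⁻¹ * c * y) =
      ∑ c ∈ fs (B : Set G), (cf1 B (y⁻¹ * c * 1) + cf1 B (y⁻¹ * c * w)) := fun y hy => by
    by_cases e : y ∈ B
    · refine sum_fs_congr fun c hc => ?_
      have e1 := mul_mem (inv_mem e) hc
      rw [cf1_of_mem (mul_mem e1 e), mul_one, cf1_of_mem e1,
        cf1_of_not_mem (mt (mul_mem_cancel_left e1).1 wB), add_zero]
    · obtain ⟨b, hb, b', hb', e1⟩ := h y hy e
      rw [← sum_mul_right (inv_mem hb)]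
      refine sum_fs_congr fun c hc => ?_
      rw [mul_one, cf1_of_not_mem (x := y⁻¹ * c) (by rwa [mul_mem_cancel_right hc, inv_mem_iff]),
        zero_add, show y⁻¹ * (c * b⁻¹) * y = y⁻¹ * c * w * b' by nth_rewrite 2 [e1]; group]
      by_cases e2 : y⁻¹ * c * w ∈ B
      · rw [cf1_of_mem e2, cf1_of_mem (mul_mem e2 hb')]
      · rw [cf1_of_not_mem e2, cf1_of_not_mem (mt (mul_mem_cancel_right hb').1 e2)]
  rw [dot_ind_right hB _ (ind_cf hB _), dot_cf1_right,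
    sum_fs_congr fun x _ => (cf1_sp B).ind_apply E x, ← Finset.mul_sum, Finset.sum_comm,
    sum_fs_congr k2, Finset.sum_comm, sum_fs_congr (f' := fun _ => (♯B : ℂ) + (♯B : ℂ)) fun c hc => by
      rw [Finset.sum_add_distrib, k1 1 (one_mem _) c hc, k1 w hw c hc], sum_sub_const]
  field_simp
  norm_num

theorem B4.coord (h : K4E E v w) (hS : Irr E St) (hc : ∀ x ∈ E, ¬ Odd (orderOf x) → St x = -1)
    (b : B4 E St φ₁ φ₂) (hD : VCh E D)
    (h0 : ∀ φ, Irr E φ → dot E φ (ev E) = 0 → dot E (preg 2 * D) φ = 0) :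
    ∃ x₀ x₁ x₂ : ℤ, ∀ y ∈ E, Odd (orderOf y) → D y = x₀ + x₁ * φ₁ y + x₂ * φ₂ y := by
  obtain ⟨n₀, e₀⟩ := hD.dot_int (vch_cf1 E)
  obtain ⟨n₁, e₁⟩ := hD.dot_int b.d1.vch
  obtain ⟨n₂, e₂⟩ := hD.dot_int b.d2.vch
  obtain ⟨n₃, e₃⟩ := hD.dot_int hS.vch
  have a4 : dot E St (cf1 E) = 0 := hS.dot_cf1 fun e => by
    have := hc v h.vE h.ve
    rw [e, cf1_of_mem h.vE] at this
    norm_num at this
  set D' := D - (n₀ : ℂ) • cf1 E - (n₁ : ℂ) • φ₁ - (n₂ : ℂ) • φ₂ - (n₃ : ℂ) • St with hD'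
  have f₀ : dot E D' (cf1 E) = 0 := by
    simp only [hD', dot_sub_left, dot_smul_left, e₀, dot_cf1_self, b.o1, b.o2, a4]; ring
  have f₁ : dot E D' φ₁ = 0 := by
    simp only [hD', dot_sub_left, dot_smul_left, e₁, dot_symm_zero b.o1, b.d1.dot_self,
      dot_symm_zero b.o12, dot_symm_zero b.s1]; ring
  have f₂ : dot E D' φ₂ = 0 := by
    simp only [hD', dot_sub_left, dot_smul_left, e₂, dot_symm_zero b.o2, b.d2.dot_self, b.o12,
      dot_symm_zero b.s2]; ring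
  have f₃ : dot E D' St = 0 := by
    simp only [hD', dot_sub_left, dot_smul_left, e₃, dot_symm_zero a4, hS.dot_self, b.s1, b.s2]; ring
  have f₄ : dot E D' ((4 : ℂ) • ev E) = 0 := by
    rw [b.eq, dot_add_right, dot_add_right, dot_sub_right, f₀, f₁, f₂, f₃]; ring
  rw [dot_smul_right, c4, mul_eq_zero, or_iff_right (by norm_num)] at f₄
  have k : ∀ ψ φ (c : ℂ), Dirr E ψ → c ≠ 0 → (∀ x ∈ E, ¬ Odd (orderOf x) → ψ x = c) → Irr E φ →
      dot E φ (ev E) = 0 → dot E φ ψ = 0 ∧ dot E (preg 2 * ψ) φ = 0 := fun ψ φ c h1 h2 h3 h4 h5 => by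
    have : dot E φ ψ = 0 := by_contra fun e => h2 (by
      rcases h4.dirr.eq_or_neg h1 e with r | r
      · rw [← h.ev_of h3, ← r, h5, mul_zero]
      · rw [r, dot_neg_left, neg_eq_zero] at h5
        rw [← h.ev_of h3, h5, mul_zero])
    exact ⟨this, dot_symm_zero (by rw [← dot_od_swap, dot_od h3, this, h5]; ring)⟩
  have cf' : CF E D' := (((hD.cf.sub ((cf_cf1 E).smul _)).sub (b.d1.cf.smul _)).sub
    (b.d2.cf.smul _)).sub (hS.cf.smul _)
  have z : preg 2 * D' = 0 := (cf_preg cf').eq_zero_of_dot fun φ hφ => by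
    by_cases e : dot E φ (ev E) = 0
    · have g₀ := (k _ φ 1 (irr_cf1 E).dirr one_ne_zero (fun x hx _ => cf1_of_mem hx) hφ e).2
      have g₁ := (k _ φ 1 b.d1 one_ne_zero b.e1 hφ e).2
      have g₂ := (k _ φ 1 b.d2 one_ne_zero b.e2 hφ e).2
      have g₃ := (k _ φ (-1) hS.dirr (by norm_num) hc hφ e).2
      simp only [hD', mul_sub, mul_smul_comm, dot_sub_left, dot_smul_left, h0 φ hφ e, g₀, g₁, g₂, g₃]
      ring
    · rw [dot_od (h.cst hφ.dirr e).2, f₄, mul_zero, sub_zero]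
      by_contra e'
      have k' : ∀ ψ, Dirr E ψ → dot E D' ψ = 0 → dot E φ ψ = 0 := fun ψ h1 h2 => by_contra fun e1 => by
        rcases hφ.dirr.eq_or_neg h1 e1 with r | r
        · exact e' (r ▸ h2)
        · exact e' (by rw [r, dot_neg_right, h2, neg_zero])
      have : dot E φ ((4 : ℂ) • ev E) = 0 := by
        rw [b.eq, dot_add_right, dot_add_right, dot_sub_right, k' _ (irr_cf1 E).dirr f₀,
          k' _ b.d1 f₁, k' _ b.d2 f₂, k' _ hS.dirr f₃]; ring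
      rw [dot_smul_right, c4, mul_eq_zero, or_iff_right (by norm_num)] at this
      exact e this
  refine ⟨n₀ + n₃, n₁ + n₃, n₂ + n₃, fun y hy o => ?_⟩
  have z1 := congrFun z y
  have z2 := congrFun b.eq y
  simp only [hD', Pi.mul_apply, Pi.sub_apply, Pi.smul_apply, Pi.add_apply, preg_odd o, smul_eq_mul,
    cf1_of_mem hy, Pi.zero_apply, ev, res_of_mem hy, Pi.one_apply] at z1 z2
  push_cast
  linear_combination z1 + n₃ * z2

theorem not_odd_mul (h : CI E t) (hy : y ∈ E) : ¬ Odd (orderOf (t * y)) := fun o => h.nm (by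
  have e := pow_orderOf_eq_one (t * y)
  rw [(show Commute y t from mem_cent1.1 (h.ct hy)).symm.mul_pow,
    (⟨h.tt, fun e => h.nm (e ▸ one_mem _)⟩ : Iv t).pow o] at e
  rw [eq_inv_of_mul_eq_one_left e]
  exact inv_mem (pow_mem hy _))

/-- the untwisted section function -/
noncomputable def Dk (E : Subgroup G) (t : G) (κ χ : G → ℂ) : G → ℂ := cc κ * res E (tw t χ)

theorem Dk_apply (hy : y ∈ E) : Dk E t κ χ y = conj (κ y) * χ (t * y) := by
  simp [Dk, res_of_mem hy, aut_apply]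

theorem Dk_neg : Dk E t κ (-χ) = -Dk E t κ χ := by
  rw [Dk, Dk, show tw t (-χ) = -tw t χ from rfl, map_neg, mul_neg]

theorem Dk_vch (h : CI E t) (hκ : Lin E κ) (hχ : VCh ⊤ χ) : VCh E (Dk E t κ χ) :=
  (hκ.vch.aut _).mul (h.tw_vch hχ le_top (mem_top _))

theorem kk (hκ : Lin E κ) (hy : y ∈ E) : conj (κ y) * κ y = 1 := by
  have := congrFun hκ.mul_cc y
  rwa [cf1_of_mem hy, Pi.mul_apply, mul_comm] at this

theorem sumC (h : CI E t) (hC : 𝒞₁ t = E ⊔ zpowers t) [Fintype (𝒞₁ t)] (f : G → ℂ) :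
    ∑ y : 𝒞₁ t, f y = ∑ y ∈ fs (E : Set G), (f y + f (t * y)) := by
  rw [← sum_fs_sub, hC, h.ni.sum]

theorem dichE (h : CI E t) (hC : 𝒞₁ t = E ⊔ zpowers t) (k : K4E E v w) (hκ : Lin E κ)
    {c : G → ℂ} (hc : CF ⊤ c) (hi : ∀ g, IsIntegral ℤ (c g))
    (c1 : ∀ y ∈ E, c y = (1 - preg 2 y) * conj (κ y)) (c2 : ∀ y ∈ E, c (t * y) = conj (κ y))
    (hχ : Dirr ⊤ χ) :
    (∀ φ, Irr E φ → dot E φ (ev E) = 0 → dot E (preg 2 * Dk E t κ χ) φ = 0) ∨
    ∀ φ, Irr E φ → dot E φ (ev E) ≠ 0 → dot E (preg 2 * Dk E t κ χ) φ = 0 := by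
  classical
  wlog h1 : Irr ⊤ χ generalizing χ
  · have := this hχ.neg (hχ.resolve_left h1)
    simpa only [Dk_neg, mul_neg, dot_neg_left, neg_eq_zero] using this
  have := Fintype.ofFinite G
  have := Fintype.ofFinite (𝒞₁ t)
  have := Fintype.ofFinite E
  obtain ⟨V, hv⟩ := exists_valuation_lt_one Nat.prime_two
  obtain ⟨b, hb⟩ := dich (u := t) (k := 1) Nat.prime_two hv (by rw [pow_one, sq, h.tt])
    (cf_top_iff.1 hc) hi (irr_top_iff.1 h1)
  have key : ∀ φ, Irr E φ → (b ↔ dot E φ (ev E) ≠ 0) → dot E (preg 2 * Dk E t κ χ) φ = 0 := by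
    intro φ hφ e
    obtain ⟨ψ, p1, p2⟩ := h.exists_ext (hφ.lin_mul hκ).ch
    have p3 : Irr (𝒞₁ t) ψ := hC ▸ p1.irr_of_res le_sup_left (by
      rw [res_congr fun x hx => (p2 x hx).1, (hφ.lin_mul hκ).sp.res_eq]; exact hφ.lin_mul hκ)
    have e1 : om (fun g : 𝒞₁ t => c g) (fun g : 𝒞₁ t => ψ g) =
        2 * (♯E : ℂ) * (dot E φ (cf1 E) / φ 1) - H5.alpha 2 (fun x : E => φ x) := by
      rw [om, sumC h hC fun g => c g * ψ g, H5.alpha, dot_cf1_right, OneMemClass.coe_one,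
        OneMemClass.coe_one, (p2 1 (one_mem _)).1, Pi.mul_apply, hκ.one, one_mul,
        sum_fs_congr (f' := fun y => 2 * φ y - preg 2 y * φ y) fun y hy => by
          rw [c1 y hy, c2 y hy, (p2 y hy).1, (p2 y hy).2, Pi.mul_apply]
          linear_combination (2 - preg 2 y) * φ y * kk hκ hy,
        Finset.sum_sub_distrib, ← Finset.mul_sum, sum_fs_sub fun y => preg 2 y * φ y]
      have := card_ne_zero_c E
      simp only [preg_coe]
      field_simp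
    have e2 : V.valuation (2 * (♯E : ℂ) * (dot E φ (cf1 E) / φ 1)) < 1 := by
      by_cases e3 : φ = cf1 E
      · rw [e3, dot_cf1_self, cf1_one, div_one, mul_one]
        exact val_mul_lt_one' (by exact_mod_cast hv) (val_natCast_le_one _ _)
      · simp [hφ.dot_cf1 e3]
    have := hb _ p3.irr (e.trans (by
      rw [e1]
      refine ⟨fun e3 e4 => ?_, fun e3 e4 => e3 ?_⟩
      · have := V.valuation.map_sub_lt e2 e4
        rw [sub_sub_cancel, val_alpha Nat.prime_two hv hφ.irr (k.inB0 hφ e3)] at this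
        exact lt_irrefl _ this
      · have e5 : dot E φ (cf1 E) = 0 := hφ.dot_cf1 fun e5 => by
          have := k.one_ev
          rw [← e5, e4] at this
          norm_num at this
        have e6 := dot_od (c := 1) (ψ := cf1 E) (fun x hx _ => cf1_of_mem hx) φ
        rw [e5, e4, dot_cf1_right, sum_fs_sub] at e6
        have := card_ne_zero_c E
        have e7 : ∑ x : E, preg 2 x * φ x = 0 := by simpa [this, preg_coe] using e6
        simp [e5, H5.alpha, e7]))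
    simp only [← preg_coe] at this
    rw [sumC h hC fun y => preg 2 y * (χ (t * y) * conj (ψ y))] at this
    rw [dot_def, ← mul_zero (♯E : ℂ)⁻¹, ← this]
    congr 1
    refine sum_fs_congr fun y hy => ?_
    rw [preg_even (not_odd_mul h hy), (p2 y hy).1, Pi.mul_apply, Pi.mul_apply, Dk_apply hy, map_mul]
    ring
  by_cases e : b
  · exact Or.inr fun φ hφ e1 => key φ hφ (iff_of_true e e1)
  · exact Or.inl fun φ hφ e1 => key φ hφ (iff_of_false e (not_not.2 e1))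

theorem Dk_nrm (h : CI E t) (hC : 𝒞₁ t = E ⊔ zpowers t) (oc : ∀ [Fintype G], OC t) (hκ : Lin E κ)
    (hχ : Dirr ⊤ χ) : (dot E (preg 2 * Dk E t κ χ) (Dk E t κ χ)).re < 2 := by
  classical
  wlog h1 : Irr ⊤ χ generalizing χ
  · have := this hχ.neg (hχ.resolve_left h1)
    simpa only [Dk_neg, mul_neg, dot_neg_left, dot_neg_right, neg_neg] using this
  have := Fintype.ofFinite G
  have := Fintype.ofFinite (𝒞₁ t)
  have e := oc.norm_lt (irr_top_iff.1 h1)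
  simp only [← preg_coe] at e
  rw [sumC h hC fun y => preg 2 y * (χ (t * y) * conj (χ (t * y))), hC, h.ni.card',
    sum_fs_congr (f' := fun y => (preg 2 * Dk E t κ χ : G → ℂ) y * conj (Dk E t κ χ y)) fun y hy => by
      rw [preg_even (not_odd_mul h hy), Pi.mul_apply, Dk_apply hy, map_mul, Complex.conj_conj]
      linear_combination (-(preg 2 y * χ (t * y) * conj (χ (t * y)))) * kk hκ hy] at e
  rw [dot_def, ← Complex.ofReal_natCast, ← Complex.ofReal_inv, Complex.re_ofReal_mul,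
    inv_mul_lt_iff₀ (card_pos_r E)]
  push_cast at e
  linarith

theorem B4.gram (h : K4E E v w) (b : B4 E St φ₁ φ₂) {x₀ x₁ x₂ : ℤ}
    (e : ∀ y ∈ E, Odd (orderOf y) → D y = x₀ + x₁ * φ₁ y + x₂ * φ₂ y) :
    4 * dot E (preg 2 * D) (cf1 E) = (3 * x₀ - x₁ - x₂ : ℤ) ∧
    4 * dot E (preg 2 * D) φ₁ = (3 * x₁ - x₀ - x₂ : ℤ) ∧
    4 * dot E (preg 2 * D) φ₂ = (3 * x₂ - x₀ - x₁ : ℤ) ∧
    4 * dot E (preg 2 * D) D = (4 * (x₀ ^ 2 + x₁ ^ 2 + x₂ ^ 2) - (x₀ + x₁ + x₂) ^ 2 : ℤ) := by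
  have e' : ∀ y ∈ E, Odd (orderOf y) →
      D y = ((x₀ : ℂ) • cf1 E + (x₁ : ℂ) • φ₁ + (x₂ : ℂ) • φ₂) y := fun y hy o => by
    simp [e y hy o, cf1_of_mem hy]
  have a0 := h.one_ev
  have a1 := h.ev_of b.e1
  have a2 := h.ev_of b.e2
  have k0 : 4 * dot E (preg 2 * D) (cf1 E) = (3 * x₀ - x₁ - x₂ : ℤ) := by
    rw [dot_od_congr e', dot_od (c := 1) fun x hx _ => cf1_of_mem hx]
    simp only [dot_add_left, dot_smul_left, dot_cf1_self, b.o1, b.o2, map_one]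
    push_cast
    linear_combination -x₀ * a0 - x₁ * a1 - x₂ * a2
  have k1 : 4 * dot E (preg 2 * D) φ₁ = (3 * x₁ - x₀ - x₂ : ℤ) := by
    rw [dot_od_congr e', dot_od b.e1]
    simp only [dot_add_left, dot_smul_left, b.d1.dot_self, dot_symm_zero b.o1, dot_symm_zero b.o12,
      map_one]
    push_cast
    linear_combination -x₀ * a0 - x₁ * a1 - x₂ * a2
  have k2 : 4 * dot E (preg 2 * D) φ₂ = (3 * x₂ - x₀ - x₁ : ℤ) := by
    rw [dot_od_congr e', dot_od b.e2]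
    simp only [dot_add_left, dot_smul_left, b.d2.dot_self, dot_symm_zero b.o2, b.o12, map_one]
    push_cast
    linear_combination -x₀ * a0 - x₁ * a1 - x₂ * a2
  refine ⟨k0, k1, k2, ?_⟩
  have : dot E (preg 2 * D) D =
      dot E (preg 2 * D) ((x₀ : ℂ) • cf1 E + (x₁ : ℂ) • φ₁ + (x₂ : ℂ) • φ₂) :=
    dot_congr_right fun y hy e1 => e' y hy (by_contra fun o => e1 (by simp [preg_even o]))
  rw [this]
  simp only [dot_add_right, dot_smul_right, map_intCast]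
  push_cast at k0 k1 k2 ⊢
  linear_combination x₀ * k0 + x₁ * k1 + x₂ * k2

theorem num {x₀ x₁ x₂ y₀ y₁ y₂ : ℤ} (h0 : 3 * x₀ - x₁ - x₂ + (3 * y₀ - y₁ - y₂) = 4)
    (h1 : 3 * x₁ - x₀ - x₂ + (3 * y₁ - y₀ - y₂) = 0) (h2 : 3 * x₂ - x₀ - x₁ + (3 * y₂ - y₀ - y₁) = 0)
    (hx : 4 * (x₀ ^ 2 + x₁ ^ 2 + x₂ ^ 2) - (x₀ + x₁ + x₂) ^ 2 < 8)
    (hy : 4 * (y₀ ^ 2 + y₁ ^ 2 + y₂ ^ 2) - (y₀ + y₁ + y₂) ^ 2 < 8) :
    x₀ = 1 ∧ y₀ = 1 ∧ (x₁ = 0 ∨ x₁ = 1) ∧ (x₂ = 0 ∨ x₂ = 1) ∧ y₁ = 1 - x₁ ∧ y₂ = 1 - x₂ := by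
  obtain rfl : y₀ = 2 - x₀ := by omega
  obtain rfl : y₁ = 1 - x₁ := by omega
  obtain rfl : y₂ = 1 - x₂ := by omega
  have k : (2 * x₀ - 2) ^ 2 + (2 * x₁ - 1) ^ 2 + (2 * x₂ - 1) ^ 2 ≤ 20 := by
    linarith [sq_nonneg (2 * x₀ - 2 * x₁ - 1), sq_nonneg (2 * x₀ - 2 * x₂ - 1),
      sq_nonneg (2 * x₁ - 2 * x₂)]
  have s0 := sq_nonneg (2 * x₀ - 2)
  have s1 := sq_nonneg (2 * x₁ - 1)
  have s2 := sq_nonneg (2 * x₂ - 1)
  have a0 := abs_lt.1 (abs_lt_of_sq_lt_sq (show (2 * x₀ - 2) ^ 2 < 5 ^ 2 by linarith) (by norm_num))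
  have a1 := abs_lt.1 (abs_lt_of_sq_lt_sq (show (2 * x₁ - 1) ^ 2 < 5 ^ 2 by linarith) (by norm_num))
  have a2 := abs_lt.1 (abs_lt_of_sq_lt_sq (show (2 * x₂ - 1) ^ 2 < 5 ^ 2 by linarith) (by norm_num))
  clear k s0 s1 s2 h0 h1 h2
  replace a0 : -1 ≤ x₀ ∧ x₀ ≤ 3 := by omega
  replace a1 : -1 ≤ x₁ ∧ x₁ ≤ 2 := by omega
  replace a2 : -1 ≤ x₂ ∧ x₂ ≤ 2 := by omega
  obtain ⟨_, _⟩ := a0
  obtain ⟨_, _⟩ := a1
  obtain ⟨_, _⟩ := a2
  interval_cases x₀ <;> interval_cases x₁ <;> interval_cases x₂ <;> simp_all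

end Cfsg.GW2.Bx
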