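import Cfsg.Agent.GS.Q2
import Cfsg.Agent.GW.E4
import Cfsg.Agent.GS.WB3

/-! `U4b`, part 3: the principal `2`-block. -/

set_option autoImplicit false
set_option linter.unusedSectionVars false

namespace Cfsg.GS.Qx

open Subgroup Cfsg.L0 Cfsg.H8 Cfsg.FT Cfsg.H5 Cfsg.GW Cfsg.GW2.Bx
open scoped ComplexConjugate Classical

variable {G : Type} [Group G] [Finite G] {B O P : Subgroup G} {a b c g s s' t w x y y' : G}
  {χ φ ψ μ F : G → ℂ} {k k' : ℕ}

variable (G) in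
/-- the principal `2`-block -/
noncomputable def B0 : Finset (G → ℂ) := (irr ⊤).filter (InB0 2)

theorem mem_B0 : χ ∈ B0 G ↔ Irr ⊤ χ ∧ InB0 2 χ := by rw [B0, Finset.mem_filter, mem_irr]

theorem one_B0 : cf1 ⊤ ∈ B0 G := mem_B0.2 ⟨irr_cf1 ⊤, by
  rw [show cf1 (⊤ : Subgroup G) = fun _ => 1 from funext FT.cf1_top]; exact inB0_one Nat.prime_two⟩

theorem aut_B0 (h : χ ∈ B0 G) (u : ℂ →+* ℂ) : aut u χ ∈ B0 G := by
  have := Fintype.ofFinite G
  refine mem_B0.2 ⟨(mem_B0.1 h).1.aut u, inB0_iff.2 fun e => inB0_iff.1 (mem_B0.1 h).2 (u.injective ?_)⟩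
  rw [map_sum, map_zero, ← e]
  exact Finset.sum_congr rfl fun y _ => by rw [map_mul, aut_apply, preg]; split_ifs <;> simp

theorem odd_mul (ho : Odd ♯O) (hy : y ∈ 𝒩 O) (oy : Odd (orderOf y)) (hw : w ∈ O) :
    Odd (orderOf (y * w)) :=
  (ho.mul (card_zpow y ▸ oy)).of_dvd_nat ((orderOf_dvd (mul_mem (mem_sup_right (mem_zpowers y))
    (mem_sup_left hw))).trans (card_sup_dvd (zpowers_le.2 hy)))

theorem part (hs : s ^ 2 ^ k = 1) (hs' : s' ^ 2 ^ k' = 1) (oy : Odd (orderOf y)) (oy' : Odd (orderOf y'))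
    (hy : y ∈ 𝒞₁ s) (hy' : y' ∈ 𝒞₁ s') (e : c * (s * y) * c⁻¹ = s' * y') : c * s * c⁻¹ = s' :=
  pPart_unique (p := 2) (k := k) (y := c * y * c⁻¹) (by rw [conj_pow, hs]; simp) hs'
    (cop_iff.2 (by rwa [← MulAut.conj_apply, MulEquiv.orderOf_eq])) (cop_iff.2 oy')
    (mem_cent1.1 (mem_cent1_conj.2 hy)).symm (mem_cent1.1 hy').symm (by rw [← e]; group)

theorem b0_mul (hχ : χ ∈ B0 G) (hs : s ^ 2 ^ k = 1) (hO : O ⊴ 𝒞₁ s) (ho : Odd ♯O) (hy : y ∈ 𝒞₁ s)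
    (oy : Odd (orderOf y)) (hw : w ∈ O) : χ (s * y * w) = χ (s * y) := by
  have := Fintype.ofFinite G
  have := hO.normal
  rw [mul_assoc]
  exact (mem_B0.1 hχ).2.apply_mul_mul_eq Nat.prime_two hs (irr_top_iff.1 (mem_B0.1 hχ).1)
    (N := O.subgroupOf _) (y := ⟨y, hy⟩) (w := ⟨w, hO.le hw⟩)
    (by rw [Nat.card_congr (subgroupOfEquivOfLe hO.le).toEquiv]; exact Nat.coprime_two_right.2 ho) hw
    (by rw [← orderOf_coe]; exact cop_iff.2 oy)
    (by rw [← orderOf_coe]; exact cop_iff.2 (odd_mul ho (hO.norm hy) oy hw))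

/-- the characters of the principal block are those that are constant on `g O` -/
def Cos (g : G) (O : Subgroup G) : Prop := ∀ χ, Irr ⊤ χ → (χ ∈ B0 G → ∀ w ∈ O, χ (g * w) = χ g) ∧
  (¬ InB0 2 χ → ∑ w ∈ fs (O : Set G), χ (g * w) = 0)

theorem Cos.proj (h : Cos g O) (hF : CF ⊤ F) :
    ♯O * ∑ χ ∈ B0 G, dot ⊤ F χ * χ g = ∑ w ∈ fs (O : Set G), F (g * w) := by
  conv_rhs => rw [hF.eq_sum]
  simp only [Finset.sum_apply, Pi.smul_apply, smul_eq_mul]
  rw [Finset.sum_comm, B0, Finset.sum_filter, Finset.mul_sum]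
  refine Finset.sum_congr rfl fun χ hχ => ?_
  have i := mem_irr.1 hχ
  rw [← Finset.mul_sum]
  split_ifs with b
  · rw [sum_fs_congr fun w hw => (h χ i).1 (mem_B0.2 ⟨i, b⟩) w hw, sum_sub_const]; ring
  · rw [(h χ i).2 b, mul_zero, mul_zero]

theorem Cos.col (h : Cos g O) (y : G) : ♯O * ∑ χ ∈ B0 G, conj (χ y) * χ g =
    ({c | g⁻¹ * (c * y * c⁻¹) ∈ O}.ncard : ℕ) := by
  have := Fintype.ofFinite G
  have hF : CF ⊤ fun z => ∑ c : G, if c * y * c⁻¹ = z then (1 : ℂ) else 0 := ⟨sp_top _, fun d _ z =>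
    Fintype.sum_equiv (Equiv.mulLeft d⁻¹) _ _ fun c => if_congr (by
      rw [Equiv.coe_mulLeft, ← mul_left_cancel_iff (a := d⁻¹), ← mul_right_cancel_iff (a := d)]
      simp [mul_assoc]) rfl rfl⟩
  have e := h.proj hF
  rw [Finset.sum_congr rfl fun χ hχ => show _ = conj (χ y) * χ g by
    rw [dot_def, coe_top, sum_fs_univ]
    simp only [Finset.sum_mul, ite_mul, one_mul, zero_mul]
    rw [Finset.sum_comm]
    simp only [Finset.sum_ite_eq, Finset.mem_univ, if_true, (mem_B0.1 hχ).1.cf.cnj _ (mem_top _)]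
    rw [Finset.sum_const, Finset.card_univ, card_top, Nat.card_eq_fintype_card, nsmul_eq_mul,
      inv_mul_cancel_left₀ (Nat.cast_ne_zero.2 Fintype.card_ne_zero)]] at e
  rw [e, Finset.sum_comm, Set.ncard_eq_toFinset_card', Set.toFinset_ofPred, ← Finset.sum_boole]
  refine Finset.sum_congr rfl fun c _ => ?_
  simp only [← inv_mul_eq_iff_eq_mul, Finset.sum_ite_eq, mem_fs, SetLike.mem_coe]

theorem Cos.zero (h : Cos g O) (n : ∀ c, g⁻¹ * (c * y * c⁻¹) ∉ O) :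
    ∑ χ ∈ B0 G, conj (χ y) * χ g = 0 := by
  have := h.col y
  rw [show {c | g⁻¹ * (c * y * c⁻¹) ∈ O} = ∅ from Set.eq_empty_of_forall_notMem n, Set.ncard_empty, Nat.cast_zero] at this
  exact (mul_eq_zero.1 this).resolve_left (card_ne_zero_c O)

theorem Cos.val (h : Cos g O) {m : ℕ} (hP : ♯P = ♯O * m) (n : ∀ c, g⁻¹ * (c * y * c⁻¹) ∈ O ↔ c ∈ P) :
    ∑ χ ∈ B0 G, conj (χ y) * χ g = m := by
  have := h.col y
  rw [show {c | g⁻¹ * (c * y * c⁻¹) ∈ O} = P from Set.ext n, ncard_sub, hP, Nat.cast_mul] at this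
  exact mul_left_cancel₀ (card_ne_zero_c O) this

theorem cos0 (hs : s ^ 2 ^ k = 1) (hO : O ⊴ 𝒞₁ s) (ho : Odd ♯O)
    (all : ∀ y ∈ 𝒞₁ s, Odd (orderOf y) → y ∈ O) : Cos s O := fun χ i => ⟨fun b w hw => by
  simpa using b0_mul b hs hO ho (one_mem _) (by simp) hw, fun b => by
  have := Fintype.ofFinite G
  have := Fintype.ofFinite (𝒞₁ s)
  have e := sum_section_one_eq_zero Nat.prime_two hs (irr_top_iff.1 i) b
  simp only [← preg_coe] at e
  rw [← sum_fs_sub (f := fun y => preg 2 y * χ (s * y)), ← sum_fs_subset hO.le fun y hy n => by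
    rw [preg_even (mt (all y hy) n), zero_mul]] at e
  rw [← e]
  exact sum_fs_congr fun y hy => by rw [preg_odd (BS.R.odd_of_mem ho hy), one_mul]⟩

theorem odd_mem (h : SD O P B) (hP : IsPGroup 2 P) (hy : y ∈ B) (o : Odd (orderOf y)) : y ∈ O :=
  mem_of_cop_ri h.nrm.norm hy (by rw [h.ri, ← card_zpow]; exact (cop2 hP o).symm)

theorem four5 {η : ℂ} (h : η ^ 5 = 1) : ∑ k ∈ Finset.range 5, η ^ k = if η = 1 then 5 else 0 := by
  split_ifs with e
  · simp [e]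
  · rw [geom_sum_eq e, h, sub_self, zero_div]

theorem lin_B0 (hμ : Lin B μ) (hx : x ∈ B) (h2 : x ^ 2 ^ k = 1)
    (h : ∀ y ∈ B, Odd (orderOf y) → y * x = x * y → μ y = 1) : InB0 2 fun y : B => μ y := by
  have := Fintype.ofFinite B
  have := Fintype.ofFinite (𝒞₁ (⟨x, hx⟩ : B))
  obtain ⟨V, hv⟩ := exists_valuation_lt_one Nat.prime_two
  have hu : (⟨x, hx⟩ : B) ^ 2 ^ k = 1 := Subtype.ext h2
  have e1 := val_sum_not_mem_centralizer Nat.prime_two hv hu (f := fun y : B => preg 2 y * μ y)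
    (fun y => val_mul_le_one (val_preg_le _ _ _) (val_le_one_of_isIntegral _ (hμ.vch.isIntegral _)))
    fun y => by rw [isClassFunction_preg 2 y]; exact congrArg _ (hμ.cf.cnj x hx y)
  rw [Finset.sum_congr rfl fun (y : 𝒞₁ (⟨x, hx⟩ : B)) _ => show preg 2 (y : B) * μ (y : B) = preg 2 y by
    rw [preg_coe]
    by_cases o : Odd (orderOf y)
    · rw [h _ y.1.2 (by rwa [orderOf_coe, orderOf_coe]) (congrArg Subtype.val (mem_cent1.1 y.2)), mul_one]
    · rw [preg_even o, zero_mul]] at e1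
  refine inB0_iff.2 fun e => ?_
  rw [e, zero_sub, Valuation.map_neg, val_sum_preg Nat.prime_two hv] at e1
  exact lt_irrefl _ e1

theorem cos5 (hs : s ^ 2 ^ k = 1) (hO : O ⊴ 𝒞₁ s) (ho : Odd ♯O) (hμ : Lin (𝒞₁ s) μ)
    (h5 : ∀ y ∈ 𝒞₁ s, μ y ^ 5 = 1) (hk : O ≤ cker μ) (hx : x ∈ 𝒞₁ s) (h2 : x ^ 2 ^ k' = 1)
    (h : ∀ y ∈ 𝒞₁ s, Odd (orderOf y) → y * x = x * y → μ y = 1) (hy : y ∈ 𝒞₁ s) (oy : Odd (orderOf y))
    (hc : ∀ z ∈ 𝒞₁ s, Odd (orderOf z) → μ z = μ y → ∃ c ∈ 𝒞₁ s, ∃ w ∈ O, z = c * (y * w) * c⁻¹) :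
    Cos (s * y) O := fun χ i => ⟨fun b w hw => b0_mul b hs hO ho hy oy hw, fun b => by
  have := Fintype.ofFinite G
  have := Fintype.ofFinite (𝒞₁ s)
  have e1 : ∀ n, ∑ z ∈ fs (𝒞₁ s : Set G), preg 2 z * (χ (s * z) * conj (μ z) ^ n) = 0 := fun n => by
    have e := sum_section_eq_zero Nat.prime_two hs (irr_top_iff.1 i) (hμ.pow n).irr.irr fun e =>
      b (e.2 (lin_B0 (hμ.pow n) hx h2 fun y hy o c => by
        rw [res_of_mem hy, Pi.pow_apply, h y hy o c, one_pow]))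
    simpa only [sum_fs_sub, res_coe, Pi.pow_apply, map_pow, preg_coe] using e
  have e2 : ∑ z ∈ fs {z | z ∈ 𝒞₁ s ∧ Odd (orderOf z) ∧ μ z = μ y}, χ (s * z) = 0 := by
    have : ∑ n ∈ Finset.range 5, μ y ^ n *
        ∑ z ∈ fs (𝒞₁ s : Set G), preg 2 z * (χ (s * z) * conj (μ z) ^ n) = 0 := by simp [e1]
    simp only [Finset.mul_sum] at this
    have q : ∀ z ∈ 𝒞₁ s, ∑ n ∈ Finset.range 5, μ y ^ n * (preg 2 z * (χ (s * z) * conj (μ z) ^ n)) =
        preg 2 z * χ (s * z) * if μ z = μ y then 5 else 0 := fun z hz => by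
      have c1 : conj (μ z) * μ z = 1 := kk hμ hz
      rw [← if_congr (P := μ y * conj (μ z) = 1) ⟨fun e => by
        linear_combination μ y * c1 - μ z * e, fun e => by rw [← e, mul_comm, c1]⟩ rfl rfl,
        ← four5 (by rw [mul_pow, ← map_pow, h5 y hy, h5 z hz]; simp), Finset.mul_sum]
      exact Finset.sum_congr rfl fun n _ => by ring
    rw [Finset.sum_comm, sum_fs_congr q, ← sum_fs_subset
      (A := {z | z ∈ 𝒞₁ s ∧ Odd (orderOf z) ∧ μ z = μ y}) (fun z hz => hz.1) fun z hz n => by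
        by_cases o : Odd (orderOf z)
        · rw [if_neg fun e => n ⟨hz, o, e⟩, mul_zero]
        · rw [preg_even o, zero_mul, zero_mul], sum_fs_congr (f' := fun z => χ (s * z) * 5) fun z hz => by
      rw [preg_odd hz.2.1, if_pos hz.2.2, one_mul], ← Finset.sum_mul] at this
    exact (mul_eq_zero.1 this).resolve_right (by norm_num)
  have m : ∀ w ∈ O, ∀ z, z ∈ 𝒞₁ s ∧ Odd (orderOf z) ∧ μ z = μ y →
      z * w ∈ 𝒞₁ s ∧ Odd (orderOf (z * w)) ∧ μ (z * w) = μ y := fun w hw z hz =>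
    ⟨mul_mem hz.1 (hO.le hw), odd_mul ho (hO.norm hz.1) hz.2.1 hw,
      (hμ.cf.mul_cker (hk hw) (hO.le hw) z).trans hz.2.2⟩
  have e3 : ∑ z ∈ fs {z | z ∈ 𝒞₁ s ∧ Odd (orderOf z) ∧ μ z = μ y},
      ∑ w ∈ fs (O : Set G), χ (s * z * w) = 0 := by
    rw [Finset.sum_comm]
    refine sum_fs_eq_zero fun w hw => ?_
    rw [← e2, ← sum_fs_equiv (A := {z | z ∈ 𝒞₁ s ∧ Odd (orderOf z) ∧ μ z = μ y})
      (B := {z | z ∈ 𝒞₁ s ∧ Odd (orderOf z) ∧ μ z = μ y}) (Equiv.mulRight w)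
      (fun z => ⟨m w hw z, fun e => by simpa using m _ (inv_mem hw) _ e⟩) fun z => χ (s * z)]
    simp only [Equiv.coe_mulRight, mul_assoc]
  rw [sum_fs_congr (f' := fun _ => ∑ w ∈ fs (O : Set G), χ (s * y * w)) fun z hz => by
    obtain ⟨c, hc1, w, hw, rfl⟩ := hc z hz.1 hz.2.1 hz.2.2
    rw [← sum_mul_left hw fun w => χ (s * y * w), ← sum_conj (hO.norm hc1) fun v => χ (s * y * (w * v))]
    refine sum_fs_congr fun v _ => ?_
    rw [← i.cf.cnj' (mem_top c), show c⁻¹ * (s * (c * (y * w) * c⁻¹) * v) * c =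
      c⁻¹ * (s * c) * y * (w * (c⁻¹ * v * c)) by group, ← mem_cent1.1 hc1, inv_mul_cancel_left],
    sum_fs_const] at e3
  exact (mul_eq_zero.1 e3).resolve_left (Nat.cast_ne_zero.2 (Set.ncard_ne_zero_of_mem (a := y)
    ⟨hy, oy, rfl⟩))⟩

theorem dtau (hB : Abel B) (ha : a ∈ B) (a2 : a * a = 1) (a1 : a ≠ 1) (hχ : Ch ⊤ χ)
    (h : ∀ y ∈ B, y ≠ 1 → y ≠ a → χ (a * y) = χ y) : ∃ n : ℕ, χ 1 - χ a = ♯B * n := by
  obtain ⟨ν, hν, nk⟩ : ∃ ν ∈ irrK B ⊥, a ∉ cker ν := by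
    by_contra k; push Not at k; exact a1 (mem_of_forall_irrK (.bot B) k)
  have l := (mem_irrK.1 hν).1.lin_of_abel hB
  have e : ν a = -1 := (sq_eq_one_iff.1 (l.pow_eq_one ha (by rw [sq, a2]))).resolve_left
    (mt l.mem_cker.2 nk)
  obtain ⟨n, hn⟩ := hχ.dot_res_nat le_top l.ch
  refine ⟨n, ?_⟩
  have e1 := sum_mul_left ha fun y => χ y * conj (ν y)
  have e2 : ∑ y ∈ fs (B : Set G), (χ y * conj (ν y) + χ (a * y) * conj (ν (a * y))) =
      ∑ y ∈ fs ({1} ∪ {a} : Set G), (χ y * conj (ν y) + χ (a * y) * conj (ν (a * y))) :=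
    (sum_fs_subset (by rintro _ (rfl | rfl); exacts [one_mem B, ha]) fun y hy n => by
      rw [l.map_mul ha hy, e, h y hy (fun e => n (.inl e)) fun e => n (.inr e)]; simp).symm
  rw [sum_fs_union (by simpa using a1.symm), sum_fs_single, sum_fs_single, Finset.sum_add_distrib, e1,
    a2, mul_one, e, l.one] at e2
  rw [← hn, dot_def, mul_inv_cancel_left₀ (card_ne_zero_c B)]
  simp only [map_one, map_neg] at e2
  linear_combination (-1 / 2 : ℂ) * e2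

theorem tau_int (a2 : a * a = 1) (a1 : a ≠ 1) (hχ : Ch ⊤ χ) : ∃ n : ℤ, χ a = n := by
  obtain ⟨n, hn⟩ := dtau (cyc_zpowers a).abel (mem_zpowers a) a2 a1 hχ fun y hy y1 ya =>
    ((mem_zp2 a2).1 hy).elim (absurd · y1) (absurd · ya)
  exact ⟨deg χ - ♯(zpowers a) * n, by push_cast; rw [← hn, ← hχ.deg_eq]; ring⟩

theorem tau_ne (hχ : χ ∈ B0 G) (o : Odd ((𝒞₁ t).relIndex ⊤)) : χ t ≠ 0 := fun e => by
  have := Fintype.ofFinite G
  obtain ⟨V, hv⟩ := exists_valuation_lt_one Nat.prime_two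
  have i := (mem_B0.1 hχ).1
  have := val_sub_lt_one_of_inB0 Nat.prime_two hv (irr_top_iff.1 i) (mem_B0.1 hχ).2
    (f := fun y => if IsConj t y then 1 else 0) (fun g h => if_congr ⟨fun k => k.trans
      (isConj_iff.2 ⟨h, rfl⟩).symm, fun k => k.trans (isConj_iff.2 ⟨h, rfl⟩)⟩ rfl rfl)
    fun g => by split_ifs; exacts [isIntegral_one, isIntegral_zero]
  rw [Finset.sum_eq_zero fun y _ => by
    split_ifs with k
    · obtain ⟨c, rfl⟩ := isConj_iff.1 k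
      rw [i.cf.cnj c (mem_top c), e, mul_zero]
    · exact zero_mul _, zero_div, zero_sub, Valuation.map_neg, Finset.sum_boole,
    ← Set.toFinset_ofPred, ← Set.ncard_eq_toFinset_card', show {y | IsConj t y} =
      {y | ∃ g ∈ (⊤ : Subgroup G), g * t * g⁻¹ = y} by simp [isConj_iff], ncard_class,
    val_natCast_eq_one Nat.prime_two hv o.not_two_dvd_nat] at this
  exact lt_irrefl _ this

theorem acnt_zero (h : ∀ i, i * i = 1 → i ≠ 1 → i * y * (i * y) ≠ 1) : acnt y = 0 := by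
  rw [acnt, Nat.cast_eq_zero, Set.ncard_eq_zero]
  exact Set.eq_empty_of_forall_notMem fun i hi => h i hi.1.1 hi.1.2 hi.2.1

theorem Cos.cls (h : Cos g O) (hI : ∀ s : G, IsConj t s ↔ s * s = 1 ∧ s ≠ 1) (t2 : t * t = 1) (t1 : t ≠ 1) :
    ∃ κ : ℚ, 0 < κ ∧ κ * ∑ χ ∈ B0 G, χ t * χ t / χ 1 * χ g = ∑ w ∈ fs (O : Set G), acnt (g * w) := by
  have : Nonempty {s // IsConj t s} := ⟨⟨t, IsConj.refl t⟩⟩
  have p1 := Nat.card_pos (α := {s // IsConj t s})
  have p2 := Nat.card_pos (α := G)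
  have p3 := card_pos' O
  refine ⟨♯O * ((Nat.card {s // IsConj t s}) ^ 2 / Nat.card G), by positivity, ?_⟩
  rw [← h.proj acnt_cf]
  push_cast
  rw [mul_assoc, Finset.mul_sum]
  refine congrArg _ (Finset.sum_congr rfl fun χ hχ => ?_)
  have i := (mem_B0.1 hχ).1
  obtain ⟨n, hn⟩ := tau_int t2 t1 i.ch
  have e := congrArg conj (dot_acnt hI i.dirr)
  have d0 := i.one_ne_zero
  rw [hn, i.deg_eq] at e
  rw [i.deg_eq] at d0
  simp only [map_mul, dot_conj, map_natCast, map_pow, map_intCast] at e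
  rw [hn, i.deg_eq, ← mul_assoc]
  congr 1
  have : (Nat.card G : ℂ) ≠ 0 := Nat.cast_ne_zero.2 p2.ne'
  field_simp
  linear_combination -e

theorem good (hχ : χ ∈ B0 G) (hO : O ⊴ 𝒞₁ t) (ho : Odd ♯O) (k : KP t b)
    (e : χ 1 + χ t + χ b + χ (t * b) = 0) (hw : w ∈ O) : b * w * b⁻¹ * w⁻¹ ∈ cker χ := by
  have i := (mem_B0.1 hχ).1
  have bC : b ∈ 𝒞₁ t := mem_cent1.2 k.comm
  have n1 : NI O b := ⟨k.ww, fun e => k.w1 (one_of_odd ho e k.ww), hO.norm bC⟩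
  have c1 : CI (O ⊔ zpowers b) t := ⟨k.ss, fun e => (n1.mem.1 e).elim
    (fun e => k.s1 (one_of_odd ho e k.ss)) fun e => k.ne (by
      have := one_of_odd ho e (by rw [mul_assoc, ← mul_assoc t, ← k.comm]; simp [mul_assoc, k.ss, k.ww])
      rw [eq_inv_of_mul_eq_one_left this, inv_eq_of_mul_eq_one_left k.ss]),
    sup_le hO.le (zpowers_le.2 bC)⟩
  have ch : Ch (O ⊔ zpowers b) (res (O ⊔ zpowers b) χ + res (O ⊔ zpowers b) (tw t χ)) :=
    ((i.cf.res le_top).add (c1.tw_cf i.cf le_top)).ch fun θ hθ => by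
      obtain ⟨η, hη, eη⟩ := c1.exists_ext hθ.ch
      obtain ⟨n, hn⟩ := i.ch.dot_res_nat le_top hη
      refine ⟨2 * n, ?_⟩
      rw [dot_add_left, dot_res_left, dot_res_left, Nat.cast_mul, ← hn, Nat.cast_ofNat, c1.ni.dot_eq]
      exact congrArg₂ _ (dot_congr (fun _ _ => rfl) fun x hx => (eη x hx).1.symm)
        (dot_congr (fun _ _ => rfl) fun x hx => (eη x hx).2.symm)
  obtain ⟨σ, l, eσ⟩ := n1.exists_sgn
  have ch2 := l.ch.mul ch
  have kb := (ch2.mem_cker n1.tm).2 (by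
    have := (eσ 1 (one_mem O)).2
    rw [mul_one] at this
    simp only [Pi.mul_apply, Pi.add_apply, res_of_mem n1.tm, res_one, tw_apply, this, l.one, mul_one]
    linear_combination -e)
  have so : b * w * b⁻¹ * w⁻¹ ∈ O := mul_mem (conj_mem_of_norm n1.nn hw) (inv_mem hw)
  have ks := cker_apply (show b * w * b⁻¹ * w⁻¹ ∈ _ by
    simpa only [mul_assoc] using mul_mem kb (conj_mem_of_norm (ch2.cf.le_norm_cker (mem_sup_left hw))
      (inv_mem kb)))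
  have e2 := b0_mul hχ (k := 1) (by rw [pow_one, sq, k.ss]) hO ho (one_mem _) (by simp) so
  simp only [Pi.mul_apply, Pi.add_apply, res_of_mem (mem_sup_left so : _ ∈ O ⊔ zpowers b), res_one,
    tw_apply, (eσ _ so).1, l.one, mul_one] at ks e2
  exact i.mem_cker.2 (by linear_combination ks - e2)

end Cfsg.GS.Qx
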