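import Mathlib
/-! U4b: pure arithmetic and the sunflower lemma for Gram matrices with entries 3 and 2. -/
set_option autoImplicit false
namespace Cfsg.GS.Qx
open Finset
open scoped Classical
section sun
variable {ι κ : Type} {I : Finset ι} {v w : ι → ℤ} {i j : ι}

theorem ar16 {X Y W : ℤ} (hX : X % 16 = 1) (hY : Y % 16 = 1) (h0 : W ≠ 0) (h1 : X + Y + W = -1)
    (h : (1 : ℚ) / X + 1 / Y + 9 / W = -1) : X = 1 := by
  have x0 : (X : ℚ) ≠ 0 := Int.cast_ne_zero.2 (by omega)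
  have y0 : (Y : ℚ) ≠ 0 := Int.cast_ne_zero.2 (by omega)
  have w0 : (W : ℚ) ≠ 0 := Int.cast_ne_zero.2 h0
  have e : Y * W + X * W + 9 * (X * Y) = -(X * Y * W) := by
    field_simp at h
    exact_mod_cast (by push_cast; linear_combination h :
      ((Y * W + X * W + 9 * (X * Y) : ℤ) : ℚ) = (-(X * Y * W) : ℤ))
  obtain rfl : W = -1 - X - Y := by omega
  have d : 72 = (8 - X - Y) * (X * Y + X + Y + 9) := by linear_combination -e
  have d' : 8 - X - Y ∣ 72 := ⟨_, d⟩
  have l1 := Int.le_of_dvd (by norm_num) d'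
  have l2 := Int.le_of_dvd (by norm_num) ((neg_dvd).2 d')
  have : 8 - X - Y = 6 := by
    have hm : (8 - X - Y) % 16 = 6 := by omega
    generalize 8 - X - Y = m at *
    have l3 : -72 ≤ m := by omega
    interval_cases m <;> omega
  obtain rfl : Y = 2 - X := by omega
  nlinarith

theorem ar64 {X Y W a b c : ℤ} (x0 : X ≠ 0) (y0 : Y ≠ 0) (w0 : W ≠ 0) (h1 : X + Y + W = -1)
    (h2 : a + b + c = -1) (h : (a * a : ℚ) / X + b * b / Y + c * c / W = -1) (d1 : 16 ∣ X - a)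
    (d2 : 16 ∣ Y - b) (d3 : 16 ∣ W - c) (ha : a % 4 = 1) (hb : b % 4 = 1)
    (l : a * a + b * b + 5 * (c * c) ≤ 63) : X = 1 ∨ Y = 1 := by
  have : -8 < a ∧ a < 8 ∧ -8 < b ∧ b < 8 ∧ -4 < c ∧ c < 4 := by
    refine ⟨?_, ?_, ?_, ?_, ?_, ?_⟩ <;> nlinarith [mul_self_nonneg a, mul_self_nonneg b, mul_self_nonneg c]
  have : (a = 1 ∧ b = 1 ∧ c = -3) ∨ (a = 1 ∧ b = -3 ∧ c = 1) ∨ (a = -3 ∧ b = 1 ∧ c = 1) := by
    obtain ⟨_, _, _, _, _, _⟩ := this
    obtain rfl : c = -1 - a - b := by omega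
    interval_cases a <;> interval_cases b <;> omega
  rcases this with ⟨rfl, rfl, rfl⟩ | ⟨rfl, rfl, rfl⟩ | ⟨rfl, rfl, rfl⟩ <;> push_cast at h
  · exact .inl (ar16 (Y := Y) (by omega) (by omega) w0 h1 (by linear_combination h))
  · exact .inl (ar16 (Y := W) (by omega) (by omega) y0 (by omega) (by linear_combination h))
  · exact .inr (ar16 (Y := W) (by omega) (by omega) x0 (by omega) (by linear_combination h))

theorem le3 (f : ι → ℤ) {k : ι} (hi : i ∈ I) (hj : j ∈ I) (hk : k ∈ I) (n1 : i ≠ j) (n2 : i ≠ k)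
    (n3 : j ≠ k) : f i * f i + f j * f j + f k * f k ≤ ∑ i ∈ I, f i * f i := by
  have := sum_le_sum_of_subset_of_nonneg (s := {i, j, k}) (t := I) (f := fun i => f i * f i)
    (by simp [insert_subset_iff, hi, hj, hk]) fun i _ _ => mul_self_nonneg _
  rwa [sum_insert (by simp [n1, n2]), sum_pair n3, ← add_assoc] at this

theorem vsq (hv : ∑ i ∈ I, v i * v i = 3) (hi : i ∈ I) : v i = 0 ∨ v i = 1 ∨ v i = -1 := by
  have := single_le_sum (f := fun i => v i * v i) (fun i _ => mul_self_nonneg _) hi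
  have : -2 < v i ∧ v i < 2 := by constructor <;> nlinarith
  omega

theorem vtwo (hv : ∑ i ∈ I, v i * v i = 3) (hw : ∑ i ∈ I, w i * w i = 3) (h : ∑ i ∈ I, v i * w i = 2) :
    ∃ p, ∃ q, p ∈ I ∧ q ∈ I ∧ v p ≠ 0 ∧ w p = 0 ∧ v q = 0 ∧ w q ≠ 0 ∧
      ∀ i ∈ I, w i ≠ v i → i = p ∨ i = q := by
  have hd : ∑ i ∈ I, (v i - w i) * (v i - w i) = 2 := by
    rw [sum_congr rfl fun i _ => show _ = v i * v i + w i * w i - 2 * (v i * w i) by ring,
      sum_sub_distrib, sum_add_distrib, ← mul_sum, hv, hw, h]; rfl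
  have k : ∀ i ∈ I, v i ≠ w i → v i = 0 ∨ w i = 0 := fun i hi n => by
    have := single_le_sum (f := fun i => (v i - w i) * (v i - w i)) (fun i _ => mul_self_nonneg _) hi
    rcases vsq hv hi with a | a | a <;> rcases vsq hw hi with b | b | b <;> simp_all
  obtain ⟨p, hp, e1⟩ := exists_ne_zero_of_sum_ne_zero (s := I) (f := fun i => v i * v i - v i * w i)
    (by rw [sum_sub_distrib, hv, h]; decide)
  obtain ⟨q, hq, e2⟩ := exists_ne_zero_of_sum_ne_zero (s := I) (f := fun i => w i * w i - v i * w i)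
    (by rw [sum_sub_distrib, hw, h]; decide)
  have a1 : v p ≠ 0 := fun e => e1 (by simp [e])
  have a2 : w p = 0 := (k p hp fun e => e1 (by simp [e])).resolve_left a1
  have a3 : w q ≠ 0 := fun e => e2 (by simp [e])
  have a4 : v q = 0 := (k q hq fun e => e2 (by simp [e])).resolve_right a3
  refine ⟨p, q, hp, hq, a1, a2, a4, a3, fun i hi n => by_contra fun c => ?_⟩
  push Not at c
  have := le3 (fun i => v i - w i) hp hq hi (fun e => a1 (e ▸ a4)) c.1.symm c.2.symm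
  have b1 := mul_self_pos.2 a1
  have b2 := mul_self_pos.2 a3
  have b3 := mul_self_pos.2 (sub_ne_zero.2 n.symm)
  simp only [a2, a4, hd] at this
  nlinarith

theorem third (hv : ∑ i ∈ I, v i * v i = 3) (hi : i ∈ I) (hj : j ∈ I) (n : i ≠ j) (a : v i ≠ 0)
    (b : v j ≠ 0) : ∃ r, r ∈ I ∧ i ≠ r ∧ j ≠ r ∧ v r * v r = 1 ∧
      ∀ f : ι → ℚ, ∑ i ∈ I, v i * f i = v i * f i + v j * f j + v r * f r := by
  have s : ∀ i ∈ I, v i ≠ 0 → v i * v i = 1 := fun i hi a => by
    rcases vsq hv hi with e | e | e <;> simp_all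
  obtain ⟨r, hr, r0⟩ := exists_ne_zero_of_sum_ne_zero (s := (I.erase i).erase j)
    (f := fun i => v i * v i) (by
      rw [← add_sum_erase _ _ hi, ← add_sum_erase _ _ (mem_erase.2 ⟨n.symm, hj⟩), s i hi a, s j hj b] at hv
      omega)
  simp only [mem_erase] at hr
  have r1 := s r hr.2.2 fun e => r0 (by simp [e])
  refine ⟨r, hr.2.2, hr.2.1.symm, hr.1.symm, r1, fun f => ?_⟩
  rw [← sum_subset (s₁ := {i, j, r}) (by simp [insert_subset_iff, hi, hj, hr.2.2]) fun k hk nk => ?_,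
    sum_insert (by simp [n, hr.2.1.symm]), sum_pair hr.1.symm, add_assoc]
  simp only [mem_insert, mem_singleton, not_or] at nk
  have := sum_le_sum_of_subset_of_nonneg (s := {i, j, r, k}) (t := I) (f := fun i => v i * v i)
    (by simp [insert_subset_iff, hi, hj, hk, hr.2.2]) fun i _ _ => mul_self_nonneg _
  rw [sum_insert (by simp [n, hr.2.1.symm, Ne.symm nk.1]), sum_insert (by simp [hr.1.symm, Ne.symm nk.2.1]),
    sum_pair (Ne.symm nk.2.2), s i hi a, s j hj b, r1] at this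
  rw [show v k = 0 by nlinarith, Int.cast_zero, zero_mul]

theorem sun [Nonempty ι] {F : Finset (ι → ℤ)} (h5 : 5 ≤ F.card) (h3 : ∀ v ∈ F, ∑ i ∈ I, v i * v i = 3)
    (h2 : ∀ v ∈ F, ∀ w ∈ F, v ≠ w → ∑ i ∈ I, v i * w i = 2) :
    ∃ i ∈ I, ∃ j ∈ I, i ≠ j ∧ ∃ a b, a ≠ 0 ∧ b ≠ 0 ∧ ∀ v ∈ F, v i = a ∧ v j = b := by
  obtain ⟨v, hv⟩ := card_pos.1 (show 0 < F.card by omega)
  have T := fun v hv w hw n => vtwo (h3 v hv) (h3 w hw) (h2 v hv w hw n)
  choose! p q hp hq a1 a2 a3 a4 a5 using fun w (hw : w ∈ F.erase v) =>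
    T v hv w (mem_of_mem_erase hw) (ne_of_mem_erase hw).symm
  have c3 : (I.filter fun i => v i ≠ 0).card = 3 := by
    have := h3 v hv
    rw [← sum_filter_of_ne (p := fun i => v i ≠ 0) (fun i _ e a => e (by simp [a])),
      sum_congr rfl (g := fun _ => 1) fun i hi => by
        have := (mem_filter.1 hi).2
        rcases vsq (h3 v hv) (mem_filter.1 hi).1 with e | e | e <;> simp_all] at this
    rw [sum_const, nsmul_eq_mul, mul_one] at this
    exact_mod_cast this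
  obtain ⟨w1, m1, w2, m2, ne, e⟩ := exists_ne_map_eq_of_card_lt_of_maps_to (s := F.erase v)
    (t := I.filter fun i => v i ≠ 0) (f := p) (by rw [c3, card_erase_of_mem hv]; omega)
    fun w hw => mem_filter.2 ⟨hp w hw, a1 w hw⟩
  have nq : q w1 ≠ q w2 := fun e' => by
    obtain ⟨p', -, b1, -, b2, b3, -⟩ := T w1 (mem_of_mem_erase m1) w2 (mem_of_mem_erase m2) ne
    by_cases c : w1 p' = v p'
    · rcases a5 w2 m2 p' b1 (by rw [b3, ← c]; exact b2.symm) with k | k
      · exact b2 (by rw [k, ← e, a2 w1 m1])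
      · exact a4 w2 m2 (k ▸ b3)
    · rcases a5 w1 m1 p' b1 c with k | k
      · exact b2 (k ▸ a2 w1 m1)
      · exact a4 w2 m2 (by rw [← e', ← k, b3])
  have all : ∀ w ∈ F.erase v, p w = p w1 := fun w hw => by_contra fun n => by
    have k : ∀ u ∈ F.erase v, p w ≠ p u → p u = p w1 → q u = q w := fun u hu n1 n2 => by_contra fun n3 => by
      obtain ⟨p', q', -, -, -, -, -, -, b⟩ := T w (mem_of_mem_erase hw) u (mem_of_mem_erase hu)
        fun e => n1 (e ▸ rfl)
      have vq : ∀ x ∈ F.erase v, ∀ y ∈ F.erase v, p x ≠ q y := fun x hx y hy e =>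
        a1 x hx (e ▸ a3 y hy)
      have eqv : ∀ x ∈ F.erase v, ∀ i ∈ I, i ≠ p x → i ≠ q x → x i = v i := fun x hx i hi c d =>
        by_contra fun e => (a5 x hx i hi e).elim c d
      have c1 := b _ (hp u hu) (by
        rw [a2 u hu, eqv w hw _ (hp u hu) n1.symm (vq u hu w hw)]; exact (a1 u hu).symm)
      have c2 := b _ (hp w hw) (by
        rw [a2 w hw, eqv u hu _ (hp w hw) n1 (vq w hw u hu)]; exact a1 w hw)
      have c3 := b _ (hq u hu) (by
        rw [eqv w hw _ (hq u hu) (vq w hw u hu).symm n3, a3 u hu]; exact a4 u hu)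
      have d1 := vq u hu u hu
      have d2 := vq w hw u hu
      rcases c1 with c1 | c1 <;> rcases c2 with c2 | c2 <;> rcases c3 with c3 | c3 <;>
        first | exact n1 (c2.trans c1.symm) | exact d1 (c1.trans c3.symm) | exact d2 (c2.trans c3.symm)
    exact nq ((k w1 m1 n rfl).trans (k w2 m2 (e ▸ n) e.symm).symm)
  obtain ⟨i, j, ne, e⟩ := card_eq_two.1 (show ((I.filter fun i => v i ≠ 0).erase (p w1)).card = 2 by
    rw [card_erase_of_mem (mem_filter.2 ⟨hp _ m1, a1 _ m1⟩), c3])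
  have m : ∀ k ∈ ({i, j} : Finset ι), k ∈ I ∧ v k ≠ 0 ∧ ∀ w ∈ F, w k = v k := fun k hk => by
    rw [← e, mem_erase, mem_filter] at hk
    refine ⟨hk.2.1, hk.2.2, fun w hw => by_contra fun c => ?_⟩
    have hw' : w ∈ F.erase v := mem_erase.2 ⟨fun e => c (by rw [e]), hw⟩
    rcases a5 w hw' k hk.2.1 c with d | d
    exacts [hk.1 (d.trans (all w hw')), hk.2.2 (d ▸ a3 w hw')]
  have mi := m i (by simp)
  have mj := m j (by simp)
  exact ⟨i, mi.1, j, mj.1, ne, _, _, mi.2.1, mj.2.1, fun w hw => ⟨mi.2.2 w hw, mj.2.2 w hw⟩⟩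

theorem sun' [Nonempty ι] {J : Finset κ} {z : κ → ι → ℤ} {R : κ → Finset κ} (hR : ∀ k, (R k).card ≤ 3)
    (h13 : 13 ≤ J.card) (hs : ∀ k, k ∈ R k)
    (hG : ∀ k ∈ J, ∀ l ∈ J, ∑ i ∈ I, z k i * z l i = if l ∈ R k then 3 else 2) :
    ∃ i ∈ I, ∃ j ∈ I, i ≠ j ∧ ∃ a b, a ≠ 0 ∧ b ≠ 0 ∧ (∀ k ∈ J, z k i = a ∧ z k j = b) ∧
      ∀ (τ : ι → ℤ) (c : ℤ), (∀ k ∈ J, ∑ i ∈ I, z k i * τ i = c) → τ i * τ i + τ j * τ j +
        5 * ((c - a * τ i - b * τ j) * (c - a * τ i - b * τ j)) ≤ ∑ i ∈ I, τ i * τ i := by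
  let y : κ → ι → ℤ := fun k i => if i ∈ I then z k i else 0
  have e0 : ∀ k l, ∑ i ∈ I, y k i * y l i = ∑ i ∈ I, z k i * z l i := fun k l =>
    sum_congr rfl fun i hi => by simp only [y, if_pos hi]
  have g3 : ∀ k ∈ J, ∑ i ∈ I, z k i * z k i = 3 := fun k hk => by rw [hG k hk k hk, if_pos (hs k)]
  have h5 : 5 ≤ (J.image y).card := by
    have := card_le_mul_card_image (f := y) J 3 fun b hb => by
      obtain ⟨k, hk, rfl⟩ := mem_image.1 hb
      refine (card_le_card fun l hl => by_contra fun n => ?_).trans (hR k)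
      have := hG k hk l (mem_filter.1 hl).1
      rw [if_neg n, ← e0, (mem_filter.1 hl).2, e0, g3 k hk] at this
      omega
    omega
  have h3 : ∀ v ∈ J.image y, ∑ i ∈ I, v i * v i = 3 := fun v hv => by
    obtain ⟨k, hk, rfl⟩ := mem_image.1 hv
    rw [e0, g3 k hk]
  have h2 : ∀ v ∈ J.image y, ∀ w ∈ J.image y, v ≠ w → ∑ i ∈ I, v i * w i = 2 := fun v hv w hw n => by
    obtain ⟨k, hk, rfl⟩ := mem_image.1 hv
    obtain ⟨l, hl, rfl⟩ := mem_image.1 hw
    rw [e0, hG k hk l hl, if_neg fun m => n (funext fun i => if_ctx_congr .rfl (fun hi => ?_) fun _ => rfl)]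
    have : ∑ i ∈ I, (z k i - z l i) * (z k i - z l i) = 0 := by
      rw [sum_congr rfl fun i _ => show _ = z k i * z k i + z l i * z l i - 2 * (z k i * z l i) by ring,
        sum_sub_distrib, sum_add_distrib, ← mul_sum, g3 k hk, g3 l hl, hG k hk l hl, if_pos m]; rfl
    exact sub_eq_zero.1 (mul_self_eq_zero.1 ((sum_eq_zero_iff_of_nonneg fun i _ => mul_self_nonneg _).1
      this i hi))
  obtain ⟨i, hi, j, hj, ne, a, b, a0, b0, h⟩ := sun h5 h3 h2
  refine ⟨i, hi, j, hj, ne, a, b, a0, b0, fun k hk => by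
    simpa only [y, if_pos hi, if_pos hj] using h _ (mem_image_of_mem y hk), fun τ c hc => ?_⟩
  choose! r r1 r2 r3 r4 r5 using fun v hv => third (h3 v hv) hi hj ne ((h v hv).1 ▸ a0) ((h v hv).2 ▸ b0)
  have s : ∀ v ∈ J.image y, ∀ i ∈ I, v i ≠ 0 → v i * v i = 1 := fun v hv i hi a => by
    rcases vsq (h3 v hv) hi with e | e | e
    exacts [(a e).elim, by rw [e]; rfl, by rw [e]; rfl]
  have inj : Set.InjOn r (J.image y) := fun v hv w hw e => by_contra fun n => by
    have e1 := r5 v hv fun i => w i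
    have e2 := r4 v hv
    have e3 := r4 w hw
    have a1 := s v hv i hi ((h v hv).1 ▸ a0)
    have b1 := s v hv j hj ((h v hv).2 ▸ b0)
    norm_cast at e1
    rw [h2 v hv w hw n, (h w hw).1, (h w hw).2, ← (h v hv).1, ← (h v hv).2, a1, b1] at e1
    rw [← e] at e3
    have : v (r v) * w (r v) = 0 := by omega
    rcases mul_eq_zero.1 this with k | k
    · rw [k] at e2; omega
    · rw [k] at e3; omega
  have := sum_le_sum_of_subset_of_nonneg (s := insert i (insert j ((J.image y).image r))) (t := I)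
    (f := fun i => τ i * τ i) (insert_subset hi (insert_subset hj (image_subset_iff.2 r1)))
    fun i _ _ => mul_self_nonneg _
  rw [sum_insert (by
      simp only [mem_insert, ne, false_or]
      exact fun m => (mem_image.1 m).elim fun v hv => r2 v hv.1 hv.2.symm),
    sum_insert fun m => (mem_image.1 m).elim fun v hv => r3 v hv.1 hv.2.symm, sum_image inj,
    sum_congr rfl (g := fun _ => (c - a * τ i - b * τ j) * (c - a * τ i - b * τ j)) fun v hv => by
      have e1 := r5 v hv fun i => τ i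
      obtain ⟨k, hk, rfl⟩ := mem_image.1 hv
      norm_cast at e1
      rw [sum_congr rfl (g := fun i => z k i * τ i) fun i hi => by simp only [y, if_pos hi], hc k hk,
        (h _ hv).1, (h _ hv).2] at e1
      rw [e1]
      linear_combination -(τ (r (y k)) * τ (r (y k))) * r4 _ hv, sum_const, nsmul_eq_mul] at this
  have h5' : (5 : ℤ) ≤ (J.image y).card := by exact_mod_cast h5
  nlinarith [mul_self_nonneg (c - a * τ i - b * τ j)]

end sun
end Cfsg.GS.Qx
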