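import Mathlib

/-! A verified checker for the numerical part of the case `S:15`. -/

set_option autoImplicit false

namespace Cfsg.GS.Qx

/-- the type of a Galois orbit -/
structure Ty where
  (w a b s sg ka : ℤ)
  deriving DecidableEq

namespace Ty
variable (t : Ty)
def tau : ℤ := 5 * t.a - 4 * (t.b + t.s)
def c : ℤ := 4 * t.a - 3 * t.tau
def p : ℤ := if 1 ≤ t.a ∧ t.tau < t.c then t.c else t.c + 64
def m : ℤ := if 1 ≤ t.a ∧ t.c - 64 * t.a < t.tau then t.c - 64 * t.a else t.c - 64 * t.a - 64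
def k (x y z : ℤ) : ℤ := t.w * (x * t.a + y * t.b + z * t.s)
def r (x y z : ℤ) : ℤ := t.w * (t.tau * t.tau) * (x * t.a + y * (4 * t.b - t.s) + z * t.b)
def ok (d : ℤ) : Prop := (d - t.c) % 64 = 0 ∧ (t.p ≤ d ∨ d ≤ t.m) ∧ 0 < t.p ∧ t.m < 0
end Ty

structure En where
  (t : Ty) (lo hi : ℤ)

def En.ok (e : En) (q : Ty × ℤ) : Prop :=
  e.t = q.1 ∧ q.1.ok q.2 ∧ (e.lo = 0 ∨ e.lo ≤ q.2) ∧ (e.hi = 0 ∨ q.2 ≤ e.hi)

inductive Tr where
  | L (x y z : ℤ)
  | R (x y z : ℤ)
  | S (i : ℕ) (g h : ℤ) (l r : Tr)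

def spl (g h : ℤ) : ℕ → List En → (List En → List En → Bool) → Bool
  | _, [], _ => false
  | 0, ⟨t, lo, hi⟩ :: l, k => (((g - t.c) % 64 == 0 && decide (h ≤ g + 64)) ||
      (decide (t.m ≤ g) && decide (h ≤ t.p))) && k (⟨t, lo, g⟩ :: l) (⟨t, h, hi⟩ :: l)
  | i + 1, e :: l, k => spl g h i l fun a b => k (e :: a) (e :: b)

def linB (x y z : ℤ) : List En → ℤ → Bool
  | [], s => decide (s < 0)
  | ⟨t, lo, hi⟩ :: l, s => if t.k x y z = 0 then linB x y z l s else if 0 < t.k x y z then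
      hi != 0 && linB x y z l (s + t.k x y z * hi) else lo != 0 && linB x y z l (s + t.k x y z * lo)

def ratV (x y z : ℤ) : List En → ℚ → ℚ
  | [], s => s
  | ⟨t, lo, hi⟩ :: l, s => ratV x y z l (s + t.r x y z / (if 0 ≤ t.r x y z then
      (if 0 < lo then hi else min hi t.m) else if hi < 0 then lo else max lo t.p : ℤ))

def chk : Tr → List En → Bool
  | .L x y z, l => linB x y z l (x + y)
  | .R x y z, l => if 0 < z then decide (0 ≤ ratV x y z l (x + 4 * y + z : ℤ)) else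
      z == 0 && decide (0 < ratV x y z l (x + 4 * y + z : ℤ))
  | .S i g h a b, l => spl g h i l fun l1 l2 => chk a l1 && chk b l2

abbrev Ok (l : List En) (P : List (Ty × ℤ)) : Prop := List.Forall₂ En.ok l P

theorem spl_ok {g h : ℤ} : ∀ {i : ℕ} {l : List En} {k : List En → List En → Bool}
    {P : List (Ty × ℤ)}, spl g h i l k = true → Ok l P → ∃ a b, k a b = true ∧ (Ok a P ∨ Ok b P)
  | _, [], _, _, e, _ => by simp [spl] at e
  | 0, ⟨t, lo, hi⟩ :: l, k, _, e, .cons (b := q) ⟨h1, h2, h3, h4⟩ o => by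
    simp only [spl, Bool.and_eq_true, Bool.or_eq_true, beq_iff_eq, decide_eq_true_eq] at e
    refine ⟨_, _, e.2, ?_⟩
    obtain rfl : t = q.1 := h1
    have : q.2 ≤ g ∨ h ≤ q.2 := by
      have := e.1
      have := h2.1
      have := h2.2.1
      omega
    exact this.imp (fun a => .cons ⟨rfl, h2, h3, .inr a⟩ o) fun a => .cons ⟨rfl, h2, .inr a, h4⟩ o
  | i + 1, e :: l, k, _, h, .cons a o => by
    obtain ⟨x, y, h1, h2⟩ := spl_ok (i := i) (l := l) h o
    exact ⟨_, _, h1, h2.imp (.cons a) (.cons a)⟩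

theorem linB_ok {x y z : ℤ} : ∀ {l : List En} {s : ℤ} {P : List (Ty × ℤ)}, linB x y z l s = true →
    Ok l P → s + (P.map fun q => q.1.k x y z * q.2).sum < 0
  | [], s, _, e, .nil => by simpa [linB] using e
  | ⟨t, lo, hi⟩ :: l, s, _, e, .cons (b := q) ⟨h1, h2, h3, h4⟩ o => by
    obtain rfl : t = q.1 := h1
    rw [linB] at e
    rw [List.map_cons, List.sum_cons]
    split_ifs at e with a b
    · simpa [a] using linB_ok e o
    · simp only [Bool.and_eq_true, bne_iff_ne] at e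
      have := linB_ok e.2 o
      nlinarith [h4.resolve_left e.1]
    · simp only [Bool.and_eq_true, bne_iff_ne] at e
      have := linB_ok e.2 o
      nlinarith [h3.resolve_left e.1]

theorem inv_lo {d lo hi p m : ℤ} (h1 : p ≤ d ∨ d ≤ m) (hp : 0 < p) (hm : m < 0)
    (h2 : lo = 0 ∨ lo ≤ d) (h3 : hi = 0 ∨ d ≤ hi) :
    (((if 0 < lo then hi else min hi m : ℤ) : ℚ))⁻¹ ≤ (d : ℚ)⁻¹ := by
  split_ifs with a
  · have : (0 : ℚ) < d := by exact_mod_cast (by omega : 0 < d)
    rcases h3 with rfl | h3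
    · simpa using this.le
    · exact inv_anti₀ this (by exact_mod_cast h3)
  · have e : ((min hi m : ℤ) : ℚ) < 0 := by exact_mod_cast (by omega : min hi m < 0)
    by_cases b : 0 < d
    · exact (inv_lt_zero.2 e).le.trans (by positivity)
    · exact (inv_le_inv_of_neg e (by exact_mod_cast (by omega : d < 0))).2
        (by exact_mod_cast (by omega : d ≤ min hi m))

theorem inv_hi {d lo hi p m : ℤ} (h1 : p ≤ d ∨ d ≤ m) (hp : 0 < p) (hm : m < 0)
    (h2 : lo = 0 ∨ lo ≤ d) (h3 : hi = 0 ∨ d ≤ hi) :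
    (d : ℚ)⁻¹ ≤ (((if hi < 0 then lo else max lo p : ℤ) : ℚ))⁻¹ := by
  have := inv_lo (d := -d) (lo := -hi) (hi := -lo) (p := -m) (m := -p) (by omega) (by omega)
    (by omega) (by omega) (by omega)
  rw [show (if 0 < -hi then -lo else min (-lo) (-p) : ℤ) = -(if hi < 0 then lo else max lo p) by
    split_ifs <;> omega] at this
  simpa [inv_neg] using this

theorem ratV_ok {x y z : ℤ} : ∀ {l : List En} {s : ℚ} {P : List (Ty × ℤ)},
    Ok l P → ratV x y z l s ≤ s + (P.map fun q => (q.1.r x y z : ℚ) / q.2).sum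
  | [], s, _, .nil => by simp [ratV]
  | ⟨t, lo, hi⟩ :: l, s, _, .cons (b := q) ⟨h1, h2, h3, h4⟩ o => by
    obtain rfl : t = q.1 := h1
    rw [ratV, List.map_cons, List.sum_cons, ← add_assoc]
    refine (ratV_ok o).trans (add_le_add_left (add_le_add_right ?_ _) _)
    by_cases a : 0 ≤ q.1.r x y z
    · rw [if_pos a]
      exact mul_le_mul_of_nonneg_left (inv_lo h2.2.1 h2.2.2.1 h2.2.2.2 h3 h4) (by exact_mod_cast a)
    · rw [if_neg a]
      exact mul_le_mul_of_nonpos_left (inv_hi h2.2.1 h2.2.2.1 h2.2.2.2 h3 h4)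
        (by exact_mod_cast (not_le.1 a).le)

/-- the degree equations and the class sum equations -/
def Eqs (P : List (Ty × ℤ)) : Prop :=
  (∀ x y z : ℤ, x + y + (P.map fun q => q.1.k x y z * q.2).sum = 0) ∧ ∃ c : ℚ, 0 < c ∧ ∀ x y z : ℤ,
    ((x + 4 * y + z : ℤ) : ℚ) + (P.map fun q => (q.1.r x y z : ℚ) / q.2).sum = -z * c

theorem chk_ok {P : List (Ty × ℤ)} (h : Eqs P) : ∀ {t : Tr} {l : List En}, chk t l = true → ¬ Ok l P
  | .L x y z, l, e, o => (linB_ok e o).ne (h.1 x y z)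
  | .R x y z, l, e, o => by
    obtain ⟨-, c, c0, h⟩ := h
    have := ratV_ok (x := x) (y := y) (z := z) (s := (x + 4 * y + z : ℤ)) o
    rw [h] at this
    rw [chk] at e
    split_ifs at e with a
    · have : (0 : ℚ) < z := by exact_mod_cast a
      nlinarith [of_decide_eq_true e]
    · simp only [Bool.and_eq_true, beq_iff_eq, decide_eq_true_eq] at e
      obtain ⟨rfl, e⟩ := e
      simp at this e
      linarith
  | .S i g k a b, l, e, o => by
    obtain ⟨l1, l2, h1, h2⟩ := spl_ok e o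
    rw [Bool.and_eq_true] at h1
    exact h2.elim (chk_ok h h1.1) (chk_ok h h1.2)

/-! ### the Gram matrix -/

structure V8 where
  (a b c d e f g h : ℤ)
  deriving DecidableEq

def V8.dot (u v : V8) : ℤ := u.a * v.a + u.b * v.b + u.c * v.c + u.d * v.d + u.e * v.e + u.f * v.f +
  u.g * v.g + u.h * v.h

def V8.sub : V8 → V8 → V8
  | ⟨a, b, c, d, e, f, g, h⟩, ⟨a', b', c', d', e', f', g', h'⟩ =>
    ⟨a - a', b - b', c - c', d - d', e - e', f - f', g - g', h - h'⟩

def Ty.con (t : Ty) : V8 := ⟨t.w * (t.a * t.a), t.w * (t.a * t.b), t.w * (t.a * t.s),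
  t.w * (t.b * t.b), t.w * (t.b * t.s), t.w * (t.s * t.s), t.w * t.sg, t.w * t.ka⟩

def valid : List (Ty × List V8) → Bool
  | [] => true
  | c :: C => (c.2.all fun f => (c :: C).all fun e => decide (0 ≤ f.dot e.1.con)) && valid C

def go (sols : List (List Ty)) : ℕ → List (Ty × List V8) → V8 → List Ty → Bool
  | 0, _, _, _ => false
  | _, [], r, cur => decide (r.dot r ≠ 0) || decide (cur ∈ sols)
  | n + 1, c :: C, r, cur => (c.2.any fun f => decide (f.dot r < 0)) ||
      (go sols n C r cur && go sols n (c :: C) (r.sub c.1.con) (c.1 :: cur))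

theorem go_ok {sols : List (List Ty)} : ∀ {n : ℕ} {C : List (Ty × List V8)} {r : V8} {cur : List Ty}
    (L K : List (Ty × ℤ)), go sols n C r cur = true → valid C = true →
    (∀ q ∈ L, q.1 ∈ C.map (·.1)) → (∀ f : V8, f.dot r = (L.map fun q => f.dot q.1.con).sum) →
    K.map (·.1) = cur → ∃ K' : List (Ty × ℤ), K'.Perm (K ++ L) ∧ K'.map (·.1) ∈ sols
  | 0, _, _, _, _, _, e, _, _, _, _ => by simp [go] at e
  | n + 1, [], r, cur, L, K, e, _, h1, h2, h3 => by
    obtain rfl : L = [] := List.eq_nil_iff_forall_not_mem.2 fun q hq => by simpa using h1 q hq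
    exact ⟨K, by simp, by simpa [go, h2, h3] using e⟩
  | n + 1, c :: C, r, cur, L, K, e, v, h1, h2, h3 => by
    simp only [go, valid, Bool.or_eq_true, Bool.and_eq_true, List.any_eq_true, List.all_eq_true,
      decide_eq_true_eq] at e v
    rcases e with ⟨f, f1, f2⟩ | e
    · refine absurd f2 (not_lt.2 (h2 f ▸ List.sum_nonneg fun x hx => ?_))
      obtain ⟨q, hq, rfl⟩ := List.mem_map.1 hx
      obtain ⟨y, hy, e⟩ := List.mem_map.1 (h1 q hq)
      exact e ▸ v.1 f f1 y hy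
    by_cases a : ∃ q ∈ L, q.1 = c.1
    · obtain ⟨q, hq, a⟩ := a
      obtain ⟨s, t, rfl⟩ := List.append_of_mem hq
      obtain ⟨K', k1, k2⟩ := go_ok (s ++ t) (q :: K) e.2 (by
        simp only [valid, Bool.and_eq_true, List.all_eq_true, decide_eq_true_eq]; exact v)
        (fun x hx => h1 x (by grind)) (fun f => by
          have := h2 f
          simp only [List.map_append, List.map_cons, List.sum_append, List.sum_cons, a] at this ⊢
          simp only [V8.dot, V8.sub] at this ⊢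
          linear_combination this) (by simp [a, h3])
      exact ⟨K', k1.trans (by grind), k2⟩
    · exact go_ok L K e.1 v.2 (fun q hq => by
        simpa [show q.1 ≠ c.1 from fun e => a ⟨q, hq, e⟩] using h1 q hq) h2 h3

theorem Eqs.perm {P Q : List (Ty × ℤ)} (h : Eqs P) (e : Q.Perm P) : Eqs Q :=
  let ⟨h1, c, c0, h2⟩ := h
  ⟨fun x y z => by rw [(e.map _).sum_eq, h1], c, c0, fun x y z => by rw [(e.map _).sum_eq, h2]⟩

theorem final {cs : List (List Ty × Tr)} {n : ℕ} {C : List (Ty × List V8)} {r : V8}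
    (h1 : go (cs.map (·.1)) n C r [] = true) (h2 : valid C = true)
    (h3 : ∀ x ∈ cs, chk x.2 (x.1.map fun t => ⟨t, 0, 0⟩) = true) {L : List (Ty × ℤ)}
    (l1 : ∀ q ∈ L, q.1 ∈ C.map (·.1)) (l2 : ∀ f : V8, f.dot r = (L.map fun q => f.dot q.1.con).sum)
    (l3 : ∀ q ∈ L, q.1.ok q.2) (l4 : Eqs L) : False := by
  obtain ⟨K, k1, k2⟩ := go_ok L [] h1 h2 l1 l2 rfl
  obtain ⟨x, hx, e⟩ := List.mem_map.1 k2
  refine chk_ok (l4.perm k1) (h3 x hx) ?_
  rw [e, List.map_map, Ok, List.forall₂_map_left_iff, List.forall₂_same]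
  exact fun q hq => ⟨rfl, l3 q (k1.subset hq), .inl rfl, .inl rfl⟩

end Cfsg.GS.Qx
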