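import Cfsg.Agent.GS.Q3
import Cfsg.Agent.GS.Q4

/-! `U4b`, part 8: the case `N(S) ∩ C(A) = S C(S)`. -/

set_option autoImplicit false
set_option linter.unusedSectionVars false

namespace Cfsg.GS.Qx

open Subgroup Cfsg.L0 Cfsg.H8 Cfsg.FT Cfsg.H5 Cfsg.GW Cfsg.GW2.Bx
open scoped ComplexConjugate Classical

variable {G : Type} [Group G] [Finite G] {S A B D O P : Subgroup G} {a b c g i n s t u w x y : G}
  {χ φ ψ μ F : G → ℂ} {k : ℕ}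

theorem swap {f : (G → ℂ) → ℂ} (h : ∀ s ∈ S, φ s ≠ 0 → ∑ χ ∈ B0 G, f χ * χ s = ψ s) :
    ∑ χ ∈ B0 G, f χ * dot S χ φ = dot S ψ φ := by
  have e := congrArg conj (dot_congr_right (φ := φ) (ψ := ∑ χ ∈ B0 G, f χ • χ) (ψ' := ψ) (L := S)
    fun s hs e => by simpa using h s hs e)
  rw [dot_conj, dot_conj, dot_sum_left] at e
  simpa only [dot_smul_left] using e

theorem col2 (hs : s ^ 2 ^ k = 1) (ho : Odd ♯O) (h : SD O P (𝒞₁ s)) (hP : IsPGroup 2 P) {k' : ℕ}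
    (hx : x ^ 2 ^ k' = 1) : ∑ χ ∈ B0 G, conj (χ x) * χ s = if IsConj s x then (♯P : ℂ) else 0 := by
  have c := cos0 hs h.nrm ho fun y => odd_mem h hP
  have e : ∀ {x : G} {k' : ℕ}, x ^ 2 ^ k' = 1 → ∀ c, s⁻¹ * (c * x * c⁻¹) ∈ O → c * x * c⁻¹ = s :=
    fun hx c hc => part hx hs (y := 1) (by simp) (BS.R.odd_of_mem ho hc) (one_mem _) (h.le_left hc) (by group)
  split_ifs with k
  · obtain ⟨d, rfl⟩ := isConj_iff.1 k
    rw [Finset.sum_congr rfl fun χ hχ => by rw [(mem_B0.1 hχ).1.cf.cnj d (mem_top d)]]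
    exact c.val h.card fun c => ⟨fun k => mem_cent1.2 (mul_inv_eq_iff_eq_mul.1 (e hs c k)), fun k => by
      rw [mem_cent1.1 k]; simp⟩
  · exact c.zero fun c hc => k (isConj_iff.2 ⟨c, e hx c hc⟩).symm

theorem avg (hD : D ⊴ S) (hd : ⁅S, S⁆ ≤ D) {e : ℤ}
    (h : ∀ μ ∈ irrK S D, μ ≠ cf1 S → dot S χ (cf1 S - μ) = e) :
    ∑ w ∈ fs (D : Set G), χ w = ♯D * e + ♯S * (dot S χ (cf1 S) - e) := by
  have e1 := congrArg (dot S χ) (sum_irrK hD)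
  rw [dot_sum_right, Finset.sum_congr rfl (g := fun μ => dot S χ (cf1 S) - e + if μ = cf1 S then (e : ℂ) else 0)
    fun μ hμ => by
      rw [(lin_of_mem_irrK hμ hd).one, one_smul]
      split_ifs with k
      · rw [k]; ring
      · rw [← h μ hμ k, dot_sub_right]; ring, Finset.sum_add_distrib, Finset.sum_ite_eq', if_pos (cf1_mem_irrK hD.le),
    Finset.sum_const, card_irrK hD.le hd, nsmul_eq_mul, ← dot_conj S (_ • _), dot_smul_left, dot_of_sp (cf1_sp D) hD.le,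
    sum_fs_congr (f' := fun w => conj (χ w)) fun w hw => by rw [cf1_of_mem hw, one_mul], ← map_sum] at e1
  simp only [map_mul, map_natCast, map_inv₀, Complex.conj_conj] at e1
  have := card_ne_zero_c S
  rw [← card_mul_ri_c hD.le] at e1 ⊢
  have := card_ne_zero_c D
  have := ri_ne_zero_c D S
  field_simp at e1
  linear_combination -e1

namespace U5
variable (h : U5 S A g)
include h

theorem p2 (hx : x ∈ S) : ∃ k, x ^ 2 ^ k = 1 := isPGroup_iff_forall.1 h.pg x hx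

theorem ninv (hx : x ∈ S) (i2 : i * i = 1) (e : i * x * i⁻¹ = x⁻¹) : x ∈ A := by
  obtain ⟨k, hk⟩ := h.p2 hx
  obtain ⟨c, -, hc⟩ := h.syl.exists_cj_le (pgroup_sup (zpowers_le.2 (mem_normalizer_zpowers_of_inverts e))
    (isPGroup_zpowers hk) (isPGroup_zpowers (k := 1) ((sq _).trans i2))) le_top
  have := h.cS (h.om _ (hc (conj_mem_cj (mem_sup_right (mem_zpowers i)))) (GW.sq_cj i2 c))
    (hc (conj_mem_cj (mem_sup_left (mem_zpowers x))))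
  refine h.om x hx (mul_eq_one_iff_eq_inv.2 ?_)
  rw [← e, eq_mul_inv_iff_mul_eq]
  calc _ = c⁻¹ * (c * x * c⁻¹ * (c * i * c⁻¹)) * c := by group
    _ = _ := by rw [← this]; group

theorem sdx (hx : x ∈ S) (nx : x ∉ A) : ∃ O, Odd ♯O ∧ SD O (S ⊓ 𝒞₁ x) (𝒞₁ x) :=
  h.sd hx (fun e => nx (e ▸ one_mem A)) fun _ hw o e => h.oddc hw o hx nx e

theorem racnt (ht : t ∈ A) (t1 : t ≠ 1) (hx : x ∈ S) (nx : x ∉ A) :
    ∑ χ ∈ B0 G, χ t * χ t / χ 1 * χ x = 0 := by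
  obtain ⟨O, ho, sd⟩ := h.sdx hx nx
  obtain ⟨k, hk⟩ := h.p2 hx
  obtain ⟨κ, k0, e⟩ := (cos0 hk sd.nrm ho fun y => odd_mem sd (h.pg.to_le inf_le_left)).cls (h.hI ht t1) (h.sq ht) t1
  rw [sum_fs_eq_zero fun w hw => acnt_zero fun i i2 _ e => nx (h.ninv hx i2 (part hk (k' := k) (by rw [inv_pow, hk, inv_one])
    (BS.R.odd_of_mem ho hw) (BS.R.odd_of_mem ho (inv_mem hw)) (sd.le_left hw)
    (mem_cent1.2 (Commute.inv_inv (mem_cent1.1 (sd.le_left hw)))) (by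
      rw [← mul_inv_rev, mem_cent1.1 (sd.le_left hw), inv_eq_of_mul_eq_one_right i2, eq_inv_iff_mul_eq_one, ← e]
      group)))] at e
  exact (mul_eq_zero.1 e).resolve_left (Rat.cast_ne_zero.2 k0.ne')

theorem r3 : (𝒩 S ⊓ 𝒞 A).relIndex (𝒩 S) = 3 := by
  obtain ⟨a, ha, a1⟩ := h.ex
  have e : 𝒩 S ⊓ 𝒞 A = 𝒞₁ a ⊓ 𝒩 S := le_antisymm (le_inf (inf_le_right.trans (cent_le_cent1 ha))
    inf_le_left) fun n hn => ⟨hn.2, h.fix (h.NS hn.2) ha a1 (mem_cent1.1 hn.1)⟩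
  rw [e, inf_relIndex_right, ← H8.ncard_class, show 3 = ♯A - 1 by rw [h.c4], ← ncard_sharp]
  congr 1
  ext b
  refine ⟨?_, fun hb => ?_⟩
  · rintro ⟨n, hn, rfl⟩; exact SFx.conj_sharp (h.NS hn) ⟨ha, a1⟩
  · obtain ⟨i, -, e⟩ := h.tr (h.NS h.gN) h.gA ha a1 hb.1 hb.2
    exact ⟨_, pow_mem h.gN i, e⟩

theorem sumA (ht : t ∈ A) (t1 : t ≠ 1) (hχ : CF ⊤ χ) : ∑ w ∈ fs (A : Set G), χ w = χ 1 + 3 * χ t := by
  rw [sum_sub_sharp, sum_fs_congr (f' := fun _ => χ t) fun w hw => by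
    obtain ⟨c, rfl⟩ := isConj_iff.1 ((h.hI ht t1 w).2 ⟨h.sq hw.1, hw.2⟩)
    exact hχ.cnj c (mem_top c) t, sum_fs_const, ncard_sharp, h.c4]
  norm_num

theorem d16 (na : ¬ Abel S) (ht : t ∈ A) (t1 : t ≠ 1) (hχ : Ch ⊤ χ) : ∃ n : ℕ, χ 1 - χ t = 16 * n := by
  obtain ⟨x, hx, nx⟩ := SetLike.not_le_iff_exists.1 fun l => h.ne (le_antisymm l h.AS)
  have := dtau (h.cx na hx nx).2 ⟨h.AS ht, mem_cent1.2 (h.cS ht hx)⟩ (h.sq ht) t1 hχ fun y hy y1 yt => by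
    by_cases k : y ∈ A
    · obtain ⟨c, e⟩ := isConj_iff.1 ((h.hI k y1 _).2 ⟨h.sq (mul_mem ht k), fun e => yt (by
        rw [eq_inv_of_mul_eq_one_right e, inv_eq_of_mul_eq_one_right (h.sq ht)])⟩)
      rw [← e, hχ.cf.cnj c (mem_top c)]
    · obtain ⟨c, -, e⟩ := h.coset na hy.1 k ht
      rw [← e, hχ.cf.cnj c (mem_top c)]
  rwa [(h.cx na hx nx).1] at this

theorem triv (hχ : Irr ⊤ χ) (e : χ 1 = 1) : χ = cf1 ⊤ :=
  hχ.eq_cf1_of_cker (Fx.der_top' h.simple h.nab ▸ (hχ.lin e).der_le_cker)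

end U5

theorem toQ {f : (G → ℂ) → ℚ} {F : (G → ℂ) → ℂ} {q : ℚ} (h1 : ∀ χ ∈ B0 G, F χ = f χ)
    (h : ∑ χ ∈ B0 G, F χ = q) : ∑ χ ∈ (B0 G).erase (cf1 ⊤), f χ = q - f (cf1 ⊤) := by
  rw [Finset.sum_congr rfl h1, ← Finset.add_sum_erase _ _ one_B0] at h
  norm_cast at h
  rw [← h]; ring

theorem dot_one (hμ : Irr S μ) (n : μ ≠ cf1 S) : dot S (cf1 ⊤) (cf1 S - μ) = 1 := by
  rw [dot_congr (φ' := cf1 S) (fun x hx => by rw [FT.cf1_top, cf1_of_mem hx]) fun _ _ => rfl, dot_sub_right,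
    dot_cf1_self, dot_symm_zero (hμ.dot_cf1 n), sub_zero]

namespace U5
variable (h : U5 S A g) (hc : ∀ w ∈ 𝒩 S, w ∈ 𝒞 A → Odd (orderOf w) → w ∈ 𝒞 S)
include h hc

theorem nc (hn : n ∈ 𝒩 S) (nA : n ∈ 𝒞 A) : ∃ s ∈ S, ∃ w ∈ 𝒞 S, n = s * w := by
  obtain ⟨s, hs, w, hw, -, o, e⟩ := split2 h.syl hn
  exact ⟨s, hs, w, hc w (zpowers_le.2 hn hw) (zpowers_le.2 nA hw) o, e⟩

theorem sd1 (hs : s ∈ S) (s1 : s ≠ 1) : ∃ O, Odd ♯O ∧ SD O (S ⊓ 𝒞₁ s) (𝒞₁ s) :=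
  h.sd hs s1 fun w hw o e => hc w hw (h.fix' hw hs s1 e) o

theorem col1 (hs : s ∈ S) (s1 : s ≠ 1) (hx : x ∈ S) :
    ∑ χ ∈ B0 G, conj (χ x) * χ s = if IsConj s x then (♯(S ⊓ 𝒞₁ s) : ℂ) else 0 := by
  obtain ⟨O, ho, sd⟩ := h.sd1 hc hs s1
  obtain ⟨k, hk⟩ := h.p2 hs
  obtain ⟨k', hk'⟩ := h.p2 hx
  exact col2 hk ho sd (h.pg.to_le inf_le_left) hk'

theorem cl3 (hs : s ∈ S) (s1 : s ≠ 1) : {y | y ∈ S ∧ IsConj s y}.ncard * ♯(S ⊓ 𝒞₁ s) = 3 * ♯S := by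
  have e : 𝒞₁ s ⊓ 𝒩 S = 𝒞₁ s ⊓ (𝒩 S ⊓ 𝒞 A) := le_antisymm (fun n hn => ⟨hn.1, hn.2,
    h.fix' hn.2 hs s1 (mem_cent1.1 hn.1)⟩) (inf_le_inf_left _ inf_le_left)
  rw [show {y | y ∈ S ∧ IsConj s y} = {y | ∃ n ∈ 𝒩 S, n * s * n⁻¹ = y} from Set.ext fun y => ⟨fun k => by
      obtain ⟨c, rfl⟩ := isConj_iff.1 k.2
      obtain ⟨n, hn, e⟩ := h.fus hs k.1
      exact ⟨n, hn, e.symm⟩, fun ⟨n, hn, e⟩ => ⟨e ▸ conj_mem_of_norm hn hs, isConj_iff.2 ⟨n, e⟩⟩⟩,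
    H8.ncard_class, ← inf_relIndex_right, e, ← ri_mul inf_le_right inf_le_left, h.r3, inf_relIndex_right,
    ← H8.ncard_class, show {y | ∃ n ∈ 𝒩 S ⊓ 𝒞 A, n * s * n⁻¹ = y} = {y | ∃ n ∈ S, n * s * n⁻¹ = y} from
      Set.ext fun y => ⟨fun ⟨n, hn, e⟩ => by
        obtain ⟨u, hu, w, hw, rfl⟩ := h.nc hc hn.1 hn.2
        exact ⟨u, hu, by rw [← e, mul_assoc u w, ← mem_cent.1 hw s hs]; group⟩,
      fun ⟨n, hn, e⟩ => ⟨n, ⟨le_norm S hn, h.SA hn⟩, e⟩⟩, H8.ncard_class, ← card_inf_mul_ri (𝒞₁ s) S,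
    inf_comm]
  ring

theorem pr (hφ : CF S φ) (hs : s ∈ S) (s1 : s ≠ 1) :
    ∑ χ ∈ B0 G, dot S φ χ * χ s = (φ + cjf g φ + cjf g (cjf g φ)) s := by
  have i3 : cjf g (cjf g (cjf g φ)) = φ := by
    rw [← FT.cjf_mul, ← FT.cjf_mul, ← pow_three']; exact cent_le_inert hφ.sp h.g3
  have c1 := hφ.cjf_of_norm h.gN
  have cf := (hφ.add c1).add (c1.cjf_of_norm h.gN)
  have gi : g ∈ inert (φ + cjf g φ + cjf g (cjf g φ)) := by
    rw [mem_inert, cjf_add, cjf_add, i3]; ring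
  have e : ∀ χ ∈ B0 G, dot S (φ + cjf g φ + cjf g (cjf g φ)) χ * χ s = 3 * (dot S φ χ * χ s) := fun χ hχ => by
    have k : ∀ ψ, dot S (cjf g ψ) χ = dot S ψ χ := fun ψ => by
      rw [← dot_cjf_of_norm h.gN ψ, (mem_B0.1 hχ).1.cf.cjf_eq (mem_top g)]
    rw [dot_add_left, dot_add_left, k, k, k]; ring
  apply mul_left_cancel₀ (three_ne_zero (α := ℂ))
  rw [Finset.mul_sum, ← Finset.sum_congr rfl e]
  generalize φ + cjf g φ + cjf g (cjf g φ) = ψ at *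
  simp only [dot_def, Finset.sum_mul, mul_assoc]
  rw [← Finset.mul_sum, Finset.sum_comm]
  simp only [← Finset.mul_sum]
  rw [sum_fs_congr fun x hx => by rw [h.col1 hc hs s1 hx], ← sum_fs_subset (A := {y | y ∈ S ∧ IsConj s y})
    (fun y hy => hy.1) fun x hx n => by rw [if_neg fun k => n ⟨hx, k⟩, mul_zero],
    sum_fs_congr (f' := fun _ => ♯(S ⊓ 𝒞₁ s) * ψ s) fun x hx => by
      obtain ⟨c, rfl⟩ := isConj_iff.1 hx.2
      obtain ⟨n, hn, e⟩ := h.fus hs hx.1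
      obtain ⟨i, -, m, hm, mA, rfl⟩ := h.dec hn
      obtain ⟨u, hu, w, hw, rfl⟩ := h.nc hc hm mA
      rw [if_pos hx.2, e, mem_inert'.1 (mul_mem (pow_mem gi i) (mul_mem (cf.le_inert hu)
        (cent_le_inert cf.sp hw))), mul_comm], sum_fs_const, ← mul_assoc (_ : ℂ), ← mul_assoc, mul_assoc _ _ (♯_ : ℂ),
    ← Nat.cast_mul, h.cl3 hc hs s1]
  have := card_ne_zero_c S
  push_cast
  field_simp

theorem gram (hμ : Lin S μ) (n : μ ≠ cf1 S) (hψ : Lin S ψ) (n' : ψ ≠ cf1 S) :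
    ∑ χ ∈ B0 G, dot S (cf1 S - μ) χ * dot S χ (cf1 S - ψ) =
      if ψ ∈ ({μ, cjf g μ, cjf g (cjf g μ)} : Finset (G → ℂ)) then 4 else 3 := by
  have i3 : cjf g (cjf g (cjf g μ)) = μ := by
    rw [← FT.cjf_mul, ← FT.cjf_mul, ← pow_three']; exact cent_le_inert hμ.sp h.g3
  have n1 : cjf g μ ≠ μ := fun e => n (hμ.eq_cf1_of_fpf bot_le h.gN e (.bot S) (fun x hx k =>
    h.fpf hx (mul_inv_eq_iff_eq_mul.1 (mul_inv_eq_one.1 k))) (mem_normalizer_of_forall fun x hx => by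
      rw [mem_bot.1 hx]; simp))
  have n2 : cjf g (cjf g μ) ≠ μ := fun e => n1 ((congrArg (cjf g) e).symm.trans i3)
  have n3 : cjf g (cjf g μ) ≠ cjf g μ := fun e => n1 (cjf_inj g e)
  have k : ∀ ν, Lin S ν → ν ≠ cf1 S → dot S (cf1 S - ν) (cf1 S - ψ) = 1 + if ψ = ν then 1 else 0 :=
    fun ν hν m => by
      rw [dot_sub_left, dot_sub_right, dot_sub_right, dot_cf1_self, hν.irr.dot_cf1 m,
        dot_symm_zero (hψ.irr.dot_cf1 n'), hν.irr.dot_ite hψ.irr, if_congr eq_comm rfl rfl]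
      ring
  have m : ∀ ν, ν ≠ cf1 S → cjf g ν ≠ cf1 S := fun ν k e => k (cjf_inj g (e.trans (cjf_cf1 h.gN).symm))
  rw [swap fun s hs e => h.pr hc ((cf_cf1 S).sub hμ.cf) hs fun k => e (by simp [k, hψ.one]),
    dot_add_left, dot_add_left, cjf_sub, cjf_sub, cjf_cf1 h.gN, cjf_cf1 h.gN, k _ hμ n,
    k _ (hμ.cjf_of_norm h.gN) (m _ n), k _ ((hμ.cjf_of_norm h.gN).cjf_of_norm h.gN) (m _ (m _ n))]
  simp only [Finset.mem_insert, Finset.mem_singleton]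
  split_ifs <;> first | (norm_num; done) | tauto | simp_all

end U5

theorem U5.colz (h : U5 S A g) (ho : Odd ♯O) (sd : SD O (S ⊓ 𝒞₁ s) (𝒞₁ s)) (hs : s ∈ S) (s1 : s ≠ 1) :
    ∑ χ ∈ B0 G, χ 1 * χ s = 0 := by
  obtain ⟨k, hk⟩ := h.p2 hs
  have := col2 hk ho sd (h.pg.to_le inf_le_left) (k' := 0) (x := 1) (by simp)
  rw [if_neg (by simpa using s1)] at this
  rw [← this]
  exact Finset.sum_congr rfl fun χ hχ => by rw [(mem_B0.1 hχ).1.deg_eq, map_natCast]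

theorem U5.caseI (h : U5 S A g) (hc : ∀ w ∈ 𝒩 S, w ∈ 𝒞 A → Odd (orderOf w) → w ∈ 𝒞 S) : False := by
  obtain ⟨t, ht, t1⟩ := h.ex
  choose! τ hτ using fun (χ : G → ℂ) (hχ : χ ∈ B0 G) => tau_int (h.sq ht) t1 (mem_B0.1 hχ).1.ch
  choose! z hz using fun (μ : G → ℂ) (hμ : Lin S μ) (χ : G → ℂ) (hχ : χ ∈ B0 G) =>
    (mem_B0.1 hχ).1.vch.dot_res_int le_top ((vch_cf1 S).sub hμ.vch)
  choose! m hm using fun (χ : G → ℂ) (hχ : χ ∈ B0 G) =>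
    (mem_B0.1 hχ).1.vch.dot_res_int le_top (vch_cf1 S)
  have hd : ∀ χ ∈ B0 G, χ 1 = deg χ := fun χ hχ => (mem_B0.1 hχ).1.deg_eq
  have z1 : ∀ μ, Lin S μ → μ ≠ cf1 S → z μ (cf1 ⊤) = 1 := fun μ hμ n => by
    exact_mod_cast (hz μ hμ _ one_B0).symm.trans (dot_one hμ.irr n)
  have τ1 : τ (cf1 ⊤) = 1 := by exact_mod_cast (hτ _ one_B0).symm.trans (FT.cf1_top t)
  have d1 : deg (cf1 (⊤ : Subgroup G)) = 1 := (lin_cf1 ⊤).deg_eq
  have An : A ⊴ S := ⟨h.AS, (le_norm S).trans h.NS⟩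
  obtain ⟨N, hN⟩ : 16 ∣ ♯S := by
    obtain ⟨k, hk⟩ := IsPGroup.iff_card.1 h.pg
    have := h.mod3 le_rfl h.gN
    have := card_lt_of_lt (lt_of_le_of_ne h.AS h.ne.symm)
    rw [h.c4, hk] at *
    rcases Nat.lt_or_ge k 4 with l | l
    · interval_cases k <;> omega
    · exact pow_dvd_pow 2 l
  have N0 : N ≠ 0 := fun e => (card_pos' S).ne' (by rw [hN, e])
  have dA : ⁅S, S⁆ ≤ A := by
    by_cases ab : Abel S
    exacts [abel_iff_der.1 ab ▸ bot_le, h.der ab]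
  have rA : A.relIndex S = 4 * N := by have := card_mul_ri h.AS; rw [h.c4] at this; omega
  obtain ⟨D, hD, dD, DA, rD, cD⟩ : ∃ D, D ⊴ S ∧ ⁅S, S⁆ ≤ D ∧ D ≤ A ∧ 16 ≤ D.relIndex S ∧
      (D = ⊥ ∨ ¬ Abel S ∧ A = D) := by
    by_cases ab : Abel S
    · exact ⟨⊥, .bot S, (abel_iff_der.1 ab).le, bot_le, by rw [relIndex_bot_left]; omega, .inl rfl⟩
    · exact ⟨A, An, dA, le_rfl, by have := (h.ctr ab).2; omega, .inr ⟨ab, rfl⟩⟩
  obtain ⟨ν, hν⟩ := Finset.card_pos.1 (show 0 < ((irrK S A).erase (cf1 S)).card by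
    rw [Finset.card_erase_of_mem (cf1_mem_irrK h.AS), card_irrK h.AS dA]; omega)
  have lJ : ∀ μ ∈ (irrK S D).erase (cf1 S), Lin S μ := fun μ hμ =>
    lin_of_mem_irrK (Finset.mem_of_mem_erase hμ) dD
  have sJ : (irrK S A).erase (cf1 S) ⊆ (irrK S D).erase (cf1 S) := Finset.erase_subset_erase _ (irrK_anti DA)
  have hG : ∀ μ ∈ (irrK S D).erase (cf1 S), ∀ ψ ∈ (irrK S D).erase (cf1 S),
      ∑ χ ∈ (B0 G).erase (cf1 ⊤), z μ χ * z ψ χ =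
        if ψ ∈ ({μ, cjf g μ, cjf g (cjf g μ)} : Finset (G → ℂ)) then 3 else 2 := fun μ hμ ψ hψ => by
    have e := h.gram hc (lJ μ hμ) (Finset.ne_of_mem_erase hμ) (lJ ψ hψ) (Finset.ne_of_mem_erase hψ)
    have := toQ (f := fun χ => z μ χ * z ψ χ) (q := if ψ ∈ ({μ, cjf g μ, cjf g (cjf g μ)} : Finset (G → ℂ))
      then 4 else 3) (fun χ hχ => by
        rw [dot_symm_int (hz μ (lJ μ hμ) χ hχ), hz ψ (lJ ψ hψ) χ hχ]; push_cast; rfl)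
      (e.trans (by split_ifs <;> norm_num))
    rw [z1 μ (lJ μ hμ) (Finset.ne_of_mem_erase hμ), z1 ψ (lJ ψ hψ) (Finset.ne_of_mem_erase hψ)] at this
    split_ifs at this ⊢ <;> norm_num at this <;> exact_mod_cast this
  have e2 : ∀ μ ∈ (irrK S A).erase (cf1 S), ∑ χ ∈ (B0 G).erase (cf1 ⊤), (z μ χ * τ χ : ℚ) = -1 := fun μ hμ => by
    have l := lJ μ (sJ hμ)
    have k : ∀ a ∈ A, (cf1 S - μ) a = 0 := fun a ha => by
      rw [Pi.sub_apply, cf1_of_mem (h.AS ha), l.mem_cker.1 ((mem_irrK.1 (Finset.mem_of_mem_erase hμ)).2 ha), sub_self]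
    have c := fun a (ha : a ∈ A) => (conj_mem_iff_of_norm' (h.NS h.gN)).2 ha
    rw [toQ (q := 0) (fun χ hχ => by rw [dot_symm_int (hz μ l χ hχ), hτ χ hχ]; push_cast; rfl)
      ((h.pr hc ((cf_cf1 S).sub l.cf) (h.AS ht) t1).trans (by
        simp only [Pi.add_apply, FT.cjf_apply, k _ ht, k _ (c _ ht), k _ (c _ (c _ ht))]; simp)),
      z1 μ l (Finset.ne_of_mem_erase hμ), τ1]
    simp
  have lν := lJ ν (sJ hν)
  have e1 : ∑ χ ∈ (B0 G).erase (cf1 ⊤), (z ν χ * deg χ : ℚ) = -1 := by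
    rw [toQ (q := 0) (fun χ hχ => by rw [hz ν lν χ hχ, hd χ hχ]; push_cast; ring)
      ((swap (ψ := 0) (f := fun χ => χ 1) fun s hs e => by
        have s1 : s ≠ 1 := fun k => e (by simp [k, lν.one])
        obtain ⟨O, ho, sd⟩ := h.sd1 hc hs s1
        exact h.colz ho sd hs s1).trans (by simp)), z1 ν lν (Finset.ne_of_mem_erase hν), d1]
    simp
  have e3 : ∑ χ ∈ (B0 G).erase (cf1 ⊤), (z ν χ * (τ χ * τ χ / deg χ) : ℚ) = -1 := by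
    rw [toQ (q := 0) (fun χ hχ => by rw [hz ν lν χ hχ, hd χ hχ, hτ χ hχ]; push_cast; ring)
      ((swap (ψ := 0) (f := fun χ => χ t * χ t / χ 1) fun s hs e => h.racnt ht t1 hs fun k => e (by
        rw [Pi.sub_apply, cf1_of_mem hs, lν.mem_cker.1 ((mem_irrK.1 (Finset.mem_of_mem_erase hν)).2 k),
          sub_self])).trans (by simp)), z1 ν lν (Finset.ne_of_mem_erase hν), d1, τ1]
    simp
  obtain ⟨i, hi, j, hj, ne, a, b, a0, b0, hab, hs⟩ := sun' (fun μ => Finset.card_le_three) (by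
    rw [Finset.card_erase_of_mem (cf1_mem_irrK hD.le), card_irrK hD.le dD]; omega) (by simp) hG
  have g3 := hG ν (sJ hν) ν (sJ hν)
  rw [if_pos (by simp)] at g3
  obtain ⟨ea, eb⟩ := hab ν (sJ hν)
  obtain ⟨r, hr, -, -, r1, hf⟩ := third g3 hi hj ne (ea ▸ a0) (eb ▸ b0)
  have e2' := e2 ν hν
  rw [hf, ea, eb] at e1 e2' e3
  have key : ∀ χ ∈ (B0 G).erase (cf1 ⊤), ∀ e : ℤ, e = 1 ∨ e = -1 → (∀ μ ∈ (irrK S D).erase (cf1 S), z μ χ = e) →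
      e * deg χ ≠ 1 ∧ (e * deg χ + 3 * (e * τ χ)) % 16 = 4 ∧
        (D = ⊥ → e * τ χ = 1 ∧ (e * deg χ) % 16 = 1) := fun χ hχ e he k => by
    have b := Finset.mem_of_mem_erase hχ
    have k' : ∀ D, ⁅S, S⁆ ≤ D → (∀ μ ∈ (irrK S D).erase (cf1 S), z μ χ = e) → ∀ μ ∈ irrK S D, μ ≠ cf1 S →
        dot S χ (cf1 S - μ) = e := fun D hD k μ hμ n => by
      rw [hz μ (lin_of_mem_irrK hμ hD) χ b, k μ (Finset.mem_erase.2 ⟨n, hμ⟩)]
    have a1 := avg An dA (k' A dA fun μ hμ => k μ (sJ hμ))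
    rw [h.sumA ht t1 (mem_B0.1 b).1.cf, h.c4, hN, hm χ b, hd χ b, hτ χ b, Nat.cast_mul, mul_assoc] at a1
    norm_cast at a1
    refine ⟨fun c => Finset.ne_of_mem_erase hχ (h.triv (mem_B0.1 b).1 (by
      rw [hd χ b, Nat.cast_eq_one]; rcases he with rfl | rfl <;> omega)), by
      rcases he with rfl | rfl <;> omega, fun c => ?_⟩
    have a2 := avg hD dD (k' D dD k)
    rw [c, coe_bot, sum_fs_single, card_bot, hN, hm χ b, hd χ b, Nat.cast_mul, mul_assoc] at a2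
    norm_cast at a2
    rcases he with rfl | rfl <;> omega
  have ha := (vsq g3 hi).resolve_left (ea ▸ a0)
  have hb := (vsq g3 hj).resolve_left (eb ▸ b0)
  have hw := mul_self_eq_one_iff.1 r1
  rw [ea] at ha
  rw [eb] at hb
  obtain ⟨i1, i2, i3⟩ := key i hi a ha fun μ hμ => (hab μ hμ).1
  obtain ⟨j1, j2, j3⟩ := key j hj b hb fun μ hμ => (hab μ hμ).2
  have nz : ∀ χ ∈ (B0 G).erase (cf1 ⊤), ∀ e : ℤ, e = 1 ∨ e = -1 → e * deg χ ≠ 0 ∧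
      (e * (τ χ * τ χ / deg χ) : ℚ) = (e * τ χ : ℤ) * (e * τ χ : ℤ) / (e * deg χ : ℤ) := fun χ hχ e he => by
    have := (mem_B0.1 (Finset.mem_of_mem_erase hχ)).1.deg_pos
    rcases he with rfl | rfl
    · exact ⟨by omega, by simp⟩
    · exact ⟨by omega, by simp [div_neg]⟩
  rw [(nz i hi a ha).2, (nz j hj b hb).2, (nz r hr _ hw).2] at e3
  norm_cast at e1 e2'
  rcases cD with c | ⟨na, rfl⟩
  · refine i1 (ar16 (i3 c).2 (j3 c).2 (nz r hr _ hw).1 e1 ?_)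
    rw [(i3 c).1, (j3 c).1, show z ν r * τ r = -3 by have := (i3 c).1; have := (j3 c).1; omega] at e3
    rw [← e3]; norm_num
  have d16 : ∀ χ ∈ (B0 G).erase (cf1 ⊤), ∀ e : ℤ, 16 ∣ e * deg χ - e * τ χ := fun χ hχ e => by
    have b := Finset.mem_of_mem_erase hχ
    obtain ⟨n, hn⟩ := h.d16 na ht t1 (mem_B0.1 b).1.ch
    rw [hd χ b, hτ χ b] at hn
    norm_cast at hn
    exact ⟨e * n, by rw [← mul_sub, hn]; push_cast; ring⟩
  have k1 := d16 i hi a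
  have k2 := d16 j hj b
  refine (ar64 (nz i hi a ha).1 (nz j hj b hb).1 (nz r hr _ hw).1 e1 e2' e3 k1 k2 (d16 r hr _) (by omega)
    (by omega) ?_).elim i1 j1
  have l := hs τ (-1) fun μ hμ => by exact_mod_cast e2 μ hμ
  have c := toQ (f := fun χ => τ χ * τ χ) (q := 64) (fun χ hχ => by rw [hτ χ hχ]; simp)
    ((h.col1 hc (h.AS ht) t1 (h.AS ht)).trans (by
      rw [if_pos (IsConj.refl t), inf_eq_left.2 (h.SC1 ht), (h.ctr na).2]; norm_num))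
  rw [τ1] at c
  norm_num at c
  norm_cast at c
  rw [c, show -1 - a * τ i - b * τ j = z ν r * τ r by omega] at l
  rcases ha with rfl | rfl <;> rcases hb with rfl | rfl <;> linarith

end Cfsg.GS.Qx
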