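import Cfsg.Agent.GS.Fin3
import Cfsg.Prelude.Def_QuasithinSetup

/-! The Alperin-Goldschmidt conjugation family inside one maximal `2`-local subgroup. -/

set_option autoImplicit false

namespace Cfsg.GS.Rq

open Subgroup Cfsg.L0 Cfsg.H8 Cfsg.FT Cfsg.BS Cfsg.BS.R Cfsg.GS.T3
open scoped commutatorElement

theorem bender_ab0 {G : Type} [Group G] [Finite G] {T : Subgroup G} (hs : IsSimpleGroup G)
    (hna : ¬ IsMulCommutative G) (hT : IsSyl 2 T ⊤) (ha : Abel T) (h0 : T ≠ ⊥)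
    (hN : ∀ R, R ≤ T → R ≠ ⊥ → 𝒩 R ≤ 𝒩 T) : IsBenderGroup G := by
  obtain ⟨A, a1, -, a2, -, a3⟩ := Fx.exists_min hs hna hT ⟨le_rfl, fun _ _ _ _ e => e⟩ ha h0
  rcases Fx.bender_of (A := Om 2 T) (M := 𝒩 T) hs hT ⟨Om_le _ _, fun x hx g _ e =>
    mem_Om e (conj_sq (ha.mem_Om.1 hx).2 g)⟩ (ha.elem_Om 2) (a3.trans (card_le (a2.le_Om a1)))
    (fun e => (Fx.eq_or hs e.ge).elim h0 fun i =>
      hna ⟨⟨fun x y => ha.comm (i ▸ mem_top x) (i ▸ mem_top y)⟩⟩)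
    (hN _ (Om_le _ _) (Om_ne_bot Nat.prime_two hT.isPGroup h0))
    (fun a h1 h2 => ((cent_zpowers a).ge.trans (cent_le_norm _)).trans
      (hN _ (zpowers_le.2 (Om_le _ _ h1)) (ne_bot_of_mem (mem_zpowers a) h2)))
    (fun z hz => by
      obtain ⟨g, -, e⟩ := hT.exists_conj_mem (mem_top z) ⟨1, (sq z).trans hz.2⟩
      exact ⟨hz.1, g, mem_Om e (conj_sq ((sq z).trans hz.2) g)⟩) with
    ⟨F, _, _, h5, h6, ⟨ψ⟩⟩ | ⟨F, _, _, q, h5, h6, h7, ⟨ψ⟩⟩ | h5
  · obtain ⟨n, -, hn⟩ := FiniteField.card F 2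
    have c : Nat.card (center (Matrix.SpecialLinearGroup (Fin 2) F)) = 1 := by
      rw [H3.card_center_SL2, hn]
      exact (Nat.coprime_self_sub_right (Nat.one_le_two_pow) |>.2 (by simp) :
        Nat.Coprime (2 ^ (n : ℕ)) (2 ^ (n : ℕ) - 1)).coprime_dvd_left (dvd_pow_self 2 n.ne_zero)
    exact .inl ⟨F, _, _, h5, h6, ⟨ψ.trans ((QuotientGroup.quotientMulEquivOfEq
      (card_eq_one.1 c)).trans QuotientGroup.quotientBot).symm⟩⟩
  · obtain ⟨p, _, n, hp, hn⟩ := FiniteField.card' F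
    obtain rfl : 2 = p := (Nat.prime_dvd_prime_iff_eq Nat.prime_two hp).1
      (Nat.prime_two.dvd_of_dvd_pow (hn ▸ h7 ▸ h5.two_dvd.trans (dvd_pow_self q two_ne_zero)))
    obtain ⟨k, -, rfl⟩ := (Nat.dvd_prime_pow hp).1
      (hn ▸ h7 ▸ dvd_pow_self q two_ne_zero : q ∣ 2 ^ (n : ℕ))
    exact .inr (.inl ⟨F, _, _, k, (Nat.pow_le_pow_iff_right one_lt_two).1
      (h6 : 2 ^ 2 ≤ 2 ^ k), h7, ⟨ψ⟩⟩)
  · exact .inr (.inr h5)

variable {G : Type*} [Group G] [Finite G] {T M U : Subgroup G}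

theorem bender_ab [IsSimpleGroup G] (hna : ¬ IsMulCommutative G) (hT : IsSyl 2 T ⊤) (ha : Abel T)
    (h0 : T ≠ ⊥) (hN : ∀ R, R ≤ T → R ≠ ⊥ → 𝒩 R ≤ 𝒩 T) : IsBenderGroup G := by
  have e := (Shrink.mulEquiv.{0} (α := G)).symm
  have := Finite.of_equiv _ e.toEquiv
  have s := hT.map e.toMonoidHom
  rw [map_top_of_surjective _ e.surjective] at s
  rcases bender_ab0 e.symm.isSimpleGroup (comm_congr e.symm hna) s (by
      rintro _ ⟨x, hx, rfl⟩ _ ⟨y, hy, rfl⟩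
      rw [← map_mul, ← map_mul, ha.comm hy hx])
    (by rwa [Ne, map_eq_bot_iff_of_injective _ e.injective]) (fun R a b => by
      obtain ⟨R, rfl⟩ : ∃ R' : Subgroup G, R'.map e.toMonoidHom = R :=
        ⟨_, map_comap_eq_self_of_surjective e.surjective R⟩
      rw [← map_equiv_normalizer_eq, ← map_equiv_normalizer_eq]
      exact map_mono (hN R ((map_le_map_iff_of_injective e.injective).1 a)
        fun i => b (by rw [i, Subgroup.map_bot]))) with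
    ⟨F, _, _, a, b, ⟨f⟩⟩ | ⟨F, _, _, n, a, b, ⟨f⟩⟩ | i
  · exact .inl ⟨F, _, _, a, b, ⟨e.trans f⟩⟩
  · exact .inr (.inl ⟨F, _, _, n, a, b, ⟨e.trans f⟩⟩)
  · exact .inr (.inr (Ux.iso_congr e i))

theorem mem_ag (h0 : U ≠ ⊥) (h1 : U ≤ T) (h2 : IsSyl 2 (T ⊓ 𝒩 U) (⊤ ⊓ 𝒩 U))
    (h3 : CentricRadical 2 T ⊤ U) : U ∈ agConjFamily T := by
  have pU : IsPGroup 2 U := h2.isPGroup.to_le (le_inf h1 (le_norm U))
  have c := npc_centralizer_of_centric h2 ((inf_le_inf_right _ inf_le_left).trans (h3.centric le_top))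
  rw [top_inf_eq] at h2 c
  have o := pPrimeCoreOf_le_centralizer pU (le_norm U) le_rfl
  have n : 𝒩 U ≤ 𝒩 (H7.pPrimeCoreOf 2 (𝒩 U)) := H7.le_normalizer_pPrimeCoreOf _ _
  refine ⟨h0, h1, ⟨h2.toSylow, rfl⟩, ?_, comm_eq_bot_iff'.2 o, ?_⟩ <;> rw [map_pPrimePCore]
  · exact c.le_opMod (cent_le_norm U) (norm_le_norm_cent U)
  · rw [H7.pPrimeCoreOf_def]
    refine le_antisymm (sup_le (by rw [← Op_compl_eq Nat.prime_two]; exact Op_compl_le_opMod _)
      (le_opMod_of_isPGroup (le_norm U) le_rfl pU)) ((h2.opMod_le_sup n).trans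
        (sup_le_sup_left ((inf_le_inf_right _ inf_le_left).trans (h3 _ le_top
          (inf_le_right.trans (self_le_normalizer_opMod n)) ⟨opMod_le _ _ _, fun x hx =>
            (pow_mem_of_mem_opMod n hx).imp fun _ i => o i⟩)) _))

theorem s1847 (hG : GoldSimple) [IsSimpleGroup G] (hna : ¬ IsMulCommutative G) (hQ : IsQTKE G)
    (T : Sylow 2 G) (M : Subgroup G) (hM : maxTwoLocalsContaining (T : Subgroup G) = {M})
    (h : ∀ D ∈ agConjFamily (T : Subgroup G), 𝒩 D ≤ M) :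
    (∀ U : Subgroup G, U ≤ M → M ≤ 𝒩 U → IsPGroup 2 U → IsStronglyClosed U (T : Subgroup G)) ∧
      IsBenderGroup G := by
  have hT := isSyl_sylow T
  obtain ⟨⟨⟨R, r1, r2, r3⟩, -⟩, TM⟩ : M ∈ maxTwoLocalsContaining (T : Subgroup G) := hM ▸ rfl
  have sc : ∀ U : Subgroup G, U ≤ M → M ≤ 𝒩 U → IsPGroup 2 U →
      IsStronglyClosed U (T : Subgroup G) := fun U a b c => by
    have UT := hT.le_of_normalizes c le_top (TM.trans b)
    refine ⟨UT, fun x hx g hg => ?_⟩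
    obtain ⟨m, hm, e⟩ := controls_of_radical (M := M) hT (fun D d1 d2 d3 g _ hg => by
      by_cases i : D = ⊥
      · exact ⟨1, one_mem _, fun x hx => by simp [eq_one_of_mem i hx]⟩
      · exact ⟨g, h D (mem_ag i d1 d2 d3) hg, fun _ _ => rfl⟩) (zpowers x) (zpowers_le.2 (UT hx)) g
      trivial (by rw [cj_zpowers']; exact zpowers_le.2 hg)
    exact e x (mem_zpowers x) ▸ conj_mem_of_norm (b hm) hx
  refine ⟨sc, ?_⟩
  have z := sc (𝒵 R) (inf_le_left.trans (r3 ▸ le_norm R)) (r3 ▸ norm_le_norm_ctr R)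
    (r1.to_le inf_le_left)
  have z0 := ctr_ne_bot (nil_of_pgroup Nat.prime_two r1) r2
  have key : Abel (T : Subgroup G) → IsBenderGroup G := fun ha =>
    bender_ab hna hT ha (ne_bot_of_le z0 z.1) fun D d1 d2 => by
      have n := ha.le_norm d1
      have c := hQ.2.2 _ ⟨D, hT.isPGroup.to_le d1, d2, rfl⟩ ⟨T, n⟩
      have s := hT.mono n le_top
      have e : Op {2} (𝒩 D) = T := le_antisymm (Op_le_syl Nat.prime_two s) fun x hx => by
        rw [Op_single_eq Nat.prime_two]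
        refine ⟨⟨x, n hx⟩, c (mem_cent.2 fun y hy => Subtype.ext (ha.comm (Op_le_syl Nat.prime_two s
          ?_) hx)), rfl⟩
        rw [Op_single_eq Nat.prime_two]
        exact ⟨y, hy, rfl⟩
      exact e ▸ (Op_nrm {2} _).norm
  rcases gold_of_sc hG hna hT z0 (abel_ctr R) z with i | ⟨F, _, _, n, a, hF, i⟩ | i |
    ⟨F, _, _, n, a, hF, i⟩ | ⟨F, _, _, q, rfl, -, hq, ⟨e⟩⟩ | ⟨⟨e⟩⟩
  · exact key fun x hx y hy => comm_of_sq (ree_ab i _ hT.isPGroup) y hy x hx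
  · exact .inl ⟨F, _, _, charP_of_card_eq_prime_pow hF,
      hF ▸ Nat.pow_le_pow_right (n := 2) (i := 2) two_pos (by omega), i⟩
  · exact .inr (.inr i)
  · exact .inr (.inl ⟨F, _, _, n, a, by rw [hF, ← pow_mul, mul_comm, pow_mul]; rfl, i⟩)
  · obtain ⟨k, hk⟩ := IsPGroup.iff_card.1 hT.isPGroup
    refine key (G4.abel_of_card Nat.prime_two hT.isPGroup (hk ▸ Nat.pow_le_pow_right two_pos ?_))
    by_contra! j
    exact not_eight_psl hq (((pow_dvd_pow 2 j).trans (hk ▸ card_subgroup_dvd_card _)).trans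
      (Nat.card_congr e.toEquiv).dvd)
  · obtain ⟨e'⟩ := H4.J1.iso
    have := H4.J1.finite
    let f := (e.trans e'.symm).toMonoidHom
    exact key fun x hx y hy => (e.trans e'.symm).injective (by
      rw [map_mul, map_mul]
      exact comm_of_sq (j1_two _ (hT.isPGroup.map f)) _ (mem_map_of_mem f hy) _
        (mem_map_of_mem f hx))

end Cfsg.GS.Rq
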