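import Cfsg.Agent.GS.T6

/-! Sketch for S2767 (Goldschmidt's theorem on commuting strongly closed subgroups), files
`GS/PF*.lean`. `K_i(H) = ⟨H ∩ conjugates of S_i⟩ = ncl H (S_i^g ∩ T)` (`T ≤ S^g` Sylow in `H`),
`I_i` = conjugates of involutions of `S_i`, `J_i = ⟨I_i⟩`, `O_x = O(C x)`, `Δ(a,b) = O_a ∩ O_b`. -/

set_option autoImplicit false

namespace Cfsg.GS.T4

open Subgroup Cfsg.L0 Cfsg.H8 Cfsg.FT Cfsg.BS Cfsg.BS.R Cfsg.GS.T3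
open scoped commutatorElement

/-- **PF0** (uses `sfg`, `RK2`, `Z*`; not `GoldSimple`). Induction on `|G|`, wlog `O(G) = 1`,
`S_i ≠ 1`. (E) If `[K₁,K₂] ≤ O₂(G)`, then `y^k ∈ S`, `[y,k] ∈ S₂ ∩ [K₁,K₂]`.
(R1) `V = S₁ ∩ O₂(G)` is normal; if `V ≠ 1`, induction in `G/V` gives `[K₁,K₂] ≤ R ∩ C(V) = Z(V)`
(`R/V = O(G/V)`, `K₂ ≤ C(V)`), so `[y,k] ∈ S₂ ∩ V = 1` by (E). So `S_i ∩ O₂(G) = 1`; by `Z*` no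
involution of `S_i` is isolated, `S_i` has a four-group through every involution, and `a b ∉ Z(G)`
(else `a` is isolated). (Q) If `C(K₂) ≠ 1`: in `G/C(K₂)` the images of `S₁`, `S₂` meet trivially
(`x = c y`: `y^k ∈ S ⇒ x^k x⁻¹ = y^k y⁻¹ ∈ S₁ ∩ S₂`, the involution of `⟨y⟩` is isolated in `K₂`),
so `[K₁,K₂] ≤ Z(K₂) ≤ O₂(G)`, done by (E). It suffices to show `[J₁,J₂] = 1`: (Q) for `(S₁, Ω₁ S₂)`,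
then (Q) for `(S₂,S₁)`. For `H < G`, `a ∈ I₁ ∩ H`, `b ∈ I₂ ∩ H`: (P1) `X = [X,a] = [X,b] ≤ H ⇒
X ≤ O(H)`; (P2) `[O_a ∩ H, K₂(H)] ≤ O(H)`; (P3) `O_a ∩ O_b ∩ H ≤ O(H)` (modulo `O(H)` it lies in
`O(C ā) ∩ C(K̄₁K̄₂)`). **Functor**: `E_i ≤ S_i` four-groups, `E = E₁ × E₂`, `И` = `E`-invariant odd
`X` with `C_X(a,b) ≤ Δ(a,b)` for all `a ∈ E₁#`, `b ∈ E₂#`; members in `H ≥ E` lie in `O(H)`. The
largest member in `C(a)` is `[O_a,E₂] C_{Δ(a,b)}(E₂) = [O_a,b] Δ(a,b)` (RK2 for `E₂`, P2, P3). The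
largest member in `C(ab)` is `[Y,a] Δ(a,b)`, `Y = O_{ab}`: (RK3) `C_{[Y,a]}(a) ≤ Δ(a,b)` by
`SFx.complete` for `A = E₁⟨b'⟩`, `φ(x) = [C_Y(x),a] C_{Δ(a,b)}(x)`, `φ(a) = Δ(a,b)` (`φ(x)` is the
largest `A`-invariant `X ≤ C_Y(x)` with `C_X(a) ≤ Δ(a,b)`); here `U = [C_Y(x),a] = [U,a] = [U,b]`; if
`C_Y(x) = C_Y(a'')`, `U ≤ [O_{a''},b]` (P1); same for `b''`; if `x = a''b''`, use RK2 for `E₁` on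
`U` with `D = Δ(a,b) ∩ C(E)` and P1. `sfg`: `W(a,b) = ⟨[O_a,b], [O_b,a], [O_{ab},a], Δ(a,b)⟩` is odd,
`= ⟨θ(x)⟩` for all `a ∈ E₁#`, `b ∈ E₂#`, so (F1) `W(a,b) = W` for all involutions `a ∈ S₁`,
`b ∈ S₂`; `W(s,t)^g = W(s^g,t^g)` for commuting `s ∈ I₁`, `t ∈ I₂`. (D) `s ∈ I₁`, `t ∈ I₂`,
`s t = u ρ` (`2`-part, odd part): `t' = s u = t^w`, `w ∈ ⟨ρ⟩`, commutes with `s` (`⟨s,t'⟩` is a
`2`-group), `[s,t] = ρ² ∈ O_u`, so `ρ ∈ [O_u,s] ≤ W(s,t')`. `P(t) = {W(s,t) : s ∈ I₁ ∩ C(t)}`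
`= W^{C(b)}` for `t = b`. `P(b) = P(b')` for commuting `b, b'` ((D) for `s, b'`, `ρ ∈ [O_b,s]`), so
`W = ⟨C_W(b')⟩` fixes `P(b)`, so in (D) `P(t) = P(t')` is fixed by `s`: `J₁` fixes every `P(t)`.
`P(a) ∩ P(b) = {W}`: if `W' = W(s,b)` is normalized by `a`, conjugate `a` in `N(W') ∩ C(b)` into the
conjugate of `S₁` containing `s`. So `J₁ ∩ J₂ ≤ N(W)`, `W ∩ J₁ ∩ J₂ ≤ O(J₁ ∩ J₂) = 1`, `[s,t] = 1`. -/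
def PF0 : Prop := ∀ (G : Type) [Group G] [Finite G] (S S1 S2 : Subgroup G), IsSyl 2 S ⊤ →
  SC S1 S ⊤ → SC S2 S ⊤ → S1 ≤ 𝒞 S2 → S1 ⊓ S2 = ⊥ → ⁅ncl ⊤ S1, ncl ⊤ S2⁆ ≤ O2 ⊤

/-- **PF**. Induction on `|G|`, `O(G) = 1`, `S₀ = S₁ ∩ S₂ ≠ 1` is abelian, strongly closed,
`J = [K₁,K₂]`. If `V = S₀ ∩ O₂(G) ≠ 1`: `J ≤ K₀ R ∩ C(V) = K₀`. Else (`level3`, K2 `St`) `K₀` is a
direct product of simple Goldschmidt groups, `S₀ = Ω₁(S ∩ K₀)`; `N = ⟨L^G⟩`, `T = S ∩ N`,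
`A = S₀ ∩ N`. For a factor `L`: `T_L = A_L`, or a torus `k` is irreducible without fixed points on
`T_L/A_L` and `T_L` is not abelian (`ty_irr`, `ty_fix`). So `S_i ∩ L` is `A_L` or `T_L`, the same
for all conjugates (`G = N N(T)`). (*) If `S_i ∩ L = A_L` for all `L`, then `S_i ≤ A C(N)`: an
element `t ∈ T` with `t c ∈ S_i`, `c ∈ C(N)`, has `t^k t⁻¹ ∈ A`, so `t² ∈ ⋂ C(L) ∩ N = 1`; in
`N S_i / C(N)` the group `Ā⟨x̄⟩` (`x̄² ∈ N̄`) is abelian, strongly closed in `N̄⟨x̄⟩`, so it lies in `N̄`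
(`level3`). As `[S₁,S₂] = 1`, (*) applies to `S₁`, say, and `T ≤ S₂` or (*) applies to `S₂`. So the
images of `S₁`, `S₂` in `G/N` meet in the image of `S₀`, `J ≤ K₀ R ∩ N C(N) = K₀ C_R(N) = K₀`. -/
def PF : Prop := ∀ (G : Type) [Group G] [Finite G] (S S1 S2 : Subgroup G), IsSyl 2 S ⊤ →
  SC S1 S ⊤ → SC S2 S ⊤ → S1 ≤ 𝒞 S2 → ⁅ncl ⊤ S1, ncl ⊤ S2⁆ ≤ ncl ⊤ (S1 ⊓ S2) ⊔ O2 ⊤

def PF' : Prop := GoldSimple → PF0 → PF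

end Cfsg.GS.T4
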