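import Cfsg.Agent.GS.J2
import Cfsg.Agent.H3.MinSimple
import Cfsg.Agent.H4.J1Id

/-! Normalizers of the Sylow subgroups of orders `7`, `11`, `19` in Janko's first group. -/

set_option autoImplicit false

namespace Cfsg.GS.Vx

open Subgroup Cfsg.L0 Cfsg.H8 Cfsg.GJ Cfsg.H6 Cfsg.H4.J1

theorem j1_aux (s d : List ℕ) {p k o : ℕ} (hp : p.Prime) (ho : Odd (o + 1))
    (h1 : fixB img 8 bs (rp p s) = true) (h2 : fixB img 8 bs (rp (o + 1) d) = true)
    (h3 : fixB img 8 bs (d ++ s ++ rp o d ++ rp k s) = true)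
    (h4 : (inR 8 (rp (k + 1) s) && Nat.blt 0 1463 &&
      !Nat.beq (H6.trF img (rp (k + 1) s) 0) 0) = true) :
    ∃ s d : Grp, orderOf s = p ∧ Odd (orderOf d) ∧ d ∈ normalizer (zpowers s : Set Grp) ∧
      d ∉ centralizer {s} := by
  have := finite
  have : Fact p.Prime := ⟨hp⟩
  have e1 := main.2.2 _ h1
  have e2 := main.2.2 _ h2
  have e3 := main.2.2 _ h3
  have e4 := hφ.ne_one h4
  simp only [evL_append, evL_rp] at e1 e2 e3 e4
  generalize evL ev s = a at *
  generalize evL ev d = b at *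
  have e5 : b * a * b⁻¹ = (a ^ k)⁻¹ := by
    rw [← eq_inv_of_mul_eq_one_left ((pow_succ b o).symm.trans e2)]
    exact eq_inv_of_mul_eq_one_left e3
  refine ⟨a, b, orderOf_eq_prime e1 fun e => e4 (by rw [e, one_pow]),
    ho.of_dvd_nat (orderOf_dvd_of_pow_eq_one e2), mem_normalizer_of_forall ?_, fun e => e4 ?_⟩
  · rintro _ ⟨n, rfl⟩
    simp only []
    rw [← conj_zpow, e5]
    exact zpow_mem (inv_mem (pow_mem (mem_zpowers a) k)) n
  · rw [mem_centralizer_singleton_iff.1 e, mul_inv_cancel_right] at e5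
    rw [pow_succ]; exact mul_eq_one_iff_eq_inv'.2 e5

theorem j1_grp {p : ℕ} (hp : p = 7 ∨ p = 11 ∨ p = 19) :
    ∃ s d : Grp, orderOf s = p ∧ Odd (orderOf d) ∧ d ∈ normalizer (zpowers s : Set Grp) ∧
      d ∉ centralizer {s} := by
  rcases hp with rfl | rfl | rfl
  · exact j1_aux [6] [2] (k := 5) (o := 2) (by norm_num) (by decide) (by decide +kernel)
      (by decide +kernel) (by decide +kernel) (by decide +kernel)
  · exact j1_aux [1, 6, 4, 5] [4, 6, 4, 7] (k := 8) (o := 4) (by norm_num) (by decide)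
      (by decide +kernel) (by decide +kernel) (by decide +kernel) (by decide +kernel)
  · exact j1_aux [3, 4, 6, 6] [6, 4, 6, 1, 4, 7] (k := 12) (o := 2) (by norm_num) (by decide)
      (by decide +kernel) (by decide +kernel) (by decide +kernel) (by decide +kernel)

variable {G : Type} [Group G]

theorem j1_iso (h : Spor.IsoJ1 G) : Nat.card G = 175560 ∧ ∀ p, p = 7 ∨ p = 11 ∨ p = 19 →
    ∃ s d : G, orderOf s = p ∧ Odd (orderOf d) ∧ d ∈ normalizer (zpowers s : Set G) ∧
      d ∉ centralizer {s} := by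
  obtain ⟨e1⟩ := h
  obtain ⟨e2⟩ := iso
  let e := e2.trans e1.symm
  have := finite
  have : Finite G := Finite.of_equiv _ e.toEquiv
  refine ⟨(Nat.card_congr e.toEquiv).symm.trans main.1, fun p hp => ?_⟩
  obtain ⟨s, d, h1, h2, h3, h4⟩ := j1_grp hp
  refine ⟨e s, e d, by rwa [e.orderOf_eq], by rwa [e.orderOf_eq], mem_normalizer_of_forall ?_,
    fun c => h4 (mem_centralizer_singleton_iff.2 (e.injective ?_))⟩
  · rintro _ ⟨n, rfl⟩
    obtain ⟨m, hm⟩ := conj_mem_of_mem_normalizer h3 (zpow_mem (mem_zpowers s) n)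
    exact ⟨m, by simpa using congrArg e hm⟩
  · simpa using mem_centralizer_singleton_iff.1 c

variable {t : G} {L : Subgroup G}

theorem sup_eq (tt : t * t = 1) (cm : ∀ k ∈ L, k * t = t * k)
    (ce : ∀ g, g * t = t * g → g ∈ L ∨ t * g ∈ L) : zpowers t ⊔ L = centralizer {t} := by
  refine le_antisymm (sup_le (zpowers_le.2 (mem_centralizer_singleton_iff.2 rfl))
    fun k hk => mem_centralizer_singleton_iff.2 (cm k hk)) fun g hg => ?_
  rcases ce g (mem_centralizer_singleton_iff.1 hg) with e | e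
  · exact mem_sup_right e
  · rw [← one_mul g, ← tt, mul_assoc]; exact mul_mem_sup (mem_zpowers t) e

theorem exists_equiv (tt : t * t = 1) (tE : t ∉ L) (cm : ∀ k ∈ L, k * t = t * k)
    (ce : ∀ g, g * t = t * g → g ∈ L ∨ t * g ∈ L) :
    Nonempty (centralizer ({t} : Set G) ≃* zpowers t × L) := by
  let φ := (zpowers t).subtype.noncommCoprod L.subtype fun a b => by
    change Commute (a : G) b
    rcases (mem_zp_inv tt).1 a.2 with e | e <;> rw [e]
    exacts [Commute.one_left _, (cm b b.2).symm]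
  have inj : Function.Injective φ := (injective_iff_map_eq_one φ).2 fun ⟨a, b⟩ e => by
    have e1 : (a : G) = (b : G)⁻¹ := eq_inv_of_mul_eq_one_left e
    have e2 : (a : G) = 1 := ((mem_zp_inv tt).1 a.2).resolve_right fun c =>
      tE (c ▸ e1 ▸ L.inv_mem b.2)
    exact Prod.ext (Subtype.ext e2) (Subtype.ext (inv_eq_one.1 (e1.symm.trans e2)))
  have rg : φ.range = centralizer {t} := by
    rw [← sup_eq tt cm ce]
    exact (MonoidHom.noncommCoprod_range _ _ _).trans (by rw [range_subtype, range_subtype])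
  exact ⟨(MulEquiv.subgroupCongr rg).symm.trans (MonoidHom.ofInjective inj).symm⟩

/-- the case `q = 5` -/
theorem j1 [Finite G] (iv : Iv t) (tE : t ∉ L) (cm : ∀ k ∈ L, k * t = t * k)
    (ce : ∀ g, g * t = t * g → g ∈ L ∨ t * g ∈ L) (od : Odd (centralizer {t}).index)
    (one : ∀ s, Iv s → ∃ g, g * t * g⁻¹ = s)
    (iso : ∃ (F : Type) (_ : Field F) (_ : Fintype F), Fintype.card F = 5 ∧
      Nonempty (L ≃* Matrix.ProjectiveSpecialLinearGroup (Fin 2) F)) : Spor.IsoJ1 G := by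
  obtain ⟨F, _, _, q5, ⟨e⟩⟩ := iso
  have : Fact (Nat.Prime 2) := ⟨Nat.prime_two⟩
  have ht : orderOf t = 2 := orderOf_eq_prime ((sq t).trans iv.ss) iv.ne
  obtain ⟨H, ⟨f⟩⟩ := H3.exists_A5_iff.2 (show 5 ∣ Fintype.card F * (Fintype.card F ^ 2 - 1) by
    rw [q5]; decide)
  obtain rfl : H = ⊤ := eq_top_of_card_eq H (by
    rw [Nat.card_congr f.toEquiv, H3.Words.card_A5, H3.card_PSL2_eq_60.2 (Or.inr q5)])
  let e0 := e.trans (topEquiv.symm.trans f)
  have c0 : Nat.card L = 60 := (Nat.card_congr e0.toEquiv).trans H3.Words.card_A5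
  have := e0.isSimpleGroup
  obtain ⟨e3⟩ := exists_equiv iv.ss tE cm ce
  let e1 : zpowers t ≃* Multiplicative (ZMod 2) := mulEquivOfPrimeCardEq (p := 2)
    (by rw [Nat.card_zpowers, ht]) (by simp)
  let e2 := e3.trans (e1.prodCongr e0)
  have two : ∀ N : Subgroup G, N.index ≠ 2 := fun N hN => by
    have := normal_of_index_eq_two hN
    have h1 : L ≤ N := relIndex_eq_one.1 (((Nat.dvd_prime Nat.prime_two).1
      (hN ▸ relIndex_dvd_index_of_normal N L)).resolve_right
        (H4.JC.index_ne_two (P := L) (by omega) _))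
    obtain ⟨s, hs, s2⟩ := exists_orderOf_eq_of_dvd_card (p := 2) (H := L) (by omega)
    obtain ⟨g, hg⟩ := one s ⟨by rw [← sq, ← s2, pow_orderOf_eq_one], by rintro rfl; simp at s2⟩
    have h2 : t ∈ N := by
      have := this.conj_mem' _ (hg ▸ h1 hs) g
      rwa [show g⁻¹ * (g * t * g⁻¹) * g = t by group] at this
    have := index_dvd_of_le (sup_eq iv.ss cm ce ▸ sup_le (zpowers_le.2 h2) h1)
    exact absurd (od.of_dvd_nat this) (by rw [hN]; decide)
  obtain ⟨g, hg⟩ := H4.exists_jc two (by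
    rw [← card_mul_index (centralizer {t}), Nat.card_congr e2.toEquiv, Nat.card_prod,
      H3.Words.card_A5]
    obtain ⟨i, hi⟩ := od
    simp only [hi, Nat.card_eq_fintype_card, Fintype.card_multiplicative, ZMod.card]
    omega) ht e2
  exact hg.isoJ1

theorem j1' [Finite G] (iv : Iv t) (tE : t ∉ L) (cm : ∀ k ∈ L, k * t = t * k)
    (ce : ∀ g, g * t = t * g → g ∈ L ∨ t * g ∈ L) (od : Odd (centralizer {t}).index)
    (one : ∀ s, Iv s → ∃ g, g * t * g⁻¹ = s)
    (iso : ∃ (F : Type) (_ : Field F) (_ : Fintype F), Fintype.card F = 5 ∧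
      Nonempty (L ≃* Matrix.ProjectiveSpecialLinearGroup (Fin 2) F)) :
    Nat.card G = 175560 ∧ ∀ p, p = 7 ∨ p = 11 ∨ p = 19 →
      ∃ s d : G, orderOf s = p ∧ Odd (orderOf d) ∧ d ∈ normalizer (zpowers s : Set G) ∧
        d ∉ centralizer {s} := j1_iso (j1 iv tE cm ce od one iso)

end Cfsg.GS.Vx
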