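import Cfsg.Agent.GS.V1
import Cfsg.Agent.BS.All

/-! Groups with one class of involutions, whose centralizer is `2 × A₄`: the `2`-structure. -/

set_option autoImplicit false
set_option linter.unusedSectionVars false

namespace Cfsg.GS.Vx

open Subgroup Cfsg.L0 Cfsg.H8 Cfsg.FT Cfsg.GJ

set_option synthInstance.maxSize 1000 in
theorem a4_dec : ∀ a b : alternatingGroup (Fin 4), (a * a = 1 → b * b = 1 → a * b = b * a) ∧
    (a * a = 1 ∨ a ^ 3 = 1) ∧ (a ≠ 1 → a ^ 3 = 1 → b * a = a * b → b = 1 ∨ b = a ∨ b = a⁻¹) := by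
  decide +kernel

variable {G : Type} [Group G] {L : Subgroup G} {a b c e g r s t u v w x y z : G}

theorem mem3 (h : x ^ 3 = 1) : y ∈ zpowers x ↔ y = 1 ∨ y = x ∨ y = x⁻¹ := by
  refine ⟨?_, by rintro (rfl | rfl | rfl) <;> simp⟩
  rintro ⟨n, rfl⟩
  have e : x ^ (3 : ℤ) = 1 := by rw [← h]; exact zpow_natCast x 3
  have k (m : ℤ) : x ^ (3 * m) = 1 := by rw [zpow_mul, e, one_zpow]
  obtain ⟨m, rfl | rfl | rfl⟩ : ∃ m, n = 3 * m ∨ n = 3 * m + 1 ∨ n = 3 * m + -1 :=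
    ⟨(n + 1) / 3, by omega⟩
  · exact Or.inl (k m)
  · exact Or.inr (Or.inl (by simp only []; rw [zpow_add, k, one_mul, zpow_one]))
  · exact Or.inr (Or.inr (by simp only []; rw [zpow_add, k, one_mul, zpow_neg_one]))

theorem one_of23 (h : x ^ 3 = 1) (h2 : x * x = 1) : x = 1 := by
  rwa [pow_succ, sq, h2, one_mul] at h

theorem odd3 (h : x ^ 3 = 1) : Odd (orderOf x) :=
  (show Odd 3 by decide).of_dvd_nat (orderOf_dvd_of_pow_eq_one h)

theorem zp3 (h : x ^ 3 = 1) (hy : y ∈ zpowers x) (y1 : y ≠ 1) : x ∈ zpowers y := by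
  rcases (mem3 h).1 hy with e | e | e
  · exact absurd e y1
  · simp [e]
  · simp [e]

theorem pow3_of_mem (h : x ^ 3 = 1) (hy : y ∈ zpowers x) : y ^ 3 = 1 := by
  rcases (mem3 h).1 hy with e | e | e <;> simp [e, h]

/-- the centralizer of `s` looks like `2 × A₄` -/
structure Loc (s : G) : Prop where
  card : ♯(𝒞₁ s) = 24
  od : Odd (𝒞₁ s).index
  s2 : ∀ a b, a * s = s * a → b * s = s * b → a * a = 1 → b * b = 1 → a * b = b * a
  s4 : ∀ g, g * s = s * g → g * g = 1 ∨ g ^ 3 = 1 ∨ (s * g) ^ 3 = 1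
  s6 : ∀ y g, y ≠ 1 → y ^ 3 = 1 → y * s = s * y → g * s = s * g → g * y = y * g →
    g ∈ zpowers y ∨ s * g ∈ zpowers y

theorem Loc.map (h : Loc s) (f : G ≃* G) : Loc (f s) := by
  have e : 𝒞₁ (f s) = (𝒞₁ s).map f.toMonoidHom := by
    ext g
    obtain ⟨g, rfl⟩ := f.surjective g
    rw [mem_cent1, ← map_mul, ← map_mul, f.apply_eq_iff_eq]
    exact mem_cent1.symm.trans (mem_map_iff_mem (f := f.toMonoidHom) f.injective).symm
  refine ⟨by rw [e, card_map_of_injective f.injective, h.card],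
    by rw [e, index_map_of_bijective f.bijective]; exact h.od, fun a b => ?_, fun a => ?_,
    fun a b => ?_⟩
  · obtain ⟨a, rfl⟩ := f.surjective a
    obtain ⟨b, rfl⟩ := f.surjective b
    simpa only [← map_mul, f.apply_eq_iff_eq, f.map_eq_one_iff] using h.s2 a b
  · obtain ⟨a, rfl⟩ := f.surjective a
    simpa only [← map_mul, ← map_pow, f.apply_eq_iff_eq, f.map_eq_one_iff] using h.s4 a
  · obtain ⟨a, rfl⟩ := f.surjective a
    obtain ⟨b, rfl⟩ := f.surjective b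
    have k (c : G) : f c ∈ zpowers (f a) ↔ c ∈ zpowers a :=
      ⟨fun ⟨n, e⟩ => ⟨n, f.injective (by simpa using e)⟩, fun ⟨n, e⟩ => ⟨n, by simp [← e]⟩⟩
    simpa only [← map_mul, ← map_pow, f.apply_eq_iff_eq, f.map_eq_one_iff, Ne, k] using h.s6 a b

theorem loc_of [Finite G] (iv : Iv t) (tE : t ∉ L) (cm : ∀ k ∈ L, k * t = t * k)
    (ce : ∀ g, g * t = t * g → g ∈ L ∨ t * g ∈ L) (od : Odd (𝒞₁ t).index)
    (iso : ∃ (F : Type) (_ : Field F) (_ : Fintype F), Fintype.card F = 3 ∧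
      Nonempty (L ≃* Matrix.ProjectiveSpecialLinearGroup (Fin 2) F)) : Loc t := by
  obtain ⟨F, _, _, q3, ⟨e⟩⟩ := iso
  obtain ⟨H, ⟨f⟩⟩ := H3.exists_A4_odd (F := F) fun c => by
    have := FiniteField.cast_card_eq_zero F
    rw [q3] at this
    exact one_ne_zero (α := F) (by push_cast at this; linear_combination this - c)
  have c := H3.card_PSL2_mul (F := F)
  rw [q3] at c
  obtain rfl : H = ⊤ := eq_top_of_card_eq H (by
    rw [Nat.card_congr f.toEquiv, H3.Words.card_A4]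
    rw [show Nat.gcd 2 (3 - 1) = 2 from rfl] at c
    omega)
  let e0 := e.trans (topEquiv.symm.trans f)
  have k (a b : L) := a4_dec (e0 a) (e0 b)
  simp only [← map_mul, ← map_pow, ← map_inv, e0.apply_eq_iff_eq, e0.map_eq_one_iff, Ne,
    Subtype.ext_iff, coe_mul, coe_one, SubgroupClass.coe_pow, coe_inv, Subtype.forall] at k
  obtain ⟨e3⟩ := exists_equiv iv.ss tE cm ce
  have sq' (g : G) (hg : g * t = t * g) : t * g * (t * g) = g * g := by
    rw [mul_assoc, ← mul_assoc g, hg, mul_assoc, iv.sl]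
  refine ⟨?_, od, fun a b ha hb a2 b2 => ?_, fun g hg => ?_, fun y g y1 y3 hy hg c => ?_⟩
  · rw [Nat.card_congr e3.toEquiv, Nat.card_prod, Nat.card_congr e0.toEquiv, H3.Words.card_A4,
      Nat.card_zpowers, orderOf_eq_prime ((sq t).trans iv.ss) iv.ne]
  · have ha' : Commute t a := ha.symm
    have hb' : Commute t b := hb.symm
    rcases ce a ha with h1 | h1 <;> rcases ce b hb with h2 | h2
    · exact (k a h1 b h2).1 a2 b2
    · have : Commute a (t * b) := (k a h1 _ h2).1 a2 ((sq' b hb).trans b2)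
      simpa [iv.sl] using (ha'.symm.mul_right this).eq
    · have : Commute b (t * a) := (k b h2 _ h1).1 b2 ((sq' a ha).trans a2)
      simpa [iv.sl] using (hb'.symm.mul_right this).eq.symm
    · have : Commute (t * a) (t * b) := (k _ h1 _ h2).1 ((sq' a ha).trans a2) ((sq' b hb).trans b2)
      have h3 := (((Commute.refl t).mul_right hb').mul_left this)
      rw [iv.sl] at h3
      simpa [iv.sl] using (ha'.symm.mul_right h3).eq
  · rcases ce g hg with h1 | h1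
    · exact (k g h1 g h1).2.1.imp_right Or.inl
    · exact (k _ h1 _ h1).2.1.imp (sq' g hg).symm.trans Or.inr
  · have yL : y ∈ L := (ce y hy).elim id fun h1 =>
      mem_of_sq_mem (odd3 y3) (sq' y hy ▸ mul_mem h1 h1)
    refine (ce g hg).imp (fun h1 => (mem3 y3).2 ((k y yL g h1).2.2 y1 y3 c))
      fun h1 => (mem3 y3).2 ((k y yL _ h1).2.2 y1 y3 ?_)
    rw [mul_assoc, c, ← mul_assoc, ← hy, mul_assoc]

variable (G) in
/-- one class of involutions, with centralizer `2 × A₄` -/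
structure Y : Prop where
  loc : ∀ s : G, Iv s → Loc s
  one : ∀ s s' : G, Iv s → Iv s' → ∃ g, g * s * g⁻¹ = s'

theorem y_of (h : Loc t) (one : ∀ s, Iv s → ∃ g, g * t * g⁻¹ = s) : Y G :=
  ⟨fun s hs => by obtain ⟨g, rfl⟩ := one s hs; exact h.map (MulAut.conj g), fun s s' hs hs' => by
    obtain ⟨g, rfl⟩ := one s hs
    obtain ⟨k, rfl⟩ := one s' hs'
    exact ⟨k * g⁻¹, by group⟩⟩

/-- the Sylow `2`-subgroup containing `s` -/
def Loc.A (h : Loc s) : Subgroup G where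
  carrier := {g | g * s = s * g ∧ g * g = 1}
  mul_mem' := fun {a b} ha hb => ⟨Commute.mul_left ha.1 hb.1, by
    rw [mul_assoc, ← mul_assoc b, ← h.s2 a b ha.1 hb.1 ha.2 hb.2, mul_assoc, hb.2, mul_one, ha.2]⟩
  one_mem' := by simp
  inv_mem' := fun {a} ha => by rwa [inv_eq_of_mul_eq_one_right ha.2]

theorem Loc.mem_A (h : Loc s) : g ∈ h.A ↔ g * s = s * g ∧ g * g = 1 := Iff.rfl

theorem Loc.s3 (h : Loc s) (hs : Iv s) (y1 : y ≠ 1) (y3 : y ^ 3 = 1) (hy : y * s = s * y)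
    (ha : a ∈ h.A) (c : a * y = y * a) : a = 1 ∨ a = s :=
  (h.s6 y a y1 y3 hy ha.1 c).imp (fun e => one_of23 (pow3_of_mem y3 e) ha.2) fun e => by
    have := one_of23 (pow3_of_mem y3 e) (mul_mem (⟨rfl, hs.ss⟩ : s ∈ h.A) ha).2
    rw [← hs.sl a, this, mul_one]

namespace Y

variable (h : Y G)
include h

theorem s2 (hs : Iv s) (ha : a * s = s * a) (hb : b * s = s * b) (a2 : a * a = 1)
    (b2 : b * b = 1) : a * b = b * a := (h.loc s hs).s2 a b ha hb a2 b2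

theorem g2 (a2 : a * a = 1) (w2 : w * w = 1) (c : a * (w * a * w) = w * a * w * a) :
    a * w = w * a := by
  have wi := inv_eq_of_mul_eq_one_right w2
  have ai := inv_eq_of_mul_eq_one_right a2
  by_cases e : a * (w * a * w) = 1
  · rw [← mul_assoc, ← mul_assoc, mul_assoc _ a, mul_eq_one_iff_eq_inv, mul_inv_rev, wi, ai] at e
    exact e
  have c' : Commute a (w * a * w) := c
  have k : w * a * w * (w * a * w) = 1 := by nth_rw 2 4 [← wi]; exact conj_sq a2 w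
  refine h.s2 ⟨?_, e⟩ ((Commute.refl a).mul_right c').eq ?_ a2 w2
  · rw [← sq, c'.mul_pow, sq, sq, a2, k, one_mul]
  · nth_rw 2 [c]
    simp only [← mul_assoc, w2, one_mul]

theorem inv1 (ha : Iv a) (c : s * a = a * s) (s2 : s * s = 1) (hy : y * a = a * y)
    (e : s * y * s = y⁻¹) (o : Odd (orderOf y)) : y = 1 := by
  have k : Commute s (y * s * y⁻¹) := h.s2 ha c
    ((Commute.mul_left (Commute.mul_left hy c) (Commute.inv_left hy)).eq) s2 (conj_sq s2 y)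
  have e1 : s * (y * s * y⁻¹) = (y * y)⁻¹ := by rw [← mul_assoc, ← mul_assoc, e, mul_inv_rev]
  have e2 := k.mul_pow 2
  rw [sq s, sq (y * s * y⁻¹), s2, conj_sq s2, e1, one_mul, inv_pow, inv_eq_one, sq] at e2
  exact eq_one_of_odd o (eq_one_of_odd (o.of_dvd_nat (sq y ▸ orderOf_pow_dvd 2)) e2)

theorem braid (t2 : t * t = 1) (a2 : a * a = 1) (b2 : b * b = 1) (c : a * b = b * a)
    (ha : (t * a) ^ 3 = 1) (hb : (t * b) ^ 3 = 1) : a = b := by
  have k (a : G) (a2 : a * a = 1) (ha : (t * a) ^ 3 = 1) : t * a * t = a * t * a := by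
    rw [← mul_inv_eq_one, mul_inv_rev, mul_inv_rev, inv_eq_of_mul_eq_one_right a2,
      inv_eq_of_mul_eq_one_right t2, ← ha]
    simp only [pow_succ, pow_zero, one_mul, mul_assoc]
  have ti := inv_eq_of_mul_eq_one_right t2
  have w2 : t * (a * b) * t * (t * (a * b) * t) = 1 := by
    nth_rw 2 4 [← ti]
    exact conj_sq (by rw [mul_assoc, ← mul_assoc b, ← c, mul_assoc, b2, mul_one, a2]) t
  have e : t * (a * b) * t = a * (t * (a * b) * t) * b := by
    calc _ = t * a * (t * t) * b * t := by rw [t2]; group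
      _ = t * a * t * (t * b * t) := by group
      _ = _ := by rw [k a a2 ha, k b b2 hb]; group
  generalize t * (a * b) * t = w at *
  have e2 : w * a * w = b := by
    calc _ = w * a * (a * w * b) := by rw [← e]
      _ = w * (a * a) * w * b := by group
      _ = _ := by rw [a2, mul_one, w2, one_mul]
  rw [← e2, mul_assoc, h.g2 a2 w2 (by rwa [e2]), ← mul_assoc, w2, one_mul]

variable [Finite G] (ht : Iv t)
include ht

theorem tA : t ∈ (h.loc t ht).A := ⟨rfl, ht.ss⟩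

theorem abA (ha : a ∈ (h.loc t ht).A) (hb : b ∈ (h.loc t ht).A) : a * b = b * a :=
  h.s2 ht ha.1 hb.1 ha.2 hb.2

theorem sylC : IsSyl 2 (h.loc t ht).A (𝒞₁ t) := by
  have : Fact (Nat.Prime 2) := ⟨Nat.prime_two⟩
  refine isSyl_of_maximal (fun g hg => mem_cent1.2 hg.1)
    (isPGroup_iff_forall.2 fun g hg => ⟨1, (sq g).trans hg.2⟩) fun Q q1 q2 q3 g hg => ?_
  have k (y : G) (hy : y ∈ Q) (e : y ^ 3 = 1) : y = 1 :=
    eq_one_of_pElt_of_coprime (isPGroup_iff_forall.1 q1 y hy) (odd_orderOf_iff.1 (odd3 e))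
  rcases (h.loc t ht).s4 g (mem_cent1.1 (q3 hg)) with e | e | e
  · exact ⟨mem_cent1.1 (q3 hg), e⟩
  · exact k g hg e ▸ one_mem _
  · rw [eq_inv_of_mul_eq_one_right (k _ (mul_mem (q2 (h.tA ht)) hg) e)]
    exact inv_mem (h.tA ht)

theorem syl : IsSyl 2 (h.loc t ht).A ⊤ :=
  haveI : Fact (Nat.Prime 2) := ⟨Nat.prime_two⟩
  (h.sylC ht).trans le_top (by rw [relIndex_top_right]; exact (h.loc t ht).od.not_two_dvd_nat)

theorem cardA : ♯(h.loc t ht).A = 8 := by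
  have : Fact (Nat.Prime 2) := ⟨Nat.prime_two⟩
  have k := h.sylC ht
  have e := card_mul_ri k.le
  have n := k.not_dvd
  obtain ⟨m, hm⟩ := k.isPGroup.exists_card_eq
  rw [(h.loc t ht).card] at e
  rw [hm] at e ⊢
  generalize (h.loc t ht).A.relIndex (𝒞₁ t) = i at *
  have : m < 5 := (Nat.pow_lt_pow_iff_right one_lt_two).1
    ((Nat.le_of_dvd (by decide) ⟨i, e.symm⟩).trans_lt (by decide))
  interval_cases m <;> omega

theorem ti (ha : a ∈ (h.loc t ht).A) (a1 : a ≠ 1) (hg : g * a * g⁻¹ ∈ (h.loc t ht).A) :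
    g ∈ 𝒩 (h.loc t ht).A := mem_normalizer_of_forall fun b hb =>
  ⟨h.s2 ((⟨ha.2, a1⟩ : Iv a).conj g) (conj_comm (h.abA ht hb ha) g) hg.1.symm (conj_sq hb.2 g)
    ht.ss, conj_sq hb.2 g⟩

theorem memA (hz : z ∈ 𝒩 (h.loc t ht).A) (z2 : z * z = 1) : z ∈ (h.loc t ht).A :=
  haveI : Fact (Nat.Prime 2) := ⟨Nat.prime_two⟩
  (h.syl ht).mem_of_mem_normalizer (mem_top z) ⟨1, (sq z).trans z2⟩ hz

theorem ncA : {a | a ∈ (h.loc t ht).A ∧ a ≠ 1}.ncard = 7 := by
  have := GW.B.ncard_ne_one (h.loc t ht).A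
  rw [h.cardA ht] at this
  omega

theorem cardN : ♯(𝒩 (h.loc t ht).A) = 168 := by
  have l : 𝒞₁ t ≤ 𝒩 (h.loc t ht).A := fun g hg => h.ti ht (h.tA ht) ht.ne (by
    rw [mem_cent1.1 hg, mul_inv_cancel_right]; exact h.tA ht)
  rw [← card_mul_ri l, (h.loc t ht).card, ← ncard_class, show 168 = 24 * 7 from rfl, ← h.ncA ht]
  congr 2
  ext a
  refine ⟨?_, fun ⟨ha, a1⟩ => ?_⟩
  · rintro ⟨g, hg, rfl⟩
    exact ⟨conj_mem_of_norm hg (h.tA ht), (ht.conj g).ne⟩
  · obtain ⟨g, rfl⟩ := h.one t a ht ⟨ha.2, a1⟩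
    exact ⟨g, h.ti ht (h.tA ht) ht.ne ha, rfl⟩

theorem exV : ∃ v ∈ (h.loc t ht).A, v ≠ 1 ∧ v ≠ t := by
  by_contra! c
  have := Set.ncard_le_ncard (s := {a | a ∈ (h.loc t ht).A ∧ a ≠ 1}) (t := {t})
    fun a ha => c a ha.1 ha.2
  rw [h.ncA ht, Set.ncard_singleton] at this
  omega

theorem centA (hg : g ∈ 𝒞 (h.loc t ht).A) : g ∈ (h.loc t ht).A := by
  obtain ⟨v, hv, v1, vt⟩ := h.exV ht
  have k (y : G) (hy : y ∈ 𝒞 (h.loc t ht).A) (e : y ^ 3 = 1) : y = 1 := by_contra fun y1 =>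
    ((h.loc t ht).s3 ht y1 e (mem_cent.1 hy t (h.tA ht)).symm hv (mem_cent.1 hy v hv)).elim v1 vt
  have c := (mem_cent.1 hg t (h.tA ht)).symm
  rcases (h.loc t ht).s4 g c with e | e | e
  · exact ⟨c, e⟩
  · exact k g hg e ▸ one_mem _
  · rw [eq_inv_of_mul_eq_one_right (k _ (mul_mem (mem_cent.2 fun a ha => ha.1) hg) e)]
    exact inv_mem (h.tA ht)

theorem small (hN : 𝒩 (h.loc t ht).A = ⊤) : Nat.card G = 168 ∧
    ∀ y, Odd (orderOf y) → t * y * t = y⁻¹ → y = 1 := by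
  refine ⟨by rw [← h.cardN ht, hN, card_top], fun y o e => ?_⟩
  have k := mul_mem (h.tA ht) (conj_mem_of_norm (hN.ge (mem_top y)) (h.tA ht))
  rw [← mul_assoc, ← mul_assoc, e, ← mul_inv_rev, inv_mem_iff] at k
  exact eq_one_of_odd o (mem_of_sq_mem o k).2

theorem big (hN : 𝒩 (h.loc t ht).A ≠ ⊤) : Nat.card G = 1512 ∧
    (∀ s, s * s = 1 → s * t ≠ t * s → Odd (orderOf (t * s))) ∧ ∀ s s', Iv s → Iv s' →
      s * t ≠ t * s → s' * t ≠ t * s' → ∃ a ∈ (h.loc t ht).A,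
        a * s * a⁻¹ * s' = s' * (a * s * a⁻¹) := by
  have : Fact (Nat.Prime 2) := ⟨Nat.prime_two⟩
  have tA := h.tA ht
  have sp : H9.SPE 2 (𝒩 (h.loc t ht).A) ⊤ := H9.spe_of_ti le_top hN (by rw [h.cardN ht]; decide)
    fun g _ hd => by
      obtain ⟨x, hx, x2, x1⟩ := exists_inv_of_even (even_iff_two_dvd.2 hd)
      exact inv_mem_iff.1 (h.ti ht (h.memA ht hx.1 x2) x1
        (h.memA ht (by simpa using H7.mem_cj.1 hx.2) (conj_sq x2 _)))
  have core : (𝒩 (h.loc t ht).A).normalCore = ⊥ := by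
    have l := normalCore_le (𝒩 (h.loc t ht).A)
    have n : (𝒩 (h.loc t ht).A).normalCore.Normal := inferInstance
    generalize (𝒩 (h.loc t ht).A).normalCore = K at *
    have k (z : G) (hz : z ∈ K) (z2 : z * z = 1) : z = 1 := by_contra fun z1 =>
      hN (eq_top_iff.2 fun g _ => h.ti ht (h.memA ht (l hz) z2) z1
        (h.memA ht (l (n.conj_mem z hz g)) (conj_sq z2 g)))
    have c := le_cent_of_inf_eq_bot l ((nrm_top_iff.2 n).norm.trans' le_top)
      (eq_bot_iff.2 fun z hz => k z hz.1 hz.2.2)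
    exact eq_bot_iff.2 fun z hz => k z hz (h.centA ht (c hz)).2
  obtain ⟨Q, D, u, b⟩ := BS.bender G _ sp ⟨(h.loc t ht).A, abel_iff.1 fun a ha =>
    mem_cent.2 fun c hc => h.abA ht hc ha, fun a ha => (sq a).trans ha.2, by
      rw [h.cardA ht]; decide⟩ core
  have AQ : (h.loc t ht).A ≤ Q := fun a ha => b.mem_Q_of_sq (le_norm _ ha) ha.2
  obtain rfl : (h.loc t ht).A = Q := le_antisymm AQ fun g hg =>
    h.centA ht (mem_cent.2 fun a ha => b.sq_comm (AQ ha) ha.2 hg)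
  refine ⟨by rw [← card_mul_index (𝒩 (h.loc t ht).A), b.index_H, h.cardN ht, h.cardA ht],
    fun s s2 n => b.odd_mul ⟨tA, ht.ne, ht.ss⟩ (fun c => n (h.memA ht c s2).1) s2,
    fun s s' hs hs' n n' => ?_⟩
  have k (s : G) (hs : Iv s) (n : s * t ≠ t * s) : ∃ a ∈ (h.loc t ht).A, ∃ c ∈ (h.loc t ht).A,
      s = a * u * c * (a * u)⁻¹ := by
    obtain ⟨g, rfl⟩ := h.one t s ht hs
    obtain ⟨a, ha, m, hm, rfl⟩ := b.dec' fun c => n (conj_mem_of_norm c tA).1
    exact ⟨a, ha, _, conj_mem_of_norm hm tA, by group⟩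
  obtain ⟨a, ha, c, hc, rfl⟩ := k s hs n
  obtain ⟨a', ha', c', hc', rfl⟩ := k s' hs' n'
  refine ⟨a' * a⁻¹, mul_mem ha' (inv_mem ha), ?_⟩
  convert conj_comm (h.abA ht hc hc') (a' * u) using 2 <;> group

end Y

end Cfsg.GS.Vx
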