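import Cfsg.Agent.GS.V2

/-! Groups with one class of involutions, whose centralizer is `2 × A₄`: the `3`-structure. -/

set_option autoImplicit false
set_option linter.unusedSectionVars false

namespace Cfsg.GS.Vx

open Subgroup Cfsg.L0 Cfsg.H8 Cfsg.FT Cfsg.GJ

variable {G : Type} [Group G] {L : Subgroup G} {a b c e e' g r s t u v w w' x y z : G}

theorem mem_sup_zp (c : e * x = x * e) :
    g ∈ zpowers x ⊔ zpowers e ↔ ∃ a ∈ zpowers x, ∃ b ∈ zpowers e, a * b = g :=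
  mem_sup_l (le_norm_of_le_cent (by rw [cent_zpowers]; exact zpowers_le.2 (mem_cent1.2 c)))

theorem comm_zp (c : g * e = e * g) (hb : b ∈ zpowers e) : g * b = b * g := by
  obtain ⟨n, rfl⟩ := hb
  exact Commute.zpow_right c n

/-- the elements centralizing `e` and `x` modulo `⟨e⟩` -/
def PP (x e : G) : Subgroup G where
  carrier := {g | g * e = e * g ∧ g * x * g⁻¹ * x⁻¹ ∈ zpowers e}
  mul_mem' := fun {a b} ha hb => ⟨Commute.mul_left ha.1 hb.1, by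
    rw [show a * b * x * (a * b)⁻¹ * x⁻¹ = a * (b * x * b⁻¹ * x⁻¹) * x * a⁻¹ * x⁻¹ by group,
      comm_zp ha.1 hb.2, mul_assoc, mul_assoc, mul_assoc, ← mul_assoc x, ← mul_assoc a,
      ← mul_assoc a]
    exact mul_mem hb.2 ha.2⟩
  one_mem' := by simp
  inv_mem' := fun {a} ha => ⟨Commute.inv_left ha.1, by
    rw [show a⁻¹ * x * a⁻¹⁻¹ * x⁻¹ = a⁻¹ * ((a * x * a⁻¹ * x⁻¹)⁻¹ * a) by group,
      ← comm_zp ha.1 (inv_mem ha.2), inv_mul_cancel_left]
    exact inv_mem ha.2⟩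

theorem pp_of (c : e * x = x * e) (x3 : x ^ 3 = 1) (xe : x ∉ zpowers e) (o : Odd (orderOf g))
    (ge : g * e = e * g) (hg : g * x * g⁻¹ ∈ zpowers x ⊔ zpowers e) : g ∈ PP x e := by
  obtain ⟨a, ha, b, hb, k⟩ := (mem_sup_zp c).1 hg
  have xb := comm_zp c.symm hb
  rcases (mem3 x3).1 ha with rfl | rfl | rfl
  · rw [one_mul, eq_mul_inv_iff_mul_eq, ← comm_zp ge hb, mul_left_cancel_iff] at k
    exact absurd (k ▸ hb) xe
  · exact ⟨ge, by rwa [← k, xb, mul_inv_cancel_right]⟩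
  · refine mem_of_sq_mem o ⟨Commute.mul_left ge ge, ?_⟩
    have : g * g * x * (g * g)⁻¹ = (g * x * g⁻¹)⁻¹ * b := by
      calc _ = g * (g * x * g⁻¹) * g⁻¹ := by group
        _ = g * x⁻¹ * b * g⁻¹ := by rw [← k]; group
        _ = _ := by rw [mul_assoc, (Commute.inv_left (comm_zp ge hb)).symm.eq]; group
    rw [this, ← k, mul_inv_rev, inv_inv, mul_assoc b⁻¹, xb]
    simp

theorem pp_pow (hw : w ∈ PP x e) (n : ℕ) :
    w ^ n * x * (w ^ n)⁻¹ = (w * x * w⁻¹ * x⁻¹) ^ n * x := by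
  induction n with
  | zero => simp
  | succ n ih =>
    have := comm_zp hw.1 (pow_mem hw.2 n)
    calc _ = w * (w ^ n * x * (w ^ n)⁻¹) * w⁻¹ := by rw [pow_succ']; group
      _ = _ := by rw [ih, ← mul_assoc, this, pow_succ]; group

theorem pp_cls (e3 : e ^ 3 = 1) (hw : w ∈ PP x e) (n : w * x ≠ x * w) (hb : b ∈ zpowers e) :
    ∃ g ∈ zpowers w, g * x * g⁻¹ = b * x := by
  have c3 := pow3_of_mem e3 hw.2
  have := zpowers_le.2 (zp3 e3 hw.2 fun k => n (by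
    rwa [mul_inv_eq_one, mul_inv_eq_iff_eq_mul] at k)) hb
  rcases (mem3 c3).1 this with rfl | rfl | rfl
  · exact ⟨1, one_mem _, by simp⟩
  · exact ⟨w, mem_zpowers w, by simp⟩
  · refine ⟨w ^ 2, pow_mem (mem_zpowers w) 2, ?_⟩
    rw [pp_pow hw, eq_inv_of_mul_eq_one_left ((pow_succ _ 2).symm.trans c3)]

/-- the involutions centralizing `x` -/
structure Z (t x z : G) : Prop where
  y : Y G
  ht : Iv t
  x1 : x ≠ 1
  x3 : x ^ 3 = 1
  xt : x * t = t * x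
  z1 : z ≠ 1
  z3 : z ^ 3 = 1
  zx : z * x = x * z
  tz : t * z * t = z⁻¹
  inv : ∀ s, Iv s → s * x = x * s → s = t ∨ s = t * z ∨ s = t * z⁻¹

theorem Y.exists_z [Finite G] (h : Y G) (ht : Iv t) (x1 : x ≠ 1) (x3 : x ^ 3 = 1)
    (xt : x * t = t * x) (hc : 9 ∣ Nat.card G) (g1 : ∀ s s', Iv s → Iv s' →
      s * t ≠ t * s → s' * t ≠ t * s' → ∃ a ∈ (h.loc t ht).A,
        a * s * a⁻¹ * s' = s' * (a * s * a⁻¹)) : ∃ z, Z t x z := by
  have : Fact (Nat.Prime 3) := ⟨Nat.prime_three⟩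
  have ox : orderOf x = 3 := orderOf_eq_prime x3 x1
  obtain ⟨P, hP, xP⟩ := exists_isSyl_ge (isPGroup_zpowers (p := 3) (k := 1) x3) (le_top : _ ≤ ⊤)
  obtain ⟨g, gP, gN, gx⟩ := exists_mem_normalizer_not_mem hP.isPGroup xP fun e => hP.not_dvd (by
    rw [← card_top, ← card_mul_ri hP.le, ← e, card_zpow, ox] at hc
    rw [← e]; omega)
  have o : Odd (orderOf g) := by
    obtain ⟨k, hk⟩ := isPGroup_iff_forall.1 hP.isPGroup g gP
    exact (Odd.pow (by decide)).of_dvd_nat (orderOf_dvd_of_pow_eq_one hk)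
  have c : g * x = x * g := by
    rcases (mem3 x3).1 (conj_mem_of_norm gN (mem_zpowers x)) with e | e | e
    · exact absurd (conj_eq_one_iff.1 e) x1
    · exact mul_inv_eq_iff_eq_mul.1 e
    · exact absurd (eq_one_of_odd_inverts o (odd3 x3) e) x1
  have n : g * t * g⁻¹ ≠ t := fun e => by
    have e' := mul_inv_eq_iff_eq_mul.1 e
    rcases (h.loc t ht).s6 x g x1 x3 xt e' c with k | k
    · exact gx k
    · refine gx (mem_of_sq_mem o ?_)
      have := mul_mem k k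
      rwa [mul_assoc, ← mul_assoc g, e', mul_assoc, ht.sl] at this
  have c1 : g * t * g⁻¹ * x = x * (g * t * g⁻¹) :=
    Commute.mul_left (Commute.mul_left c xt.symm) (Commute.inv_left c)
  have i1 := ht.conj g
  generalize g * t * g⁻¹ = s at *
  have k1 {t s : G} (ht : Iv t) (hs : Iv s) (xt : x * t = t * x) (c : s * x = x * s)
      (e : s * t = t * s) : s = t :=
    ((h.loc t ht).s3 ht x1 x3 xt ⟨e, hs.ss⟩ c).resolve_left hs.ne
  have ct (s : G) (hs : Iv s) : Iv (t * s * t) := by simpa [ht.inv] using hs.conj t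
  have cx (s : G) (c : s * x = x * s) : t * s * t * x = x * (t * s * t) :=
    Commute.mul_left (Commute.mul_left xt.symm c) xt.symm
  have key (r : G) (hr : Iv r) (c : r * x = x * r) : r = t ∨ r = s ∨ r = t * s * t := by
    refine or_iff_not_imp_left.2 fun rt => ?_
    have nr : r * t ≠ t * r := fun e => rt (k1 ht hr xt c e)
    obtain ⟨a, ha, e⟩ := g1 r s hr i1 nr fun e => n (k1 ht i1 xt c1 e)
    have hb : x * a * x⁻¹ ∈ (h.loc t ht).A :=
      ⟨Commute.mul_left (Commute.mul_left xt ha.1) (Commute.inv_left xt), conj_sq ha.2 x⟩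
    have e2 := conj_comm e x
    rw [show x * (a * r * a⁻¹) * x⁻¹ = x * a * x⁻¹ * (x * r * x⁻¹) * (x * a * x⁻¹)⁻¹ by group,
      ← c, ← c1, mul_inv_cancel_right, mul_inv_cancel_right] at e2
    have e3 := conj_comm (h.s2 i1 e e2 (conj_sq hr.ss _) (conj_sq hr.ss _)) a⁻¹
    have hd := mul_mem (inv_mem ha) hb
    have e4 : a⁻¹ * (x * a * x⁻¹) = 1 := by_contra fun d1 => nr (by
      refine h.s2 ⟨hd.2, d1⟩ (h.g2 hr.ss hd.2 ?_) hd.1.symm hr.ss ht.ss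
      nth_rw 2 4 [← inv_eq_of_mul_eq_one_right hd.2]
      convert e3 using 2 <;> group)
    rw [inv_mul_eq_one, eq_mul_inv_iff_mul_eq] at e4
    rcases (h.loc t ht).s3 ht x1 x3 xt ha e4 with rfl | rfl
    · exact Or.inl (k1 i1 hr c1.symm c (by simpa using e))
    · rw [ht.inv] at e
      rw [← k1 i1 (ct r hr) c1.symm (cx r c) e]
      simp [mul_assoc, ht.ss, ht.sl]
  have br : s * t * s = t * s * t := by
    rcases key (s * t * s) (by simpa [i1.inv] using ht.conj s)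
      (Commute.mul_left (Commute.mul_left c1 xt.symm) c1) with e | e | e
    · refine absurd (k1 ht i1 xt c1 ?_) n
      nth_rw 1 [← e]
      rw [mul_assoc s, i1.sl]
    · exact absurd (by rw [← i1.sl t, mul_eq_right.1 e, mul_one]) n
    · exact e
  refine ⟨t * s, h, ht, x1, x3, xt, fun e => n (by rw [← ht.sl s, e, mul_one]), ?_,
    Commute.mul_left xt.symm c1, by rw [ht.sl, mul_inv_rev, i1.inv, ht.inv], fun r hr c => ?_⟩
  · calc _ = t * (s * t * s) * t * s := by simp only [pow_succ, pow_zero, one_mul, mul_assoc]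
      _ = 1 := by rw [br]; simp [mul_assoc, ht.sl, i1.ss]
  · rw [ht.sl, mul_inv_rev, i1.inv, ht.inv, ← mul_assoc]
    exact key r hr c

namespace Z

variable (h : Z t x z)
include h

theorem ne_inv (e3 : e ^ 3 = 1) (k : e = e⁻¹) : e = 1 := one_of23 e3 (mul_eq_one_iff_eq_inv.2 k)

theorem j1 (o : Odd (orderOf y)) (ty : t * y * t = y⁻¹) (c : y * x = x * y) : y ∈ zpowers z := by
  have := h.inv (t * y) ⟨by rw [← mul_assoc, ty, inv_mul_cancel], fun e => h.ht.ne (by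
    rw [eq_inv_of_mul_eq_one_left e, inv_eq_one]
    exact eq_one_of_odd o (by
      rw [eq_inv_of_mul_eq_one_right e, h.ht.inv, h.ht.ss]))⟩ (Commute.mul_left h.xt.symm c)
  simpa only [mul_eq_left, mul_left_cancel_iff, mem3 h.z3] using this

theorem tb (hb : b ∈ zpowers z) : t * b * t = b⁻¹ := by
  rcases (mem3 h.z3).1 hb with rfl | rfl | rfl
  · simpa using h.ht.ss
  · exact h.tz
  · rw [← h.tz, inv_inj.2 h.tz]; simp [mul_assoc, h.ht.sl, h.ht.ss]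

theorem xz (ha : a ∈ zpowers x) (hb : a ∈ zpowers z) : a = 1 :=
  h.ne_inv (pow3_of_mem h.x3 ha) (by
    rw [← h.tb hb, comm_zp h.xt.symm ha, mul_assoc, h.ht.ss, mul_one])

theorem Ex (he : e ∈ zpowers x ⊔ zpowers z) : e * x = x * e := by
  obtain ⟨a, ha, b, hb, rfl⟩ := (mem_sup_zp h.zx).1 he
  exact Commute.mul_left (comm_zp rfl ha).symm (comm_zp h.zx.symm hb).symm

theorem Ez (he : e ∈ zpowers x ⊔ zpowers z) : e * z = z * e := by
  obtain ⟨a, ha, b, hb, rfl⟩ := (mem_sup_zp h.zx).1 he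
  exact Commute.mul_left (comm_zp h.zx ha).symm (comm_zp rfl hb).symm

theorem E3 (he : e ∈ zpowers x ⊔ zpowers z) : e ^ 3 = 1 := by
  obtain ⟨a, ha, b, hb, rfl⟩ := (mem_sup_zp h.zx).1 he
  rw [Commute.mul_pow (comm_zp (comm_zp h.zx ha).symm hb), pow3_of_mem h.x3 ha,
    pow3_of_mem h.z3 hb, one_mul]

theorem tE (he : e ∈ zpowers x ⊔ zpowers z) : t * e * t ∈ zpowers x ⊔ zpowers z := by
  obtain ⟨a, ha, b, hb, rfl⟩ := (mem_sup_zp h.zx).1 he
  rw [← mul_assoc, comm_zp h.xt.symm ha, mul_assoc, mul_assoc, ← mul_assoc t, h.tb hb]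
  exact mul_mem_sup ha (inv_mem hb)

theorem cx (c : g * x = x * g) : g ∈ zpowers x ⊔ zpowers z ∨ t * g ∈ zpowers x ⊔ zpowers z := by
  have zz : z⁻¹ * z⁻¹ = z := by
    rw [← mul_inv_rev, inv_eq_iff_mul_eq_one, ← sq, ← pow_succ, h.z3]
  have tz (b : G) (hb : b ∈ zpowers z) : b * t * b⁻¹ = t * (b⁻¹ * b⁻¹) := by
    calc _ = t * (t * b * t) * b⁻¹ := by simp [mul_assoc, h.ht.sl]
      _ = _ := by rw [h.tb hb, mul_assoc]
  obtain ⟨b, hb, e⟩ : ∃ b ∈ zpowers z, b * t * b⁻¹ = g * t * g⁻¹ := by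
    rcases h.inv _ (h.ht.conj g) (Commute.mul_left (Commute.mul_left c h.xt.symm)
      (Commute.inv_left c)) with e | e | e <;> rw [e]
    · exact ⟨1, one_mem _, by simp⟩
    · exact ⟨z, mem_zpowers z, by rw [tz z (mem_zpowers z), zz]⟩
    · exact ⟨z⁻¹, by simp, by rw [tz z⁻¹ (by simp), ← mul_inv_rev, zz]⟩
  have bE : b ∈ zpowers x ⊔ zpowers z := mem_sup_right hb
  refine ((h.y.loc t h.ht).s6 x (b⁻¹ * g) h.x1 h.x3 h.xt (by
    calc _ = b⁻¹ * (g * t * g⁻¹) * g := by group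
      _ = _ := by rw [← e]; group)
    (Commute.mul_left (Commute.inv_left (h.Ex bE)) c)).imp (fun k => ?_) fun k => ?_
  · simpa using mul_mem bE (mem_sup_left k)
  · have := mul_mem (inv_mem bE) (mem_sup_left k)
    rwa [← h.tb hb, ← mul_assoc, ← mul_assoc, mul_assoc _ t t, h.ht.ss, mul_one, h.tb hb,
      mul_inv_cancel_right] at this

theorem cxo (c : g * x = x * g) (o : Odd (orderOf g)) : g ∈ zpowers x ⊔ zpowers z :=
  (h.cx c).elim id fun k => mem_of_sq_mem o (by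
    have := mul_mem (h.tE k) k
    rwa [h.ht.sl, mul_assoc, h.ht.sl] at this)

theorem cxz (c : g * x = x * g) (d : g * z = z * g) : g ∈ zpowers x ⊔ zpowers z :=
  (h.cx c).elim id fun k => absurd (h.ne_inv h.z3 (by
    have : t * z = z * t := by simpa using (Commute.mul_left (h.Ez k) (Commute.inv_left d)).eq
    rw [← h.tz, this, mul_assoc, h.ht.ss, mul_one])) h.z1

end Z

/-- `e` is centralized by an element `w` of odd order in `N(E) - E` -/
structure Sp (E : Subgroup G) (e w : G) : Prop where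
  eE : e ∈ E
  e1 : e ≠ 1
  wN : w ∈ 𝒩 E
  wE : w ∉ E
  o : Odd (orderOf w)
  c : w * e = e * w

theorem Sp.conj {E : Subgroup G} (k : Sp E e w) (hg : g ∈ 𝒩 E) :
    Sp E (g * e * g⁻¹) (g * w * g⁻¹) :=
  ⟨conj_mem_of_norm hg k.eE, by simpa using k.e1, mul_mem (mul_mem hg k.wN) (inv_mem hg),
    fun c => k.wE (by simpa [mul_assoc] using conj_mem_of_norm' hg c),
    ((MulAut.conj g).orderOf_eq w).symm.subst (motive := Odd) k.o, conj_comm k.c g⟩

namespace Z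

variable (h : Z t x z)
include h

theorem sp_x (k : Sp (zpowers x ⊔ zpowers z) e w) : w * x ≠ x * w := fun c => k.wE (h.cxo c k.o)

theorem sp_eq (k : Sp (zpowers x ⊔ zpowers z) e w) :
    zpowers x ⊔ zpowers z = zpowers x ⊔ zpowers e := by
  refine le_antisymm (sup_le le_sup_left (zpowers_le.2 ?_))
    (sup_le le_sup_left (zpowers_le.2 k.eE))
  obtain ⟨a, ha, b, hb, e1⟩ := (mem_sup_zp h.zx).1 k.eE
  refine zpowers_le.2 ?_ (zp3 h.z3 hb fun b1 => h.sp_x k (comm_zp k.c (zp3 h.x3 ?_ k.e1)))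
  · rw [eq_inv_mul_of_mul_eq e1]
    exact mul_mem_sup (inv_mem ha) (mem_zpowers e)
  · rwa [← e1, b1, mul_one]

theorem sp_pp (k : Sp (zpowers x ⊔ zpowers z) e w) : w ∈ PP x e :=
  pp_of (h.Ex k.eE) h.x3 (fun c => h.sp_x k (comm_zp k.c c)) k.o k.c
    (h.sp_eq k ▸ conj_mem_of_norm k.wN (mem_sup_left (mem_zpowers x)))

theorem sp_uniq (k : Sp (zpowers x ⊔ zpowers z) e w) (k' : Sp (zpowers x ⊔ zpowers z) e' w') :
    e' ∈ zpowers e := by
  obtain ⟨a, ha, b, hb, e1⟩ := (mem_sup_zp (h.Ex k.eE)).1 (h.sp_eq k ▸ k'.eE)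
  have f (b : G) (hb : b ∈ zpowers e) (c : w' * (b * x) = b * x * w') : False := by
    obtain ⟨g, hg, e2⟩ := pp_cls (h.E3 k.eE) (h.sp_pp k) (h.sp_x k) hb
    refine h.sp_x (k'.conj (inv_mem (zpowers_le.2 k.wN hg))) ?_
    convert conj_comm c g⁻¹ using 2 <;> rw [← e2] <;> group
  rcases (mem3 h.x3).1 ha with rfl | rfl | rfl
  · rwa [← e1, one_mul]
  · exact (f b hb (by rw [← comm_zp (h.Ex k.eE).symm hb, e1, k'.c])).elim
  · refine (f b⁻¹ (inv_mem hb) ?_).elim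
    rw [show b⁻¹ * x = e'⁻¹ by rw [← e1]; group]
    exact Commute.inv_right k'.c

variable [Finite G]

theorem tN : t ∈ 𝒩 (zpowers x ⊔ zpowers z) :=
  mem_normalizer_of_forall fun e he => h.ht.inv.symm ▸ h.tE he

theorem sp_z (k : Sp (zpowers x ⊔ zpowers z) e w) : e ∈ zpowers z := by
  have e3 := h.E3 k.eE
  have := h.sp_uniq k (k.conj h.tN)
  rw [h.ht.inv] at this
  rcases (mem3 e3).1 this with c | c | c
  · exact absurd (by rw [← h.ht.sl e, eq_inv_of_mul_eq_one_left c, mul_inv_cancel]) k.e1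
  · have c' : e * t = t * e := by nth_rw 1 [← c]; rw [mul_assoc, h.ht.ss, mul_one]
    refine (h.sp_x k (comm_zp k.c (zp3 h.x3 ?_ k.e1))).elim
    refine ((h.y.loc t h.ht).s6 x e h.x1 h.x3 h.xt c' (h.Ex k.eE)).elim id fun d =>
      mem_of_sq_mem (odd3 e3) ?_
    have := mul_mem d d
    rwa [← mul_assoc, c] at this
  · exact h.j1 (odd3 e3) c (h.Ex k.eE)

theorem exists_sp (hc : 27 ∣ Nat.card G) : ∃ w, Sp (zpowers x ⊔ zpowers z) z w := by
  have : Fact (Nat.Prime 3) := ⟨Nat.prime_three⟩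
  have pE : IsPGroup 3 ↥(zpowers x ⊔ zpowers z) := isPGroup_iff_forall.2 fun e he => ⟨1, h.E3 he⟩
  obtain ⟨P, hP, xP⟩ := exists_isSyl_ge pE (le_top : _ ≤ ⊤)
  obtain ⟨w, wP, wN, wE⟩ := exists_mem_normalizer_not_mem hP.isPGroup xP fun e => hP.not_dvd (by
    have := card_sup_dvd (N := zpowers x) (H := zpowers z)
      (le_norm_of_le_cent (by rw [cent_zpowers]; exact zpowers_le.2 (mem_cent1.2 h.zx)))
    rw [e, card_zpow, card_zpow, orderOf_eq_prime h.x3 h.x1, orderOf_eq_prime h.z3 h.z1] at this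
    rw [← card_top, ← card_mul_ri hP.le] at hc
    exact Nat.dvd_of_mul_dvd_mul_left (by decide : 0 < 3 * 3)
      (hc.trans (Nat.mul_dvd_mul_right this _)))
  obtain ⟨n, hn⟩ := isPGroup_iff_forall.1 hP.isPGroup w wP
  obtain ⟨e, he, e1⟩ := exists_ne_one (inf_cent_ne_bot_of_pgroup Nat.prime_three
    (isPGroup_zpowers hn) pE (zpowers_le.2 wN) (ne_bot_of_mem (mem_sup_left (mem_zpowers x)) h.x1))
  have k : Sp _ e w := ⟨he.1, e1, wN, wE,
    (Odd.pow (by decide)).of_dvd_nat (orderOf_dvd_of_pow_eq_one hn), he.2 w (mem_zpowers w)⟩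
  exact ⟨w, mem_sup_right (mem_zpowers z), h.z1, wN, wE, k.o,
    comm_zp k.c (zp3 h.z3 (h.sp_z k) e1)⟩

theorem t_pp (hw : w ∈ PP x z) : t * w * t ∈ PP x z ∧
    t * w * t * x * (t * w * t)⁻¹ * x⁻¹ = (w * x * w⁻¹ * x⁻¹)⁻¹ := by
  have e : t * w * t * x * (t * w * t)⁻¹ * x⁻¹ = (w * x * w⁻¹ * x⁻¹)⁻¹ := by
    have e1 : t * x * t = x := by rw [← h.xt, mul_assoc, h.ht.ss, mul_one]
    rw [← h.tb hw.2, mul_inv_rev, mul_inv_rev, h.ht.inv]
    calc _ = t * w * (t * x * t) * w⁻¹ * (t * x⁻¹) := by group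
      _ = _ := by rw [e1, ← (Commute.inv_left h.xt).eq]; group
  refine ⟨⟨?_, e ▸ inv_mem hw.2⟩, e⟩
  have := conj_comm (Commute.inv_right hw.1).eq t
  rwa [h.ht.inv, h.tb (inv_mem (mem_zpowers z)), inv_inv] at this

theorem exists_s (hc : 27 ∣ Nat.card G) : ∃ s w, Sp (zpowers x ⊔ zpowers z) z w ∧ s ∈ PP x z ∧
    t * s * t = s⁻¹ ∧ s * x ≠ x * s := by
  obtain ⟨w, k⟩ := h.exists_sp hc
  have p := h.sp_pp k
  obtain ⟨p1, p2⟩ := h.t_pp p
  refine ⟨w⁻¹ * (t * w * t), w, k, mul_mem (inv_mem p) p1,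
    by simp [mul_assoc, h.ht.inv, h.ht.ss], fun c => h.sp_x k ?_⟩
  have : t * w * t * x * (t * w * t)⁻¹ = w * x * w⁻¹ := by
    calc _ = w * (w⁻¹ * (t * w * t) * x) * (t * w * t)⁻¹ := by group
      _ = _ := by rw [c]; group
  rw [this] at p2
  have := h.ne_inv (pow3_of_mem h.z3 p.2) p2
  rwa [mul_inv_eq_one, mul_inv_eq_iff_eq_mul] at this

theorem s3 (p : s ∈ PP x z) : s ^ 3 * x = x * s ^ 3 := by
  have := pp_pow p 3
  rwa [pow3_of_mem h.z3 p.2, one_mul, mul_inv_eq_iff_eq_mul] at this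

theorem s9 (p : s ∈ PP x z) : (s ^ 3) ^ 3 = 1 := h.E3 (h.cxz (h.s3 p) (pow_mem p 3).1)

theorem jT (k : Sp (zpowers x ⊔ zpowers z) z w) (p : s ∈ PP x z) (ts : t * s * t = s⁻¹)
    (n : s * x ≠ x * s) (o : Odd (orderOf y)) (ty : t * y * t = y⁻¹)
    (hy : y ∈ 𝒩 (zpowers x ⊔ zpowers z)) : y ∈ zpowers s ⊔ zpowers z := by
  have c : y * z = z * y := by
    rcases (mem3 h.z3).1 (h.sp_z (k.conj hy)) with e | e | e
    · exact absurd (conj_eq_one_iff.1 e) h.z1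
    · exact mul_inv_eq_iff_eq_mul.1 e
    · exact absurd (eq_one_of_odd_inverts o (odd3 h.z3) e) h.z1
  have q := pp_of h.zx h.x3 (fun c => h.x1 (h.xz (mem_zpowers x) c)) o c
    (conj_mem_of_norm hy (mem_sup_left (mem_zpowers x)))
  obtain ⟨g, hg, e⟩ := pp_cls h.z3 p n q.2
  have gp := zpowers_le.2 p hg
  obtain ⟨a, ha, b, hb, e1⟩ := (mem_sup_zp h.zx).1 (h.cxz (g := g⁻¹ * y) (by
    calc _ = g⁻¹ * (y * x * y⁻¹ * x⁻¹ * x) * y := by group
      _ = _ := by rw [← e]; group) (mul_mem (inv_mem gp) q).1)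
  obtain rfl : y = g * a * b := by rw [mul_assoc, e1, mul_inv_cancel_left]
  have tg : t * g * t = g⁻¹ := by
    obtain ⟨m, rfl⟩ := hg
    nth_rw 2 [← h.ht.inv]
    simp only []
    rw [← conj_zpow, h.ht.inv, ts, inv_zpow]
  have e2 : g⁻¹ * a * b⁻¹ = (g * a * b)⁻¹ := by
    rw [← ty, ← tg, ← h.tb hb, mul_assoc _ t, comm_zp h.xt.symm ha]
    simp [mul_assoc, h.ht.sl]
  have e3 : g * a⁻¹ * g⁻¹ = a := by
    have ab : Commute a b := comm_zp (comm_zp h.zx ha).symm hb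
    have gb : Commute g b := comm_zp gp.1 hb
    rw [(gb.inv_inv.mul_left ab.inv_right).eq, mul_inv_rev, mul_left_cancel_iff] at e2
    rw [mul_assoc, ← mul_inv_rev, ← e2, mul_inv_cancel_left]
  have a1 : a = 1 := by
    have f (e : g * x⁻¹ * g⁻¹ = x) : x = 1 := one_of23 h.x3 (h.xz (mul_mem (by simp) (by simp)) (by
      have := inv_mem gp.2
      rwa [show (g * x * g⁻¹ * x⁻¹)⁻¹ = x * (g * x⁻¹ * g⁻¹) by group, e] at this))
    rcases (mem3 h.x3).1 ha with rfl | rfl | rfl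
    · rfl
    · exact f e3
    · rw [f ((show g * x⁻¹ * g⁻¹ = (g * x⁻¹⁻¹ * g⁻¹)⁻¹ by group).trans (by rw [e3, inv_inv])),
        inv_one]
  rw [a1, mul_one]
  exact mul_mem_sup hg hb

theorem s3_ne (k : Sp (zpowers x ⊔ zpowers z) z w) (p : s ∈ PP x z) (ts : t * s * t = s⁻¹)
    (n : s * x ≠ x * s) (g1 : ∀ s s', Iv s → Iv s' → s * t ≠ t * s → s' * t ≠ t * s' →
      ∃ a ∈ (h.y.loc t h.ht).A, a * s * a⁻¹ * s' = s' * (a * s * a⁻¹)) : s ^ 3 ≠ 1 := by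
  intro s3
  have : Fact (Nat.Prime 3) := ⟨Nat.prime_three⟩
  have s1 : s ≠ 1 := by rintro rfl; simp at n
  have cT : ♯(zpowers s ⊔ zpowers z) = 9 := by
    rw [card_sup_of_inf (le_norm_of_le_cent (by
      rw [cent_zpowers]; exact zpowers_le.2 (mem_cent1.2 p.1.symm))) (eq_bot_iff.2 fun a ha =>
        by_contra fun a1 => n (comm_zp h.zx.symm (zpowers_le.2 ha.2 (zp3 s3 ha.1 a1))).symm),
      card_zpow, card_zpow, orderOf_eq_prime s3 s1, orderOf_eq_prime h.z3 h.z1]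
  have hT (y : G) (hy : y ∈ zpowers s ⊔ zpowers z) : y ^ 3 = 1 ∧ t * y * t = y⁻¹ ∧ y * z = z * y := by
    obtain ⟨a, ha, b, hb, rfl⟩ := (mem_sup_zp p.1.symm).1 hy
    have az := (comm_zp p.1.symm ha).symm
    have ab : Commute a b := comm_zp az hb
    have ta : t * a * t = a⁻¹ := by
      rcases (mem3 s3).1 ha with rfl | rfl | rfl
      · simpa using h.ht.ss
      · exact ts
      · rw [← ts, inv_inj.2 ts]; simp [mul_assoc, h.ht.sl, h.ht.ss]
    refine ⟨by rw [ab.mul_pow, pow3_of_mem s3 ha, pow3_of_mem h.z3 hb, one_mul], ?_,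
      Commute.mul_left az (comm_zp rfl hb).symm⟩
    rw [ab.inv, ← ta, ← h.tb hb]
    simp [mul_assoc, h.ht.sl]
  have hJ (y : G) (hy : y ≠ 1 ∧ y ^ 3 = 1 ∧ t * y * t = y⁻¹) :
      Iv (t * y) ∧ t * y * t ≠ t * (t * y) :=
    ⟨⟨by rw [← mul_assoc, hy.2.2, inv_mul_cancel], fun e => hy.1 (one_of23 hy.2.1 (by
      rw [eq_inv_of_mul_eq_one_right e, h.ht.inv, h.ht.ss]))⟩,
      fun e => hy.1 (h.ne_inv hy.2.1 (by rw [← hy.2.2, e, h.ht.sl]))⟩
  have jz := hJ z ⟨h.z1, h.z3, h.tz⟩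
  have : ∀ y, ∃ a, y ≠ 1 ∧ y ^ 3 = 1 ∧ t * y * t = y⁻¹ → a ∈ (h.y.loc t h.ht).A ∧
      a * (t * y) * a⁻¹ * (t * z) = t * z * (a * (t * y) * a⁻¹) := fun y => by
    by_cases hy : y ≠ 1 ∧ y ^ 3 = 1 ∧ t * y * t = y⁻¹
    · obtain ⟨a, ha⟩ := g1 _ _ (hJ y hy).1 jz.1 (hJ y hy).2 jz.2
      exact ⟨a, fun _ => ha⟩
    · exact ⟨1, fun c => absurd c hy⟩
  choose f hf using this
  have le := Set.ncard_le_ncard_of_injOn (s := {y | y ≠ 1 ∧ y ^ 3 = 1 ∧ t * y * t = y⁻¹})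
    (t := (h.y.loc t h.ht).A) f (fun y hy => (hf y hy).1) (fun y hy y' hy' e => by
      have := conj_comm (h.y.s2 jz.1 (hf y hy).2 (e ▸ (hf y' hy').2) (conj_sq (hJ y hy).1.ss _)
        (conj_sq (hJ y' hy').1.ss _)) (f y)⁻¹
      exact mul_left_cancel (h.y.braid h.ht.ss (hJ y hy).1.ss (hJ y' hy').1.ss
        (by convert this using 2 <;> group) (by rw [h.ht.sl, hy.2.1]) (by rw [h.ht.sl, hy'.2.1])))
  rw [GW.B.ncard_sub, h.y.cardA h.ht] at le
  have e := Set.eq_of_subset_of_ncard_le (s := {y | y ∈ zpowers s ⊔ zpowers z ∧ y ≠ 1})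
    (t := {y | y ≠ 1 ∧ y ^ 3 = 1 ∧ t * y * t = y⁻¹})
    (fun y hy => ⟨hy.2, (hT y hy.1).1, (hT y hy.1).2.1⟩)
    (by have := GW.B.ncard_ne_one (zpowers s ⊔ zpowers z); omega)
  have key (v : G) (hv : v ∈ (h.y.loc t h.ht).A) (v1 : v ≠ 1) : v * z * v⁻¹ = z⁻¹ := by
    have m := (e.ge (show v * z * v⁻¹ ∈ _ from ⟨by simpa using h.z1, conj_pow_one h.z3 v, by
      rw [← mul_assoc, ← mul_assoc, ← hv.1, mul_assoc _ _ t, (Commute.inv_left hv.1).eq,
        show (v * z * v⁻¹)⁻¹ = v * z⁻¹ * v⁻¹ by group, ← h.tz]; group⟩)).1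
    have m2 := hT _ (mul_mem (mem_sup_right (mem_zpowers z)) m)
    refine eq_inv_of_mul_eq_one_right (h.y.inv1 ⟨hv.2, v1⟩ hv.1.symm h.ht.ss ?_ m2.2.1 (odd3 m2.1))
    nth_rw 2 [← (hT _ m).2.2]
    rw [inv_eq_of_mul_eq_one_right hv.2]
    simp only [← mul_assoc, hv.2, one_mul]
    rw [mul_assoc _ v v, hv.2, mul_one]
  obtain ⟨v, hv, v1, vt⟩ := h.y.exV h.ht
  have := key _ (mul_mem (h.y.tA h.ht) hv) fun e => vt (by rw [← h.ht.sl v, e, mul_one])
  rw [show t * v * z * (t * v)⁻¹ = t * (v * z * v⁻¹) * t⁻¹ by group, key v hv v1, h.ht.inv,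
    h.tb (inv_mem (mem_zpowers z)), inv_inv] at this
  exact h.z1 (h.ne_inv h.z3 this)

end Z

/-- the case `q = 3` -/
theorem a4 [Finite G] (iv : Iv t) (tE : t ∉ L) (cm : ∀ k ∈ L, k * t = t * k)
    (ce : ∀ g, g * t = t * g → g ∈ L ∨ t * g ∈ L) (od : Odd (𝒞₁ t).index)
    (one : ∀ s, Iv s → ∃ g, g * t * g⁻¹ = s)
    (iso : ∃ (F : Type) (_ : Field F) (_ : Fintype F), Fintype.card F = 3 ∧
      Nonempty (L ≃* Matrix.ProjectiveSpecialLinearGroup (Fin 2) F))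
    (hx : x ∈ L) (ox : orderOf x = 3) :
    (Nat.card G = 168 ∧ ∀ y, Odd (orderOf y) → t * y * t = y⁻¹ → y = 1) ∨
    (Nat.card G = 1512 ∧ ∃ s, orderOf s = 9 ∧ t * s * t = s⁻¹ ∧ s ^ 3 * x = x * s ^ 3 ∧
      (∀ y, Odd (orderOf y) → t * y * t = y⁻¹ → y * x = x * y → y ∈ zpowers (s ^ 3)) ∧
      ∀ y, Odd (orderOf y) → t * y * t = y⁻¹ → y ∈ 𝒩 (zpowers x ⊔ zpowers (s ^ 3)) →
        y ∈ zpowers s) := by
  have : Fact (Nat.Prime 3) := ⟨Nat.prime_three⟩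
  have h := y_of (loc_of iv tE cm ce od iso) one
  refine (em _).imp (h.small iv) fun hN => ?_
  obtain ⟨c, -, g1⟩ := h.big iv hN
  obtain ⟨z, k⟩ := h.exists_z iv (by rintro rfl; simp at ox) (ox ▸ pow_orderOf_eq_one x) (cm x hx)
    (by rw [c]; decide) g1
  obtain ⟨s, w, sp, p, ts, n⟩ := k.exists_s (by rw [c]; decide)
  have s3 := k.s3_ne sp p ts n g1
  have m : s ^ 3 ∈ zpowers z := k.j1 (odd3 (k.s9 p)) (by
    nth_rw 2 [← iv.inv]
    rw [← conj_pow, iv.inv, ts, inv_pow]) (k.s3 p)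
  have e : zpowers (s ^ 3) = zpowers z :=
    le_antisymm (zpowers_le.2 m) (zpowers_le.2 (zp3 k.z3 m s3))
  refine ⟨c, s, orderOf_eq_prime_pow (p := 3) (n := 1) s3 ((pow_mul s 3 3).trans (k.s9 p)), ts,
    k.s3 p, fun y o ty d => e ▸ k.j1 o ty d, fun y o ty hy => ?_⟩
  exact sup_le le_rfl (e.ge.trans (zpowers_le.2 (pow_mem (mem_zpowers s) 3)))
    (k.jT sp p ts n o ty (e ▸ hy))

end Cfsg.GS.Vx
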