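import Cfsg.Agent.GS.V3
import Cfsg.Agent.GS.W0

/-! The pieces `J1` and `A4` of the proof of `JT2`. -/

set_option autoImplicit false

namespace Cfsg.GW2

theorem taskJ1 : TaskJ1 := fun _ _ _ _ _ h => GS.Vx.j1' h.iv h.tE h.cm h.ce h.od h.one h.iso

theorem taskA4 : TaskA4 := fun _ _ _ _ _ _ _ h hx ox =>
  (GS.Vx.a4 h.iv h.tE h.cm h.ce h.od h.one h.iso hx ox).elim
    (fun k => ⟨Or.inl k.1, Or.inl fun y _ o e _ => k.2 y o e⟩)
    fun ⟨c, s, h1, h2, h3, h4, h5⟩ => ⟨Or.inr c, Or.inr ⟨s, Subgroup.mem_top s, h1, h2, h3,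
      fun y _ => h4 y, fun y _ => h5 y⟩⟩

end Cfsg.GW2
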