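import Cfsg.Agent.GS.WT5
import Cfsg.Agent.GS.MC4
import Cfsg.Agent.GS.V4

/-! The assembly of `JT2`. -/

set_option autoImplicit false
set_option linter.unusedSectionVars false

namespace Cfsg.GW2

open Subgroup Cfsg.L0 Cfsg.H8 Cfsg.FT Cfsg.GJ
open scoped MatrixGroups

theorem z13 : (3 : ZMod 13) ^ 3 = 1 ∧ (1 : ZMod 13) ≠ -1 := by decide

theorem seven_of {p f q : ℕ} (hp : p.Prime) (p2 : p ≠ 2) (hf : (p - 1).Coprime f) (hq : q = 3 ^ f)
    (h : (p : ℤ) ∣ q ^ 2 - q + 1) : p = 7 := by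
  have : Fact p.Prime := ⟨hp⟩
  have e : ((3 : ZMod p) ^ f) ^ 3 = -1 := by
    have := (ZMod.intCast_zmod_eq_zero_iff_dvd _ p).2 h
    rw [hq] at this
    push_cast at this
    linear_combination (3 ^ f + 1) * this
  have e1 : (3 : ZMod p) ^ (6 * f) = 1 := by
    rw [show 6 * f = f * 3 * 2 by ring, pow_mul, pow_mul, e]; simp
  have n3 : (3 : ZMod p) ≠ 0 := fun e2 => by
    rcases f with _ | f
    · simp only [pow_zero, one_pow] at e
      exact one_ne_zero (α := ZMod p) (by linear_combination e2 - e)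
    · simp [e2] at e1
  have e2 : (3 : ZMod p) ^ 6 = 1 := orderOf_dvd_iff_pow_eq_one.1
    ((hf.coprime_dvd_left (ZMod.orderOf_dvd_card_sub_one n3)).dvd_of_dvd_mul_right
      (orderOf_dvd_of_pow_eq_one e1))
  have e3 : p ∣ 2 ^ 3 * 7 * 13 := (ZMod.natCast_eq_zero_iff _ p).1 (by
    push_cast; linear_combination e2)
  rcases hp.dvd_mul.1 e3 with e4 | e4
  · rcases hp.dvd_mul.1 e4 with e5 | e5
    · exact absurd ((Nat.prime_dvd_prime_iff_eq hp Nat.prime_two).1 (hp.dvd_of_dvd_pow e5)) p2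
    · exact (Nat.prime_dvd_prime_iff_eq hp (by norm_num)).1 e5
  · obtain rfl := (Nat.prime_dvd_prime_iff_eq hp (by norm_num)).1 e4
    rw [← pow_mul, mul_comm, pow_mul, z13.1, one_pow] at e
    exact absurd e z13.2

theorem not49 {f q : ℕ} (hf : ¬ 7 ∣ f) (hq : q = 3 ^ f) : ¬ (49 : ℤ) ∣ q ^ 2 - q + 1 := fun h => by
  have e : ((3 : ZMod 49) ^ f) ^ 3 = -1 := by
    have := (ZMod.intCast_zmod_eq_zero_iff_dvd _ 49).2 h
    rw [hq] at this
    push_cast at this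
    linear_combination (3 ^ f + 1) * this
  have e1 : ((3 : ZMod 49) ^ 6) ^ f = 1 := by
    rw [← pow_mul, show 6 * f = f * 3 * 2 by ring, pow_mul, pow_mul, e]; simp
  rw [← Nat.div_add_mod f 7, pow_add, pow_mul, show ((3 : ZMod 49) ^ 6) ^ 7 = 1 by decide, one_pow,
    one_mul] at e1
  have : ∀ r < 7, ((3 : ZMod 49) ^ 6) ^ r = 1 → r = 0 := by decide
  exact hf (Nat.dvd_of_mod_eq_zero (this _ (Nat.mod_lt _ (by norm_num)) e1))

theorem mod7 {f q : ℕ} (o : Odd f) (hf : ¬ 3 ∣ f) (hq : q = 3 ^ f) : q % 7 = 3 ∨ q % 7 = 5 := by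
  rw [hq, ← Nat.div_add_mod f 6, pow_add, pow_mul, Nat.mul_mod, Nat.pow_mod]
  have := Nat.odd_iff.1 o
  rcases (show f % 6 = 1 ∨ f % 6 = 5 by omega) with e | e <;> simp [e]

variable {G : Type} [Group G] [Finite G]
variable {t v w x s j r a b c d e g k l u y z : G} {E L U U1 P T Y Z : Subgroup G} {q n m f p : ℕ}

theorem GI.odd (gi : GI G) (o : Odd (orderOf u)) : u ∈ ⁅(⊤ : Subgroup G), (⊤ : Subgroup G)⁆ := by
  refine mem_of_sq_mem o (show u * u ∈ commutator G from ?_)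
  rw [← Abelianization.ker_of, MonoidHom.mem_ker, map_mul]
  refine closure_induction (p := fun g _ => Abelianization.of g * Abelianization.of g = 1)
    (fun s hs => by rw [← map_mul, Iv.ss hs, map_one]) (by simp) (fun a b _ _ ha hb => ?_)
    (fun a _ ha => ?_) (gi.ge (mem_top u))
  · rw [map_mul, mul_mul_mul_comm, ha, hb, one_mul]
  · rw [map_inv, ← mul_inv, ha, inv_one]

theorem WU.no_two (h : WU t E L U v w x q) (gi : GI G) (N : Subgroup G) : N.index ≠ 2 := fun e => by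
  have n := normal_of_index_eq_two e
  have k : ∀ s, Iv s → (s ∈ N ↔ t ∈ N) := fun s hs => by
    obtain ⟨g, rfl⟩ := h.one s hs
    exact ⟨fun e => by simpa [mul_assoc] using n.conj_mem _ e g⁻¹, fun e => n.conj_mem _ e g⟩
  have := (k _ h.kp.mul.symm.iv).1 ((mul_mem_iff_of_index_two e).2
    ((k _ h.kp.iv).trans (k _ h.kp.symm.iv).symm))
  rw [eq_top_iff.2 (gi.ge.trans ((closure_le N).2 fun s hs => (k s hs).2 this)), index_top] at e
  omega

theorem WH.char (h : WH t L L q) (gi : GI G) : 3 ∣ q ∨ q = 5 := by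
  by_contra! hn
  obtain ⟨U, v, w, x, h'⟩ := (taskS G t L L q h).1
  obtain ⟨F, _, _, rfl, ⟨e⟩⟩ := h.iso
  obtain ⟨p, hp⟩ := CharP.exists F
  obtain ⟨k, pp, hk⟩ := FiniteField.card F p
  have p3 : p ≠ 3 := by rintro rfl; exact hn.1 (hk ▸ dvd_pow_self 3 k.ne_zero)
  have : Fact p.Prime := ⟨pp⟩
  obtain ⟨n, m, num⟩ : ∃ n m, Num (Fintype.card F) p n m := by
    rcases h.q8 with h8 | h8
    · exact ⟨(Fintype.card F - 1) / 2, (Fintype.card F + 1) / 4, pp, ⟨k, hk⟩,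
        Nat.odd_iff.2 (by omega), Nat.odd_iff.2 (by omega), by omega, by omega, p3⟩
    · exact ⟨(Fintype.card F + 1) / 2, (Fintype.card F - 1) / 4, pp, ⟨k, hk⟩,
        Nat.odd_iff.2 (by omega), Nat.odd_iff.2 (by omega), by omega, by omega, p3⟩
  have ls := (ls_psl num).map (L.subtype.comp e.symm.toMonoidHom)
    (L.subtype_injective.comp e.symm.injective)
  rw [← map_map, map_top_of_surjective _ e.symm.surjective, ← MonoidHom.range_eq_map,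
    range_subtype] at ls
  obtain ⟨L, h1⟩ := exists_jg num ls h.iv h.tE (fun k hk => (h.cm k hk).symm) h.ce h.od (h'.no_two gi)
  exact h1.false

theorem WH.cardC (h : WH t E L q) : ♯(𝒞₁ t) = q * (q ^ 2 - 1) * L.relIndex E := by
  obtain ⟨U, v, w, x, h'⟩ := (taskS G t E L q h).1
  rw [← card_mul_ri h.EC, h.riE, ← card_mul_ri h.LE, ← h'.cL]; ring

theorem WU.fusU (h : WU t E L U v w x q) (hu : u ∈ U) (e : g * u * g⁻¹ ∈ U) : g * u = u * g :=
  cm_of_conj (inv_mul_eq_one.1 (h.dis _ (mul_mem (inv_mem hu) e) (h.fz (h.UE hu) (h.oU' hu) (h.UE e)))).symm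

theorem WU.mc (h : WU t E L U v w x q) (gi : GI G) (hp : p.Prime) (hu : u ∈ U) (u1 : u ≠ 1)
    (hP : IsPGroup p (zpowers u)) (os : orderOf s = p) (sU : s ∉ U) (s1 : s ∈ 𝒞 U) (d1 : d ∈ 𝒞 U)
    (d2 : d ∈ 𝒩 (zpowers s)) (d3 : d ∉ 𝒞₁ s) (od : Odd (orderOf d))
    (hc : ¬ p * (p * orderOf u) ∣ ♯(𝒞₁ u)) : False := by
  have : Fact p.Prime := ⟨hp⟩
  have su := cent_le_cent1 hu s1
  have n1 : zpowers s ≤ 𝒩 (zpowers u) := le_norm_of_le_cent (zpowers_le.2 (cent_zpowers u ▸ su))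
  have le : zpowers u ⊔ zpowers s ≤ 𝒞₁ u := sup_le (zpowers_le.2 (mem_c1.2 rfl)) (zpowers_le.2 su)
  have ps : IsPGroup p (zpowers s) := isPGroup_zpowers (k := 1) (by rw [pow_one, ← os, pow_orderOf_eq_one])
  refine taskMC G p u s d hp hP u1 (fun g hg => mem_c1.2 (h.fusU hu (zpowers_le.2 hu
    (conj_mem_of_norm hg (mem_zpowers u))))) os (fun e => sU (zpowers_le.2 hu e))
    ⟨le, hP.to_sup_of_normal_left' ps n1, fun e => hc ?_⟩ (cent_le_cent1 hu d1) d2 d3 od (gi.odd (h.oU' hu))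
  rw [← card_mul_ri le, card_sup_of_inf n1 (by
    rw [inf_comm]
    exact inf_eq_bot_of_prime (by rw [card_zpow, os]; exact hp) fun e => sU (zpowers_le.2 hu
      (e (mem_zpowers s)))), card_zpow, card_zpow, os, mul_comm p, mul_comm p]
  exact Nat.mul_dvd_mul_left _ e

theorem WU.modEq (h : WU t E L U v w x q) (hp : p.Prime) (hP : IsPGroup p (zpowers u)) :
    (𝒞₁ t).index ≡ {s : G | Iv s ∧ s ∈ 𝒞 (zpowers u)}.ncard [MOD p] := by
  have : Fact p.Prime := ⟨hp⟩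
  obtain ⟨k, hk⟩ := isPGroup_iff_forall.1 hP u (mem_zpowers u)
  have := ncard_modEq_conj hk (S := {s : G | Iv s}) fun s hs => Iv.conj hs u
  rwa [h.cnt, show {s ∈ {s : G | Iv s} | u * s = s * u} = {s : G | Iv s ∧ s ∈ 𝒞 (zpowers u)} from
    Set.ext fun s => by simp [cent_zpowers, mem_c1, eq_comm]] at this

/-- the statement proved by induction -/
def MM (G : Type) [Group G] : Prop :=
  ∀ (t : G) (E L : Subgroup G) (q : ℕ), WH t E L q → GI G → 5 ≤ q → E = L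

/-- the induction hypothesis -/
def IH (G : Type) [Group G] : Prop :=
  ∀ (H : Type) [Group H] [Finite H], Nat.card H < Nat.card G → MM H

theorem WU.eq_of (h : WU t E L U v w x q) (hU : U1 ≤ U) {q1 : ℕ} (e : q1 ^ ♯U1 = q)
    (hq : q1 = 3 ∨ (q1 = 5 ∧ ¬ 3 ∣ q)) : U1 = U := by
  obtain ⟨-, F, _, _, e1, -⟩ := h.sub U le_rfl
  have e2 := pow_mod8 h.oU (e1 ▸ h.q8)
  have q8 := h.q8
  rw [e1] at e2
  have e3 : q1 ≤ Fintype.card F := by
    rcases hq with rfl | ⟨rfl, e3⟩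
    · omega
    · have : Fintype.card F ≠ 3 := fun e4 => e3 (by
        rw [← e1, e4]; exact dvd_pow_self 3 (card_ne_zero' U))
      omega
  refine eq_of_card_le hU ((Nat.pow_le_pow_iff_right (a := q1) (by omega)).1 ?_)
  rw [e, ← e1]
  exact Nat.pow_le_pow_left e3 _

theorem WU.red (h : WU t E L U v w x q) (ih : IH G) (hU : U1 ≤ U) (h1 : U1 ≠ ⊥) :
    ∃ (Q : Type) (_ : Group Q) (_ : Finite Q) (f : ↥(𝒞 U1) →* Q) (ht : t ∈ 𝒞 U1) (q1 i : ℕ),
      Function.Surjective f ∧ up f ⊥ = U1 ∧ q1 ^ ♯U1 = q ∧ {s : G | Iv s ∧ s ∈ 𝒞 U1}.ncard = i ∧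
      ♯(𝒞 U1) = q1 * (q1 ^ 2 - 1) * ♯U * i ∧ ♯(𝒞 U1) = ♯U1 * Nat.card Q ∧
      (U1 = U → WH (f ⟨t, ht⟩) (down f L) (down f L) q1) ∧ (q1 = 3 ∨
      ∃ (K : Type) (_ : Group K) (_ : Finite K) (t' : K) (L' : Subgroup K), GI K ∧ WH t' L' L' q1 ∧
        (𝒞₁ t').index = i) := by
  obtain ⟨Q, i1, i2, f, ht, q1, sj, ker, e1, h2, e2, e3⟩ := taskQ G t v w x E L U q h h.zf U1 hU
  have UN : U1 ≤ 𝒞 U1 := Abel.mono (Cyc.abel h.cyc) hU
  have c1 : ♯(𝒞 U1) = ♯U1 * Nat.card Q := by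
    rw [← card_down_mul' le_rfl (ker.le.trans UN), ker, down_top sj, card_top]
  refine ⟨Q, i1, i2, f, ht, q1, _, sj, ker, e1, rfl, ?_, c1, fun e => ?_, ?_⟩
  · rw [c1, e3, ← card_mul_index (𝒞₁ (f ⟨t, ht⟩)), h2.cardC, ← e2]; ring
  · rw [← e] at e2
    have e4 := le_antisymm (relIndex_eq_one.1 (Nat.eq_of_mul_eq_mul_right (card_pos' U1)
      (e2.trans (one_mul _).symm))) h2.LE
    rwa [e4] at h2
  · by_cases q3 : q1 = 3
    · exact Or.inl q3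
    have q5 : 5 ≤ q1 := by have := h2.q8; omega
    obtain ⟨K, hK, gi, h3, e4⟩ := taskK taskS Q _ _ _ q1 h2 q5
    have e5 := ih K (by
      have := one_lt_card h1
      have := Nat.card_pos (α := Q)
      have := card_le_card_group K
      have := card_le_card_group (𝒞 U1)
      nlinarith) _ _ _ _ h3 gi q5
    rw [e5] at h3
    exact Or.inr ⟨K, _, inferInstance, _, _, gi, h3, e4.trans e3.symm⟩

theorem WU.not3 (h : WU t E L U v w x q) (ih : IH G) (gi : GI G) (h3 : ¬ 3 ∣ q) : U = ⊥ := by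
  by_contra h1
  obtain ⟨p, hp, hd⟩ := exists_prime_dvd h1
  obtain ⟨u, hu, o⟩ := exists_orderOf_eq hp hd
  have u1 : u ≠ 1 := fun e => hp.ne_one (by rw [← o, e, orderOf_one])
  have hP : IsPGroup p (zpowers u) := isPGroup_zpowers (k := 1) (by rw [pow_one, ← o, pow_orderOf_eq_one])
  obtain ⟨Q, _, _, f, ht, q1, i, sj, ker, e1, e2, e3, e4, h2, h4⟩ :=
    h.red ih (zpowers_le.2 hu) (ne_bot_of_mem (mem_zpowers u) u1)
  have q3 : ¬ 3 ∣ q1 := fun e => h3 (e1 ▸ e.trans (dvd_pow_self q1 (card_ne_zero' _)))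
  obtain ⟨K, _, _, t', L', gi', h5, -⟩ := h4.resolve_left fun e => q3 (e ▸ dvd_rfl)
  obtain rfl := (h5.char gi').resolve_left q3
  have eU := h.eq_of (zpowers_le.2 hu) e1 (Or.inr ⟨rfl, h3⟩)
  obtain ⟨c1, c2⟩ := taskJ1 Q _ _ (h2 eU)
  have cU : ♯U = p := by rw [← eU, card_zpow, o]
  rw [card_zpow, o, c1] at e4
  obtain rfl : i = 7 * (11 * 19) := by
    rw [e4, cU] at e3
    have := Nat.eq_of_mul_eq_mul_left hp.pos (e3.trans (show _ = p * (120 * i) by norm_num; ring))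
    omega
  have e5 : p ∣ 7 * (11 * 19) := e2 ▸ ((h.modEq hp hP).dvd_iff dvd_rfl).1 (cU ▸ h.dv gi)
  have e6 : p = 7 ∨ p = 11 ∨ p = 19 := (hp.dvd_mul.1 e5).imp
    (Nat.prime_dvd_prime_iff_eq hp (by norm_num)).1 fun e => (hp.dvd_mul.1 e).imp
      (Nat.prime_dvd_prime_iff_eq hp (by norm_num)).1 (Nat.prime_dvd_prime_iff_eq hp (by norm_num)).1
  obtain ⟨s, d, s1, s2, s3, s4⟩ := c2 p e6
  obtain ⟨s, rfl⟩ := sj s
  obtain ⟨d, rfl⟩ := sj d
  have k1 : ∀ y : 𝒞 (zpowers u), f y = 1 ↔ (y : G) ∈ zpowers u := fun y => by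
    rw [← mem_bot, ← coe_mem_up, ker]
  obtain ⟨σ, a1, a2, a3, a4, a5⟩ := split_lemma hp s.2 d.2 ((k1 (s ^ p)).1 (by
    rw [map_pow, ← s1, pow_orderOf_eq_one])) (by
      obtain ⟨k, hk⟩ := conj_mem_of_norm s3 (mem_zpowers (f s))
      have := (k1 ((s ^ k)⁻¹ * (d * s * d⁻¹))).1 (by
        simp only [map_mul, map_inv, map_zpow]; rw [← hk]; exact inv_mul_cancel _)
      simpa using mul_mem (mem_sup_left (zpow_mem_zpowers (s : G) k)) (mem_sup_right this))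
    fun e => s4 (mem_c1.2 (cm_of_conj (mul_inv_eq_one.1 (by
      simpa using (k1 (d * s * d⁻¹ * s⁻¹)).2 e))))
  refine h.mc gi hp hu u1 hP a2 (eU ▸ a3) (eU ▸ sup_le (zpowers_le.2 s.2) (Cyc.abel (cyc_zpowers u)) a1)
    (eU ▸ d.2) a4 a5 (odd_of_pow' (s2.mul h.oU) (by
      rw [pow_mul]
      exact pwc (eU.le ((k1 (d ^ orderOf (f d))).1 (by rw [map_pow, pow_orderOf_eq_one]))))) ?_
  rw [← cent_zpowers, e4, o]
  rcases e6 with rfl | rfl | rfl <;> norm_num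

theorem X9.lift (h : WU t E L U v w x q) {Q : Type} [Group Q] {f : ↥(𝒞 U) →* Q} (ht : t ∈ 𝒞 U)
    (sj : Function.Surjective f) (ker : up f ⊥ = U) (h9 : X9 ⊤ (f ⟨t, ht⟩) (f ⟨x, h.xU⟩)) :
    X9 (𝒞 U) t x := by
  have k1 : ∀ y : 𝒞 U, f y = 1 → (y : G) ∈ U := fun y e => ker.le (coe_mem_up.2 (mem_bot.2 e))
  have uq : ∀ y z : 𝒞 U, t * y * t = (y : G)⁻¹ → t * z * t = (z : G)⁻¹ → f y = f z → (y : G) = z := by
    intro y z e1 e2 e
    have m : (y : G)⁻¹ * z ∈ U := k1 (y⁻¹ * z) (by rw [map_mul, map_inv, e, inv_mul_cancel])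
    rw [← mul_inv_cancel_left (y : G) z] at e2
    refine inv_mul_eq_one.1 (eq_one_of_odd (h.oU' m) ?_)
    generalize (y : G)⁻¹ * z = c at m e2
    rw [← mul_assoc, mul_assoc _ c, h.cm c (h.UE m), ← mul_assoc, e1, mul_inv_rev,
      mem_cent.1 (inv_mem y.2) _ (inv_mem m), mul_right_inj] at e2
    exact mul_eq_one_iff_eq_inv.2 e2
  have iv : ∀ y : 𝒞 U, t * y * t = (y : G)⁻¹ → f ⟨t, ht⟩ * f y * f ⟨t, ht⟩ = (f y)⁻¹ := fun y e => by
    rw [← map_mul, ← map_mul, ← map_inv]; exact congrArg f (Subtype.ext e)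
  have od : ∀ y : 𝒞 U, Odd (orderOf (y : G)) → Odd (orderOf (f y)) := fun y o =>
    o.of_dvd_nat ((orderOf_map_dvd f y).trans (by rw [Subgroup.orderOf_coe]))
  have cm : ∀ y : 𝒞 U, (y : G) * x = x * y → f y * f ⟨x, h.xU⟩ = f ⟨x, h.xU⟩ * f y := fun y e => by
    rw [← map_mul, ← map_mul]; exact congrArg f (Subtype.ext e)
  have ip : ∀ (y : G) (k : ℤ), t * y * t = y⁻¹ → t * y ^ k * t = (y ^ k)⁻¹ := fun y k e => by
    have := inv_zpowers (w := t) (a := y) (by rwa [h.iv.inv]) (zpow_mem_zpowers y k)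
    rwa [h.iv.inv] at this
  rcases h9 with h9 | ⟨s, -, s1, s2, s3, s4, s5⟩
  · exact Or.inl fun y hy o e c => uq ⟨y, hy⟩ 1 e (by simpa using h.iv.ss)
      ((h9 _ (mem_top _) (od ⟨y, hy⟩ o) (iv ⟨y, hy⟩ e) (cm ⟨y, hy⟩ c)).trans (map_one f).symm)
  obtain ⟨y, rfl⟩ := sj s
  obtain ⟨s, e1, e2⟩ : ∃ s : 𝒞 U, f s = f y ∧ t * s * t = (s : G)⁻¹ := by
    have m : (y : G) * (t * y * t) ∈ U := k1 (y * (⟨t, ht⟩ * y * ⟨t, ht⟩)) (by
      rw [map_mul, map_mul, map_mul, s2, mul_inv_cancel])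
    obtain ⟨a, ha, e⟩ := exists_sqrt (h.oU' (inv_mem m))
    have aU := zpowers_le.2 (inv_mem m) ha
    refine ⟨y * ⟨a, Cyc.abel h.cyc aU⟩, by
      rw [map_mul, mem_bot.1 ((coe_mem_up (x := ⟨a, _⟩)).1 (ker.ge aU)), mul_one], ?_⟩
    change t * (y * a) * t = ((y : G) * a)⁻¹
    rw [eq_inv_iff_mul_eq_one, mul_eq_one_comm]
    calc _ = y * (a * t) * y * (a * t) := by group
      _ = y * t * (a * y) * t * a := by rw [h.cm a (h.UE aU)]; group
      _ = y * t * y * (a * t) * a := by rw [mem_cent.1 y.2 a aU]; group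
      _ = y * (t * y * t) * (a * a) := by rw [h.cm a (h.UE aU)]; group
      _ = 1 := by rw [e, mul_inv_cancel]
  rw [← e1] at s1 s3 s4 s5
  have i3 : t * (s : G) ^ 3 * t = ((s : G) ^ 3)⁻¹ := by simpa using ip s 3 e2
  refine Or.inr ⟨s, s.2, Nat.dvd_antisymm (orderOf_dvd_of_pow_eq_one (uq (s ^ 9) 1
    (by simpa using ip s 9 e2) (by simpa using h.iv.ss) (by rw [map_pow, ← s1, pow_orderOf_eq_one, map_one])))
    (by rw [← s1, Subgroup.orderOf_coe]; exact orderOf_map_dvd f s), e2, ?_, fun y hy o e c => ?_,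
    fun y hy o e c => ?_⟩
  · refine (cm_of_conj (uq (⟨x, h.xU⟩ * s ^ 3 * ⟨x, h.xU⟩⁻¹) (s ^ 3) ?_ i3 ?_)).symm
    · change t * (x * (s : G) ^ 3 * x⁻¹) * t = (x * (s : G) ^ 3 * x⁻¹)⁻¹
      rw [← mul_assoc, ← mul_assoc, ← h.cmL h.xL, mul_assoc _ x⁻¹, h.cmL (inv_mem h.xL), ← mul_assoc,
        mul_assoc x, mul_assoc x, i3]
      group
    · rw [map_mul, map_mul, map_inv, map_pow, ← s3, mul_inv_cancel_right]
  · obtain ⟨k, hk⟩ := s4 _ (mem_top _) (od ⟨y, hy⟩ o) (iv ⟨y, hy⟩ e) (cm ⟨y, hy⟩ c)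
    exact ⟨k, uq ((s ^ 3) ^ k) ⟨y, hy⟩ (ip _ k i3) e (by rw [map_zpow, map_pow]; exact hk)⟩
  · obtain ⟨k, hk⟩ := s5 _ (mem_top _) (od ⟨y, hy⟩ o) (iv ⟨y, hy⟩ e) (by
      have := down_le_norm f (zpowers_le.2 c) (mem_down_of_mem (x := ⟨y, hy⟩) (mem_zpowers y))
      rwa [down_sup f (zpowers_le.2 h.xU) (zpowers_le.2 (pow_mem s.2 3)), down_zpowers f ⟨x, h.xU⟩,
        show (s : G) ^ 3 = (s ^ 3 : 𝒞 U) from rfl, down_zpowers, map_pow] at this)
    exact ⟨k, uq (s ^ k) ⟨y, hy⟩ (ip _ k e2) e (by rw [map_zpow]; exact hk)⟩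

theorem W3.red (h : W3 t E L U P T Y v w x q n m) (ft : OddOrder) (hO : TaskOF) (ih : IH G)
    (hU : U1 ≤ U) (h1 : U1 ≠ ⊥) : ∃ q1 i : ℕ, q1 ^ ♯U1 = q ∧ {s : G | Iv s ∧ s ∈ 𝒞 U1}.ncard = i ∧
      ♯(𝒞 U1) = q1 * (q1 ^ 2 - 1) * ♯U * i ∧ (q1 = 3 → X9 (𝒞 U) t x) ∧ ((q1 = 3 ∧ i = 7) ∨
        (i : ℤ) = q1 ^ 2 * (q1 ^ 2 - q1 + 1) ∨ (i : ℤ) = q1 * (q1 - 2) * (q1 ^ 2 - q1 - 1)) := by
  have : Fact (Nat.Prime 3) := ⟨Nat.prime_three⟩
  obtain ⟨Q, _, _, f, ht, q1, i, sj, ker, e1, e2, e3, e4, h2, h4⟩ := h.toWU.red ih hU h1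
  by_cases q3 : q1 = 3
  · subst q3
    obtain rfl := h.eq_of hU e1 (Or.inl rfl)
    obtain ⟨c, h9⟩ := taskA4 ft Q _ (f ⟨x, h.xU⟩) _ (h2 rfl) (mem_down_of_mem h.xL) (orderOf_eq_prime
      (by rw [← map_pow]; exact (congrArg f (Subtype.ext h.x3)).trans (map_one f))
      fun e => h.x1 (h.dis x (ker.le (coe_mem_up.2 (mem_bot.2 e))) h.xL))
    refine ⟨3, i, e1, e2, e3, fun _ => X9.lift h.toWU ht sj ker h9, ?_⟩
    rw [e4] at e3
    have := Nat.eq_of_mul_eq_mul_left (card_pos' U1) (e3.trans (show _ = ♯U1 * (24 * i) by norm_num; ring))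
    rcases c with c | c
    · exact Or.inl ⟨rfl, by omega⟩
    · obtain rfl : i = 63 := by omega
      exact Or.inr (Or.inl (by norm_num))
  obtain ⟨K, _, _, t', L', gi, h5, rfl⟩ := h4.resolve_left q3
  have d3 : 3 ∣ q1 := Nat.prime_three.dvd_of_dvd_pow (e1 ▸ h.ks.three_dvd)
  obtain ⟨U', P', T', Y', v', w', x', n', m', h6⟩ := (taskS K t' L' L' q1 h5).2 d3 (by
    have := h5.q8; omega)
  exact ⟨q1, _, e1, e2, e3, fun e => absurd e q3, Or.inr (hO K _ _ _ _ _ _ _ _ _ _ _ _ (h6.r3 ft gi))⟩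

theorem W3.bot (h : W3 t E L U P T Y v w x q n m) (ft : OddOrder) (hO : TaskOF) (hC : TaskCH)
    (hL : TaskL3) (ih : IH G) (gi : GI G) : U = ⊥ := by
  by_contra h1
  have r := h.r3 ft gi
  have hT : T ⊓ 𝒞 U = ⊥ := by_contra (hC G _ _ _ _ _ _ _ _ _ _ _ _ _ r h1)
  have e3 : 3 ^ ♯U = q := by
    obtain ⟨u, -, e, -⟩ := h.gen
    have hu := e.le (mem_zpowers u)
    have e1 := h.fT u hu
    rw [← cent_zpowers, e, hT, card_bot'] at e1
    rw [← h.fP u hu, ← cent_zpowers, e, ← e1, ← card_zpow, e]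
  by_cases d3 : 3 ∣ ♯U
  · obtain ⟨q1, -, e1, -, -, h9, -⟩ := h.red ft hO ih le_rfl h1
    refine hL G _ _ _ _ _ _ _ _ _ _ _ _ _ r e3 d3 (h9 (Nat.pow_left_injective (card_ne_zero' U)
      (e1.trans e3.symm))) fun u hu o X hX pX => ?_
    have : Fact (Nat.Prime 3) := ⟨Nat.prime_three⟩
    obtain ⟨q1, i, e1, -, e2, -, e4⟩ := h.red ft hO ih (zpowers_le.2 hu)
      (ne_bot_of_mem (mem_zpowers u) fun e => by simp [e] at o)
    rw [card_zpow, o] at e1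
    obtain ⟨c, rfl⟩ : 3 ∣ q1 := Nat.prime_three.dvd_of_dvd_pow (e1 ▸ h.ks.three_dvd)
    have c0 : c ≠ 0 := by rintro rfl; have := h.ks.q27; omega
    obtain ⟨k, hk⟩ := pX.exists_card_eq
    have e5 := card_dvd hX
    rw [← cent_zpowers, e2, hk, ← Int.natCast_dvd_natCast] at e5
    rw [hk, ← e1, ← Int.natCast_dvd_natCast]
    push_cast [Nat.cast_sub (Nat.one_le_pow 2 (3 * c) (by omega))] at e5 e4 ⊢
    have cp : ∀ a : ℤ, ¬ 3 ∣ a → IsCoprime ((3 : ℤ) ^ k) a := fun a ha =>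
      ((Int.prime_three.irreducible.coprime_iff_not_dvd).2 ha).pow_left
    have g : ∀ a b : ℤ, 3 ∣ 9 * a - 3 * b + 1 → False := by omega
    have g' : ∀ a b : ℤ, 3 ∣ 9 * a - 3 * b - 1 → False := by omega
    have n1 : ¬ (3 : ℤ) ∣ (3 * c) ^ 2 - 1 := fun e => g' (c ^ 2) 0 (by convert e using 1; ring)
    rcases e4 with ⟨-, e4⟩ | e4 | e4
    · subst e4
      exact ((cp _ (by norm_num : ¬ (3 : ℤ) ∣ 7)).mul_right (cp _ n1)).dvd_of_dvd_mul_right
        (e5.trans ⟨(3 * c) ^ 2, by push_cast; ring⟩)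
    · rw [e4] at e5
      exact ((cp ((3 * c) ^ 2 - 3 * c + 1) fun e => g (c ^ 2) c (by convert e using 1; ring)).mul_right
        (cp _ n1)).dvd_of_dvd_mul_right (e5.trans ⟨1, by ring⟩)
    · rw [e4] at e5
      exact (((cp ((3 * c) ^ 2 - 3 * c - 1) fun e => g' (c ^ 2) c (by convert e using 1; ring)).mul_right
        (cp (3 * c - 2) (by omega))).mul_right (cp _ n1)).dvd_of_dvd_mul_right
        (e5.trans ⟨3 * c, by ring⟩)
  have f1 : ♯U ≠ 1 := fun e => h1 (card_eq_one_iff.1 e)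
  have hp := Nat.minFac_prime f1
  have lt : ∀ r, r.Prime → r ∣ ♯U → (♯U).minFac ≤ r := fun r hr => Nat.minFac_le_of_dvd hr.two_le
  have pd := Nat.minFac_dvd ♯U
  generalize (♯U).minFac = p at hp lt pd
  have : Fact p.Prime := ⟨hp⟩
  obtain ⟨S, hS⟩ := exists_isSyl p U
  obtain ⟨u, hu, rfl⟩ := Cyc.exists_zpowers (Cyc.mono h.cyc hS.le)
  obtain ⟨q1, i, e1, e2, e4, -, e5⟩ := h.red ft hO ih hS.le (hS.ne_bot pd)
  have e6 := card_mul_ri hS.le
  have nd := hS.not_dvd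
  generalize (zpowers u).relIndex U = f1 at e6 nd
  have e7 : q1 = 3 ^ f1 := Nat.pow_left_injective (card_ne_zero' (zpowers u)) (by
    simp only []; rw [e1, ← e3, ← e6, ← pow_mul, mul_comm])
  have df : f1 ∣ ♯U := e6 ▸ dvd_mul_left _ _
  have q7 := mod7 (h.oU.of_dvd_nat df) (fun e => d3 (e.trans df)) e7
  have pi : p ∣ i := e2 ▸ ((h.modEq hp hS.isPGroup).dvd_iff dvd_rfl).1 (pd.trans (h.dv gi))
  obtain ⟨s, d, s1, s2, s3, s4, s5, s6, s7⟩ := h.s7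
  have n7 : ¬ 7 ∣ q1 * (q1 ^ 2 - 1) := fun e => by
    have : q1 ^ 2 % 7 = 2 ∨ q1 ^ 2 % 7 = 4 := by rcases q7 with e | e <;> simp [Nat.pow_mod, e]
    rcases (Nat.Prime.dvd_mul (by norm_num)).1 e with e | e <;> omega
  have i7 : 7 ∣ i := by
    have := card_dvd (show U ⊔ zpowers s ≤ 𝒞 (zpowers u) from
      (sup_le (Cyc.abel h.cyc) (zpowers_le.2 s3)).trans (cent_anti hS.le))
    rw [card_sup_of_inf (le_norm_of_le_cent (zpowers_le.2 s3)) (by
      rw [inf_comm]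
      exact inf_eq_bot_of_prime (by rw [card_zpow, s1]; norm_num) fun e => s2 (e (mem_zpowers s))),
      card_zpow, s1, e4, show q1 * (q1 ^ 2 - 1) * ♯U * i = ♯U * (q1 * (q1 ^ 2 - 1) * i) by ring] at this
    exact ((Nat.Prime.dvd_mul (by norm_num)).1
      (Nat.dvd_of_mul_dvd_mul_left (card_pos' U) this)).resolve_left n7
  have key : p = 7 ∧ ¬ 49 ∣ i := by
    rcases e5 with ⟨-, rfl⟩ | e5 | e5
    · exact ⟨(Nat.prime_dvd_prime_iff_eq hp (by norm_num)).1 pi, by norm_num⟩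
    · have p8 : ¬ (p : ℤ) ∣ q1 ^ 2 := fun e => d3 (((Nat.prime_dvd_prime_iff_eq hp Nat.prime_three).1
        (hp.dvd_of_dvd_pow (e7 ▸ hp.dvd_of_dvd_pow (m := q1) (n := 2) (by exact_mod_cast e)))) ▸ pd)
      have p7 : p = 7 := seven_of hp (fun e => by
          have := Nat.odd_iff.1 (h.oU.of_dvd_nat pd); omega) (Nat.coprime_of_dvd fun r hr a b => by
          have := lt r hr (b.trans df)
          have := Nat.le_of_dvd (by have := hp.two_le; omega) a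
          have := hp.two_le
          omega) e7 (((Nat.prime_iff_prime_int.1 hp).dvd_or_dvd 
            (e5 ▸ Int.natCast_dvd_natCast.2 pi)).resolve_left p8)
      subst p7
      refine ⟨rfl, fun e => not49 nd e7 (IsCoprime.dvd_of_dvd_mul_left ?_
        (e5 ▸ Int.natCast_dvd_natCast.2 e))⟩
      rw [e7]
      push_cast
      exact IsCoprime.pow_right (IsCoprime.pow_right (by norm_num))
    · have e8 : (7 : ℤ) ∣ q1 * (q1 - 2) * (q1 ^ 2 - q1 - 1) := e5 ▸ Int.natCast_dvd_natCast.2 i7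
      have e9 := (ZMod.intCast_zmod_eq_zero_iff_dvd _ 7).2 e8
      push_cast at e9
      rw [← ZMod.natCast_mod q1 7] at e9
      rcases q7 with e | e <;> rw [e] at e9 <;> exact absurd e9 (by decide)
  obtain ⟨rfl, k2⟩ := key
  refine h.mc gi hp (hS.le hu) (fun e => hS.ne_bot pd (by simp [e])) hS.isPGroup s1 s2 s3 s4 s5 s6 s7
    fun e => k2 ?_
  rw [← cent_zpowers, e4, ← e6, card_zpow, show q1 * (q1 ^ 2 - 1) * (orderOf u * f1) * i =
    q1 * (q1 ^ 2 - 1) * f1 * i * orderOf u by ring, ← mul_assoc] at e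
  exact (Nat.Coprime.pow_left 2 ((Nat.Prime.coprime_iff_not_dvd hp).2 fun e =>
    (hp.dvd_mul.1 e).elim n7 nd)).dvd_of_dvd_mul_left (Nat.dvd_of_mul_dvd_mul_right (orderOf_pos u) e)

theorem mm (ft : OddOrder) (hO : TaskOF) (hC : TaskCH) (hL : TaskL3) (G : Type) [Group G] [Finite G] :
    MM G := by
  suffices ∀ (N : ℕ) (G : Type) [Group G] [Finite G], Nat.card G = N → MM G from this _ G rfl
  intro N
  induction N using Nat.strong_induction_on with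
  | _ N ih =>
  intro G _ _ hN t E L q h gi q5
  have ih' : IH G := fun H _ _ e => ih _ (hN ▸ e) H rfl
  suffices ∃ U v w x, WU t E L U v w x q ∧ U = ⊥ by
    obtain ⟨_, v, w, x, h, rfl⟩ := this
    exact le_antisymm (relIndex_eq_one.1 (h.riL.trans card_bot')) h.LE
  by_cases h3 : 3 ∣ q
  · obtain ⟨U, P, T, Y, v, w, x, n, m, h⟩ := (taskS G t E L q h).2 h3 (by omega)
    exact ⟨U, v, w, x, h.toWU, h.bot ft hO hC hL ih' gi⟩
  · obtain ⟨U, v, w, x, h⟩ := (taskS G t E L q h).1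
    exact ⟨U, v, w, x, h, h.not3 ih' gi h3⟩

theorem jt2_of (ft : OddOrder) (hO : TaskOF) (hC : TaskCH) (hL : TaskL3) : JT2 := by
  intro G _ _ hs hna t E L F _ _ ht odd ⟨d1, d2, d3, d4, d5⟩ nL cl oi h5 h8 ⟨e⟩
  have : Fact (Nat.Prime 2) := ⟨Nat.prime_two⟩
  have two : ∀ N : Subgroup G, N.index ≠ 2 := H4.JC.index_ne_two fun e => hna
    (have := isCyclic_of_prime_card e; inferInstance)
  have iv : Iv t := ⟨by rw [← sq, ← ht, pow_orderOf_eq_one], by rintro rfl; simp at ht⟩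
  have tE : t ∉ E := fun e => iv.ne (mem_bot.1 (d4 ▸ ⟨mem_zpowers t, e⟩))
  have ce : ∀ g, g * t = t * g → g ∈ E ∨ t * g ∈ E := fun g hg => by
    obtain ⟨a, ha, b, hb, rfl⟩ := (mem_sup_of_le_normalizer_right (zpowers_le.2
      (mem_normalizer_of_forall fun y hy => by
        rwa [d3 t (mem_zpowers t) y hy, mul_inv_cancel_right]))).1 (d5.ge (mem_c1.2 hg))
    rcases (mem_zp_inv iv.ss).1 ha with rfl | rfl
    · left; rwa [one_mul]
    · right; rwa [iv.sl]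
  have c := GW.Px.cov_cov (GW.Px.two_ne (Nat.odd_iff.2 (by omega))) e
  have c1 : ∀ s, Iv s → ∃ g a, H3.tr a = 0 ∧ g * GW.Px.cov e a * g⁻¹ = s := fun s hs => by
    obtain ⟨g, hg⟩ := H4.exists_conj_mem_of_index two (M := E) odd (by
      rw [← relIndex_mul_index d2, relIndex_two tE ce]) (t := s) (by rw [sq, hs.ss])
    have i : Iv (g⁻¹ * s * g) := by simpa using hs.conj g⁻¹
    obtain ⟨a, ha⟩ := (c.mem _).1 (mem_of_pow_mem (Nat.coprime_two_left.2 oi)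
      (by rw [sq, i.ss]; exact one_mem L) (pow_relIndex_mem nL.norm hg))
    refine ⟨g, a, (H3.tr_of_pow_two (by
      rw [← QuotientGroup.mk_pow, H3.mk_eq_one_SL2, ← c.one, map_pow, ha, sq, i.ss])).resolve_left
        fun e1 => i.ne (ha ▸ c.one.2 (H3.mk_eq_one_SL2.1 e1)), by rw [ha]; group⟩
  refine mm ft hO hC hL G t E L _ ⟨iv, tE, fun k hk => (d3 t (mem_zpowers t) k hk).symm, ce, odd,
    fun s hs => ?_, nL.le, nL.norm, fun g h1 h2 => mem_bot.1 (cl ▸ ⟨h1, h2⟩), oi, h8, F, _, _, rfl, ⟨e⟩⟩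
    ((normal_inv G).eq_bot_or_eq_top.resolve_left fun e => iv.ne (mem_bot.1 (e.le (subset_closure iv)))) h5
  obtain ⟨g, a, a1, a2⟩ := c1 t iv
  obtain ⟨g', b, b1, rfl⟩ := c1 s hs
  obtain ⟨y, rfl⟩ := H3.exists_conj_of_tr c.two a1 b1
  exact ⟨g' * GW.Px.cov e y * g⁻¹, by rw [← a2, map_mul, map_mul, map_inv]; group⟩

end Cfsg.GW2
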