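import Cfsg.Agent.H5.Block4

/-! Brauer's second main theorem for the union of blocks cut out by an integral class function. -/

set_option autoImplicit false
set_option linter.unusedSectionVars false

open scoped ComplexConjugate

namespace Cfsg.GW2.Bx

open Cfsg Cfsg.H4 Cfsg.H5 Subgroup

variable {G : Type} [Group G] [Fintype G] {p k : ℕ} {Γ : Type*} [LinearOrderedCommGroupWithZero Γ]
  {v : Valuation ℂ Γ}

theorem val_pr_of_ne {T : List ℂ} (hT : ∀ γ ∈ T, v γ = 1) {ω : ℂ} (h1 : v ω ≤ 1)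
    (h2 : v ω = 1 → ω ∈ T) : pr T ω ≠ 0 ↔ v ω < 1 := by
  refine ⟨fun h => by_contra fun h' => ?_, fun h h0 => ?_⟩
  · have h3 : v ω = 1 := le_antisymm h1 (not_lt.1 h')
    refine h (pr_eq_zero (h2 h3) fun h0 => ?_)
    rw [h0, map_zero] at h3
    exact zero_ne_one h3
  · have h3 := val_pr hT h
    rw [h0, map_zero] at h3
    exact zero_ne_one h3

theorem isBI_of_lists {z : MonoidAlgebra ℂ G} {ω : (G → ℂ) → ℂ}
    (hz : ∀ χ, IsIrrCharacter G χ → Eig χ z (ω χ)) (hω : ∀ χ, IsIrrCharacter G χ → v (ω χ) ≤ 1)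
    {T T' : List ℂ} (hT : ∀ γ ∈ T, v γ = 1) (h1 : ∀ χ, IsIrrCharacter G χ → v (ω χ) = 1 → ω χ ∈ T)
    (h2 : ∀ χ, IsIrrCharacter G χ → pr T (ω χ) ≠ 0 → pr T (ω χ) ∈ T') :
    IsBI (fun χ => v (ω χ) < 1) (1 - pr T' (pr T z)) := fun χ hχ => by
  have := isBI_one_sub_pr (fun χ hχ => (hz χ hχ).pr T) h2 χ hχ
  dsimp only at this
  rwa [val_pr_of_ne hT (hω χ hχ) (h1 χ hχ)] at this

/-- the central character of `χ` at `z` -/
noncomputable def om (z χ : G → ℂ) : ℂ := (∑ g, z g * χ g) / χ 1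

theorem val_om_le {z χ : G → ℂ} (hz : IsClassFunction G z) (hi : ∀ g, IsIntegral ℤ (z g))
    (hχ : IsIrrCharacter G χ) : v (om z χ) ≤ 1 :=
  val_le_one_of_isIntegral v (isIntegral_of_sum_mul hi hχ.ne_zero (hχ.sum_mul_apply_mul hz))

variable {u : G} [Fintype (centralizer ({u} : Set G))]

theorem exists_brRel (hp : p.Prime) (hv : v p < 1) (hu : u ^ p ^ k = 1) {z : G → ℂ}
    (hz : IsClassFunction G z) (hi : ∀ g, IsIntegral ℤ (z g)) :
    ∃ e f, BrRel v u e f ∧ IsBI (fun χ => v (om z χ) < 1) e ∧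
      IsBI (fun ψ => v (om (fun g : centralizer ({u} : Set G) => z g) ψ) < 1) f := by
  have hz' := hz.restrict (centralizer ({u} : Set G))
  have l1 := fun χ (hχ : IsIrrCharacter G χ) => val_om_le (v := v) hz hi hχ
  have l2 := fun χ (hχ : IsIrrCharacter (centralizer ({u} : Set G)) χ) =>
    val_om_le (v := v) hz' (fun g => hi g) hχ
  obtain ⟨T1, hT1⟩ := exists_list (om z) fun γ => v γ = 1
  obtain ⟨T2, hT2⟩ := exists_list (om fun g : centralizer ({u} : Set G) => z g) fun γ => v γ = 1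
  have hT : ∀ γ ∈ T1 ++ T2, v γ = 1 := fun γ h =>
    (List.mem_append.1 h).elim (fun h => ((hT1 γ).1 h).1) fun h => ((hT2 γ).1 h).1
  have m1 : ∀ χ, IsIrrCharacter G χ → v (om z χ) = 1 → om z χ ∈ T1 ++ T2 := fun χ hχ h =>
    List.mem_append_left _ ((hT1 _).2 ⟨h, χ, hχ, rfl⟩)
  have m2 : ∀ χ, IsIrrCharacter _ χ → v (om (fun g : centralizer ({u} : Set G) => z g) χ) = 1 →
      om (fun g : centralizer ({u} : Set G) => z g) χ ∈ T1 ++ T2 := fun χ hχ h =>
    List.mem_append_right _ ((hT2 _).2 ⟨h, χ, hχ, rfl⟩)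
  obtain ⟨S1, hS1⟩ := exists_list (fun χ => pr (T1 ++ T2) (om z χ)) fun γ => γ ≠ 0
  obtain ⟨S2, hS2⟩ := exists_list
    (fun χ => pr (T1 ++ T2) (om (fun g : centralizer ({u} : Set G) => z g) χ)) fun γ => γ ≠ 0
  refine ⟨_, _, brRel_one.sub (BrRel.pr hp hv hu (T := S1 ++ S2) (BrRel.pr hp hv hu (a := gaMk z)
    (b := gaMk fun g : centralizer ({u} : Set G) => z g)
    ⟨fun g => val_le_one_of_isIntegral v (hi g), fun g => val_le_one_of_isIntegral v (hi g),
      fun x => hz x u, fun h => by simp⟩ hT) fun γ h => ?_),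
    isBI_of_lists (fun χ hχ => eig_gaMk hχ hz) l1 hT m1 fun χ hχ h =>
      List.mem_append_left _ ((hS1 _).2 ⟨h, χ, hχ, rfl⟩),
    isBI_of_lists (fun χ hχ => eig_gaMk hχ hz') l2 hT m2 fun χ hχ h =>
      List.mem_append_right _ ((hS2 _).2 ⟨h, χ, hχ, rfl⟩)⟩
  rcases List.mem_append.1 h with h | h
  · obtain ⟨h0, χ, hχ, rfl⟩ := (hS1 γ).1 h
    exact val_pr hT ((val_pr_of_ne hT (l1 χ hχ) (m1 χ hχ)).1 h0)
  · obtain ⟨h0, χ, hχ, rfl⟩ := (hS2 γ).1 h
    exact val_pr hT ((val_pr_of_ne hT (l2 χ hχ) (m2 χ hχ)).1 h0)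

variable {B : (G → ℂ) → Prop} {B' : (centralizer ({u} : Set G) → ℂ) → Prop} {e : MonoidAlgebra ℂ G}
  {f : MonoidAlgebra ℂ (centralizer ({u} : Set G))}

open Classical in
theorem sum_bi (hp : p.Prime) (hv : v p < 1) (hu : u ^ p ^ k = 1) (hR : BrRel v u e f)
    (he : IsBI B e) (hf : IsBI B' f) {χ : G → ℂ} (hχ : IsIrrCharacter G χ)
    {s : centralizer ({u} : Set G)} {y : G} (hs : (s : G) = u * y) (hy : (orderOf y).Coprime p) :
    ∑ ψ : IrrCharacter (centralizer ({u} : Set G)),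
      (if B' ψ.1 then classInner (fun h : centralizer ({u} : Set G) => χ h) ψ.1 * ψ.1 s
        else 0) = if B χ then χ s else 0 := by
  have hc : Commute u y := by
    have h1 : (s : G) * u = u * s := mem_centralizer_singleton_iff.1 s.2
    rw [hs, mul_assoc] at h1
    exact (mul_left_cancel h1).symm
  have key : ∀ (a : MonoidAlgebra ℂ G) (a' b : MonoidAlgebra ℂ (centralizer ({u} : Set G))),
      BrRel v u a a' → VLe v 1 b → a * a = a → b * b = b → a' * b = 0 →
      (∀ x, x * a = a * x) → (∀ x, x * b = b * x) →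
      lin χ (a * gaIncl _ (MonoidAlgebra.single s 1 * b)) = 0 := by
    intro a a' b h hb ha hbb hab hac hbc
    have h1 := h.mul hp hv hu (brRel_gaIncl hb)
    have h2 := lin_single_mul_eq_zero hp hv (ε := a * gaIncl _ b) (s := s) ?_ h1.left ?_ ?_
      hχ.isClassFunction
    · rwa [map_mul (gaIncl _), gaIncl_single, ← mul_assoc, ← hac, mul_assoc]
    · rw [mul_assoc, ← mul_assoc _ a, hac, ← mul_assoc, ← mul_assoc, ha, mul_assoc, ← map_mul, hbb]
    · rw [← mul_assoc, hac, mul_assoc, mul_assoc, ← gaIncl_single, ← map_mul, ← map_mul, hbc]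
    · intro x
      by_cases hx : x ∈ centralizer ({u} : Set G)
      · left
        have := h1.cong ⟨x, hx⟩
        rw [hab] at this
        simpa using this
      · right
        rw [hs]
        exact dvd_of_not_commute hp hu hy hc (by rwa [mem_centralizer_singleton_iff] at hx)
  have h1 : lin χ (gaIncl _ (MonoidAlgebra.single s 1 * f)) =
      ∑ ψ : IrrCharacter (centralizer ({u} : Set G)), (if B' ψ.1 then
        classInner (fun h : centralizer ({u} : Set G) => χ h) ψ.1 * ψ.1 s else 0) := by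
    rw [lin_gaIncl, (hχ.isClassFunction.restrict _).eq_sum_irr, lin_sum_smul,
      ← (hχ.isClassFunction.restrict _).eq_sum_irr]
    refine Finset.sum_congr rfl fun ψ _ => ?_
    rw [hf.comm]
    split_ifs with hψ
    · rw [(hf ψ.1 ψ.2).1 hψ]; simp
    · rw [(hf ψ.1 ψ.2).2 hψ]; simp
  rw [← h1]
  split_ifs with hB
  · have h2 := key e f (1 - f) hR (vle_one.sub hR.right) he.idem
      (by rw [sub_mul, one_mul, mul_sub, mul_one, hf.idem, sub_self, sub_zero])
      (by rw [mul_sub, mul_one, hf.idem, sub_self]) he.comm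
      (fun x => by rw [mul_sub, sub_mul, hf.comm, mul_one, one_mul])
    rw [(he χ hχ).1 hB, one_mul, mul_sub, mul_one, map_sub, map_sub, gaIncl_single, lin_single,
      one_mul, sub_eq_zero] at h2
    exact h2.symm
  · have h2 := key (1 - e) (1 - f) f (brRel_one.sub hR) hR.right
      (by rw [sub_mul, one_mul, mul_sub, mul_one, he.idem, sub_self, sub_zero]) hf.idem
      (by rw [sub_mul, one_mul, hf.idem, sub_self])
      (fun x => by rw [mul_sub, sub_mul, he.comm, mul_one, one_mul]) hf.comm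
    rwa [Eig.one.sub ((he χ hχ).2 hB), sub_zero, one_mul] at h2

theorem section_zero (hp : p.Prime) (hv : v p < 1) (hu : u ^ p ^ k = 1) (hR : BrRel v u e f)
    (he : IsBI B e) (hf : IsBI B' f) {χ : G → ℂ} (hχ : IsIrrCharacter G χ)
    {ψ : centralizer ({u} : Set G) → ℂ} (hψ : IsIrrCharacter _ ψ) (h : ¬ (B χ ↔ B' ψ)) :
    ∑ y : centralizer ({u} : Set G), preg p y * (χ (u * y) * conj (ψ y)) = 0 := by
  classical
  have h1 : ∀ y : centralizer ({u} : Set G), preg p y * (χ (u * y) * conj (ψ y)) =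
      ∑ φ : IrrCharacter (centralizer ({u} : Set G)), (if (B χ ↔ B' φ.1) then
        classInner (fun h : centralizer ({u} : Set G) => χ h) φ.1 else 0) *
        (preg p y * (φ.1 (cself u * y) * conj (ψ y))) := fun y => by
    by_cases hy : (orderOf y).Coprime p
    · have h2 := sum_bi hp hv hu hR he hf hχ (s := cself u * y) (y := y) rfl
        (by rwa [Subgroup.orderOf_coe])
      have h3 := (hχ.isClassFunction.restrict (centralizer ({u} : Set G))).apply_eq_sum_irr
        (cself u * y)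
      have h4 : χ (u * y) = ∑ φ : IrrCharacter (centralizer ({u} : Set G)),
          (if (B χ ↔ B' φ.1) then
          classInner (fun h : centralizer ({u} : Set G) => χ h) φ.1 else 0) *
          φ.1 (cself u * y) := by
        by_cases hB : B χ
        · rw [if_pos hB] at h2
          refine h2.symm.trans (Finset.sum_congr rfl fun φ _ => ?_)
          simp [hB]
        · rw [if_neg hB] at h2
          refine h3.trans ?_
          refine (sub_zero _).symm.trans ((congrArg (_ - ·) h2.symm).trans ?_)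
          rw [← Finset.sum_sub_distrib]
          refine Finset.sum_congr rfl fun φ _ => ?_
          by_cases hφ : B' φ.1 <;> simp [hB, hφ]
      rw [h4, Finset.sum_mul, Finset.mul_sum]
      exact Finset.sum_congr rfl fun φ _ => by ring
    · simp [preg_of_not hy]
  simp only [h1]
  rw [Finset.sum_comm]
  refine Finset.sum_eq_zero fun φ _ => ?_
  rw [← Finset.mul_sum]
  split_ifs with hφ
  · obtain ⟨c, -, hc⟩ := φ.2.exists_mul_eq_of_mem_center (cself_mem_center u)
    have : ∑ y, preg p y * (φ.1 y * conj (ψ y)) = 0 := by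
      by_cases h1 : B' φ.1
      · exact hf.weak hp hv hR.right φ.2 hψ h1 fun h2 => h ⟨fun _ => h2, fun _ => hφ.2 h1⟩
      · have h2 : B' ψ := by_contra fun h2 =>
          h ⟨fun h => (h1 (hφ.1 h)).elim, fun h => (h2 h).elim⟩
        have := congrArg conj (hf.weak hp hv hR.right hψ φ.2 h2 h1)
        simpa [conj_preg, mul_comm] using this
    have h5 : ∑ y, preg p y * (φ.1 (cself u * y) * conj (ψ y)) =
        c * ∑ y, preg p y * (φ.1 y * conj (ψ y)) := by
      rw [Finset.mul_sum]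
      exact Finset.sum_congr rfl fun y _ => by rw [hc]; ring
    rw [h5, this, mul_zero, mul_zero]
  · rw [zero_mul]

/-- the dichotomy on the section of `u` -/
theorem dich (hp : p.Prime) (hv : v p < 1) (hu : u ^ p ^ k = 1) {z : G → ℂ}
    (hz : IsClassFunction G z) (hi : ∀ g, IsIntegral ℤ (z g)) {χ : G → ℂ}
    (hχ : IsIrrCharacter G χ) : ∃ b : Prop, ∀ ψ, IsIrrCharacter _ ψ →
      (b ↔ ¬ v (om (fun g : centralizer ({u} : Set G) => z g) ψ) < 1) →
      ∑ y : centralizer ({u} : Set G), preg p y * (χ (u * y) * conj (ψ y)) = 0 := by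
  obtain ⟨e, f, hR, he, hf⟩ := exists_brRel hp hv hu hz hi
  exact ⟨v (om z χ) < 1, fun ψ hψ h => section_zero hp hv hu hR he hf hχ hψ fun h' => by tauto⟩

/-- one class of nontrivial `2`-elements -/
structure OC (u : G) : Prop where
  uu : u * u = 1
  ne : u ≠ 1
  two : ∀ (y : G) (j : ℕ), y ^ 2 ^ j = 1 → y * y = 1
  one : ∀ s : G, s * s = 1 → s ≠ 1 → ∃ g, g * u * g⁻¹ = s

omit [Fintype (centralizer ({u} : Set G))]

theorem exists_odd_pow (two : ∀ (y : G) (j : ℕ), y ^ 2 ^ j = 1 → y * y = 1) (x : G) :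
    ∃ m, Odd m ∧ x ^ m * x ^ m = 1 := by
  obtain ⟨j, m, hm, e⟩ := Nat.exists_eq_two_pow_mul_odd (orderOf_pos x).ne'
  exact ⟨m, hm, two _ j (by rw [← pow_mul, mul_comm, ← e, pow_orderOf_eq_one])⟩

theorem cop_of_pow {x : G} {m : ℕ} (hm : Odd m) (h : x ^ m = 1) : (orderOf x).Coprime 2 :=
  (Nat.coprime_two_right.2 hm).coprime_dvd_left (orderOf_dvd_of_pow_eq_one h)

theorem OC.pow (h : OC u) : u ^ 2 ^ 1 = 1 := by rw [pow_one, sq, h.uu]

theorem OC.exists (h : OC u) {x : G} (hx : ¬ (orderOf x).Coprime 2) :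
    ∃ g y, (orderOf y).Coprime 2 ∧ y * u = u * y ∧ x = g * (u * y) * g⁻¹ := by
  obtain ⟨m, hm, e⟩ := exists_odd_pow h.two x
  obtain ⟨g, hg⟩ := h.one _ e fun e1 => hx (cop_of_pow hm e1)
  obtain ⟨j, hj⟩ := hm
  refine ⟨g, g⁻¹ * x ^ (m + 1) * g, cop_of_pow ⟨j, hj⟩ ?_, ?_, ?_⟩
  · have : (x ^ (m + 1)) ^ m = (x ^ m * x ^ m) ^ (j + 1) := by
      rw [← pow_mul, ← pow_add, ← pow_mul, hj]; congr 1; ring
    rw [show g⁻¹ * x ^ (m + 1) * g = g⁻¹ * x ^ (m + 1) * g⁻¹⁻¹ by rw [inv_inv], conj_pow, this, e]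
    simp
  · have : u = g⁻¹ * x ^ m * g := by rw [← hg]; group
    rw [this]; group
  · calc x = x ^ m * x ^ m * x := by rw [e, one_mul]
      _ = g * u * g⁻¹ * x ^ (m + 1) := by rw [hg, pow_succ, mul_assoc]
      _ = _ := by group

theorem OC.not_cop (h : OC u) {y : G} (hy : (orderOf y).Coprime 2) (hc : y * u = u * y) :
    ¬ (orderOf (u * y)).Coprime 2 := fun e => h.ne (by
  have := pPart_unique (p := 2) (u := u) (u' := 1) (y := y) (y' := u * y) (k' := 0) h.pow (by simp)
    hy e (show Commute y u from hc).symm (Commute.one_left _) (one_mul _).symm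
  exact this)

theorem OC.secInd_eq (h : OC u) [Fintype (centralizer ({u} : Set G))] (x : G) :
    secInd 2 u (fun _ => 1) x = 1 - preg 2 x := by
  by_cases hx : (orderOf x).Coprime 2
  · rw [preg_of hx, sub_self]
    refine secInd_eq_zero _ fun y hy hc e => h.not_cop hy hc.symm ?_
    obtain ⟨g, hg⟩ := isConj_iff.1 e
    rwa [← hg, ← MulAut.conj_apply, (MulAut.conj g).orderOf_eq]
  · obtain ⟨g, y, hy, hc, rfl⟩ := h.exists hx
    rw [preg_of_not hx, sub_zero, isClassFunction_secInd _ _ g]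
    exact secInd_apply h.pow (fun _ _ => rfl) (y := ⟨y, mem_centralizer_singleton_iff.2 hc⟩)
      (by rwa [← Subgroup.orderOf_coe])

/-- a character has norm `< 1` on the section -/
theorem OC.norm_lt (h : OC u) [Fintype (centralizer ({u} : Set G))] {χ : G → ℂ}
    (hχ : IsIrrCharacter G χ) :
    (∑ y : centralizer ({u} : Set G), preg 2 y * (χ (u * y) * conj (χ (u * y)))).re <
      Nat.card (centralizer ({u} : Set G)) := by
  have h1 := classInner_secInd_right (p := 2) (u := u) (fun _ => 1)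
    (χ := fun x => χ x * conj (χ x)) fun g a => by simp only [hχ.isClassFunction g a]
  have h2 := hχ.classInner_self
  simp only [map_one, mul_one] at h1
  rw [classInner_def] at h1 h2
  simp only [h.secInd_eq, map_sub, map_one, conj_preg, mul_sub, mul_one,
    Finset.sum_sub_distrib] at h1
  rw [h2] at h1
  have c1 := card_ne_zero_complex (centralizer ({u} : Set G))
  have c2 : (0 : ℝ) < Nat.card (centralizer ({u} : Set G)) := by exact_mod_cast Nat.card_pos
  have c3 : (0 : ℝ) < Nat.card G := by exact_mod_cast Nat.card_pos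
  have h3 : ∑ x, χ x * conj (χ x) * preg 2 x =
      ((∑ x, if (orderOf x).Coprime 2 then ‖χ x‖ ^ 2 else 0 : ℝ) : ℂ) := by
    push_cast
    refine Finset.sum_congr rfl fun x _ => ?_
    unfold preg
    split_ifs <;> simp [Complex.mul_conj, Complex.normSq_eq_norm_sq]
  have h4 : (0 : ℝ) < ∑ x, if (orderOf x).Coprime 2 then ‖χ x‖ ^ 2 else 0 :=
    Finset.sum_pos' (fun x _ => by split_ifs <;> positivity) ⟨1, Finset.mem_univ _, by
      have := hχ.apply_one_ne_zero
      simp only [orderOf_one, Nat.coprime_one_left_eq_true, if_true]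
      positivity⟩
  rw [h3, eq_inv_mul_iff_mul_eq₀ c1] at h1
  rw [← h1, ← Complex.ofReal_natCast, ← Complex.ofReal_natCast, ← Complex.ofReal_inv,
    ← Complex.ofReal_mul, ← Complex.ofReal_one, ← Complex.ofReal_sub, ← Complex.ofReal_mul,
    Complex.ofReal_re]
  have := mul_pos (inv_pos.2 c3) h4
  nlinarith

end Cfsg.GW2.Bx
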