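import Cfsg.Agent.GS.WB3

/-! Task BL, assembly. -/

set_option autoImplicit false
set_option linter.unusedSectionVars false

open scoped ComplexConjugate

namespace Cfsg.GW2

open Subgroup Cfsg.L0 Cfsg.H8 Cfsg.FT Cfsg.GJ Cfsg.H5 Cfsg.GW

namespace Bx

variable {G : Type} [Group G] [Finite G] {E L U P T Y : Subgroup G} {t v w x : G} {q n m : ℕ}
  {κ : G → ℂ}

theorem ci (h : WH t E L q) : GW.CI E t := ⟨h.iv.ss, h.tE, fun k hk => mem_cent1.2 (h.cm k hk)⟩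

theorem cent_eq (h : WH t E L q) : 𝒞₁ t = E ⊔ zpowers t :=
  le_antisymm (fun g hg => (ci h).ni.mem.2 (h.ce g (mem_cent1.1 hg)))
    (sup_le (ci h).ct (zpowers_le.2 (self_mem_cent1 t)))

theorem cardE (h : WU t E L U v w x q) : ♯E = ♯L * ♯U := by
  rw [← card_sup_of_inf (h.UE.trans h.nm) (eq_bot_iff.2 fun u hu => h.dis u hu.2 hu.1)]
  congr 2
  refine le_antisymm (fun g hg => ?_) (sup_le h.LE h.UE)
  obtain ⟨k, hk, u, hu, rfl⟩ := h.dec g hg
  exact mul_mem_sup hk hu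

theorem oq (h : W3 t E L U P T Y v w x q n m) : Odd q ∧ Odd m := by
  have := h.ks.q8
  have := h.hm
  exact ⟨Nat.odd_iff.2 (by omega), Nat.odd_iff.2 (by omega)⟩

theorem k4e (h : W3 t E L U P T Y v w x q n m) (z : ZF t E L U) : K4E E v w :=
  ⟨h.kp, h.LE h.vL, h.LE h.wL, z.two, fun s hs e s1 => by
    obtain ⟨y, hy, e1⟩ := h.tY.cnj s (z.inv s hs e) (by rw [pow_mul, sq, e, one_pow])
    refine ⟨y⁻¹, inv_mem (h.LE hy), ?_⟩
    rcases h.tY.eq_inv h.vY e1 h.kp.s1 h.kp.ss (conj_sq e y) with r | r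
    · exact absurd (by simpa using r) s1
    · rw [← r]; group,
  q * ♯T * m * ♯U, (((oq h).1.mul h.ks.oddD).mul (oq h).2).mul h.oU, by
    rw [cardE h.toWU, h.ks.cK, ← h.hm]; ring⟩

theorem TP (h : W3 t E L U P T Y v w x q n m) : T ≤ 𝒩 P := fun d hd =>
  mem_norm_of_cj_le fun y hy => by
    simpa [mul_assoc] using h.ks.nrm d hd _ (mem_cj'.1 hy)

theorem cardB (h : W3 t E L U P T Y v w x q n m) : ♯(P ⊔ T ⊔ U) = q * ♯T * ♯U := by
  rw [card_sup_of_inf (le_norm_sup h.UP h.UT) (eq_bot_iff.2 fun u hu =>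
    h.dis u hu.2 (sup_le h.ks.RK h.ks.DK hu.1)), card_sup_of_inf (TP h)
    (eq_bot_iff.2 fun u hu => h.ks.RD hu.1 hu.2), h.ks.cR]

theorem exists_St (h : W3 t E L U P T Y v w x q n m) : ∃ St, Irr E St ∧ St 1 = q ∧
    ind (P ⊔ T ⊔ U) E (cf1 (P ⊔ T ⊔ U)) = cf1 E + St ∧
    ∀ y ∈ E, ¬ Odd (orderOf y) → St y = -1 := by
  have l : P ⊔ T ⊔ U ≤ E := sup_le (sup_le (h.ks.RK.trans h.LE) (h.ks.DK.trans h.LE)) h.UE
  have o : Odd ♯(P ⊔ T ⊔ U) := cardB h ▸ ((oq h).1.mul h.ks.oddD).mul h.oU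
  have k : ∀ y, ¬ Odd (orderOf y) → ∀ g, g⁻¹ * y * g ∉ P ⊔ T ⊔ U := fun y e g e1 => e (by
    have := L0.odd_orderOf_of_mem o e1
    rwa [show g⁻¹ * y * g = MulAut.conj g⁻¹ y by simp, MulEquiv.orderOf_eq] at this)
  have wo : ¬ Odd (orderOf w) := fun e => h.kp.w1 (eq_one_of_odd e h.kp.ww)
  have c := (ch_cf1 _).ind l
  have d1 : dot E (ind (P ⊔ T ⊔ U) E (cf1 (P ⊔ T ⊔ U))) (cf1 E) = 1 := by
    rw [dot_ind_left l _ (cf_cf1 E), dot_congr (fun _ _ => rfl) fun y hy =>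
      (cf1_of_mem (l hy)).trans (cf1_of_mem hy).symm, dot_cf1_self]
  have d2 := perm_norm l (h.LE h.wL) (by simpa using k w wo 1) fun g hg e => by
    obtain ⟨k, hk, u, hu, rfl⟩ := h.dec g hg
    rcases h.ks.bru k hk with ⟨a, ha, d, hd, rfl⟩ | ⟨a, ha, b, hb, d, hd, rfl⟩
    · exact absurd (mul_mem_sup (mul_mem_sup ha hd) hu) e
    · exact ⟨a, mem_sup_left (mem_sup_left ha), _, mul_mem_sup (mul_mem_sup hb hd) hu, by group⟩
  refine ⟨_ - cf1 E, (c.sub_irr (irr_cf1 E) (by rw [d1]; exact one_ne_zero)).irr ?_, ?_,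
    by abel, fun y hy e => ?_⟩
  · rw [dot_sub_left, dot_sub_right, dot_sub_right, d2, d1, dot_symm_one d1, dot_cf1_self]; ring
  · have e := card_mul_ri l
    rw [cardB h, cardE h.toWU, h.ks.cK, mul_right_comm _ (q + 1), Nat.mul_right_inj
      (cardB h ▸ card_ne_zero' _)] at e
    rw [Pi.sub_apply, ind_one l, e, cf1_one, cf1_one]; push_cast; ring
  · rw [Pi.sub_apply, (cf1_sp _).ind_apply, sum_fs_eq_zero fun g _ => cf1_of_not_mem (k y e g),
      cf1_of_mem hy]; ring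

theorem exists_xi (h : WH t E L q) (z : ZF t E L U) (hκ : Lin E κ) (κL : ∀ k ∈ L, κ k = 1) :
    ∃ c, CF ⊤ c ∧ (∀ g, IsIntegral ℤ (c g)) ∧ (∀ y ∈ E, c y = (1 - preg 2 y) * conj (κ y)) ∧
      ∀ y ∈ E, c (t * y) = conj (κ y) := by
  have := Fintype.ofFinite G
  obtain ⟨η, h1, h2⟩ := (ci h).exists_ext hκ.ch
  have h3 : Lin (E ⊔ zpowers t) η := ⟨h1, by rw [(h2 1 (one_mem _)).1, hκ.one]⟩
  have k : ∀ a ∈ E ⊔ zpowers t, ∃ y ∈ E, η a = κ y ∧ a * a = y * y := fun a ha => by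
    rcases (ci h).ni.mem.1 ha with e | e
    · exact ⟨a, e, (h2 a e).1, rfl⟩
    · refine ⟨_, e, by rw [← (h2 _ e).2, (ci h).ni.tl], ?_⟩
      rw [mul_assoc, ← mul_assoc a, (ci h).cm ha, mul_assoc, (ci h).ni.tl]
  obtain ⟨j, hj⟩ := h.oi
  have k1 : ∀ y ∈ E, κ y = (κ (y * y)) ^ (j + 1) := fun y hy => by
    have := κL _ (pow_relIndex_mem h.nm hy)
    rw [hκ.map_pow hy, hj] at this
    rw [hκ.map_mul hy hy]
    linear_combination (-κ y) * this
  obtain ⟨c, c1, c2, c3⟩ := exists_cls_ext {a | a ∈ E ⊔ zpowers t ∧ ¬ Odd (orderOf a)} (cc η)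
    fun a ha g hg => by
      obtain ⟨y, y1, y2, y3⟩ := k a ha.1
      obtain ⟨y', z1, z2, z3⟩ := k _ hg.1
      obtain ⟨i, hi, e⟩ := exists_odd_pow z.two a
      have e1 : y' * y' = g * (y * y) * g⁻¹ := by rw [← z3, ← y3]; group
      have e2 := κL _ (z.fz (y * y) (mul_mem y1 y1) (cop_iff.1 (cop_of_pow hi (by
        rw [← y3, (Commute.refl a).mul_pow, e]))) g (e1 ▸ mul_mem z1 z1))
      rw [← e1, hκ.map_mul (inv_mem (mul_mem y1 y1)) (mul_mem z1 z1), hκ.map_inv (mul_mem y1 y1),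
        inv_mul_eq_one₀ (hκ.ne_zero (mul_mem y1 y1))] at e2
      rw [aut_apply, aut_apply, y2, z2, k1 y y1, k1 y' z1, e2]
  refine ⟨c, c1, fun g => ?_, fun y hy => ?_, fun y hy => ?_⟩
  · rcases c3 g with e | ⟨a, -, -, -, e⟩
    · rw [e]; exact isIntegral_zero
    · rw [e]; exact (h3.vch.aut _).isIntegral a
  · by_cases o : Odd (orderOf y)
    · rw [preg_odd o, sub_self, zero_mul]
      refine (c3 y).resolve_right fun ⟨a, ha, g, e, _⟩ => ha.2 ?_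
      rwa [← e, ← MulAut.conj_apply, MulEquiv.orderOf_eq] at o
    · rw [c2 y ⟨mem_sup_left hy, o⟩, preg_even o, aut_apply, (h2 y hy).1]; simp
  · rw [c2 _ ⟨(ci h).ni.tmul hy, not_odd_mul (ci h) hy⟩, aut_apply, (h2 y hy).2]

end Bx

open Bx in
theorem taskBL : TaskBL := by
  intro G _ _ t v w x E L U P T Y q n m h κ θ a b c hκ κL hθ θe ha hb hc eq hne
  have H : WH t E L q := h.toWH
  have i := ci H
  have hC := cent_eq H
  have k := k4e h.toW3 h.toZF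
  obtain ⟨St, hS, S1, eS, Se⟩ := exists_St h.toW3
  obtain ⟨φ₁, φ₂, B⟩ := k.exists_B4 hS Se
  obtain ⟨Ξ, x1, x2, x3, x4⟩ := exists_xi H h.toZF hκ κL
  have di := fun χ (hχ : Dirr ⊤ χ) => dichE i hC k hκ x1 x2 x3 x4 hχ
  have nr := fun χ (hχ : Dirr ⊤ χ) => Dk_nrm i hC
    ⟨h.iv.ss, h.iv.ne, h.two, fun s e1 e2 => h.one s ⟨e1, e2⟩⟩ hκ hχ
  have t1 : Irr E (cc κ * θ) := hθ.lin_mul (hκ.aut _)
  have t2 : ∀ y ∈ E, ¬ Odd (orderOf y) → (cc κ * θ) y = 0 := fun y hy e => by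
    rw [Pi.mul_apply, θe y hy (Nat.not_odd_iff_even.1 e), mul_zero]
  have t3 : dot E (cc κ * θ) (ev E) = 0 := by
    have := k.ev_of t2
    exact (mul_eq_zero.1 this).resolve_left (by norm_num)
  -- the second alternative on signed characters
  have II : ∀ D, (∀ φ, Irr E φ → dot E φ (ev E) ≠ 0 → dot E (preg 2 * D) φ = 0) → ∀ ψ, Dirr E ψ →
      (∀ y ∈ E, ¬ Odd (orderOf y) → ψ y = 1) → dot E (preg 2 * D) ψ = 0 := fun D e ψ p1 p2 => by
    have p3 : dot E ψ (ev E) ≠ 0 := fun e1 => by simpa [e1] using k.ev_of p2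
    rcases p1 with r | r
    · exact e ψ r p3
    · simpa [dot_neg_right] using e _ r (by rwa [dot_neg_left, neg_ne_zero])
  have dc := II _ ((di c hc).resolve_left fun e => hne (by
    have := e _ t1 t3
    rw [dot_od t2, map_zero, zero_mul, sub_zero, dot_def] at this
    rw [dot_def, ← this]
    congr 1
    refine sum_fs_congr fun y hy => ?_
    rw [Dk_apply hy, Pi.mul_apply, map_mul, aut_apply, Complex.conj_conj]
    linear_combination (-(c (t * y) * conj (θ y))) * kk hκ hy))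
  have key : ∀ ψ, Dirr E ψ → (∀ y ∈ E, ¬ Odd (orderOf y) → ψ y = 1) →
      4 * dot E (preg 2 * Dk E t κ a) ψ + 4 * dot E (preg 2 * Dk E t κ b) ψ =
        4 * dot E (cf1 E + St) ψ := fun ψ p1 p2 => by
    have e1 := dot_od_congr (φ := Dk E t κ a + Dk E t κ b - Dk E t κ c)
      (φ' := cf1 E + St - cc κ * θ) (fun y hy o => by
        have := eq y hy o
        rw [eS] at this
        simp only [Pi.add_apply, Pi.sub_apply, Pi.mul_apply, Dk_apply hy, aut_apply] at this ⊢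
        linear_combination conj (κ y) * this + (cf1 E y + St y) * kk hκ hy) ψ
    have e2 : dot E (cc κ * θ) ψ = 0 := by_contra fun e => by
      have r0 := t2 v k.vE k.ve
      have r1 := p2 v k.vE k.ve
      rcases t1.dirr.eq_or_neg p1 e with r | r <;> rw [r] at r0 <;> simp [r1] at r0
    have e3 : 4 * dot E (cf1 E + St) (ev E) = 0 := k.ev_of fun y hy e => by
      rw [Pi.add_apply, Se y hy e, cf1_of_mem hy]; ring
    rw [dot_od p2 (_ - cc κ * θ), mul_sub, mul_add, dot_sub_left, dot_add_left, dc ψ p1 p2,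
      dot_sub_left, dot_sub_left, e2, t3, map_one] at e1
    linear_combination 4 * e1 - e3
  have a4 : dot E St (cf1 E) = 0 := hS.dot_cf1 fun e => by
    have := Se v k.vE k.ve
    rw [e, cf1_of_mem k.vE] at this
    norm_num at this
  have e0 : ∀ y ∈ E, ¬ Odd (orderOf y) → cf1 E y = 1 := fun y hy _ => cf1_of_mem hy
  have k0 := key _ (irr_cf1 E).dirr e0
  have k1 := key _ B.d1 B.e1
  have k2 := key _ B.d2 B.e2
  rw [dot_add_left, dot_cf1_self, a4] at k0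
  rw [dot_add_left, dot_symm_zero B.o1, dot_symm_zero B.s1] at k1
  rw [dot_add_left, dot_symm_zero B.o2, dot_symm_zero B.s2] at k2
  have co : ∀ χ, Dirr ⊤ χ → ∃ x₀ x₁ x₂ : ℤ,
      4 * dot E (preg 2 * Dk E t κ χ) (cf1 E) = (3 * x₀ - x₁ - x₂ : ℤ) ∧
      4 * dot E (preg 2 * Dk E t κ χ) φ₁ = (3 * x₁ - x₀ - x₂ : ℤ) ∧
      4 * dot E (preg 2 * Dk E t κ χ) φ₂ = (3 * x₂ - x₀ - x₁ : ℤ) ∧
      4 * (x₀ ^ 2 + x₁ ^ 2 + x₂ ^ 2) - (x₀ + x₁ + x₂) ^ 2 < 8 ∧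
      (x₀ = 0 ∨ χ t = x₀ + x₁ * φ₁ 1 + x₂ * φ₂ 1) := fun χ hχ => by
    rcases di χ hχ with r | r
    · obtain ⟨x₀, x₁, x₂, e⟩ := B.coord k hS Se (Dk_vch i hκ hχ.vch) r
      obtain ⟨g0, g1, g2, g3⟩ := B.gram k e
      refine ⟨x₀, x₁, x₂, g0, g1, g2, ?_, Or.inr ?_⟩
      · have := congrArg Complex.re g3
        rw [Complex.intCast_re, show (4 : ℂ) = ((4 : ℝ) : ℂ) by norm_num, Complex.re_ofReal_mul] at this
        have n1 := nr χ hχ
        exact_mod_cast (show ((4 * (x₀ ^ 2 + x₁ ^ 2 + x₂ ^ 2) - (x₀ + x₁ + x₂) ^ 2 : ℤ) : ℝ) < 8 by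
          linarith)
      · simpa [Dk_apply (one_mem E), hκ.one] using e 1 (one_mem _) (by simp)
    · exact ⟨0, 0, 0, by simp [II _ r _ (irr_cf1 E).dirr e0], by simp [II _ r _ B.d1 B.e1],
        by simp [II _ r _ B.d2 B.e2], by simp, Or.inl rfl⟩
  obtain ⟨x₀, x₁, x₂, a0, a1, a2, a3, a5⟩ := co a ha
  obtain ⟨y₀, y₁, y₂, b0, b1, b2, b3, b5⟩ := co b hb
  rw [a0, b0, add_zero, mul_one] at k0
  rw [a1, b1, add_zero, mul_zero] at k1
  rw [a2, b2, add_zero, mul_zero] at k2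
  obtain ⟨rfl, rfl, r1, r2, rfl, rfl⟩ := num (by exact_mod_cast k0) (by exact_mod_cast k1)
    (by exact_mod_cast k2) a3 b3
  rw [or_iff_right one_ne_zero] at a5 b5
  obtain ⟨n₁, m1, m2⟩ := k.mod4 B.d1.vch B.e1
  obtain ⟨n₂, m3, m4⟩ := k.mod4 B.d2.vch B.e2
  have z := congrFun B.eq 1
  simp only [Pi.smul_apply, Pi.add_apply, Pi.sub_apply, ev, res_one, Pi.one_apply, cf1_one, S1,
    preg_odd (show Odd (orderOf (1 : G)) by simp), sub_self, smul_zero] at z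
  rcases r1 with rfl | rfl <;> rcases r2 with rfl | rfl <;> push_cast at a5 b5
  · exact Or.inl ⟨by rw [a5]; ring, by rw [b5]; linear_combination -z⟩
  · exact Or.inr (Or.inr ⟨1 + n₂, 1 + n₁, by rw [a5, m3]; push_cast; ring,
      by rw [b5, m1]; push_cast; ring, by omega, by omega⟩)
  · exact Or.inr (Or.inr ⟨1 + n₁, 1 + n₂, by rw [a5, m1]; push_cast; ring,
      by rw [b5, m3]; push_cast; ring, by omega, by omega⟩)
  · exact Or.inr (Or.inl ⟨by rw [a5]; linear_combination -z, by rw [b5]; ring⟩)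

end Cfsg.GW2
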