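import Cfsg.Agent.GS.WO3

/-! Task CH: virtual characters of small norm, and the arithmetic. -/

set_option autoImplicit false
set_option linter.unusedSectionVars false

open scoped ComplexConjugate

namespace Cfsg.GW2.Cx

open Subgroup Cfsg.L0 Cfsg.H8 Cfsg.FT Cfsg.GJ Cfsg.GW2.Bx Cfsg.GW2.Ox

theorem endgame {q i : ℕ} {x y y₀ s₁ s₂ k₀ k₁ k₂ : ℤ} (q8 : q % 8 = 3)
    (e1 : i * (y₀ - q) ^ 2 = (q * (q - 1) * (q + 1) : ℤ) * (q - 1) * y₀ * (y₀ + 1))
    (e2 : (s₁ ^ 2 * y + s₂ ^ 2 * x) * y₀ = (y₀ + q ^ 2) * (x * y)) (e3 : x + y = 1 + y₀)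
    (e4 : s₁ + s₂ = q + 1) (m0 : y₀ + 7 * q = 8 * k₀) (m1 : x + 7 * s₁ = 8 * k₁)
    (m2 : y + 7 * s₂ = 8 * k₂) (h : s₁ = 1 ∨ s₁ % 4 = 2) : s₁ = 1 ∧ x = 1 := by
  obtain ⟨c, hc⟩ : ∃ c : ℤ, (q : ℤ) = 8 * c + 3 := ⟨q / 8, by omega⟩
  obtain ⟨k, rfl⟩ : ∃ k : ℤ, y₀ = q + 8 * k := ⟨k₀ - q, by omega⟩
  have ko : Odd k := by
    have e : i * k ^ 2 = (8 * c + 3) * (4 * c + 1) ^ 2 * (2 * c + 1) * (8 * c + 3 + 8 * k) *
        (2 * c + 1 + 2 * k) := by
      rw [hc] at e1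
      exact mul_left_cancel₀ (by norm_num : (64 : ℤ) ≠ 0) (by linear_combination e1)
    have o : Odd (i * k ^ 2 : ℤ) := by
      rw [e]
      exact ((((show Odd (8 * c + 3) from ⟨4 * c + 1, by ring⟩).mul
        (show Odd (4 * c + 1) from ⟨2 * c, by ring⟩).pow).mul ⟨c, rfl⟩).mul
        ⟨4 * c + 1 + 4 * k, by ring⟩).mul ⟨c + k, by ring⟩
    exact (Int.odd_pow' two_ne_zero).1 (Int.odd_mul.1 o).2
  obtain ⟨k', rfl⟩ := ko
  rcases h with rfl | h
  · refine ⟨rfl, by_contra fun x1 => ?_⟩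
    obtain rfl : s₂ = q := by omega
    obtain ⟨l, rfl⟩ : ∃ l : ℤ, x = 1 + 8 * l := ⟨k₁ - 1, by omega⟩
    obtain rfl : y = q + 8 * (2 * k' + 1) - 8 * l := by omega
    have l0 : l ≠ 0 := by rintro rfl; simp at x1
    have e : l * (q ^ 2 + q + 8 * (2 * k' + 1)) = (2 * k' + 1) * (2 * q + 8 * (2 * k' + 1)) := by
      apply mul_left_cancel₀ (mul_ne_zero (by norm_num : (64 : ℤ) ≠ 0) l0)
      linear_combination e2
    rw [hc] at e
    have : 4 * (l * (16 * c ^ 2 + 14 * c + 3 + 2 * (2 * k' + 1)) -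
      ((2 * k' + 1) * (4 * c + 1 + 2 * (2 * k' + 1)) + k')) = 2 := by linear_combination e
    omega
  · exfalso
    obtain ⟨a, rfl⟩ : ∃ a : ℤ, s₁ = 4 * a + 2 := ⟨s₁ / 4, by omega⟩
    obtain rfl : s₂ = 4 * (2 * c - a) + 2 := by omega
    obtain ⟨x', rfl⟩ : ∃ x' : ℤ, x = 2 * (2 * a + 1 + 4 * x') := ⟨k₁ - 4 * a - 2, by omega⟩
    obtain ⟨y', rfl⟩ : ∃ y' : ℤ, y = 2 * (2 * (2 * c - a) + 1 + 4 * y') :=
      ⟨k₂ - 4 * (2 * c - a) - 2, by omega⟩
    rw [hc] at e2 e3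
    have e5 : (8 * c + 3 + 8 * (2 * k' + 1)) * ((2 * a + 1) * y' - (2 * (2 * c - a) + 1) * x') ^ 2 =
        (2 * a + 1 + 4 * x') * (2 * (2 * c - a) + 1 + 4 * y') * (2 * k' + 1) ^ 2 := by
      have e6 : y' = 2 * k' + 1 - x' := by omega
      subst e6
      exact mul_left_cancel₀ (by norm_num : (256 : ℤ) ≠ 0)
        (by linear_combination (8 * c + 4 + 8 * (2 * k' + 1)) * e2)
    generalize (2 * a + 1) * y' - (2 * (2 * c - a) + 1) * x' = W at e5
    have e7 : (3 * W ^ 2) % 4 = 1 := by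
      have : 3 * W ^ 2 = 1 + 4 * ((2 * a + 1 + 4 * x') * (2 * (2 * c - a) + 1 + 4 * y') * (k' ^ 2 + k') +
          x' * (2 * (2 * c - a) + 1 + 4 * y') + (2 * a + 1) * y' + a * (2 * c - a) + c -
          (2 * c + 2 * (2 * k' + 1)) * W ^ 2) := by linear_combination e5
      omega
    rcases Int.even_or_odd' W with ⟨j, rfl | rfl⟩
    · have : 3 * (2 * j) ^ 2 = 4 * (3 * j ^ 2) := by ring
      omega
    · have : 3 * (2 * j + 1) ^ 2 = 4 * (3 * j ^ 2 + 3 * j) + 3 := by ring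
      omega

variable {G : Type} [Group G] [Finite G] {t : G} {s s' p : ℕ} {α β γ δ ε e e' f f' α' : G → ℂ}

/-- `α` is a sum of two signed irreducible characters with value `s` at `t` -/
structure Pa (t : G) (s : ℕ) (α e e' : G → ℂ) : Prop where
  de : Dirr ⊤ e
  de' : Dirr ⊤ e'
  o : dot ⊤ e e' = 0
  eq : α = e + e'
  et : e t = s
  et' : e' t = s

theorem Pa.symm (h : Pa t s α e e') : Pa t s α e' e :=
  ⟨h.de', h.de, dot_symm_zero h.o, h.eq.trans (add_comm _ _), h.et', h.et⟩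

theorem Pa.dot_self (h : Pa t s α e e') : dot ⊤ α e = 1 := by
  rw [h.eq, dot_add_left, h.de.dot_self, h.symm.o, add_zero]

theorem exists_pa (hI : ∀ s : G, IsConj t s ↔ s * s = 1 ∧ s ≠ 1) (hα : VCh ⊤ α)
    (a2 : dot ⊤ α α = 2) (α1 : α 1 = 0) (αt : α t = 2 * s) (s0 : s ≠ 0) (αA : dot ⊤ α acnt = 0) :
    ∃ e e', Pa t s α e e' := by
  obtain ⟨a, b, ha, hb, o, rfl⟩ := hα.exists_add_of_two a2
  have da := dot_acnt hI ha
  have db := dot_acnt hI hb
  have i0 : (Nat.card {s // IsConj t s} : ℂ) ≠ 0 := Nat.cast_ne_zero.2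
    (Nat.card_ne_zero.2 ⟨⟨⟨t, IsConj.refl t⟩⟩, inferInstance⟩)
  rw [dot_add_left] at αA
  rw [Pi.add_apply] at α1 αt
  have e3 : (a t + b t) * (a t - b t) = 0 := by
    apply mul_left_cancel₀ (pow_ne_zero 2 i0)
    linear_combination db - da + (Nat.card G) * a 1 * αA - dot ⊤ b acnt * (Nat.card G) * α1
  have e4 : a t - b t = 0 := (mul_eq_zero.1 e3).resolve_left (by rw [αt]; simpa using s0)
  exact ⟨a, b, ha, hb, o, rfl, by linear_combination (αt + e4) / 2, by linear_combination (αt - e4) / 2⟩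

theorem Pa.orth (h : Pa t s α e e') (h' : Pa t s' β f f') (s0 : s ≠ 0) (o : dot ⊤ α β = 0) :
    dot ⊤ e f = 0 := by
  have k : ∀ {x y : G → ℂ}, Dirr ⊤ x → Dirr ⊤ y → x t = s → y t = s' → ∃ n : ℕ, dot ⊤ x y = n :=
    fun hx hy a b => by
      rcases hx.dot_cases hy with e1 | e1 | e1
      exacts [⟨0, by simpa using e1⟩, ⟨1, by simpa using e1.2⟩, absurd (by
        rw [e1.1, Pi.neg_apply, b] at a
        have : ((s + s' : ℕ) : ℂ) = 0 := by push_cast; linear_combination -a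
        have := Nat.cast_eq_zero.1 this
        omega) s0]
  obtain ⟨n1, e1⟩ := k h.de h'.de h.et h'.et
  obtain ⟨n2, e2⟩ := k h.de h'.de' h.et h'.et'
  obtain ⟨n3, e3⟩ := k h.de' h'.de h.et' h'.et
  obtain ⟨n4, e4⟩ := k h.de' h'.de' h.et' h'.et'
  rw [h.eq, h'.eq, dot_add_left, dot_add_right, dot_add_right, e1, e2, e3, e4] at o
  have : n1 + n2 + (n3 + n4) = 0 := by exact_mod_cast o
  rw [e1, show n1 = 0 by omega, Nat.cast_zero]

theorem Pa.pick (h : Pa t s α e e') (hε : VCh ⊤ ε) (e1 : dot ⊤ ε α = 1) :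
    ∃ f f', Pa t s α f f' ∧ ∃ k : ℤ, 1 ≤ k ∧ dot ⊤ ε f = k := by
  obtain ⟨a, ha⟩ := hε.dot_int h.de.vch
  obtain ⟨b, hb⟩ := hε.dot_int h.de'.vch
  rw [h.eq, dot_add_right, ha, hb] at e1
  have : a + b = 1 := by exact_mod_cast e1
  by_cases e2 : 1 ≤ a
  exacts [⟨_, _, h, a, e2, ha⟩, ⟨_, _, h.symm, b, by omega, hb⟩]

theorem nonneg_of_dot {k : ℤ} (h : dot ⊤ δ δ = k) : 0 ≤ k := by
  have := nrm_nonneg ⊤ δ
  rw [nrm_of_dot (c := k) (by simpa using h)] at this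
  exact_mod_cast this

theorem Pa.perp (h : Pa t s α e e') (hδ : VCh ⊤ δ) (d2 : dot ⊤ δ δ = 2) (δt : δ t ≠ 0)
    (o : dot ⊤ δ α = 0) : dot ⊤ δ e = 0 := by
  obtain ⟨a, ha⟩ := hδ.dot_int h.de.vch
  have hb : dot ⊤ δ e' = (-a : ℤ) := by
    rw [h.eq, dot_add_right, ha] at o
    push_cast; linear_combination o
  have e1 : dot ⊤ (δ - a • e + a • e') (δ - a • e + a • e') = (2 - 2 * a ^ 2 : ℤ) := by
    simp only [dot_add_left, dot_add_right, dot_sub_left, dot_sub_right, dot_zsmul_left,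
      dot_zsmul_right, d2, ha, hb, dot_symm_int ha, dot_symm_int hb, h.de.dot_self, h.de'.dot_self,
      h.o, h.symm.o]
    push_cast; ring
  have e2 := nonneg_of_dot e1
  by_contra hn
  have a0 : a ≠ 0 := fun e => hn (by rw [ha, e, Int.cast_zero])
  have e3 : 2 - 2 * a ^ 2 = 0 := by have := Int.one_le_abs a0; nlinarith [sq_abs a]
  have := congrFun ((sp_top _).eq_zero_of_dot (e1.trans (by rw [e3, Int.cast_zero]))) t
  simp only [Pi.add_apply, Pi.sub_apply, Pi.smul_apply, h.et, h.et', sub_add_cancel] at this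
  exact δt this

/-- the family of pairs and the character `ε` -/
structure Fam (t : G) (p s s' : ℕ) (a f f' : ℕ → G → ℂ) (α' g g' ε : G → ℂ) : Prop where
  pa : ∀ j < p, Pa t s (a j) (f j) (f' j)
  pa' : Pa t s' α' g g'
  eq : ε = ∑ j ∈ Finset.range p, f j - g
  e1 : ∀ j < p, dot ⊤ ε (f j) = 1
  e0 : ∀ j < p, dot ⊤ ε (f' j) = 0

theorem exists_fam {a : ℕ → G → ℂ} (s0 : s ≠ 0) (h : ∀ j < p, ∃ e e', Pa t s (a j) e e')
    (h' : ∃ e e', Pa t s' α' e e') (o : ∀ i < p, ∀ j < p, i ≠ j → dot ⊤ (a i) (a j) = 0)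
    (o' : ∀ j < p, dot ⊤ (a j) α' = 0) (hε : VCh ⊤ ε) (ee : dot ⊤ ε ε = p + 1)
    (ea : ∀ j < p, dot ⊤ ε (a j) = 1) (ea' : dot ⊤ ε α' = -1) :
    ∃ f f' g g', Fam t p s s' a f f' α' g g' ε := by
  have k : ∀ j, ∃ f f', j < p → Pa t s (a j) f f' ∧ ∃ k : ℤ, 1 ≤ k ∧ dot ⊤ ε f = k := fun j => by
    by_cases hj : j < p
    · obtain ⟨e, e', h1⟩ := h j hj
      obtain ⟨f, f', h2⟩ := h1.pick hε (ea j hj)
      exact ⟨f, f', fun _ => h2⟩
    · exact ⟨0, 0, fun e => absurd e hj⟩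
  choose f f' hf using k
  have k : ∀ j, ∃ k : ℤ, j < p → 1 ≤ k ∧ dot ⊤ ε (f j) = k := fun j => by
    by_cases hj : j < p
    · obtain ⟨k, hk⟩ := (hf j hj).2
      exact ⟨k, fun _ => hk⟩
    · exact ⟨0, fun e => absurd e hj⟩
  choose k hk using k
  obtain ⟨e, e', h1⟩ := h'
  obtain ⟨g, g', h2, l, l1, l2⟩ := h1.pick hε.neg (by rw [dot_neg_left, ea', neg_neg])
  rw [dot_neg_left, neg_eq_iff_eq_neg, ← Int.cast_neg] at l2
  have m : ∀ {j}, j ∈ Finset.range p → j < p := Finset.mem_range.1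
  have ff : ∀ j < p, dot ⊤ (∑ j ∈ Finset.range p, f j) (f j) = 1 := fun j hj => by
    rw [dot_sum_of_orth (Finset.mem_range.2 hj) fun i hi e =>
      (hf i (m hi)).1.orth (hf j hj).1 s0 (o i (m hi) j hj e), (hf j hj).1.de.dot_self]
  have fg : ∀ j < p, dot ⊤ (f j) g = 0 := fun j hj => (hf j hj).1.orth h2 s0 (o' j hj)
  have s1 : dot ⊤ (∑ j ∈ Finset.range p, f j) (∑ j ∈ Finset.range p, f j) = p := by
    rw [dot_sum_right, Finset.sum_congr rfl fun j hj => ff j (m hj)]; simp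
  have s2 : dot ⊤ (∑ j ∈ Finset.range p, f j) g = 0 := by
    rw [dot_sum_left, Finset.sum_eq_zero fun j hj => fg j (m hj)]
  have s3 : dot ⊤ ε (∑ j ∈ Finset.range p, f j) = (∑ j ∈ Finset.range p, k j : ℤ) := by
    rw [dot_sum_right, Finset.sum_congr rfl fun j hj => (hk j (m hj)).2]; simp
  have s4 : (p : ℤ) ≤ ∑ j ∈ Finset.range p, k j := by
    simpa using Finset.sum_le_sum (s := Finset.range p) fun j hj => (hk j (m hj)).1
  have z : ε = ∑ j ∈ Finset.range p, f j - g := by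
    generalize ∑ j ∈ Finset.range p, f j = S at *
    generalize ∑ j ∈ Finset.range p, k j = K at *
    have e1 : dot ⊤ (ε - (S - g)) (ε - (S - g)) = (2 * p + 2 - 2 * K - 2 * l : ℤ) := by
      simp only [dot_sub_left, dot_sub_right, ee, s1, s2, s3, l2, dot_symm_zero s2, dot_symm_int s3,
        dot_symm_int l2, h2.de.dot_self]
      push_cast; ring
    have e2 := nonneg_of_dot e1
    exact sub_eq_zero.1 ((sp_top _).eq_zero_of_dot
      (e1.trans (by rw [show 2 * p + 2 - 2 * K - 2 * l = 0 by omega, Int.cast_zero])))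
  have z1 : ∀ j < p, dot ⊤ ε (f j) = 1 := fun j hj => by
    rw [z, dot_sub_left, ff j hj, dot_symm_zero (fg j hj), sub_zero]
  refine ⟨f, f', g, g', fun j hj => (hf j hj).1, h2, z, z1, fun j hj => ?_⟩
  have := ea j hj
  rw [(hf j hj).1.eq, dot_add_right, z1 j hj] at this
  linear_combination this

section

variable {a F F' : ℕ → G → ℂ} {g g' : G → ℂ} (h : Fam t p s s' a F F' α' g g' ε)
include h

theorem Fam.gam (s0 : s ≠ 0) (o : ∀ i < p, ∀ j < p, i ≠ j → dot ⊤ (a i) (a j) = 0)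
    (o' : ∀ j < p, dot ⊤ (a j) α' = 0) {j : ℕ} (hj : j < p) (hγ : VCh ⊤ γ) (g3 : dot ⊤ γ γ = 3)
    (γt : γ t = 0) (g1 : dot ⊤ γ (a j) = -1) (g2 : ∀ i < p, i ≠ j → dot ⊤ γ (a i) = 0)
    (g4 : dot ⊤ γ α' = 0) (g5 : dot ⊤ γ ε = -1) : dot ⊤ (γ + F j) (γ + F j) = 2 := by
  have P := h.pa j hj
  have k : ∀ {e}, Dirr ⊤ e → ∃ m : ℤ, dot ⊤ γ e = m ∧ -1 ≤ m ∧
      (m = -1 → dot ⊤ (γ + e) (γ + e) = 2) := fun {e} he => by
    obtain ⟨m, hm⟩ := hγ.dot_int he.vch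
    refine ⟨m, hm, ?_, fun e1 => ?_⟩
    · have : dot ⊤ (γ - m • e) (γ - m • e) = (3 - m ^ 2 : ℤ) := by
        simp only [dot_sub_left, dot_sub_right, dot_zsmul_left, dot_zsmul_right, g3, hm,
          dot_symm_int hm, he.dot_self]
        push_cast; ring
      have := nonneg_of_dot this
      nlinarith
    · simp only [dot_add_left, dot_add_right, g3, hm, dot_symm_int hm, he.dot_self, e1]
      push_cast; ring
  obtain ⟨m, m1, m2, m3⟩ := k P.de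
  obtain ⟨m', n1, n2, n3⟩ := k P.de'
  have e := g1
  rw [P.eq, dot_add_right, m1, n1] at e
  have e1 : m + m' = -1 := by exact_mod_cast e
  refine m3 (by_contra fun hn => ?_)
  have d2 := n3 (by omega)
  have hδ := hγ.add P.de'.vch
  have δt : (γ + F' j) t ≠ 0 := by rw [Pi.add_apply, γt, P.et', zero_add]; exact Nat.cast_ne_zero.2 s0
  have z : dot ⊤ (γ + F' j) ε = 0 := by
    rw [h.eq, dot_sub_right, dot_sum_right, Finset.sum_eq_zero fun i hi => by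
      have hi' := Finset.mem_range.1 hi
      refine (h.pa i hi').perp hδ d2 δt ?_
      rw [dot_add_left]
      by_cases e : i = j
      · rw [e, g1, dot_symm_one P.symm.dot_self, neg_add_cancel]
      · rw [g2 i hi' e, (h.pa i hi').eq, dot_add_right, P.symm.orth (h.pa i hi') s0 (o j hj i hi' (Ne.symm e)),
          P.symm.orth (h.pa i hi').symm s0 (o j hj i hi' (Ne.symm e))]
        simp,
      h.pa'.perp hδ d2 δt (by
        rw [dot_add_left, g4, h.pa'.eq, dot_add_right, P.symm.orth h.pa' s0 (o' j hj),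
          P.symm.orth h.pa'.symm s0 (o' j hj)]
        simp), sub_zero]
  rw [dot_add_left, g5, dot_symm_zero (h.e0 j hj)] at z
  norm_num at z

theorem Fam.gal {i j : ℕ} (hi : i < p) (hj : j < p) {u : ℂ →+* ℂ}
    (e1 : aut u (a i) = a j) (e2 : aut u ε = ε) : F j 1 = F i 1 := by
  have P := h.pa i hi
  have Q := h.pa j hj
  have d := P.de.aut u
  have a1 : dot ⊤ (a j) (aut u (F i)) = 1 := by
    rw [← e1, dot_aut _ _ P.de.vch, P.dot_self, map_one]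
  have a2 : dot ⊤ ε (aut u (F i)) = 1 := by rw [← e2, dot_aut _ _ P.de.vch, h.e1 i hi, map_one]
  have a3 : dot ⊤ (F' j) (aut u (F i)) = 0 := by_contra fun e => by
    have := h.e0 j hj
    rcases Q.de'.eq_or_neg d e with r | r <;> rw [r] at this
    · rw [a2] at this; exact one_ne_zero this
    · rw [dot_neg_right, a2] at this; norm_num at this
  rw [Q.eq, dot_add_left, a3, add_zero] at a1
  rw [Q.de.eq_of_dot_one d a1, P.de.vch.aut_one]

theorem Fam.deg (hI : ∀ s : G, IsConj t s ↔ s * s = 1 ∧ s ≠ 1) (s0 : s ≠ 0) (p1 : 1 < p)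
    (hs : s' = p * s) (e : ∀ j < p, 0 < j → F j 1 = F 1 1) (ε1 : ε 1 = 0)
    (εA : dot ⊤ ε acnt = 0) : F 0 1 = F 1 1 := by
  obtain ⟨r, rfl⟩ : ∃ r, p = r + 1 := ⟨p - 1, by omega⟩
  have i0 : (Nat.card {s // IsConj t s} : ℂ) ≠ 0 := Nat.cast_ne_zero.2
    (Nat.card_ne_zero.2 ⟨⟨⟨t, IsConj.refl t⟩⟩, inferInstance⟩)
  have G0 : (Nat.card G : ℂ) ≠ 0 := Nat.cast_ne_zero.2 Nat.card_pos.ne'
  have d := fun j hj => dot_acnt hI (h.pa j hj).de
  have d0 := d 0 (by omega)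
  have d1 := d 1 p1
  have d2 := dot_acnt hI h.pa'.de
  rw [(h.pa 0 (by omega)).et] at d0
  rw [(h.pa 1 p1).et] at d1
  rw [h.pa'.et, hs] at d2
  have m : ∀ {j}, j ∈ Finset.range r → j + 1 < r + 1 := fun e => by simpa using e
  rw [h.eq, Pi.sub_apply, Finset.sum_apply, Finset.sum_range_succ',
    Finset.sum_congr rfl fun j hj => e _ (m hj) j.succ_pos] at ε1
  rw [h.eq, dot_sub_left, dot_sum_left, Finset.sum_range_succ',
    Finset.sum_congr rfl (g := fun _ => dot ⊤ (F 1) acnt) fun j hj => by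
      have := d _ (m hj)
      rw [(h.pa _ (m hj)).et, e _ (m hj) j.succ_pos, ← d1] at this
      exact mul_right_cancel₀ G0 (mul_right_cancel₀ (h.pa 1 p1).de.one_ne_zero this)] at εA
  simp only [Finset.sum_const, Finset.card_range, nsmul_eq_mul] at ε1 εA
  have r0 : (r : ℂ) ≠ 0 := Nat.cast_ne_zero.2 (by omega)
  have : (F 0 1 - F 1 1) ^ 2 = 0 := by
    apply mul_left_cancel₀ (mul_ne_zero (mul_ne_zero (pow_ne_zero 2 i0)
      (pow_ne_zero 2 (Nat.cast_ne_zero.2 s0 : (s : ℂ) ≠ 0))) r0)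
    push_cast at d2
    linear_combination F 0 1 * F 1 1 * d2 - g 1 * F 1 1 * d0 - g 1 * r * F 0 1 * d1 +
      Nat.card G * g 1 * F 0 1 * F 1 1 * εA +
      (Nat.card {s // IsConj t s} : ℂ) ^ 2 * s ^ 2 * (F 1 1 + r * F 0 1) * ε1
  exact sub_eq_zero.1 (pow_eq_zero_iff two_ne_zero |>.1 this)

end

end Cfsg.GW2.Cx
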