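import Cfsg.Agent.GS.WC1

/-! Task CH: the characters `κ`, `μ₁`, `ν`. -/

set_option autoImplicit false
set_option linter.unusedSectionVars false

open scoped ComplexConjugate

namespace Cfsg.GW2.Cx

open Subgroup Cfsg.L0 Cfsg.H8 Cfsg.FT Cfsg.GJ Cfsg.GW2.Bx Cfsg.GW2.Ox

variable {G : Type} [Group G] [Finite G] {E L U P T Y : Subgroup G} {t v w x u d c b y : G}
  {q n m p : ℕ} {μ μ₁ κ χ : G → ℂ}

theorem mod8 (h : R3 t E L U P T Y v w x q n m) (hχ : VCh ⊤ χ) : ∃ k : ℤ, χ 1 + 7 * χ t = 8 * k := by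
  have VE : V4 v w ≤ E := closure_pair_le (h.LE h.vL) (h.LE h.wL)
  have c : GW.CI (V4 v w) t := ⟨h.iv.ss, fun e => h.tE (VE e), VE.trans (ci h.toWH).ct⟩
  have c8 : ♯(V4 v w ⊔ zpowers t) = 8 := by rw [c.ni.card', cardV h.kp]
  obtain ⟨k, hk⟩ := hχ.dot_res_int le_top (vch_cf1 (V4 v w ⊔ zpowers t))
  rw [dot_cf1_right, sum_sub_sharp, sum_fs_congr (f' := fun _ => χ t) fun y hy => by
    obtain ⟨g, rfl⟩ := h.one y ⟨by
      rcases c.ni.mem.1 hy.1 with e | e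
      · exact V_sq h.kp e
      · rw [← h.iv.sl y, tk_sq h (VE e), V_sq h.kp e], hy.2⟩
    exact hχ.cf.cnj g (mem_top g) t, sum_fs_const, ncard_sharp, c8] at hk
  exact ⟨k, by push_cast at hk; linear_combination 8 * hk⟩

/-- `κ` is a character of `E / L` of prime order `p`, `μ₁` has stabilizer `⟨u ^ p⟩` -/
structure Kp (E L U P T : Subgroup G) (u c : G) (p : ℕ) (κ μ₁ : G → ℂ) : Prop where
  pp : p.Prime
  hu : zpowers u = U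
  dvd : p ∣ ♯U
  ka : Ka E L κ
  pr : IsPrimitiveRoot (κ u) p
  lin : Lin (P ⊔ T ⊔ zpowers (u ^ p)) μ₁
  kP : P ≤ cker μ₁
  kU : zpowers (u ^ p) ≤ cker μ₁
  hc : c ∈ T
  ne : μ₁ (u * c * u⁻¹) ≠ μ₁ c

theorem exists_kp (h : W3 t E L U P T Y v w x q n m) (cop : (♯U).Coprime n) (hU : U ≠ ⊥) :
    ∃ u c p κ μ₁, Kp E L U P T u c p κ μ₁ := by
  obtain ⟨u, -, rfl, -⟩ := h.gen
  have hu := mem_zpowers u
  obtain ⟨p, hp, r, hr⟩ := Nat.exists_prime_and_dvd (n := orderOf u) fun e =>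
    hU (by rw [orderOf_eq_one_iff.1 e, zpowers_one_eq_bot])
  have r0 : r ≠ 0 := by rintro rfl; exact (orderOf_pos u).ne' hr
  have o : orderOf (u ^ p) = r := by
    rw [orderOf_pow, hr, Nat.gcd_mul_right_left, Nat.mul_div_cancel_left _ hp.pos]
  have lt : r < p * r := by have := hp.two_le; have := Nat.pos_of_ne_zero r0; nlinarith
  have le : zpowers (u ^ p) ≤ zpowers u := zpowers_le.2 (pow_mem hu p)
  have ab : Abel (zpowers u) := fun a ha => mem_cent.2 fun b hb =>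
    comm_zpowers (comm_zpowers rfl hb).symm ha
  obtain ⟨ρ, r1, r2⟩ : ∃ ρ ∈ irrK (zpowers u) (zpowers (u ^ p)), u ∉ cker ρ := by
    by_contra hn
    push Not at hn
    have := Nat.le_of_dvd (orderOf_pos _)
      (orderOf_dvd_of_mem_zpowers (mem_of_forall_irrK (ab.nrm le) hn))
    omega
  obtain ⟨r3, r4⟩ := mem_irrK.1 r1
  have l := r3.lin_of_abel ab
  have sd : SD L (zpowers u) E := ⟨le_antisymm (sup_le h.LE h.UE) fun g hg => by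
    obtain ⟨k, hk, a, ha, rfl⟩ := h.dec g hg
    exact mul_mem_sup hk ha, h.UE.trans h.nm, eq_bot_iff.2 fun a ha => h.dis a ha.2 ha.1⟩
  obtain ⟨κ, k1, k2, k3⟩ := sd.exists_ext_ch l.ch
  have k4 : Lin E κ := ⟨k1, by rw [← res_one (zpowers u) κ, k3, l.one]⟩
  have k5 : κ u = ρ u := by rw [← k3, res_of_mem hu]
  have : Fact p.Prime := ⟨hp⟩
  have k6 : IsPrimitiveRoot (κ u) p := by
    rw [k5, ← orderOf_eq_prime (x := ρ u) (p := p) (by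
      rw [← l.map_pow hu, l.mem_cker.1 (r4 (mem_zpowers _))]) fun e => r2 (l.mem_cker.2 e)]
    exact IsPrimitiveRoot.orderOf _
  obtain ⟨c, c1, c2, c3⟩ : ∃ c ∈ T, c * u ^ p = u ^ p * c ∧ c * u ≠ u * c := by
    by_contra hn
    push Not at hn
    have e : T ⊓ 𝒞₁ (u ^ p) = T ⊓ 𝒞₁ u := le_antisymm
      (fun a ha => ⟨ha.1, mem_cent1.2 (hn a ha.1 (mem_cent1.1 ha.2))⟩)
      fun a ha => ⟨ha.1, mem_cent1.2 (comm_pow (mem_cent1.1 ha.2) p)⟩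
    have e1 := h.fT u hu
    have e2 := h.fT _ (pow_mem hu p)
    have e3 := h.fP u hu
    have e4 := h.fP _ (pow_mem hu p)
    rw [← e2, e, e1, o, ← e3, hr] at e4
    have e5 := h.ks.q27
    have := Nat.pow_right_injective (a := ♯(P ⊓ 𝒞₁ u)) (by
      by_contra hn
      rw [show ♯(P ⊓ 𝒞₁ u) = 1 by omega, one_pow] at e3
      omega) e4
    omega
  have a1 : u * c * u⁻¹ ∈ T := conj_mem_of_norm (h.UT hu) c1
  obtain ⟨μ₁, m1, m2, m3, m4⟩ := exists_mu h cop le (mul_mem a1 (inv_mem c1))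
    (by
      rw [cent_zpowers]
      refine mul_mem ?_ (inv_mem (mem_cent1.2 c2))
      have := conj_comm c2 u
      rw [← (Commute.refl u).pow_left p, mul_inv_cancel_right] at this
      exact mem_cent1.2 this)
    fun e => c3 (mul_inv_eq_iff_eq_mul.1 (mul_inv_eq_one.1 e)).symm
  have m : ∀ {y}, y ∈ T → y ∈ P ⊔ T ⊔ zpowers (u ^ p) := fun e => mem_sup_left (mem_sup_right e)
  exact ⟨u, c, p, κ, μ₁, hp, rfl, by rw [Nat.card_zpowers, hr]; exact Dvd.intro _ rfl,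
    ⟨k4, fun y hy => k4.mem_cker.1 (k2 hy)⟩, k6, m1, m2, m3, c1, fun e => m4 (by
      rw [m1.map_mul (m a1) (inv_mem (m c1)), e, m1.mul_inv (m c1)])⟩

theorem ka_pow (hκ : Ka E L κ) (l : L ≤ E) (j : ℕ) : Ka E L (res E (κ ^ j)) :=
  ⟨hκ.lin.pow j, fun y hy => by rw [res_of_mem (l hy), Pi.pow_apply, hκ.k y hy, one_pow]⟩

variable (h : W3 t E L U P T Y v w x q n m) (k : Kp E L U P T u c p κ μ₁)
include h k

omit h in
theorem Kp.mem : u ∈ U := k.hu ▸ mem_zpowers u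

omit h in
theorem Kp.le : zpowers (u ^ p) ≤ U := zpowers_le.2 (pow_mem k.mem p)

omit h in
theorem Kp.leB : P ⊔ T ⊔ zpowers (u ^ p) ≤ P ⊔ T ⊔ U := sup_le_sup_left k.le _

theorem Kp.val (hb : b ∈ P ⊔ T ⊔ U) : ∃ a ∈ P ⊔ T, ∃ j : ℕ, b = a * u ^ j ∧ κ b = κ u ^ j := by
  obtain ⟨a, ha, u', hu, rfl⟩ := (memB h le_rfl).1 hb
  obtain ⟨j, rfl⟩ := mem_powers_iff_mem_zpowers.2 (k.hu.ge hu)
  exact ⟨a, ha, j, rfl, by
    rw [k.ka.lin.map_mul (h.LE (PTL h ha)) (h.UE hu), k.ka.k a (PTL h ha), one_mul,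
      k.ka.lin.map_pow (h.UE k.mem)]⟩

theorem Kp.pow (hb : b ∈ P ⊔ T ⊔ U) : κ b ^ p = 1 := by
  obtain ⟨a, -, j, -, e⟩ := k.val h hb
  rw [e, ← pow_mul, mul_comm, pow_mul, k.pr.pow_eq_one, one_pow]

theorem Kp.ker (hb : b ∈ P ⊔ T ⊔ U) : κ b = 1 ↔ b ∈ P ⊔ T ⊔ zpowers (u ^ p) := by
  constructor
  · intro e1
    obtain ⟨a, ha, j, rfl, e⟩ := k.val h hb
    obtain ⟨i, rfl⟩ := (k.pr.pow_eq_one_iff_dvd j).1 (e ▸ e1)
    exact mul_mem_sup ha (by rw [pow_mul]; exact pow_mem (mem_zpowers _) i)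
  · intro e
    obtain ⟨a, ha, u', hu, rfl⟩ := (memB h k.le).1 e
    obtain ⟨j, rfl⟩ := mem_powers_iff_mem_zpowers.2 hu
    simp only []
    rw [k.ka.lin.map_mul (h.LE (PTL h ha)) (h.UE (k.le hu)), k.ka.k a (PTL h ha), one_mul,
      k.ka.lin.map_pow (h.UE (pow_mem k.mem p)), k.ka.lin.map_pow (h.UE k.mem), k.pr.pow_eq_one,
      one_pow]

theorem Kp.nrm : (P ⊔ T ⊔ zpowers (u ^ p)) ⊴ P ⊔ T ⊔ U :=
  ⟨k.leB, fun g hg => mem_normalizer_of_forall fun y hy => by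
    have a := k.leB hy
    rw [← k.ker h (mul_mem (mul_mem hg a) (inv_mem hg)), k.ka.lin.cf.cnj g (BE h hg), k.ker h a]
    exact hy⟩

theorem Kp.ri : (P ⊔ T ⊔ zpowers (u ^ p)).relIndex (P ⊔ T ⊔ U) = p := by
  have e := card_mul_ri k.leB
  obtain ⟨r, hr⟩ := k.dvd
  have o : ♯(zpowers (u ^ p)) = r := by
    rw [← k.hu, Nat.card_zpowers] at hr
    rw [Nat.card_zpowers, orderOf_pow, hr, Nat.gcd_mul_right_left, Nat.mul_div_cancel_left _ k.pp.pos]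
  have n0 := card_ne_zero' (P ⊔ T ⊔ zpowers (u ^ p))
  rw [card_sup_of_inf (nPT h k.le) (eq_bot_iff.2 fun a ha => h.dis a (k.le ha.2) (PTL h ha.1)),
    h.ks.cardB, o] at e n0
  rw [cardB h, hr, mul_comm p, ← mul_assoc] at e
  exact Nat.eq_of_mul_eq_mul_left (Nat.pos_of_ne_zero n0) e

theorem Kp.irr : Irr (P ⊔ T ⊔ U) (ind (P ⊔ T ⊔ zpowers (u ^ p)) (P ⊔ T ⊔ U) μ₁) := by
  refine k.lin.irr.irr_ind (k.nrm h) fun g hg => ?_
  obtain ⟨a, ha, j, rfl, e⟩ := k.val h hg.1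
  rw [← k.ker h hg.1, e, k.pr.pow_eq_one_iff_dvd]
  by_contra hn
  have i1 := k.lin.cf.le_inert
  have i2 : u ^ j ∈ inert μ₁ := (mul_mem_cancel_left (i1 (mem_sup_left ha))).1 hg.2
  obtain ⟨r, s, e1⟩ := Nat.isCoprime_iff_coprime.2 ((Nat.Prime.coprime_iff_not_dvd k.pp).2 hn)
  have i3 : u ∈ inert μ₁ := by
    have := mul_mem (zpow_mem (i1 (mem_sup_right (mem_zpowers _))) r) (zpow_mem i2 s)
    rwa [← zpow_natCast, ← zpow_natCast, ← zpow_mul, ← zpow_mul, ← zpow_add, mul_comm _ r,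
      mul_comm _ s, e1, zpow_one] at this
  exact k.ne (mem_inert'.1 i3 c)

theorem Kp.nu_one : ind (P ⊔ T ⊔ zpowers (u ^ p)) (P ⊔ T ⊔ U) μ₁ 1 = p := by
  rw [ind_one k.leB, k.ri h, k.lin.one, mul_one]

theorem Kp.nu_mem : ind (P ⊔ T ⊔ zpowers (u ^ p)) (P ⊔ T ⊔ U) μ₁ ∈ irrK (P ⊔ T ⊔ U) P :=
  mem_irrK.2 ⟨k.irr h, le_cker_ind k.kP PB (BP h)⟩

omit h in
theorem Kp.p1 : (1 : ℂ) ≠ p := fun e => k.pp.one_lt.ne (by exact_mod_cast e)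

theorem Kp.nu_w (hy : y ∈ T ⊔ U) : ind (P ⊔ T ⊔ zpowers (u ^ p)) (P ⊔ T ⊔ U) μ₁ (w⁻¹ * y * w) =
    conj (ind (P ⊔ T ⊔ zpowers (u ^ p)) (P ⊔ T ⊔ U) μ₁ y) := by
  have e := res_ind_of_mul (K := T ⊔ U) DB k.leB (fun g hg =>
    (mem_sup_r (DP h le_rfl)).1 (by rwa [sup_comm, ← sup_assoc]) |>.imp fun a ⟨a1, b, b1, e⟩ =>
      ⟨a1, b, PB b1, e⟩) k.lin.cf
  have e1 : (P ⊔ T ⊔ zpowers (u ^ p)) ⊓ (T ⊔ U) = T ⊔ zpowers (u ^ p) :=
    le_antisymm (fun a ha => by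
      obtain ⟨b, hb, u', hu, rfl⟩ := (memB h k.le).1 ha.1
      exact mul_mem_sup (DL h ((mul_mem_cancel_right (mem_sup_right (k.le hu))).1 ha.2) (PTL h hb)) hu)
      (le_inf DB (sup_le_sup_left k.le _))
  rw [← res_of_mem hy (ind _ _ μ₁), ← res_of_mem (conj_mem_of_norm' (wD h le_rfl) hy) (ind _ _ μ₁),
    e, e1, ← cjf_apply w (ind _ _ μ₁),
    cjf_ind_of_norm (wD h k.le) (wD h le_rfl), ind_congr (φ := cjf w μ₁) (ψ := cc μ₁) fun a ha =>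
      mu_w h k.le k.lin k.kU ha, ind_aut, aut_apply]

theorem Kp.nn : dot E (ind (P ⊔ T ⊔ U) E (ind (P ⊔ T ⊔ zpowers (u ^ p)) (P ⊔ T ⊔ U) μ₁))
    (ind (P ⊔ T ⊔ U) E (ind (P ⊔ T ⊔ zpowers (u ^ p)) (P ⊔ T ⊔ U) μ₁)) = 1 := by
  refine th_one h (k.nu_mem h) (by_contra fun hn => ?_)
  push Not at hn
  have i := irrD h (k.nu_mem h)
  have := congrFun (i.eq_cf1_of_cc ((oddB h).of_dvd_nat (card_dvd_of_le DB))
    ((i.sp.aut _).ext i.sp fun y hy => by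
      rw [aut_apply, res_of_mem hy, ← k.nu_w h hy, ← hn y hy])) 1
  rw [res_one, k.nu_one h, cf1_one] at this
  exact k.p1 this.symm

theorem Kp.ln {φ : G → ℂ} (hφ : φ ∈ irrK (P ⊔ T ⊔ U) P) (e : φ 1 = 1) : dot E (ind (P ⊔ T ⊔ U) E φ)
    (ind (P ⊔ T ⊔ U) E (ind (P ⊔ T ⊔ zpowers (u ^ p)) (P ⊔ T ⊔ U) μ₁)) = 0 :=
  th_zero h hφ (k.nu_mem h) ⟨1, one_mem _, by rw [e, k.nu_one h]; exact k.p1⟩
    ⟨1, one_mem _, by rw [e, mul_one, inv_mul_cancel, k.nu_one h]; exact k.p1⟩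

theorem Kp.nT : dot T (ind (P ⊔ T ⊔ zpowers (u ^ p)) (P ⊔ T ⊔ U) μ₁) (cf1 T) = 0 := by
  have n1 := nrm_sup_left (nPT h le_rfl)
  rw [← res_cf1 (le_sup_right : T ≤ P ⊔ T), dot_res_right, dot_res_of_cker rfl (TP h)
    (mem_irrK.1 (k.nu_mem h)).2 (by rw [cker_cf1]; exact le_sup_left)]
  by_contra e
  have a := k.lin.ch.le_cker_of_ind k.leB le_sup_left (((k.irr h).le_cker_iff_dot n1).2 e)
  exact k.ne (by rw [k.lin.mem_cker.1 (a (mem_sup_right k.hc)),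
    k.lin.mem_cker.1 (a (mem_sup_right (conj_mem_of_norm (h.UT k.mem) k.hc)))])

theorem Kp.sum (hb : b ∈ P ⊔ T ⊔ U) :
    (∑ j ∈ Finset.range p, res (P ⊔ T ⊔ U) (res E (κ ^ j)) * μ) b =
      if κ b = 1 then p * μ b else 0 := by
  rw [Finset.sum_apply, Finset.sum_congr rfl (g := fun j => κ b ^ j * μ b) fun j _ => by
    rw [Pi.mul_apply, res_of_mem hb, res_of_mem (BE h hb), Pi.pow_apply], ← Finset.sum_mul]
  split_ifs with e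
  · simp [e]
  · rw [geom_sum_eq e, k.pow h hb]; simp

theorem Kp.rg (cop : (♯U).Coprime n) (hμ : Mu P T U μ d) (hb : b ∈ P ⊔ T ⊔ U) (r : ¬ Rg L n b) :
    (∑ j ∈ Finset.range p, res (P ⊔ T ⊔ U) (res E (κ ^ j)) * μ -
      ind (P ⊔ T ⊔ zpowers (u ^ p)) (P ⊔ T ⊔ U) μ₁) b = 0 := by
  rw [Pi.sub_apply, k.sum h hb, mu_eq_one h cop le_rfl hμ.lin hμ.kP hμ.kU hb r]
  split_ifs with e
  · have e1 := card_mul_ri_c k.leB
    rw [k.lin.sp.ind_apply, sum_fs_congr (f' := fun _ => 1) fun g hg =>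
      mu_eq_one h cop k.le k.lin k.kP k.kU (conj_mem_of_norm' ((k.nrm h).norm hg) ((k.ker h hb).1 e))
        fun e2 => r (by simpa [mul_assoc] using e2.cj (inv_mem (h.nm (BE h hg)))),
      sum_sub_const, ← e1, k.ri h, mul_one, mul_one, inv_mul_cancel_left₀ (card_ne_zero_c _), sub_self]
  · rw [(k.nrm h).ind_sp _ b (mt (k.ker h hb).2 e), sub_self]

theorem Kp.tt (hμ : Mu P T U μ d) {i j : ℕ} (hi : i < p) (hj : j < p) (e : i ≠ j) :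
    dot E (ind (P ⊔ T ⊔ U) E (res (P ⊔ T ⊔ U) (res E (κ ^ i)) * μ))
      (ind (P ⊔ T ⊔ U) E (res (P ⊔ T ⊔ U) (res E (κ ^ j)) * μ)) = 0 := by
  have a : ∀ i : ℕ, (res (P ⊔ T ⊔ U) (res E (κ ^ i)) * μ) u = κ u ^ i := fun i => by
    rw [Pi.mul_apply, res_of_mem (mem_sup_right k.mem), res_of_mem (h.UE k.mem), Pi.pow_apply,
      hμ.lin.mem_cker.1 (hμ.kU k.mem), mul_one]
  have b : κ u ^ i ≠ κ u ^ j := fun e1 => e (k.pr.pow_inj hi hj e1)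
  exact th_zero h ((ka_pow k.ka h.LE i).mm h hμ) ((ka_pow k.ka h.LE j).mm h hμ)
    ⟨u, mem_sup_right k.mem, by rwa [a, a]⟩
    ⟨u, mem_sup_right k.mem, by rwa [mul_assoc, ← wu h k.mem, inv_mul_cancel_left, a, a]⟩

theorem Kp.gal (cop : (♯U).Coprime n) (hμ : Mu P T U μ d) {j : ℕ} (hj : j < p) (j0 : 0 < j) :
    ∃ σ : ℂ →+* ℂ, ind (P ⊔ T ⊔ U) E (aut σ (res (P ⊔ T ⊔ U) (res E (κ ^ 1)) * μ)) =
      ind (P ⊔ T ⊔ U) E (res (P ⊔ T ⊔ U) (res E (κ ^ j)) * μ) ∧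
      ind (P ⊔ T ⊔ U) E (aut σ (∑ j ∈ Finset.range p, res (P ⊔ T ⊔ U) (res E (κ ^ j)) * μ -
        ind (P ⊔ T ⊔ zpowers (u ^ p)) (P ⊔ T ⊔ U) μ₁)) =
      ind (P ⊔ T ⊔ U) E (∑ j ∈ Finset.range p, res (P ⊔ T ⊔ U) (res E (κ ^ j)) * μ -
        ind (P ⊔ T ⊔ zpowers (u ^ p)) (P ⊔ T ⊔ U) μ₁) := by
  have c1 := cop.of_dvd_left k.dvd
  have n0 : n ≠ 0 := h.tT.card ▸ card_ne_zero' T
  obtain ⟨r, r1, r2⟩ := Nat.chineseRemainder c1 j 1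
  obtain ⟨σ, hσ⟩ := exists_aut_pow (mul_ne_zero k.pp.ne_zero n0) (k := r) (Nat.Coprime.mul_right
    (by rw [Nat.Coprime, r1.gcd_eq]; exact (Nat.coprime_of_lt_prime j0.ne' hj k.pp).symm)
    (by rw [Nat.Coprime, r2.gcd_eq]; simp))
  have s1 : ∀ z : ℂ, z ^ p = 1 → σ z = z ^ j := fun z hz => by
    rw [hσ z (by rw [pow_mul, hz, one_pow]), pow_eq_pow_mod r hz, r1, ← pow_eq_pow_mod j hz]
  have s2 : ∀ z : ℂ, z ^ n = 1 → σ z = z := fun z hz => by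
    rw [hσ z (by rw [mul_comm, pow_mul, hz, one_pow]), pow_eq_pow_mod r hz, r2,
      ← pow_eq_pow_mod 1 hz, pow_one]
  refine ⟨σ, ind_congr fun b hb => ?_, ind_congr fun b hb => ?_⟩
  · simp only [aut_apply, Pi.mul_apply, res_of_mem hb, res_of_mem (BE h hb), Pi.pow_apply, pow_one,
      map_mul, s1 _ (k.pow h hb), s2 _ (mu_pow h le_rfl hμ.lin hμ.kP hμ.kU hb)]
  · rw [aut_sub, ← ind_aut, ind_congr (φ := aut σ μ₁) (ψ := μ₁) fun a ha =>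
      s2 _ (mu_pow h k.le k.lin k.kP k.kU ha),
      Pi.sub_apply, Pi.sub_apply, aut_apply, k.sum h hb]
    split_ifs
    · rw [map_mul, map_natCast, s2 _ (mu_pow h le_rfl hμ.lin hμ.kP hμ.kU hb)]
    · rw [map_zero]

end Cfsg.GW2.Cx
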