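import Cfsg.Agent.GS.WA1

/-! A finite abelian group with an action like that of `ΓL₁(3^f)` on `𝔽_{3^f}`. -/

set_option autoImplicit false
set_option linter.unusedSectionVars false

namespace Cfsg.GW2.Lx

open Polynomial Finset

theorem ncard_roots {F : Type} [Field F] {p : F[X]} (hp : p ≠ 0) {S : Set F}
    (h : ∀ r ∈ S, p.eval r = 0) : S.ncard ≤ p.natDegree := by
  classical
  have e : S ⊆ (p.roots.toFinset : Set F) := fun r hr => by simpa [hp] using h r hr
  refine (Set.ncard_le_ncard e (Finset.finite_toSet _)).trans ?_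
  rw [Set.ncard_coe_finset]
  exact (Multiset.toFinset_card_le _).trans (card_roots' p)

theorem fix_le {F : Type} [Field F] {c : ℕ} (hc : 1 < c) : {r : F | r ^ c = r}.ncard ≤ c := by
  have := ncard_roots (FiniteField.X_pow_card_sub_X_ne_zero F hc) (S := {r : F | r ^ c = r})
    fun r hr => by simpa [sub_eq_zero] using hr
  rwa [FiniteField.X_pow_card_sub_X_natDegree_eq F hc] at this

/-- additive Hilbert 90 -/
theorem h90 {F : Type} [Field F] [Finite F] [CharP F 3] {e m : ℕ} (e0 : 0 < e)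
    (h : Nat.card F = (3 ^ e) ^ m) {y : F} (hy : ∑ j ∈ range m, y ^ (3 ^ e) ^ j = 0) :
    ∃ k, y = k - k ^ 3 ^ e := by
  have : Fact (Nat.Prime 3) := ⟨Nat.prime_three⟩
  have := Fintype.ofFinite F
  have c1 : 1 < 3 ^ e := Nat.one_lt_pow e0.ne' (by norm_num)
  obtain ⟨m, rfl⟩ : ∃ k, m = k + 1 := by
    refine Nat.exists_eq_succ_of_ne_zero fun h0 => ?_
    rw [h0, pow_zero] at h
    exact (Finite.one_lt_card (α := F)).ne' h
  let ψ : F →+ F := AddMonoidHom.id F - (iterateFrobenius F 3 e).toAddMonoidHom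
  have hψ : ∀ k, ψ k = k - k ^ 3 ^ e := fun k => rfl
  have p0 : (∑ j ∈ range (m + 1), X ^ (3 ^ e) ^ j : F[X]) ≠ 0 := fun h0 => by
    have := congrArg (coeff · 1) h0
    simp only [finsetSum_coeff, coeff_X_pow, coeff_zero] at this
    rw [sum_range_succ', sum_eq_zero fun j _ => if_neg (Nat.one_lt_pow j.succ_ne_zero c1).ne] at this
    simp at this
  have b1 := ncard_roots p0 (S := {y | ∑ j ∈ range (m + 1), y ^ (3 ^ e) ^ j = 0})
    fun r hr => by simpa [eval_finsetSum] using hr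
  have b2 : (∑ j ∈ range (m + 1), X ^ (3 ^ e) ^ j : F[X]).natDegree ≤ (3 ^ e) ^ m :=
    natDegree_sum_le_of_forall_le _ _ fun j hj => by
      rw [natDegree_X_pow]; exact Nat.pow_le_pow_right c1.le (by simpa [Nat.lt_succ_iff] using hj)
  have b3 : Nat.card ψ.ker ≤ 3 ^ e := by
    have := fix_le (F := F) c1
    rwa [show {r : F | r ^ 3 ^ e = r} = (ψ.ker : Set F) from Set.ext fun r => by
      simp [hψ, sub_eq_zero, eq_comm (a := r)]] at this
  have b4 : Nat.card ψ.ker * Nat.card ψ.range = (3 ^ e) ^ (m + 1) := by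
    rw [← h, ← AddSubgroup.index_ker, AddSubgroup.card_mul_index]
  have b5 : (ψ.range : Set F) ⊆ {y | ∑ j ∈ range (m + 1), y ^ (3 ^ e) ^ j = 0} := by
    rintro _ ⟨k, rfl⟩
    have e1 : ∀ j, (k - k ^ 3 ^ e) ^ (3 ^ e) ^ j = k ^ (3 ^ e) ^ j - k ^ (3 ^ e) ^ (j + 1) := fun j => by
      rw [← pow_mul 3, sub_pow_char_pow, pow_mul 3, ← pow_mul k, ← pow_succ']
    simp only [Set.mem_ofPred_eq, hψ, e1]
    rw [sum_range_sub' fun j => k ^ (3 ^ e) ^ j, ← h, Nat.card_eq_fintype_card, FiniteField.pow_card]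
    simp
  have b6 : (3 ^ e) ^ m ≤ Nat.card ψ.range := by
    refine Nat.le_of_mul_le_mul_left ?_ (zero_lt_one.trans c1)
    rw [← pow_succ', ← b4]
    exact Nat.mul_le_mul_right _ b3
  have := Set.eq_of_subset_of_ncard_le b5 (b1.trans (b2.trans b6))
  obtain ⟨k, hk⟩ : y ∈ (ψ.range : Set F) := this ▸ hy
  exact ⟨k, hk.symm⟩

variable {A : Type} [AddCommGroup A] [Finite A] {α ν : Module.End ℤ A} {n f : ℕ}

theorem nsmul_bij (n0 : 0 < n) (hα : α ^ n = 1) (fpf : ∀ j y, (α ^ j) y = y → y = 0 ∨ n ∣ j) :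
    Function.Bijective fun y : A => n • y := by
  classical
  have := Fintype.ofFinite A
  refine Nat.Coprime.nsmul_right_bijective (Nat.Coprime.symm (Nat.coprime_of_dvd fun r hr ⟨k, hk⟩ h => ?_))
  have := Fact.mk hr
  let g : Function.End A := fun y => (α ^ k) y
  have hg : ∀ i y, (g ^ i) y = ((α ^ k) ^ i) y := fun i => by
    induction i with
    | zero => intro y; rfl
    | succ i ih => intro y; rw [pow_succ', pow_succ']; exact congrArg (α ^ k) (ih y)
  have h1 : g ^ r ^ 1 = 1 := funext fun y => by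
    rw [hg, ← pow_mul, pow_one, mul_comm, ← hk, hα]; rfl
  have h2 := Equiv.Perm.card_fixedPoints_modEq h1
  have h3 : Fintype.card (Function.fixedPoints g) = 1 := by
    refine Fintype.card_eq_one_iff.2 ⟨⟨0, map_zero (α ^ k)⟩, fun y => Subtype.ext ?_⟩
    refine (fpf k y y.2).resolve_right fun h4 => ?_
    have k0 : 0 < k := Nat.pos_of_ne_zero fun h => by simp [h] at hk; omega
    have := Nat.le_of_dvd k0 h4
    have := hr.two_le
    nlinarith
  rw [h3, ← Nat.card_eq_fintype_card] at h2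
  exact hr.one_lt.ne' (Nat.dvd_one.1 ((Nat.modEq_zero_iff_dvd).1
    (h2.symm.trans ((Nat.modEq_zero_iff_dvd).2 h))))

theorem pow_sw (hc : ν * α = α ^ 3 * ν) (j i : ℕ) : ν ^ j * α ^ i = α ^ (3 ^ j * i) * ν ^ j := by
  have h1 : ∀ i, ν * α ^ i = α ^ (3 * i) * ν := fun i => by
    induction i with
    | zero => simp
    | succ i ih => rw [pow_succ, ← mul_assoc, ih, mul_assoc, hc, ← mul_assoc, ← pow_add]; rfl
  induction j with
  | zero => simp
  | succ j ih => rw [pow_succ' ν, mul_assoc, ih, ← mul_assoc, h1, mul_assoc, ← mul_assoc 3, ← pow_succ']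

theorem geo_fix {β : Module.End ℤ A} {m : ℕ} (h : β ^ m = 1) (y : A) :
    β ((∑ i ∈ range m, β ^ i) y) = (∑ i ∈ range m, β ^ i) y := by
  have := congrArg (fun γ : Module.End ℤ A => γ y) (mul_geom_sum β m)
  simpa [h, sub_eq_zero] using this

/-- the averaging identity -/
theorem avg (hn : 2 * n + 1 = 3 ^ f) (f1 : 1 < f) (hα : α ^ n = 1) (hc : ν * α = α ^ 3 * ν)
    (fpf : ∀ j y, (α ^ j) y = y → y = 0 ∨ n ∣ j) (y : A) :
    n • y = ∑ i ∈ range n, (α ^ i) ((∑ j ∈ range f, ν ^ j) ((α ^ ((n - 1) * i)) y)) := by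
  have n9 : 3 ^ 2 ≤ 3 ^ f := Nat.pow_le_pow_right (by norm_num) f1
  have e1 : ∀ i j, (α ^ i) ((ν ^ j) ((α ^ ((n - 1) * i)) y)) =
      ((α ^ (1 + 3 ^ j * (n - 1))) ^ i) ((ν ^ j) y) := fun i j => by
    rw [← Module.End.mul_apply (ν ^ j), pow_sw hc, ← Module.End.mul_apply, ← mul_assoc, ← pow_add,
      ← pow_mul, Module.End.mul_apply]
    congr 3
    ring
  simp only [LinearMap.sum_apply, map_sum, e1]
  rw [sum_comm]
  obtain ⟨f, rfl⟩ : ∃ k, f = k + 1 := ⟨f - 1, by omega⟩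
  rw [sum_range_succ', sum_eq_zero, zero_add]
  · rw [show 1 + 3 ^ 0 * (n - 1) = n by omega, hα]
    simp
  · intro j hj
    have := geo_fix (β := α ^ (1 + 3 ^ (j + 1) * (n - 1))) (m := n)
      (by rw [← pow_mul, mul_comm, pow_mul, hα, one_pow]) ((ν ^ (j + 1)) y)
    rcases fpf _ _ this with h | h
    · simpa [LinearMap.sum_apply] using h
    · exfalso
      have a1 : 3 ^ (j + 1) ≤ 3 ^ f := Nat.pow_le_pow_right (by norm_num) (by simpa using hj)
      have a2 : 1 < 3 ^ (j + 1) := Nat.one_lt_pow j.succ_ne_zero (by norm_num)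
      obtain ⟨c, hc⟩ : ∃ c, 3 ^ (j + 1) = c + 1 := ⟨_, (Nat.sub_add_cancel a2.le).symm⟩
      obtain ⟨k, rfl⟩ : ∃ k, n = k + 1 := ⟨n - 1, by omega⟩
      rw [hc, Nat.add_sub_cancel, show 1 + (c + 1) * k = (k + 1) + c * k by ring,
        Nat.dvd_add_right (dvd_refl _)] at h
      have := Nat.le_of_dvd (by omega)
        ((Nat.Coprime.dvd_mul_right (by simp : (k + 1).Coprime k)).1 h)
      rw [pow_succ] at hn
      omega

theorem fb_field [Nontrivial A] (hn : 2 * n + 1 = 3 ^ f) (f1 : 1 < f) (on : Odd n) (hα : α ^ n = 1)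
    (hν : ν ^ f = 1) (hc : ν * α = α ^ 3 * ν) (fpf : ∀ j y, (α ^ j) y = y → y = 0 ∨ n ∣ j)
    (fix : ∀ y y', ν y = y → ν y' = y' → y ≠ 0 → y' = 0 ∨ y' = y ∨ y' = -y)
    (odd : ∀ y : A, y + y = 0 → y = 0) :
    ∃ (F : Type) (_ : Field F) (_ : Finite F) (_ : CharP F 3) (e : F ≃+ A) (ζ : F),
      Nat.card F = 3 ^ f ∧ orderOf (-ζ) = 2 * n ∧ (∀ r, α (e r) = e (ζ * r)) ∧
        ∀ r, ν (e r) = e (r ^ 3) := by
  have : Fact (Nat.Prime 3) := ⟨Nat.prime_three⟩
  have n0 : 0 < n := on.pos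
  have bij := nsmul_bij n0 hα fpf
  have av := avg hn f1 hα hc fpf
  obtain ⟨z, z0, hz⟩ : ∃ z, z ≠ 0 ∧ ν z = z := by
    by_contra hh
    obtain ⟨y, y0⟩ := exists_ne (0 : A)
    refine y0 (bij.1 ?_)
    simp only [av y, smul_zero]
    refine sum_eq_zero fun i _ => ?_
    rw [not_not.1 fun h => hh ⟨_, h, geo_fix hν _⟩, map_zero]
  have z3 : z + z + z = 0 := by
    rcases fix z (z + z) hz (by rw [map_add, hz]) z0 with h | h | h
    · exact absurd (odd z h) z0
    · exact absurd (by simpa using h) z0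
    · rw [h, neg_add_cancel]
  let φ0 : ℤ[X] →+* Module.End ℤ A := (aeval α).toRingHom
  let F := ℤ[X] ⧸ RingHom.ker φ0
  let φ : F →+* Module.End ℤ A := φ0.kerLift
  let ζ : F := Ideal.Quotient.mk _ X
  have hζ : φ ζ = α := (φ0.kerLift_mk X).trans (aeval_X α)
  let ev : F →+ A := AddMonoidHom.mk' (fun r => φ r z) fun a b => by simp
  have hev : ∀ r s, ev (r * s) = φ r (ev s) := fun r s => by simp [ev]
  have ev1 : ev 1 = z := by simp [ev]
  have sur : Function.Surjective ev := fun y => by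
    obtain ⟨y, rfl⟩ := bij.2 y
    change _ ∈ ev.range
    simp only [av y]
    refine sum_mem fun i _ => ?_
    have e1 : (α ^ i) z ∈ ev.range := ⟨ζ ^ i * 1, by rw [hev, ev1, map_pow, hζ]⟩
    rcases fix z _ hz (geo_fix hν ((α ^ ((n - 1) * i)) y)) z0 with h | h | h <;> rw [h]
    · simp
    · exact e1
    · rw [map_neg]; exact neg_mem e1
  have inj : Function.Injective ev := (injective_iff_map_eq_zero ev).2 fun r hr => by
    refine φ0.kerLift_injective (LinearMap.ext fun y => ?_)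
    obtain ⟨s, rfl⟩ := sur y
    change φ r (ev s) = φ 0 (ev s)
    rw [← hev, mul_comm, hev, hr, ← hev, zero_mul, map_zero, map_zero]
  have fin : Finite F := Finite.of_injective _ inj
  have nt : Nontrivial F := ⟨1, 0, fun h => z0 (by rw [← ev1, h, map_zero])⟩
  have ch : CharP F 3 := (CharP.charP_iff_prime_eq_zero Nat.prime_three).2 (inj (by
    rw [show ((3 : ℕ) : F) = 1 + 1 + 1 by norm_num, map_add, map_add, ev1, z3, map_zero]))
  have sw : ∀ r, ν * φ r = φ (r ^ 3) * ν := fun r => by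
    obtain ⟨p, rfl⟩ := Ideal.Quotient.mk_surjective r
    induction p using Polynomial.induction_on with
    | C k =>
      have e1 : (Ideal.Quotient.mk (RingHom.ker φ0) (C k) : F) = (k : F) := by simp
      rw [e1, ← frobenius_def, map_intCast (frobenius F 3), map_intCast, Int.cast_comm]
    | add p q hp hq => rw [map_add, add_pow_char, map_add, map_add, mul_add, add_mul, hp, hq]
    | monomial i k ih =>
      rw [pow_succ, ← mul_assoc, map_mul _ _ X]
      generalize Ideal.Quotient.mk (RingHom.ker φ0) (C k * X ^ i) = r at ih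
      change ν * φ (r * ζ) = φ ((r * ζ) ^ 3) * ν
      rw [mul_pow, map_mul, map_mul, ← mul_assoc, ih, map_pow φ ζ, hζ, mul_assoc, hc, mul_assoc]
  have hν1 : ∀ r, ν (ev r) = ev (r ^ 3) := fun r => by
    have := congrArg (fun γ : Module.End ℤ A => γ z) (sw r)
    simp only [Module.End.mul_apply, hz] at this
    exact this
  have hνj : ∀ j r, (ν ^ j) (ev r) = ev (r ^ 3 ^ j) := fun j => by
    induction j with
    | zero => simp
    | succ j ih => intro r; rw [pow_succ', Module.End.mul_apply, ih, hν1, ← pow_mul, ← pow_succ]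
  have pq : ∀ r : F, r ^ 3 ^ f = r := fun r => inj (by rw [← hνj, hν]; rfl)
  have isf : IsField F := by
    refine ⟨exists_pair_ne F, mul_comm, fun {r} r0 => ⟨r ^ (2 * n - 1), ?_⟩⟩
    have e1 : r * r ^ (2 * n - 1) = r ^ (2 * n) := by rw [← pow_succ']; congr 1; omega
    have e2 : r ^ (2 * n) * r = r := by rw [← pow_succ, hn, pq]
    have e3 : r ^ (2 * n) * r ^ (2 * n) = r ^ (2 * n) := by
      conv_lhs => rw [← e1, ← mul_assoc, e1, e2, e1]
    rw [e1]
    rcases fix z (ev (r ^ (2 * n))) hz (by rw [hν1, pow_three, e3, e3]) z0 with h | h | h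
    · exact absurd (by rw [← e2, inj (h.trans (map_zero ev).symm), zero_mul]) r0
    · exact inj (h.trans ev1.symm)
    · rw [← ev1, ← map_neg] at h
      rw [inj h] at e3
      refine absurd (odd z ?_) z0
      rw [← ev1, ← map_add, show (1 : F) + 1 = 0 by linear_combination e3, map_zero]
  let := isf.toField
  have ζj : ∀ j, ζ ^ j = 1 ↔ n ∣ j := fun j => by
    refine ⟨fun h => (fpf j z ?_).resolve_left z0, fun ⟨k, hk⟩ => φ0.kerLift_injective ?_⟩
    · rw [← hζ, ← map_pow, h, map_one]; rfl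
    · change φ _ = φ _
      rw [map_pow, hζ, hk, pow_mul, hα, one_pow, map_one]
  have o2 : orderOf (-ζ) = 2 * n := by
    refine Nat.dvd_antisymm (orderOf_dvd_of_pow_eq_one ?_) ?_
    · rw [pow_mul, neg_sq, ← pow_mul, ζj]; exact dvd_mul_left n 2
    · have e1 := pow_orderOf_eq_one (-ζ)
      have e2 : n ∣ orderOf (-ζ) := by
        refine (Nat.Coprime.dvd_mul_left (Nat.coprime_two_right.2 on)).1 ((ζj _).1 ?_)
        rw [pow_mul, ← neg_sq, ← pow_mul, mul_comm, pow_mul, e1, one_pow]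
      refine (Nat.coprime_two_left.2 on).mul_dvd_of_dvd_of_dvd ?_ e2
      rw [neg_pow, (ζj _).2 e2, mul_one] at e1
      by_contra h
      rw [(Nat.odd_iff.2 (by omega)).neg_one_pow] at e1
      refine absurd (odd z ?_) z0
      rw [← ev1, ← map_add, show (1 : F) + 1 = 0 by linear_combination -e1, map_zero]
  refine ⟨F, inferInstance, fin, ch, AddEquiv.ofBijective ev ⟨inj, sur⟩, ζ, le_antisymm ?_ ?_, o2,
    fun r => by rw [← hζ]; exact (hev ζ r).symm, hν1⟩
  · have := fix_le (F := F) (c := 3 ^ f) (by omega)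
    rwa [Set.eq_univ_of_forall (s := {r : F | r ^ 3 ^ f = r}) pq, Set.ncard_univ] at this
  · have := Fintype.ofFinite F
    have z1 : -ζ ≠ 0 := fun h => by
      have := pow_orderOf_eq_one (-ζ)
      rw [o2, h, zero_pow (by omega)] at this
      exact zero_ne_one this
    have e1 := Nat.le_of_dvd (Nat.sub_pos_of_lt Fintype.one_lt_card)
      (orderOf_dvd_of_pow_eq_one (FiniteField.pow_card_sub_one_eq_one _ z1))
    have := Fintype.card_pos (α := F)
    rw [Nat.card_eq_fintype_card]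
    omega

theorem fb_add [Nontrivial A] (hn : 2 * n + 1 = 3 ^ f) (f1 : 1 < f) (on : Odd n) (hα : α ^ n = 1)
    (hν : ν ^ f = 1) (hc : ν * α = α ^ 3 * ν) (fpf : ∀ j y, (α ^ j) y = y → y = 0 ∨ n ∣ j)
    (fix : ∀ y y', ν y = y → ν y' = y' → y ≠ 0 → y' = 0 ∨ y' = y ∨ y' = -y)
    (odd : ∀ y : A, y + y = 0 → y = 0) :
    Nat.card A = 3 ^ f ∧ (∃ z, z ≠ 0 ∧ ν z = z) ∧
      (∀ y y' : A, y ≠ 0 → y' ≠ 0 → ∃ j, y' = (α ^ j) y ∨ y' = -(α ^ j) y) ∧
      ∀ e m, 0 < e → e * m = f → {y | (ν ^ e) y = y}.ncard ≤ 3 ^ e ∧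
        ∀ y, (∑ j ∈ range m, (ν ^ e) ^ j) y = 0 → ∃ k, y = k - (ν ^ e) k := by
  obtain ⟨F, _, _, _, ε, ζ, c1, o2, h1, h2⟩ := fb_field hn f1 on hα hν hc fpf fix odd
  have hαj : ∀ j r, (α ^ j) (ε r) = ε (ζ ^ j * r) := fun j => by
    induction j with
    | zero => simp
    | succ j ih => intro r; rw [pow_succ', Module.End.mul_apply, ih, h1, ← mul_assoc, ← pow_succ']
  have hνj : ∀ j r, (ν ^ j) (ε r) = ε (r ^ 3 ^ j) := fun j => by
    induction j with
    | zero => simp
    | succ j ih => intro r; rw [pow_succ', Module.End.mul_apply, ih, h2, ← pow_mul, ← pow_succ]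
  refine ⟨by rw [← c1]; exact Nat.card_congr ε.toEquiv.symm, ⟨ε 1, by simp, by rw [h2, one_pow]⟩,
    fun y y' y0 y0' => ?_, fun e m e0 em => ⟨?_, fun y hy => ?_⟩⟩
  · obtain ⟨r, rfl⟩ := ε.surjective y
    obtain ⟨r', rfl⟩ := ε.surjective y'
    have r0 : r ≠ 0 := by simpa using y0
    have r0' : r' ≠ 0 := by simpa using y0'
    have z1 : -ζ ≠ 0 := fun h => by
      have := pow_orderOf_eq_one (-ζ)
      rw [o2, h, zero_pow (by have := on.pos; omega)] at this
      exact zero_ne_one this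
    have e1 : Subgroup.zpowers (Units.mk0 _ z1) = ⊤ := by
      rw [← Subgroup.card_eq_iff_eq_top, Nat.card_zpowers, ← orderOf_units, Nat.card_units]
      change orderOf (-ζ) = _
      omega
    obtain ⟨j, hj⟩ := (mem_powers_iff_mem_zpowers (x := Units.mk0 _ z1)
      (y := Units.mk0 _ (div_ne_zero r0' r0))).2 (e1 ▸ Subgroup.mem_top _)
    have e2 : (-ζ) ^ j = r' / r := by simpa using congrArg Units.val hj
    refine ⟨j, ?_⟩
    rw [hαj, ← map_neg, ε.injective.eq_iff, ε.injective.eq_iff, (div_eq_iff r0).1 e2.symm]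
    rcases neg_one_pow_eq_or F j with h | h <;> rw [neg_pow, h] <;> simp
  · refine le_trans (le_of_eq ?_) (fix_le (F := F) (Nat.one_lt_pow e0.ne' (by norm_num : 1 < 3)))
    refine (Set.ncard_congr (fun r _ => ε r) (fun r hr => ?_) (fun a b _ _ h => ε.injective h)
      fun y hy => ?_).symm
    · exact (hνj e r).trans (congrArg ε hr)
    · obtain ⟨r, rfl⟩ := ε.surjective y
      exact ⟨r, ε.injective ((hνj e r).symm.trans hy), rfl⟩
  · obtain ⟨r, rfl⟩ := ε.surjective y
    obtain ⟨k, hk⟩ := h90 (y := r) e0 (by rw [c1, ← pow_mul, em]) (ε.injective (by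
      simp only [LinearMap.sum_apply, ← pow_mul, hνj] at hy
      simp only [map_sum, map_zero, ← pow_mul, hy]))
    exact ⟨ε k, by rw [hνj, ← map_sub, ← hk]⟩

end Cfsg.GW2.Lx
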