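import Cfsg.Agent.GS.WL1

/-! The lemma of `WL1` for sections of a group. -/

set_option autoImplicit false
set_option linter.unusedSectionVars false

namespace Cfsg.GW2.Lx

open Subgroup Cfsg.L0 Cfsg.H8 Cfsg.FT Cfsg.GJ Finset

variable {G : Type} [Group G] [Finite G] {X Y K : Subgroup G} {a b c g u y z : G} {n f : ℕ}

theorem exists_sec (hY : Y ⊴ X) (ab : ∀ y ∈ X, ∀ z ∈ X, y * z * y⁻¹ * z⁻¹ ∈ Y) :
    ∃ (A : Type) (_ : AddCommGroup A) (_ : Finite A) (π : G → A),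
      (∀ y ∈ X, ∀ z ∈ X, π (y * z) = π y + π z) ∧ (∀ y ∈ X, π y = 0 ↔ y ∈ Y) ∧
      (∀ b, ∃ y ∈ X, π y = b) ∧ ∀ g ∈ 𝒩 X, g ∈ 𝒩 Y →
        ∃ α : Module.End ℤ A, ∀ y ∈ X, α (π y) = π (g * y * g⁻¹) := by
  classical
  have := hY.normal
  let cg : CommGroup (X ⧸ Y.subgroupOf X) := { (inferInstance : Group (X ⧸ Y.subgroupOf X)) with
    mul_comm := fun a b => by
      obtain ⟨a, rfl⟩ := QuotientGroup.mk_surjective a
      obtain ⟨b, rfl⟩ := QuotientGroup.mk_surjective b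
      rw [← QuotientGroup.mk_mul, ← QuotientGroup.mk_mul, QuotientGroup.eq, mem_subgroupOf]
      have := ab _ (inv_mem b.2) _ (inv_mem a.2)
      simpa [mul_assoc] using this }
  let π : G → Additive (X ⧸ Y.subgroupOf X) := fun y =>
    if h : y ∈ X then Additive.ofMul (QuotientGroup.mk ⟨y, h⟩) else 0
  have hπ : ∀ y (h : y ∈ X), π y = Additive.ofMul (QuotientGroup.mk ⟨y, h⟩) := fun y h => dif_pos h
  refine ⟨Additive (X ⧸ Y.subgroupOf X), inferInstance, inferInstance, π, fun y hy z hz => ?_,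
    fun y hy => ?_, fun b => ?_, fun g h1 h2 => ?_⟩
  · rw [hπ y hy, hπ z hz, hπ _ (mul_mem hy hz)]; rfl
  · rw [hπ y hy, ofMul_eq_zero, QuotientGroup.eq_one_iff, mem_subgroupOf]
  · obtain ⟨y, hy⟩ := QuotientGroup.mk_surjective b.toMul
    exact ⟨y, y.2, by rw [hπ _ y.2]; exact congrArg Additive.ofMul hy⟩
  · let φ : X →* X := MonoidHom.mk' (fun y => ⟨g * y * g⁻¹, conj_mem_of_norm h1 y.2⟩)
      fun a b => Subtype.ext (by simp)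
    refine ⟨(MonoidHom.toAdditive (QuotientGroup.map _ _ φ fun y hy =>
      conj_mem_of_norm h2 hy)).toIntLinearMap, fun y hy => ?_⟩
    rw [hπ y hy, hπ _ (conj_mem_of_norm h1 hy)]; rfl

theorem card_sec {A : Type} [AddCommGroup A] {π : G → A}
    (h1 : ∀ y ∈ X, ∀ z ∈ X, π (y * z) = π y + π z) (h2 : ∀ y ∈ X, π y = 0 ↔ y ∈ Y) (hK : K ≤ X) :
    ♯K = ♯(Y ⊓ K) * (π '' K).ncard := by
  let φ : K →* Multiplicative A := MonoidHom.mk' (fun k => Multiplicative.ofAdd (π k))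
    fun a b => congrArg Multiplicative.ofAdd (h1 _ (hK a.2) _ (hK b.2))
  have e1 : φ.ker = Y.subgroupOf K := Subgroup.ext fun k => h2 _ (hK k.2)
  rw [← card_inf_mul_ri Y K, relIndex, ← e1, index_ker]
  congr 1
  refine Set.ncard_congr (s := (φ.range : Set (Multiplicative A))) (fun a _ => a.toAdd) ?_
    (fun a b _ _ h => h) ?_
  · rintro _ ⟨k, rfl⟩
    exact ⟨k, k.2, rfl⟩
  · rintro _ ⟨k, hk, rfl⟩
    exact ⟨_, ⟨⟨k, hk⟩, rfl⟩, rfl⟩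

/-- the section `X / Y` looks like the field with `3 ^ f` elements -/
structure FS (X Y : Subgroup G) (a u : G) (f : ℕ) : Prop where
  card : ♯X = ♯Y * 3 ^ f
  ex : ∃ z ∈ X, z ∉ Y ∧ z⁻¹ * (u * z * u⁻¹) ∈ Y
  tr : ∀ y ∈ X, ∀ z ∈ X, y ∉ Y → z ∉ Y → ∃ j : ℕ,
    (a ^ j * y * (a ^ j)⁻¹)⁻¹ * z ∈ Y ∨ a ^ j * y * (a ^ j)⁻¹ * z ∈ Y
  bd : ∀ e m, 0 < e → e * m = f → ♯(X ⊓ 𝒞₁ (u ^ e)) ≤ ♯(Y ⊓ 𝒞₁ (u ^ e)) * 3 ^ e
  h1 : ∀ e m, 0 < e → e * m = f → ∀ y ∈ X, (y * u ^ e) ^ m = 1 →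
    ∃ c ∈ X, c⁻¹ * y * (u ^ e * c * (u ^ e)⁻¹) ∈ Y

theorem fbs (hY : Y ⊴ X) (ab : ∀ y ∈ X, ∀ z ∈ X, y * z * y⁻¹ * z⁻¹ ∈ Y) (aX : a ∈ 𝒩 X)
    (aY : a ∈ 𝒩 Y) (uX : u ∈ 𝒩 X) (uY : u ∈ 𝒩 Y) (hn : 2 * n + 1 = 3 ^ f) (f1 : 1 < f) (on : Odd n)
    (an : a ^ n = 1) (uf : u ^ f = 1) (hc : u * a * u⁻¹ = a ^ 3)
    (fpf : ∀ j : ℕ, ∀ y ∈ X, y⁻¹ * (a ^ j * y * (a ^ j)⁻¹) ∈ Y → y ∈ Y ∨ n ∣ j)
    (fix : ∀ y ∈ X, ∀ z ∈ X, y⁻¹ * (u * y * u⁻¹) ∈ Y → z⁻¹ * (u * z * u⁻¹) ∈ Y → y ∉ Y →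
      z ∈ Y ∨ y⁻¹ * z ∈ Y ∨ y * z ∈ Y)
    (odd : ∀ y ∈ X, y * y ∈ Y → y ∈ Y) (ne : ¬ X ≤ Y) : FS X Y a u f := by
  obtain ⟨A, _, _, π, p1, p2, p3, p4⟩ := exists_sec hY ab
  obtain ⟨α, hα⟩ := p4 a aX aY
  obtain ⟨ν, hν⟩ := p4 u uX uY
  have p0 : π 1 = 0 := (p2 1 (one_mem _)).2 (one_mem _)
  have pi : ∀ y ∈ X, π y⁻¹ = -π y := fun y hy =>
    eq_neg_of_add_eq_zero_left (by rw [← p1 _ (inv_mem hy) _ hy, inv_mul_cancel, p0])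
  have pe : ∀ y ∈ X, ∀ z ∈ X, π z = π y ↔ y⁻¹ * z ∈ Y := fun y hy z hz => by
    rw [← p2 _ (mul_mem (inv_mem hy) hz), p1 _ (inv_mem hy) _ hz, pi y hy, neg_add_eq_zero, eq_comm]
  have pn : ∀ y ∈ X, ∀ z ∈ X, π z = -π y ↔ y * z ∈ Y := fun y hy z hz => by
    rw [← pi y hy, pe _ (inv_mem hy) _ hz, inv_inv]
  have pw : ∀ {g : G} {β : Module.End ℤ A}, g ∈ 𝒩 X → (∀ y ∈ X, β (π y) = π (g * y * g⁻¹)) →
      ∀ j : ℕ, ∀ y ∈ X, (β ^ j) (π y) = π (g ^ j * y * (g ^ j)⁻¹) := fun {g β} hg h j => by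
    induction j with
    | zero => simp
    | succ j ih =>
      intro y hy
      rw [pow_succ', Module.End.mul_apply, ih y hy, h _ (conj_mem_of_norm (pow_mem hg j) hy)]
      congr 1
      rw [pow_succ']; group
  have ex : ∀ {β γ : Module.End ℤ A}, (∀ y ∈ X, β (π y) = γ (π y)) → β = γ := fun h =>
    LinearMap.ext fun b => by obtain ⟨y, hy, rfl⟩ := p3 b; exact h y hy
  obtain ⟨y0, hy0, ny0⟩ := SetLike.not_le_iff_exists.1 ne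
  have : Nontrivial A := ⟨π y0, 0, fun h => ny0 ((p2 _ hy0).1 h)⟩
  obtain ⟨c1, ⟨z, z0, hz⟩, c3, c4⟩ := fb_add (α := α) (ν := ν) hn f1 on
    (ex fun y hy => by rw [pw aX hα n y hy, an]; simp) (ex fun y hy => by rw [pw uX hν f y hy, uf]; simp)
    (ex fun y hy => by
      rw [Module.End.mul_apply, Module.End.mul_apply, hα y hy, hν y hy, hν _ (conj_mem_of_norm aX hy),
        pw aX hα 3 _ (conj_mem_of_norm uX hy), ← hc]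
      congr 1
      group)
    (fun j b hb => by
      obtain ⟨y, hy, rfl⟩ := p3 b
      rw [pw aX hα j y hy, pe y hy _ (conj_mem_of_norm (pow_mem aX j) hy)] at hb
      rw [p2 y hy]
      exact fpf j y hy hb)
    (fun b c hb hc b0 => by
      obtain ⟨y, hy, rfl⟩ := p3 b
      obtain ⟨z, hz, rfl⟩ := p3 c
      rw [hν y hy, pe y hy _ (conj_mem_of_norm uX hy)] at hb
      rw [hν z hz, pe z hz _ (conj_mem_of_norm uX hz)] at hc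
      rw [p2 z hz, pe y hy z hz, pn y hy z hz]
      exact fix y hy z hz hb hc (mt (p2 y hy).2 b0))
    (fun b hb => by
      obtain ⟨y, hy, rfl⟩ := p3 b
      rw [← p1 y hy y hy, p2 _ (mul_mem hy hy)] at hb
      exact (p2 y hy).2 (odd y hy hb))
  refine ⟨?_, ?_, fun y hy z hz ny nz => ?_, fun e m e0 em => ?_, fun e m e0 em y hy h => ?_⟩
  · rw [card_sec p1 p2 le_rfl, inf_eq_left.2 hY.le, ← c1, Set.eq_univ_of_forall (s := π '' X) p3,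
      Set.ncard_univ]
  · obtain ⟨y, hy, rfl⟩ := p3 z
    rw [hν y hy, pe y hy _ (conj_mem_of_norm uX hy)] at hz
    exact ⟨y, hy, mt (p2 y hy).2 z0, hz⟩
  · obtain ⟨j, hj⟩ := c3 _ _ (mt (p2 y hy).1 ny) (mt (p2 z hz).1 nz)
    have m1 := conj_mem_of_norm (pow_mem aX j) hy
    rw [pw aX hα j y hy, pe _ m1 z hz, pn _ m1 z hz] at hj
    exact ⟨j, hj⟩
  · rw [card_sec p1 p2 (K := X ⊓ 𝒞₁ (u ^ e)) inf_le_left, ← inf_assoc, inf_eq_left.2 hY.le]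
    refine Nat.mul_le_mul_left _ (le_trans (Set.ncard_le_ncard ?_) (c4 e m e0 em).1)
    rintro _ ⟨y, ⟨hy, h⟩, rfl⟩
    change (ν ^ e) (π y) = π y
    rw [pw uX hν e y hy, ← mem_cent1.1 h, mul_inv_cancel_right]
  · have uX' := pow_mem uX e
    have key : ∀ i : ℕ, (y * u ^ e) ^ i * ((u ^ e) ^ i)⁻¹ ∈ X ∧
        π ((y * u ^ e) ^ i * ((u ^ e) ^ i)⁻¹) = (∑ j ∈ range i, (ν ^ e) ^ j) (π y) := fun i => by
      induction i with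
      | zero => simp [p0]
      | succ i ih =>
        have m1 := conj_mem_of_norm (pow_mem uX' i) hy
        rw [show (y * u ^ e) ^ (i + 1) * ((u ^ e) ^ (i + 1))⁻¹ = (y * u ^ e) ^ i * ((u ^ e) ^ i)⁻¹ *
          ((u ^ e) ^ i * y * ((u ^ e) ^ i)⁻¹) by rw [pow_succ, pow_succ' (u ^ e)]; group,
          p1 _ ih.1 _ m1, ih.2, sum_range_succ, LinearMap.add_apply, pw uX' (pw uX hν e) i y hy]
        exact ⟨mul_mem ih.1 m1, rfl⟩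
    obtain ⟨k, hk⟩ := (c4 e m e0 em).2 (π y) (by rw [← (key m).2, h, ← pow_mul, em, uf]; simpa using p0)
    obtain ⟨c, hc, rfl⟩ := p3 k
    have m1 := conj_mem_of_norm uX' hc
    refine ⟨c, hc, (p2 _ (mul_mem (mul_mem (inv_mem hc) hy) m1)).1 ?_⟩
    rw [p1 _ (mul_mem (inv_mem hc) hy) _ m1, p1 _ (inv_mem hc) _ hy, pi c hc, hk, ← pw uX hν e c hc]
    abel

/-- vanishing of cohomology and a bound for fixed points -/
structure Gd (X : Subgroup G) (u : G) (k : ℕ) : Prop where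
  h0 : ∀ y ∈ X, (y * u) ^ (3 * k) = 1 → ∃ c ∈ X, y * u = c * u * c⁻¹
  h1 : ∀ y ∈ X, (y * u ^ k) ^ 3 = 1 → ∃ c ∈ X, y * u ^ k = c * u ^ k * c⁻¹
  bd : ♯(X ⊓ 𝒞₁ (u ^ k)) ^ 3 ≤ ♯X

theorem gd_bot (u : G) (k : ℕ) : Gd ⊥ u k :=
  ⟨fun y hy _ => ⟨1, one_mem _, by simp [mem_bot.1 hy]⟩,
    fun y hy _ => ⟨1, one_mem _, by simp [mem_bot.1 hy]⟩, by simp⟩

theorem FS.gd {k : ℕ} (h : FS X Y a u (3 * k)) (k0 : 0 < k) (hl : Y ≤ X) (g : Gd Y u k) :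
    Gd X u k := by
  have key : ∀ e m, 0 < e → e * m = 3 * k → (∀ y ∈ Y, (y * u ^ e) ^ m = 1 →
      ∃ c ∈ Y, y * u ^ e = c * u ^ e * c⁻¹) → ∀ y ∈ X, (y * u ^ e) ^ m = 1 →
      ∃ c ∈ X, y * u ^ e = c * u ^ e * c⁻¹ := fun e m e0 em g y hy hm => by
    obtain ⟨c, hc, e1⟩ := h.h1 e m e0 em y hy hm
    have e2 : c⁻¹ * y * (u ^ e * c * (u ^ e)⁻¹) * u ^ e = c⁻¹ * (y * u ^ e) * c⁻¹⁻¹ := by group
    obtain ⟨d, hd, e3⟩ := g _ e1 (by rw [e2, ← conj_pow', hm]; simp)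
    exact ⟨c * d, mul_mem hc (hl hd), by
      rw [show y * u ^ e = c * (c⁻¹ * (y * u ^ e) * c⁻¹⁻¹) * c⁻¹ by group, ← e2, e3]; group⟩
  refine ⟨by simpa using key 1 (3 * k) one_pos (one_mul _) (by simpa using g.h0),
    key k 3 k0 (mul_comm _ _) g.h1, ?_⟩
  refine (Nat.pow_le_pow_left (h.bd k 3 k0 (mul_comm _ _)) 3).trans ?_
  rw [mul_pow, h.card, ← pow_mul, mul_comm k]
  exact Nat.mul_le_mul_right _ g.bd

end Cfsg.GW2.Lx
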