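import Cfsg.Agent.GS.WL2

/-! The `3`-subgroups above `P` normalized by `⟨t⟩ T U` and their normalizers. -/

set_option autoImplicit false
set_option linter.unusedSectionVars false

namespace Cfsg.GW2.Lx

open Subgroup Cfsg.L0 Cfsg.H8 Cfsg.FT Cfsg.GJ

variable {G : Type} [Group G] [Finite G]
variable {t v w x s a b c d e g i p u u' y z σ : G} {E L U P T Y X N Y0 Y1 : Subgroup G} {q n m k : ℕ}

theorem inv_split (ht : t * t = 1) (o : Odd (orderOf (b * t * b⁻¹ * t))) :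
    ∃ i ∈ zpowers (b * t * b⁻¹ * t), t * i * t = i⁻¹ ∧ i⁻¹ * b * t = t * (i⁻¹ * b) := by
  obtain ⟨i, hi, e⟩ := GJ.exists_sqrt o
  have ti := inv_self_of ht
  have e0 : t * (b * t * b⁻¹ * t) * t⁻¹ = (b * t * b⁻¹ * t)⁻¹ := by
    simp only [mul_inv_rev, ti, inv_inv, mul_assoc, ht, mul_one]
  have e1 : t * i * t = i⁻¹ := by simpa only [ti] using inv_zpowers e0 hi
  refine ⟨i, hi, e1, ?_⟩
  have e2 : t * i⁻¹ = i * t := by
    rw [← e1, ← mul_assoc, ← mul_assoc, ht, one_mul]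
  rw [← mul_assoc, e2, show i⁻¹ * b * t = i⁻¹ * (b * t * b⁻¹ * t) * t⁻¹ * b by group, ← e, ti]
  group

theorem mem_of_sq (o : Odd (orderOf y)) (h : y * y ∈ X) : y ∈ X :=
  mem_of_pow_mem (Nat.coprime_two_left.2 o) (by rwa [sq]) (by rw [pow_orderOf_eq_one]; exact one_mem _)

theorem odd3 (h : IsPGroup 3 X) (hy : y ∈ X) : Odd (orderOf y) := by
  obtain ⟨j, hj⟩ := isPGroup_iff_forall.1 h y hy
  exact odd_of_pow' (Odd.pow (by decide)) hj

theorem zp3 (h : σ ^ 3 ∈ X) (hi : i ∈ zpowers σ) : i ∈ X ∨ σ⁻¹ * i ∈ X ∨ σ * i ∈ X := by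
  obtain ⟨j, rfl⟩ := mem_zpowers_iff.1 hi
  have key : ∀ r : ℤ, 3 ∣ r → σ ^ r ∈ X := fun _ ⟨l, hl⟩ => by
    rw [hl, zpow_mul]; exact zpow_mem (by exact_mod_cast h) l
  rw [← zpow_neg_one, ← zpow_add, ← zpow_one_add]
  have : 3 ∣ j ∨ 3 ∣ -1 + j ∨ 3 ∣ 1 + j := by omega
  exact this.imp (key _) (Or.imp (key _) (key _))

/-- the situation of `TaskL3` -/
structure S3 (t : G) (E L U P T Y : Subgroup G) (v w x : G) (q n m : ℕ) (a u : G) (k : ℕ) : Prop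
    extends R3 t E L U P T Y v w x q n m where
  hq : q = 3 ^ (3 * k)
  cU : ♯U = 3 * k
  gu : zpowers u = U
  ga : zpowers a = T
  ua : u * a * u⁻¹ = a ^ 3

/-- invariant `3`-subgroups above `P` -/
structure XX (t : G) (U P T X : Subgroup G) : Prop where
  pg : IsPGroup 3 X
  le : P ≤ X
  nt : t ∈ 𝒩 X
  nT : T ≤ 𝒩 X
  nU : U ≤ 𝒩 X

/-- `𝒩 Y0 = Y1 ⟨t⟩ T U` -/
def NB (t : G) (U T Y0 Y1 : Subgroup G) : Prop :=
  ∀ b ∈ 𝒩 Y0, ∃ y ∈ Y1, ∃ e, (e = 1 ∨ e = t) ∧ ∃ d ∈ T, ∃ u ∈ U, b = y * (e * (d * u))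

namespace S3
variable (h : S3 t E L U P T Y v w x q n m a u k)
include h

theorem k0 : 0 < k := by have := card_pos' U; have := h.cU; omega
theorem uU : u ∈ U := h.gu ▸ mem_zpowers u
theorem aT : a ∈ T := h.ga ▸ mem_zpowers a
theorem ou : orderOf u = 3 * k := by rw [← h.cU, ← h.gu, card_zpow]
theorem oa : orderOf a = n := by rw [← h.tT.card, ← h.ga, card_zpow]
theorem tt : t * t = 1 := h.iv.ss
theorem ti : t⁻¹ = t := h.iv.inv
theorem Pt (hp : p ∈ P) : p * t = t * p := h.toWH.cmL (h.ks.RK hp)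
theorem Tt (hd : d ∈ T) : d * t = t * d := h.toWH.cmL (h.ks.DK hd)
theorem Ut (hu : u' ∈ U) : u' * t = t * u' := h.cm _ (h.UE hu)
theorem tP : t ∈ 𝒩 P := cent_le_norm P (mem_cent.2 fun _ => h.Pt)
theorem xxP : XX t U P T P := ⟨h.ks.pR, le_rfl, h.tP, h.ks.DN, h.UP⟩

theorem faith (hu : u' ∈ U) (e : ∀ d ∈ T, u' * d = d * u') : u' = 1 := by
  have e1 := h.fT u' hu
  have e2 := h.fP u' hu
  rw [inf_eq_left.2 fun d hd => mem_cent1.2 (e d hd).symm, h.ks.cD] at e1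
  rw [← e1] at e2
  have := h.ks.q27
  exact orderOf_eq_one_iff.1 (Nat.pow_right_injective (by omega : 2 ≤ q) (e2.trans (pow_one q).symm))

theorem odd_pdu (hp : p ∈ P) (hd : d ∈ T) (hu : u' ∈ U) : Odd (orderOf (p * (d * u'))) := by
  have e := card_sup_dvd (le_norm_sup h.UP h.UT)
  rw [h.ks.cardB] at e
  refine Odd.of_dvd_nat ?_ ((orderOf_dvd (mul_mem (mem_sup_left (mem_sup_left hp))
    (mul_mem (mem_sup_left (mem_sup_right hd)) (mem_sup_right hu)))).trans e)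
  exact ((Nat.odd_iff.2 (by have := h.ks.q8; omega)).mul h.ks.oddD).mul h.oU

theorem pduE (hp : p ∈ P) (hd : d ∈ T) (hu : u' ∈ U) : p * (d * u') ∈ E :=
  mul_mem (h.LE (h.ks.RK hp)) (mul_mem (h.LE (h.ks.DK hd)) (h.UE hu))

theorem decE (hg : g ∈ 𝒩 P) (e : g ∈ E) : ∃ p ∈ P, ∃ d ∈ T, ∃ u ∈ U, g = p * (d * u) := by
  obtain ⟨l, hl, u', hu, rfl⟩ := h.dec g e
  have n1 : l ∈ 𝒩 P := by simpa using mul_mem hg (inv_mem (h.UP hu))
  obtain ⟨p, hp, d, hd, rfl⟩ := h.ks.memB.1 (h.ks.conjR hl h.xP h.toW3.x1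
    (mem_sup_left (conj_mem_of_norm' n1 h.xP)))
  exact ⟨p, hp, d, hd, u', hu, mul_assoc ..⟩

theorem dec' (hg : g ∈ 𝒩 P) (e : g * t = t * g) :
    ∃ e, (e = 1 ∨ e = t) ∧ ∃ p ∈ P, ∃ d ∈ T, ∃ u ∈ U, g = e * (p * (d * u)) := by
  obtain ⟨l, hl, rfl | rfl⟩ := h.toWH.exE e
  · exact ⟨1, .inl rfl, by simpa using h.decE hg hl⟩
  · obtain ⟨p, hp, d, hd, u, hu, rfl⟩ := h.decE (by simpa using mul_mem (inv_mem h.tP) hg) hl
    exact ⟨t, .inr rfl, p, hp, d, hd, u, hu, rfl⟩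

theorem exT (hN : T ≤ 𝒩 N) (hd : d ∈ T) (hu : u' ∈ U) (e : d * u' ∈ N) (n1 : d * u' ≠ 1) :
    ∃ c ∈ T, c ∈ N ∧ c ≠ 1 := by
  by_contra hh
  have h1 : ∀ c ∈ T, c ∈ N → c = 1 := fun c a b => by_contra fun e => hh ⟨c, a, b, e⟩
  have u1 : u' = 1 := h.faith hu fun c hc => by
    have e1 := h1 (c * (d * u') * c⁻¹ * (d * u')⁻¹) (by
      rw [show c * (d * u') * c⁻¹ * (d * u')⁻¹ = c * d * (u' * c⁻¹ * u'⁻¹) * d⁻¹ by group]
      exact mul_mem (mul_mem (mul_mem hc hd) (conj_mem_of_norm (h.UT hu) (inv_mem hc))) (inv_mem hd))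
      (mul_mem (conj_mem_of_norm (hN hc) e) (inv_mem e))
    rw [mul_inv_eq_one, mul_inv_eq_iff_eq_mul, ← mul_assoc, h.ks.Dab hc hd, mul_assoc, mul_assoc,
      mul_right_inj] at e1
    exact e1.symm
  rw [u1, mul_one] at e n1
  exact n1 (h1 d hd e)

theorem T3 (hX : IsPGroup 3 X) (hd : d ∈ T) (e : d ∈ X) : d = 1 := by
  obtain ⟨j, hj⟩ := isPGroup_iff_forall.1 hX d e
  exact eq_one_of_pow_coprime (Nat.Coprime.pow_left j
    ((Nat.Prime.coprime_iff_not_dvd Nat.prime_three).2 h.toW3.n3)) hj (h.tT.pow hd)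

theorem ct (hX : XX t U P T X) (hy : y ∈ X) (e : y * t = t * y) : y ∈ P := by
  have : Fact (Nat.Prime 3) := ⟨Nat.prime_three⟩
  have e1 : X ⊓ L = P := h.ks.sylR.eq_of_le (hX.pg.to_inf_left) (le_inf hX.le h.ks.RK) inf_le_right
  obtain ⟨p, hp, d, hd, u', hu, rfl⟩ := h.decE (g := y) (by
    rw [← e1]
    exact le_norm_inf (A := zpowers y) (zpowers_le.2 (le_norm X hy)) (zpowers_le.2 (h.toWH.nL e))
      (mem_zpowers y)) (h.toWH.odd_mem e (odd3 hX.pg hy))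
  have m1 : d * u' ∈ X := by simpa using mul_mem (inv_mem (hX.le hp)) hy
  by_cases e2 : d * u' = 1
  · rwa [e2, mul_one]
  · obtain ⟨c, a, b, c1⟩ := h.exT hX.nT hd hu m1 e2
    exact absurd (h.T3 hX.pg a b) c1

theorem nP (hX : XX t U P T X) (hg : g ∈ 𝒩 X) (e : g * t = t * g) : g ∈ 𝒩 P :=
  mem_normalizer_of_forall fun p hp => h.ct hX (conj_mem_of_norm hg (hX.le hp)) (by
    rw [show g * p * g⁻¹ * t = g * p * (g⁻¹ * t * g) * g⁻¹ by group, mul_assoc g⁻¹, ← e,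
      inv_mul_cancel_left, mul_assoc g, h.Pt hp, ← mul_assoc, e]
    group)

theorem fp (hX : IsPGroup 3 X) (hd : d ∈ T) (d1 : d ≠ 1) (nd : d ∈ 𝒩 X)
    (e : y⁻¹ * (d * y * d⁻¹) ∈ X) : ∃ c ∈ X, y * c * t = t * (y * c) := by
  have : Fact (Nat.Prime 3) := ⟨Nat.prime_three⟩
  obtain ⟨r, hr, j, hj⟩ := Nat.exists_prime_and_dvd (mt orderOf_eq_one_iff.1 d1)
  have := Fact.mk hr
  have i1 : ∀ i : ℕ, ∀ g ∈ {g | y⁻¹ * g ∈ X}, d ^ i * g * (d ^ i)⁻¹ ∈ {g | y⁻¹ * g ∈ X} := fun i => by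
    induction i with
    | zero => simp
    | succ i ih =>
      intro g hg
      have := mul_mem e (conj_mem_of_norm nd (ih g hg))
      change _ ∈ X
      convert this using 1
      rw [pow_succ']; group
  have c1 : {g | y⁻¹ * g ∈ X}.ncard = ♯X :=
    Set.ncard_congr (t := (X : Set G)) (fun g _ => y⁻¹ * g) (fun _ h => h)
      (fun _ _ _ _ h => mul_left_cancel h) fun c hc => ⟨y * c, by simpa using hc, by simp⟩
  obtain ⟨g, hg, e1⟩ := exists_comm_of_not_dvd (p := r) (k := 1) (z := d ^ j)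
    (by rw [pow_one, ← pow_mul, mul_comm, ← hj, pow_orderOf_eq_one]) (i1 j) (by
      rw [c1]
      refine not_dvd_of_pgroup hr Nat.prime_three (fun e => h.toW3.n3 ?_) hX
      exact e ▸ (Dvd.intro _ hj.symm).trans (orderOf_dvd_of_pow_eq_one (h.tT.pow hd)))
  refine ⟨y⁻¹ * g, hg, ?_⟩
  rw [mul_inv_cancel_left]
  refine h.tl (d ^ j) (h.ks.DK (pow_mem hd j)) (fun e2 => ?_) (h.tT.pow (pow_mem hd j)) g e1.symm
  have o0 := orderOf_pos d
  have j0 : 0 < j := Nat.pos_of_ne_zero fun e => by rw [e, mul_zero] at hj; omega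
  have := Nat.le_of_dvd j0 (orderOf_dvd_of_pow_eq_one e2)
  have := hr.two_le
  nlinarith

theorem sec (pg : IsPGroup 3 Y0) (gd : Gd Y0 u k) (hn : Y0 ⊴ X) (o : ∀ y ∈ X, Odd (orderOf y))
    (nt : t ∈ 𝒩 X) (nT : T ≤ 𝒩 X) (nU : U ≤ 𝒩 X) (nT' : T ≤ 𝒩 Y0) (nU' : U ≤ 𝒩 Y0)
    (iv : ∀ y ∈ X, y * (t * y * t) ∈ Y0) (s3 : σ ^ 3 ∈ Y0)
    (hD : ∀ z ∈ X, t * z * t = z⁻¹ → z ∈ 𝒞 U → z ∈ zpowers σ) :
    X ≤ Y0 ∨ FS X Y0 a u (3 * k) ∧ σ ∈ X ∧ σ ∉ Y0 := by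
  refine or_iff_not_imp_left.2 fun ne => ?_
  have odd : ∀ y ∈ X, y * y ∈ Y0 → y ∈ Y0 := fun y hy => mem_of_sq (o y hy)
  have c0 : ∀ y ∈ X, y * t = t * y → y ∈ Y0 := fun y hy e => odd y hy (by
    have := iv y hy
    rwa [← e, mul_assoc y t, h.tt, mul_one] at this)
  have key : ∀ y ∈ X, y⁻¹ * (u * y * u⁻¹) ∈ Y0 → y ∈ Y0 ∨ σ⁻¹ * y ∈ Y0 ∨ σ * y ∈ Y0 := by
    intro y hy e
    obtain ⟨c, hc, e1⟩ := gd.h0 _ e (by
      rw [show y⁻¹ * (u * y * u⁻¹) * u = y⁻¹ * u * y⁻¹⁻¹ by group, ← conj_pow', ← h.ou,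
        pow_orderOf_eq_one]; simp)
    have m1 := mul_mem hy (hn.le hc)
    have m2 : y * c ∈ 𝒞 U := by
      rw [← h.gu, cent_zpowers, mem_cent1, show y * c * u = y * (c * u * c⁻¹) * c by group, ← e1]
      group
    have m3 : y * c * t * (y * c)⁻¹ * t ∈ X := by
      have := mul_mem m1 (conj_mem_of_norm nt (inv_mem m1))
      rwa [h.ti, ← mul_assoc, ← mul_assoc] at this
    obtain ⟨i, hi, i1, i2⟩ := inv_split h.tt (o _ m3)
    have iX := zpowers_le.2 m3 hi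
    have m4 := mul_mem (c0 _ (mul_mem (inv_mem iX) m1) i2) (inv_mem hc)
    have f : ∀ g, g * i ∈ Y0 → g * y ∈ Y0 := fun g hg => by
      simpa [mul_assoc] using mul_mem hg m4
    exact (zp3 s3 (hD i iX i1 (zpowers_le.2 (mul_mem (mul_mem (mul_mem m2 h.toWU.tU) (inv_mem m2))
      h.toWU.tU) hi))).imp (fun e => by simpa using f 1 (by simpa using e)) (Or.imp (f _) (f _))
  have sX : ∀ y ∈ X, σ⁻¹ * y ∈ Y0 ∨ σ * y ∈ Y0 → σ ∈ X := fun y hy e => by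
    rcases e with e | e
    · simpa using mul_mem hy (inv_mem (hn.le e))
    · simpa using mul_mem (hn.le e) (inv_mem hy)
  have fs : FS X Y0 a u (3 * k) := by
    refine fbs hn (fun y hy z hz => ?_) (nT h.aT) (nT' h.aT) (nU h.uU) (nU' h.uU) (h.hn.trans h.hq)
      (by have := h.k0; omega) h.toW3.on (h.tT.pow h.aT) (h.ou ▸ pow_orderOf_eq_one u) h.ua
      (fun j y hy e => ?_) (fun y hy z hz e1 e2 ny => ?_) odd ne
    · have := mul_mem (mul_mem (iv _ (mul_mem hy hz)) (inv_mem (iv z hz)))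
        (hn.conj_mem hz (inv_mem (iv y hy)))
      convert this using 1
      simp only [mul_inv_rev, h.ti, mul_assoc, h.iv.sl, mul_inv_cancel_left, inv_mul_cancel_left]
    · by_cases e1 : a ^ j = 1
      · exact .inr (h.oa ▸ orderOf_dvd_of_pow_eq_one e1)
      · obtain ⟨c, hc, e2⟩ := h.fp pg (pow_mem h.aT j) e1 (pow_mem (nT' h.aT) j) e
        exact .inl (by simpa using mul_mem (c0 _ (mul_mem hy (hn.le hc)) e2) (inv_mem hc))
    · have k1 := (key y hy e1).resolve_left ny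
      have ns := hn.norm (sX y hy k1)
      refine (key z hz e2).imp_right fun k2 => ?_
      rcases k1 with k1 | k1 <;> rcases k2 with k2 | k2
      · exact .inl (by simpa [mul_assoc] using mul_mem (inv_mem k1) k2)
      · exact .inr (by simpa [mul_assoc] using mul_mem (conj_mem_of_norm ns k1) (by
          simpa [mul_assoc] using k2 : σ * z ∈ Y0))
      · exact .inr (by simpa [mul_assoc] using mul_mem (conj_mem_of_norm' ns k1) k2)
      · exact .inl (by simpa [mul_assoc] using mul_mem (inv_mem k1) k2)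
  obtain ⟨z, hz, nz, e⟩ := fs.ex
  have k1 := (key z hz e).resolve_left nz
  refine ⟨fs, sX z hz k1, fun e => nz ?_⟩
  rcases k1 with k1 | k1
  · simpa using mul_mem e k1
  · simpa using mul_mem (inv_mem e) k1

theorem spl (hX : ∀ y ∈ X, Odd (orderOf y)) (nt : t ∈ 𝒩 X) (hy : y ∈ X) :
    ∃ i ∈ X, t * i * t = i⁻¹ ∧ i⁻¹ * y * t = t * (i⁻¹ * y) := by
  have m3 : y * t * y⁻¹ * t ∈ X := by
    have := mul_mem hy (conj_mem_of_norm nt (inv_mem hy))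
    rwa [h.ti, ← mul_assoc, ← mul_assoc] at this
  obtain ⟨i, hi, e⟩ := inv_split h.tt (hX _ m3)
  exact ⟨i, zpowers_le.2 m3 hi, e⟩

theorem xx_op (hY : XX t U P T Y0) : XX t U P T (Op {3} (𝒩 Y0)) ∧ Y0 ⊴ Op {3} (𝒩 Y0) := by
  have l := le_Op_p Nat.prime_three hY.pg (nrm_norm Y0)
  have n := (Op_nrm {3} (𝒩 Y0)).norm
  exact ⟨⟨Op_pgroup Nat.prime_three _, hY.le.trans l, n hY.nt, hY.nT.trans n, hY.nU.trans n⟩, l,
    Op_le _ _⟩

theorem step1 (hY : XX t U P T Y0) (hX : XX t U P T X) (hn : Y0 ⊴ X) (gd : Gd Y0 u k)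
    (s3 : σ ^ 3 ∈ Y0)
    (hD : ∀ z ∈ 𝒩 Y0, Odd (orderOf z) → t * z * t = z⁻¹ → z ∈ 𝒞 U → z ∈ zpowers σ) :
    Gd X u k ∧ (X = Y0 ∨ FS X Y0 a u (3 * k) ∧ σ ∈ X ∧ σ ∉ Y0) := by
  have := h.sec hY.pg gd hn (fun y => odd3 hX.pg) hX.nt hX.nT hX.nU hY.nT hY.nU (fun y hy => ?_) s3
    fun z hz => hD z (hn.norm hz) (odd3 hX.pg hz)
  · rcases this with e | e
    · exact ⟨le_antisymm e hn.le ▸ gd, .inl (le_antisymm e hn.le)⟩
    · exact ⟨e.1.gd h.k0 hn.le gd, .inr e⟩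
  · obtain ⟨i, hi, i1, i2⟩ := h.spl (fun y => odd3 hX.pg) hX.nt hy
    have m1 := hY.le (h.ct hX (mul_mem (inv_mem hi) hy) i2)
    have e : t * y * t = i⁻¹ * (i⁻¹ * y) := by
      rw [← i1, mul_assoc (t * i), i1, ← i2, ← mul_assoc, ← mul_assoc, mul_assoc t i, mul_inv_cancel,
        mul_one]
    rw [e, show y * (i⁻¹ * (i⁻¹ * y)) = i * (i⁻¹ * y) * i⁻¹ * (i⁻¹ * y) by group]
    exact mul_mem (hn.conj_mem hi m1) m1

theorem step2 (hY : XX t U P T Y0) (gd : Gd (Op {3} (𝒩 Y0)) u k) (s3 : σ ^ 3 ∈ Y0)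
    (hD : ∀ z ∈ 𝒩 Y0, Odd (orderOf z) → t * z * t = z⁻¹ → z ∈ 𝒞 U → z ∈ zpowers σ) :
    NB t U T Y0 (Op {3} (𝒩 Y0)) := by
  obtain ⟨hX, hl⟩ := h.xx_op hY
  have nr := Op_nrm {3} (𝒩 Y0)
  have mx : ∀ N : Subgroup G, IsPGroup 3 N → N ⊴ 𝒩 Y0 → N ≤ Op {3} (𝒩 Y0) := fun N => le_Op_p Nat.prime_three
  generalize Op {3} (𝒩 Y0) = X at *
  have dc : ∀ g ∈ 𝒩 Y0, g * t = t * g → _ := fun g hg e => h.dec' (h.nP hY hg e) e
  obtain ⟨O, o1, o2, o3, o4, -⟩ := exists_oddpart (h.toWU.two.not_four hY.nt h.tt fun y hy e y2 => by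
    obtain ⟨e, he, p, hp, d, hd, u', hu, rfl⟩ := dc y hy e
    have e1 : p * (d * u') = 1 := by
      refine mem_bot.1 (mem_of_sq (h.odd_pdu hp hd hu) (mem_bot.2 ?_))
      rcases he with rfl | rfl
      · simpa using y2
      · rwa [h.toWH.tk_sq (h.pduE hp hd hu)] at y2
    rwa [e1, mul_one])
  have a1 : a ≠ 1 := fun e => by
    have e1 := h.oa
    have := h.hn
    have := h.ks.q27
    rw [e, orderOf_one] at e1
    omega
  obtain ⟨N, NO, ch⟩ := exists_chief_gt (⟨o1, (le_norm _).trans o4⟩ : O ⊴ 𝒩 Y0) nr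
    (lt_of_le_of_ne (fun y hy => o3 y (nr.le hy) (odd3 hX.pg hy)) fun e =>
      a1 (h.T3 hX.pg h.aT (e ▸ o3 a (hY.nT h.aT) (h.ks.D_odd h.aT))))
  have oN : ∀ y ∈ N, Odd (orderOf y) := fun y hy => o2.of_dvd_nat (orderOf_dvd (NO hy))
  have sN : Sol N := h.ft N (odd_of_le o2 NO)
  obtain ⟨r, hr, r1, -⟩ := ch.exists_prime sN
  obtain ⟨c1, c2⟩ := ch.elem sN hr r1
  have r3 : r ≠ 3 := fun e => ch.lt.not_ge (mx N (isPGroup_iff_forall.2 fun y hy => by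
    obtain ⟨j, hj⟩ := isPGroup_iff_forall.1 hX.pg _ (c2 y hy)
    exact ⟨j + 1, by rw [pow_succ', pow_mul, ← e, e, ← hj, e]⟩) ch.nU)
  have nN := ch.nU.norm
  have tN : ∀ y ∈ N, t * y * t ∈ N := fun y hy => by
    simpa only [h.ti] using conj_mem_of_norm (nN hY.nt) hy
  let M : Subgroup G :=
    { carrier := {y | y ∈ N ∧ y * (t * y * t) ∈ X}
      one_mem' := ⟨one_mem _, by simp [h.tt]⟩
      mul_mem' := fun {y z} hy hz => ⟨mul_mem hy.1 hz.1, by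
        have := mul_mem (mul_mem (nr.conj_mem (ch.nU.le hy.1)
          (c1 (commutator_mem_commutator hz.1 (tN y hy.1)))) hy.2) hz.2
        convert this using 1
        simp only [commutatorElement_def, mul_inv_rev, h.ti, mul_assoc, h.iv.sl, inv_mul_cancel_left]⟩
      inv_mem' := fun {y} hy => ⟨inv_mem hy.1, by
        have := nr.conj_mem (ch.nU.le (inv_mem hy.1)) (inv_mem hy.2)
        convert this using 1
        simp only [mul_inv_rev, h.ti, mul_assoc, inv_inv, inv_mul_cancel, mul_one]⟩ }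
  have nM : ∀ g ∈ 𝒩 Y0, g * t = t * g → g ∈ 𝒩 M := fun g hg e =>
    mem_normalizer_of_forall fun y hy => ⟨ch.nU.conj_mem hg hy.1, by
      have := nr.conj_mem hg hy.2
      convert this using 1
      rw [show g * (y * (t * y * t)) * g⁻¹ =
        g * y * g⁻¹ * (g * t * g⁻¹ * (g * y * g⁻¹) * (g * t * g⁻¹)) by group, e, mul_inv_cancel_right]⟩
  have XM : X ≤ M := fun y hy => ⟨ch.lt.le hy, mul_mem hy (by
    simpa only [h.ti] using conj_mem_of_norm hX.nt hy)⟩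
  have MX : M ≤ X := by
    refine (h.sec hX.pg gd ⟨XM, fun y hy => nr.norm (ch.nU.le hy.1)⟩ (fun y hy => oN y hy.1)
      (nM t hY.nt rfl) (fun d hd => nM d (hY.nT hd) (h.Tt hd)) (fun d hd => nM d (hY.nU hd) (h.Ut hd))
      hX.nT hX.nU (fun y hy => hy.2) (hl.le s3)
      fun z hz => hD z (ch.nU.le hz.1) (oN z hz.1)).resolve_right fun ⟨_, e1, e2⟩ => e2 ?_
    exact mem_of_pow_mem ((Nat.coprime_primes hr Nat.prime_three).2 r3) (c2 _ e1.1) (hl.le s3)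
  have st : ∀ y ∈ N, ∃ i ∈ X, i⁻¹ * y * t = t * (i⁻¹ * y) := fun y hy => by
    obtain ⟨i, hi, i1, i2⟩ := h.spl oN (nN hY.nt) hy
    exact ⟨i, MX ⟨hi, by simp [i1]⟩, i2⟩
  obtain ⟨y, hy, ny⟩ := SetLike.exists_of_lt ch.lt
  obtain ⟨i, hi, e⟩ := st y hy
  have m1 := mul_mem (inv_mem (ch.lt.le hi)) hy
  obtain ⟨p, hp, d, hd, u', hu, e1⟩ := h.decE (h.nP hY (ch.nU.le m1) e) (h.toWH.odd_mem e (oN _ m1))
  obtain ⟨c, hc, cN, c1⟩ := h.exT (hY.nT.trans nN) hd hu (by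
    simpa [e1] using mul_mem (inv_mem (ch.lt.le (hX.le hp))) m1) fun e2 => ny (by
      rw [e2, mul_one] at e1
      simpa [← e1] using mul_mem hi (hX.le hp))
  intro b hb
  obtain ⟨j, hj, e2⟩ := st _ (conj_mem_of_norm' (nN hb) cN)
  obtain ⟨c', hc', e3⟩ := h.fp (y := b * t * b⁻¹) hX.pg hc c1 (hX.nT hc) (by
    have := nr.conj_mem hb (mul_mem (conj_mem_of_norm' hX.nt hj) (inv_mem hj))
    convert this using 1
    rw [show (b * t * b⁻¹)⁻¹ * (c * (b * t * b⁻¹) * c⁻¹) =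
      b * (t⁻¹ * j * (j⁻¹ * (b⁻¹ * c * b) * t) * (b⁻¹ * c * b)⁻¹) * b⁻¹ by group, e2]
    group)
  have tB := conj_mem_of_norm (le_norm _ hb) hY.nt
  have m2 : b * t * b⁻¹ * t ∈ X := by
    obtain ⟨e, he, p, hp, d, hd, u', hu, e4⟩ := dc _ (mul_mem tB (nr.le hc')) e3
    have m3 : p * (d * u') ∈ X := by
      refine mem_of_sq (h.odd_pdu hp hd hu) ?_
      have e5 : p * (d * u') * (p * (d * u')) = b * t * b⁻¹ * c' * (b * t * b⁻¹ * c') := by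
        rw [e4]
        rcases he with rfl | rfl
        · simp
        · rw [h.toWH.tk_sq (h.pduE hp hd hu)]
      have := mul_mem (nr.conj_mem tB hc') hc'
      rwa [(h.iv.conj b).inv, mul_assoc, ← e5] at this
    have m4 := mul_mem m3 (inv_mem hc')
    rw [eq_mul_inv_of_mul_eq e4, mul_assoc e]
    rcases he with rfl | rfl
    · refine absurd (mem_bot.1 (mem_of_sq (odd3 hX.pg m4) ?_)) ?_ <;>
        rw [← one_mul (p * _), ← e4, mul_inv_cancel_right]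
      · exact mem_bot.2 (h.iv.conj b).ss
      · exact (h.iv.conj b).ne
    · simpa only [h.ti] using conj_mem_of_norm hX.nt m4
  obtain ⟨i, hi, -, i2⟩ := inv_split h.tt (odd3 hX.pg m2)
  have iX := zpowers_le.2 m2 hi
  obtain ⟨e, he, p, hp, d, hd, u', hu, e4⟩ := dc _ (mul_mem (inv_mem (nr.le iX)) hb) i2
  refine ⟨i * p, mul_mem iX (hX.le hp), e, he, d, hd, u', hu, ?_⟩
  rw [eq_mul_of_inv_mul_eq e4, mul_assoc, ← mul_assoc e, ← mul_assoc p]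
  rcases he with rfl | rfl
  · simp
  · rw [h.Pt hp]

end S3
end Cfsg.GW2.Lx
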