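import Cfsg.Agent.GS.WL3

/-! Sylow `3`-subgroups and the transfer. -/

set_option autoImplicit false
set_option linter.unusedSectionVars false

namespace Cfsg.GW2.Lx

open Subgroup Cfsg.L0 Cfsg.H8 Cfsg.FT Cfsg.GJ

variable {G : Type} [Group G] [Finite G]
variable {t v w x s a b c d e g i p u u' y z σ : G} {E L U P T Y X V R W Q : Subgroup G} {q n m k : ℕ}

theorem pow_mod (hy : y ∈ X) (hu : u ∈ 𝒩 X) (j : ℕ) : (y * u) ^ j * (u ^ j)⁻¹ ∈ X := by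
  induction j with
  | zero => simp
  | succ j ih =>
    rw [show (y * u) ^ (j + 1) * (u ^ (j + 1))⁻¹ = (y * u) ^ j * (u ^ j)⁻¹ * (u ^ j * y * (u ^ j)⁻¹) by
      rw [pow_succ, pow_succ' u]; group]
    exact mul_mem ih (conj_mem_of_norm (pow_mem hu j) hy)

theorem cube (e : g * y = z * y * g) (e1 : z * g = g * z) (e2 : z * y = y * z) (z3 : z ^ 3 = 1)
    (y3 : y ^ 3 = 1) : (g * y) ^ 3 = g ^ 3 := by
  have c1 : ∀ r, g * (y * r) = z * (y * (g * r)) := fun r => by rw [← mul_assoc, e]; group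
  have c2 : ∀ r, g * (z * r) = z * (g * r) := fun r => by rw [← mul_assoc, ← e1, mul_assoc]
  have c3 : ∀ r, y * (z * r) = z * (y * r) := fun r => by rw [← mul_assoc, ← e2, mul_assoc]
  have : (g * y) ^ 3 = z ^ 3 * z ^ 3 * (y ^ 3 * g ^ 3) := by
    rw [← mul_one ((g * y) ^ 3), ← mul_one (g ^ 3)]
    simp only [pow_three, mul_assoc, c1, c2, c3]
  rw [this, z3, y3]; simp

namespace S3
variable (h : S3 t E L U P T Y v w x q n m a u k)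
include h

theorem u1U : u ^ k ∈ U := pow_mem h.uU k
theorem ou1 : orderOf (u ^ k) = 3 := by
  rw [orderOf_pow_of_dvd h.k0.ne' (h.ou ▸ dvd_mul_left k 3), h.ou, Nat.mul_div_cancel _ h.k0]
theorem u13 : (u ^ k) ^ 3 = 1 := h.ou1 ▸ pow_orderOf_eq_one _
theorem u1n : u ^ k ≠ 1 := fun e => by have := h.ou1; rw [e, orderOf_one] at this; omega

theorem XU (hX : XX t U P T X) (hu : u' ∈ U) (e : u' ∈ X) : u' = 1 :=
  h.dis _ hu (h.ks.RK (h.ct hX e (h.Ut hu)))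

theorem ord3 (hX : XX t U P T X) (hy : y ∈ X) (hu : u' ∈ U) (e : (y * u') ^ 3 = 1) : u' ^ 3 = 1 :=
  h.XU hX (pow_mem hu 3) (by simpa [e] using pow_mod hy (hX.nU hu) 3)

theorem cls (hX : XX t U P T X) (gd : Gd X u k) (hy : y ∈ X) (hu : u' ∈ U) (e : (y * u') ^ 3 = 1) :
    y * u' ∈ X ∨ ∃ c ∈ X, y * u' = c * u ^ k * c⁻¹ ∨ (y * u')⁻¹ = c * u ^ k * c⁻¹ := by
  rcases zp3 (X := ⊥) h.u13 (mem_zp_of_cyc h.cyc h.u1U hu h.ou1 (h.ord3 hX hy hu e)) with e1 | e1 | e1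
  · exact .inl (by rwa [mem_bot.1 e1, mul_one])
  · obtain rfl := inv_mul_eq_one.1 (mem_bot.1 e1)
    exact .inr ((gd.h1 y hy e).imp fun c hc => ⟨hc.1, .inl hc.2⟩)
  · obtain rfl := eq_inv_of_mul_eq_one_right (mem_bot.1 e1)
    have e2 : (y * (u ^ k)⁻¹)⁻¹ = u ^ k * y⁻¹ * (u ^ k)⁻¹ * u ^ k := by group
    obtain ⟨c, hc, e3⟩ := gd.h1 _ (conj_mem_of_norm (hX.nU h.u1U) (inv_mem hy))
      (by rw [← e2, inv_pow, e, inv_one])
    exact .inr ⟨c, hc, .inr (e2.trans e3)⟩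

theorem memR (hR : IsSyl 3 R U) (hu : u' ∈ U) (e : ∃ j, u' ^ 3 ^ j = 1) : u' ∈ R :=
  haveI : Fact (Nat.Prime 3) := ⟨Nat.prime_three⟩
  hR.mem_of_mem_normalizer hu e ((Cyc.abel h.cyc).le_norm hR.le hu)

theorem wc (hX : XX t U P T X) (gd : Gd X u k) (v3 : ∀ y ∈ V, y ^ 3 = 1)
    (x3 : ∀ y ∈ X, y ^ 3 = 1 → y ∈ V) (big : ∀ y ∈ V, 27 * ♯X < ♯(V ⊓ 𝒞₁ y) ^ 3)
    (e : cj g V ≤ X ⊔ U) : g ∈ 𝒩 V := by
  have c3 : ∀ y ∈ cj g V, y ^ 3 = 1 := by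
    rintro _ ⟨y, hy, rfl⟩
    rw [← map_pow, v3 y hy, map_one]
  refine mem_norm_of_cj_le fun y hy => x3 y (by_contra fun ny => ?_) (c3 y hy)
  obtain ⟨y0, h0, u', hu, rfl⟩ := (mem_sup_l hX.nU).1 (e hy)
  have b1 : ♯(X ⊓ 𝒞₁ (y0 * u')) ^ 3 ≤ ♯X := by
    obtain ⟨c, hc, e1⟩ := (h.cls hX gd h0 hu (c3 _ hy)).resolve_left ny
    have e2 : 𝒞₁ (y0 * u') = cj c (𝒞₁ (u ^ k)) := by
      rw [cj_cent1]
      rcases e1 with e1 | e1 <;> rw [← e1]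
      rw [← cent_zpowers, ← cent_zpowers, zpowers_inv]
    rw [e2, ← cj_eq_of_mem_norm (le_norm X hc), ← cj_inf, card_cj, card_cj]
    exact gd.bd
  have o3 : orderOf u' = 3 := haveI : Fact (Nat.Prime 3) := ⟨Nat.prime_three⟩
    orderOf_eq_prime (h.ord3 hX h0 hu (c3 _ hy)) fun e => ny (by rwa [e, mul_one])
  have b2 : cj g V ⊓ 𝒞₁ (y0 * u') ≤ (X ⊓ 𝒞₁ (y0 * u')) ⊔ zpowers (y0 * u') := fun c hc => by
    obtain ⟨c0, h1, u2, h2, rfl⟩ := (mem_sup_l hX.nU).1 (e hc.1)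
    obtain ⟨j, rfl⟩ := mem_powers_iff_mem_zpowers.2
      (mem_zp_of_cyc h.cyc hu h2 o3 (h.ord3 hX h1 h2 (c3 _ hc.1)))
    have m1 : (y0 * u') ^ j ∈ 𝒞₁ (y0 * u') := pow_mem (self_mem_cent1 _) j
    have m2 : c0 * u' ^ j * ((y0 * u') ^ j)⁻¹ ∈ X ⊓ 𝒞₁ (y0 * u') := mem_inf.2 ⟨by
      simpa [mul_assoc] using mul_mem h1 (inv_mem (pow_mod h0 (hX.nU hu) j)),
      mul_mem (mem_inf.1 hc).2 (inv_mem m1)⟩
    have := mul_mem (mem_sup_left (T := zpowers (y0 * u')) m2)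
      (mem_sup_right (pow_mem (mem_zpowers _) j))
    simpa using this
  have b3 := (card_le b2).trans (Nat.le_of_dvd (Nat.mul_pos (card_pos' _) (card_pos' _))
    (card_sup_dvd (le_norm_of_cent (by rw [← cent_comm, cent_zpowers]) inf_le_right)))
  have b4 : orderOf (y0 * u') ≤ 3 := Nat.le_of_dvd (by norm_num) (orderOf_dvd_of_pow_eq_one (c3 _ hy))
  have b5 := big _ (mem_cj.1 hy)
  rw [← card_cj g (V ⊓ _), cj_inf, cj_cent1, show g * (g⁻¹ * (y0 * u') * g) * g⁻¹ = y0 * u' by group] at b5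
  rw [card_zpow] at b3
  have := Nat.pow_le_pow_left (b3.trans (Nat.mul_le_mul_left _ b4)) 3
  rw [mul_pow] at this
  omega

theorem syl (hX : XX t U P T X) (gd : Gd X u k) (hV : V ≤ X) (nb : NB t U T V X)
    (v3 : ∀ y ∈ V, y ^ 3 = 1) (x3 : ∀ y ∈ X, y ^ 3 = 1 → y ∈ V)
    (big : ∀ y ∈ V, 27 * ♯X < ♯(V ⊓ 𝒞₁ y) ^ 3) (hR : IsSyl 3 R U) : IsSyl 3 (X ⊔ R) ⊤ := by
  have : Fact (Nat.Prime 3) := ⟨Nat.prime_three⟩
  refine IsSyl.of_normalizer (isSyl_of_maximal (le_inf le_top (le_norm _))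
    (pgroup_sup (hR.le.trans hX.nU) hX.pg hR.isPGroup) fun S pS h1 h2 g hg => ?_)
  obtain ⟨y, hy, e, he, d, hd, u', hu, rfl⟩ := nb g (h.wc hX gd v3 x3 big
    ((cj_le_of_le (hV.trans le_sup_left) (h2 hg).2).trans (sup_le_sup_left hR.le X)))
  have m1 : e * (d * u') ∈ S := by simpa using mul_mem (inv_mem (h1 (mem_sup_left hy))) hg
  have m2 : d * u' ∈ E := by simpa using h.pduE (one_mem P) hd hu
  rcases he with rfl | rfl
  · rw [one_mul] at m1 ⊢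
    obtain ⟨j, hj⟩ := isPGroup_iff_forall.1 pS _ m1
    have m3 := h.memR hR hu ⟨j, h.dis _ (pow_mem hu _) (h.ks.DK (by
      simpa [hj] using pow_mod hd (h.UT hu) (3 ^ j)))⟩
    rw [h.T3 pS hd (by simpa using mul_mem m1 (inv_mem (h1 (mem_sup_right m3)))), one_mul]
    exact mul_mem (mem_sup_left hy) (mem_sup_right m3)
  · exact absurd (h.toWH.odd_mem (by rw [mul_assoc, h.cm _ m2]) (odd3 pS m1)) (h.toWH.ntE m2)

theorem tr_false (hX : XX t U P T X) (gd : Gd X u k) (hR : IsSyl 3 R U) (hS : IsSyl 3 (X ⊔ R) ⊤)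
    (no : ∀ g, g⁻¹ * u ^ k * g ∉ X) : False := by
  have nR := hR.le.trans hX.nU
  obtain ⟨A, _, _, π, p1, p2, -⟩ := exists_sec (nrm_sup_left nR) fun y hy z hz => by
    have := der_sup_le nR (commutator_mem_commutator hy hz)
    rwa [abel_iff_der.1 ((Cyc.abel h.cyc).mono hR.le), sup_bot_eq] at this
  let ν : ↥(X ⊔ R) →* Multiplicative A := MonoidHom.mk' (fun y => Multiplicative.ofAdd (π y))
    fun a b => congrArg Multiplicative.ofAdd (p1 _ a.2 _ b.2)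
  have m1 : u ^ k ∈ X ⊔ R := mem_sup_right (h.memR hR h.u1U ⟨1, h.u13⟩)
  have e1 := transfer_eq_pow_elt ν ⟨u ^ k, m1⟩ fun g j hy => by
    have m2 := pow_mem h.u1U j
    have key : ∃ c ∈ X, g⁻¹ * (u ^ k) ^ j * g = c * (u ^ k) ^ j * c⁻¹ := by
      obtain ⟨y, h1, u', h2, e⟩ := (mem_sup_l nR).1 hy
      have z3 : ((u ^ k) ^ j) ^ 3 = 1 := by rw [← pow_mul, mul_comm, pow_mul, h.u13, one_pow]
      have := h.cls hX gd h1 (hR.le h2) (by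
        rw [e, show g = g⁻¹⁻¹ by simp, inv_inv g⁻¹, ← conj_pow', z3]; simp)
      change y * u' = g⁻¹ * (u ^ k) ^ j * g at e
      rw [e] at this
      have f : ∀ c r, r ∈ U → g⁻¹ * r * g = c * u ^ k * c⁻¹ → r = u ^ k := fun c r hr e => by
        have e2 : (g * c)⁻¹ * r * (g * c)⁻¹⁻¹ = u ^ k := by
          rw [show (g * c)⁻¹ * r * (g * c)⁻¹⁻¹ = c⁻¹ * (g⁻¹ * r * g) * c by group, e]; group
        rw [← e2, h.toWU.fusU hr (e2 ▸ h.u1U), mul_inv_cancel_right]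
      rcases this with e2 | ⟨c, hc, e2 | e2⟩
      · refine ⟨1, one_mem _, by_contra fun e3 => no g ?_⟩
        obtain ⟨i, hi⟩ := zp_gen Nat.prime_three h.u13 (pow_mem (mem_zpowers _) j)
          (fun e4 => e3 (by simp [e4]))
        have := zpow_mem e2 i
        rwa [show g = g⁻¹⁻¹ by simp, inv_inv g⁻¹, conj_zpow, inv_inv, show _ ^ i = _ from hi] at this
      · exact ⟨c, hc, by rw [e2, f c _ m2 e2]⟩
      · refine ⟨c, hc, inv_injective ?_⟩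
        have e3 := f c _ (inv_mem m2) (by rw [← e2]; group)
        rw [e2, mul_inv_rev, mul_inv_rev, e3, inv_inv, mul_assoc]
    obtain ⟨c, hc, e⟩ := key
    have e2 : (⟨_, hy⟩ : ↥(X ⊔ R)) = ⟨c, mem_sup_left hc⟩ * ⟨u ^ k, m1⟩ ^ j * ⟨c, mem_sup_left hc⟩⁻¹ :=
      Subtype.ext e
    rw [e2, map_mul, map_mul, map_inv, mul_inv_cancel_comm, map_pow]
  have e2 : MonoidHom.transfer ν (u ^ k) = 1 :=
    Abelianization.commutator_subset_ker _ (h.gi.odd (h.toWU.oU' h.u1U))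
  have e3 : ν ⟨u ^ k, m1⟩ = 1 := eq_one_of_pow_coprime (relIndex_top_right (X ⊔ R) ▸ hS.coprime)
    (e1.symm.trans e2) (by rw [← map_pow, ← map_one ν]; exact congrArg ν (Subtype.ext h.u13))
  exact h.u1n (h.XU hX h.u1U ((p2 _ m1).1 e3))

theorem noP (g : G) : g⁻¹ * u ^ k * g ∉ P := fun e => by
  have := h.fz _ (h.LE (h.ks.RK e)) (h.ks.R_odd e) g (by simpa [mul_assoc] using h.UE h.u1U)
  refine h.u1n (h.dis _ h.u1U ?_)
  simpa [mul_assoc] using mul_mem (h.ks.RK e) this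

theorem Pu (hy : y ∈ P) (y1 : y ≠ 1) (e : y * u = u * y) (hz : z ∈ P) (e' : z * u = u * z) :
    z ∈ zpowers y := by
  have e1 := h.fP u h.uU
  rw [h.ou, h.hq] at e1
  have e2 := Nat.pow_left_injective (by have := h.k0; omega) e1
  rw [eq_zpowers_of_prime (B := P ⊓ 𝒞₁ u) (e2 ▸ Nat.prime_three) ⟨hy, mem_cent1.2 e⟩ y1]
  exact ⟨hz, mem_cent1.2 e'⟩

theorem fsP : FS P ⊥ a u (3 * k) := by
  have cm : ∀ {g y : G}, y⁻¹ * (g * y * g⁻¹) ∈ (⊥ : Subgroup G) → y * g = g * y := fun e =>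
    (mul_inv_eq_iff_eq_mul.1 (inv_mul_eq_one.1 (mem_bot.1 e)).symm).symm
  refine fbs (Nrm.bot P) (fun y hy z hz => by simp [h.ks.Rab y hy z hz]) (h.ks.DN h.aT)
    (norm_bot.ge (mem_top _)) (h.UP h.uU) (norm_bot.ge (mem_top _)) (h.hn.trans h.hq)
    (by have := h.k0; omega) h.toW3.on (h.tT.pow h.aT) (h.ou ▸ pow_orderOf_eq_one u) h.ua
    (fun j y hy e => ?_) (fun y hy z hz e1 e2 ny => ?_) (fun y hy => mem_of_sq (h.ks.R_odd hy))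
    fun e => h.toW3.x1 (mem_bot.1 (e h.xP))
  · exact (h.ks.fpf _ (pow_mem h.aT j) y hy (cm e).symm).symm.imp mem_bot.2
      fun e => h.oa ▸ orderOf_dvd_of_pow_eq_one e
  · exact zp3 (mem_bot.2 (h.ks.R3 y hy)) (h.Pu hy (mt mem_bot.2 ny) (cm e1) hz (cm e2))

theorem cP (hz : z ∈ 𝒩 P) (o : Odd (orderOf z)) (e : t * z * t = z⁻¹) : z ∈ 𝒞 P :=
  mem_cent.2 fun p hp => comm_of_sq o (by
    have e1 := conj_of_cm (h.Pt (conj_mem_of_norm hz hp)).symm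
    rw [show t * (z * p * z⁻¹) * t⁻¹ = t * z * t⁻¹ * (t * p * t⁻¹) * (t * z * t⁻¹)⁻¹ by group,
      conj_of_cm (h.Pt hp).symm, h.ti, e] at e1
    rw [show p * (z * z) = z * (z⁻¹ * p * z⁻¹⁻¹) * z by group, e1]
    group)

theorem q3 : 27 * q < q ^ 3 ∧ 27 * (q * q) < (2 * q) ^ 3 ∧ 27 * (q * q * q) < (q * q) ^ 3 := by
  have := h.ks.q27
  have a : 27 * 27 ≤ q * q := Nat.mul_le_mul this this
  have b : 27 * 27 * 27 ≤ q * q * q := Nat.mul_le_mul a this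
  refine ⟨by nlinarith, by nlinarith, by nlinarith⟩

section
variable (hW : XX t U P T W) (fs : FS W P a u (3 * k)) (nW : P ⊴ W) (sW : σ ∈ W) (sP : σ ∉ P)
include hW fs nW sW sP

theorem WP : W ≤ 𝒞 P := fun y hy => by
  obtain ⟨i, hi, i1, i2⟩ := h.spl (fun y => odd3 hW.pg) hW.nt hy
  have m1 := h.ct hW (mul_mem (inv_mem hi) hy) i2
  simpa using mul_mem (h.cP (nW.norm hi) (odd3 hW.pg hi) i1)
    (mem_cent.2 fun p hp => h.ks.Rab p hp _ m1)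

theorem Wdec (hy : y ∈ W) : y ∈ P ∨ ∃ d ∈ T, ∃ p ∈ P, y = d * σ * d⁻¹ * p ∨ y = (d * σ * d⁻¹)⁻¹ * p := by
  refine or_iff_not_imp_left.2 fun ny => ?_
  obtain ⟨j, hj⟩ := fs.tr σ sW y hy sP ny
  refine ⟨a ^ j, pow_mem h.aT j, ?_⟩
  rcases hj with e | e
  · exact ⟨_, e, .inl (by group)⟩
  · exact ⟨_, e, .inr (by group)⟩

theorem W3' (s3 : σ ^ 3 = 1) (hy : y ∈ W) : y ^ 3 = 1 := by
  rcases h.Wdec hW fs nW sW sP hy with e | ⟨d, hd, p, hp, e⟩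
  · exact h.ks.R3 y e
  have m1 := conj_mem_of_norm (hW.nT hd) sW
  have e1 : (d * σ * d⁻¹) ^ 3 = 1 := by rw [← conj_pow', s3]; simp
  rcases e with rfl | rfl
  · rw [Commute.mul_pow (mem_cent.1 (h.WP hW fs nW sW sP m1) p hp).symm, e1, h.ks.R3 p hp, mul_one]
  · rw [Commute.mul_pow (mem_cent.1 (h.WP hW fs nW sW sP (inv_mem m1)) p hp).symm, inv_pow, e1,
      h.ks.R3 p hp, inv_one, mul_one]

theorem cW : ♯W = q * q := by rw [fs.card, h.ks.cR, ← h.hq]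

theorem bigW (hy : y ∈ W) : 2 * q ≤ ♯(W ⊓ 𝒞₁ y) := by
  have l : P ≤ W ⊓ 𝒞₁ y := le_inf hW.le (le_cent1_iff.2 (h.WP hW fs nW sW sP hy))
  have l2 : P < W ⊓ 𝒞₁ y := lt_of_le_of_ne l fun e => by
    have m1 : y ∈ P := e ▸ ⟨hy, self_mem_cent1 y⟩
    exact sP (e ▸ ⟨sW, cent_le_cent1 m1 (h.WP hW fs nW sW sP sW)⟩)
  obtain ⟨c, hc⟩ := card_dvd l
  have := card_lt l2
  rw [hc, h.ks.cR] at this ⊢
  rw [mul_comm]
  exact Nat.mul_le_mul_left _ (by by_contra! e; interval_cases c <;> omega)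

end

theorem sU (s9 : orderOf s = 9) (i : t * s * t = s⁻¹) {j : ℕ} (e : s ^ j ∈ U) : 9 ∣ j := by
  rw [← s9, orderOf_dvd_iff_pow_eq_one]
  exact eq_one_of_inv (h.toWU.oU' e) (h.Ut e).symm
    (inv_zpowers (by rwa [h.ti]) (pow_mem (mem_zpowers s) j))

/-- the case of a Sylow subgroup `W U₃` with `W` of exponent `3` -/
theorem q2_false (hW : XX t U P T W) (gd : Gd W u k) (WP : W ≤ 𝒞 P) (w3 : ∀ y ∈ W, y ^ 3 = 1)
    (hR : IsSyl 3 R U) (hS : IsSyl 3 (W ⊔ R) ⊤) (sC : s ∈ 𝒞 U) (s9 : orderOf s = 9)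
    (i : t * s * t = s⁻¹) (bd : ∀ X ≤ 𝒞₁ (u ^ k), IsPGroup 3 X → ♯X ∣ q * ♯U) : False := by
  have : Fact (Nat.Prime 3) := ⟨Nat.prime_three⟩
  have s1 : s ^ 3 ^ 2 = 1 := by rw [← pow_orderOf_eq_one s, s9]; rfl
  by_cases k3 : 3 ∣ k
  · obtain ⟨l, hl⟩ := k3
    have l0 : l ≠ 0 := fun e => by have := h.k0; simp [e] at hl; omega
    have o9 : orderOf (u ^ l) = 9 := by
      rw [orderOf_pow_of_dvd l0 (by rw [h.ou, hl]; exact ⟨9, by ring⟩), h.ou, hl, ← mul_assoc,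
        Nat.mul_div_cancel _ (Nat.pos_of_ne_zero l0)]
      rfl
    have cm : Commute s (u ^ l) := (mem_cent.1 sC _ (pow_mem h.uU l)).symm
    obtain ⟨g, -, hg⟩ := hS.exists_cj_le (pgroup_sup (zpowers_le.2 (cent_le_norm _
      (cent_zpowers s ▸ mem_cent1.2 cm.symm))) (isPGroup_zpowers s1)
      (isPGroup_zpowers (x := u ^ l) (k := 2) (by rw [← pow_orderOf_eq_one (u ^ l), o9]; rfl))) le_top
    have nR := hR.le.trans hW.nU
    obtain ⟨y1, h1, u1, h2, e1⟩ := (mem_sup_l nR).1 (hg (conj_mem_cj (mem_sup_left (mem_zpowers _))))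
    obtain ⟨y2, h3, u2, h4, e2⟩ := (mem_sup_l nR).1 (hg (conj_mem_cj (mem_sup_right (mem_zpowers _))))
    obtain ⟨i1, rfl⟩ := mem_powers_iff_mem_zpowers.2 (h.gu ▸ hR.le h2)
    obtain ⟨i2, rfl⟩ := mem_powers_iff_mem_zpowers.2 (h.gu ▸ hR.le h4)
    obtain ⟨j1, j2, cp, e3, e4⟩ := Nat.exists_coprime i1 i2
    have e5 := w3 _ (mul_mem (pow_mod h1 (nR h2) j2) (inv_mem (pow_mod h3 (nR h4) j1)))
    simp only at e1 e2 e5
    rw [e1, e2, ← pow_mul u, ← pow_mul u, show i1 * j2 = i2 * j1 by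
      conv_lhs => rw [e3]
      conv_rhs => rw [e4]
      ring, ← conj_pow', ← conj_pow', show ∀ r, g * s ^ j2 * g⁻¹ * r⁻¹ * (g * (u ^ l) ^ j1 * g⁻¹ * r⁻¹)⁻¹ =
        g * (s ^ j2 * ((u ^ l) ^ j1)⁻¹) * g⁻¹ from fun r => by group, ← conj_pow', conj_eq_one_iff,
      (cm.pow_pow j2 j1).inv_right.mul_pow, inv_pow, mul_inv_eq_one, ← pow_mul, ← pow_mul (u ^ l)] at e5
    have d1 := h.sU s9 i (e5 ▸ pow_mem (pow_mem h.uU l) _)
    have d2 : 9 ∣ j1 * 3 := by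
      rw [← o9, orderOf_dvd_iff_pow_eq_one, ← e5, ← orderOf_dvd_iff_pow_eq_one, s9]; exact d1
    have := Nat.eq_one_of_dvd_coprimes cp (by omega : 3 ∣ j1) (by omega)
    omega
  · refine h.tr_false hW gd hR hS fun g hg => ?_
    have n1 : zpowers (g⁻¹ * u ^ k * g) ≤ 𝒩 P := zpowers_le.2 (cent_le_norm P (WP hg))
    have l1 : P ⊔ zpowers (g⁻¹ * u ^ k * g) ≤ W := sup_le hW.le (zpowers_le.2 hg)
    have l2 : cj g (P ⊔ zpowers (g⁻¹ * u ^ k * g)) ≤ 𝒞₁ (u ^ k) := by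
      rw [show 𝒞₁ (u ^ k) = cj g (𝒞₁ (g⁻¹ * u ^ k * g)) by rw [cj_cent1]; congr 2; group]
      exact cj_mono g (sup_le (le_cent1_iff.2 (WP hg)) (zpowers_le.2 (self_mem_cent1 _)))
    have p1 := isPGroup_cj (hW.pg.to_le l1) g
    obtain ⟨S, hS, l3⟩ := exists_isSyl_ge p1 l2
    obtain ⟨i1, e1⟩ := hS.isPGroup.exists_card_eq
    obtain ⟨i2, e2⟩ := p1.exists_card_eq
    have b1 := bd S hS.le hS.isPGroup
    rw [e1, h.hq, h.cU, ← mul_assoc, ← pow_succ] at b1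
    have b2 := (Nat.pow_dvd_pow_iff_le_right (by norm_num)).1 (Nat.Coprime.dvd_of_dvd_mul_right
      (Nat.Coprime.pow_left _ ((Nat.Prime.coprime_iff_not_dvd Nat.prime_three).2 k3)) b1)
    have b3 := card_lt (lt_of_le_of_ne (le_sup_left : P ≤ P ⊔ zpowers (g⁻¹ * u ^ k * g))
      fun e => h.noP g (e ▸ mem_sup_right (mem_zpowers _)))
    rw [← card_cj g (P ⊔ _), e2, h.ks.cR, h.hq, Nat.pow_lt_pow_iff_right (by norm_num)] at b3
    have e3 := eq_of_card_le l3 (by rw [e1, e2]; exact Nat.pow_le_pow_right (by norm_num) (by omega))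
    obtain ⟨c, -, hc⟩ := hS.exists_conj_mem (cent_le_cent1 h.u1U sC) ⟨2, s1⟩
    have e4 := w3 _ (l1 (mem_cj.1 (e3 ▸ hc)))
    rw [show g⁻¹ * (c * s * c⁻¹) * g = g⁻¹ * c * s * (g⁻¹ * c)⁻¹ by group, ← conj_pow',
      conj_eq_one_iff, ← orderOf_dvd_iff_pow_eq_one, s9] at e4
    omega

/-- elements of order `3` of `Q` lie in `W` -/
theorem Q3' (hW : XX t U P T W) (fs : FS W P a u (3 * k)) (nW : P ⊴ W) (sW : s ^ 3 ∈ W)
    (sP : s ^ 3 ∉ P) (hQ : XX t U P T Q) (fq : FS Q W a u (3 * k)) (nQ : W ⊴ Q) (sQ : s ∈ Q)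
    (s9 : orderOf s = 9) (i : t * s * t = s⁻¹) (sx : s * x ≠ x * s) :
    Abel W ∧ ∀ y ∈ Q, y ^ 3 = 1 → y ∈ W := by
  have w3 : ∀ y ∈ W, y ^ 3 = 1 := fun y => h.W3' hW fs nW sW sP (by
    rw [← pow_mul, ← pow_orderOf_eq_one s, s9])
  have WP := h.WP hW fs nW sW sP
  have nZ : ∀ g ∈ 𝒩 W, g ∈ 𝒩 Q → ∀ z ∈ W ⊓ 𝒞 Q, g * z * g⁻¹ ∈ W ⊓ 𝒞 Q := fun g h1 h2 z hz =>
    ⟨conj_mem_of_norm h1 hz.1, conj_mem_of_norm (norm_le_norm_cent Q h2) hz.2⟩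
  obtain ⟨z, hz, z1⟩ := exists_ne_one (inf_cent_ne_bot_of_pgroup Nat.prime_three hQ.pg hW.pg nQ.norm
    (ne_bot_of_mem (hW.le h.xP) h.toW3.x1))
  have zP : z ∉ P := fun e => sx (by
    obtain ⟨j, hj⟩ := h.fsP.tr z e x h.xP (mt mem_bot.1 z1) (mt mem_bot.1 h.toW3.x1)
    have m1 := nZ _ (pow_mem (hW.nT h.aT) j) (pow_mem (hQ.nT h.aT) j) z hz
    refine mem_cent.1 (?_ : x ∈ 𝒞 Q) s sQ
    rcases hj with e | e
    · exact inv_mul_eq_one.1 (mem_bot.1 e) ▸ m1.2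
    · exact eq_inv_of_mul_eq_one_right (mem_bot.1 e) ▸ inv_mem m1.2)
  have dec : ∀ y ∈ W, ∃ z ∈ W ⊓ 𝒞 Q, ∃ p ∈ P, y = z * p := fun y hy => by
    rcases h.Wdec hW fs nW hz.1 zP hy with e | ⟨d, hd, p, hp, e | e⟩
    · exact ⟨1, one_mem _, y, e, by simp⟩
    · exact ⟨_, nZ d (hW.nT hd) (hQ.nT hd) z hz, p, hp, e⟩
    · exact ⟨_, inv_mem (nZ d (hW.nT hd) (hQ.nT hd) z hz), p, hp, e⟩
  have act : ∀ g ∈ Q, t * g * t = g⁻¹ → ∀ y ∈ W, (g * y) ^ 3 = g ^ 3 := fun g hg ig y hy => by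
    obtain ⟨z, hz, p, hp, rfl⟩ := dec y hy
    obtain ⟨i, hi, rfl⟩ := GJ.exists_sqrt (odd3 hQ.pg hg)
    have iQ := zpowers_le.2 hg hi
    have i1 := inv_zpowers (by rwa [h.ti] : t * (i * i) * t⁻¹ = (i * i)⁻¹) hi
    obtain ⟨z', hz', p', hp', e⟩ := dec _ (nQ.conj_mem iQ (hW.le hp))
    have m1 := mul_mem hz' (inv_mem (nZ t hW.nt hQ.nt z' hz'))
    have e1 : i⁻¹ * p * i = t * z' * t⁻¹ * p' := by
      rw [show t * z' * t⁻¹ * p' = t * (z' * (t⁻¹ * p' * t)) * t⁻¹ by group, mul_assoc t⁻¹, h.Pt hp',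
        inv_mul_cancel_left, ← e, show t * (i * p * i⁻¹) * t⁻¹ =
        t * i * t⁻¹ * (t * p * t⁻¹) * (t * i * t⁻¹)⁻¹ by group, i1, conj_of_cm (h.Pt hp).symm, inv_inv]
    have c1 := mem_cent.1 m1.2
    refine cube (z := z' * (t * z' * t⁻¹)⁻¹) ?_ (c1 _ hg).symm (c1 _ (nQ.le hy)).symm (w3 _ m1.1)
      (w3 _ hy)
    rw [← mul_assoc, mem_cent.1 hz.2 _ hg, mul_assoc z, show i * i * p = i * (i * p * i⁻¹) * i by group,
      e, show p' = (t * z' * t⁻¹)⁻¹ * (i⁻¹ * p * i) by rw [e1]; group, ← mul_assoc z', ← mul_assoc i,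
      c1 i iQ, ← mul_assoc _ z, ← c1 z (nQ.le hz.1)]
    group
  refine ⟨fun y hy => mem_cent.2 fun c hc => ?_, fun y hy y3 => by_contra fun ny => ?_⟩
  · obtain ⟨z, hz, p, hp, rfl⟩ := dec y hy
    rw [← mul_assoc, mem_cent.1 hz.2 c (nQ.le hc), mul_assoc, ← mem_cent.1 (WP hc) p hp, mul_assoc]
  · have sW' : s ∉ W := fun e => by
      have := s9 ▸ orderOf_dvd_of_pow_eq_one (w3 s e)
      omega
    obtain ⟨j, hj⟩ := fq.tr s sQ y hy sW' ny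
    have m1 := pow_mem h.aT j
    have m2 := conj_mem_of_norm (hQ.nT m1) sQ
    have i2 : t * (a ^ j * s * (a ^ j)⁻¹) * t⁻¹ = (a ^ j * s * (a ^ j)⁻¹)⁻¹ := by
      rw [show t * (a ^ j * s * (a ^ j)⁻¹) * t⁻¹ =
        t * a ^ j * t⁻¹ * (t * s * t⁻¹) * (t * a ^ j * t⁻¹)⁻¹ by group, conj_of_cm (h.Tt m1).symm, h.ti, i]
      group
    have o9 := (orderOf_conj' (a ^ j) s).trans s9
    generalize a ^ j * s * (a ^ j)⁻¹ = r at *
    have i3 := inv_zpowers i2 (inv_mem (mem_zpowers r))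
    rw [h.ti] at i2 i3
    have : r ^ 3 = 1 := by
      rcases hj with e | e
      · rw [← act r m2 i2 _ e, mul_inv_cancel_left, y3]
      · rw [← inv_eq_one, ← inv_pow, ← act _ (inv_mem m2) i3 _ e, inv_mul_cancel_left, y3]
    have := o9 ▸ orderOf_dvd_of_pow_eq_one this
    omega

theorem false (h9 : X9 (𝒞 U) t x) (bd : ∀ X ≤ 𝒞₁ (u ^ k), IsPGroup 3 X → ♯X ∣ q * ♯U) : False := by
  have : Fact (Nat.Prime 3) := ⟨Nat.prime_three⟩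
  obtain ⟨R, hR⟩ := exists_isSyl 3 U
  have gP := h.fsP.gd h.k0 bot_le (gd_bot u k)
  have cx : ∀ z ∈ 𝒩 P, Odd (orderOf z) → t * z * t = z⁻¹ → z * x = x * z := fun z hz o e =>
    (mem_cent.1 (h.cP hz o e) x h.xP).symm
  obtain ⟨hW, nW⟩ := h.xx_op h.xxP
  have c1 : NB t U T P P → False := fun nb => h.tr_false h.xxP gP hR (h.syl h.xxP gP le_rfl nb h.ks.R3
    (fun _ hy _ => hy) (fun y hy => by
      rw [inf_eq_left.2 fun p hp => mem_cent1.2 (h.ks.Rab p hp y hy), h.ks.cR]; exact h.q3.1) hR) h.noP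
  rcases h9 with h9 | ⟨s, sC, s9, i, -, h1, h2⟩
  · have hD : ∀ z ∈ 𝒩 P, Odd (orderOf z) → t * z * t = z⁻¹ → z ∈ 𝒞 U → z ∈ zpowers 1 :=
      fun z hz o e c => by rw [h9 z c o e (cx z hz o e)]; exact one_mem _
    obtain ⟨gW, e⟩ := h.step1 h.xxP hW nW gP (by simp) hD
    have nb := h.step2 h.xxP gW (by simp) hD
    rw [e.resolve_right fun e => e.2.2 (one_mem P)] at nb
    exact c1 nb
  have s1 : (s ^ 3) ^ 3 = 1 := by rw [← pow_mul, ← pow_orderOf_eq_one s, s9]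
  have hD : ∀ z ∈ 𝒩 P, Odd (orderOf z) → t * z * t = z⁻¹ → z ∈ 𝒞 U → z ∈ zpowers (s ^ 3) :=
    fun z hz o e c => h1 z c o e (cx z hz o e)
  obtain ⟨gW, e⟩ := h.step1 h.xxP hW nW gP (s1 ▸ one_mem P) hD
  have nb := h.step2 h.xxP gW (s1 ▸ one_mem P) hD
  generalize Op {3} (𝒩 P) = W at *
  obtain rfl | ⟨fs, sW, sP⟩ := e
  · exact c1 nb
  have w3 : ∀ y ∈ W, y ^ 3 = 1 := fun y => h.W3' hW fs nW sW sP s1
  have WP := h.WP hW fs nW sW sP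
  have eD : W ⊓ 𝒞 U = zpowers x ⊔ zpowers (s ^ 3) := by
    refine le_antisymm (fun y hy => ?_) (sup_le (zpowers_le.2 ⟨hW.le h.xP, h.xU⟩)
      (zpowers_le.2 ⟨sW, pow_mem sC 3⟩))
    obtain ⟨j, hj, j1, j2⟩ := h.spl (X := W ⊓ 𝒞 U) (fun y hy => odd3 hW.pg hy.1)
      (le_norm_inf (zpowers_le.2 hW.nt) (zpowers_le.2 (le_norm _ h.toWU.tU)) (mem_zpowers t)) hy
    have m1 := mul_mem (inv_mem hj) hy
    simpa using mul_mem (mem_sup_right (h1 j hj.2 (odd3 hW.pg hj.1) j1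
      (mem_cent.1 (WP hj.1) x h.xP).symm)) (mem_sup_left (h.Pu h.xP h.toW3.x1
        (mem_cent.1 h.xU u h.uU).symm (h.ct hW m1.1 j2) (mem_cent.1 m1.2 u h.uU).symm))
  have hD2 : ∀ z ∈ 𝒩 W, Odd (orderOf z) → t * z * t = z⁻¹ → z ∈ 𝒞 U → z ∈ zpowers s :=
    fun z hz o e c => h2 z c o e (eD ▸ le_norm_inf (zpowers_le.2 hz) (zpowers_le.2 (le_norm _ c))
      (mem_zpowers z))
  obtain ⟨hQ, nQ⟩ := h.xx_op hW
  obtain ⟨gQ, e⟩ := h.step1 hW hQ nQ gW sW hD2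
  have nq := h.step2 hW gQ sW hD2
  generalize Op {3} (𝒩 W) = Q at *
  have cW := h.cW hW fs nW sW sP
  obtain rfl | ⟨fq, sQ, sn⟩ := e
  · exact h.q2_false hW gW WP w3 hR (h.syl hW gW le_rfl nq w3 (fun _ hy _ => hy) (fun y hy =>
      (cW ▸ h.q3.2.1).trans_le (Nat.pow_le_pow_left (h.bigW hW fs nW sW sP hy) 3)) hR) sC s9 i bd
  obtain ⟨ab, q3⟩ := h.Q3' hW fs nW sW sP hQ fq nQ sQ s9 i fun e =>
    sn (zpowers_le.2 sW (h1 s sC (s9 ▸ by decide) i e))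
  refine h.tr_false hQ gQ hR (h.syl hQ gQ nQ.le nq w3 q3 (fun y hy => ?_) hR) fun g hg => ?_
  · rw [inf_eq_left.2 (le_cent1_iff.2 (ab hy)), fq.card, cW, ← h.hq]
    exact h.q3.2.2
  · have m1 := q3 _ hg (by rw [show g = g⁻¹⁻¹ by simp, inv_inv g⁻¹, ← conj_pow', h.u13]; simp)
    have b1 := bd (cj g W) (by
      rw [show 𝒞₁ (u ^ k) = cj g (𝒞₁ (g⁻¹ * u ^ k * g)) by rw [cj_cent1]; congr 2; group]
      exact cj_mono g (le_cent1_iff.2 (ab m1))) (isPGroup_cj hW.pg g)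
    have := h.ks.q27
    rw [card_cj, cW, Nat.mul_dvd_mul_iff_left (by omega), h.cU, h.hq] at b1
    exact (Nat.le_of_dvd (by have := h.k0; omega) b1).not_gt (Nat.lt_pow_self (by norm_num))

end S3
end Lx

theorem taskL3 : TaskL3 := fun G _ _ t v w x E L U P T Y q n m h hq ⟨k, hk⟩ h9 bd => by
  obtain ⟨u, q0, gu, e, ua⟩ := h.gen
  obtain ⟨a, ha, ga⟩ := FT.Cyc.exists_zpowers h.ks.cyc
  obtain rfl := Nat.pow_left_injective (FT.card_ne_zero' U) (e.trans hq.symm)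
  have h3 : Lx.S3 t E L U P T Y v w x q n m a u k := ⟨h, by rw [← hq, hk], hk, gu, ga, ua a ha⟩
  exact h3.false h9 (bd _ h3.u1U h3.ou1)

end Cfsg.GW2
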