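import Cfsg.Agent.GS.WB4
import Cfsg.Agent.H8.ReeC2

/-! Tasks OF and CH: two maps from class functions of `E` to class functions of `G`, and the
number of products of two involutions. -/

set_option autoImplicit false
set_option linter.unusedSectionVars false

open scoped ComplexConjugate

namespace Cfsg.GW2.Ox

open Subgroup Cfsg.L0 Cfsg.H8 Cfsg.FT Cfsg.GJ Cfsg.GW2.Bx

variable {G : Type} [Group G] [Finite G] {E L U P T Y : Subgroup G} {t v w x y g d : G}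
  {q n m : ℕ} {θ θ' ψ φ F : G → ℂ}

/-- supported on elements of odd order -/
def Od (θ : G → ℂ) : Prop := ∀ y, θ y ≠ 0 → Odd (orderOf y)

/-- a power of `y` is a nontrivial element of a split torus of `L` -/
def Rg (L : Subgroup G) (n : ℕ) (y : G) : Prop := ∃ j : ℕ, y ^ j ∈ L ∧ y ^ j ≠ 1 ∧ (y ^ j) ^ n = 1

/-- `2 θ` on the section of `t` -/
noncomputable def al (E : Subgroup G) (t : G) (θ : G → ℂ) : G → ℂ :=
  ind (E ⊔ zpowers t) ⊤ (2 • GW.tw t θ)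

/-- induction of the inflation of `θ` to `C(t)` -/
noncomputable def ga (E : Subgroup G) (t : G) (θ : G → ℂ) : G → ℂ :=
  ind (E ⊔ zpowers t) ⊤ (θ + GW.tw t θ)

theorem Od.sub (h : Od θ) (h' : Od ψ) : Od (θ - ψ) := fun y hy => by_contra fun o => hy (by
  rw [Pi.sub_apply, (by_contra fun e => o (h y e) : θ y = 0),
    (by_contra fun e => o (h' y e) : ψ y = 0), sub_self])

theorem ord_cj (g y : G) : orderOf (g⁻¹ * y * g) = orderOf y := by
  simpa using orderOf_conj' g⁻¹ y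

theorem Rg.cj (h : Rg L n y) (hg : g ∈ 𝒩 L) : Rg L n (g⁻¹ * y * g) := by
  obtain ⟨j, a, b, c⟩ := h
  have e : (g⁻¹ * y * g) ^ j = g⁻¹ * y ^ j * g := by simpa using (conj_pow' g⁻¹ y j).symm
  exact ⟨j, e ▸ conj_mem_of_norm' hg a, by rw [e]; simpa using (conj_eq_one_iff (a := g⁻¹)).not.2 b,
    by rw [e]; simpa using conj_pow_one c g⁻¹⟩

theorem al_aut (u : ℂ →+* ℂ) (θ : G → ℂ) : aut u (al E t θ) = al E t (aut u θ) := by
  rw [al, al, ← ind_aut, aut_nsmul]; rfl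

theorem ga_aut (u : ℂ →+* ℂ) (θ : G → ℂ) : aut u (ga E t θ) = ga E t (aut u θ) := by
  rw [ga, ga, ← ind_aut, aut_add]; rfl

section CI

variable (c : GW.CI E t)
include c

theorem cf_up (hθ : CF E θ) : CF (E ⊔ zpowers t) θ :=
  cf_of_inert (hθ.sp.le le_sup_left) (sup_le hθ.le_inert
    (zpowers_le.2 (cent_le_inert hθ.sp (le_cent1_iff.1 c.ct))))

theorem cf_tw (hθ : CF E θ) : CF (E ⊔ zpowers t) (GW.tw t θ) :=
  ⟨fun x hx => hθ.sp _ fun e => hx (c.ni.mem.2 (Or.inr e)), fun g hg x => by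
    rw [GW.tw_apply, GW.tw_apply, ← (cf_up c hθ).cnj g hg (t * x), ← mul_assoc, ← mul_assoc,
      ← mul_assoc, c.cm hg]⟩

theorem vch_al (hθ : VCh E θ) : VCh ⊤ (al E t θ) := (c.vch_tw hθ).ind le_top

theorem vch_ga (hθ : VCh E θ) : VCh ⊤ (ga E t θ) := by
  refine VCh.ind ?_ le_top
  refine hθ.induction (P := fun θ => VCh (E ⊔ zpowers t) (θ + GW.tw t θ)) (fun θ hθ => ?_)
    fun a b ha hb => by convert ha.sub hb using 1; ext x; simp; ring
  obtain ⟨η, h1, h2⟩ := c.exists_ext hθ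
  convert h1.vch using 1
  refine Sp.ext ((cf_up c hθ.cf).add (cf_tw c hθ.cf)).sp h1.sp fun x hx => ?_
  rcases c.ni.mem.1 hx with a | a
  · simp [hθ.sp _ (c.ni.not_mem a), (h2 x a).1]
  · have e1 := (h2 _ a).2
    have e2 := hθ.sp _ (c.ni.not_mem a)
    rw [c.ni.tl] at e1 e2
    simp [e1, e2]

theorem dot_al (hθ : Sp E θ) (hF : CF ⊤ F) : dot ⊤ (al E t θ) F = dot E θ (GW.tw t F) := by
  rw [al, dot_ind_left le_top _ hF, ← dot_conj, c.dot_tw hθ, dot_conj]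

theorem dot_ga (hθ : Sp E θ) (hF : CF ⊤ F) :
    2 * dot ⊤ (ga E t θ) F = dot E θ F + dot E θ (GW.tw t F) := by
  rw [ga, dot_ind_left le_top _ hF, c.ni.dot_eq]
  congr 1
  · exact dot_congr (fun y hy => by simp [hθ _ (c.ni.not_mem hy)]) fun _ _ => rfl
  · exact dot_congr (fun y hy => by simp [hθ _ (c.ni.not_mem hy), c.ni.tl]) fun _ _ => rfl

theorem dot_al_one (hθ : Sp E θ) : dot ⊤ (al E t θ) (cf1 ⊤) = dot E θ (cf1 E) := by
  rw [dot_al c hθ (cf_cf1 ⊤)]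
  exact dot_congr (fun _ _ => rfl) fun y hy => by simp [cf1_of_mem hy, cf1_of_mem (mem_top _)]

theorem dot_ga_one (hθ : Sp E θ) : dot ⊤ (ga E t θ) (cf1 ⊤) = dot E θ (cf1 E) := by
  have := dot_ga c hθ (cf_cf1 ⊤)
  rw [dot_congr (L := E) (ψ := cf1 ⊤) (ψ' := cf1 E) (fun _ _ => rfl)
      fun y hy => by simp [cf1_of_mem hy, cf1_of_mem (mem_top _)],
    dot_congr (L := E) (ψ := GW.tw t (cf1 ⊤)) (ψ' := cf1 E) (fun _ _ => rfl)
      fun y hy => by simp [cf1_of_mem hy, cf1_of_mem (mem_top _)]] at this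
  linear_combination this / 2

theorem ga_one : ga E t θ 1 = (E ⊔ zpowers t).relIndex ⊤ * (θ 1 + θ t) := by
  rw [ga, ind_one le_top]; simp

theorem tpow (hy : y ∈ E) {k : ℕ} (hk : Odd k) (e : y ^ k = 1) : (t * y) ^ k = t := by
  rw [(show Commute y t from mem_cent1.1 (c.ct hy)).symm.mul_pow, e, mul_one,
    (⟨c.tt, fun e => c.nm (e ▸ one_mem _)⟩ : Iv t).pow hk]

theorem fus_odd (hy : y ∈ E) (o : Odd (orderOf y)) (h1 : t * (g⁻¹ * (t * y) * g) ∈ E)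
    (o1 : Odd (orderOf (t * (g⁻¹ * (t * y) * g)))) : g * t = t * g := by
  have e1 := tpow c hy (o.mul o1) (by rw [pow_mul, pow_orderOf_eq_one, one_pow])
  have e2 := tpow c h1 (o.mul o1) (by rw [mul_comm, pow_mul, pow_orderOf_eq_one, one_pow])
  generalize orderOf y * orderOf (t * (g⁻¹ * (t * y) * g)) = k at e1 e2
  rw [c.ni.tl, show g⁻¹ * (t * y) * g = g⁻¹ * (t * y) * g⁻¹⁻¹ by rw [inv_inv], ← conj_pow', e1,
    inv_inv, mul_assoc, inv_mul_eq_iff_eq_mul] at e2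
  exact e2.symm

theorem al_odd (hθ : CF E θ) (o : Odd (orderOf g)) : al E t θ g = 0 :=
  ind_apply_zero ((cf_tw c hθ).nsmul 2).sp fun y => by_contra fun e => by
    have e1 : θ (t * (y⁻¹ * g * y)) ≠ 0 := fun e1 => e (by simp [e1])
    have := not_odd_mul c (hθ.sp.mem e1)
    rw [c.ni.tl, ord_cj] at this
    exact this o

variable (hC : 𝒞₁ t = E ⊔ zpowers t)
include hC

theorem al_ty (hθ : CF E θ) (h : Od θ) (hy : y ∈ E) (o : Odd (orderOf y)) :
    al E t θ (t * y) = 2 * θ y := by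
  rw [al, ind_apply_one ((cf_tw c hθ).nsmul 2) fun g e => by
    have e1 : θ (t * (g⁻¹ * (t * y) * g)) ≠ 0 := fun e1 => e (by simp [e1])
    exact hC ▸ mem_cent1.2 (fus_odd c hy o (hθ.sp.mem e1) (h _ e1))]
  simp [c.ni.tl]

theorem ga_ty (hθ : CF E θ) (h : Od θ) (hy : y ∈ E) (o : Odd (orderOf y)) :
    ga E t θ (t * y) = θ y := by
  have k : ∀ g, θ (g⁻¹ * (t * y) * g) = 0 := fun g => by_contra fun e =>
    not_odd_mul c hy (ord_cj g (t * y) ▸ h _ e)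
  rw [ga, ind_apply_one ((cf_up c hθ).add (cf_tw c hθ)) fun g e => by
    have e1 : θ (t * (g⁻¹ * (t * y) * g)) ≠ 0 := fun e1 => e (by simp [e1, k])
    exact hC ▸ mem_cent1.2 (fus_odd c hy o (hθ.sp.mem e1) (h _ e1))]
  have := k 1
  simp only [inv_one, one_mul, mul_one] at this
  simp [c.ni.tl, this]

theorem dot_al_al (hθ : CF E θ) (h : Od θ) (hψ : CF E ψ) (h' : Od ψ) :
    dot ⊤ (al E t θ) (al E t ψ) = 2 * dot E θ ψ := by
  rw [dot_al c hθ.sp (F := al E t ψ) (ind_cf le_top _), dot_congr_right (ψ' := 2 • ψ) fun y hy e => by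
    simpa using al_ty c hC hψ h' hy (h y e), dot_nsmul_right, Nat.cast_ofNat]

theorem dot_ga_al (hθ : CF E θ) (h : Od θ) (hψ : CF E ψ) (h' : Od ψ) :
    dot ⊤ (ga E t θ) (al E t ψ) = dot E θ ψ := by
  have := dot_ga c hθ.sp (F := al E t ψ) (ind_cf le_top _)
  rw [dot_congr_right (ψ := GW.tw t _) (ψ' := 2 • ψ) fun y hy e => by
    simpa using al_ty c hC hψ h' hy (h y e), dot_nsmul_right, Nat.cast_ofNat,
    dot_congr_right (ψ := al E t ψ) (ψ' := 0) fun y _ e => al_odd c hψ (h y e),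
    dot_zero_right] at this
  linear_combination this / 2

end CI

variable (h : R3 t E L U P T Y v w x q n m)
include h

theorem cT : ♯T = n := h.tT.card

theorem inv_eq (hd : d ∈ L) (d1 : d ≠ 1) (dn : d ^ n = 1) {s : G} (hs : Iv s) (e : s * d = d * s) :
    s = t := by
  have c := ci h.toWH
  have k : ∀ k ∈ E, k * k = 1 → k * d = d * k → k = 1 := fun k hk a b => by
    obtain ⟨y, hy, e1⟩ := h.tT.cnj d hd dn
    have kL := h.inv k hk a
    have := h.ks.D_sq (h.ks.centD (mul_mem (mul_mem hy kL) (inv_mem hy)) e1 (by simpa using d1)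
      (conj_comm b y)) (conj_sq a y)
    simpa using this
  have st := h.tl d hd d1 dn s e
  rcases h.ce s st with a | a
  · exact absurd (k s a hs.ss e) hs.ne
  · have := k _ a (by rw [mul_assoc, ← mul_assoc s, st, mul_assoc, hs.ss, mul_one, c.tt])
      (by rw [mul_assoc, e, ← mul_assoc, ← h.cm d (h.LE hd), mul_assoc])
    rw [← c.ni.tl s, this, mul_one]

theorem fus_rg (r : Rg L n y) (e : g⁻¹ * y * g * t = t * (g⁻¹ * y * g)) : g * t = t * g := by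
  obtain ⟨j, a, b, c⟩ := r
  have e1 : g * t * g⁻¹ * y = y * (g * t * g⁻¹) := by
    calc _ = g * (t * (g⁻¹ * y * g)) * g⁻¹ := by group
      _ = _ := by rw [← e]; group
  exact mul_inv_eq_iff_eq_mul.1 (inv_eq h a b c (h.iv.conj g) (comm_pow e1 j))

theorem ga_rg (hθ : CF E θ) (hy : y ∈ E) (r : Rg L n y) : ga E t θ y = θ y := by
  have c := ci h.toWH
  have c1 := (cf_up c hθ).add (cf_tw c hθ)
  rw [ga, ind_apply_one c1 fun g e => cent_eq h.toWH ▸ mem_cent1.2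
    (fus_rg h r (c.cm (c1.sp.mem e)))]
  simp [hθ.sp _ (c.ni.not_mem hy)]

theorem dot_ga_ga (hθ : CF E θ) (o : Od θ) (r : ∀ y, θ y ≠ 0 → Rg L n y) (hψ : CF E ψ) (o' : Od ψ) :
    dot ⊤ (ga E t θ) (ga E t ψ) = dot E θ ψ := by
  have c := ci h.toWH
  have := dot_ga c hθ.sp (F := ga E t ψ) (ind_cf le_top _)
  rw [dot_congr_right (ψ := GW.tw t _) (ψ' := ψ) fun y hy e => by
    simpa using ga_ty c (cent_eq h.toWH) hψ o' hy (o y e),
    dot_congr_right (ψ := ga E t ψ) (ψ' := ψ) fun y hy e => ga_rg h hψ hy (r y e)] at this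
  linear_combination this / 2

theorem hI (s : G) : IsConj t s ↔ s * s = 1 ∧ s ≠ 1 :=
  ⟨fun e => by
    obtain ⟨g, rfl⟩ := isConj_iff.1 e
    exact ⟨(h.iv.conj g).ss, (h.iv.conj g).ne⟩, fun e => isConj_iff.2 (h.one s ⟨e.1, e.2⟩)⟩

theorem card_cls : Nat.card {s // IsConj t s} = (𝒞₁ t).index := by
  rw [← h.cnt, ← Nat.card_coe_set_eq]
  exact Nat.card_congr (Equiv.subtypeEquivRight fun s => (hI h s).trans
    ⟨fun e => ⟨e.1, e.2⟩, fun e => ⟨e.1, e.2⟩⟩)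

theorem tk_sq (hy : y ∈ E) : t * y * (t * y) = y * y := by
  rw [mul_assoc, ← mul_assoc y, h.cm y hy, mul_assoc, h.iv.sl]

theorem inv_cases {i : G} (e : i * t = t * i) (a : i * i = 1) : ∃ k ∈ L, k * k = 1 ∧ (i = k ∨ i = t * k) := by
  rcases h.ce i e with b | b
  · exact ⟨i, h.inv i b a, a, Or.inl rfl⟩
  · have : t * i * (t * i) = 1 := by rw [← tk_sq h b, h.iv.sl, a]
    exact ⟨_, h.inv _ b this, this, Or.inr (h.iv.sl i).symm⟩

theorem acnt_t : acnt t = q * (q - 1) := by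
  have c := ci h.toWH
  have nm : ∀ k ∈ L, t * k ∉ L := fun k a b => c.ni.not_mem (h.LE a) (h.LE b)
  have e : {i : G | (i * i = 1 ∧ i ≠ 1) ∧ i * t * (i * t) = 1 ∧ i * t ≠ 1} =
      {k | k ∈ L ∧ k * k = 1 ∧ k ≠ 1} ∪ (t * ·) '' {k | k ∈ L ∧ k * k = 1 ∧ k ≠ 1} := by
    ext i
    constructor
    · rintro ⟨⟨a, b⟩, c, d⟩
      have e : i * t = t * i := by rw [← inv_self_of c, mul_inv_rev, h.iv.inv, inv_self_of a]
      obtain ⟨k, hk, k2, rfl | rfl⟩ := inv_cases h e a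
      · exact Or.inl ⟨hk, a, b⟩
      · exact Or.inr ⟨k, ⟨hk, k2, by rintro rfl; simp [h.iv.ss] at d⟩, rfl⟩
    · rintro (⟨a, b, c⟩ | ⟨k, ⟨a, b, c⟩, rfl⟩)
      · exact ⟨⟨b, c⟩, by rw [h.cm i (h.LE a), tk_sq h (h.LE a), b], by
          rw [h.cm i (h.LE a)]; exact fun e => nm _ a (e ▸ one_mem L)⟩
      · simp only []
        exact ⟨⟨by rw [tk_sq h (h.LE a), b], fun e => nm _ a (e ▸ one_mem L)⟩,
          by rw [mul_assoc t, h.cm k (h.LE a), h.iv.sl]; exact ⟨b, c⟩⟩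
  rw [acnt, e, Set.ncard_union_eq (Set.disjoint_left.2 (by
    rintro _ ⟨a, -⟩ ⟨k, ⟨b, -⟩, rfl⟩; exact nm _ b a)),
    Set.ncard_image_of_injective _ (mul_right_injective t), h.ks.ncard_inv, ← h.ks.cD]
  push_cast; ring

omit h in
theorem inv_of_cnt {i : G} (a : i * i = 1) (c : i * g * (i * g) = 1) :
    i * (g * g) * i⁻¹ = (g * g)⁻¹ := by
  have : i * g * i⁻¹ = g⁻¹ := by rw [inv_self_of a, eq_inv_iff_mul_eq_one, ← c, mul_assoc]
  simpa only [sq] using inv_pow_of this 2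

omit h in
theorem acnt_zero (k : ∀ i, Iv i → i * (g * g) * i⁻¹ ≠ (g * g)⁻¹) : acnt g = 0 := by
  rw [acnt, Nat.cast_eq_zero, Set.ncard_eq_zero]
  exact Set.eq_empty_of_forall_notMem fun i ⟨⟨a, b⟩, c, _⟩ => k i ⟨a, b⟩ (inv_of_cnt a c)

omit h in
theorem mem_of_sq {X : Subgroup G} (o : Odd (orderOf y)) (e : y * y ∈ X) : y ∈ X := by
  obtain ⟨k, hk⟩ := o
  have := pow_mem e (k + 1)
  rwa [← sq, ← pow_mul, show 2 * (k + 1) = orderOf y + 1 by omega, pow_succ, pow_orderOf_eq_one,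
    one_mul] at this

omit h in
theorem odd_sq (o : Odd (orderOf y)) : Odd (orderOf (y * y)) :=
  o.of_dvd_nat (by rw [← sq]; exact orderOf_pow_dvd 2)

theorem acnt_out (hy : y ∈ E) (o : Odd (orderOf y)) (hL : y ∉ L) : acnt y = 0 ∧ acnt (t * y) = 0 := by
  have k : ∀ i, Iv i → i * (y * y) * i⁻¹ ≠ (y * y)⁻¹ := fun i _ e => hL (by
    have := h.fz _ (mul_mem hy hy) (odd_sq o) i (e ▸ inv_mem (mul_mem hy hy))
    rw [e, ← mul_inv_rev, inv_mem_iff] at this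
    exact mem_of_sq o (mem_of_sq (odd_sq o) this))
  exact ⟨acnt_zero k, acnt_zero (by rwa [tk_sq h hy])⟩

theorem acnt_tx (hy : y ∈ P) (y1 : y ≠ 1) : acnt (t * y) = 0 := by
  have yL := h.ks.RK hy
  have y2 : y * y ≠ 1 := fun e => y1 (eq_one_of_odd (h.ks.R_odd hy) e)
  rw [acnt, Nat.cast_eq_zero, Set.ncard_eq_zero]
  refine Set.eq_empty_of_forall_notMem fun i ⟨⟨a, _⟩, c, _⟩ => ?_
  have e : i * (t * y) * i⁻¹ = (t * y)⁻¹ := by
    rw [inv_self_of a, eq_inv_iff_mul_eq_one, ← c, mul_assoc]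
  have e1 := inv_pow_of e 3
  rw [tpow (ci h.toWH) (h.LE yL) (by decide) (h.ks.R3 y hy), h.iv.inv, mul_inv_eq_iff_eq_mul] at e1
  have e2 := inv_of_cnt a c
  rw [tk_sq h (h.LE yL)] at e2
  obtain ⟨k, hk, -, e3⟩ := inv_cases h e1 a
  refine y2 (h.nr _ (mul_mem yL yL) k hk (h.ks.R3 _ (mul_mem hy hy)) ?_)
  rcases e3 with rfl | rfl
  · exact e2
  · rw [← e2, mul_inv_rev, h.iv.inv, mul_assoc t, mul_assoc t, ← mul_assoc _ k⁻¹,
      h.cm _ (h.LE (mul_mem (mul_mem hk (mul_mem yL yL)) (inv_mem hk))), h.iv.sl]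

theorem acnt_E {e : G} (he : e ∈ T ⊔ zpowers t) (h1 : e * e ≠ 1) : acnt e = q - 1 := by
  have c := ci h.toWH
  have TE := h.ks.DK.trans h.LE
  have c1 : GW.CI T t := ⟨c.tt, fun e => c.nm (TE e), TE.trans c.ct⟩
  have wE := h.LE h.ks.uK
  have ee : e * e ∈ T := by
    rcases c1.ni.mem.1 he with e1 | e1
    · exact mul_mem e1 e1
    · rw [← h.iv.sl e, tk_sq h (TE e1)]; exact mul_mem e1 e1
  have ut := h.cm w wE
  have sq : ∀ a ∈ T ⊔ zpowers t, w * a * (w * a) = 1 ∧ w * a ≠ 1 := fun a ha => by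
    rcases c1.ni.mem.1 ha with e1 | e1
    · exact ⟨h.ks.ud_sq e1, h.ks.ud_ne e1⟩
    · have uK := mul_mem wE (TE e1)
      rw [show w * a = t * (w * (t * a)) by rw [← mul_assoc w, ut, mul_assoc, h.iv.sl], tk_sq h uK]
      exact ⟨h.ks.ud_sq e1, fun e => c.ni.not_mem uK (e ▸ one_mem E)⟩
  have e1 : {i : G | (i * i = 1 ∧ i ≠ 1) ∧ i * e * (i * e) = 1 ∧ i * e ≠ 1} =
      (w * ·) '' (T ⊔ zpowers t : Subgroup G) := by
    ext i
    constructor
    · rintro ⟨⟨a, -⟩, b, -⟩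
      have e2 := inv_of_cnt a b
      have e3 : i⁻¹ * (e * e) * i = (e * e)⁻¹ := by rw [← e2, inv_self_of a]
      have e4 : i * t = t * i := fus_rg h ⟨1, by simpa using h.ks.DK ee, by simpa using h1, by
        rw [pow_one, ← cT h]; exact orderOf_dvd_iff_pow_eq_one.1 (orderOf_dvd ee)⟩
        (by rw [e3]; exact h.cm _ (inv_mem (TE ee)))
      obtain ⟨k, hk, -, e5⟩ := inv_cases h e4 a
      have e6 : w * k ∈ T := h.ks.invD hk ee h1 (by
        rcases e5 with rfl | rfl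
        · exact e3
        · rw [← e3, mul_inv_rev, h.iv.inv, mul_assoc k⁻¹ t, ← h.cm _ (TE ee)]
          simp [mul_assoc, h.iv.sl])
      rcases e5 with rfl | rfl
      · exact ⟨_, mem_sup_left e6, h.ks.ul _⟩
      · exact ⟨_, c1.ni.tmul e6, by simp only []; rw [← mul_assoc, ut, mul_assoc, h.ks.ul]⟩
    · rintro ⟨a, ha, rfl⟩
      simp only []
      exact ⟨sq a ha, by rw [mul_assoc w]; exact sq _ (mul_mem ha he)⟩
  rw [acnt, e1, Set.ncard_image_of_injective _ (mul_right_injective w), ncard_sub, c1.ni.card,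
    ← h.ks.cD]
  push_cast; ring

theorem acnt_d (hd : d ∈ T) (d1 : d ≠ 1) (hy : y ∈ P) :
    acnt (y * d) = q - 1 ∧ acnt (t * (y * d)) = q - 1 := by
  obtain ⟨z, hz, e⟩ := h.ks.conj_xd hy hd d1
  have d2 : d * d ≠ 1 := fun e => d1 (h.ks.D_sq hd e)
  rw [← e, ← mul_assoc t, ← mul_assoc t, ← h.cm z (h.LE (h.ks.RK hz)), mul_assoc z t,
    acnt_cf.cnj z (mem_top _), acnt_cf.cnj z (mem_top _)]
  exact ⟨acnt_E h (mem_sup_left hd) d2, acnt_E h (mul_mem (mem_sup_right (mem_zpowers t))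
    (mem_sup_left hd)) (by rwa [tk_sq h (h.LE (h.ks.DK hd))])⟩

end Cfsg.GW2.Ox
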