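import Cfsg.Agent.GS.WO1

/-! Tasks OF and CH: induction from the Borel subgroup `B = P T U` of `E`. -/

set_option autoImplicit false
set_option linter.unusedSectionVars false

open scoped ComplexConjugate

namespace Cfsg.GW2.Ox

open Subgroup Cfsg.L0 Cfsg.H8 Cfsg.FT Cfsg.GJ Cfsg.GW2.Bx

variable {G : Type} [Group G] [Finite G] {E L U U1 P T Y : Subgroup G} {t v w x y g d b : G}
  {q n m : ℕ} {φ ψ μ κ : G → ℂ}

variable (h : W3 t E L U P T Y v w x q n m)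
include h

theorem PTL : P ⊔ T ≤ L := h.ks.BK

theorem BE : P ⊔ T ⊔ U ≤ E := sup_le ((PTL h).trans h.LE) h.UE

theorem nPT (hU : U1 ≤ U) : U1 ≤ 𝒩 (P ⊔ T) := hU.trans (le_norm_sup h.UP h.UT)

theorem memB (hU : U1 ≤ U) : b ∈ P ⊔ T ⊔ U1 ↔ ∃ k ∈ P ⊔ T, ∃ u ∈ U1, k * u = b :=
  mem_sup_l (nPT h hU)

theorem memD (hU : U1 ≤ U) : b ∈ T ⊔ U1 ↔ ∃ k ∈ T, ∃ u ∈ U1, k * u = b :=
  mem_sup_l (hU.trans h.UT)

theorem DP (hU : U1 ≤ U) : T ⊔ U1 ≤ 𝒩 P := sup_le (TP h) (hU.trans h.UP)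

theorem BP : P ⊔ T ⊔ U ≤ 𝒩 P := sup_le (sup_le (le_norm P) (TP h)) h.UP

omit h in
theorem DB : T ⊔ U ≤ P ⊔ T ⊔ U := sup_le_sup_right le_sup_right U

omit h in
theorem PB : P ≤ P ⊔ T ⊔ U := le_sup_left.trans le_sup_left

theorem BL (hb : b ∈ P ⊔ T ⊔ U) (hL : b ∈ L) : b ∈ P ⊔ T := by
  obtain ⟨k, hk, u, hu, rfl⟩ := (memB h le_rfl).1 hb
  rw [h.dis u hu ((mul_mem_cancel_left (PTL h hk)).1 hL), mul_one]
  exact hk

theorem DL (hb : b ∈ T ⊔ U) (hL : b ∈ L) : b ∈ T := by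
  obtain ⟨k, hk, u, hu, rfl⟩ := (memD h le_rfl).1 hb
  rw [h.dis u hu ((mul_mem_cancel_left (h.ks.DK hk)).1 hL), mul_one]
  exact hk

theorem oddB : Odd ♯(P ⊔ T ⊔ U) := cardB h ▸ ((oq h).1.mul h.ks.oddD).mul h.oU

theorem cardD : ♯(T ⊔ U) = ♯T * ♯U :=
  card_sup_of_inf h.UT (eq_bot_iff.2 fun u hu => h.dis u hu.2 (h.ks.DK hu.1))

theorem wu {u : G} (hu : u ∈ U) : w * u = u * w := (mem_cent.1 h.wU u hu).symm

theorem wB : w ∉ P ⊔ T ⊔ U := fun e => h.ks.nu (BL h e h.wL)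

theorem w_du {u : G} (hd : d ∈ T) (hu : u ∈ U) : w⁻¹ * (d * u) * w = d⁻¹ * u := by
  rw [h.ks.uinv, mul_assoc, mul_assoc, ← wu h hu, ← h.ks.inv d hd]; simp [mul_assoc]

theorem wD (hU : U1 ≤ U) : w ∈ 𝒩 (T ⊔ U1) := inv_mem_iff.1 (mem_normalizer_of_forall fun y hy => by
  obtain ⟨k, hk, u, hu, rfl⟩ := (memD h hU).1 hy
  rw [inv_inv, w_du h hk (hU hu)]
  exact mul_mem_sup (inv_mem hk) hu)

theorem sepB (hb : b ∈ P ⊔ T ⊔ U) (e : w⁻¹ * b * w ∈ P ⊔ T ⊔ U) : b ∈ T ⊔ U := by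
  obtain ⟨k, hk, u, hu, rfl⟩ := (memB h le_rfl).1 hb
  rw [h.ks.uinv, mul_assoc, mul_assoc, ← wu h hu, ← mul_assoc, ← mul_assoc,
    mul_mem_cancel_right (mem_sup_right hu)] at e
  exact mul_mem_sup (h.ks.sepB hk (BL h e (mul_mem (mul_mem h.wL (PTL h hk)) h.wL))) hu

theorem sum_E (f : G → ℂ) : ∑ g ∈ fs (E : Set G), f g = ∑ b ∈ fs ((P ⊔ T ⊔ U : Subgroup G) : Set G), f b +
    ∑ y ∈ fs (P : Set G), ∑ b ∈ fs ((P ⊔ T ⊔ U : Subgroup G) : Set G), f (y * w * b) := by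
  rw [sum_fs_diff (BE h), ← Finset.sum_product']
  congr 1
  symm
  refine Finset.sum_bij (fun p _ => p.1 * w * p.2) (fun p hp => ?_) (fun p hp p' hp' e => ?_)
    (fun g hg => ?_) fun _ _ => rfl
  · rw [Finset.mem_product, mem_fs, mem_fs] at hp
    refine mem_fs.2 ⟨mul_mem (mul_mem (BE h (PB hp.1)) (h.LE h.wL)) (BE h hp.2), fun e => wB h ?_⟩
    rwa [SetLike.mem_coe, mul_mem_cancel_right hp.2, mul_mem_cancel_left (PB hp.1)] at e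
  · rw [Finset.mem_product, mem_fs, mem_fs] at hp hp'
    have a := mul_mem (inv_mem hp'.1) hp.1
    have e1 : w⁻¹ * (p'.1⁻¹ * p.1) * w = p'.2 * p.2⁻¹ := by
      calc _ = w⁻¹ * p'.1⁻¹ * (p.1 * w * p.2) * p.2⁻¹ := by group
        _ = _ := by rw [e]; group
    have e2 := inv_mul_eq_one.1 (h.ks.RD a (DL h (sepB h (PB a) (e1 ▸ mul_mem hp'.2 (inv_mem hp.2)))
      (h.ks.RK a)))
    rw [e2, mul_left_cancel_iff] at e
    exact Prod.ext e2.symm e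
  · obtain ⟨a, e⟩ := mem_fs.1 hg
    obtain ⟨k, hk, u, hu, rfl⟩ := h.dec g a
    rcases h.ks.bru' hk with e1 | ⟨y, hy, b, hb, rfl⟩
    · exact absurd (mul_mem_sup e1 hu) e
    · exact ⟨(y, b * u), Finset.mem_product.2 ⟨mem_fs.2 hy, mem_fs.2 (mul_mem_sup hb hu)⟩,
        (mul_assoc _ _ _).symm⟩

theorem ind_B (hφ : CF (P ⊔ T ⊔ U) φ) (g : G) :
    ind (P ⊔ T ⊔ U) E φ g = φ g + ∑ y ∈ fs (P : Set G), φ (w⁻¹ * (y⁻¹ * g * y) * w) := by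
  rw [hφ.sp.ind_apply, sum_E h, sum_fs_congr fun y hy => hφ.cnj' hy g, sum_sub_const,
    sum_fs_congr (f' := fun y => ♯(P ⊔ T ⊔ U) * φ (w⁻¹ * (y⁻¹ * g * y) * w)) fun y _ => by
      rw [← sum_sub_const]
      refine sum_fs_congr fun b hb => ?_
      rw [← hφ.cnj' hb (w⁻¹ * (y⁻¹ * g * y) * w)]; congr 1; group,
    ← Finset.mul_sum, ← mul_add, inv_mul_cancel_left₀ (card_ne_zero_c _)]

theorem ind_B_one (φ : G → ℂ) : ind (P ⊔ T ⊔ U) E φ 1 = (q + 1) * φ 1 := by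
  have e := card_mul_ri (BE h)
  rw [cardB h, cardE h.toWU, h.ks.cK, mul_right_comm _ (q + 1), Nat.mul_right_inj
    (cardB h ▸ card_ne_zero' _)] at e
  rw [ind_one (BE h), e]; push_cast; ring

theorem od_ind (φ : G → ℂ) : Od (ind (P ⊔ T ⊔ U) E φ) := fun y e => by_contra fun o => e (by
  rw [ind_apply, sum_fs_eq_zero fun g _ => res_of_not_mem (fun e1 => o
    (ord_cj g y ▸ L0.odd_orderOf_of_mem (oddB h) e1)) _, mul_zero])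

theorem rg_ind (r : ∀ y ∈ P ⊔ T ⊔ U, ¬ Rg L n y → φ y = 0) (y : G)
    (e : ind (P ⊔ T ⊔ U) E φ y ≠ 0) : Rg L n y := by_contra fun o => e (by
  rw [ind_apply, sum_fs_eq_zero fun g hg => ?_, mul_zero]
  by_cases e1 : g⁻¹ * y * g ∈ P ⊔ T ⊔ U
  · rw [res_of_mem e1, r _ e1 fun e2 => o (by simpa [mul_assoc] using e2.cj (inv_mem (h.nm hg)))]
  · exact res_of_not_mem e1 _)

theorem dotBD (k : P ≤ cker φ) (k' : P ≤ cker ψ) : dot (T ⊔ U) φ ψ = dot (P ⊔ T ⊔ U) φ ψ :=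
  dot_res_of_cker (sup_assoc _ _ _).symm (DP h le_rfl) k k'

theorem mackey (hφ : CF (P ⊔ T ⊔ U) φ) (hψ : CF (P ⊔ T ⊔ U) ψ) (k : P ≤ cker φ) (k' : P ≤ cker ψ) :
    dot E (ind (P ⊔ T ⊔ U) E φ) (ind (P ⊔ T ⊔ U) E ψ) =
      dot (T ⊔ U) φ ψ + dot (T ⊔ U) φ (cjf w ψ) := by
  rw [dot_ind_left (BE h) _ (ind_cf (BE h) _), dotBD h k k', dot_def, dot_def, dot_def,
    sum_fs_congr fun b _ => by rw [ind_B h hψ, map_add, mul_add, map_sum, Finset.mul_sum],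
    Finset.sum_add_distrib, mul_add, Finset.sum_comm,
    sum_fs_congr (A := (P : Set G)) (f' := fun _ => ∑ b ∈ fs ((T ⊔ U : Subgroup G) : Set G),
      φ b * conj (cjf w ψ b)) fun y hy => by
        rw [sum_fs_subset (A := ((T ⊔ U : Subgroup G) : Set G))
          (B := ((P ⊔ T ⊔ U : Subgroup G) : Set G)) (f := fun b => φ b * conj (cjf w ψ b))
          DB fun b hb e => by
          rw [cjf_apply, hψ.sp _ fun e1 => e (sepB h hb e1), map_zero, mul_zero],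
          ← sum_conj (le_norm _ (PB hy)) fun b => φ b * conj (cjf w ψ b)]
        exact sum_fs_congr fun b _ => by rw [hφ.cnj' (PB hy), cjf_apply],
    sum_sub_const, cardB h, cardD h, h.ks.cR]
  have : (q : ℂ) ≠ 0 := Nat.cast_ne_zero.2 (by have := h.ks.q27; omega)
  have := card_ne_zero_c T
  have := card_ne_zero_c U
  push_cast
  field_simp

section irr

variable (hφ : φ ∈ irrK (P ⊔ T ⊔ U) P) (hψ : ψ ∈ irrK (P ⊔ T ⊔ U) P)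
include hφ

theorem irrD : Irr (T ⊔ U) (res (T ⊔ U) φ) :=
  irr_res_of_cker (sup_assoc _ _ _).symm (DP h le_rfl) hφ

theorem irrDw : Irr (T ⊔ U) (res (T ⊔ U) (cjf w φ)) :=
  cjf_res_of_norm (wD h le_rfl) φ ▸ (irrD h hφ).cjf_of_norm (wD h le_rfl)

theorem th_one (e : ∃ y ∈ T ⊔ U, φ y ≠ φ (w⁻¹ * y * w)) :
    dot E (ind (P ⊔ T ⊔ U) E φ) (ind (P ⊔ T ⊔ U) E φ) = 1 := by
  obtain ⟨a, b⟩ := mem_irrK.1 hφ
  obtain ⟨y, hy, e⟩ := e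
  have := (irrD h hφ).dot_ne (irrDw h hφ) fun e1 => e (by
    simpa [res_of_mem hy, cjf_apply] using congrFun e1 y)
  rw [dot_res_left, dot_res_right] at this
  rw [mackey h a.cf a.cf b b, this, dotBD h b b, a.dot_self, add_zero]

theorem th_two (e : ∀ y ∈ T ⊔ U, φ (w⁻¹ * y * w) = φ y) :
    dot E (ind (P ⊔ T ⊔ U) E φ) (ind (P ⊔ T ⊔ U) E φ) = 2 := by
  obtain ⟨a, b⟩ := mem_irrK.1 hφ
  rw [mackey h a.cf a.cf b b, dot_congr (ψ := cjf w φ) (fun _ _ => rfl) e, dotBD h b b, a.dot_self]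
  norm_num

include hψ

theorem th_zero (e : ∃ y ∈ T ⊔ U, φ y ≠ ψ y) (e' : ∃ y ∈ T ⊔ U, φ y ≠ ψ (w⁻¹ * y * w)) :
    dot E (ind (P ⊔ T ⊔ U) E φ) (ind (P ⊔ T ⊔ U) E ψ) = 0 := by
  obtain ⟨a, b⟩ := mem_irrK.1 hφ
  obtain ⟨a', b'⟩ := mem_irrK.1 hψ
  obtain ⟨y, hy, e⟩ := e
  obtain ⟨z, hz, e'⟩ := e'
  have k1 := (irrD h hφ).dot_ne (irrD h hψ) fun e1 => e (by
    simpa [res_of_mem hy] using congrFun e1 y)
  have k2 := (irrD h hφ).dot_ne (irrDw h hψ) fun e1 => e' (by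
    simpa [res_of_mem hz, cjf_apply] using congrFun e1 z)
  rw [dot_res_left, dot_res_right] at k1 k2
  rw [mackey h a.cf a'.cf b b', k1, k2, add_zero]

end irr

theorem th_cf1 (φ : G → ℂ) :
    dot E (ind (P ⊔ T ⊔ U) E φ) (cf1 E) = dot (P ⊔ T ⊔ U) φ (cf1 (P ⊔ T ⊔ U)) := by
  rw [dot_ind_left (BE h) _ (cf_cf1 E), dot_congr (fun _ _ => rfl) fun y hy =>
    (cf1_of_mem (BE h hy)).trans (cf1_of_mem hy).symm]

theorem exists_mu (cop : (♯U).Coprime n) (hU : U1 ≤ U) (hd : d ∈ T) (hc : d ∈ 𝒞 U1) (d1 : d ≠ 1) :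
    ∃ μ, Lin (P ⊔ T ⊔ U1) μ ∧ P ≤ cker μ ∧ U1 ≤ cker μ ∧ μ d ≠ 1 := by
  have ab : Abel T := fun a ha => mem_cent.2 fun b hb => h.ks.Dab hb ha
  have nT := hU.trans h.UT
  have e := ab.comm_inf_cent nT (by
    rw [h.tT.card]; exact (cop.of_dvd_left (card_dvd_of_le hU)).symm)
  obtain ⟨ρ, r1, r2⟩ : ∃ ρ ∈ irrK T ⁅T, U1⁆, d ∉ cker ρ := by
    by_contra hn
    push Not at hn
    exact d1 (eq_bot_iff.1 e ⟨mem_of_forall_irrK (ab.nrm (comm_le_left nT)) hn, hc⟩)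
  obtain ⟨r3, r4⟩ := mem_irrK.1 r1
  have l := r3.lin_of_abel ab
  obtain ⟨σ, s1, s2, s3⟩ := (mk_sd nT (eq_bot_iff.2 fun u hu =>
    h.dis u (hU hu.2) (h.ks.DK hu.1))).exists_ext_lin l fun u hu =>
      mem_inert_of_sp l.sp (nT hu) fun y hy => by
        rw [← mem_cker.1 (r4 (commutator_mem_commutator hy hu)) (u * y * u⁻¹), commutatorElement_def]
        congr 1; group
  obtain ⟨μ, m1, m2, m3⟩ := (mk_sd (DP h hU) (eq_bot_iff.2 fun y hy => h.ks.RD hy.1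
    (DL h (sup_le_sup_left hU T hy.2) (h.ks.RK hy.1)))).exists_ext_ch s1.ch
  have k : ∀ y ∈ T ⊔ U1, μ y = σ y := fun y hy => by rw [← m3, res_of_mem hy]
  have l1 : Lin (P ⊔ T ⊔ U1) μ := ⟨by rwa [sup_assoc], by rw [k 1 (one_mem _), s1.one]⟩
  refine ⟨μ, l1, m2, fun u hu => l1.mem_cker.2 ?_, fun e => r2 (l.mem_cker.2 ?_)⟩
  · rw [k u (mem_sup_right hu), s1.mem_cker.1 (s3 hu)]
  · rw [← s2, res_of_mem hd, ← k d (mem_sup_left hd), e]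

theorem pow_mem_PT (hb : b ∈ P ⊔ T ⊔ U) : b ^ ♯U ∈ P ⊔ T := by
  have e := card_mul_ri (le_sup_left : P ⊔ T ≤ P ⊔ T ⊔ U)
  rw [cardB h, h.ks.cardB, Nat.mul_right_inj (h.ks.cardB ▸ card_ne_zero' _)] at e
  exact e ▸ pow_relIndex_mem (sup_le (le_norm _) (nPT h le_rfl)) hb

theorem mu_pow (hU : U1 ≤ U) (hμ : Lin (P ⊔ T ⊔ U1) μ) (k1 : P ≤ cker μ) (k2 : U1 ≤ cker μ)
    (hb : b ∈ P ⊔ T ⊔ U1) : μ b ^ n = 1 := by
  obtain ⟨k, hk, u, hu, rfl⟩ := (memB h hU).1 hb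
  obtain ⟨y, hy, d, hd, rfl⟩ := h.ks.memB.1 hk
  rw [hμ.cf.mul_cker (k2 hu) (mem_sup_right hu), mem_cker.1 (k1 hy)]
  exact hμ.pow_eq_one (mem_sup_left (mem_sup_right hd))
    (h.tT.card ▸ orderOf_dvd_iff_pow_eq_one.1 (orderOf_dvd hd))

theorem mu_eq_one (cop : (♯U).Coprime n) (hU : U1 ≤ U) (hμ : Lin (P ⊔ T ⊔ U1) μ) (k1 : P ≤ cker μ)
    (k2 : U1 ≤ cker μ) (hb : b ∈ P ⊔ T ⊔ U1) (r : ¬ Rg L n b) : μ b = 1 := by
  have a := pow_mem_PT h (sup_le_sup_left hU _ hb)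
  obtain ⟨y, hy, d, hd, e⟩ := h.ks.memB.1 a
  by_cases d1 : d = 1
  · have e1 := hμ.map_pow hb ♯U
    rw [← e, d1, mul_one, hμ.mem_cker.1 (k1 hy)] at e1
    exact (pow_eq_one_iff_of_coprime cop).1 ⟨e1.symm, mu_pow h hU hμ k1 k2 hb⟩
  · obtain ⟨z, -, e1⟩ := h.ks.conj_xd hy hd d1
    refine absurd ⟨♯U, PTL h a, ?_⟩ r
    rw [← e, ← e1]
    exact ⟨by simpa using d1, conj_pow_one
      (h.tT.card ▸ orderOf_dvd_iff_pow_eq_one.1 (orderOf_dvd hd)) z⟩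

theorem mu_w (hU : U1 ≤ U) (hμ : Lin (P ⊔ T ⊔ U1) μ) (k2 : U1 ≤ cker μ) (hy : y ∈ T ⊔ U1) :
    μ (w⁻¹ * y * w) = conj (μ y) := by
  obtain ⟨k, hk, u, hu, rfl⟩ := (memD h hU).1 hy
  rw [w_du h hk (hU hu), hμ.cf.mul_cker (k2 hu) (mem_sup_right hu),
    hμ.cf.mul_cker (k2 hu) (mem_sup_right hu), hμ.vch.inv]

theorem ne_conj (hU : U1 ≤ U) (hμ : Lin (P ⊔ T ⊔ U1) μ) (hb : b ∈ P ⊔ T ⊔ U1) (e : μ b ≠ 1) :
    μ b ≠ conj (μ b) := fun e1 => e (by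
  have e2 := hμ.mul_inv hb
  rw [hμ.vch.inv, ← e1, ← sq] at e2
  exact (pow_eq_one_iff_of_coprime (Nat.coprime_two_left.2
    (L0.odd_orderOf_of_mem (oddB h) (sup_le_sup_left hU _ hb)))).1
    ⟨e2, hμ.pow_eq_one hb (pow_orderOf_eq_one b)⟩)

theorem kap_w (hκ : Lin E κ) (y : G) : κ (w⁻¹ * y * w) = κ y :=
  hκ.cf.cnj' (h.LE h.wL) y

end Cfsg.GW2.Ox

namespace Cfsg.GW2.Ox

open Subgroup Cfsg.L0 Cfsg.H8 Cfsg.FT Cfsg.GJ Cfsg.GW2.Bx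

variable {G : Type} [Group G] [Finite G] {E L U U1 P T Y : Subgroup G} {t v w x y g d b : G}
  {q n m : ℕ} {φ ψ μ κ : G → ℂ}

variable (h : R3 t E L U P T Y v w x q n m)
include h

theorem sum_acnt (k : P ≤ cker φ) {F : G → ℂ} (f0 : ∀ b ∈ P ⊔ T ⊔ U, b ∉ L → F b = 0)
    (f1 : ∑ y ∈ fs (P : Set G), φ 1 * conj (F y) = φ 1 * (q * (q - 1)))
    (f2 : ∀ y ∈ P, ∀ d ∈ T, d ≠ 1 → F (y * d) = q - 1) :
    dot (P ⊔ T ⊔ U) φ F * ♯U = (q - 1) * dot T φ (cf1 T) := by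
  have W := h.toW3
  rw [dot_def, dot_cf1_right, ← sum_fs_subset (A := (P ⊔ T : Subgroup G))
    (le_sup_left : P ⊔ T ≤ P ⊔ T ⊔ U)
    fun b hb e => by rw [f0 b hb fun e1 => e (BL W hb e1), map_zero, mul_zero],
    h.ks.sum_B, sum_sub_sharp, sum_sub_sharp T, sum_fs_congr (A := sharp T)
      (f' := fun d => q * (q - 1) * φ d) fun d hd => by
        rw [sum_fs_congr (f' := fun _ => φ d * (q - 1)) fun y hy => by
          rw [mem_cker.1 (k hy), f2 y hy d hd.1 hd.2]; simp, sum_sub_const, h.ks.cR]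
        ring,
    sum_fs_congr (A := (P : Set G)) (f' := fun y => φ 1 * conj (F y)) fun y hy => by
      rw [mem_cker.1 (k hy), mul_one], f1, ← Finset.mul_sum, cardB W]
  have : (q : ℂ) ≠ 0 := Nat.cast_ne_zero.2 (by have := h.ks.q27; omega)
  have := card_ne_zero_c T
  have := card_ne_zero_c U
  push_cast
  field_simp

theorem al_acnt (k : P ≤ cker φ) :
    dot ⊤ (al E t (ind (P ⊔ T ⊔ U) E φ)) acnt * ♯U = (q - 1) * dot T φ (cf1 T) ∧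
    dot E (ind (P ⊔ T ⊔ U) E φ) (GW.tw t acnt) * ♯U = (q - 1) * dot T φ (cf1 T) := by
  have W := h.toW3
  have c := ci h.toWH
  rw [dot_al c (ind_sp (BE W) _) acnt_cf, and_self, ← dot_res_right,
    dot_ind_left (BE W) _ (c.tw_cf acnt_cf le_top)]
  refine sum_acnt h k (fun b hb e => ?_) ?_ fun y hy d hd d1 => ?_
  · rw [res_of_mem (BE W hb), GW.tw_apply,
      (acnt_out h (BE W hb) (L0.odd_orderOf_of_mem (oddB W) hb) e).2]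
  · rw [sum_sub_sharp, sum_fs_eq_zero fun y hy => by
      rw [res_of_mem (BE W (PB hy.1)), GW.tw_apply, acnt_tx h hy.1 hy.2, map_zero, mul_zero],
      res_one, GW.tw_apply, mul_one, conj_acnt, acnt_t h, add_zero]
  · rw [res_of_mem (h.LE (PTL W (mul_mem_sup hy hd))), GW.tw_apply, (acnt_d h hd d1 hy).2]

theorem ga_acnt (k : P ≤ cker φ) (e : φ 1 = 0) :
    dot ⊤ (ga E t (ind (P ⊔ T ⊔ U) E φ)) acnt * ♯U = (q - 1) * dot T φ (cf1 T) := by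
  have W := h.toW3
  have a := dot_ga (ci h.toWH) (ind_sp (BE W) φ) acnt_cf
  have b := (al_acnt h k).2
  have c := sum_acnt h k (F := res E acnt) (fun b hb e => by
      rw [res_of_mem (BE W hb), (acnt_out h (BE W hb) (L0.odd_orderOf_of_mem (oddB W) hb) e).1])
    (by simp [e]) fun y hy d hd d1 => by
      rw [res_of_mem (h.LE (PTL W (mul_mem_sup hy hd))), (acnt_d h hd d1 hy).1]
  rw [← dot_ind_left (BE W) _ (acnt_cf.res le_top), dot_res_right] at c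
  linear_combination (a * ♯U + b + c) / 2

end Cfsg.GW2.Ox
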