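import Cfsg.Agent.GS.WO2

/-! Task OF. -/

set_option autoImplicit false
set_option linter.unusedSectionVars false

open scoped ComplexConjugate

namespace Cfsg.GW2

open Subgroup Cfsg.L0 Cfsg.H8 Cfsg.FT Cfsg.GJ Cfsg.GW2.Bx

namespace Ox

theorem number {q i n m k : ℕ} {y : ℤ} (hq : q = 3 ^ (2 * k + 1)) (k1 : 1 ≤ k) (hn : 2 * n + 1 = q)
    (hm : 4 * m = q + 1) (mo : Odd m) (io : Odd i) (i1 : i ≡ 1 [MOD n])
    (i3 : ∀ r, r.Prime → r ∣ m → i ≡ 3 [MOD r]) (y0 : y ≠ 0) (y1 : y + 1 ≠ 0)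
    (h : i * (y - q) ^ 2 = (q * (q - 1) * (q + 1) : ℤ) * (q - 1) * y * (y + 1)) :
    (i : ℤ) = q ^ 2 * (q ^ 2 - q + 1) ∨ (i : ℤ) = q * (q - 2) * (q ^ 2 - q - 1) := by
  have q27 : 27 ≤ q := hq ▸ Nat.pow_le_pow_right (n := 3) (i := 3) (by norm_num) (by omega)
  have q3 : 3 ∣ q := hq ▸ Dvd.intro_left _ (pow_succ 3 _).symm
  have c1 : IsCoprime ((q : ℤ) - 1) i := by
    have : (2 * n).Coprime i := Nat.Coprime.mul_left (Nat.coprime_two_left.2 io)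
      (by rw [Nat.Coprime, Nat.gcd_comm, i1.gcd_eq]; simp)
    rw [show (q : ℤ) - 1 = (2 * n : ℕ) by omega]
    exact Nat.isCoprime_iff_coprime.2 this
  have c2 : IsCoprime ((q : ℤ) + 1) i := by
    have : (4 * m).Coprime i := Nat.Coprime.mul_left
      (Nat.Coprime.pow_left 2 (Nat.coprime_two_left.2 io)) (Nat.coprime_of_dvd fun r hr h1 h2 => by
        have := (Nat.prime_dvd_prime_iff_eq hr Nat.prime_three).1
          (((i3 r hr h1).dvd_iff dvd_rfl).1 h2)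
        subst this
        omega)
    rw [show (q : ℤ) + 1 = (4 * m : ℕ) by omega]
    exact Nat.isCoprime_iff_coprime.2 this
  obtain ⟨z, hz⟩ : (q : ℤ) - 1 ∣ y - q := (Int.pow_dvd_pow_iff two_ne_zero).1
    ((c1.pow_left (m := 2)).dvd_of_dvd_mul_left ⟨q * (q + 1) * y * (y + 1), by rw [h]; ring⟩)
  have q1 : (q : ℤ) - 1 ≠ 0 := by omega
  obtain rfl : y = q + (q - 1) * z := by linear_combination hz
  have e0 : i * z ^ 2 = q * (q + 1) * ((q + (q - 1) * z) * (q + (q - 1) * z + 1)) := by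
    apply mul_left_cancel₀ (pow_ne_zero 2 q1)
    linear_combination h
  have z0 : z ≠ 0 := by
    rintro rfl
    exact (mul_ne_zero (by positivity : (q * (q + 1) : ℤ) ≠ 0) (mul_ne_zero y0 y1))
      (by rw [← e0]; simp)
  obtain ⟨g, z1, c', g0, cop, rfl, e2⟩ :=
    Int.exists_gcd_one' (Int.gcd_pos_of_ne_zero_left ((q : ℤ) + 1) z0)
  have cop' : IsCoprime z1 c' := Int.isCoprime_iff_gcd_eq_one.2 cop
  have g1 : (g : ℤ) ≠ 0 := by omega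
  have e3 : i * z1 ^ 2 = c' * (q * ((q + (q - 1) * (z1 * g)) * (c' + (q - 1) * z1))) := by
    apply mul_left_cancel₀ (pow_ne_zero 2 g1)
    linear_combination e0 + q * (q + (q - 1) * (z1 * g)) * (q + 1 + c' * g + (q - 1) * (z1 * g)) * e2
  have u2 : IsUnit c' := (c2.of_isCoprime_of_dvd_left ⟨g, e2⟩).isUnit_of_dvd
    ((cop'.symm.pow_right (n := 2)).dvd_of_dvd_mul_right ⟨_, e3⟩)
  obtain rfl : c' = 1 := (Int.isUnit_iff.1 u2).resolve_right (by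
    rintro rfl
    omega)
  rw [one_mul] at e2 e3
  rw [← e2] at e3
  have z2 : z1 ≠ 0 := left_ne_zero_of_mul z0
  clear e0 h hz y0 y1 cop cop' u2 z0 g0 g1 e2 g
  have d1 : z1 ^ 2 ∣ q * (q + (q - 1) * (z1 * (q + 1))) :=
    (IsCoprime.pow_left (m := 2) (⟨-(q - 1), 1, by ring⟩ : IsCoprime z1 (1 + (q - 1) * z1))).dvd_of_dvd_mul_right
      ⟨i, by linear_combination -e3⟩
  have d2 : z1 ∣ (q : ℤ) ^ 2 := by
    obtain ⟨s, hs⟩ := d1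
    exact ⟨z1 * s - q * (q - 1) * (q + 1), by linear_combination hs⟩
  obtain ⟨a, -, ha⟩ : ∃ a ≤ (2 * k + 1) * 2, z1.natAbs = 3 ^ a := by
    rw [← Nat.dvd_prime_pow Nat.prime_three, pow_mul, ← hq, ← Int.natCast_dvd_natCast,
      Int.natAbs_dvd]
    exact_mod_cast d2
  have ha2 : z1 ^ 2 = (3 ^ a) ^ 2 := by rw [← Int.natAbs_sq, ha]; push_cast; ring
  have q0 : (q : ℤ) ≠ 0 := by omega
  have a1 : a ≤ 2 * k + 1 := by
    by_contra hn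
    obtain ⟨s, rfl⟩ : (q : ℤ) * 3 ∣ z1 := by
      rw [← Int.dvd_natAbs, ha, hq]
      exact_mod_cast (pow_succ 3 _ ▸ pow_dvd_pow 3 (by omega) : 3 ^ (2 * k + 1) * 3 ∣ 3 ^ a)
    obtain ⟨s', hs⟩ := d1
    have : (1 : ℤ) = 3 * (3 * s ^ 2 * s' - (q - 1) * s * (q + 1)) := by
      apply mul_left_cancel₀ (pow_ne_zero 2 q0)
      linear_combination hs
    omega
  have m1 : (n : ℤ) ∣ (3 ^ a) ^ 2 - 1 := by
    obtain ⟨s, hs⟩ := i1.dvd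
    have e : (q : ℤ) = 2 * n + 1 := by omega
    rw [← ha2]
    rw [e] at e3
    push_cast at hs
    exact ⟨s * z1 ^ 2 + 2 * ((2 * n + 1 + 2 * n * (z1 * (2 * n + 2))) * (1 + 2 * n * z1) +
      (1 + z1 * (2 * n + 2)) * (1 + 2 * n * z1) + z1), by linear_combination e3 + z1 ^ 2 * hs⟩
  have m2 : (n : ℤ) ∣ 3 ^ a - 1 := by
    have b1 : ((3 : ℤ) ^ a) ^ 2 ≡ 1 [ZMOD n] := (Int.modEq_iff_dvd.2 m1).symm
    have b2 : (3 : ℤ) ^ (2 * k + 1) ≡ 1 [ZMOD n] := (Int.modEq_iff_dvd.2 ⟨2, by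
      have : (q : ℤ) = 3 ^ (2 * k + 1) := by exact_mod_cast hq
      omega⟩).symm
    have b3 := (b1.pow k).mul_right (3 ^ a)
    have b4 := b2.pow a
    rw [one_pow] at b3 b4
    rw [one_mul, show (((3 : ℤ) ^ a) ^ 2) ^ k * 3 ^ a = (3 ^ (2 * k + 1)) ^ a by ring] at b3
    exact (b4.symm.trans b3).dvd
  have a2 : (3 : ℤ) ^ a = 1 ∨ (3 : ℤ) ^ a = q := by
    rcases a1.eq_or_lt with rfl | a1
    · exact Or.inr (by exact_mod_cast hq.symm)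
    · left
      have b1 : 3 ^ a * 3 ≤ q := by
        rw [hq, ← pow_succ]; exact Nat.pow_le_pow_right (by norm_num) a1
      have b2 : (3 : ℤ) ^ a * 3 ≤ q := by exact_mod_cast b1
      have b3 : (0 : ℤ) < 3 ^ a := by positivity
      have := Int.eq_zero_of_dvd_of_nonneg_of_lt (by omega) (by omega) m2
      omega
  have ex : ¬ ((q : ℤ) + 1 ∣ i + 1) := fun e => by
    obtain ⟨r, hr, h1⟩ := Nat.exists_prime_and_dvd (n := m) (by omega)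
    have r2 : r ≠ 2 := by rintro rfl; exact mo.not_two_dvd_nat h1
    have h3 : (r : ℤ) ∣ i + 1 := (Int.natCast_dvd_natCast.2 h1).trans
      (Dvd.dvd.trans ⟨4, by omega⟩ e)
    have h5 : (r : ℤ) ∣ (2 ^ 2 : ℕ) := by
      have := dvd_add h3 (i3 r hr h1).dvd
      push_cast at this ⊢
      rwa [show (i : ℤ) + 1 + (3 - i) = 4 by ring] at this
    exact r2 ((Nat.prime_dvd_prime_iff_eq hr Nat.prime_two).1
      (hr.dvd_of_dvd_pow (Int.natCast_dvd_natCast.1 h5)))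
  rcases a2 with a2 | a2 <;> rw [a2] at ha2 <;> rcases sq_eq_sq_iff_eq_or_eq_neg.1 ha2 with rfl | rfl
  · exact absurd ⟨q ^ 3 - q + 1, by linear_combination e3⟩ ex
  · exact Or.inr (by linear_combination e3)
  · exact Or.inl (mul_left_cancel₀ (pow_ne_zero 2 q0) (by linear_combination e3))
  · refine absurd ⟨q ^ 3 - 2 * q ^ 2 - q + 3, mul_left_cancel₀ (pow_ne_zero 2 q0) ?_⟩ ex
    linear_combination e3

variable {G : Type} [Group G] [Finite G] {E L U P T Y : Subgroup G} {t v w x d : G}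
  {q n m : ℕ} {μ κ κ' : G → ℂ}

theorem cardC (h : R3 t E L U P T Y v w x q n m) : (♯(𝒞₁ t) : ℤ) = q * (q - 1) * (q + 1) * ♯U := by
  rw [cent_eq h.toWH, (ci h.toWH).ni.card', cardE h.toWU, h.ks.cK, ← h.ks.cD]
  push_cast; ring

/-- a linear character of `B` trivial on `P U` but not on `T` -/
structure Mu (P T U : Subgroup G) (μ : G → ℂ) (d : G) : Prop where
  lin : Lin (P ⊔ T ⊔ U) μ
  kP : P ≤ cker μ
  kU : U ≤ cker μ
  hd : d ∈ T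
  ne : μ d ≠ 1

/-- a linear character of `E / L` -/
structure Ka (E L : Subgroup G) (κ : G → ℂ) : Prop where
  lin : Lin E κ
  k : ∀ y ∈ L, κ y = 1

section

variable (h : W3 t E L U P T Y v w x q n m) (hκ : Ka E L κ)
include h hκ

theorem Ka.linB : Lin (P ⊔ T ⊔ U) (res (P ⊔ T ⊔ U) κ) := hκ.lin.res (BE h)

theorem Ka.kP : P ≤ cker (res (P ⊔ T ⊔ U) κ) := fun y hy =>
  (hκ.linB h).mem_cker.2 (by rw [res_of_mem (PB hy), hκ.k y (h.ks.RK hy)])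

theorem Ka.mem : res (P ⊔ T ⊔ U) κ ∈ irrK (P ⊔ T ⊔ U) P := mem_irrK.2 ⟨(hκ.linB h).irr, hκ.kP h⟩

theorem Ka.T1 (hd : d ∈ T) : res (P ⊔ T ⊔ U) κ d = 1 := by
  rw [res_of_mem (DB (mem_sup_left hd)), hκ.k d (h.ks.DK hd)]

theorem Ka.pp : dot E (ind (P ⊔ T ⊔ U) E (res (P ⊔ T ⊔ U) κ))
    (ind (P ⊔ T ⊔ U) E (res (P ⊔ T ⊔ U) κ)) = 2 :=
  th_two h (hκ.mem h) fun y hy => by
    rw [res_of_mem (DB hy), res_of_mem (DB (conj_mem_of_norm' (wD h le_rfl) hy)), kap_w h hκ.lin]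

theorem Ka.ind_eq :
    ind (P ⊔ T ⊔ U) E (res (P ⊔ T ⊔ U) κ) = ind (P ⊔ T ⊔ U) E (cf1 (P ⊔ T ⊔ U)) * κ := by
  rw [← ind_mul _ _ hκ.lin.cf.le_inert, cf1_mul]

variable (hμ : Mu P T U μ d)
include hμ

theorem Ka.lm : Lin (P ⊔ T ⊔ U) (res (P ⊔ T ⊔ U) κ * μ) := (hκ.linB h).mul hμ.lin

theorem Ka.mm : res (P ⊔ T ⊔ U) κ * μ ∈ irrK (P ⊔ T ⊔ U) P :=
  mem_irrK.2 ⟨(hκ.lm h hμ).irr, le_cker_mul (hκ.kP h) hμ.kP⟩

theorem Ka.md : (res (P ⊔ T ⊔ U) κ * μ) d = μ d := by rw [Pi.mul_apply, hκ.T1 h hμ.hd, one_mul]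

theorem Ka.mw : (res (P ⊔ T ⊔ U) κ * μ) (w⁻¹ * d * w) = conj (μ d) := by
  have e := w_du h hμ.hd (one_mem U)
  rw [mul_one, mul_one] at e
  rw [Pi.mul_apply, mu_w h le_rfl hμ.lin hμ.kU (mem_sup_left hμ.hd), e,
    hκ.T1 h (inv_mem hμ.hd), one_mul]

theorem Ka.tt : dot E (ind (P ⊔ T ⊔ U) E (res (P ⊔ T ⊔ U) κ * μ))
    (ind (P ⊔ T ⊔ U) E (res (P ⊔ T ⊔ U) κ * μ)) = 1 :=
  th_one h (hκ.mm h hμ) ⟨d, mem_sup_left hμ.hd, by
    rw [hκ.md h hμ, hκ.mw h hμ]; exact ne_conj h le_rfl hμ.lin (DB (mem_sup_left hμ.hd)) hμ.ne⟩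

theorem Ka.pt (hκ' : Ka E L κ') : dot E (ind (P ⊔ T ⊔ U) E (res (P ⊔ T ⊔ U) κ'))
    (ind (P ⊔ T ⊔ U) E (res (P ⊔ T ⊔ U) κ * μ)) = 0 :=
  th_zero h (hκ'.mem h) (hκ.mm h hμ) ⟨d, mem_sup_left hμ.hd, by
    rw [hκ.md h hμ, hκ'.T1 h hμ.hd]; exact hμ.ne.symm⟩ ⟨d, mem_sup_left hμ.hd, by
    rw [hκ.mw h hμ, hκ'.T1 h hμ.hd]; exact fun e => hμ.ne (by simpa using congrArg conj e.symm)⟩

theorem Ka.t1 : dot E (ind (P ⊔ T ⊔ U) E (res (P ⊔ T ⊔ U) κ * μ)) (cf1 E) = 0 := by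
  rw [th_cf1 h]
  exact (hκ.lm h hμ).irr.dot_cf1 fun e => hμ.ne (by
    rw [← hκ.md h hμ, e, cf1_of_mem (DB (mem_sup_left hμ.hd))])

theorem Ka.tT : dot T (res (P ⊔ T ⊔ U) κ * μ) (cf1 T) = 0 := by
  rw [← dot_res_left]
  exact ((hκ.lm h hμ).res (le_sup_left.trans DB)).irr.dot_cf1 fun e => hμ.ne (by
    rw [← hκ.md h hμ, ← res_of_mem hμ.hd (_ * μ), e, cf1_of_mem hμ.hd])

theorem Ka.rg (cop : (♯U).Coprime n) (y : G)
    (e : (ind (P ⊔ T ⊔ U) E (res (P ⊔ T ⊔ U) κ) -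
      ind (P ⊔ T ⊔ U) E (res (P ⊔ T ⊔ U) κ * μ)) y ≠ 0) : Rg L n y := by
  rw [← map_sub] at e
  exact rg_ind h (fun b hb r => by
    simp [mu_eq_one h cop le_rfl hμ.lin hμ.kP hμ.kU hb r]) y e

end

/-- the two virtual characters attached to `κ` and `μ` -/
structure Pr (t : G) (q f : ℕ) (γ α : G → ℂ) : Prop where
  hγ : VCh ⊤ γ
  hα : VCh ⊤ α
  g3 : dot ⊤ γ γ = 3
  a2 : dot ⊤ α α = 2
  a1 : dot ⊤ α (cf1 ⊤) = 0
  ga : dot ⊤ γ α = -1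
  γ1 : γ 1 = 0
  γt : γ t = 0
  α1 : α 1 = 0
  αt : α t = 2 * (q + 1)
  αA : dot ⊤ α acnt = 0
  γA : dot ⊤ γ acnt * f = q - 1

theorem Ka.pr (h : R3 t E L U P T Y v w x q n m) (hκ : Ka E L κ) (hμ : Mu P T U μ d) :
    Pr t q ♯U (ga E t (ind (P ⊔ T ⊔ U) E (res (P ⊔ T ⊔ U) κ) -
      ind (P ⊔ T ⊔ U) E (res (P ⊔ T ⊔ U) κ * μ)))
      (al E t (ind (P ⊔ T ⊔ U) E (res (P ⊔ T ⊔ U) κ * μ))) := by
  have W := h.toW3
  have c := ci h.toWH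
  have hC := cent_eq h.toWH
  have v1 := (hκ.linB W).vch.ind (BE W)
  have v2 := (hκ.lm W hμ).vch.ind (BE W)
  have v3 := v1.sub v2
  have o := (od_ind W (res (P ⊔ T ⊔ U) κ)).sub (od_ind W (res (P ⊔ T ⊔ U) κ * μ))
  have e1 : (ind (P ⊔ T ⊔ U) E (res (P ⊔ T ⊔ U) κ) -
      ind (P ⊔ T ⊔ U) E (res (P ⊔ T ⊔ U) κ * μ)) 1 = 0 := by
    rw [Pi.sub_apply, ind_B_one W, ind_B_one W, (hκ.linB W).one, (hκ.lm W hμ).one, sub_self]
  have o1 : Odd (orderOf (1 : G)) := by simp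
  refine ⟨vch_ga c v3, vch_al c v2, ?_, ?_, ?_, ?_, ?_, ?_, al_odd c v2.cf o1, ?_, ?_, ?_⟩
  · rw [dot_ga_ga h v3.cf o (hκ.rg W hμ h.cop) v3.cf o, dot_sub_left, dot_sub_right, dot_sub_right,
      hκ.pp W, hκ.tt W hμ, hκ.pt W hμ hκ, dot_symm_zero (hκ.pt W hμ hκ)]
    norm_num
  · rw [dot_al_al c hC v2.cf (od_ind W _) v2.cf (od_ind W _), hκ.tt W hμ, mul_one]
  · rw [dot_al_one c v2.sp, hκ.t1 W hμ]
  · rw [dot_ga_al c hC v3.cf o v2.cf (od_ind W _), dot_sub_left, hκ.tt W hμ, hκ.pt W hμ hκ, zero_sub]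
  · rw [ga_one c, e1, v3.sp t h.tE, add_zero, mul_zero]
  · simpa only [e1, mul_one] using ga_ty c hC v3.cf o (one_mem E) o1
  · simpa [ind_B_one W, (hκ.lm W hμ).one] using al_ty c hC v2.cf (od_ind W _) (one_mem E) o1
  · have := (al_acnt h (mem_irrK.1 (hκ.mm W hμ)).2).1
    rw [hκ.tT W hμ, mul_zero] at this
    exact (mul_eq_zero.1 this).resolve_right (card_ne_zero_c U)
  · rw [← map_sub, ga_acnt h (fun y hy => mem_cker.2 fun z => by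
        rw [Pi.sub_apply, Pi.sub_apply, mem_cker.1 (hκ.kP W hy),
          mem_cker.1 ((mem_irrK.1 (hκ.mm W hμ)).2 hy)])
      (by rw [Pi.sub_apply, (hκ.linB W).one, (hκ.lm W hμ).one, sub_self]), dot_sub_left, hκ.tT W hμ,
      dot_congr (φ' := cf1 T) (fun y hy => by rw [hκ.T1 W hy, cf1_of_mem hy]) fun _ _ => rfl,
      dot_cf1_self, sub_zero, mul_one]

theorem ka_one (h : L ≤ E) : Ka E L (cf1 E) := ⟨lin_cf1 E, fun _ hy => cf1_of_mem (h hy)⟩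

theorem g_one (h : R3 t E L U P T Y v w x q n m) (hκ : Ka E L κ) (hμ : Mu P T U μ d) :
    dot ⊤ (ga E t (ind (P ⊔ T ⊔ U) E (res (P ⊔ T ⊔ U) κ) -
      ind (P ⊔ T ⊔ U) E (res (P ⊔ T ⊔ U) κ * μ))) (cf1 ⊤) =
      dot (P ⊔ T ⊔ U) κ (cf1 (P ⊔ T ⊔ U)) := by
  have W := h.toW3
  rw [dot_ga_one (ci h.toWH) ((ind_sp (BE W) _).sub (ind_sp (BE W) _)), dot_sub_left, hκ.t1 W hμ,
    th_cf1 W, dot_res_left, sub_zero]

end Ox

open Ox in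
theorem taskOF : TaskOF := by
  intro G _ _ t v w x L U P T Y q n m h
  have W := h.toW3
  obtain rfl : U = ⊥ := eq_bot_iff.2 fun u hu => h.dis u hu (h.UE hu)
  obtain ⟨d, hd, d1⟩ := exists_ne_one (H := T) fun e => by
    have e1 := h.ks.cD
    have := h.ks.q27
    rw [e, card_bot] at e1
    omega
  obtain ⟨μ, m1, m2, m3, m4⟩ := exists_mu W h.cop le_rfl hd
    (mem_cent.2 fun a ha => by rw [mem_bot.1 ha, one_mul, mul_one]) d1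
  have hμ : Mu P T ⊥ μ d := ⟨m1, m2, m3, hd, m4⟩
  have p := (ka_one le_rfl).pr h hμ
  have g1 := g_one h (ka_one le_rfl) hμ
  rw [← dot_res_left (P ⊔ T ⊔ ⊥), res_cf1 (BE W), dot_cf1_self, ← res_cf1 (BE W)] at g1
  obtain ⟨y, y0, y1, e⟩ := ree_equation (hI h) (card_cls h) (by rw [mul_comm, card_mul_index])
    p.hγ p.hα p.g3 g1 p.a2 p.a1 p.ga p.γ1 p.γt p.α1 p.αt p.αA (by simpa using p.γA)
  obtain ⟨k, k1, hq⟩ := h.ks.q3
  refine number hq k1 h.hn h.hm (oq W).2 h.od h.i1 h.i3 y0 y1 ?_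
  rw [e, cardC h, card_bot, Nat.cast_one, mul_one]

end Cfsg.GW2
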