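import Cfsg.Agent.GS.WZ2

/-! Passing to `C(U1)/U1` and to the subgroup generated by the involutions. -/

set_option autoImplicit false
set_option linter.unusedSectionVars false

namespace Cfsg.GW2

open Subgroup Cfsg.L0 Cfsg.H8 Cfsg.FT Cfsg.GJ

theorem pow_mod8 {a k : ℕ} (hk : Odd k) (h : a ^ k % 8 = 3 ∨ a ^ k % 8 = 5) : a % 8 = a ^ k % 8 := by
  obtain ⟨i, rfl⟩ := hk
  have : a % 8 = 1 ∨ a % 8 = 3 ∨ a % 8 = 5 ∨ a % 8 = 7 := by
    have : ¬ 2 ∣ a := fun e => by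
      have : 2 ∣ a ^ (2 * i + 1) := e.trans (dvd_pow_self a (Nat.succ_ne_zero (2 * i)))
      omega
    omega
  rw [pow_succ, pow_mul, Nat.mul_mod, Nat.pow_mod, Nat.pow_mod a]
  rcases this with e | e | e | e <;> simp [e]

theorem taskQ : TaskQ := by
  intro G _ _ t v w x E L U q h z U1 hU
  have : Fact (Nat.Prime 2) := ⟨Nat.prime_two⟩
  have UN : U ≤ 𝒞 U1 := (Cyc.abel h.cyc).trans (cent_anti hU)
  obtain ⟨Q, i1, i2, f, sj, ker⟩ := exists_quo (K := U1) (M := 𝒞 U1) ⟨hU.trans UN, cent_le_norm U1⟩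
  have ht : t ∈ 𝒞 U1 := cent_anti hU h.tU
  obtain ⟨s1, F, _, _, s2, ⟨φ⟩⟩ := h.sub U1 hU
  have k1 : ∀ y : 𝒞 U1, f y = 1 ↔ (y : G) ∈ U1 := fun y => by rw [← mem_bot, ← coe_mem_up, ker]
  have k2 : ∀ y y' : 𝒞 U1, f y = f y' ↔ (y : G) * (y' : G)⁻¹ ∈ U1 := fun y y' => by
    rw [← mul_inv_eq_one, ← map_inv, ← map_mul, k1]; rfl
  have o1 : Odd ♯U1 := odd_of_le h.oU hU
  have k3 : ∀ g : 𝒞 U1, f g * f ⟨t, ht⟩ = f ⟨t, ht⟩ * f g ↔ (g : G) * t = t * g := fun g => by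
    rw [← map_mul, ← map_mul]
    refine ⟨fun e => ?_, fun e => congrArg f (Subtype.ext e)⟩
    rw [k2] at e
    simp only [coe_mul, mul_inv_rev, ← mul_assoc] at e
    have e1 := (h.iv.conj (g : G)).ss
    generalize hc : (g : G) * t * (g : G)⁻¹ * t⁻¹ = c at e
    rw [mul_inv_eq_iff_eq_mul] at hc
    rw [hc, mul_assoc, ← mul_assoc t, ← mem_cent.1 ht c e, mul_assoc c t t, h.iv.ss, mul_one] at e1
    rw [eq_one_of_odd (h.oU' (hU e)) e1, one_mul] at hc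
    exact cm_of_conj hc
  have ri : (𝒞₁ (f ⟨t, ht⟩)).index = (𝒞₁ t).relIndex (𝒞 U1) := by
    rw [← relIndex_top_right, ← down_top sj, ← ri_up f _ le_rfl, ← inf_relIndex_right (𝒞₁ t)]
    congr 1
    ext g
    exact ⟨fun e => let ⟨a, b⟩ := mem_up.1 e; ⟨mem_c1.2 ((k3 ⟨g, a⟩).1 (mem_c1.1 b)), a⟩,
      fun e => mem_up.2 ⟨e.2, mem_c1.2 ((k3 ⟨g, e.2⟩).2 (mem_c1.1 e.1))⟩⟩
  have ri2 : (down f L).relIndex (down f E) * ♯U1 = ♯U := by
    have e1 : E ⊓ 𝒞 U1 = L ⊓ 𝒞 U1 ⊔ U := le_antisymm (fun g hg => by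
      obtain ⟨k, hk, u, hu, rfl⟩ := h.dec g hg.1
      exact mul_mem (mem_sup_left ⟨hk, (mul_mem_cancel_right (UN hu)).1 hg.2⟩) (mem_sup_right hu))
      (sup_le (inf_le_inf_right _ h.LE) (le_inf h.UE UN))
    have n1 : U ≤ 𝒩 (L ⊓ 𝒞 U1) := le_norm_inf (h.UE.trans h.nm) (le_norm_of_le UN)
    have d1 : L ⊓ 𝒞 U1 ⊓ U = ⊥ := eq_bot_iff.2 fun u hu => h.dis u hu.2 hu.1.1
    rw [← down_inf_dom f E, ← ri_up f _ inf_le_right, ← down_inf_dom f L, up_down f inf_le_right, ker, e1,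
      ← ri_eq_of_sd n1 d1, ← ri_eq_of_sd (hU.trans n1) (eq_bot_of_le d1 (inf_le_inf_left _ hU)), mul_comm]
    exact ri_mul le_sup_left (sup_le_sup_left hU _)
  refine ⟨Q, i1, i2, f, ht, Fintype.card F, sj, ker, s2, ⟨⟨?_, ?_⟩, ?_, ?_, ?_, ?_, ?_, down_mono f h.LE,
    down_le_norm f h.nm, ?_, ?_, ?_, F, inferInstance, inferInstance, rfl, ?_⟩, ri2, ?_⟩
  · rw [← map_mul, k1, coe_mul, h.iv.ss]; exact one_mem _
  · exact fun e => h.tE (h.UE (hU ((k1 _).1 e)))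
  · rintro ⟨y, hy, e⟩
    exact h.tE (by simpa using mul_mem (inv_mem (h.UE (hU ((k2 _ _).1 e)))) hy)
  · rintro _ ⟨y, hy, rfl⟩
    exact (k3 y).2 (h.cm y hy)
  · intro g e
    obtain ⟨g, rfl⟩ := sj g
    exact (h.ce g ((k3 g).1 e)).imp mem_down_of_mem fun e => map_mul f _ _ ▸ mem_down_of_mem e
  · rw [ri, ← Nat.not_even_iff_odd, even_iff_two_dvd]
    exact (h.sylA.mono (h.AU.trans (cent_anti hU)) le_top).not_dvd_of_le (le_cent1_iff.2 (h.abA WU.tA))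
  · intro s hs
    obtain ⟨s, rfl⟩ := sj s
    have e : f (s ^ ♯U1) = f s := by rw [map_pow, hs.pow o1]
    obtain ⟨g, hg, e1⟩ := h.tr hU (s ^ ♯U1).2 ⟨by
      rw [coe_pow, ← Commute.mul_pow rfl]
      exact pwc ((k1 (s * s)).1 (by rw [map_mul, hs.ss])),
      fun e1 => hs.ne (by rw [← e, show s ^ ♯U1 = 1 from Subtype.ext e1]; exact map_one f)⟩
    exact ⟨f ⟨g, hg⟩, by rw [← e, ← map_inv, ← map_mul, ← map_mul]; exact congrArg f (Subtype.ext e1)⟩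
  · rintro _ ⟨g, hg, rfl⟩ e
    refine (k1 g).2 (s1 g hg g.2 (mem_cent.2 fun l hl => ?_))
    have e1 := mem_cent.1 e _ (mem_down_of_mem (x := ⟨l, hl.2⟩) hl.1)
    rw [← map_mul, ← map_mul, k2] at e1
    rw [← mul_inv_eq_one]
    refine h.dis _ (hU e1) ?_
    rw [show l * g * ((g : G) * l)⁻¹ = l * (g * l⁻¹ * (g : G)⁻¹) by group]
    exact mul_mem hl.1 (conj_mem_of_norm (h.nm hg) (inv_mem hl.1))
  · exact h.oU.of_dvd_nat ⟨_, ri2.symm⟩
  · rw [pow_mod8 o1 (s2 ▸ h.q8), s2]; exact h.q8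
  · let ψ : ↥(L ⊓ 𝒞 U1) →* Q := f.comp (inclusion inf_le_right)
    have inj : Function.Injective ψ := (injective_iff_map_eq_one ψ).2 fun a e =>
      Subtype.ext (h.dis _ (hU ((k1 _).1 e)) a.2.1)
    have rg : ψ.range = down f L := by
      ext y
      exact ⟨by rintro ⟨a, rfl⟩; exact mem_down_of_mem a.2.1,
        by rintro ⟨a, ha, rfl⟩; exact ⟨⟨a, ha, a.2⟩, rfl⟩⟩
    exact ⟨((MulEquiv.subgroupCongr rg).symm.trans (MonoidHom.ofInjective inj).symm).trans φ⟩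
  · rw [ri, ← ncard_class]
    congr 1
    ext s
    exact ⟨fun hs => h.tr hU hs.2 hs.1, by
      rintro ⟨g, hg, rfl⟩; exact ⟨h.iv.conj g, mul_mem (mul_mem hg ht) (inv_mem hg)⟩⟩

theorem iv_coe {G : Type} [Group G] {K : Subgroup G} {s : K} : Iv s ↔ Iv (s : G) :=
  ⟨fun h => ⟨congrArg Subtype.val h.ss, fun e => h.ne (Subtype.ext e)⟩,
    fun h => ⟨Subtype.ext h.ss, fun e => h.ne (congrArg Subtype.val e)⟩⟩

theorem WH.simple {G : Type} [Group G] {t : G} {E L : Subgroup G} {q : ℕ} (h : WH t E L q)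
    (h5 : 5 ≤ q) : IsSimpleGroup L := by
  obtain ⟨F, _, _, e, ⟨φ⟩⟩ := h.iso
  have := Matrix.ProjectiveSpecialLinearGroup.rank_two_simple (F := F) (by
    rw [Nat.card_eq_fintype_card]; omega)
  exact φ.isSimpleGroup

/-- passing to a normal subgroup containing `L` and all involutions -/
theorem WU.sub_wh {G : Type} [Group G] [Finite G] {t v w x : G} {E L U K : Subgroup G} {q : ℕ}
    (h : WU t E L U v w x q) (nK : K.Normal) (iK : ∀ s, Iv s → s ∈ K) (LK : L ≤ K) :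
    WH (⟨t, iK t h.iv⟩ : K) (E.subgroupOf K) (L.subgroupOf K) q ∧
      (𝒞₁ (⟨t, iK t h.iv⟩ : K)).index = (𝒞₁ t).index := by
  have : Fact (Nat.Prime 2) := ⟨Nat.prime_two⟩
  have one : ∀ s, Iv s → ∃ g ∈ K, g * t * g⁻¹ = s := fun s hs => by
    obtain ⟨g, hg, e⟩ := (h.sylA.mono (sup_le (zpowers_le.2 (iK t h.iv)) (h.VL.trans LK))
      le_top).exists_conj_mem (iK s hs) ⟨1, by rw [pow_one, sq, hs.ss]⟩
    obtain ⟨n, hn, e1⟩ := (h.trans_of ((nrm_top_iff.2 nK).inf_le le_top) ⟨LK h.xL, h.xA⟩).2 _ e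
      (hs.conj g).ne
    exact ⟨g⁻¹ * n, mul_mem (inv_mem hg) hn.1, by
      rw [show g⁻¹ * n * t * (g⁻¹ * n)⁻¹ = g⁻¹ * (n * t * n⁻¹) * g by group, e1]; group⟩
  have ri : (𝒞₁ (⟨t, iK t h.iv⟩ : K)).index = (𝒞₁ t).index := by
    rw [show 𝒞₁ (⟨t, iK t h.iv⟩ : K) = (𝒞₁ t).subgroupOf K from Subgroup.ext fun g => by
      rw [mem_subgroupOf, mem_c1, mem_c1, Subtype.ext_iff]; rfl, ← h.cnt]
    refine (ncard_class K t).symm.trans (congrArg _ (Set.ext fun s => ⟨?_, one s⟩))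
    rintro ⟨g, -, rfl⟩
    exact h.iv.conj g
  obtain ⟨F, _, _, e, ⟨φ⟩⟩ := h.iso
  refine ⟨⟨iv_coe.2 h.iv, h.tE, fun k hk => Subtype.ext (h.cm k hk),
    fun g e => h.ce g (congrArg Subtype.val e), ri ▸ h.od, fun s hs => ?_, comap_mono h.LE,
    fun g hg => mem_normalizer_of_forall fun l hl => conj_mem_of_norm (H := L) (h.nm hg) hl,
    fun g hg e => Subtype.ext (h.cl g hg (mem_cent.2 fun l hl =>
      congrArg Subtype.val (mem_cent.1 e ⟨l, LK hl⟩ hl))), ?_, h.q8, F, _, _, e,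
    ⟨(subgroupOfEquivOfLe LK).trans φ⟩⟩, ri⟩
  · obtain ⟨g, hg, e⟩ := one s (iv_coe.1 hs)
    exact ⟨⟨g, hg⟩, Subtype.ext e⟩
  · rw [← inf_subgroupOf_right E, relIndex_subgroupOf inf_le_right]
    exact h.oi.of_dvd_nat (ri_dvd_of_le inf_le_left h.nm)

theorem normal_inv (G : Type) [Group G] : (closure {s : G | Iv s}).Normal :=
  ⟨fun n hn g => closure_induction (fun s hs => subset_closure (Iv.conj hs g)) (by simp)
    (fun a b _ _ ha hb => by simpa [mul_assoc] using mul_mem ha hb)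
    (fun a _ ha => by simpa [mul_assoc] using inv_mem ha) hn⟩

theorem gi_closure (G : Type) [Group G] : GI (closure {s : G | Iv s}) := by
  rw [GI, ← closure_closure_coe_preimage]
  exact congrArg _ (Set.ext fun s => iv_coe)

theorem taskK (hS : TaskS) : TaskK := by
  intro G _ _ t E L q h h5
  obtain ⟨U, v, w, x, h⟩ := (hS G t E L q h).1
  have := h.simple h5
  have nK := normal_inv G
  refine ⟨_, _, gi_closure G, h.sub_wh nK (fun s hs => subset_closure hs) ?_⟩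
  refine subgroupOf_eq_top.1 ((nK.subgroupOf L).eq_bot_or_eq_top.resolve_left fun e => h.kp.s1 ?_)
  exact congrArg Subtype.val (mem_bot.1 (e.le (show (⟨v, h.vL⟩ : L) ∈ _ from subset_closure h.kp.iv)))

end Cfsg.GW2
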