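import Cfsg.Agent.GS.WZ2

/-! The involutions centralizing an element of order dividing `m`. -/

set_option autoImplicit false
set_option linter.unusedSectionVars false

namespace Cfsg.GW2

open Subgroup Cfsg.L0 Cfsg.H8 Cfsg.FT Cfsg.GJ

variable {G : Type} [Group G] [Finite G]
variable {t v w x s j r a b c e g k l u y z : G} {E L U U1 P T Y Z : Subgroup G} {q n m : ℕ}

theorem conj_eq_one_iff' (h : g⁻¹ * a * g = 1) : a = 1 := by
  calc a = g * (g⁻¹ * a * g) * g⁻¹ := by group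
    _ = 1 := by rw [h]; group

theorem dih_cent (hs : s * s = 1) (hj : j * j = 1) {i : ℕ} (e : (s * j) ^ i * (s * j) ^ i = 1) :
    s * (s * j) ^ i = (s * j) ^ i * s ∧ j * (s * j) ^ i = (s * j) ^ i * j :=
  ⟨cm_of_conj (by rw [inv_pow_of (w := s) (by
      rw [← mul_assoc, hs, one_mul, mul_inv_rev s, inv_self_of hj]), inv_self_of e]),
    cm_of_conj (by rw [inv_pow_of (w := j) (by
      rw [← mul_assoc, mul_inv_cancel_right, mul_inv_rev s, inv_self_of hs, inv_self_of hj]),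
      inv_self_of e])⟩

theorem v4_normal (two : Two G) (k : KP s r) (VZ : V4 s r ≤ Z)
    (ce : ∀ a ∈ V4 s r, a ≠ 1 → ∀ g ∈ Z, g * a = a * g → g ∈ V4 s r)
    (nr : ∀ c ∈ Z, ∀ i ∈ Z, c ^ 3 = 1 → i * c * i⁻¹ = c⁻¹ → c = 1) (hj : j ∈ Z) (j2 : j * j = 1) :
    j ∈ V4 s r := by
  have : Fact (Nat.Prime 2) := ⟨Nat.prime_two⟩
  by_contra jV
  have sV := V_left s r
  have syl := two.sylV k (VZ sV) (VZ (V_right s r)) fun y hy e _ _ => ce s sV k.s1 y hy e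
  have c1 : ∀ a ∈ V4 s r, a ≠ 1 → ∃ z ∈ Z, z⁻¹ * a * z = j := fun a ha a1 => by
    obtain ⟨i, hi, e⟩ := two.exists_odd (a * j)
    obtain ⟨e1, e2⟩ := dih_cent (V_sq k ha) j2 e
    have e3 : (a * j) ^ i = 1 := by
      by_contra n
      exact jV (ce _ (ce a ha a1 _ (pow_mem (mul_mem (VZ ha) hj) i) e1.symm) n j hj e2)
    obtain ⟨z, hz, e4⟩ := conj_of_inv (e := a) (c := a * j) (by
      rw [← mul_assoc, V_sq k ha, one_mul, mul_inv_rev a, inv_self_of j2]) (odd_of_pow' hi e3)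
    exact ⟨z, zpowers_le.2 (mul_mem (VZ ha) hj) hz, by rw [e4, ← mul_assoc, V_sq k ha, one_mul]⟩
  have nV : ((V4 s r : Set G) \ {1}).ncard = 3 := by
    rw [Set.ncard_sdiff_singleton_of_mem (one_mem _), ← card_ncard, card_V4 k]
  have cs : ∀ X, V4 s r ≤ X → X ≤ Z → ♯X = 4 * {y | ∃ g ∈ X, g * s * g⁻¹ = y}.ncard := fun X h1 h2 => by
    rw [ncard_class, ← card_inf_mul_ri (𝒞₁ s) X, ← card_V4 k, show 𝒞₁ s ⊓ X = V4 s r from le_antisymm
      (fun g hg => ce s sV k.s1 g (h2 hg.2) (mem_c1.1 hg.1))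
      fun g hg => ⟨mem_c1.2 (two.ab2 k.p2 hg sV), h1 hg⟩]
  have cT : ♯(Z ⊓ 𝒩 (V4 s r)) = 12 := by
    rw [cs _ (le_inf VZ (le_norm _)) inf_le_left, show {y | ∃ g ∈ Z ⊓ 𝒩 (V4 s r), g * s * g⁻¹ = y} =
      (V4 s r : Set G) \ {1} from Set.ext fun a => ⟨by
        rintro ⟨g, hg, rfl⟩; exact ⟨conj_mem_of_norm hg.2 sV, (k.iv.conj g).ne⟩, fun ha => ?_⟩, nV]
    obtain ⟨z, hz, e⟩ := c1 s sV k.s1
    obtain ⟨z', hz', e'⟩ := c1 a ha.1 ha.2
    have e1 : z' * z⁻¹ * s * (z' * z⁻¹)⁻¹ = a := by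
      rw [show z' * z⁻¹ * s * (z' * z⁻¹)⁻¹ = z' * (z⁻¹ * s * z) * z'⁻¹ by group, e, ← e']; group
    obtain ⟨n, hn, n1, n2⟩ := syl.burnside_centralizer (A := {s}) (mul_mem hz' (inv_mem hz))
      (fun y hy => mem_c1.2 (two.ab2 k.p2 hy sV)) (by
        rintro _ rfl y hy; rw [e1]; exact two.ab2 k.p2 ha.1 hy)
    exact ⟨n, ⟨hn, n1⟩, (n2 s rfl).trans e1⟩
  set J := {i | i ∈ Z ∧ i * i = 1 ∧ (i ∈ V4 s r → i = 1)} with hJ
  have c2 := coset_cnt (X := Z) (T := Z ⊓ 𝒩 (V4 s r)) (J := J) (fun i hi => hi.1) inf_le_left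
    fun a ha b hb e => by
      rw [inv_self_of ha.2.1] at e
      obtain ⟨i, hi, e1⟩ := two.exists_odd (a * b)
      obtain ⟨e2, e3⟩ := dih_cent ha.2.1 hb.2.1 e1
      by_cases e4 : (a * b) ^ i = 1
      · have o : orderOf (a * b) ∣ 3 := (Nat.Coprime.pow_right 2 (Nat.coprime_two_right.2
          (odd_of_pow' hi e4))).dvd_of_dvd_mul_left (by have := orderOf_dvd e; rwa [cT] at this)
        have := nr _ e.1 a ha.1 (orderOf_dvd_iff_pow_eq_one.1 o) (by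
          rw [← mul_assoc, ha.2.1, one_mul, mul_inv_rev a, inv_self_of hb.2.1])
        rw [← inv_self_of ha.2.1]; exact (eq_inv_of_mul_eq_one_right this).symm
      · have m := syl.mem_of_mem_normalizer (pow_mem e i).1 ⟨1, by rw [pow_one, sq, e1]⟩ (pow_mem e i).2
        rw [ha.2.2 (ce _ m e4 a ha.1 e2), hb.2.2 (ce _ m e4 b hb.1 e3)]
  have J1 : (1 : G) ∈ J := ⟨one_mem _, one_mul 1, fun _ => rfl⟩
  have c3 : {y | ∃ g ∈ Z, g * s * g⁻¹ = y}.ncard ≤ 3 + (J \ {1}).ncard := by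
    rw [← nV]
    refine (Set.ncard_le_ncard ?_).trans (Set.ncard_union_le _ _)
    rintro _ ⟨g, hg, rfl⟩
    by_cases e : g * s * g⁻¹ ∈ V4 s r
    · exact Or.inl ⟨e, (k.iv.conj g).ne⟩
    · exact Or.inr ⟨⟨mul_mem (mul_mem hg (VZ sV)) (inv_mem hg), (k.iv.conj g).ss, fun e' => absurd e' e⟩,
        (k.iv.conj g).ne⟩
  have c4 := Set.ncard_sdiff_singleton_add_one J1
  have c5 : 0 < (J \ {1}).ncard := (Set.ncard_pos (Set.toFinite _)).2
    ⟨j, ⟨hj, j2, fun e => absurd e jV⟩, fun e => jV (e ▸ one_mem _)⟩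
  have c6 := cs Z VZ le_rfl
  rw [cT] at c2
  omega

open Classical in
/-- the subgroup `L` belonging to an involution -/
noncomputable def LL (t : G) (L : Subgroup G) (s : G) : Subgroup G :=
  if h : ∃ g, g * t * g⁻¹ = s then cj h.choose L else ⊥

namespace WH

variable (h : WH t E L q)
include h

theorem LL_conj (g : G) : LL t L (g * t * g⁻¹) = cj g L := by
  have e : ∃ c, c * t * c⁻¹ = g * t * g⁻¹ := ⟨g, rfl⟩
  simp only [LL, dif_pos e]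
  have e1 := e.choose_spec
  generalize e.choose = c at e1
  rw [show c = g * (g⁻¹ * c) by group, cj_mul, cj_eq_of_mem_norm (h.nL ?_)]
  calc _ = g⁻¹ * (c * t * c⁻¹) * c := by group
    _ = _ := by rw [e1]; group

theorem LL_t : LL t L t = L := by simpa [cj_one] using h.LL_conj 1

theorem LL_cj (hs : Iv s) (g : G) : LL t L (g * s * g⁻¹) = cj g (LL t L s) := by
  obtain ⟨c, rfl⟩ := h.one s hs
  rw [h.LL_conj, ← cj_mul, ← h.LL_conj]; congr 1; group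

omit h in
theorem ct (e : a * (g * t * g⁻¹) = g * t * g⁻¹ * a) : g⁻¹ * a * g * t = t * (g⁻¹ * a * g) := by
  simpa [mul_assoc] using conj_comm e g⁻¹

theorem LL_cm (hs : Iv s) (ha : a ∈ LL t L s) : a * s = s * a := by
  obtain ⟨c, rfl⟩ := h.one s hs
  rw [h.LL_conj, mem_cj] at ha
  simpa [mul_assoc] using conj_comm (h.cmL ha) c

theorem LL_nm (hs : Iv s) : s ∉ LL t L s := by
  obtain ⟨c, rfl⟩ := h.one s hs
  rw [h.LL_conj, mem_cj]
  exact fun e => h.tE (h.LE (by simpa [mul_assoc] using e))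

theorem LL_nL (hs : Iv s) (e : g * s = s * g) : g ∈ 𝒩 (LL t L s) :=
  cj_eq_iff.1 (by rw [← h.LL_cj hs, conj_of_cm e])

theorem LL_ex (hs : Iv s) (e : g * s = s * g) (g2 : g * g = 1) : g ∈ LL t L s ∨ s * g ∈ LL t L s := by
  obtain ⟨c, rfl⟩ := h.one s hs
  rw [h.LL_conj, mem_cj, mem_cj]
  obtain ⟨k, hk, -, e1 | e1⟩ := h.exL (ct e) (by simpa using conj_sq g2 c⁻¹)
  · exact Or.inl (e1 ▸ hk)
  · right
    rwa [show c⁻¹ * (c * t * c⁻¹ * g) * c = t * (c⁻¹ * g * c) by group, e1, h.iv.sl]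

end WH

namespace WU

variable (h : WU t E L U v w x q)
include h

theorem LL_re (hs : Iv s) (o : Odd (orderOf y)) (e : y * s = s * y) (i : g * y * g⁻¹ = y⁻¹) :
    y ∈ LL t L s := by
  obtain ⟨c, rfl⟩ := h.one s hs
  rw [h.LL_conj, mem_cj]
  have o' : Odd (orderOf (c⁻¹ * y * c)) := by rwa [← orderOf_conj' c⁻¹, inv_inv] at o
  have m := h.odd_mem (WH.ct e) o'
  have e1 : c⁻¹ * g * c * (c⁻¹ * y * c) * (c⁻¹ * g * c)⁻¹ = (c⁻¹ * y * c)⁻¹ := by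
    rw [show c⁻¹ * g * c * (c⁻¹ * y * c) * (c⁻¹ * g * c)⁻¹ = c⁻¹ * (g * y * g⁻¹) * c by group, i]; group
  have := h.fz m o' (e1 ▸ inv_mem m)
  rw [e1, ← mul_inv_rev, inv_mem_iff] at this
  exact h.memL2 m this

theorem LL_dis (hs : Iv s) (hu : u ∈ U) (e : u ∈ LL t L s) : u = 1 := by
  obtain ⟨c, rfl⟩ := h.one s hs
  rw [h.LL_conj, mem_cj] at e
  have := h.fz (g := c⁻¹) (h.UE hu) (h.oU' hu) (by simpa using h.LE e)
  exact h.dis u hu (by simpa [mul_assoc] using mul_mem e (inv_mem this))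

theorem V_conj (k : KP s j) : ∃ g, cj g (V4 v w) = V4 s j := by
  have key : ∀ s j, KP s j → ∃ g, cj g (V4 s j) = V4 t w := fun s j k => by
    obtain ⟨g, e1, e2⟩ := h.kp_conj k
    refine ⟨g, ?_⟩
    rw [V4, cj, MonoidHom.map_closure, Set.image_pair]
    change V4 (g * s * g⁻¹) (g * j * g⁻¹) = _
    rcases e2 with e2 | e2 <;> rw [e1, e2]
    exact V_mul ⟨h.iv.ss, h.kp.ww, h.iv.ne, h.kp.w1, fun e => h.tE (e ▸ h.LE h.wL), h.cmL h.wL⟩
  obtain ⟨a, e1⟩ := key _ _ k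
  obtain ⟨b, e2⟩ := key _ _ h.kp
  exact ⟨a⁻¹ * b, by rw [cj_mul, e2, ← e1, cj_inv_cj]⟩

theorem cycle (k : KP s j) : ∃ g, cj g (V4 v w) = V4 s j ∧ ∃ y, (y = x ∨ y = x⁻¹) ∧
    g * y * g⁻¹ * s * (g * y * g⁻¹)⁻¹ = j ∧ g * y * g⁻¹ * j * (g * y * g⁻¹)⁻¹ = s * j := by
  obtain ⟨g, e⟩ := h.V_conj k
  refine ⟨g, e, ?_⟩
  suffices ∀ a ∈ V4 v w, ∀ b ∈ V4 v w, KP a b → ∃ y, (y = x ∨ y = x⁻¹) ∧ y * a * y⁻¹ = b ∧
      y * b * y⁻¹ = a * b by
    obtain ⟨y, hy, e1, e2⟩ := this _ (mem_cj.1 (e.ge (V_left s j))) _ (mem_cj.1 (e.ge (V_right s j)))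
      (by simpa using k.conj g⁻¹)
    refine ⟨y, hy, ?_, ?_⟩
    · calc _ = g * (y * (g⁻¹ * s * g) * y⁻¹) * g⁻¹ := by group
        _ = _ := by rw [e1]; group
    · calc _ = g * (y * (g⁻¹ * j * g) * y⁻¹) * g⁻¹ := by group
        _ = _ := by rw [e2]; group
  intro a ha b hb k
  have i : ∀ {a b : G}, x * a * x⁻¹ = b → x⁻¹ * b * x⁻¹⁻¹ = a := fun e => by rw [← e]; group
  have a1 := h.xv
  have a2 := h.xw
  have a3 := h.xvw
  have s1 := h.kp.sl w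
  have s2 : w * (v * w) = v := by rw [← h.kp.comm, h.kp.symm.sl]
  have s3 : v * w * v = w := by rw [mul_assoc, h.kp.comm, s1]
  have s4 : v * w * w = v := by rw [mul_assoc, h.kp.ww, mul_one]
  rcases (memV h.kp).1 ha with rfl | rfl | rfl | rfl <;>
    rcases (memV h.kp).1 hb with e | e | e | e <;>
    first | exact absurd rfl k.s1 | exact absurd e k.w1 | exact absurd e k.ne | rw [e]
  exacts [⟨x, Or.inl rfl, a1, a2⟩, ⟨x⁻¹, Or.inr rfl, i a3, (i a2).trans s1.symm⟩,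
    ⟨x⁻¹, Or.inr rfl, i a1, (i a3).trans h.kp.comm.symm⟩, ⟨x, Or.inl rfl, a2, a3.trans s2.symm⟩,
    ⟨x, Or.inl rfl, a3, a1.trans s3.symm⟩, ⟨x⁻¹, Or.inr rfl, i a2, (i a1).trans s4.symm⟩]

theorem arc_last (k : KP s j) (e : j ∈ LL t L s) : s ∈ LL t L (s * j) := by
  obtain ⟨g, -, y, -, e1, e2⟩ := h.cycle k
  generalize g * y * g⁻¹ = z at e1 e2
  have e3 : z * z * s * (z * z)⁻¹ = s * j := by rw [← e2, ← e1]; group
  have e4 : z * z * j * (z * z)⁻¹ = s := by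
    calc _ = z * (z * j * z⁻¹) * z⁻¹ := by group
      _ = z * (s * j) * z⁻¹ := by rw [e2]
      _ = z * s * z⁻¹ * (z * j * z⁻¹) := by group
      _ = _ := by rw [e1, e2, ← k.comm, k.symm.sl]
  rw [← e3, h.LL_cj k.iv]
  nth_rewrite 2 [← e4]
  exact conj_mem_cj e

theorem kp_tv : KP t v :=
  ⟨h.iv.ss, h.kp.ss, h.iv.ne, h.kp.s1, fun e => h.tE (e ▸ h.LE h.vL), h.cmL h.vL⟩

theorem kp_tw : KP t w :=
  ⟨h.iv.ss, h.kp.ww, h.iv.ne, h.kp.w1, fun e => h.tE (e ▸ h.LE h.wL), h.cmL h.wL⟩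

end WU

namespace W3

variable (h : W3 t E L U P T Y v w x q n m)
include h

theorem om : Odd m := Nat.odd_iff.2 (by have := h.hm; have := h.ks.q8; omega)

theorem on : Odd n := Nat.odd_iff.2 (by have := h.hn; have := h.ks.q8; omega)

theorem LL_nr (hs : Iv s) (hc : c ∈ LL t L s) (hi : j ∈ LL t L s) (c3 : c ^ 3 = 1)
    (e : j * c * j⁻¹ = c⁻¹) : c = 1 := by
  obtain ⟨g, rfl⟩ := h.one s hs
  rw [h.LL_conj, mem_cj] at hc hi
  exact conj_eq_one_iff' (h.nr _ hc _ hi (by simpa using conj_pow_one c3 g⁻¹) (by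
    rw [show g⁻¹ * j * g * (g⁻¹ * c * g) * (g⁻¹ * j * g)⁻¹ = g⁻¹ * (j * c * j⁻¹) * g by group, e]; group))

section
variable (hy : y ∈ Y) (y1 : y ≠ 1) (ym : y ^ m = 1)
include hy y1 ym

theorem D0 (g1 : g * y = y * g) (g2 : g * t = t * g) :
    g * v = v * g ∧ (g * g = 1 → g ∈ V4 t v) := by
  have y2 : y * y ≠ 1 := fun e => y1 (eq_one_of_odd (odd_of_pow' h.om ym) e)
  have key : ∀ k ∈ L, k * y = y * k → k * k = 1 → k = 1 ∨ k = v := fun k hk e k2 =>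
    h.tY.eq_inv h.vY (h.tY.cent hk hy y2 e) h.kp.s1 h.kp.ss k2
  refine ⟨cm_of_conj ((key _ (h.cjL g2 h.vL) ?_ (h.kp.iv.conj g).ss).resolve_left (h.kp.iv.conj g).ne),
    fun g3 => ?_⟩
  · have := conj_comm (h.tY.ab h.vY hy) g
    rwa [conj_of_cm g1] at this
  obtain ⟨k, hk, k2, rfl | rfl⟩ := h.exL g2 g3
  · rcases key g hk g1 k2 with rfl | rfl
    exacts [one_mem _, V_right _ _]
  · rw [← mul_assoc, h.cmL (h.tY.le hy), mul_assoc, mul_assoc, mul_left_cancel_iff] at g1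
    rcases key k hk g1 k2 with rfl | rfl
    exacts [(mul_one t).symm ▸ V_left _ _, mul_mem (V_left _ _) (V_right _ _)]

theorem Vy (ha : a ∈ V4 t v) : y * a = a * y := comm_V (h.cmL (h.tY.le hy)) (h.tY.ab hy h.vY) ha

theorem D1 (ha : a ∈ V4 t v) (a1 : a ≠ 1) (g1 : g * y = y * g) (g2 : g * a = a * g) :
    g * t = t * g ∧ g * v = v * g ∧ (g * g = 1 → g ∈ V4 t v) := by
  have k := h.kp_tv
  have ia : Iv a := ⟨V_sq k ha, a1⟩
  have m1 := h.LL_re ia (odd_of_pow' h.om ym) (h.Vy hy y1 ym ha) (h.tY.inv' hy)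
  obtain ⟨c, rfl⟩ := h.one a ia
  rw [h.LL_conj, mem_cj] at m1
  obtain ⟨l, hl, m2⟩ := h.tY.cnj _ m1 (by
    simpa using conj_pow_one (show y ^ (2 * m) = 1 by rw [mul_comm, pow_mul, ym, one_pow]) c⁻¹)
  have e : c * t * c⁻¹ = c * l⁻¹ * t * (c * l⁻¹)⁻¹ := by rw [mul_assoc c l⁻¹, h.cmL (inv_mem hl)]; group
  rw [show l * (c⁻¹ * y * c) * l⁻¹ = (c * l⁻¹)⁻¹ * y * (c * l⁻¹) by group] at m2
  rw [e] at ha g2
  generalize c * l⁻¹ = d at ha g2 m2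
  have key : ∀ g, g * y = y * g → g * (d * t * d⁻¹) = d * t * d⁻¹ * g →
      d⁻¹ * g * d * v = v * (d⁻¹ * g * d) ∧ (g * g = 1 → d⁻¹ * g * d ∈ V4 t v) := fun g e1 e2 =>
    (h.D0 m2 (fun e => y1 (conj_eq_one_iff' e)) (by simpa using conj_pow_one ym d⁻¹)
      (by simpa [mul_assoc] using conj_comm e1 d⁻¹) (WH.ct e2)).imp_right
      fun f e => f (by simpa using conj_sq e d⁻¹)
  have k2 : ∀ b ∈ V4 t v, g * b = b * g := fun b hb => by
    simpa [mul_assoc] using conj_comm (comm_V (WH.ct g2) (key g g1 g2).1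
      ((key b (h.Vy hy y1 ym hb).symm (h.two.ab2 k.p2 hb ha)).2 (V_sq k hb))) d
  exact ⟨k2 t (V_left _ _), k2 v (V_right _ _), (h.D0 hy y1 ym g1 (k2 t (V_left _ _))).2⟩

theorem wb_inv (hb : b ∈ V4 t v) : w * b * y * (w * b)⁻¹ = y⁻¹ := by
  rw [mul_assoc w, ← h.Vy hy y1 ym hb, ← h.tY.inv' hy]; group

omit hy y1 ym in
theorem wb_V (hb : b ∈ V4 t v) (ha : a ∈ V4 t v) : a * (w * b) = w * b * a :=
  comm_mul (comm_V (h.cmL h.wL) h.kp.comm ha).symm (h.two.ab2 h.kp_tv.p2 ha hb)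

theorem wb_iv (hb : b ∈ V4 t v) : Iv (w * b) :=
  ⟨h.A_sq (mul_mem WU.wA (closure_pair_le WU.tA WU.vA hb)), fun e => y1 (eq_one_of_inv
    (odd_of_pow' h.om ym) (by rw [e, one_mul, mul_one]) (h.wb_inv hy y1 ym hb))⟩

theorem cA' (hb : b ∈ V4 t v) (ha : a ∈ V4 t v) (a1 : a ≠ 1) (g1 : g * y = y * g) (g2 : g * a = a * g)
    (g3 : g ∈ LL t L (w * b)) : g ∈ V4 t v := by
  obtain ⟨e1, e2, e3⟩ := h.D1 hy y1 ym ha a1 g1 g2
  have e4 := h.LL_cm (h.wb_iv hy y1 ym hb) g3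
  rw [mul_assoc, ← comm_V e1 e2 hb, ← mul_assoc, ← mul_assoc, mul_left_inj] at e4
  obtain ⟨a, ha, u, hu, rfl⟩ := h.cA (WU.cA_iff.2 ⟨e1, e2, e4⟩)
  have e5 : a * u * (a * u) = u * u := by
    rw [mul_assoc, ← mul_assoc u, mem_cent.1 (h.AU ha) u hu, mul_assoc, ← mul_assoc, h.A_sq ha, one_mul]
  exact e3 (h.LL_dis (h.wb_iv hy y1 ym hb) (e5 ▸ mul_mem hu hu) (mul_mem g3 g3))

theorem Ra_core (hb : b ∈ V4 t v) (k : KP s r) (hV : V4 s r = V4 t v) (sL : s ∈ LL t L (w * b))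
    (rL : r ∉ LL t L (w * b)) (g1 : g * y = y * g) (g2 : g * (w * b) = w * b * g) (g3 : g * g = 1) :
    g ∈ V4 t v := by
  have ie := h.wb_iv hy y1 ym hb
  have sV := hV.le (V_left s r)
  have rV := hV.le (V_right s r)
  have sX : s ∈ 𝒞₁ y ⊓ LL t L (w * b) := ⟨mem_c1.2 (h.Vy hy y1 ym sV).symm, sL⟩
  obtain ⟨O, o1, o2, -, o4, o5⟩ := exists_oddpart (h.two.not_four sX k.ss fun z hz z1 _ => by
    rcases (memV k).1 (hV.ge (h.cA' hy y1 ym hb sV k.s1 (mem_c1.1 hz.1) z1 hz.2)) with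
      rfl | rfl | rfl | rfl
    exacts [Or.inl rfl, Or.inr rfl, absurd hz.2 rL, absurd (by simpa [k.sl] using mul_mem sL hz.2) rL])
  have nX : ∀ c ∈ V4 t v, c ∈ 𝒩 O := fun c hc => o4 (le_norm_inf (A := zpowers c)
    (zpowers_le.2 (mem_norm_c1 (conj_mem_zp_of_comm (h.Vy hy y1 ym hc))))
    (zpowers_le.2 (h.LL_nL ie (h.wb_V hb hc))) (mem_zpowers c))
  have od := fun y (hy : y ∈ O) => odd_orderOf_of_mem o2 hy
  have tr : ∀ a ∈ V4 t v, a ≠ 1 → ∀ y ∈ O, y * a = a * y → y = 1 := fun a ha a1 z hz e =>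
    eq_one_of_odd (od z hz) (V_sq h.kp_tv (h.cA' hy y1 ym hb ha a1 (mem_c1.1 (o1 hz).1) e (o1 hz).2))
  have O1 : ∀ y ∈ O, y = 1 := fun y hy => by
    obtain ⟨c, hc, d, hd, e, he, c1, d1, e1, rfl⟩ := fac3 od k (nX s sV) (nX r rV) hy
    rw [tr s sV k.s1 c hc c1, tr _ (mul_mem sV rV) k.mul.w1 d hd d1, tr r rV k.w1 e he e1, mul_one, mul_one]
  have key : ∀ c, c * y = y * c → c ∈ LL t L (w * b) → c ∈ V4 t v := fun c c1 c2 => by
    by_cases e : c ∈ O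
    · rw [O1 c e]; exact one_mem _
    · rw [eq_inv_of_mul_eq_one_left (O1 _ (o5 c ⟨mem_c1.2 c1, c2⟩ s sX e fun e => k.s1 (O1 s e)))]
      exact inv_mem sV
  rcases h.LL_ex ie g2 g3 with e | e
  · exact key g g1 e
  · have := mul_mem e ((h.LL_ex ie (h.wb_V hb rV) k.ww).resolve_left rL)
    rw [← g2, mul_assoc, ie.sl] at this
    simpa using mul_mem (key _ (comm_mul g1.symm (h.Vy hy y1 ym rV)).symm this) (inv_mem rV)

theorem Ra (hb : b ∈ V4 t v) (hn : ¬ V4 t v ≤ LL t L (w * b)) (g1 : g * y = y * g)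
    (g2 : g * (w * b) = w * b * g) (g3 : g * g = 1) : g ∈ V4 t v := by
  have k := h.kp_tv
  have ie := h.wb_iv hy y1 ym hb
  by_cases sL : t ∈ LL t L (w * b)
  · exact h.Ra_core hy y1 ym hb k rfl sL (fun e => hn (closure_pair_le sL e)) g1 g2 g3
  by_cases wL : v ∈ LL t L (w * b)
  · exact h.Ra_core hy y1 ym hb k.symm (V_symm _ _) wL sL g1 g2 g3
  · have := mul_mem ((h.LL_ex ie (h.wb_V hb (V_left _ _)) k.ss).resolve_left sL)
      ((h.LL_ex ie (h.wb_V hb (V_right _ _)) k.ww).resolve_left wL)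
    rw [← h.wb_V hb (V_left _ _), mul_assoc, ie.sl] at this
    exact h.Ra_core hy y1 ym hb k.mul.symm ((V_symm _ _).trans (V_mul k)) this sL g1 g2 g3

theorem Ra' (hb : b ∈ V4 t v) (hL : V4 t v ≤ LL t L (w * b)) (ha : a ∈ V4 t v) (a1 : a ≠ 1)
    (g1 : g * y = y * g) (g2 : g * (w * b * a) = w * b * a * g) (g3 : g * g = 1) : g ∈ V4 t v := by
  have ie := h.wb_iv hy y1 ym hb
  have k : KP (w * b) a := ⟨ie.ss, V_sq h.kp_tv ha, ie.ne, a1, fun e => h.LL_nm ie (e ▸ hL ha),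
    h.wb_V hb ha⟩
  rw [mul_assoc w] at g2
  refine h.Ra hy y1 ym (mul_mem hb ha) (fun e => ?_) g1 g2 g3
  rw [← mul_assoc] at e
  exact h.LL_nm k.mul.symm.iv (mul_mem (h.arc_last k (hL ha)) (e ha))

omit hy y1 ym in
theorem exists_t' : ∃ b ∈ V4 t v, V4 t v ≤ LL t L (w * b) := by
  have : Fact (Nat.Prime 2) := ⟨Nat.prime_two⟩
  have k := h.kp_tv
  obtain ⟨g, e⟩ := h.V_conj k
  obtain ⟨c, -, hc, e1⟩ := h.sylA.burnside (A := V4 v w) (mem_top g) (h.abA.le_norm le_sup_right)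
    (e ▸ h.abA.le_norm (closure_pair_le WU.tA WU.vA))
  rw [e] at e1
  have e2 : V4 t v ≤ LL t L (c * t * c⁻¹) := by rw [h.LL_conj, ← e1]; exact cj_mono c h.VL
  have e3 := fun e => h.LL_nm (h.iv.conj c) (e2 e)
  obtain ⟨b, hb, e4⟩ := h.memA.1 (conj_mem_of_norm hc WU.tA)
  have tV := V_left t v
  have vV := V_right t v
  rcases (memV h.kp).1 hb with rfl | rfl | rfl | rfl <;> rcases e4 with e4 | e4 <;> rw [e4] at e2 e3
  exacts [(e3 (one_mem _)).elim, (e3 (mul_mem tV (one_mem _))).elim, (e3 vV).elim,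
    (e3 (mul_mem tV vV)).elim, ⟨1, one_mem _, (mul_one b).symm ▸ e2⟩, ⟨t, tV, (h.cmL h.wL).symm ▸ e2⟩,
    ⟨v, vV, h.kp.comm.symm ▸ e2⟩, ⟨t * v, mul_mem tV vV, by
      rwa [← mul_assoc, h.cmL h.wL, mul_assoc, h.kp.comm]⟩]

theorem rl (j2 : j * j = 1) (e : j * y = y * j) : j ∈ V4 t v := by
  have : Fact (Nat.Prime 2) := ⟨Nat.prime_two⟩
  have k := h.kp_tv
  have tV := V_left t v
  obtain ⟨b, hb, hL⟩ := h.exists_t'
  have ie := h.wb_iv hy y1 ym hb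
  have i2 := h.wb_iv hy y1 ym (mul_mem hb tV)
  have i3 := h.wb_inv hy y1 ym (mul_mem hb tV)
  rw [← mul_assoc] at i2 i3
  have c : j * (w * b) = w * b * j := by
    obtain ⟨i, hi, e1⟩ := h.two.exists_odd (j * (w * b * t))
    obtain ⟨z1, z2⟩ := dih_cent j2 i2.ss e1
    have z3 := inverts_odd_pow (show j * (w * b * t) * y * (j * (w * b * t))⁻¹ = y⁻¹ by
      rw [show j * (w * b * t) * y * (j * (w * b * t))⁻¹ = j * (w * b * t * y * (w * b * t)⁻¹) * j⁻¹ by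
        group, i3, (Commute.inv_right (e : Commute j y)).eq, mul_inv_cancel_right]) hi
    generalize (j * (w * b * t)) ^ i = z at e1 z1 z2 z3
    have hv := mul_mem tV (h.Ra' hy y1 ym hb hL tV k.s1 (g := w * b * t * z) (cm_of_conj (by
      rw [show w * b * t * z * y * (w * b * t * z)⁻¹ = w * b * t * (z * y * z⁻¹) * (w * b * t)⁻¹ by
        group, z3, inverts_inv i3])) (by rw [mul_assoc (w * b * t), ← z2]) (by
      rw [mul_assoc (w * b * t), ← mul_assoc z, ← z2, mul_assoc (w * b * t), e1, mul_one, i2.ss]))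
    have ez : z = w * b * (t * (w * b * t * z)) := by rw [← mul_assoc (w * b), ← mul_assoc, i2.ss, one_mul]
    generalize t * (w * b * t * z) = a at hv ez
    subst ez
    by_cases a1 : a = 1
    · simpa [a1] using z1
    · exact h.wb_V hb (h.Ra' hy y1 ym hb hL hv a1 e z1 j2)
  have VX : V4 t v ≤ 𝒞₁ y := fun a ha => mem_c1.2 (h.Vy hy y1 ym ha).symm
  obtain ⟨d, hd, e1⟩ := (h.two.sylV (X := 𝒞₁ y ⊓ 𝒞₁ (w * b)) k ⟨VX tV, mem_c1.2 (h.wb_V hb tV)⟩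
    ⟨VX (V_right _ _), mem_c1.2 (h.wb_V hb (V_right _ _))⟩ fun g hg g1 _ g2 =>
      (h.D0 hy y1 ym (mem_c1.1 hg.1) g1).2 g2).exists_conj_mem ⟨mem_c1.2 e, mem_c1.2 c⟩
      ⟨1, by rw [pow_one, sq, j2]⟩
  exact v4_normal h.two k (Z := 𝒞₁ y ⊓ LL t L (w * b)) (le_inf VX hL)
    (fun a ha a1 g hg g1 => h.cA' hy y1 ym hb ha a1 (mem_c1.1 hg.1) g1 hg.2)
    (fun c hc i hi => h.LL_nr ie hc.2 hi.2) ⟨mem_c1.2 e, by
      simpa [mul_assoc] using conj_mem_of_norm' (h.LL_nL ie (mem_c1.1 hd.2)) (hL e1)⟩ j2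

end

end W3

theorem taskRL : TaskRL := fun _ _ _ _ _ _ _ _ _ _ _ _ _ _ _ _ h _ _ hy y1 ym _ hs e =>
  ((memV h.kp_tv).1 (h.rl hy y1 ym hs.ss e)).resolve_left hs.ne

end Cfsg.GW2
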