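import Cfsg.Agent.GS.W0
import Cfsg.Agent.GW.W2

/-! The structure of `E`: field automorphisms. -/

set_option autoImplicit false
set_option linter.unusedSectionVars false

namespace Cfsg.GW2.Sx

open Subgroup Cfsg.L0 Cfsg.H8 Cfsg.FT Cfsg.GJ Cfsg.H3 Cfsg.GW Cfsg.GW.Px Matrix
open scoped MatrixGroups

variable {F : Type} [Field F] [Fintype F]

theorem galois (Γ : Subgroup (F ≃+* F)) : ∃ K : Subfield F, (∀ c, c ∈ K ↔ ∀ γ ∈ Γ, γ c = c) ∧
    Nat.card K ^ ♯Γ = Fintype.card F ∧ (∀ ρ : F ≃+* F, (∀ c ∈ K, ρ c = c) → ρ ∈ Γ) ∧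
    ∃ γ, zpowers γ = Γ ∧ ∀ c, γ c = c ^ Nat.card K := by
  classical
  have : Finite (F ≃+* F) := Finite.of_injective (fun f : F ≃+* F => (f : F → F)) DFunLike.coe_injective
  have := Fintype.ofFinite Γ
  have := Fintype.ofFinite (FixedPoints.subfield Γ F)
  have b := FixedPoints.toAlgAut_bijective Γ F
  refine ⟨FixedPoints.subfield Γ F, fun c => ⟨fun h γ hγ => h ⟨γ, hγ⟩, fun h γ => h γ γ.2⟩, ?_,
    fun ρ h => ?_, ?_⟩
  · rw [Module.card_eq_pow_finrank (K := FixedPoints.subfield Γ F) (V := F),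
      FixedPoints.finrank_eq_card, ← Nat.card_eq_fintype_card, ← Nat.card_eq_fintype_card]
  · obtain ⟨γ, e⟩ := b.2 (AlgEquiv.ofRingEquiv (f := ρ) fun c => h c c.2)
    rw [show ρ = γ from RingEquiv.ext fun c => (DFunLike.congr_fun e c).symm]
    exact γ.2
  · obtain ⟨γ, e⟩ := b.2 (FiniteField.frobeniusAlgEquivOfAlgebraic (FixedPoints.subfield Γ F) F)
    refine ⟨γ, eq_of_card_le (zpowers_le.2 γ.2) (le_of_eq ?_), fun c => ?_⟩
    · rw [card_zpow, Subgroup.orderOf_coe, ← orderOf_injective _ b.1, e,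
        FiniteField.orderOf_frobeniusAlgEquivOfAlgebraic, FixedPoints.finrank_eq_card,
        Nat.card_eq_fintype_card]
    · rw [Nat.card_eq_fintype_card]; exact DFunLike.congr_fun e c

theorem fix_of_odd {ρ : F ≃+* F} (o : Odd (orderOf ρ)) {c : F}
    (h : ρ c = c ∨ ρ c = -c) : ρ c = c := by
  refine h.elim id fun h => ?_
  have k : ∀ i, (ρ ^ i) c = (-1) ^ i * c := fun i => by
    induction i with
    | zero => simp
    | succ i ih => rw [pow_succ', RingAut.mul_apply, ih, map_mul, h]; simp [pow_succ]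
  have := k (orderOf ρ)
  rw [pow_orderOf_eq_one, o.neg_one_pow, RingAut.one_apply] at this
  rw [h]
  linear_combination -this

theorem sq_mul (ρ : F ≃+* F) {d : F} (d0 : d ≠ 0) : IsSquare (d * ρ d) := by
  classical
  by_cases h : IsSquare d
  · exact h.mul (h.map ρ)
  have h' : ¬ IsSquare (ρ d) := fun e => h (by simpa using e.map ρ.symm)
  refine (quadraticChar_one_iff_isSquare (mul_ne_zero d0 ((map_ne_zero ρ).2 d0))).1 ?_
  rw [map_mul, quadraticChar_neg_one_iff_not_isSquare.2 h, quadraticChar_neg_one_iff_not_isSquare.2 h']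
  norm_num

/-- the field automorphism -/
abbrev mp (ρ : F ≃+* F) : SL(2, F) →* SL(2, F) := SpecialLinearGroup.map (ρ : F →+* F)

theorem mp_apply (ρ : F ≃+* F) (a : SL(2, F)) (i j : Fin 2) : mp ρ a i j = ρ (a i j) := rfl

theorem tr_mp (ρ : F ≃+* F) (a : SL(2, F)) : tr (mp ρ a) = ρ (tr a) := by simp [tr]

theorem mp_U (ρ : F ≃+* F) (c : F) : mp ρ (U c) = U (ρ c) := SL2_ext (by simp [U_coe])

theorem mp_dg (ρ : F ≃+* F) (c : Fˣ) : mp ρ (dgSL c) = dgSL (Units.map (ρ : F →* F) c) :=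
  SL2_ext (by simp [dgSL, mkSL_coe])

variable {G : Type} [Group G] [Finite G] {φ : SL(2, F) →* G} {t g u : G} {E L V : Subgroup G} {q : ℕ}
  {ρ σ : F ≃+* F} {a b i j : SL(2, F)}

/-- `g` acts as the field automorphism `ρ` -/
def Act (φ : SL(2, F) →* G) (g : G) (ρ : F ≃+* F) : Prop := ∀ a, g * φ a * g⁻¹ = φ (mp ρ a)

theorem Act.mul (h : Act φ g ρ) (h' : Act φ u σ) : Act φ (g * u) (ρ * σ) := fun a => by
  rw [show mp (ρ * σ) a = mp ρ (mp σ a) from rfl, ← h, ← h']; group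

theorem Act.inv (h : Act φ g ρ) : Act φ g⁻¹ ρ⁻¹ := fun a => by
  have := h (mp ρ⁻¹ a)
  rw [show mp ρ (mp ρ⁻¹ a) = a from SL2_ext (by simp [mp_apply])] at this
  rw [← this]; group

theorem Act.uniq (c : Cov φ L) (h : Act φ g ρ) (h' : Act φ g σ) : ρ = σ := RingEquiv.ext fun x =>
  mk_U_injective ((c.eq _ _).1 (by rw [← mp_U, ← mp_U, ← h, h']))

theorem Act.cm (h : Act φ g ρ) (e : mp ρ a = a) : g * φ a = φ a * g := by
  rw [← mul_inv_eq_iff_eq_mul, h, e]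

/-- the elements inducing field automorphisms -/
def UU (φ : SL(2, F) →* G) (E : Subgroup G) : Subgroup G where
  carrier := {g | g ∈ E ∧ ∃ ρ, Act φ g ρ}
  one_mem' := ⟨one_mem _, 1, fun a => by simpa using congrArg φ (SL2_ext (by simp [mp_apply]))⟩
  mul_mem' := fun ⟨a, _, e⟩ ⟨b, _, f⟩ => ⟨mul_mem a b, _, e.mul f⟩
  inv_mem' := fun ⟨a, _, e⟩ => ⟨inv_mem a, _, e.inv⟩

/-- the action on the field -/
noncomputable def rr (c : Cov φ L) (E : Subgroup G) : UU φ E →* (F ≃+* F) :=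
  MonoidHom.mk' (fun u => u.2.2.choose) fun a b =>
    (a * b).2.2.choose_spec.uniq c (a.2.2.choose_spec.mul b.2.2.choose_spec)

theorem rr_act (c : Cov φ L) (u : UU φ E) : Act φ u (rr c E u) := u.2.2.choose_spec

theorem cV (c : Cov φ L) (p : IsPair i j) (h1 : φ a * φ i = φ i * φ a) (h2 : φ a * φ j = φ j * φ a) :
    φ a ∈ GJ.V4 (φ i) (φ j) := by
  have key : ∀ a, a * i = i * a → a * j = j * a → φ a = 1 := fun a e1 e2 => c.one.2 (by
    by_contra n
    have := comm_of_comm_SL2 n e1 e2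
    rw [p.anti, ← one_mul (i * j), ← neg_mul, mul_left_inj] at this
    exact neg_one_ne_one_SL2 c.two this.symm)
  have ij : i * j = -(j * i) := by rw [p.anti, neg_neg]
  rw [← map_mul, ← map_mul, c.eq'] at h1 h2
  have f : ∀ b, φ b ∈ GJ.V4 (φ i) (φ j) → φ (a * b) = 1 → φ a ∈ GJ.V4 (φ i) (φ j) := fun b hb e => by
    rw [map_mul, mul_eq_one_iff_eq_inv] at e
    exact e ▸ inv_mem hb
  rcases h1 with h1 | h1 <;> rcases h2 with h2 | h2
  · exact key a h1 h2 ▸ one_mem _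
  · exact f i (V_left _ _) (key _ (by rw [h1, mul_assoc, h1]) (by
      rw [mul_assoc, ij, mul_neg, ← mul_assoc, h2, neg_mul, neg_neg, mul_assoc]))
  · exact f j (V_right _ _) (key _ (by
      rw [mul_assoc, p.anti, mul_neg, ← mul_assoc, h1, neg_mul, neg_neg, mul_assoc])
      (by rw [h2, mul_assoc, h2]))
  · refine f (i * j) (map_mul φ _ _ ▸ mul_mem (V_left _ _) (V_right _ _)) (key _ ?_ ?_)
    · rw [mul_assoc, mul_assoc i, p.anti, mul_neg, mul_neg, ← mul_assoc, h1]; simp [mul_assoc]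
    · calc _ = -(a * j * (i * j)) := by nth_rewrite 1 [ij]; simp [mul_assoc]
        _ = _ := by rw [h2]; simp [mul_assoc]

theorem di (c : Cov φ L) (p : IsPair i j) (h1 : φ a * φ i = φ i * φ a) (o : Odd (orderOf (φ a))) :
    φ j * φ a * φ j = (φ a)⁻¹ := by
  rw [← map_mul, ← map_mul, c.eq'] at h1
  refine h1.elim (c.inv p) fun e => ?_
  rw [eq_one_of_odd o (c.sq (Wx.tr_anti c.two (a := i) (by rw [e, neg_neg]))), mul_one, inv_one]
  exact c.sq (p.symm c.two).tr0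

theorem kp (c : Cov φ L) (p : IsPair i j) : KP (φ i) (φ j) :=
  ⟨c.sq p.tr0, c.sq (p.symm c.two).tr0, fun e => p.mk_ne_one c.two (mk_eq_one_SL2.2 (c.one.1 e)),
    fun e => (p.symm c.two).mk_ne_one c.two (mk_eq_one_SL2.2 (c.one.1 e)),
    fun e => p.mk_ne c.two ((c.eq _ _).1 e).symm, by rw [← map_mul, p.anti, c.neg, map_mul]⟩

/-- the basic situation -/
structure SS (φ : SL(2, F) →* G) (E L : Subgroup G) : Prop extends Cov φ L where
  LE : L ≤ E
  nm : E ≤ 𝒩 L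
  cl : ∀ g ∈ E, g ∈ 𝒞 L → g = 1
  oi : Odd (L.relIndex E)
  aut : ∀ g ∈ E, ∃ (M : GL (Fin 2) F) (ρ : F →+* F), ∀ a,
    g * φ a * g⁻¹ = φ (conjSL M (SpecialLinearGroup.map ρ a))
  psl : ∃ f : PSL(2, F) →* G, Function.Injective f ∧ ∀ a : SL(2, F), f a = φ a

namespace SS

variable (h : SS φ E L)
include h

theorem inj : Function.Injective (rr h.toCov E) := (injective_iff_map_eq_one _).2 fun u e =>
  Subtype.ext (h.cl u u.2.1 (mem_cent.2 fun k hk => by
    obtain ⟨a, rfl⟩ := (h.mem k).1 hk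
    exact ((rr_act h.toCov u).cm (by rw [e]; exact SL2_ext (by simp [mp_apply]))).symm))

theorem UN : UU φ E ≤ 𝒩 L := fun _ hu => h.nm hu.1

theorem dec (hg : g ∈ E) : ∃ k ∈ L, ∃ u ∈ UU φ E, g = k * u := by
  suffices g ∈ L ⊔ UU φ E by
    obtain ⟨k, hk, u, hu, e⟩ := (mem_sup_l h.UN).1 this
    exact ⟨k, hk, u, hu, e.symm⟩
  refine mem_of_pow_mem (Nat.coprime_two_left.2 h.oi) ?_ (mem_sup_left (pow_relIndex_mem h.nm hg))
  obtain ⟨M, ρ, e⟩ := h.aut g hg
  let σ : F ≃+* F := RingEquiv.ofBijective ρ (Finite.injective_iff_bijective.1 ρ.injective)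
  obtain ⟨s, hs⟩ := exists_inner_of_isSquare (T := M * GeneralLinearGroup.map ρ M) (by
    rw [Units.val_mul, det_mul]
    convert sq_mul σ M.det_ne_zero
    exact (RingHom.map_det ρ M.1).symm)
  rw [← mul_inv_cancel_left (φ s) (g ^ 2)]
  refine mul_mem (mem_sup_left (h.memE s)) (mem_sup_right ⟨mul_mem (inv_mem (h.LE (h.memE s)))
    (pow_mem hg 2), σ * σ, fun a => ?_⟩)
  calc _ = (φ s)⁻¹ * (g * (g * φ a * g⁻¹) * g⁻¹) * φ s := by rw [sq]; group
    _ = _ := by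
      rw [e, e, Wx.map_conj, ← conjSL_mul, hs, map_mul, map_mul, map_inv]
      simp only [mul_assoc, inv_mul_cancel_left, inv_mul_cancel, mul_one]
      rfl

theorem dis (hu : u ∈ UU φ E) (hL : u ∈ L) : u = 1 := by
  obtain ⟨b, rfl⟩ := (h.mem u).1 hL
  refine congrArg Subtype.val ((injective_iff_map_eq_one _).1 h.inj ⟨_, hu⟩ (RingEquiv.ext
    (ring_id h.two (σ := (rr h.toCov E ⟨_, hu⟩ : F →+* F)) fun c => ?_)))
  have := rr_act h.toCov ⟨_, hu⟩ (comp c)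
  rw [← map_inv, ← map_mul, ← map_mul, eq_comm, h.eq'] at this
  simpa [tr_mp, tr_conj, tr_neg, tr_comp] using this.imp (congrArg tr) (congrArg tr)

theorem oU : Odd ♯(UU φ E) := by
  have e : E = L ⊔ UU φ E := le_antisymm (fun g hg => by
    obtain ⟨k, hk, u, hu, rfl⟩ := h.dec hg
    exact mul_mem (mem_sup_left hk) (mem_sup_right hu)) (sup_le h.LE fun u hu => hu.1)
  rw [← ri_eq_of_sd h.UN (eq_bot_iff.2 fun u hu => h.dis hu.2 hu.1), ← e]
  exact h.oi

theorem o_rr (u : UU φ E) : Odd (orderOf (rr h.toCov E u)) :=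
  h.oU.of_dvd_nat ((orderOf_map_dvd _ u).trans (orderOf_dvd_natCard u))

theorem fixed (hV : V ≤ UU φ E) : ∃ K : Subfield F, Nat.card K ^ ♯V = Fintype.card F ∧
    (∀ a, φ a ∈ 𝒞 V ↔ ∀ i j, a i j ∈ K) ∧
    (∀ u : UU φ E, (∀ c ∈ K, rr h.toCov E u c = c) → (u : G) ∈ V) ∧
    ∃ u, zpowers u = V ∧ ∀ c, u * φ (dgSL c) * u⁻¹ = φ (dgSL c) ^ Nat.card K := by
  obtain ⟨K, k1, k2, k3, γ, k4, k5⟩ := galois ((V.subgroupOf (UU φ E)).map (rr h.toCov E))
  rw [card_map_of_injective h.inj, Nat.card_congr (subgroupOfEquivOfLe hV).toEquiv] at k2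
  refine ⟨K, k2, fun a => ⟨fun e i j => (k1 _).2 ?_, fun e => mem_cent.2 fun u hu => ?_⟩,
    fun u e => (mem_map_iff_mem h.inj).1 (k3 _ e), ?_⟩
  · rintro _ ⟨u, hu, rfl⟩
    have := rr_act h.toCov u a
    rw [mem_cent.1 e u hu, mul_inv_cancel_right, eq_comm, h.eq'] at this
    exact fix_of_odd (h.o_rr u) (this.imp (fun e => congrArg (fun a : SL(2, F) => a i j) e)
      fun e => by simpa using congrArg (fun a : SL(2, F) => a i j) e)
  · refine (rr_act h.toCov ⟨u, hV hu⟩).cm ?_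
    ext i j
    exact (k1 _).1 (e i j) _ (mem_map_of_mem _ hu)
  · obtain ⟨u, hu, rfl⟩ := k4.le (mem_zpowers γ)
    refine ⟨u, ?_, fun c => ?_⟩
    · rw [← MonoidHom.map_zpowers] at k4
      rw [← map_subgroupOf_eq_of_le hV, ← map_injective h.inj k4, MonoidHom.map_zpowers]; rfl
    · obtain ⟨f, -, e⟩ := h.psl
      rw [rr_act h.toCov, mp_dg, show Units.map (rr h.toCov E u : F →* F) c = c ^ Nat.card K from
        Units.ext (by simpa using k5 c), ← e, ← e, ← map_pow]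
      exact congrArg f (map_pow (dHom F) c _)

theorem cyc : IsCyclic (UU φ E) := by
  obtain ⟨K, -, -, -, u, e, -⟩ := h.fixed le_rfl
  rw [← e]; infer_instance

theorem sub (K : Subfield F) (hK : ∀ a, φ a ∈ 𝒞 V ↔ ∀ i j, a i j ∈ K) :
    ∃ ψ : PSL(2, K) →* G, Function.Injective ψ ∧ ψ.range = L ⊓ 𝒞 V ∧
      ∀ a : SL(2, K), ψ a = φ (SpecialLinearGroup.map K.subtype a) := by
  obtain ⟨f, f1, f2⟩ := h.psl
  have e : ∀ a : SL(2, K), f.comp (pslMap K.subtype) a = φ (SpecialLinearGroup.map K.subtype a) :=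
    fun a => by rw [MonoidHom.comp_apply, pslMap_mk, f2]
  refine ⟨f.comp (pslMap K.subtype), f1.comp (pslMap_injective _), le_antisymm ?_ fun k hk => ?_, e⟩
  · rintro _ ⟨a, rfl⟩
    obtain ⟨a, rfl⟩ := QuotientGroup.mk_surjective a
    rw [e]
    exact ⟨h.memE _, (hK _).2 fun i j => (a i j).2⟩
  · obtain ⟨a, rfl⟩ := (h.mem k).1 hk.1
    let b : SL(2, K) := ⟨Matrix.of fun i j => ⟨a i j, (hK a).1 hk.2 i j⟩, K.subtype.injective (by
      rw [RingHom.map_det, map_one]; exact a.2)⟩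
    exact ⟨b, e b⟩

end SS

end Cfsg.GW2.Sx
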