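import Cfsg.Agent.GS.WS1

/-! The structures `WU` and `W3`. -/

set_option autoImplicit false
set_option linter.unusedSectionVars false

namespace Cfsg.GW2.Sx

open Subgroup Cfsg.L0 Cfsg.H8 Cfsg.FT Cfsg.GJ Cfsg.H3 Cfsg.GW Cfsg.GW.Px Matrix
open scoped MatrixGroups

variable {F : Type} [Field F] [Fintype F]
variable {G : Type} [Group G] [Finite G] {φ : SL(2, F) →* G} {t g u : G} {E L V : Subgroup G} {q : ℕ}
  {a b : F}

/-- a quaternion unit -/
def qi (h : a ^ 2 + b ^ 2 = -1) : SL(2, F) := mkSL a b b (-a) (by linear_combination -h)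

/-- `(1 + i + j + k)/2` -/
def qo (h2 : (2 : F) ≠ 0) (h : a ^ 2 + b ^ 2 = -1) : SL(2, F) :=
  mkSL ((1 + a - b) / 2) ((b + 1 + a) / 2) ((b - 1 + a) / 2) ((1 - a + b) / 2) (by
    field_simp; linear_combination -2 * h)

theorem q_pair (h : a ^ 2 + b ^ 2 = -1) : IsPair (qi h) wSL :=
  ⟨by simp [tr, qi, mkSL_coe], SL2_ext (by simp [qi, wSL, mkSL_coe])⟩

theorem qo_i (h2 : (2 : F) ≠ 0) (h : a ^ 2 + b ^ 2 = -1) : qo h2 h * qi h = wSL * qo h2 h := by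
  refine SL2_ext ?_
  simp [qi, qo, wSL, mkSL_coe]
  field_simp
  refine ⟨?_, ?_, ?_, ?_⟩ <;> first | linear_combination h | linear_combination -h

theorem qo_j (h2 : (2 : F) ≠ 0) (h : a ^ 2 + b ^ 2 = -1) :
    qo h2 h * wSL = qi h * wSL * qo h2 h := by
  refine SL2_ext ?_
  simp [qi, qo, wSL, mkSL_coe]
  field_simp
  refine ⟨?_, ?_, ?_, ?_⟩ <;> first | linear_combination h | linear_combination -h

theorem qo_3 (h2 : (2 : F) ≠ 0) (h : a ^ 2 + b ^ 2 = -1) : qo h2 h ^ 3 = -1 := by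
  have e : tr (qo h2 h) = 1 := by simp [tr, qo, mkSL_coe]; field_simp; ring
  apply Subtype.ext
  rw [coe_pow_three, e]
  simp

theorem wu_of (w : WH t E L q) (h : SS φ E L) (hq : Fintype.card F = q) (hL : Nat.card PSL(2, F) = ♯L)
    (ab : a ^ 2 + b ^ 2 = -1) (ha : ∀ K : Subfield F, a ∈ K) (hb : ∀ K : Subfield F, b ∈ K) :
    WU t E L (UU φ E) (φ (qi ab)) (φ wSL) (φ (qo h.two ab)) q := by
  have p := q_pair ab
  have k := kp h.toCov p
  have xv : φ (qo h.two ab) * φ (qi ab) * (φ (qo h.two ab))⁻¹ = φ wSL := by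
    rw [← map_mul, qo_i, map_mul, mul_inv_cancel_right]
  have xw : φ (qo h.two ab) * φ wSL * (φ (qo h.two ab))⁻¹ = φ (qi ab) * φ wSL := by
    rw [← map_mul, qo_j, map_mul, map_mul, mul_inv_cancel_right]
  obtain ⟨K, -, k1, -⟩ := h.fixed le_rfl
  have vU : φ (qi ab) ∈ 𝒞 (UU φ E) := (k1 _).2 fun i j => by
    fin_cases i <;> fin_cases j <;> simp [qi, mkSL_coe, ha, hb]
  have wU : φ wSL ∈ 𝒞 (UU φ E) := (k1 _).2 fun i j => by
    fin_cases i <;> fin_cases j <;> simp [wSL, mkSL_coe]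
  have xU : φ (qo h.two ab) ∈ 𝒞 (UU φ E) := (k1 _).2 fun i j => by
    have := ha K; have := hb K
    fin_cases i <;> fin_cases j <;> simp only [qo, mkSL_coe] <;>
      exact div_mem (by simp only [add_mem, sub_mem, one_mem, *]) (ofNat_mem K 2)
  have cV' : ∀ k ∈ L, k * φ (qi ab) = φ (qi ab) * k → k * φ wSL = φ wSL * k →
      k ∈ GJ.V4 (φ (qi ab)) (φ wSL) := fun k hk e1 e2 => by
    obtain ⟨a, rfl⟩ := (h.mem k).1 hk
    exact cV h.toCov p e1 e2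
  refine ⟨w, fun u hu => hu.1, fun g hg => h.dec hg, fun u => h.dis, h.cyc, h.oU, k, h.memE _, h.memE _,
    h.memE _, by rw [← map_pow, qo_3, h.neg, map_one], xv, xw, vU, wU, xU, ?_, cV', fun k hk e o => ?_,
    fun U1 hU => ?_⟩
  · have e1 := card_PSL2_mul (F := F)
    rwa [gcd_two_of_two_ne_zero h.two, hq, hL, mul_comm] at e1
  · obtain ⟨a, rfl⟩ := (h.mem k).1 hk
    exact di h.toCov p e o
  obtain ⟨K, c1, c2, c3, -⟩ := h.fixed hU
  obtain ⟨ψ, i1, i2, i3⟩ := h.sub K c2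
  have := Fintype.ofFinite K
  refine ⟨fun g hg e1 e2 => ?_, K, inferInstance, this, by rw [← Nat.card_eq_fintype_card, c1, hq],
    ⟨(MulEquiv.subgroupCongr i2).symm.trans (MonoidHom.ofInjective i1).symm⟩⟩
  obtain ⟨l, hl, u, hu, rfl⟩ := h.dec hg
  have uU : u ∈ U1 := c3 ⟨u, hu⟩ fun c hc => by
    obtain ⟨b, rfl⟩ := (h.mem l).1 hl
    have e3 := mem_cent.1 e2 _ (i2.le ⟨(comp (⟨c, hc⟩ : K) : SL(2, K)), rfl⟩)
    rw [i3, show SpecialLinearGroup.map K.subtype (comp (⟨c, hc⟩ : K)) = comp c from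
      SL2_ext (by simp [H3.comp, mkSL_coe]), eq_comm, ← mul_inv_eq_iff_eq_mul,
      show φ b * u * φ (comp c) * (φ b * u)⁻¹ = φ b * (u * φ (comp c) * u⁻¹) * (φ b)⁻¹ by group,
      rr_act h.toCov ⟨u, hu⟩, ← map_inv, ← map_mul, ← map_mul, h.eq'] at e3
    exact fix_of_odd (h.o_rr _) (by
      simpa [tr_mp, tr_conj, tr_neg, tr_comp] using e3.imp (congrArg tr) (congrArg tr))
  have cm : ∀ y ∈ L, y ∈ 𝒞 (UU φ E) → l * y = y * l := fun y hy e => by
    have := mem_cent.1 e2 y ⟨hy, cent_anti hU e⟩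
    rwa [mul_assoc, mem_cent.1 e u hu, ← mul_assoc, ← mul_assoc, mul_left_inj, eq_comm] at this
  have e3 := cm _ (h.memE _) xU
  rw [eq_comm, ← mul_inv_eq_iff_eq_mul] at e3
  rcases (memV k).1 (cV' l hl (cm _ (h.memE _) vU) (cm _ (h.memE _) wU)) with rfl | rfl | rfl | rfl
  · rwa [one_mul]
  · exact absurd (xv.symm.trans e3) k.ne
  · exact absurd (xw.symm.trans e3) (by simpa using k.s1)
  · rw [← xw, mul_left_inj, mul_right_inj] at e3
    exact absurd (e3.symm.trans xw) (by simpa using k.s1)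

theorem tor_of {T W : Subgroup G} {w u : G} {n : ℕ} (ks : KS L V T w q) (t : Tor L W u n) (c : ♯T = n) :
    Tor L T w n := by
  have cyc := ks.cyc
  refine ⟨ks.DK, ks.uK, c, cyc, ks.uu, fun e => ks.nu (mem_sup_right e), ks.inv,
    fun k hk d hd => ks.conjDD hk hd, fun k hk e => ?_⟩
  obtain ⟨g, hg, e1⟩ := Cyc.exists_zpowers cyc
  obtain ⟨y, hy, e2⟩ := t.cnj g (ks.DK hg) (c ▸ pwc' hg)
  obtain ⟨z, hz, e3⟩ := t.cnj k hk e
  rw [← eq_of_card_le (zpowers_le.2 e2) (by rw [t.card, ← cj_zpowers', card_cj, e1, c]),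
    ← cj_zpowers', e1, mem_cj] at e3
  exact ⟨y⁻¹ * z, mul_mem (inv_mem hy) hz, by convert e3 using 1; group⟩
where pwc' {X : Subgroup G} {x : G} (hx : x ∈ X) : x ^ ♯X = 1 :=
  orderOf_dvd_iff_pow_eq_one.1 (X.orderOf_dvd_natCard hx)

theorem w3_of (w : WH t E L q) (h : SS φ E L) (hq : Fintype.card F = q) (hL : Nat.card PSL(2, F) = ♯L)
    (h3 : 3 ∣ q) (q3 : 3 < q) : ∃ U P T Y v w x n m, W3 t E L U P T Y v w x q n m := by
  have : Fact (Nat.Prime 3) := ⟨Nat.prime_three⟩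
  obtain ⟨p, hp⟩ := CharP.exists F
  obtain ⟨k, pp, hk⟩ := FiniteField.card F p
  obtain rfl : 3 = p := (Nat.prime_dvd_prime_iff_eq Nat.prime_three pp).1
    (Nat.prime_three.dvd_of_dvd_pow (hk ▸ hq ▸ h3))
  have three : (3 : F) = 0 := by exact_mod_cast CharP.cast_eq_zero F 3
  have q8 := w.q8
  obtain ⟨j, e1 | e1⟩ := Nat.even_or_odd' (k : ℕ)
  · have : q % 8 = 1 := by rw [← hq, hk, e1, pow_mul, Nat.pow_mod]; simp
    omega
  have j1 : 1 ≤ j := by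
    rcases j with _ | j
    · rw [← hq, hk, e1] at q3; simp at q3
    · omega
  have ab : (-1 : F) ^ 2 + (-1) ^ 2 = -1 := by linear_combination three
  have u := wu_of w h hq hL ab (fun K => neg_mem (one_mem K)) fun K => neg_mem (one_mem K)
  obtain ⟨f, f1, f2⟩ := h.psl
  have fL : (⊤ : Subgroup PSL(2, F)).map f = L := Subgroup.ext fun k => by
    rw [h.mem]
    exact ⟨by
      rintro ⟨a, -, rfl⟩
      obtain ⟨a, rfl⟩ := QuotientGroup.mk_surjective a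
      exact ⟨a, (f2 a).symm⟩, by rintro ⟨a, rfl⟩; exact ⟨a, mem_top _, f2 a⟩⟩
  have ks := (ks_psl j1 (e1 ▸ hk)).map f f1
  rw [fL, f2, hq] at ks
  have mP : ∀ k, k ∈ (H3.uHom F).range.map f ↔ ∃ c, φ (U c) = k := fun k =>
    ⟨by rintro ⟨_, ⟨c, rfl⟩, rfl⟩; exact ⟨_, (f2 _).symm⟩,
      by rintro ⟨c, rfl⟩; exact ⟨_, H3.mem_uHom_range.2 ⟨c, rfl⟩, f2 _⟩⟩
  have mT : ∀ k, k ∈ (dHom F).range.map f ↔ ∃ c, φ (dgSL c) = k := fun k =>
    ⟨by rintro ⟨_, ⟨c, rfl⟩, rfl⟩; exact ⟨_, (f2 _).symm⟩,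
      by rintro ⟨c, rfl⟩; exact ⟨_, ⟨c, rfl⟩, f2 _⟩⟩
  generalize (H3.uHom F).range.map f = P at ks mP
  generalize (dHom F).range.map f = T at ks mT
  have q27 := ks.q27
  have q83 := ks.q8
  have cD := ks.cD
  obtain ⟨W, y, t1⟩ := exists_tor 3 h.two (N := ♯T) (N' := (q + 1) / 2) (by omega) (by omega)
  obtain ⟨Y, z, t2⟩ := exists_tor 3 h.two (N := 2 * ((q + 1) / 4)) (N' := ♯T) (by omega) (by omega)
  replace t1 := fL ▸ t1.map f f1
  replace t2 := fL ▸ t2.map f f1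
  obtain ⟨Y, z, t2, vY⟩ := t2.exists_mem u.vL (by rw [pow_mul, sq, u.kp.ss, one_pow])
  have fx : ∀ y ∈ UU φ E, ∃ c, c ^ orderOf y = q ∧ ♯(P ⊓ 𝒞₁ y) = c ∧ 2 * ♯(T ⊓ 𝒞₁ y) + 1 = c := by
    intro y hy
    obtain ⟨K, c1, c2, -⟩ := h.fixed (zpowers_le.2 hy)
    obtain ⟨ψ, i1, -, i3⟩ := h.sub K c2
    have := Fintype.ofFinite K
    rw [cent_zpowers] at c2
    refine ⟨Nat.card K, by rw [← card_zpow, c1, hq], ?_, ?_⟩
    · rw [← H3.card_uHom_range (F := K), ← card_map_of_injective i1]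
      congr 3
      ext k
      constructor
      · rintro ⟨hk, e⟩
        obtain ⟨c, rfl⟩ := (mP k).1 hk
        exact ⟨_, H3.mem_uHom_range.2 ⟨⟨c, by simpa [U_coe] using (c2 _).1 e 0 1⟩, rfl⟩,
          (i3 _).trans (congrArg φ (SL2_ext (by simp [U_coe])))⟩
      · rintro ⟨_, ⟨c, rfl⟩, rfl⟩
        change ψ (U c.toAdd : SL(2, K)) ∈ _
        rw [i3]
        exact ⟨(mP _).2 ⟨c.toAdd, congrArg φ (SL2_ext (by simp [U_coe]))⟩, (c2 _).2 fun i j => Subtype.prop _⟩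
    · rw [Nat.card_eq_fintype_card (α := K), ← card_dHom (F := K) (fun e => h.two (by
        rw [← map_ofNat K.subtype 2, e, map_zero])), ← card_map_of_injective i1]
      congr 5
      ext k
      constructor
      · rintro ⟨hk, e⟩
        obtain ⟨c, rfl⟩ := (mT k).1 hk
        have : (c : F) ∈ K := by simpa [dgSL, mkSL_coe] using (c2 _).1 e 0 0
        exact ⟨_, ⟨Units.mk0 ⟨c, this⟩ (fun e => c.ne_zero (congrArg Subtype.val e)), rfl⟩,
          (i3 _).trans (congrArg φ (SL2_ext (by simp [dgSL, mkSL_coe])))⟩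
      · rintro ⟨_, ⟨c, rfl⟩, rfl⟩
        change ψ (dgSL c : SL(2, K)) ∈ _
        rw [i3]
        exact ⟨(mT _).2 ⟨Units.map (K.subtype : K →* F) c, congrArg φ (SL2_ext (by
          simp [dgSL, mkSL_coe]))⟩, (c2 _).2 fun i j => Subtype.prop _⟩
  refine ⟨_, P, T, Y, _, _, _, ♯T, (q + 1) / 4, u, ks, tor_of ks t1 rfl, t2.change ?_, vY, cD, by omega,
    fun k hk => ?_, fun k hk y hy k3 e => ?_, fun y hy => mem_normalizer_of_forall fun k hk => ?_,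
    fun y hy => mem_normalizer_of_forall fun k hk => ?_, ?_, fun y hy => ?_, fun y hy => ?_, ?_⟩
  · refine (t2.nrm' u.wL vY u.kp.s1 (by rwa [u.kp.comm, mul_inv_cancel_right])).resolve_left fun e => ?_
    exact (t2.eq_inv vY e u.kp.s1 u.kp.ss u.kp.ww).elim u.kp.w1 u.kp.ne
  · obtain ⟨a, -, rfl⟩ := fL.ge hk
    have := PSL2_order 3 a
    rw [gcd_two_of_two_ne_zero h.two, hq, show (q + 1) / 2 = 2 * ((q + 1) / 4) by omega,
      show (q - 1) / 2 = ♯T by omega] at this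
    simp only [← map_pow, map_eq_one_iff f f1]
    tauto
  · by_contra k1
    obtain ⟨c, hc, e1⟩ := ks.conj_R hk k3
    have e2 : (c * y * c⁻¹) * (c * k * c⁻¹) * (c * y * c⁻¹)⁻¹ = (c * k * c⁻¹)⁻¹ := by
      rw [show c * y * c⁻¹ * (c * k * c⁻¹) * (c * y * c⁻¹)⁻¹ = c * (y * k * y⁻¹) * c⁻¹ by group, e]; group
    have e3 := ks.conjR (inv_mem (mul_mem (mul_mem hc hy) (inv_mem hc))) e1 (by simpa using k1)
      (by rw [inv_inv, e2]; exact mem_sup_left (inv_mem e1))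
    exact k1 (by simpa using eq_one_of_odd_inverts (ks.B_odd (inv_mem_iff.1 e3)) (ks.R_odd e1) e2)
  · obtain ⟨c, rfl⟩ := (mP k).1 hk
    exact (mP _).2 ⟨_, by rw [rr_act h.toCov ⟨y, hy⟩, mp_U]⟩
  · obtain ⟨c, rfl⟩ := (mT k).1 hk
    exact (mT _).2 ⟨_, by rw [rr_act h.toCov ⟨y, hy⟩, mp_dg]⟩
  · refine (mP _).2 ⟨-1, h.eq'.2 (Or.inr (SL2_ext ?_))⟩
    have := h.two
    simp only [qo, mkSL_coe, U_coe, SpecialLinearGroup.coe_neg, Matrix.neg_apply, of_apply, cons_val', cons_val_zero,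
      cons_val_one, cons_val_fin_one]
    field_simp
    refine ⟨?_, ?_, ?_, ?_⟩ <;> first | linear_combination three | linear_combination -three
  · obtain ⟨c, c1, c2, -⟩ := fx y hy
    rw [c2, c1]
  · obtain ⟨c, -, c2, c3⟩ := fx y hy
    rw [c2, c3]
  · obtain ⟨K, c1, -, -, y, c2, c3⟩ := h.fixed le_rfl
    refine ⟨y, _, c2, c1.trans hq, fun d hd => ?_⟩
    obtain ⟨c, rfl⟩ := (mT d).1 hd
    exact c3 c

end Cfsg.GW2.Sx

namespace Cfsg.GW2

open Sx Cfsg.GW.Px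

theorem taskS : TaskS := by
  intro G _ _ t E L q w
  obtain ⟨F, _, _, hq, ⟨e⟩⟩ := w.iso
  have q8 := w.q8
  have h : SS (cov e) E L := ⟨cov_cov (two_ne (Nat.odd_iff.2 (by omega))) e, w.LE, w.nm, w.cl, w.oi,
    fun g hg => exists_aut e (w.nm hg), L.subtype.comp e.symm.toMonoidHom,
    L.subtype_injective.comp e.symm.injective, fun a => rfl⟩
  have hL := (Nat.card_congr e.toEquiv).symm
  refine ⟨?_, w3_of w h hq hL⟩
  obtain ⟨p, hp⟩ := CharP.exists F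
  have : NeZero p := ⟨(CharP.char_is_prime F p).ne_zero⟩
  obtain ⟨a, b, ab⟩ := CharP.sq_add_sq F p (-1)
  exact ⟨_, _, _, _, wu_of w h hq hL (by simpa using ab) (fun K => natCast_mem K a) fun K => natCast_mem K b⟩

end Cfsg.GW2
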