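import Cfsg.Agent.GS.W0
import Cfsg.Agent.FT.PGen4a

/-! General lemmas on four-groups acting on groups of odd order, and on transvections. -/

set_option autoImplicit false
set_option linter.unusedSectionVars false

namespace Cfsg.GW2

open Subgroup Cfsg.L0 Cfsg.H8 Cfsg.FT Cfsg.GJ

variable {G : Type} [Group G] [Finite G]
variable {s j v w a b c g x y z τ a' b' c' : G} {X H Q : Subgroup G} {r p : ℕ}

/-- the `2`-elements are involutions -/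
def Two (G : Type) [Group G] : Prop := ∀ (y : G) (j : ℕ), y ^ 2 ^ j = 1 → y * y = 1

namespace Two

variable (h : Two G)
include h

theorem exists_odd (g : G) : ∃ j, Odd j ∧ g ^ j * g ^ j = 1 := by
  have : Fact (Nat.Prime 2) := ⟨Nat.prime_two⟩
  obtain ⟨i, j, hi, hj⟩ := exists_pow_pElt 2 g
  exact ⟨i, Nat.coprime_two_right.1 hi, h _ _ hj⟩

theorem sq2 (hT : IsPGroup 2 X) (hx : x ∈ X) : x * x = 1 :=
  h _ _ (isPGroup_iff_forall.1 hT x hx).choose_spec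

theorem ab2 (hT : IsPGroup 2 X) (hx : x ∈ X) (hy : y ∈ X) : x * y = y * x := by
  rw [← inv_self_of (h.sq2 hT (mul_mem hx hy)), mul_inv_rev, inv_self_of (h.sq2 hT hx),
    inv_self_of (h.sq2 hT hy)]

theorem not_four (hs : s ∈ X) (h2 : s * s = 1)
    (hc : ∀ y ∈ X, y * s = s * y → y * y = 1 → y = 1 ∨ y = s) : ¬ 4 ∣ ♯X := by
  have : Fact (Nat.Prime 2) := ⟨Nat.prime_two⟩
  have e : IsSyl 2 (zpowers s) X := isSyl_of_maximal (zpowers_le.2 hs) (p2_zp h2)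
    fun Q a b c y hy => (mem_zp_inv h2).2 (hc y (c hy) (h.ab2 a hy (b (mem_zpowers s))) (h.sq2 a hy))
  refine fun e1 => e.not_dvd ?_
  rw [← card_mul_relIndex e.le, Nat.card_zpowers] at e1
  obtain ⟨c, hc⟩ := orderOf_dvd_of_pow_eq_one ((sq s).trans h2)
  have := e1.trans (Nat.mul_dvd_mul_right ⟨c, hc⟩ _)
  omega

theorem sylV (k : KP s j) (hs : s ∈ X) (hj : j ∈ X)
    (hc : ∀ y ∈ X, y * s = s * y → y * j = j * y → y * y = 1 → y ∈ V4 s j) : IsSyl 2 (V4 s j) X := by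
  have : Fact (Nat.Prime 2) := ⟨Nat.prime_two⟩
  exact isSyl_of_maximal (closure_pair_le hs hj) k.p2 fun Q a b c y hy =>
    hc y (c hy) (h.ab2 a hy (b (V_left s j))) (h.ab2 a hy (b (V_right s j))) (h.sq2 a hy)

theorem exists_inv (oy : Odd (orderOf y)) (y1 : y ≠ 1) (e : g * y * g⁻¹ = y⁻¹) :
    ∃ σ ∈ zpowers g, Iv σ ∧ σ * y * σ⁻¹ = y⁻¹ := by
  obtain ⟨i, hi, hj⟩ := h.exists_odd g
  have e1 := inverts_odd_pow e hi
  refine ⟨_, pow_mem (mem_zpowers g) i, ⟨hj, fun e2 => y1 (eq_one_of_inv oy ?_ e1)⟩, e1⟩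
  rw [e2, one_mul, mul_one]

theorem no_sl2 {f : G} (oa : Odd (orderOf a)) (a1 : a ≠ 1) (ab : a * b = b * a) (g1 : g * b * g⁻¹ = b)
    (g2 : g * a * g⁻¹ = a * b) (f0 : f * a * f⁻¹ = a) (f2 : f * b * f⁻¹ = b * a⁻¹) : False := by
  have m1 : g * f * g * a * (g * f * g)⁻¹ = b := by
    calc _ = g * (f * (g * a * g⁻¹) * f⁻¹) * g⁻¹ := by group
      _ = g * (f * a * f⁻¹ * (f * b * f⁻¹)) * g⁻¹ := by rw [g2]; group
      _ = b := by rw [f0, f2, ← mul_assoc a, ab, mul_inv_cancel_right, g1]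
  have m2 : g * f * g * b * (g * f * g)⁻¹ = a⁻¹ := by
    calc _ = g * (f * (g * b * g⁻¹) * f⁻¹) * g⁻¹ := by group
      _ = g * (b * a⁻¹) * g⁻¹ := by rw [g1, f2]
      _ = g * b * g⁻¹ * (g * a * g⁻¹)⁻¹ := by group
      _ = a⁻¹ := by rw [g1, g2]; group
  generalize g * f * g = z at m1 m2
  have m3 : z ^ 2 * a * (z ^ 2)⁻¹ = a⁻¹ := by rw [← m2, ← m1]; simp [pow_succ, mul_assoc]
  obtain ⟨i, hi, hj⟩ := h.exists_odd z
  have := inverts_odd_pow m3 hi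
  rw [← pow_mul, mul_comm 2, pow_mul, sq, hj, one_mul, inv_one, mul_one] at this
  exact a1 (eq_one_of_odd oa (mul_eq_one_iff_eq_inv.2 this))

theorem tv_false (oa : Odd (orderOf a)) (a1 : a ≠ 1) (ab : a * b = b * a) (ca : c * a = a * c)
    (h1 : TV a b c) (h2 : TV b c a) (h3 : TV c a b) : False := by
  obtain ⟨g, g1, g2, -⟩ := h1
  obtain ⟨f, f1, f2, f3⟩ := h2
  obtain ⟨e, e1, e2, e3⟩ := h3
  have i : ∀ f y : G, f * y * f⁻¹ = y → f⁻¹ * y * f = y := fun f y e => by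
    conv_lhs => rw [← e]
    group
  refine h.no_sl2 (f := f * e * f⁻¹ * e⁻¹) oa a1 ab g2 g1 ?_ ?_
  · calc _ = f * (e * (f⁻¹ * (e⁻¹ * a * e) * f) * e⁻¹) * f⁻¹ := by group
      _ = _ := by rw [i _ _ e2, i _ _ f3, e2, f3]
  · have f4 : f⁻¹ * b * f = b * c⁻¹ := by
      calc _ = f⁻¹ * (b * c) * f * (f⁻¹ * c * f)⁻¹ := by group
        _ = _ := by rw [← f1, i _ _ f2]; group
    calc _ = f * (e * (f⁻¹ * (e⁻¹ * b * e) * f) * e⁻¹) * f⁻¹ := by group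
      _ = f * (e * b * e⁻¹ * (e * c * e⁻¹)⁻¹) * f⁻¹ := by rw [i _ _ e3, f4]; group
      _ = f * b * f⁻¹ * (f * c * f⁻¹ * (f * a * f⁻¹))⁻¹ := by rw [e3, e1]; group
      _ = _ := by rw [f1, f2, f3, ca]; group

end Two

theorem pwc (hx : x ∈ X) : x ^ ♯X = 1 := orderOf_dvd_iff_pow_eq_one.1 (X.orderOf_dvd_natCard hx)

theorem cm_of_conj (h : g * a * g⁻¹ = a) : g * a = a * g := mul_inv_eq_iff_eq_mul.1 h

theorem conj_of_cm (h : g * a = a * g) : g * a * g⁻¹ = a := mul_inv_eq_iff_eq_mul.2 h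

theorem zp_gen (hr : r.Prime) (h : a ^ r = 1) (ha : a' ∈ zpowers a) (a1 : a' ≠ 1) :
    a ∈ zpowers a' := by
  have : Fact r.Prime := ⟨hr⟩
  exact mem_zp_of_cyc (T := zpowers a) inferInstance ha (mem_zpowers a)
    (orderOf_eq_prime (zp_pow h ha) a1) h

theorem cm_gen (hr : r.Prime) (h : a ^ r = 1) (ha : a' ∈ zpowers a) (a1 : a' ≠ 1)
    (e : g * a' = a' * g) : g * a = a * g := comm_zpowers e (zp_gen hr h ha a1)

/-- an `r`-element normalizing a group of order `r` centralizes it -/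
theorem cm_of_norm (hr : r.Prime) {k : ℕ} (hg : g ^ r ^ k = 1) (h : a ^ r = 1)
    (e : g * a * g⁻¹ ∈ zpowers a) : g * a = a * g := by
  have : Fact r.Prime := ⟨hr⟩
  by_cases a1 : a = 1
  · simp [a1]
  obtain ⟨y, hy, e1⟩ := exists_comm_of_not_dvd hg (S := (zpowers a : Set G) \ {1})
    (fun y hy => ⟨conj_mem_of_mem_normalizer (mem_norm_zp e) hy.1, by simpa using hy.2⟩) (by
      rw [Set.ncard_sdiff_singleton_of_mem (one_mem _), ← card_ncard, Nat.card_zpowers,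
        orderOf_eq_prime h a1]
      exact Nat.not_dvd_of_pos_of_lt (by have := hr.two_le; omega) (by have := hr.pos; omega))
  exact cm_gen hr h hy.1 hy.2 e1

theorem conj_pow_tv (g1 : g * a = a * g) (g2 : g * b * g⁻¹ = b * a) (i : ℕ) :
    g ^ i * b * (g ^ i)⁻¹ = b * a ^ i := by
  induction i with
  | zero => simp
  | succ i ih =>
    calc _ = g * (g ^ i * b * (g ^ i)⁻¹) * g⁻¹ := by group
      _ = g * b * g⁻¹ * (g * a ^ i * g⁻¹) := by rw [ih]; group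
      _ = _ := by rw [g2, conj_of_cm (comm_pow g1 i), pow_succ', mul_assoc]

theorem pow_tv (hr : r.Prime) (h : a ^ r = 1) (g1 : g * a = a * g) (ha : a' ∈ zpowers a) (a1 : a' ≠ 1)
    (g2 : g * b * g⁻¹ = b * a') (hc : c ∈ zpowers a) :
    ∃ i : ℕ, g ^ i * b * (g ^ i)⁻¹ = b * c := by
  obtain ⟨i, rfl⟩ := mem_powers_iff_mem_zpowers.2 (zpowers_le.2 (zp_gen hr h ha a1) hc)
  exact ⟨i, conj_pow_tv (comm_zpowers g1 ha) g2 i⟩

theorem card_two (hr : r.Prime) (ha : a ^ r = 1) (a1 : a ≠ 1) (hb : b ^ r = 1) (nb : b ∉ zpowers a)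
    (ab : a * b = b * a) : ♯(zpowers a ⊔ zpowers b) = r ^ 2 := by
  have : Fact r.Prime := ⟨hr⟩
  have e := card_sup_mul_card_inf (H := zpowers b) (N := zpowers a)
    (zpowers_le.2 (mem_norm_zp (conj_mem_zp_of_comm ab)))
  have e1 : zpowers b ⊓ zpowers a = ⊥ := eq_bot_iff.2 fun y hy => by_contra fun y1 =>
    nb (zpowers_le.2 hy.2 (zp_gen hr hb hy.1 y1))
  rw [e1, card_bot, mul_one, Nat.card_zpowers, Nat.card_zpowers, orderOf_eq_prime ha a1,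
    orderOf_eq_prime hb fun e => nb (e ▸ one_mem _), sup_comm] at e
  rw [e, sq]

/-- an `r`-element acting on `⟨a, b⟩`, fixing `a` -/
theorem tv_of (hr : r.Prime) (ha : a ^ r = 1) (a1 : a ≠ 1) (hb : b ^ r = 1) (nb : b ∉ zpowers a)
    (ab : a * b = b * a) {k : ℕ} (hg : g ^ r ^ k = 1) (g1 : g * a = a * g)
    (g2 : g * b * g⁻¹ ∈ zpowers a ⊔ zpowers b) : ∃ a' ∈ zpowers a, g * b * g⁻¹ = b * a' := by
  have : Fact r.Prime := ⟨hr⟩
  set Z := zpowers a ⊔ zpowers b with hZ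
  have cZ := card_two hr ha a1 hb nb ab
  have nZ : g ∈ 𝒩 Z := mem_normalizer_of_forall fun y hy => by
    have : Z ≤ cj g⁻¹ Z := sup_le (zpowers_le.2 (mem_cj.2 (by
      rw [inv_inv, conj_of_cm g1]; exact mem_sup_left (mem_zpowers a))))
      (zpowers_le.2 (mem_cj.2 (by rwa [inv_inv])))
    simpa using mem_cj.1 (this hy)
  have pZ : IsPGroup r Z := IsPGroup.of_card cZ
  have pR := pZ.to_sup_of_normal_left' (isPGroup_zpowers hg) (zpowers_le.2 nZ)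
  have n : Z ⊴ Z ⊔ zpowers g := ⟨le_sup_left, sup_le le_normalizer (zpowers_le.2 nZ)⟩
  have c1 := G4.le_cent_of_card_le hr pR (n.comm (Nrm.refl _)) (by
    simpa using G4.card_comm_le (n := 1) hr pR n cZ.le)
  have m : b⁻¹ * (g * b * g⁻¹) ∈ ⁅Z, Z ⊔ zpowers g⁆ := by
    simpa [commutatorElement_def, mul_assoc] using commutator_mem_commutator
      (inv_mem (mem_sup_right (mem_zpowers b) : b ∈ Z)) (mem_sup_right (mem_zpowers g))
  by_cases e : b⁻¹ * (g * b * g⁻¹) ∈ zpowers a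
  · exact ⟨_, e, by group⟩
  have e1 : zpowers a ⊔ zpowers (b⁻¹ * (g * b * g⁻¹)) = Z := G4.sup_eq_of_ri_prime le_sup_left
    (zpowers_le.2 (mul_mem (inv_mem (mem_sup_right (mem_zpowers b))) g2)) (by
      have := card_mul_relIndex (le_sup_left : zpowers a ≤ Z)
      rw [cZ, Nat.card_zpowers, orderOf_eq_prime ha a1, sq] at this
      rwa [Nat.eq_of_mul_eq_mul_left hr.pos this]) (by rwa [zpowers_le])
  have e2 : Z ≤ 𝒞₁ g := e1 ▸ sup_le (zpowers_le.2 (mem_c1.2 g1.symm))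
    (zpowers_le.2 (mem_c1.2 (mem_cent.1 (c1 m) g (mem_sup_right (mem_zpowers g))).symm))
  exact ⟨1, one_mem _, by
    rw [mul_one, conj_of_cm (mem_c1.1 (e2 (mem_sup_right (mem_zpowers b)))).symm]⟩

theorem exists_ty0 (hn : s ∈ 𝒩 X) (k : KP s j) (hy : y ∈ X) (yj : y * j = j * y)
    (ys : y * s ≠ s * y) : ∃ b ∈ X, b ≠ 1 ∧ b * j = j * b ∧ s * b * s⁻¹ = b⁻¹ := by
  refine ⟨y⁻¹ * (s * y * s⁻¹), mul_mem (inv_mem hy) (conj_mem_of_mem_normalizer hn hy),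
    fun e => ys (cm_of_conj (inv_mul_eq_one.1 e).symm).symm, ?_, ?_⟩
  · have c : Commute j y := yj.symm
    have c' : Commute j s := k.comm
    exact (c.inv_right.mul_right ((c'.mul_right c).mul_right c'.inv_right)).eq.symm
  · rw [k.iv.inv]; simp [mul_assoc, k.iv.inv, k.ss]

/-- an invariant subgroup not centralized by `s` contains an element inverted by `s` -/
theorem exists_ty (ho : Odd ♯X) (k : KP s j) (hn : V4 s j ≤ 𝒩 X) (h : ¬ X ≤ 𝒞₁ s) :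
    ∃ j', (j' = j ∨ j' = s * j) ∧ ∃ b ∈ X, b ≠ 1 ∧ b * j' = j' * b ∧ s * b * s⁻¹ = b⁻¹ := by
  obtain ⟨x, hx, x1⟩ := SetLike.not_le_iff_exists.1 h
  have ns := hn (V_left s j)
  obtain ⟨c, hc, y, hy, z, hz, c1, y1, z1, rfl⟩ := fac3 (fun _ => odd_orderOf_of_mem ho) k ns
    (hn (V_right s j)) hx
  by_cases e2 : z * s = s * z
  · exact ⟨_, Or.inr rfl, exists_ty0 ns k.mul hy y1 fun e =>
      x1 (mul_mem (mul_mem (mem_c1.2 c1) (mem_c1.2 e)) (mem_c1.2 e2))⟩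
  · exact ⟨_, Or.inl rfl, exists_ty0 ns k hz z1 e2⟩

theorem exists_typ (hp : p.Prime) (hX : IsPGroup p X) (ho : Odd ♯X) (k : KP s j)
    (hn : V4 s j ≤ 𝒩 X) (h : ¬ X ≤ 𝒞₁ s) : ∃ j', (j' = j ∨ j' = s * j) ∧ ∃ b ∈ X, Ty p j' s b := by
  have : Fact p.Prime := ⟨hp⟩
  obtain ⟨j', e, b, hb, b1, b2, b3⟩ := exists_ty ho k hn h
  obtain ⟨i, a1, a2⟩ := exists_pow_prime hX hb b1
  exact ⟨j', e, _, pow_mem hb i, a2, a1, (comm_pow b2.symm i).symm, inv_pow_of b3 i⟩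

/-- realness from a fixed point free action on the `p`-elements -/
theorem real_of (hp : p.Prime) (ho : Odd ♯X) (ss : s * s = 1) (hn : s ∈ 𝒩 X) (hy : y ∈ X)
    (yp : y ^ p = 1) (h : ∀ g ∈ X, g ^ p = 1 → g * s = s * g → g = 1) : ∃ g, g * y * g⁻¹ = y⁻¹ := by
  have : Fact p.Prime := ⟨hp⟩
  obtain ⟨R, hR, nR⟩ := (mkCA_p Nat.prime_two (zpowers_le.2 hn) (p2_zp ss)
    ho.not_two_dvd_nat).exists_syl hp
  obtain ⟨g, -, e⟩ := hR.exists_conj_mem hy ⟨1, by simpa⟩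
  have e1 := inverts_of_fpf (nR (mem_zpowers s)) (by simp [ss]) (fun u hu e => by_contra fun u1 => by
    obtain ⟨i, a1, a2⟩ := exists_pow_prime hR.isPGroup hu u1
    exact a1 (h _ (hR.le (pow_mem hu i)) a2 (comm_pow e i).symm)) _ e
  refine ⟨g⁻¹ * s * g, ?_⟩
  calc _ = g⁻¹ * (s * (g * y * g⁻¹) * s⁻¹) * g := by group
    _ = _ := by rw [e1]; group

/-- `τ` induces a transvection with centre `c` on `Q` -/
structure Tr (Q : Subgroup G) (τ c : G) : Prop where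
  mem : c ∈ Q
  ne : c ≠ 1
  cm : τ * c = c * τ
  act : ∀ z ∈ Q, ∃ c' ∈ zpowers c, τ * z * τ⁻¹ = z * c'
  nt : ¬ τ ∈ 𝒞 Q

theorem Tr.conj (h : Tr Q τ c) (hg : g ∈ 𝒩 Q) : Tr Q (g * τ * g⁻¹) (g * c * g⁻¹) := by
  refine ⟨conj_mem_of_mem_normalizer hg h.mem, by simpa using h.ne, conj_comm h.cm g,
    fun z hz => ?_, fun e => h.nt fun z hz => ?_⟩
  · obtain ⟨_, ⟨i, rfl⟩, e⟩ := h.act _ (conj_mem_of_mem_normalizer' hg hz)
    refine ⟨_, ⟨i, rfl⟩, ?_⟩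
    simp only [conj_zpow] at e ⊢
    calc _ = g * (τ * (g⁻¹ * z * g) * τ⁻¹) * g⁻¹ := by group
      _ = _ := by rw [e]; group
  · simpa [mul_assoc] using conj_comm (e _ (conj_mem_of_mem_normalizer hg hz)) g⁻¹

theorem exists_tr (hr : r.Prime) (hQ : Elem r Q) (cQ : ♯Q = r ^ 3) (hn : τ ∈ 𝒩 Q) {k : ℕ}
    (ht : τ ^ r ^ k = 1) (nt : τ ∉ 𝒞 Q) (hH : r ^ 2 ≤ ♯(Q ⊓ 𝒞₁ τ)) : ∃ c, Tr Q τ c := by
  have : Fact r.Prime := ⟨hr⟩
  obtain ⟨z, hz, z1⟩ : ∃ z ∈ Q, z ∉ Q ⊓ 𝒞₁ τ := by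
    by_contra! e
    exact nt fun z hz => mem_c1.1 (e z hz).2
  have ri : (Q ⊓ 𝒞₁ τ).relIndex Q = r := by
    have e := card_mul_relIndex (inf_le_left : Q ⊓ 𝒞₁ τ ≤ Q)
    have d := G4.card_dvd_of_lt (n := 2) hr hQ.pgroup (lt_of_le_of_ne inf_le_left fun e => z1 (e.ge hz))
      cQ.le
    rw [le_antisymm (Nat.le_of_dvd (pow_pos hr.pos _) d) hH, cQ, pow_succ r 2] at e
    exact Nat.eq_of_mul_eq_mul_left (pow_pos hr.pos _) e
  have e := G4.sup_eq_of_ri_prime inf_le_left (zpowers_le.2 hz) (ri ▸ hr) (by rwa [zpowers_le])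
  have ab : ∀ {x y}, x ∈ Q → y ∈ Q → Commute x y := fun a b => hQ.abel.comm a b
  have m := mul_mem (inv_mem hz) (conj_mem_of_mem_normalizer hn hz)
  have act : ∀ y ∈ Q, ∃ c' ∈ zpowers (z⁻¹ * (τ * z * τ⁻¹)), τ * y * τ⁻¹ = y * c' := fun y hy => by
    obtain ⟨u, hu, _, ⟨i, rfl⟩, rfl⟩ := (mem_sup_of_le_normalizer_left (zpowers_le.2
      (mem_normalizer_of_forall fun y hy => by
        rwa [(ab hz hy.1).eq, mul_inv_cancel_right]))).1 (e.ge hy)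
    refine ⟨_, ⟨i, rfl⟩, ?_⟩
    simp only []
    rw [mul_assoc u, ← (ab hz m).mul_zpow, mul_inv_cancel_left, conj_zpow, ← mul_assoc τ,
      ← mem_c1.1 hu.2]
    group
  refine ⟨_, m, fun e => z1 ⟨hz, mem_c1.2 (cm_of_conj (inv_mul_eq_one.1 e).symm).symm⟩,
    cm_of_norm hr ht (hQ.2 _ m) ?_, act, nt⟩
  obtain ⟨c, hc, e⟩ := act _ m
  rw [e]
  exact mul_mem (mem_zpowers _) hc

theorem Tr.cm_conj (h2 : Two G) (hr : r.Prime) (r2 : r ≠ 2) (hQ : Elem r Q) (h : Tr Q τ c)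
    (vv : v * v = 1) (hv : v ∈ 𝒩 Q) : τ * (v * c * v⁻¹) = v * c * v⁻¹ * τ := by
  by_contra hn
  have h' := h.conj hv
  obtain ⟨a, ha, e⟩ := h.act _ h'.mem
  obtain ⟨b, hb, e'⟩ := h'.act _ h.mem
  have a1 : a ≠ 1 := fun e1 => hn (cm_of_conj (by rw [e, e1, mul_one]))
  have b1 : b ≠ 1 := fun e1 => hn (by
    have := conj_comm (cm_of_conj (e'.trans (by rw [e1, mul_one]))) v
    rwa [show v * (v * τ * v⁻¹) * v⁻¹ = τ by rw [inv_self_of vv]; simp [← mul_assoc, vv]; simp [mul_assoc, vv]] at this)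
  obtain ⟨i, hi⟩ := pow_tv hr (hQ.2 _ h.mem) h.cm ha a1 e (mem_zpowers c)
  obtain ⟨k, hk⟩ := pow_tv hr (hQ.2 _ h'.mem) h'.cm hb b1 e' (inv_mem (mem_zpowers _))
  exact h2.no_sl2 (odd_of_pow hr r2 (hQ.2 _ h'.mem)) h'.ne (hQ.abel.comm h'.mem h.mem)
    (conj_of_cm (comm_pow h.cm.symm i).symm) hi (conj_of_cm (comm_pow h'.cm.symm k).symm) hk

end Cfsg.GW2
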