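import Cfsg.Agent.GS.WT1

/-! Elements of order dividing `n`: pairs and triangles. -/

set_option autoImplicit false
set_option linter.unusedSectionVars false

namespace Cfsg.GW2

open Subgroup Cfsg.L0 Cfsg.H8 Cfsg.FT Cfsg.GJ

variable {G : Type} [Group G]

/-- a torus `T` of order `n` centralized by `s`, inverted by `j`, with its field automorphisms -/
structure Loc (L : G → Subgroup G) (n f : ℕ) (s j : G) (T U : Subgroup G) : Prop where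
  kp : KP s j
  cT : ♯T = n
  cyc : IsCyclic T
  Ts : ∀ d ∈ T, d * s = s * d
  inv : ∀ d ∈ T, j * d * j⁻¹ = d⁻¹
  cU : ♯U = f
  Us : ∀ u ∈ U, u * s = s * u
  Uj : ∀ u ∈ U, u * j = j * u
  UT : U ≤ 𝒩 T
  nrm : ∀ d ∈ T, d ≠ 1 → ∀ g, g * s = s * g → g * d * g⁻¹ ∈ T →
    ∃ v ∈ V4 s j, ∃ e ∈ T, ∃ u ∈ U, g = v * (e * u)
  kill : ∀ d ∈ T, d ≠ 1 → ∀ u ∈ U, u ≠ 1 → u * d = d * u → ∀ g, g * d = d * g → g * u = u * g →
    g * s = s * g
  fus : ∀ u ∈ U, ∀ g, g * u * g⁻¹ ∈ U → g * u = u * g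
  dis : ∀ v, Iv v → ∀ u ∈ U, u ∈ L v → u = 1

/-- an element of order `3` cycling a four-group -/
structure Cy (f : ℕ) (s j x t : G) : Prop where
  x3 : x ^ 3 = 1
  x1 : x * s * x⁻¹ = j
  x2 : x * j * x⁻¹ = s * j
  iv : Iv t
  xt : x * t = t * x
  two : ∀ g, g * x = x * g → g * t = t * g → g * g = 1 → g = 1 ∨ g = t
  pw : ∀ g, g * x = x * g → g * t = t * g → g ^ (6 * f) = 1

/-- the facts used in the analysis of the primes dividing `n` -/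
structure TG (L : G → Subgroup G) (n m f : ℕ) : Prop where
  on : Odd n
  of : Odd f
  n3 : ¬ 3 ∣ n
  m3 : ¬ 3 ∣ m
  two : Two G
  nL : ∀ s g, Iv s → g * s = s * g → g ∈ 𝒩 (L s)
  re : ∀ s y g, Iv s → Odd (orderOf y) → y * s = s * y → g * y * g⁻¹ = y⁻¹ →
    y ∈ L s ∧ (y ^ n = 1 ∨ y ^ m = 1)
  mn : ∀ s j z s' j' y : G, KP s j → Ty n s j z → KP s' j' → Ty m s' j' y → y * z = z * y → False
  loc : ∀ s j a, KP s j → Ty n s j a → ∃ T U, Loc L n f s j T U ∧ a ∈ T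
  tr : ∀ s j : G, KP s j → ∃ D : Subgroup G, ¬ 3 ∣ ♯D ∧ (∀ c ∈ D, c * s = s * c ∧ c * j = j * c) ∧
    ∀ r a b, TP n r → Ty r s j a → Ty r s j b → ∃ c ∈ D, c * b * c⁻¹ ∈ zpowers a
  cy : ∀ s j : G, KP s j → ∃ x t, Cy f s j x t

/-- `M = O(C(a))` -/
structure OM (s j a : G) (M : Subgroup G) : Prop where
  le : M ≤ 𝒞₁ a
  odd : Odd ♯M
  mem : ∀ y, y * a = a * y → Odd (orderOf y) → y ∈ M
  nV : V4 s j ≤ 𝒩 M
  nC : 𝒩 (𝒞₁ a) ≤ 𝒩 M
  cov : ∀ y, y * a = a * y → y ∈ M ∨ y * s ∈ M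

/-- every vertex of type `s` has a neighbour of type `j` -/
def Nb (r : ℕ) (s j : G) : Prop := ∀ a, Ty r s j a → ∃ b, Ty r j s b ∧ a * b = b * a

variable [Finite G] {L : G → Subgroup G} {n m f r : ℕ} {s j t v a b c d e g u x y z : G}
  {T U M P : Subgroup G}

theorem TP.odd (hr : TP n r) (h : a ^ r = 1) : Odd (orderOf a) := odd_of_pow hr.1 hr.2.1 h

theorem Ty.up (hr : TP n r) (h : Ty r s j a) : Ty n s j a := ⟨hr.pow h.pow, h.ne, h.comm, h.inv⟩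

theorem Ty.nV {r : ℕ} (h : Ty r s j a) : V4 s j ≤ 𝒩 (zpowers a) :=
  closure_pair_le (mem_norm_zp (conj_mem_zp_of_comm h.comm)) (mem_norm_zp (conj_mem_zp_of_inv h.inv))

theorem Ty.nV1 {r : ℕ} (h : Ty r s j a) : V4 s j ≤ 𝒩 (𝒞₁ a) :=
  closure_pair_le (mem_norm_c1 (conj_mem_zp_of_comm h.comm)) (mem_norm_c1 (conj_mem_zp_of_inv h.inv))

theorem Ty.mul' {r : ℕ} (k : KP s j) (h : Ty r s (s * j) a) : Ty r s j a := by
  simpa only [k.sl] using h.mul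

theorem Ty.cj {r : ℕ} (h : Ty r s j a) (h1 : g * s = s * g) (h2 : g * j = j * g) :
    Ty r s j (g * a * g⁻¹) := by
  simpa only [conj_of_cm h1, conj_of_cm h2] using h.conj g

theorem Nb.conj (h : Nb r s j) (g : G) : Nb r (g * s * g⁻¹) (g * j * g⁻¹) := fun a ha => by
  obtain ⟨b, hb, e⟩ := h (g⁻¹ * a * g⁻¹⁻¹) (by simpa [mul_assoc] using ha.conj g⁻¹)
  exact ⟨_, hb.conj g, by simpa [mul_assoc] using conj_comm e g⟩

namespace TG

variable (h : TG L n m f)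
include h

theorem oT (l : Loc L n f s j T U) (hd : d ∈ T) : Odd (orderOf d) :=
  odd_orderOf_of_mem (l.cT ▸ h.on) hd

theorem oU (l : Loc L n f s j T U) (hu : u ∈ U) : Odd (orderOf u) :=
  odd_orderOf_of_mem (l.cU ▸ h.of) hu

theorem oTU (l : Loc L n f s j T U) (he : e ∈ T) (hu : u ∈ U) : Odd (orderOf (e * u)) :=
  odd_of_pow' (h.of.mul h.on) (by
    rw [pow_mul, ← l.cT]
    exact pwc (G4.mul_pow_mem he (l.UT hu) (by rw [← l.cU, pwc hu]; exact one_mem _)))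

omit h in
theorem _root_.Cfsg.GW2.Loc.ab (l : Loc L n f s j T U) (hd : d ∈ T) (he : e ∈ T) : d * e = e * d :=
  comm_of_inverts l.inv d hd e he

theorem TU (l : Loc L n f s j T U) (hd : u ∈ T) (hu : u ∈ U) : u = 1 :=
  eq_one_of_inv (h.oT l hd) (l.Uj u hu).symm (l.inv u hd)

/-- odd elements of `C(s) ∩ N(⟨d⟩)` -/
theorem nrm' (l : Loc L n f s j T U) (hd : d ∈ T) (d1 : d ≠ 1) (og : Odd (orderOf g))
    (gs : g * s = s * g) (hg : g * d * g⁻¹ ∈ T) : ∃ e ∈ T, ∃ u ∈ U, g = e * u := by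
  obtain ⟨v, hv, e, he, u, hu, rfl⟩ := l.nrm d hd d1 g gs hg
  refine ⟨e, he, u, hu, ?_⟩
  have n : zpowers v ≤ 𝒩 (T ⊔ U) := (zpowers_le.2 hv).trans (closure_pair_le
    (mem_normalizer_of_forall fun y hy => by
      obtain ⟨a, ha, b, hb, rfl⟩ := (mem_sup_of_le_normalizer_left l.UT).1 hy
      rwa [conj_of_cm (comm_mul (l.Ts a ha).symm (l.Us b hb).symm)])
    (mem_normalizer_of_forall fun y hy => by
      obtain ⟨a, ha, b, hb, rfl⟩ := (mem_sup_of_le_normalizer_left l.UT).1 hy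
      rw [show j * (a * b) * j⁻¹ = j * a * j⁻¹ * (j * b * j⁻¹) by group, l.inv a ha,
        conj_of_cm (l.Uj b hb).symm]
      exact mul_mem (mem_sup_left (inv_mem ha)) (mem_sup_right hb)))
  have m := mul_mem (mem_sup_left he : e ∈ T ⊔ U) (mem_sup_right hu)
  have m1 : v * (e * u) ∈ T ⊔ U := mem_of_sq_mem og (by
    rw [show v * (e * u) * (v * (e * u)) = v * (e * u) * v⁻¹ * (v * v) * (e * u) by group,
      V_sq l.kp hv, mul_one]
    exact mul_mem (conj_mem_of_mem_normalizer (n (mem_zpowers v)) m) m)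
  obtain ⟨a, ha, b, hb, e1⟩ := (mem_sup_of_le_normalizer_left l.UT).1
    ((mul_mem_cancel_right m).1 m1)
  rw [eq_one_of_odd (e1 ▸ h.oTU l ha hb) (V_sq l.kp hv), one_mul]

theorem cent (l : Loc L n f s j T U) (hd : d ∈ T) (d1 : d ≠ 1) (gs : g * s = s * g)
    (hg : g * d = d * g) (g2 : g * g = 1) : g = 1 ∨ g = s := by
  obtain ⟨v, hv, e, he, u, hu, rfl⟩ := l.nrm d hd d1 g gs (by rwa [conj_of_cm hg])
  have vv := V_sq l.kp hv
  have o := h.oTU l he hu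
  have e1 : v * (e * u) * v⁻¹ = (e * u)⁻¹ := inv_of_sq vv g2
  have key : ∀ v, v * (e * u) * d = d * (v * (e * u)) → v * d * v⁻¹ = d⁻¹ → False := fun v a b =>
    d1 (eq_one_of_odd_inverts o (h.oT l hd) (by
      calc _ = v⁻¹ * (v * (e * u) * d) * (e * u)⁻¹ := by group
        _ = v⁻¹ * (v * d * v⁻¹)⁻¹ * v := by rw [a, b]; group
        _ = _ := by group))
  rcases (memV l.kp).1 hv with rfl | rfl | rfl | rfl
  · left; rw [eq_one_of_inv o (by simp) e1, mul_one]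
  · right; rw [eq_one_of_inv o (comm_mul (l.Ts e he).symm (l.Us u hu).symm) e1, mul_one]
  · exact (key _ hg (l.inv d hd)).elim
  · exact (key _ hg (by
      rw [show s * j * d * (s * j)⁻¹ = s * (j * d * j⁻¹) * s⁻¹ by group, l.inv d hd,
        conj_of_cm (l.Ts _ (inv_mem hd)).symm])).elim

theorem cent_j (l : Loc L n f s j T U) (hd : d ∈ T) (d1 : d ≠ 1) (og : Odd (orderOf g))
    (gs : g * s = s * g) (hg : g * d * g⁻¹ ∈ T) (gj : g * j = j * g) : g ∈ U := by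
  obtain ⟨e, he, u, hu, rfl⟩ := h.nrm' l hd d1 og gs hg
  rw [mul_assoc, l.Uj u hu, ← mul_assoc, ← mul_assoc, mul_left_inj] at gj
  rwa [eq_one_of_inv (h.oT l he) gj.symm (l.inv e he), one_mul]

theorem inv_j (l : Loc L n f s j T U) (hd : d ∈ T) (d1 : d ≠ 1) (og : Odd (orderOf g))
    (gs : g * s = s * g) (hg : g * d * g⁻¹ ∈ T) (gj : j * g * j⁻¹ = g⁻¹) : g ∈ T := by
  obtain ⟨e, he, u, hu, rfl⟩ := h.nrm' l hd d1 og gs hg
  rw [show j * (e * u) * j⁻¹ = j * e * j⁻¹ * (j * u * j⁻¹) by group, l.inv e he,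
    conj_of_cm (l.Uj u hu).symm] at gj
  rwa [eq_one_of_odd (h.oU l hu) (h.TU l (by
    rw [show u * u = u * e * u⁻¹ * (u * (e⁻¹ * u)) by group, gj, mul_inv_rev, mul_inv_cancel_left]
    exact mul_mem (conj_mem_of_mem_normalizer (l.UT hu) he) (inv_mem he)) (mul_mem hu hu)), mul_one]

theorem C2 (hr : TP n r) (k : KP s j) (ha : Ty r s j a) (hy : y ^ r = 1) (ys : y * s = s * y)
    (ya : y * a = a * y) (yj : j * y * j⁻¹ = y⁻¹) : y ∈ zpowers a := by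
  have : Fact r.Prime := ⟨hr.1⟩
  obtain ⟨T, U, l, aT⟩ := h.loc s j a k (Ty.up hr ha)
  exact mem_zp_of_cyc l.cyc aT (h.inv_j l aT ha.ne (TP.odd hr hy) ys (by rwa [conj_of_cm ya]) yj)
    (orderOf_eq_prime ha.pow ha.ne) hy

theorem exists_om (k : KP s j) (ha : Ty n s j a) : ∃ M, OM s j a M := by
  obtain ⟨T, U, l, aT⟩ := h.loc s j a k ha
  obtain ⟨M, o1, o2, o3, o4, o5⟩ := exists_oddpart (h.two.not_four (mem_c1.2 ha.comm.symm) k.ss
    fun y hy e => h.cent l aT ha.ne e (mem_c1.1 hy))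
  refine ⟨M, o1, o2, fun y e => o3 y (mem_c1.2 e), (Ty.nV1 ha).trans o4, o4, fun y e => ?_⟩
  exact or_iff_not_imp_left.2 fun hn => o5 y (mem_c1.2 e) s (mem_c1.2 ha.comm.symm) hn fun e1 =>
    k.s1 (eq_one_of_odd (odd_orderOf_of_mem o2 e1) k.ss)

theorem ty_n (k : KP s j) (ha : Ty n s j a) (k' : KP v t) (ob : Odd (orderOf b)) (b1 : b ≠ 1)
    (bv : b * v = v * b) (bt : t * b * t⁻¹ = b⁻¹) (ab : b * a = a * b) : Ty n v t b :=
  ⟨(h.re v b t k'.iv ob bv bt).2.resolve_right fun e =>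
    h.mn _ _ _ _ _ _ k ha k' ⟨e, b1, bv, bt⟩ ab, b1, bv, bt⟩

theorem pair (k : KP s j) (ha : Ty n s j a) (hg : g * a = a * g) (gs : g * s ≠ s * g) :
    ∃ r s j a b, TP n r ∧ KP s j ∧ Ty r s j (a : G) ∧ Ty r j s b ∧ a * b = b * a := by
  obtain ⟨r, i, hr, h1, h2, h3⟩ := exists_prime_pow ha.ne
  have tp : TP n r := ⟨hr, by
    rintro rfl
    exact h.on.not_two_dvd_nat (h1.trans (orderOf_dvd_of_pow_eq_one ha.pow)),
    h1.trans (orderOf_dvd_of_pow_eq_one ha.pow)⟩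
  have : Fact r.Prime := ⟨hr⟩
  replace hg := comm_pow hg i
  have ta : Ty r s j (a ^ i) := ⟨h3, h2, (comm_pow ha.comm.symm i).symm, inv_pow_of ha.inv i⟩
  generalize a ^ i = a at hg ta
  obtain ⟨M, o⟩ := h.exists_om k (Ty.up tp ta)
  obtain ⟨j', e, b, hb, b1, b2, b3⟩ := exists_ty o.odd k o.nV fun e => gs ((o.cov g hg).elim
    (fun e1 => mem_c1.1 (e e1)) fun e1 => mul_right_cancel ((mem_c1.1 (e e1)).trans (mul_assoc _ _ _).symm))
  obtain ⟨k', ta'⟩ : KP s j' ∧ Ty r s j' a := by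
    rcases e with rfl | rfl
    exacts [⟨k, ta⟩, ⟨k.mul, ta.mul⟩]
  have tb := h.ty_n k (Ty.up tp ta) k'.symm (odd_orderOf_of_mem o.odd hb) b1 b2 b3 (mem_c1.1 (o.le hb))
  obtain ⟨T, U, l, bT⟩ := h.loc _ _ b k'.symm tb
  obtain ⟨M', o'⟩ := h.exists_om k'.symm tb
  obtain ⟨e, e2, he⟩ := exists_orderOf_eq_of_dvd_card (p := r) (l.cT ▸ tp.2.2)
  have te : Ty r j' s e := ⟨by rw [← he, pow_orderOf_eq_one], by rintro rfl; simp [hr.ne_one.symm] at he,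
    l.Ts e e2, l.inv e e2⟩
  obtain ⟨P, hP, nP, eP⟩ := (mkCA_p Nat.prime_two o'.nV k'.symm.p2 o'.odd.not_two_dvd_nat).exists_syl_ge
    hr (isPGroup_zpowers (k := 1) (by simpa using te.pow))
    (zpowers_le.2 (o'.mem e (l.ab e2 bT) (TP.odd tp te.pow))) (Ty.nV te)
  have oP : ∀ X ≤ P, Odd ♯X := fun X hX => o'.odd.of_dvd_nat (card_dvd_of_le (hX.trans hP.le))
  have fin : ∀ w, w = s ∨ w = j' * s → KP j' w ∧ ∀ y, Ty r j' s y → Ty r j' w y := by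
    rintro w (rfl | rfl)
    exacts [⟨k'.symm, fun _ e => e⟩, ⟨k'.symm.mul, fun _ e => e.mul⟩]
  by_cases hc : P ≤ 𝒞₁ j'
  · have aM := o'.mem a (mem_c1.1 (o.le hb)).symm (TP.odd tp ta.pow)
    obtain ⟨y, hy, e2⟩ := hP.exists_conj_mem aM ⟨1, by simpa using ta.pow⟩
    have e3 := mem_c1.1 (hc e2)
    have e4 : j' * y⁻¹ * j'⁻¹ * y ∈ M' :=
      mul_mem (conj_mem_of_mem_normalizer (o'.nV (V_left _ _)) (inv_mem hy)) hy
    refine (ta.ne (eq_one_of_odd_inverts (odd_orderOf_of_mem o'.odd e4) (TP.odd tp ta.pow) ?_)).elim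
    rw [← ta'.inv]
    calc _ = j' * y⁻¹ * (j'⁻¹ * (y * a * y⁻¹ * j')) * y * j'⁻¹ := by group
      _ = _ := by rw [e3]; group
  obtain ⟨w, hw, b', hb', tb'⟩ := exists_typ hr hP.isPGroup (oP P le_rfl) k'.symm nP hc
  have nZ : V4 j' s ≤ 𝒩 (𝒵 P) :=
    le_normalizer_inf nP (nP.trans (H7.normalizer_le_normalizer_centralizer P))
  have pZ := hP.isPGroup.to_le (inf_le_left : 𝒵 P ≤ P)
  by_cases hz : 𝒵 P ≤ 𝒞₁ j'
  · by_cases hs : 𝒵 P ≤ 𝒞₁ s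
    · obtain ⟨z, z0, z1⟩ := FT.exists_ne_one (FT.inf_cent_ne_bot_of_pgroup hr hP.isPGroup hP.isPGroup
        le_normalizer (FT.ne_bot_of_mem hb' tb'.ne))
      have zb := mem_c1.1 (o'.le (hP.le z0.1))
      exact (tb'.ne (eq_one_of_inv (TP.odd tp tb'.pow) (l.kill b bT b1 z (h.cent_j l bT b1
        (odd_orderOf_of_mem (oP P le_rfl) z0.1) (mem_c1.1 (hz z0)) (by rwa [conj_of_cm zb])
        (mem_c1.1 (hs z0))) z1 zb b' (mem_c1.1 (o'.le (hP.le hb'))) (z0.2 b' hb')).symm tb'.inv)).elim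
    · obtain ⟨_, -, z, z0, tz⟩ := exists_typ hr pZ (oP _ inf_le_left) k' (V_symm s j' ▸ nZ) hs
      exact ⟨r, _, _, z, b', tp, (fin w hw).1, (fin w hw).2 z ⟨tz.pow, tz.ne, mem_c1.1 (hz z0), tz.inv⟩,
        tb', (z0.2 b' hb').symm⟩
  · obtain ⟨w', hw', z, z0, tz⟩ := exists_typ hr pZ (oP _ inf_le_left) k'.symm nZ hz
    exact ⟨r, _, _, e, z, tp, (fin w' hw').1, (fin w' hw').2 e te, tz, z0.2 e (eP (mem_zpowers e))⟩

/-- uniqueness of neighbours -/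
theorem nb (hr : TP n r) (k : KP s j) (ha : Ty r s j a) (hb : Ty r j s b) (hc : Ty r j s c)
    (ab : a * b = b * a) (ac : a * c = c * a) : c ∈ zpowers b := by
  obtain ⟨T, U, l, aT⟩ := h.loc s j a k (Ty.up hr ha)
  obtain ⟨M, o⟩ := h.exists_om k (Ty.up hr ha)
  have m : ∀ y, Ty r j s y → a * y = y * a → y ∈ M ⊓ 𝒞₁ j ⊓ L j := fun y hy e =>
    ⟨⟨o.mem y e.symm (TP.odd hr hy.pow), mem_c1.2 hy.comm⟩,
      (h.re j y s k.symm.iv (TP.odd hr hy.pow) hy.comm hy.inv).1⟩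
  refine h.C2 hr k.symm hb hc.pow hc.comm (comm_of_inverts (inverts_of_fpf (z := s) ?_ (by simp [k.ss])
    fun u hu e => ?_) c (m c hc ac) b (m b hb ab)) hc.inv
  · exact mem_normalizer_of_forall fun y hy => ⟨⟨conj_mem_of_mem_normalizer (o.nV (V_left _ _)) hy.1.1,
      conj_mem_of_mem_normalizer (mem_norm_c1 (conj_mem_zp_of_comm k.comm)) hy.1.2⟩,
      conj_mem_of_mem_normalizer (h.nL j s k.symm.iv k.comm.symm) hy.2⟩
  · exact l.dis j k.symm.iv u (h.cent_j l aT ha.ne (odd_orderOf_of_mem o.odd hu.1.1) e.symm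
      (by rwa [conj_of_cm (mem_c1.1 (o.le hu.1.1))]) (mem_c1.1 hu.1.2)) hu.2

theorem nb_of (hr : TP n r) (k : KP s j) (ha : Ty r s j a) (hb : Ty r j s b) (ab : a * b = b * a) :
    Nb r s j := fun a' ha' => by
  obtain ⟨D, -, d1, d2⟩ := h.tr s j k
  obtain ⟨c, hc, e⟩ := d2 r a a' hr ha ha'
  obtain ⟨c1, c2⟩ := d1 _ (inv_mem hc)
  exact ⟨_, Ty.cj hb c2 c1, by simpa [mul_assoc] using conj_comm (comm_zpowers ab.symm e).symm c⁻¹⟩

theorem u_one (hr : TP n r) (l : Loc L n f s j T U) (aT : a ∈ T) (ha : Ty r s j a) (hb : Ty r j s b)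
    (ab : a * b = b * a) (hu : u ∈ U) (ua : u * a = a * u) (ub : u * b = b * u) : u = 1 :=
  by_contra fun u1 => hb.ne (eq_one_of_inv (TP.odd hr hb.pow)
    (l.kill a aT ha.ne u hu u1 ua b ab.symm ub.symm).symm hb.inv)

theorem u_nb (hr : TP n r) (k : KP s j) (ha : Ty r s j a) (hb : Ty r j s b) (ab : a * b = b * a)
    (us : u * s = s * u) (uj : u * j = j * u) (ua : u * a * u⁻¹ ∈ zpowers a) :
    u * b * u⁻¹ ∈ zpowers b :=
  h.nb hr k ha hb (Ty.cj hb uj us) ab (cm_gen hr.1 ha.pow ua (by simpa using ha.ne)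
    (conj_comm ab u).symm).symm

theorem tv (hr : TP n r) (k : KP s j) (ha : Ty r s j a) (hb : Ty r j s b) (hc : Ty r (s * j) s c)
    (ab : a * b = b * a) (ac : a * c = c * a) (bc : b * c ≠ c * b) (ha' : d ∈ zpowers a) :
    ∃ g, g * a * g⁻¹ = a ∧ g * b * g⁻¹ = b * d := by
  have : Fact r.Prime := ⟨hr.1⟩
  obtain ⟨T, U, l, aT⟩ := h.loc s j a k (Ty.up hr ha)
  obtain ⟨M, o⟩ := h.exists_om k (Ty.up hr ha)
  have ca := mkCA_p Nat.prime_two o.nV k.p2 o.odd.not_two_dvd_nat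
  have sy : ∀ y, y ^ r = 1 → a * y = y * a → V4 s j ≤ 𝒩 (zpowers y) →
      ∃ P, IsSyl r P M ∧ V4 s j ≤ 𝒩 P ∧ zpowers y ≤ P := fun y e1 e2 e3 => ca.exists_syl_ge hr.1
    (isPGroup_zpowers (k := 1) (by simpa)) (zpowers_le.2 (o.mem y e2.symm (TP.odd hr e1))) e3
  obtain ⟨P, hP, nP, bP⟩ := sy b hb.pow ab (V_symm s j ▸ Ty.nV hb)
  obtain ⟨P', hP', nP', cP⟩ := sy c hc.pow ac (by rw [← V_mul k, V_symm]; exact Ty.nV hc)
  obtain ⟨z, hz, rfl⟩ := ca.syl_conj hr.1 hP' hP nP' nP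
  have zs := hz.2 s (V_left s j)
  have zj := hz.2 j (V_right s j)
  have cP' : c ∈ cj z P' := zpowers_le.2 (conj_mem_cj (g := z) (cP (mem_zpowers c))) (zp_gen hr.1 hc.pow
    (h.u_nb hr k.mul ha.mul hc ac zs.symm (comm_mul zs.symm zj.symm) (conj_mem_zp_of_comm
      (mem_c1.1 (o.le hz.1)).symm)) (by simpa using hc.ne))
  generalize cj z P' = P at *
  have Pa : ∀ y ∈ P, y * a = a * y := fun y hy => mem_c1.1 (o.le (hP.le hy))
  have ow : OW s j P := ⟨k, o.odd.of_dvd_nat (card_dvd_of_le hP.le), nP (V_left _ _), nP (V_right _ _),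
    fun u hu e1 e2 => by
      obtain ⟨i, hi⟩ := isPGroup_iff_forall.1 hP.isPGroup u hu
      exact h.u_one hr l aT ha hb ab (h.cent_j l aT ha.ne (odd_orderOf_of_mem o.odd (hP.le hu)) e1
        (by rwa [conj_of_cm (Pa u hu)]) e2) (Pa u hu) (cm_of_norm hr.1 hi hb.pow
          (h.u_nb hr k ha hb ab e1 e2 (conj_mem_zp_of_comm (Pa u hu).symm)))⟩
  have nC : V4 s j ≤ 𝒩 (P ⊓ 𝒞₁ b) := le_normalizer_inf nP (V_symm s j ▸ Ty.nV1 hb)
  have k3 : ∀ y ∈ P ⊓ 𝒞₁ b, y * (s * j) = s * j * y → y = 1 := fun y hy e => by_contra fun y1 => by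
    obtain ⟨i, a1, a2⟩ := exists_pow_prime hP.isPGroup hy.1 y1
    have m := pow_mem hy i
    exact bc (cm_gen hr.1 hc.pow (h.nb hr k.mul ha.mul hc (ow.mul.symm.ty m.1 (comm_pow e.symm i).symm a1 a2)
      ac (Pa _ m.1).symm) a1 (mem_c1.1 m.2).symm)
  have oc := ow.sub inf_le_left nC
  have abC := oc.mul.abel k3
  obtain ⟨g, hg, h2, h3⟩ := exists_mem_normalizer_not_mem hP.isPGroup inf_le_left
    fun e : P ⊓ 𝒞₁ b = P => bc (mem_c1.1 (e.ge cP').2).symm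
  have el := (show Abel (P ⊓ 𝒞₁ b) from fun x hx y hy => abC y hy x hx).elem_Om r
  have JC := Om_le r (P ⊓ 𝒞₁ b)
  obtain ⟨c1, hc1, y, hy, z, hz, e1, e2, e3, e4⟩ := (oc.sub JC (nC.trans (norm_le_norm_Om _ _))).fac
    (mem_Om (conj_mem_of_mem_normalizer h2 ⟨bP (mem_zpowers b), mem_c1.2 rfl⟩) (conj_pow_one hb.pow g))
  obtain ⟨i, hi⟩ := isPGroup_iff_forall.1 hP.isPGroup g hg
  obtain ⟨a', ha', e5⟩ := tv_of hr.1 ha.pow ha.ne hb.pow (fun e => hb.ne (eq_one_of_inv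
    (TP.odd hr hb.pow) (comm_zpowers ha.comm.symm e) hb.inv)) ab hi (Pa g hg) (by
      rw [e4, k3 y (JC hy) e2, mul_one]
      exact mul_mem (mem_sup_left (h.C2 hr k ha (el.2 _ hc1) e1 (Pa _ (JC hc1).1) (oc.inv (JC hc1) e1)))
        (mem_sup_right (h.C2 hr k.symm hb (el.2 _ hz) e3 (mem_c1.1 (JC hz).2) (oc.symm.inv (JC hz) e3))))
  obtain ⟨i, hi⟩ := pow_tv hr.1 ha.pow (Pa g hg) ha' (fun e => h3 ⟨hg, mem_c1.2 (cm_of_conj (by
    rw [e5, e, mul_one]))⟩) e5 ‹d ∈ _›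
  exact ⟨_, conj_of_cm (Pa _ (pow_mem hg i)), hi⟩

theorem tri (hr : TP n r) (k : KP s j) (n3 : Nb r j (j * s)) (ha : Ty r s j a) (hb : Ty r j s b)
    (hc : Ty r (s * j) s c) (ab : a * b = b * a) (ac : a * c = c * a) : b * c = c * b := by
  by_contra bc
  obtain ⟨c', hc', e⟩ := n3 b hb.mul
  have t' : Ty r (s * j) s c' := by
    have := hc'.mul
    rwa [mul_assoc, ← k.comm, k.symm.sl, k.comm] at this
  obtain ⟨f, f1, f2⟩ := h.tv hr k ha hb hc ab ac bc (inv_mem (mem_zpowers a))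
  obtain ⟨g, g1, g2⟩ := h.tv hr k.symm hb ha hc' ab.symm e (fun e1 => bc (cm_gen hr.1 hc.pow
    (h.nb hr k.mul ha.mul hc t' ac e1) t'.ne e)) (mem_zpowers b)
  exact h.two.no_sl2 (TP.odd hr ha.pow) ha.ne ab g1 g2 f1 f2

end TG

end Cfsg.GW2
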