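import Cfsg.Agent.GS.WT2

/-! No triangles; centralizers of the elements of order dividing `n`. -/

set_option autoImplicit false
set_option linter.unusedSectionVars false

namespace Cfsg.GW2

open Subgroup Cfsg.L0 Cfsg.H8 Cfsg.FT Cfsg.GJ
open scoped commutatorElement

variable {G : Type} [Group G] [Finite G] {L : G → Subgroup G} {n m f r p : ℕ}
  {s j t v w a b c d e g u x y z τ a' b' c' : G} {U M P A B D H N Q R S : Subgroup G}

theorem exists_mid (hp : p.Prime) (hR : IsPGroup p R) (hA : A ⊴ R) (hB : B ⊴ R) (h : ¬ B ≤ A) :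
    ∃ y ∈ B, y ∉ A ∧ ∀ g ∈ R, ⁅g, y⁆ ∈ A := by
  obtain ⟨Q, _, _, f, hf, rfl⟩ := exists_quo hA
  obtain ⟨z, hz, z1⟩ := exists_ne_one (inf_cent_ne_bot_of_pgroup hp (isPGroup_down f hR)
    (isPGroup_down f (hR.to_le hB.le)) (hB.down f).norm fun e => h ((down_eq_bot_iff hB.le).1 e))
  obtain ⟨y, hy, rfl⟩ := mem_down.1 hz.1
  refine ⟨y, hy, fun e => z1 (mem_bot.1 (coe_mem_up.1 e)), fun g hg => ?_⟩
  refine (coe_mem_up (x := ⁅(⟨g, hg⟩ : R), y⁆)).2 (mem_bot.2 ?_)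
  rw [map_commutatorElement, commutatorElement_eq_one_iff_mul_comm]
  exact hz.2 _ (mem_down_of_mem hg)

theorem ri_eq (hD : D ≤ H) (h : ∀ g ∈ H, ∃ d ∈ D, d⁻¹ * g ∈ N) : N.relIndex H = N.relIndex D := by
  refine (Nat.card_congr (Equiv.ofBijective (quotientSubgroupOfEmbeddingOfLE N hD)
    ⟨Function.Embedding.injective _, fun q => ?_⟩)).symm
  obtain ⟨g, rfl⟩ := QuotientGroup.mk_surjective q
  obtain ⟨d, hd, e⟩ := h g g.2
  exact ⟨QuotientGroup.mk ⟨d, hd⟩, QuotientGroup.eq.2 e⟩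

/-- the group of a triangle -/
abbrev Q3 (a b c : G) : Subgroup G := zpowers a ⊔ zpowers b ⊔ zpowers c

theorem Q3_rot (a b c : G) : Q3 b c a = Q3 a b c := by
  rw [Q3, sup_comm, ← sup_assoc]

theorem Q3_swap (a b c : G) : Q3 b a c = Q3 a b c := by
  rw [Q3, sup_comm (zpowers b)]

theorem q1m (a b c : G) : a ∈ Q3 a b c := mem_sup_left (mem_sup_left (mem_zpowers a))
theorem q2m (a b c : G) : b ∈ Q3 a b c := mem_sup_left (mem_sup_right (mem_zpowers b))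
theorem q3m (a b c : G) : c ∈ Q3 a b c := mem_sup_right (mem_zpowers c)

theorem Q3_le (ha : a ∈ H) (hb : b ∈ H) (hc : c ∈ H) : Q3 a b c ≤ H :=
  sup_le (sup_le (zpowers_le.2 ha) (zpowers_le.2 hb)) (zpowers_le.2 hc)

theorem cj_Q3 (g a b c : G) : cj g (Q3 a b c) = Q3 (g * a * g⁻¹) (g * b * g⁻¹) (g * c * g⁻¹) := by
  simp only [cj_sup, cj_zpowers]

theorem tri_conj (T : Tri r s w v a b c) (g : G) : Tri r (g * s * g⁻¹) (g * w * g⁻¹) (g * v * g⁻¹)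
    (g * a * g⁻¹) (g * b * g⁻¹) (g * c * g⁻¹) :=
  ⟨T.kp.conj g, by rw [← T.e]; group, T.ta.conj g, T.tb.conj g, T.tc.conj g, conj_comm T.ab g,
    conj_comm T.bc g, conj_comm T.ca g⟩

section
variable (T : Tri r s w v a b c)
include T

theorem tri_mem (hy : y ∈ Q3 a b c) : In3 a b c y := by
  obtain ⟨u, hu, c', hc, rfl⟩ := (mem_sup_of_le_normalizer_right (sup_le
    (zpowers_le.2 (mem_norm_zp (conj_mem_zp_of_comm T.ca)))
    (zpowers_le.2 (mem_norm_zp (conj_mem_zp_of_comm T.bc.symm))))).1 hy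
  obtain ⟨a', ha, b', hb, rfl⟩ := (mem_sup_of_le_normalizer_right
    (zpowers_le.2 (mem_norm_zp (conj_mem_zp_of_comm T.ab.symm)))).1 hu
  exact ⟨a', ha, b', hb, c', hc, rfl⟩

theorem tri_ab : Abel (Q3 a b c) := by
  have e : ∀ y, y * a = a * y → y * b = b * y → y * c = c * y → y ∈ 𝒞 (Q3 a b c) := fun y h1 h2 h3 =>
    fun g hg => mem_c1.1 (Q3_le (mem_c1.2 h1.symm) (mem_c1.2 h2.symm) (mem_c1.2 h3.symm) hg)
  exact Q3_le (e a rfl T.ab T.ca.symm) (e b T.ab.symm rfl T.bc) (e c T.ca T.bc.symm rfl)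

theorem tri_elem : Elem r (Q3 a b c) := ⟨tri_ab T, fun y hy => by
  obtain ⟨a', ha, b', hb, c', hc, rfl⟩ := tri_mem T hy
  rw [Commute.mul_pow (comm_mul (comm_zp T.ca hc ha) (comm_zp T.bc hb hc).symm).symm,
    Commute.mul_pow (comm_zp T.ab ha hb), zp_pow T.ta.pow ha, zp_pow T.tb.pow hb, zp_pow T.tc.pow hc,
    one_mul, one_mul]⟩

theorem tri_ns : s ∈ 𝒩 (Q3 a b c) := mem_normalizer_of_forall fun y hy => by
  obtain ⟨a', ha, b', hb, c', hc, rfl⟩ := tri_mem T hy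
  rw [T.conj3 ha hb hc]
  exact mul_mem (mul_mem (zpowers_le.2 (q1m a b c) ha) (inv_mem (zpowers_le.2 (q2m a b c) hb)))
    (inv_mem (zpowers_le.2 (q3m a b c) hc))

theorem tri_nV : V4 s w ≤ 𝒩 (Q3 a b c) := closure_pair_le (tri_ns T) (Q3_rot a b c ▸ tri_ns T.rot)

theorem tri_fix (hr : TP n r) (hy : y ∈ Q3 a b c) (e : y * s = s * y) : y ∈ zpowers a := by
  have o := TP.odd hr ((tri_elem T).2 y hy)
  obtain ⟨a', ha, b', hb, c', hc, rfl⟩ := tri_mem T hy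
  refine mem_of_sq_mem o ?_
  have e1 := T.conj3 ha hb hc
  rw [conj_of_cm e.symm] at e1
  nth_rewrite 2 [e1]
  rw [mul_assoc a' b', comm_zp T.bc hb hc, mul_assoc a' b'⁻¹, ← mul_assoc _ a', mul_assoc a' _ a',
    comm_mul (comm_zp T.ca hc ha).symm (comm_zp T.ab ha hb) |>.symm]
  simpa [mul_assoc] using mul_mem ha ha

theorem tri_card (hr : TP n r) : ♯(Q3 a b c) = r ^ 3 := by
  have : Fact r.Prime := ⟨hr.1⟩
  have nb : b ∉ zpowers a := fun e => T.tb.ne (eq_one_of_inv (TP.odd hr T.tb.pow)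
    (comm_zpowers T.ta.comm.symm e) T.swap.ta.inv)
  have e := card_sup_mul_card_inf (H := zpowers c) (N := zpowers a ⊔ zpowers b) (zpowers_le.2
    (le_norm_of_le_cent (cent_mono (tri_ab T) le_rfl le_sup_left) (q3m a b c)))
  have e1 : zpowers c ⊓ (zpowers a ⊔ zpowers b) = ⊥ := eq_bot_iff.2 fun y hy => by
    refine eq_one_of_inv (TP.odd hr (zp_pow T.tc.pow hy.1)) (comm_zpowers T.tc.comm.symm hy.1) ?_
    obtain ⟨a', ha, b', hb, rfl⟩ := (mem_sup_of_le_normalizer_right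
      (zpowers_le.2 (mem_norm_zp (conj_mem_zp_of_comm T.ab.symm)))).1 hy.2
    rw [comm_zp T.ab ha hb, mul_inv_rev, ← comm_zp T.ab ha hb, ← inv_zpowers T.tb.inv hb,
      ← inv_zpowers T.rot.rot.swap.ta.inv ha]
    group
  rw [e1, card_bot, mul_one, Nat.card_zpowers, orderOf_eq_prime T.tc.pow T.tc.ne,
    card_two hr.1 T.ta.pow T.ta.ne T.tb.pow nb T.ab, sup_comm] at e
  rw [e, pow_succ' r 2]

theorem tri_tv (hr : TP n r) (h : Tr (Q3 a b c) τ (b' * c')) (hb : b' ∈ zpowers b) (hc : c' ∈ zpowers c)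
    (b1 : b' ≠ 1) (e1 : τ * b' = b' * τ) (e2 : τ * c' = c' * τ) (na : τ * a ≠ a * τ) : TV a b c := by
  have T' := T.rot.rot
  have vv := T'.kp.ss
  have key : ∀ y ∈ Q3 a b c, ∃ b1 ∈ zpowers b', ∃ c1 ∈ zpowers c', τ * y * τ⁻¹ = y * (b1 * c1) ∧
      (b1 = 1 → τ * y = y * τ) := fun y hy => by
    obtain ⟨_, ⟨i, rfl⟩, e⟩ := h.act y hy
    refine ⟨_, ⟨i, rfl⟩, _, ⟨i, rfl⟩, e.trans (congrArg _ (Commute.mul_zpow (comm_zp T.bc hb hc) i)), fun e3 => ?_⟩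
    have : c' ^ i = 1 := by
      have : Fact r.Prime := ⟨hr.1⟩
      obtain ⟨k, rfl⟩ := orderOf_dvd_iff_zpow_eq_one.2 e3
      rw [orderOf_eq_prime (zp_pow T.tb.pow hb) b1, zpow_mul, zpow_natCast, zp_pow T.tc.pow hc, one_zpow]
    simp only [] at e e3
    rw [Commute.mul_zpow (comm_zp T.bc hb hc), e3, this, mul_one, mul_one] at e
    exact cm_of_conj e
  have ib : ∀ y ∈ zpowers b', v * y * v⁻¹ = y⁻¹ := fun y hy =>
    inv_zpowers T.tb.inv (zpowers_le.2 hb hy)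
  have ic : ∀ y ∈ zpowers c', v * y * v⁻¹ = y := fun y hy =>
    conj_of_cm (comm_zpowers T.tc.comm.symm (zpowers_le.2 hc hy))
  have tb := cm_gen hr.1 T.tb.pow hb b1 e1
  have ex : ∀ y, τ * (v * τ * v⁻¹) * y * (τ * (v * τ * v⁻¹))⁻¹ =
      τ * (v * (τ * (v * y * v⁻¹) * τ⁻¹) * v⁻¹) * τ⁻¹ := fun y => by
    rw [inv_self_of vv]; simp [mul_assoc, inv_self_of vv]
  have gb : τ * (v * τ * v⁻¹) * b * (τ * (v * τ * v⁻¹))⁻¹ = b := by
    rw [ex, T.tb.inv, ← conj_inv, conj_of_cm tb, ← conj_inv, T.tb.inv, inv_inv, conj_of_cm tb]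
  have gc : τ * (v * τ * v⁻¹) * c * (τ * (v * τ * v⁻¹))⁻¹ = c := by
    rw [ex, conj_of_cm T.tc.comm.symm]
    by_cases c1 : c' = 1
    · obtain ⟨b1, h1, c2, h2, e3, -⟩ := key c (q3m a b c)
      rw [c1, zpowers_one_eq_bot, mem_bot] at h2
      rw [h2, mul_one] at e3
      rw [e3, show v * (c * b1) * v⁻¹ = v * c * v⁻¹ * (v * b1 * v⁻¹) by group,
        conj_of_cm T.tc.comm.symm, ib b1 h1, show τ * (c * b1⁻¹) * τ⁻¹ = τ * c * τ⁻¹ * (τ * b1 * τ⁻¹)⁻¹ by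
          group, e3, conj_of_cm (comm_zpowers e1 h1), mul_inv_cancel_right]
    · have := conj_of_cm (cm_gen hr.1 T.tc.pow hc c1 e2)
      rw [this, conj_of_cm T.tc.comm.symm, this]
  obtain ⟨b1, h1, c1, h2, e3, e4⟩ := key a (q1m a b c)
  have m := zpowers_le.2 hb h1
  obtain ⟨i, hi⟩ := pow_tv hr.1 T.tb.pow (cm_of_conj gb) (mul_mem m m) (fun e => na (e4
    (eq_one_of_odd (TP.odd hr (zp_pow T.tb.pow m)) e))) (b := a) (by
      rw [ex, T'.swap.ta.inv, ← conj_inv, e3, ← conj_inv, show v * (a * (b1 * c1)) * v⁻¹ =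
        v * a * v⁻¹ * (v * b1 * v⁻¹) * (v * c1 * v⁻¹) by group, T'.swap.ta.inv, ib b1 h1, ic c1 h2,
        T.inv3 (inv_mem (mem_zpowers a)) (inv_mem m) (zpowers_le.2 hc h2), inv_inv, inv_inv,
        show τ * (a * b1 * c1⁻¹) * τ⁻¹ = τ * a * τ⁻¹ * (τ * b1 * τ⁻¹) * (τ * c1 * τ⁻¹)⁻¹ by group, e3,
        conj_of_cm (comm_zpowers e1 h1), conj_of_cm (comm_zpowers e2 h2), mul_assoc a, mul_assoc b1,
        ← comm_zp T.bc m (zpowers_le.2 hc h2)]
      group) (mem_zpowers b)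
  exact ⟨_, hi, conj_of_cm (comm_pow (cm_of_conj gb).symm i).symm,
    conj_of_cm (comm_pow (cm_of_conj gc).symm i).symm⟩

theorem tri_tv' (h2 : Two G) (hr : TP n r) (h : Tr (Q3 a b c) τ y) (na : τ * a ≠ a * τ) :
    TV a b c ∨ TV a c b := by
  have cp : ∀ {s w v a b c : G} (T : Tri r s w v a b c), Tr (Q3 a b c) τ y → ∀ {a' b' c'},
      a' ∈ zpowers a → b' ∈ zpowers b → c' ∈ zpowers c → y = a' * b' * c' → τ * a' = a' * τ :=
    fun {s w v a b c} T h a' b' c' ha hb hc e => by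
      have e1 := comm_mul (h.cm_conj h2 hr.1 hr.2.1 (tri_elem T) T.kp.ss (tri_ns T)) h.cm
      refine comm_of_sq (TP.odd hr (zp_pow T.ta.pow ha)) ?_
      rwa [e, T.conj3 ha hb hc, mul_assoc a' b', comm_zp T.bc hb hc, ← mul_assoc a' c',
        ← comm_zp T.ca hc ha, mul_assoc c', comm_zp T.ab ha hb, show a' * b'⁻¹ * c'⁻¹ * (c' * (b' * a')) =
          a' * a' by group] at e1
  obtain ⟨a', ha, b', hb, c', hc, e⟩ := tri_mem T h.mem
  have a1 : a' = 1 := by_contra fun a1 => na (cm_gen hr.1 T.ta.pow ha a1 (cp T h ha hb hc e))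
  rw [a1, one_mul] at e
  have e1 := cp T.rot (Q3_rot a b c ▸ h) hb hc (one_mem _) (by rw [e, mul_one])
  have e2 := cp T.rot.rot (Q3_rot c a b ▸ h) hc (one_mem _) hb (by rw [e, mul_one, comm_zp T.bc hb hc])
  by_cases b1 : b' = 1
  · rw [b1, one_mul] at e
    refine Or.inr (tri_tv T.swap.rot hr (c' := 1) (by rwa [mul_one, ← e, Q3_rot, Q3_swap]) hc (one_mem _)
      (e ▸ h.ne) e2 (by simp) na)
  · exact Or.inl (tri_tv T hr (e ▸ h) hb hc b1 e1 e2 na)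

end

end Cfsg.GW2
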