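import Cfsg.Agent.GS.WT3

/-! Centralizers of the elements of order dividing `n` lie in the involution centralizer. -/

set_option autoImplicit false
set_option linter.unusedSectionVars false

namespace Cfsg.GW2

open Subgroup Cfsg.L0 Cfsg.H8 Cfsg.FT Cfsg.GJ
open scoped commutatorElement

variable {G : Type} [Group G] [Finite G] {L : G → Subgroup G} {n m f r p : ℕ}
  {s j t v w a b c d e g u x y z τ a' b' c' : G} {U M P A B D H N Q R S : Subgroup G}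

theorem Cy.conj (h : Cy f s j x t) (g1 : g * s = s * g) (g2 : g * j = j * g) :
    Cy f s j (g * x * g⁻¹) (g * t * g⁻¹) := by
  have i : ∀ {y z : G}, y * (g * z * g⁻¹) = g * z * g⁻¹ * y → g⁻¹ * y * g * z = z * (g⁻¹ * y * g) :=
    fun e => by simpa [mul_assoc] using conj_comm e g⁻¹
  have k : ∀ {y z : G}, x * y * x⁻¹ = z → g * x * g⁻¹ * (g * y * g⁻¹) * (g * x * g⁻¹)⁻¹ = g * z * g⁻¹ :=
    fun e => by rw [← e]; group
  refine ⟨conj_pow_one h.x3 g, by simpa only [conj_of_cm g1, conj_of_cm g2] using k h.x1,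
    by simpa only [conj_of_cm g2, conj_of_cm (comm_mul g1 g2)] using k h.x2, h.iv.conj g,
    conj_comm h.xt g, fun y a b c => ?_, fun y a b => ?_⟩
  · refine (h.two _ (i a) (i b) (by simpa using conj_sq c g⁻¹)).imp (fun e => by
      simpa using conj_eq_one_iff.1 (show g⁻¹ * y * g⁻¹⁻¹ = 1 by rwa [inv_inv])) fun e => by rw [← e]; group
  · simpa [mul_assoc] using conj_pow_one (h.pw _ (i a) (i b)) g

/-- the groups of the triangles -/
def TQ (r : ℕ) (s j : G) (Q : Subgroup G) : Prop := ∃ a b c, Tri r s j (s * j) a b c ∧ Q = Q3 a b c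

theorem TQ.cjx (h : TQ r s j Q) (y : Cy f s j x t) : TQ r s j (cj x Q) := by
  obtain ⟨a, b, c, T, rfl⟩ := h
  have := tri_conj T x
  rw [y.x1, y.x2, JG.cyc_last T.kp y.x1 y.x2] at this
  exact ⟨_, _, _, this.rot.rot, by rw [cj_Q3, Q3_rot]⟩

theorem TQ.cjc (h : TQ r s j Q) (g1 : g * s = s * g) (g2 : g * j = j * g) : TQ r s j (cj g Q) := by
  obtain ⟨a, b, c, T, rfl⟩ := h
  have := tri_conj T g
  rw [conj_of_cm g1, conj_of_cm g2, conj_of_cm (comm_mul g1 g2)] at this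
  exact ⟨_, _, _, this, cj_Q3 ..⟩

/-- weak closure from the absence of transvections -/
theorem wcl (hr : r.Prime) (hQ : Elem r Q) (cQ : ♯Q = r ^ 3) (w1 : ∀ g ∈ 𝒞 Q, g ^ r = 1 → g ∈ Q)
    (w2 : ∀ τ c, ¬ Tr Q τ c) (hS : IsPGroup r S) (h1 : Q ≤ S) (h2 : cj g Q ≤ S) : g ∈ 𝒩 Q := by
  have : Fact r.Prime := ⟨hr⟩
  have a : ∀ g, cj g Q ≤ 𝒩 Q → g ∈ 𝒩 Q := fun g hg => by
    have e' := hQ.cj g
    by_contra hn
    obtain ⟨τ, t1, t2⟩ := SetLike.not_le_iff_exists.1 fun e : cj g Q ≤ 𝒞 Q =>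
      hn (mem_normalizer_of_cj_le fun y hy => w1 y (e hy) (e'.2 y hy))
    have pR := hQ.pgroup.to_sup_of_normal_left' e'.pgroup hg
    have nQ : Q ⊴ Q ⊔ cj g Q := ⟨le_sup_left, sup_le le_normalizer hg⟩
    obtain ⟨Z, z1, z2, z3⟩ := G4.exists_nrm_card (k := 1) hr pR nQ
      (cQ ▸ Nat.pow_le_pow_right hr.pos (by omega))
    rw [pow_one] at z3
    have lt : ∀ X : Subgroup G, IsPGroup r X → Z ≤ X → ¬ X ≤ Z → r ^ 2 ≤ ♯X := fun X p1 p2 p3 => by
      obtain ⟨k, hk⟩ := G4.card_eq_pow hr p1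
      have := card_lt_of_lt (lt_of_le_not_ge p2 p3)
      rw [z3, hk] at this
      rw [hk]
      refine Nat.pow_le_pow_right hr.pos (by_contra fun e => ?_)
      exact this.not_ge ((Nat.pow_le_pow_right hr.pos (by omega)).trans (pow_one r).le)
    obtain ⟨z, hz, z4, z5⟩ := exists_mid hr pR z2 nQ fun e => by
      have := card_le_of_le e
      rw [cQ, z3] at this
      exact this.not_gt ((pow_one r).ge.trans_lt (Nat.pow_lt_pow_right hr.one_lt (by omega)))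
    have zc := G4.le_cent_of_card_le hr pR z2 z3.le
    have fin : ∀ τ ∈ cj g Q, τ ∉ 𝒞 Q → ¬ r ^ 2 ≤ ♯(Q ⊓ 𝒞₁ τ) := fun τ t1 t2 e =>
      let ⟨c, hc⟩ := exists_tr hr hQ cQ (hg t1) (k := 1) (by simpa using e'.2 τ t1) t2 e
      w2 τ c hc
    by_cases hK : cj g Q ⊓ 𝒞₁ z ≤ 𝒞 Q
    · refine fin τ t1 t2 (le_trans ?_ (card_le_of_le fun y (hy : y ∈ cj g Q ⊓ 𝒞₁ z) =>
        ⟨w1 y (hK hy) (e'.2 y hy.1), mem_c1.2 (e'.abel.comm hy.1 t1)⟩))
      have e := card_inf_mul_relIndex (𝒞₁ z) (cj g Q)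
      have e1 := G4.ri_cent1_le (R := cj g Q) fun y hy => z5 y (mem_sup_right hy)
      rw [card_cj, cQ, inf_comm, pow_succ] at e
      rw [z3] at e1
      exact Nat.le_of_mul_le_mul_right (e.ge.trans (Nat.mul_le_mul_left _ e1)) hr.pos
    · obtain ⟨τ, t1, t2⟩ := SetLike.not_le_iff_exists.1 hK
      exact fin τ t1.1 t2 (lt _ hQ.pgroup.to_inf_left (le_inf z1 fun y hy =>
        mem_c1.2 (zc hy τ (mem_sup_right t1.1)).symm) fun e => z4 (e ⟨hz, mem_c1.2 (mem_c1.1 t1.2).symm⟩))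
  refine a g (h2.trans (by_contra fun hn => ?_))
  obtain ⟨y, hy, y1, y2⟩ := exists_mem_normalizer_not_mem hS inf_le_left
    fun e : S ⊓ 𝒩 Q = S => hn (e.ge.trans inf_le_right)
  exact y2 ⟨hy, a y ((cj_le_of_le (le_inf h1 le_normalizer) y1).trans inf_le_right)⟩

namespace TG

variable (h : TG L n m f)
include h

theorem no3 (hs : Iv s) (y3 : y ^ 3 = 1) (ys : y * s = s * y) (e : g * y * g⁻¹ = y⁻¹) : y = 1 :=
  (h.re s y g hs (odd_of_pow' (by decide) y3) ys e).2.elim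
    (eq_one_of_pow_coprime ((Nat.Prime.coprime_iff_not_dvd Nat.prime_three).2 h.n3) y3)
    (eq_one_of_pow_coprime ((Nat.Prime.coprime_iff_not_dvd Nat.prime_three).2 h.m3) y3)

theorem tq_eq (hr : TP n r) (T : Tri r s w v a b c) (T' : Tri r s w v a' b' c') (ha : a' ∈ zpowers a) :
    Q3 a' b' c' = Q3 a b c := by
  have key : ∀ {w v b c b' c'}, Tri r s w v a b c → Tri r s w v a' b' c' → b' ∈ zpowers b :=
    fun T T' => h.nb hr T.kp T.ta T.swap.ta T'.swap.ta T.ab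
      (cm_gen hr.1 T.ta.pow ha T'.ta.ne T'.ab.symm).symm
  exact eq_of_le_of_card_ge (Q3_le (zpowers_le.2 (q1m a b c) ha) (zpowers_le.2 (q2m a b c) (key T T'))
    (zpowers_le.2 (q3m a b c) (key T.swap.rot T'.swap.rot))) (by rw [tri_card T hr, tri_card T' hr])

theorem exists_cyc (hr : TP n r) (k : KP s j) (ha : Ty r s j a) (hb : Ty r j s b) (ab : a * b = b * a) :
    ∃ a x t, Ty r s j a ∧ Cy f s j x t ∧ a * (x * a * x⁻¹) = x * a * x⁻¹ * a := by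
  have : Fact (Nat.Prime 3) := ⟨Nat.prime_three⟩
  obtain ⟨x, t, y⟩ := h.cy s j k
  have x0 := JG.cyc_last k y.x1 y.x2
  have n1 := (h.nb_of hr k ha hb ab).conj x
  have n2 := ((h.nb_of hr k.symm hb ha ab.symm).conj x).conj x
  rw [y.x1, y.x2] at n1
  rw [y.x2, y.x1, x0, y.x2] at n2
  obtain ⟨c, hc, ac⟩ := n2 a ha.mul
  have q0 : TQ r s j (Q3 a b c) := ⟨a, b, c, ⟨k, rfl, ha, k.comm ▸ hb.mul, hc, ab,
    h.tri hr k (k.comm ▸ n1) ha hb hc ab ac, ac.symm⟩, rfl⟩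
  generalize Q3 a b c = Q at q0
  obtain ⟨D, d0, d1, d2⟩ := h.tr s j k
  have nx : zpowers x ≤ 𝒩 (𝒞₁ s ⊓ 𝒞₁ j) := zpowers_le.2 (mem_normalizer_of_forall fun g hg =>
    ⟨mem_c1.2 (x0 ▸ conj_comm (comm_mul (mem_c1.1 hg.1) (mem_c1.1 hg.2)) x),
      mem_c1.2 (y.x1 ▸ conj_comm (mem_c1.1 hg.1) x)⟩)
  have e := ri_eq (D := D) (H := 𝒞₁ s ⊓ 𝒞₁ j ⊔ zpowers x) (N := 𝒩 Q)
    (fun g hg => mem_sup_left ⟨mem_c1.2 (d1 g hg).1, mem_c1.2 (d1 g hg).2⟩) fun g hg => by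
      obtain ⟨g, hg', _, hi, rfl⟩ := (mem_sup_of_le_normalizer_left nx).1 hg
      obtain ⟨i, rfl⟩ := mem_powers_iff_mem_zpowers.2 hi
      have q1 : TQ r s j (cj (x ^ i) Q) := by
        clear hi hg
        induction i with
        | zero => simpa [cj_one]
        | succ i ih => rw [pow_succ', cj_mul]; exact ih.cjx y
      obtain ⟨a', b', c', T', e'⟩ := q1.cjc (mem_c1.1 hg'.1) (mem_c1.1 hg'.2)
      obtain ⟨a, b, c, T, rfl⟩ := q0
      obtain ⟨d, hd, e⟩ := d2 r a a' hr T.ta T'.ta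
      have T'' := tri_conj T' d
      rw [conj_of_cm (d1 d hd).1, conj_of_cm (d1 d hd).2,
        conj_of_cm (comm_mul (d1 d hd).1 (d1 d hd).2)] at T''
      exact ⟨d⁻¹, inv_mem hd, cj_eq_iff.1 (by
        rw [inv_inv, cj_mul, cj_mul, e', cj_Q3, h.tq_eq hr T T'' e])⟩
  obtain ⟨P, hP⟩ := exists_isSyl 3 (𝒩 Q ⊓ (𝒞₁ s ⊓ 𝒞₁ j ⊔ zpowers x))
  obtain ⟨g, hg, e1⟩ := (hP.trans inf_le_right (by
    rw [inf_relIndex_right, e]
    exact fun e => d0 (e.trans (relIndex_dvd_card _ _)))).exists_conj_mem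
    (mem_sup_right (mem_zpowers x)) ⟨1, by simpa using y.x3⟩
  obtain ⟨g, hg', z, hz, rfl⟩ := (mem_sup_of_le_normalizer_left nx).1 hg
  rw [show g * z * x * (g * z)⁻¹ = g * (z * x * z⁻¹) * g⁻¹ by group,
    conj_of_cm (comm_zpowers rfl hz).symm] at e1
  obtain ⟨a, b, c, T, rfl⟩ := q0
  exact ⟨a, _, _, T.ta, y.conj (mem_c1.1 hg'.1) (mem_c1.1 hg'.2), (tri_ab T).comm (q1m a b c)
    (conj_mem_of_mem_normalizer (hP.le e1).1 (q1m a b c))⟩

theorem nt (hr : TP n r) (k : KP s j) (ha : Ty r s j a) (y : Cy f s j x t)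
    (ab : a * (x * a * x⁻¹) = x * a * x⁻¹ * a) : False := by
  have : Fact r.Prime := ⟨hr.1⟩
  have : Fact (Nat.Prime 2) := ⟨Nat.prime_two⟩
  have x0 := JG.cyc_last k y.x1 y.x2
  obtain ⟨b, xa⟩ : ∃ b, x * a * x⁻¹ = b := ⟨_, rfl⟩
  obtain ⟨c, xb⟩ : ∃ c, x * b * x⁻¹ = c := ⟨_, rfl⟩
  have xc : x * c * x⁻¹ = a := by
    calc _ = x ^ 3 * a * (x ^ 3)⁻¹ := by rw [← xb, ← xa]; simp [pow_succ, mul_assoc]
      _ = a := by simp [y.x3]
  rw [xa] at ab
  have tb : Ty r j (s * j) b := by simpa only [y.x1, y.x2, xa] using ha.conj x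
  have T : Tri r s j (s * j) a b c := ⟨k, rfl, ha, tb, by simpa only [y.x2, x0, xb] using tb.conj x, ab,
    by simpa only [xa, xb] using conj_comm ab x,
    by simpa only [xa, xb, xc] using conj_comm (conj_comm ab x) x⟩
  have x1 : x ≠ 1 := by rintro rfl; exact k.ne (by simpa using y.x1.symm)
  have el := tri_elem T
  have nV := tri_nV T
  have nx : x ∈ 𝒩 (Q3 a b c) := cj_eq_iff.1 (by rw [cj_Q3, xa, xb, xc, Q3_rot])
  obtain ⟨T0, U, l, aT⟩ := h.loc s j a k (Ty.up hr ha)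
  have oa := orderOf_eq_prime ha.pow ha.ne
  have Ua : ∀ u ∈ U, u * a * u⁻¹ ∈ zpowers a := fun u hu =>
    mem_zp_of_cyc l.cyc aT (conj_mem_of_mem_normalizer (l.UT hu) aT) oa (conj_pow_one ha.pow u)
  have Ux : ∀ u ∈ U, x * u = u * x := fun u hu => by
    have e := comm_mul (l.Us u hu) (l.Uj u hu)
    obtain ⟨i, hi⟩ := h.u_nb hr k.mul ha.mul T.tc T.ca.symm (l.Us u hu) e (Ua u hu)
    refine l.fus u hu x (h.cent_j l aT ha.ne (orderOf_conj' x u ▸ h.oU l hu) (x0 ▸ conj_comm e x) ?_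
      (y.x1 ▸ conj_comm (l.Us u hu) x))
    rw [← xc, show x * u * x⁻¹ * (x * c * x⁻¹) * (x * u * x⁻¹)⁻¹ = x * (u * c * u⁻¹) * x⁻¹ by group,
      ← hi, ← conj_zpow, xc]
    exact zpow_mem aT i
  have U1 : ∀ u ∈ U, u * a = a * u → u = 1 := fun u hu e => h.u_one hr l aT ha T.swap.ta ab hu e (by
    simpa only [xa, conj_of_cm (Ux u hu)] using conj_comm e x)
  have sc : ∀ u ∈ U, ∃ i : ℤ, ∀ z ∈ Q3 a b c, z ^ i = u * z * u⁻¹ := fun u hu => by
    obtain ⟨i, hi⟩ := Ua u hu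
    have st : ∀ {a b : G}, x * a * x⁻¹ = b → a ^ i = u * a * u⁻¹ → b ^ i = u * b * u⁻¹ := fun {a b} e1 e2 => by
      rw [← e1, conj_zpow, e2]
      calc _ = x * u * a * (x * u)⁻¹ := by group
        _ = _ := by rw [Ux u hu]; group
    have zp : ∀ {a a' : G}, a ^ i = u * a * u⁻¹ → a' ∈ zpowers a → a' ^ i = u * a' * u⁻¹ := by
      rintro a _ e ⟨k, rfl⟩
      simp only []
      rw [← conj_zpow, ← e, ← zpow_mul, ← zpow_mul, mul_comm]
    refine ⟨i, fun z hz => ?_⟩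
    obtain ⟨a', ha, b', hb, c', hc, rfl⟩ := tri_mem T hz
    rw [Commute.mul_zpow (comm_mul (comm_zp T.ca hc ha) (comm_zp T.bc hb hc).symm).symm,
      Commute.mul_zpow (comm_zp T.ab ha hb), zp hi ha, zp (st xa hi) hb, zp (st xb (st xa hi)) hc]
    group
  have U2 : ∀ u ∈ U, ∀ z ∈ Q3 a b c, z ≠ 1 → u * z = z * u → u = 1 := fun u hu z hz z1 e => by
    obtain ⟨i, hi⟩ := sc u hu
    have e1 := hi z hz
    rw [conj_of_cm e] at e1
    refine U1 u hu (cm_of_conj ((hi a (q1m a b c)).symm.trans ?_))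
    conv_rhs at e1 => rw [← zpow_one z]
    conv_rhs => rw [← zpow_one a]
    rwa [zpow_eq_zpow_iff_modEq, orderOf_eq_prime (el.2 z hz) z1, ← oa, ← zpow_eq_zpow_iff_modEq] at e1
  have rf : ¬ r ∣ f := fun e => by
    obtain ⟨u, hu, e1⟩ := exists_orderOf_eq_of_dvd_card (l.cU ▸ e)
    rw [U1 u hu (cm_of_norm hr.1 (k := 1) (by rw [pow_one, ← e1, pow_orderOf_eq_one]) ha.pow (Ua u hu)),
      orderOf_one] at e1
    exact hr.1.ne_one e1.symm
  obtain ⟨M, o⟩ := h.exists_om k (Ty.up hr ha)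
  have ow : OW s j M := ⟨k, o.odd, o.nV (V_left _ _), o.nV (V_right _ _), fun u hu e1 e2 =>
    U1 u (h.cent_j l aT ha.ne (odd_orderOf_of_mem o.odd hu) e1
      (by rwa [conj_of_cm (mem_c1.1 (o.le hu))]) e2) (mem_c1.1 (o.le hu))⟩
  have a3 : ∀ g, g ^ 3 = 1 → g * a = a * g → g = 1 := fun g g3 e => by_contra fun g1 => by
    have : Fact (Nat.Prime 3) := ⟨Nat.prime_three⟩
    obtain ⟨z, hz, z1, z3, e1 | e1 | e1⟩ := ow.exists_comp Nat.prime_three (orderOf_eq_prime g3 g1 ▸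
      M.orderOf_dvd_natCard (o.mem g e (odd_of_pow' (by decide) g3)))
    exacts [z1 (h.no3 k.iv z3 e1 (ow.inv hz e1)), z1 (h.no3 k.symm.iv z3 e1 (ow.symm.inv hz e1)),
      z1 (h.no3 k.mul.symm.iv z3 e1 (ow.mul.symm.inv hz e1))]
  have w1 : ∀ g ∈ 𝒞 (Q3 a b c), g ^ r = 1 → g ∈ Q3 a b c := fun g hg gr => by
    have n0 : V4 s j ≤ 𝒩 (M ⊓ 𝒞 (Q3 a b c)) :=
      le_normalizer_inf o.nV (nV.trans (H7.normalizer_le_normalizer_centralizer _))
    have m0 : ∀ g ∈ 𝒞 (Q3 a b c), g ^ r = 1 → g ∈ M ⊓ 𝒞 (Q3 a b c) := fun g hg e =>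
      ⟨o.mem g (hg a (q1m a b c)).symm (TP.odd hr e), hg⟩
    obtain ⟨P, hP, nP, QP⟩ := (ow.sub inf_le_left n0).ca.exists_syl_ge hr.1 el.pgroup
      (fun z hz => m0 z (el.abel hz) (el.2 z hz)) nV
    have PC := hP.le.trans inf_le_right
    obtain ⟨z, hz, e⟩ := hP.exists_conj_mem (m0 g hg gr) ⟨1, by simpa⟩
    have nQ : Q3 a b c ⊴ P := ⟨QP, le_norm_of_le_cent PC⟩
    have e1 := G4.Om_cent_le hr.1 (hr.1.odd_of_ne_two hr.2.1) hP.isPGroup nQ el (fun Y hY e =>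
      le_antisymm (by_contra fun hn => by
        obtain ⟨u, u1, u2, u3⟩ := exists_mid hr.1 hP.isPGroup nQ hY.1 hn
        have JP := (Om_le r _).trans (G4.Z2_le P)
        have oj := (ow.sub (hP.le.trans inf_le_left) nP).sub JP
          (nP.trans ((G4.norm_le_norm_Z2 P).trans (norm_le_norm_Om _ _)))
        have ex := G4.exp_Om_Z2 hr.1 (hr.1.odd_of_ne_two hr.2.1) P
        obtain ⟨c1, h1, y1, h2, z1, h3, e1, e2, e3, rfl⟩ := oj.fac (mem_Om (show u ∈ Z2 P from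
          ⟨hY.1.le u1, H7.mem_stab.2 ⟨(ctr_nrm P).norm (hY.1.le u1), fun g hg =>
            ⟨QP (u3 g hg), cent_symm PC (u3 g hg)⟩⟩⟩) (hY.2.2 u u1))
        exact u2 (mul_mem (mul_mem
          (zpowers_le.2 (q1m a b c) (h.C2 hr k ha (ex _ h1) e1 (PC (JP h1) a (q1m a b c)).symm (oj.inv h1 e1)))
          (zpowers_le.2 (q3m a b c) (h.C2 hr k.mul.symm T.tc (ex _ h2) e2 (PC (JP h2) c (q3m a b c)).symm
            (oj.mul.symm.inv h2 e2))))
          (zpowers_le.2 (q2m a b c) (h.C2 hr k.symm T.swap.ta (ex _ h3) e3 (PC (JP h3) b (q2m a b c)).symm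
            (oj.symm.inv h3 e3))))) e) (mem_Om ⟨e, PC e⟩ (conj_pow_one gr z))
    simpa [mul_assoc] using conj_mem_of_mem_normalizer' (le_norm_of_le_cent le_rfl hz.2) e1
  have w2 : ∀ τ c', ¬ Tr (Q3 a b c) τ c' := fun τ c' ht => by
    have o := TP.odd hr ha.pow
    have r1 : TV a b c → False := fun e => h.two.tv_false o ha.ne ab T.ca e
      (by simpa only [xa, xb, xc] using e.conj x) (by simpa only [xa, xb, xc] using (e.conj x).conj x)
    have r2 : TV a c b → False := fun e => h.two.tv_false o ha.ne T.ca.symm ab.symm e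
      (by simpa only [xa, xb, xc] using (e.conj x).conj x) (by simpa only [xa, xb, xc] using e.conj x)
    have key : ∀ τ c', Tr (Q3 a b c) τ c' → τ * a = a * τ := fun τ c' ht => by_contra fun e =>
      (tri_tv' T h.two hr ht e).elim r1 r2
    have e1 := conj_comm (key _ _ (ht.conj (inv_mem nx))) x
    have e2 := conj_comm (key _ _ (ht.conj nx)) x⁻¹
    rw [xa] at e1
    rw [← xc] at e2
    exact ht.nt fun g hg => mem_c1.1 (Q3_le (mem_c1.2 (key _ _ ht).symm)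
      (mem_c1.2 (by simpa [mul_assoc] using e1.symm)) (mem_c1.2 (by simpa [mul_assoc] using e2.symm)) hg)
  have yQ := mul_mem (mul_mem (q1m a b c) (q2m a b c)) (q3m a b c)
  have y1 : a * b * c ≠ 1 := fun e => ha.ne (eq_one_of_odd (TP.odd hr ha.pow) (by
    have e1 := T.conj3 (mem_zpowers a) (mem_zpowers b) (mem_zpowers c)
    rw [e, mul_one, mul_inv_cancel] at e1
    rw [ab, mul_assoc, ← T.ca, ← mul_assoc, T.bc] at e
    rw [show a * a = a * b⁻¹ * c⁻¹ * (c * b * a) by group, e, ← e1, mul_one]))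
  have xy : x * (a * b * c) = a * b * c * x := cm_of_conj (by
    rw [show x * (a * b * c) * x⁻¹ = x * a * x⁻¹ * (x * b * x⁻¹) * (x * c * x⁻¹) by group, xa, xb, xc,
      mul_assoc, T.ca, ← mul_assoc, ← ab])
  generalize a * b * c = z at yQ y1 xy
  have oz := TP.odd hr (el.2 z yQ)
  obtain ⟨O, o1, o2, o3, o4, -⟩ := exists_oddpart (h.two.not_four (mem_c1.2 y.xt.symm) y.iv.ss
    fun g hg => y.two g (mem_c1.1 hg))
  obtain ⟨g, hg⟩ := real_of hr.1 o2 y.iv.ss (o4 (mem_norm_c1 (conj_mem_zp_of_comm y.xt)))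
    (o3 z (mem_c1.2 xy.symm) oz) (el.2 z yQ) fun g hg e1 e2 => eq_one_of_pow_coprime
      (hr.1.coprime_iff_not_dvd.2 fun e => ((Nat.Prime.dvd_mul hr.1).1 e).elim (fun e => by
        rcases (Nat.Prime.dvd_mul (m := 2) (n := 3) hr.1).1 e with e | e
        · exact hr.2.1 ((Nat.prime_dvd_prime_iff_eq hr.1 Nat.prime_two).1 e)
        · exact h.n3 ((Nat.prime_dvd_prime_iff_eq hr.1 Nat.prime_three).1 e ▸ hr.2.2)) rf)
      e1 (y.pw g (mem_c1.1 (o1 hg)) e2)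
  obtain ⟨S, hS, QS⟩ := exists_isSyl_ge el.pgroup (H := 𝒞₁ z) fun q hq => mem_c1.2 (el.abel.comm hq yQ)
  obtain ⟨c0, hc0, e0⟩ := (hS.cj_of_mem (mem_norm_c1 (conj_mem_zp_of_inv hg))).exists_cj_eq hS
  rw [← cj_mul] at e0
  obtain ⟨σ, s1, s2, s3⟩ := h.two.exists_inv (g := c0 * g) oz y1 (by
    rw [show c0 * g * z * (c0 * g)⁻¹ = c0 * (g * z * g⁻¹) * c0⁻¹ by group, hg, ← conj_inv,
      conj_of_cm (mem_c1.1 hc0)])
  replace s1 := zpowers_le.2 (wcl hr.1 el (tri_card T hr) w1 w2 hS.isPGroup QS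
    ((cj_mono _ QS).trans e0.le)) s1
  have fx : ∀ g ∈ 𝒩 (Q3 a b c), g * s = s * g → g * a * g⁻¹ ∈ T0 := fun g hg e => zpowers_le.2 aT
    (tri_fix T hr (conj_mem_of_mem_normalizer hg (q1m a b c)) (by
      simpa only [conj_of_cm e] using conj_comm ha.comm g))
  have sy := h.two.sylV k (nV (V_left _ _)) (nV (V_right _ _)) fun i hi e1 e2 e3 => by
    obtain ⟨v, hv, e, he, u, hu, rfl⟩ := l.nrm a aT ha.ne i e1 (fx i hi e1)
    have o := h.oTU l he hu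
    have c : ∀ {w}, w ∈ V4 s j → v * (e * u) * w = w * (v * (e * u)) → e * u * w = w * (e * u) :=
      fun {w} hw e1 => by
        rwa [mul_assoc v, ← mul_assoc w, comm_V (comm_V rfl k.comm.symm hw).symm
          (comm_V k.comm rfl hw).symm hv, mul_assoc v, mul_right_inj] at e1
    rwa [eq_one_of_inv o (comm_V (c (V_left _ _) e1) (c (V_right _ _) e2) hv).symm
      (inv_of_sq (V_sq k hv) e3), mul_one]
  have cs : ∀ i ∈ 𝒩 (Q3 a b c), Iv i → ∃ g ∈ 𝒩 (Q3 a b c), g * i * g⁻¹ = s := fun i hi iv => by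
    obtain ⟨g, hg, e⟩ := sy.exists_conj_mem hi ⟨1, by simpa [sq] using iv.ss⟩
    rcases (memV k).1 e with e | e | e | e
    · exact ((iv.conj g).ne e).elim
    · exact ⟨g, hg, e⟩
    · exact ⟨_, mul_mem (inv_mem nx) hg, by
        rw [show x⁻¹ * g * i * (x⁻¹ * g)⁻¹ = x⁻¹ * (g * i * g⁻¹) * x by group, e, ← y.x1]; group⟩
    · exact ⟨_, mul_mem nx hg, by
        rw [show x * g * i * (x * g)⁻¹ = x * (g * i * g⁻¹) * x⁻¹ by group, e, x0]⟩
  obtain ⟨g, gN, e⟩ := cs σ s1 s2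
  replace s3 : s * (g * z * g⁻¹) * s⁻¹ = (g * z * g⁻¹)⁻¹ := by
    rw [conj_inv, ← s3, ← e]; group
  have x3 := conj_pow_one y.x3 g
  have xN := mul_mem (mul_mem gN nx) (inv_mem gN)
  replace xy := conj_comm xy g
  replace yQ := conj_mem_of_mem_normalizer gN yQ
  replace y1 : g * z * g⁻¹ ≠ 1 := by simpa
  suffices ∃ g', g' * (g * x * g⁻¹) * g'⁻¹ = (g * x * g⁻¹)⁻¹ by
    obtain ⟨g', e⟩ := this
    exact x1 (by simpa using h.no3 (y.iv.conj g) x3 (conj_comm y.xt g) e)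
  replace x1 : g * x * g⁻¹ ≠ 1 := by simpa
  generalize g * z * g⁻¹ = z at *
  generalize g * x * g⁻¹ = x' at *
  refine real_of (X := 𝒩 (Q3 a b c) ⊓ 𝒞₁ z) Nat.prime_three ?_ k.ss ?_ ⟨xN, mem_c1.2 xy⟩ x3
    fun g hg g3 gs => ?_
  · refine Nat.not_even_iff_odd.1 fun e => ?_
    obtain ⟨i, hi, i2, i1⟩ := exists_inv_of_even e
    obtain ⟨g, gN, e1⟩ := cs i hi.1 ⟨i2, i1⟩
    exact x1 (by simpa using a3 _ (conj_pow_one x3 g) (cm_gen hr.1 ha.pow (tri_fix T hr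
      (conj_mem_of_mem_normalizer gN yQ) (e1 ▸ conj_comm (mem_c1.1 hi.2).symm g)) (by simpa)
      (conj_comm xy g)))
  · exact le_normalizer_inf (zpowers_le.2 (le_normalizer (nV (V_left _ _))))
      (zpowers_le.2 (mem_norm_c1 (conj_mem_zp_of_inv s3))) (mem_zpowers _)
  obtain ⟨e, he, u, hu, rfl⟩ := h.nrm' l aT ha.ne (odd_of_pow' (by decide) g3) gs (fx g hg.1 gs)
  have c3 := (Nat.Prime.coprime_iff_not_dvd Nat.prime_three).2 h.n3
  have u3 : u ^ 3 = 1 := h.TU l (by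
    have := G4.mul_pow_mem (n := 3) (inv_mem he) (mul_mem (le_normalizer he) (l.UT hu))
      (by rw [g3]; exact one_mem _)
    rwa [inv_mul_cancel_left] at this) (pow_mem hu 3)
  have uz : u * z = z * u := by
    obtain ⟨i, hi⟩ := sc u hu
    have e1 := conj_pow_eq_of_forall (R := zpowers z) (g := e⁻¹) (d := u) (fun y hy => by
      rw [← hi y (zpowers_le.2 yQ hy)]; exact zpow_mem hy i) (fun y hy => by
        conv_lhs => rw [← conj_of_cm (comm_zpowers (mem_c1.1 hg.2) hy)]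
        group) n z (mem_zpowers z)
    rw [inv_pow, ← l.cT, pwc he, l.cT, inv_one, inv_one, one_mul, mul_one] at e1
    exact mem_c1.1 (mem_of_pow_mem c3 (u3 ▸ one_mem _) (mem_c1.2 (cm_of_conj e1.symm)))
  rw [U2 u hu z yQ y1 uz, mul_one] at g3 ⊢
  exact eq_one_of_pow_coprime c3 g3 (l.cT ▸ pwc he)

theorem main (k : KP s j) (ha : Ty n s j a) (hg : g * a = a * g) : g * s = s * g := by
  by_contra hn
  obtain ⟨r, s, j, a, b, hr, k, ha, hb, ab⟩ := h.pair k ha hg hn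
  obtain ⟨a, x, t, ha, y, ab⟩ := h.exists_cyc hr k ha hb ab
  exact h.nt hr k ha y ab

end TG

end Cfsg.GW2
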