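import Cfsg.Agent.GS.WT4
import Cfsg.Agent.GS.WR1
import Cfsg.Agent.GS.WQ1
import Cfsg.Agent.GS.WS2

/-! Centralizers of the elements of order dividing `n`, and the structure `R3`. -/

set_option autoImplicit false
set_option linter.unusedSectionVars false

namespace Cfsg.GW2

open Subgroup Cfsg.L0 Cfsg.H8 Cfsg.FT Cfsg.GJ

variable {G : Type} [Group G] [Finite G]
variable {t v w x s j r a b c d e g k l u y z : G} {E L U U1 P T Y Z : Subgroup G} {q n m f : ℕ}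

theorem Two.inv_cm (h : Two G) (hs : s * s = 1) (o : Odd (orderOf y)) (y1 : y ≠ 1) (e : y * s = s * y)
    (i : g * y * g⁻¹ = y⁻¹) : ∃ σ, σ * σ = 1 ∧ σ * s = s * σ ∧ σ * y * σ⁻¹ = y⁻¹ := by
  have : Fact (Nat.Prime 2) := ⟨Nat.prime_two⟩
  obtain ⟨σ, -, i1, i2⟩ := h.exists_inv o y1 i
  obtain ⟨R, hR, sR⟩ := exists_isSyl_ge (p2_zp hs) (zpowers_le.2 (mem_norm_zp (conj_mem_zp_of_comm e)))
  obtain ⟨c, hc, e1⟩ := hR.exists_conj_mem (mem_norm_zp (conj_mem_zp_of_inv i2))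
    ⟨1, by rw [pow_one, sq, i1.ss]⟩
  refine ⟨_, conj_sq i1.ss c, h.ab2 hR.isPGroup e1 (sR (mem_zpowers s)), ?_⟩
  rw [show c * σ * c⁻¹ * y * (c * σ * c⁻¹)⁻¹ = c * (σ * (c⁻¹ * y * c) * σ⁻¹) * c⁻¹ by group,
    inv_zpowers i2 (conj_mem_of_norm' hc (mem_zpowers y))]
  group

theorem Loc.conj {L : G → Subgroup G} (h : Loc L n f s j T U)
    (hL : ∀ s g, Iv s → L (g * s * g⁻¹) = cj g (L s)) (g : G) :
    Loc L n f (g * s * g⁻¹) (g * j * g⁻¹) (cj g T) (cj g U) := by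
  have cm : ∀ {a b : G}, g⁻¹ * a * g * b = b * (g⁻¹ * a * g) → a * (g * b * g⁻¹) = g * b * g⁻¹ * a :=
    fun e => by simpa [mul_assoc] using conj_comm e g
  have cm' : ∀ {a b : G}, a * b = b * a → g⁻¹ * a * g * (g⁻¹ * b * g) = g⁻¹ * b * g * (g⁻¹ * a * g) :=
    fun e => by simpa [mul_assoc] using conj_comm e g⁻¹
  have cm2 : ∀ {a b : G}, a * (g * b * g⁻¹) = g * b * g⁻¹ * a → g⁻¹ * a * g * b = b * (g⁻¹ * a * g) :=
    fun e => by simpa [mul_assoc] using conj_comm e g⁻¹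
  refine ⟨h.kp.conj g, (card_cj g T).trans h.cT, Cyc.cj h.cyc g, fun d hd => cm (h.Ts _ (mem_cj.1 hd)),
    fun d hd => ?_, (card_cj g U).trans h.cU, fun d hd => cm (h.Us _ (mem_cj.1 hd)),
    fun d hd => cm (h.Uj _ (mem_cj.1 hd)), cj_norm g T ▸ cj_mono g h.UT, fun d hd d1 c c1 c2 => ?_,
    fun d hd d1 u hu u1 e c c1 c2 => cm (h.kill _ (mem_cj.1 hd) (fun e => d1 (conj_eq_one_iff' e)) _
      (mem_cj.1 hu) (fun e => u1 (conj_eq_one_iff' e)) (cm' e) _ (cm' c1) (cm' c2)),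
    fun u hu c e => ?_, fun v hv u hu e => conj_eq_one_iff' (h.dis _ (hv.conj g⁻¹) _ (mem_cj.1 hu) (by
      rw [hL v _ hv]; simpa using conj_mem_cj (g := g⁻¹) e))⟩
  · rw [show g * j * g⁻¹ * d * (g * j * g⁻¹)⁻¹ = g * (j * (g⁻¹ * d * g) * j⁻¹) * g⁻¹ by group,
      h.inv _ (mem_cj.1 hd)]
    group
  · obtain ⟨v, hv, e, he, u, hu, e1⟩ := h.nrm _ (mem_cj.1 hd) (fun e => d1 (conj_eq_one_iff' e)) _ (cm2 c1)
      (by convert mem_cj.1 c2 using 1; group)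
    refine ⟨g * v * g⁻¹, cj_V g s j ▸ conj_mem_cj hv, _, conj_mem_cj he, _, conj_mem_cj hu, ?_⟩
    calc c = g * (g⁻¹ * c * g) * g⁻¹ := by group
      _ = _ := by rw [e1]; group
  · simpa [mul_assoc] using conj_comm (h.fus _ (mem_cj.1 hu) (g⁻¹ * c * g)
      (by convert mem_cj.1 e using 1; group)) g

namespace W3

variable (h : W3 t E L U P T Y v w x q n m)
include h

theorem n3 : ¬ 3 ∣ n := by have := h.hn; have := h.ks.three_dvd; omega

theorem m3 : ¬ 3 ∣ m := by have := h.hm; have := h.ks.three_dvd; omega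

theorem nm2 : n.Coprime (2 * m) := by
  rw [show 2 * m = n + 1 by have := h.hm; have := h.hn; omega]; simp

theorem x1 : x ≠ 1 := fun e => h.kp.ne (by simpa [e] using h.xv.symm)

theorem P_inv (hk : k ∈ L) (ha : a ∈ P) (a1 : a ≠ 1) (e : k * a = a * k) (k2 : k * k = 1) : k = 1 :=
  eq_one_of_odd (h.ks.R_odd (h.ks.centR hk ha a1 e)) k2

theorem nr' (hk : k ∈ L) (k3 : k ^ 3 = 1) (e : g * k * g⁻¹ = k⁻¹) : k = 1 := by
  by_contra k1
  obtain ⟨σ, s1, s2, s3⟩ := h.two.inv_cm h.iv.ss (odd_of_pow' (by decide) k3) k1 (h.cmL hk) e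
  obtain ⟨c, hc, -, rfl | rfl⟩ := h.exL s2 s1
  · exact k1 (h.nr k hk _ hc k3 s3)
  · rw [h.conj_tk (h.LE hc) (h.cmL hk)] at s3
    exact k1 (h.nr k hk _ hc k3 s3)

theorem T_odd (hd : d ∈ T) : Odd (orderOf d) := h.ks.D_odd hd

theorem tor_conj (hb : b ∈ L) (bn : b ^ n = 1) (b1 : b ≠ 1) (i : w * b * w⁻¹ = b⁻¹) :
    ∃ c ∈ L, c * w = w * c ∧ c * b * c⁻¹ ∈ T := by
  obtain ⟨y, hy, e⟩ := h.tT.cnj b hb bn
  have e1 := h.tT.inverter (mul_mem (mul_mem hy h.wL) (inv_mem hy)) e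
    (fun e2 => b1 (by simpa using eq_one_of_odd (h.T_odd e) e2)) (by
      calc _ = y * (w * b * w⁻¹) * y⁻¹ := by group
        _ = _ := by rw [i]; group)
  obtain ⟨z, hz, e2⟩ := conj_of_inv (h.tT.inv' e1) (h.T_odd e1)
  have zT := zpowers_le.2 e1 hz
  rw [h.tT.ul] at e2
  refine ⟨z * y, mul_mem (h.tT.le zT) hy, ?_, ?_⟩
  · calc _ = z * (y * w * y⁻¹) * y := by group
      _ = _ := by rw [← e2]; group
  · simpa [mul_assoc] using mul_mem (mul_mem zT e) (inv_mem zT)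

theorem ty_conj (e : j = w ∨ j = t * w) (ha : Ty n t j a) :
    ∃ c ∈ L, c * w = w * c ∧ c * a * c⁻¹ ∈ T := by
  have m := h.LL_t ▸ h.LL_re h.iv (odd_of_pow' h.on ha.pow) ha.comm ha.inv
  refine h.tor_conj m ha.pow ha.ne ?_
  rcases e with rfl | rfl
  · exact ha.inv
  · rw [← h.conj_tk (h.LE h.wL) ha.comm, ha.inv]

theorem nrmT (hd : d ∈ T) (d1 : d ≠ 1) (g1 : g * t = t * g) (g2 : g * d * g⁻¹ ∈ T) :
    ∃ v ∈ V4 t w, ∃ e ∈ T, ∃ u ∈ U, g = v * (e * u) := by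
  have key : ∀ k ∈ E, k * d * k⁻¹ ∈ T → ∃ v, (v = 1 ∨ v = w) ∧ ∃ e ∈ T, ∃ u ∈ U, k = v * (e * u) := by
    intro k hk e
    obtain ⟨l, hl, u, hu, rfl⟩ := h.dec k hk
    rcases h.tT.nrm' hl (conj_mem_of_norm (h.UT hu) hd) (by simpa using d1)
      (by convert e using 1; group) with e1 | e1
    · exact ⟨1, Or.inl rfl, l, e1, u, hu, (one_mul _).symm⟩
    · exact ⟨w, Or.inr rfl, _, e1, u, hu, by rw [mul_assoc w, h.tT.ul]⟩
  obtain ⟨k, hk, rfl | rfl⟩ := h.exE g1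
  · obtain ⟨v, hv, e⟩ := key g hk g2
    exact ⟨v, hv.elim (· ▸ one_mem _) (· ▸ V_right _ _), e⟩
  · rw [h.conj_tk hk (h.cmL (h.tT.le hd))] at g2
    obtain ⟨v, hv, e, he, u, hu, rfl⟩ := key k hk g2
    exact ⟨t * v, mul_mem (V_left _ _) (hv.elim (· ▸ one_mem _) (· ▸ V_right _ _)), e, he, u, hu,
      (mul_assoc _ _ _).symm⟩

theorem fusU (hu : u ∈ U) (e : g * u * g⁻¹ ∈ U) : g * u = u * g :=
  cm_of_conj (inv_mul_eq_one.1 (h.dis _ (mul_mem (inv_mem hu) e) (h.fz (h.UE hu) (h.oU' hu) (h.UE e)))).symm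

theorem tg (hk : ∀ d ∈ T, d ≠ 1 → ∀ u ∈ U, u ≠ 1 → u * d = d * u → ∀ g, g * d = d * g → g * u = u * g →
    g * t = t * g) : TG (LL t L) n m ♯U := by
  have back : ∀ g a : G, g⁻¹ * (g * a * g⁻¹) * g⁻¹⁻¹ = a := fun g a => by group
  refine ⟨h.on, h.oU, h.n3, h.m3, h.two, fun s g => h.LL_nL, fun s y g hs o e i => ?_,
    fun s j z s' j' y k hz k' hy e => ?_, fun s j a k ha => ?_, fun s j k => ?_, fun s j k => ?_⟩
  · have m := h.LL_re hs o e i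
    refine ⟨m, ?_⟩
    obtain ⟨c, rfl⟩ := h.one s hs
    rw [h.LL_conj, mem_cj] at m
    have p : ∀ i, (c⁻¹ * y * c) ^ i = 1 → y ^ i = 1 := fun i e => by simpa [mul_assoc] using conj_pow_one e c
    rcases h.ord _ m with e1 | e1 | e1
    · rw [conj_eq_one_iff' (h.nr' (g := c⁻¹ * g * c) m e1 (by
        rw [show c⁻¹ * g * c * (c⁻¹ * y * c) * (c⁻¹ * g * c)⁻¹ = c⁻¹ * (g * y * g⁻¹) * c by group, i]
        group))]
      exact Or.inl (one_pow _)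
    · exact Or.inl (p _ e1)
    · exact Or.inr (eq_one_of_odd (o.of_dvd_nat (orderOf_pow_dvd _)) (by rw [← pow_add, ← two_mul, p _ e1]))
  · have m1 := h.LL_re k'.iv (odd_of_pow' h.om hy.pow) hy.comm hy.inv
    obtain ⟨c, rfl⟩ := h.one s' k'.iv
    rw [h.LL_conj, mem_cj] at m1
    have p : (c⁻¹ * y * c) ^ m = 1 := by simpa using conj_pow_one hy.pow c⁻¹
    obtain ⟨l, hl, m2⟩ := h.tY.cnj _ m1 (by rw [mul_comm, pow_mul, p, one_pow])
    rw [show l * (c⁻¹ * y * c) * l⁻¹ = l * c⁻¹ * y * (l * c⁻¹)⁻¹ by group] at m2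
    have e1 := conj_comm e (l * c⁻¹)
    have z1 := hz.conj (l * c⁻¹)
    have y1 := hy.conj (l * c⁻¹)
    generalize l * c⁻¹ * y * (l * c⁻¹)⁻¹ = y at m2 e1 y1
    generalize l * c⁻¹ * z * (l * c⁻¹)⁻¹ = z at e1 z1
    have oz := odd_of_pow' h.on z1.pow
    have zt : z * t = t * z := by
      have a1 : (𝒞₁ t).relIndex (zpowers z) ≤ 3 := by
        rw [← ncard_class, show 3 = ((V4 t v : Set G) \ {1}).ncard by
          rw [Set.ncard_sdiff_singleton_of_mem (one_mem _), ← card_ncard, card_V4 h.kp_tv]]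
        refine Set.ncard_le_ncard ?_
        rintro _ ⟨g, hg, rfl⟩
        refine ⟨h.rl m2 y1.ne y1.pow (h.iv.conj g).ss ?_, (h.iv.conj g).ne⟩
        have := conj_comm (h.cmL (h.tY.le m2)).symm g
        rwa [conj_of_cm (comm_zpowers e1 hg).symm] at this
      have a2 : (𝒞₁ t).relIndex (zpowers z) ∣ n :=
        (ri_dvd_card _ _).trans (card_zpow z ▸ orderOf_dvd_of_pow_eq_one z1.pow)
      have a3 := Nat.odd_iff.1 (h.on.of_dvd_nat a2)
      have a4 : (𝒞₁ t).relIndex (zpowers z) ≠ 3 := fun e => h.n3 (e ▸ a2)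
      exact mem_c1.1 (relIndex_eq_one.1 (by omega) (mem_zpowers z))
    exact z1.ne (eq_one_of_pow_coprime h.nm2 z1.pow (h.tY.pow (h.tY.cent (h.LL_t ▸ h.LL_re h.iv oz zt z1.inv)
      m2 (fun e => y1.ne (eq_one_of_odd (odd_of_pow' h.om y1.pow) e)) e1.symm)))
  · obtain ⟨g, g1, g2⟩ := h.kp_conj k
    have k' := g1 ▸ k.conj g
    have a' := g1 ▸ ha.conj g
    obtain ⟨c, hc, c1, c2⟩ := h.ty_conj g2 a'
    have l : Loc (LL t L) n ♯U t (g * j * g⁻¹) T U := ⟨k', h.tT.card, h.tT.cyc,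
      fun d hd => h.cmL (h.tT.le hd), fun d hd => by
        rcases g2 with e | e <;> rw [e]
        · exact h.tT.inv' hd
        · rw [h.conj_tk (h.LE h.wL) (h.cmL (h.tT.le hd)), h.tT.inv' hd], rfl,
      fun u hu => h.cm u (h.UE hu), fun u hu => by
        rcases g2 with e | e <;> rw [e]
        · exact mem_cent.1 h.wU u hu
        · exact mem_cent.1 (mul_mem h.tU h.wU) u hu, h.UT, fun d hd d1 y y1 y2 => by
        rcases g2 with e | e <;> rw [e]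
        · exact h.nrmT hd d1 y1 y2
        · rw [V_mul h.kp_tw]; exact h.nrmT hd d1 y1 y2, hk, fun u hu g => h.fusU hu,
      fun v hv u => h.LL_dis hv⟩
    have l' := l.conj (fun s g hs => h.LL_cj hs g) (c * g)⁻¹
    have e1 : (c * g)⁻¹ * t * (c * g)⁻¹⁻¹ = s := by
      rw [show (c * g)⁻¹ * t * (c * g)⁻¹⁻¹ = g⁻¹ * (c⁻¹ * t * c) * g by group, h.cmL (inv_mem hc), ← g1]
      group
    have e2 : (c * g)⁻¹ * (g * j * g⁻¹) * (c * g)⁻¹⁻¹ = j := by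
      have : c * (g * j * g⁻¹) = g * j * g⁻¹ * c := by
        rcases g2 with e | e <;> rw [e]
        exacts [c1, comm_mul (h.cmL hc) c1]
      rw [show (c * g)⁻¹ * (g * j * g⁻¹) * (c * g)⁻¹⁻¹ = g⁻¹ * (c⁻¹ * (g * j * g⁻¹ * c)) * g by group, ← this]
      group
    rw [e1, e2] at l'
    exact ⟨_, _, l', mem_cj.2 (by convert c2 using 1; group)⟩
  · obtain ⟨g, g1, g2⟩ := h.kp_conj k
    refine ⟨cj g⁻¹ (L ⊓ 𝒞₁ w), fun e => ?_, fun c hc => ?_, fun r a b hr ha hb => ?_⟩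
    · rw [card_cj] at e
      obtain ⟨y, hy, o⟩ := exists_orderOf_eq Nat.prime_three e
      obtain ⟨c, hc, e1⟩ := h.ks.conj_R hy.1 (o ▸ pow_orderOf_eq_one y)
      refine (h.kp.symm.iv.conj c).ne (h.P_inv (mul_mem (mul_mem hc h.wL) (inv_mem hc)) e1 ?_
        (conj_comm (mem_c1.1 hy.2).symm c) (h.kp.symm.iv.conj c).ss)
      rintro e2
      rw [← orderOf_conj' c, e2, orderOf_one] at o
      omega
    · rw [mem_cj, inv_inv] at hc
      have e1 := h.cmL hc.1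
      have e2 : g * c * g⁻¹ * (g * j * g⁻¹) = g * j * g⁻¹ * (g * c * g⁻¹) := by
        rcases g2 with e | e <;> rw [e]
        exacts [mem_c1.1 hc.2, comm_mul e1 (mem_c1.1 hc.2)]
      rw [← g1] at e1
      exact ⟨by simpa [mul_assoc] using conj_comm e1 g⁻¹, by simpa [mul_assoc] using conj_comm e2 g⁻¹⟩
    · obtain ⟨c, hc, c1, c2⟩ := h.ty_conj g2 (g1 ▸ (Ty.up hr ha).conj g)
      obtain ⟨d, hd, d1, d2⟩ := h.ty_conj g2 (g1 ▸ (Ty.up hr hb).conj g)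
      have := h.tT.mem_zp hr.1 c2 d2 (by simpa using ha.ne) (conj_pow_one (conj_pow_one ha.pow g) c)
        (conj_pow_one (conj_pow_one hb.pow g) d)
      rw [← cj_zpowers', ← cj_zpowers', mem_cj, mem_cj] at this
      exact ⟨g⁻¹ * (c⁻¹ * d) * g⁻¹⁻¹, conj_mem_cj (mul_mem (inv_mem ⟨hc, mem_c1.2 c1⟩) ⟨hd, mem_c1.2 d1⟩),
        by convert this using 1; group⟩
  · obtain ⟨g, -, y, hy, e1, e2⟩ := h.cycle k
    have yP : y ∈ P := hy.elim (· ▸ h.xP) (· ▸ inv_mem h.xP)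
    have y1 : y ≠ 1 := hy.elim (· ▸ h.x1) (· ▸ inv_ne_one.2 h.x1)
    have yt := h.cmL (h.ks.RK yP)
    have cm : ∀ {a b : G}, a * (g * b * g⁻¹) = g * b * g⁻¹ * a → g⁻¹ * a * g * b = b * (g⁻¹ * a * g) :=
      fun e => by simpa [mul_assoc] using conj_comm e g⁻¹
    refine ⟨_, g * t * g⁻¹, conj_pow_one (h.ks.R3 y yP) g, e1, e2, h.iv.conj g, conj_comm yt g,
      fun c c1 c2 c3 => ?_, fun c c1 c2 => ?_⟩
    · replace c1 := cm c1
      obtain ⟨k, hk, k2, e | e⟩ := h.exL (cm c2) (by simpa using conj_sq c3 g⁻¹) <;> rw [e] at c1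
      · rw [h.P_inv hk yP y1 c1 k2] at e
        exact Or.inl (conj_eq_one_iff' e)
      · rw [← mul_assoc, yt, mul_assoc, mul_assoc, mul_left_cancel_iff] at c1
        rw [h.P_inv hk yP y1 c1 k2, mul_one] at e
        exact Or.inr (by rw [← e]; group)
    · have m : (g⁻¹ * c * g) * (g⁻¹ * c * g) ∈ E := by
        obtain ⟨k, hk, e | e⟩ := h.exE (cm c2) <;> rw [e]
        exacts [mul_mem hk hk, h.tk_sq hk ▸ mul_mem hk hk]
      have := h.ks.R3 _ (h.ks.centR (h.riL ▸ pow_relIndex_mem h.nm m) yP y1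
        (comm_pow (comm_mul (cm c1).symm (cm c1).symm) _).symm)
      rw [← sq, ← pow_mul, ← pow_mul, show 2 * (♯U * 3) = 6 * ♯U by ring] at this
      simpa [mul_assoc] using conj_pow_one this g

theorem tl_of (tg : TG (LL t L) n m f) (hz : z ∈ L) (z1 : z ≠ 1) (zn : z ^ n = 1) (e : g * z = z * g) :
    g * t = t * g := by
  obtain ⟨l, hl, e1⟩ := h.tT.cnj z hz zn
  have := conj_comm (tg.main h.kp_tw ⟨conj_pow_one zn l, by simpa using z1, h.cmL (h.tT.le e1),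
    h.tT.inv' e1⟩ (conj_comm e l)) l⁻¹
  rwa [conj_of_cm (h.cmL (inv_mem hl)), show l⁻¹ * (l * g * l⁻¹) * l⁻¹⁻¹ = g by group] at this

end W3

theorem taskTL : TaskTL := by
  suffices ∀ (N : ℕ) (G : Type) [Group G] [Finite G], Nat.card G = N → ∀ (t : G) (E L : Subgroup G)
      (q n : ℕ), WH t E L q → 3 ∣ q → 2 * n + 1 = q → ∀ z ∈ L, z ≠ 1 → z ^ n = 1 →
        ∀ g, g * z = z * g → g * t = t * g from fun G _ _ => this _ G rfl
  intro N
  induction N using Nat.strong_induction_on with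
  | _ N ih =>
  intro G _ _ hN t E L q n h h3 hn z hz z1 zn g e
  by_cases q3 : q ≤ 3
  · obtain rfl : n = 1 := by have := h.q8; omega
    exact absurd (by simpa using zn) z1
  obtain ⟨U, P, T, Y, v, w, x, n', m, h⟩ := (taskS G t E L q h).2 h3 (by omega)
  obtain rfl : n = n' := by have := h.hn; omega
  refine h.tl_of (h.tg fun d hd d1 u hu u1 ud g g1 g2 => ?_) hz z1 zn e
  obtain ⟨Q, _, _, f, ht, q1, sj, ker, e1, h1, -, -⟩ := taskQ G t v w x E L U q h.toWU h.zf _ (zpowers_le.2 hu)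
  have m : ∀ {y}, y * u = u * y → y ∈ 𝒞 (zpowers u) := fun e => cent_zpowers u ▸ mem_c1.2 e
  have k1 : ∀ y : 𝒞 (zpowers u), f y = 1 → (y : G) ∈ U := fun y e =>
    zpowers_le.2 hu (ker.le (coe_mem_up.2 (mem_bot.2 e)))
  have k2 : ∀ y : 𝒞 (zpowers u), f y ∈ down f E → (y : G) ∈ E := by
    rintro y ⟨a, ha, e⟩
    simpa using E.mul_mem ha (h.UE (k1 (a⁻¹ * y) (by rw [map_mul, map_inv, e, inv_mul_cancel])))
  have e2 : ♯(P ⊓ 𝒞₁ u) = q1 := Nat.pow_left_injective (orderOf_pos u).ne'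
    ((h.fP u hu).trans (by rw [← e1, card_zpow]))
  have := ih _ (by
    rw [← hN, ← card_top (G := Q), ← down_top sj]
    exact (card_down_lt le_rfl (ne_bot_of_mem (x := u) ⟨ker.ge (mem_zpowers u), m rfl⟩ u1)).trans_le
      (card_le_card_group _)) Q rfl _ _ _ _ _ h1
    (Nat.prime_three.dvd_of_dvd_pow (e1 ▸ h3)) ((h.fT u hu).trans e2) (f ⟨d, m ud.symm⟩)
    (mem_down_of_mem (h.tT.le hd)) (fun e => d1 (h.dis d (k1 _ e) (h.tT.le hd))) (by
      rw [← map_pow, show (⟨d, m ud.symm⟩ : 𝒞 (zpowers u)) ^ ♯(T ⊓ 𝒞₁ u) = 1 from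
        Subtype.ext (pwc (X := T ⊓ 𝒞₁ u) ⟨hd, mem_c1.2 ud.symm⟩), map_one]) (f ⟨g, m g2⟩)
    (by rw [← map_mul, ← map_mul]; exact congrArg f (Subtype.ext g1))
  rcases h1.ce _ this with e3 | e3
  · exact h.cm g (k2 _ e3)
  · rw [← map_mul] at e3
    have := h.cm _ (k2 _ e3)
    rwa [coe_mul, mul_assoc, mul_left_cancel_iff] at this

theorem W3.r3 (h : W3 t E L U P T Y v w x q n m) (ft : OddOrder) (gi : GI G) :
    R3 t E L U P T Y v w x q n m := by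
  have tl := taskTL G t E L q n h.toWH h.ks.three_dvd h.hn
  have i1 : (𝒞₁ t).index ≡ 1 [MOD n] := by
    have e := card_dvd_of_free (A := T) (Y := {s : G | Iv s} \ {t}) (fun d hd s hs => ⟨Iv.conj hs.1 d,
      fun e => hs.2 (by
        rw [Set.mem_singleton_iff, ← conj_of_cm (h.cmL (h.tT.le hd)), mul_left_inj, mul_right_inj] at e
        exact e)⟩) fun d hd s hs e => by
      by_contra d1
      have i : Iv s := hs.1
      obtain ⟨k, hk, k2, rfl | rfl⟩ := h.exL (tl d (h.tT.le hd) d1 (h.tT.pow hd) s e.symm) i.ss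
      · exact i.ne (eq_one_of_odd (h.T_odd (h.ks.centD hk hd d1 e.symm)) k2)
      · rw [← mul_assoc, h.cmL (h.tT.le hd), mul_assoc, mul_assoc, mul_left_cancel_iff] at e
        exact hs.2 (by rw [eq_one_of_odd (h.T_odd (h.ks.centD hk hd d1 e.symm)) k2, mul_one]; rfl)
    rw [← h.cnt, ← Set.ncard_sdiff_singleton_add_one (show t ∈ {s : G | Iv s} from h.iv)]
    rw [h.tT.card] at e
    simpa using ((Nat.modEq_zero_iff_dvd.2 e).add_right 1)
  refine ⟨h, h.zf, ft, gi, tl, i1, fun r hr hm => ?_, ?_⟩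
  · have : Fact r.Prime := ⟨hr⟩
    obtain ⟨y, hy, y1, yr⟩ := h.tY.exists_ord hr (hm.mul_left 2)
    obtain ⟨c, rfl⟩ := hm
    have ym : y ^ (r * c) = 1 := by rw [pow_mul, yr, one_pow]
    have := ncard_modEq_conj (p := r) (k := 1) (z := y) (by simpa) (S := {s : G | Iv s})
      fun s hs => Iv.conj hs y
    rwa [h.cnt, show {s ∈ {s : G | Iv s} | y * s = s * y} = (V4 t v : Set G) \ {1} from
      Set.ext fun s => ⟨fun a => ⟨h.rl hy y1 ym (Iv.ss a.1) a.2.symm, Iv.ne a.1⟩,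
        fun a => ⟨⟨V_sq h.kp_tv a.1, a.2⟩, h.Vy hy y1 ym a.1⟩⟩,
      Set.ncard_sdiff_singleton_of_mem (one_mem _), ← card_ncard, card_V4 h.kp_tv] at this
  · refine Nat.coprime_of_dvd fun r hr h1 h2 => hr.one_lt.ne' (Nat.dvd_one.1 ?_)
    exact (Nat.ModEq.dvd_iff (i1.of_dvd h2) dvd_rfl).1 (h1.trans (h.dv gi))

end Cfsg.GW2
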