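import Cfsg.Agent.GS.WT1
import Cfsg.Agent.H8.Trans

/-! Basic facts on `WH` and `WU`, the Sylow `2`-subgroup `A` and its normalizer. -/

set_option autoImplicit false
set_option linter.unusedSectionVars false

namespace Cfsg.GW2

open Subgroup Cfsg.L0 Cfsg.H8 Cfsg.FT Cfsg.GJ

variable {G : Type} [Group G] [Finite G]
variable {t v w x s j a b c g k l u y z : G} {E L U U1 : Subgroup G} {q : ℕ}

theorem card_V4 (k : KP s j) : ♯(V4 s j) = 4 := by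
  have e : (V4 s j : Set G) = {1, s, j, s * j} := Set.ext fun g => by simpa using memV k
  rw [card_ncard, e, Set.ncard_eq_four]
  exact ⟨1, s, j, s * j, k.s1.symm, k.w1.symm, k.mul.w1.symm, k.ne.symm, k.mul.ne.symm,
    by simpa using k.s1, rfl⟩

theorem split_lemma {σ d : G} {Z : Subgroup G} {p : ℕ} (hp : p.Prime) (h1 : σ ∈ 𝒞 Z) (h2 : d ∈ 𝒞 Z)
    (h3 : σ ^ p ∈ Z) (h4 : d * σ * d⁻¹ ∈ zpowers σ ⊔ Z) (h5 : d * σ * d⁻¹ * σ⁻¹ ∉ Z) :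
    ∃ s ∈ zpowers σ ⊔ Z, orderOf s = p ∧ s ∉ Z ∧ d ∈ 𝒩 (zpowers s) ∧ d ∉ 𝒞₁ s := by
  have : Fact p.Prime := ⟨hp⟩
  obtain ⟨_, ⟨i, rfl⟩, z, hz, e⟩ := (mem_sup_r (le_norm_of_le_cent (zpowers_le.2 h1))).1 h4
  have c1 : Commute σ z := (mem_cent.1 h1 z hz).symm
  have c2 : d * z * d⁻¹ = z := conj_of_cm (mem_cent.1 h2 z hz).symm
  have e0 : d * σ * d⁻¹ * σ⁻¹ = σ ^ (i - 1) * z := by
    rw [← e, mul_assoc, ← c1.inv_left.eq]; group
  have s1 : σ ^ (i - 1) * z ≠ 1 := fun e1 => h5 (by rw [e0, e1]; exact one_mem _)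
  have o : (σ ^ (i - 1) * z) ^ p = 1 := by
    have c3 : Commute (d * σ * d⁻¹) σ⁻¹ := by
      rw [← e]; exact ((Commute.refl σ).zpow_left i |>.mul_left c1.symm).inv_right
    rw [← e0, c3.mul_pow, ← conj_pow', conj_of_cm (mem_cent.1 h2 _ h3).symm, inv_pow, mul_inv_cancel]
  have e2 : d * (σ ^ (i - 1) * z) * d⁻¹ = (σ ^ (i - 1) * z) ^ i := by
    calc _ = (d * σ * d⁻¹) ^ (i - 1) * (d * z * d⁻¹) := by rw [conj_zpow]; group
      _ = _ := by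
        rw [← e, c2, (c1.zpow_left i).mul_zpow, (c1.zpow_left (i - 1)).mul_zpow, ← zpow_mul, ← zpow_mul,
          mul_comm i, mul_assoc, ← zpow_add_one, sub_add_cancel]
  refine ⟨_, mul_mem (mem_sup_left (zpow_mem_zpowers _ _)) (mem_sup_right hz),
    orderOf_eq_prime o s1, e0 ▸ h5, mem_norm_zp (e2 ▸ zpow_mem_zpowers _ _), fun e3 => h5 ?_⟩
  rw [conj_of_cm (mem_c1.1 e3), eq_comm, ← mul_inv_eq_one, ← zpow_sub_one,
    ← orderOf_dvd_iff_zpow_eq_one, orderOf_eq_prime o s1] at e2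
  obtain ⟨c, e4⟩ := e2
  rw [e0, e4, zpow_mul, zpow_natCast]
  exact mul_mem (zpow_mem h3 c) hz

namespace WH

variable (h : WH t E L q)
include h

theorem exE (hg : g * t = t * g) : ∃ k ∈ E, g = k ∨ g = t * k :=
  (h.ce g hg).elim (fun e => ⟨g, e, Or.inl rfl⟩) fun e => ⟨_, e, Or.inr (h.iv.sl g).symm⟩

theorem EC : E ≤ 𝒞₁ t := fun k hk => mem_c1.2 (h.cm k hk)

theorem cmL (hk : k ∈ L) : k * t = t * k := h.cm k (h.LE hk)

theorem riE : E.relIndex (𝒞₁ t) = 2 := relIndex_two h.tE h.ce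

theorem ntE (hk : k ∈ E) : t * k ∉ E := fun e => h.tE (by simpa using mul_mem e (inv_mem hk))

theorem conj_tk (hk : k ∈ E) (hy : y * t = t * y) : t * k * y * (t * k)⁻¹ = k * y * k⁻¹ := by
  rw [← h.cm k hk, mul_inv_rev, h.iv.inv, mul_assoc k t y, ← hy]
  simp [mul_assoc, h.iv.sl]

theorem tk_sq (hk : k ∈ E) : t * k * (t * k) = k * k := by
  rw [mul_assoc, ← mul_assoc k, h.cm k hk, mul_assoc, h.iv.sl]

theorem cjL (hg : g * t = t * g) (hk : l ∈ L) : g * l * g⁻¹ ∈ L := by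
  obtain ⟨k, hk', rfl | rfl⟩ := h.exE hg
  · exact conj_mem_of_norm (h.nm hk') hk
  · rw [h.conj_tk hk' (h.cmL hk)]; exact conj_mem_of_norm (h.nm hk') hk

theorem nL (hg : g * t = t * g) : g ∈ 𝒩 L := mem_normalizer_of_forall fun _ hk => h.cjL hg hk

theorem cjE (hg : g * t = t * g) (hk : l ∈ E) : g * l * g⁻¹ ∈ E := by
  obtain ⟨k, hk', rfl | rfl⟩ := h.exE hg
  · exact mul_mem (mul_mem hk' hk) (inv_mem hk')
  · rw [h.conj_tk hk' (h.cm l hk)]; exact mul_mem (mul_mem hk' hk) (inv_mem hk')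

theorem odd_mem (hg : g * t = t * g) (ho : Odd (orderOf g)) : g ∈ E := by
  refine (h.ce g hg).resolve_right fun e => h.tE ?_
  have := pow_mem e (orderOf g)
  rwa [Commute.mul_pow hg.symm, h.iv.pow ho, pow_orderOf_eq_one, mul_one] at this

theorem memL {i : ℕ} (hk : k ∈ E) (e : k ^ 2 ^ i ∈ L) : k ∈ L :=
  mem_of_pow_mem (Nat.Coprime.pow_left i (Nat.coprime_two_left.2 h.oi)) e (pow_relIndex_mem h.nm hk)

theorem memL2 (hk : k ∈ E) (e : k * k ∈ L) : k ∈ L := h.memL (i := 1) hk (by rwa [pow_one, sq])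

theorem inv (hk : k ∈ E) (e : k * k = 1) : k ∈ L := h.memL2 hk (e ▸ one_mem _)

theorem exL (hg : g * t = t * g) (e : g * g = 1) : ∃ k ∈ L, k * k = 1 ∧ (g = k ∨ g = t * k) := by
  obtain ⟨k, hk, rfl | rfl⟩ := h.exE hg
  · exact ⟨g, h.inv hk e, e, Or.inl rfl⟩
  · rw [h.tk_sq hk] at e
    exact ⟨k, h.inv hk e, e, Or.inr rfl⟩

theorem cnt : {s : G | Iv s}.ncard = (𝒞₁ t).index := by
  rw [← relIndex_top_right, ← ncard_class]
  congr 1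
  ext s
  exact ⟨fun hs => let ⟨g, e⟩ := h.one s hs; ⟨g, mem_top _, e⟩,
    by rintro ⟨g, -, rfl⟩; exact h.iv.conj g⟩

end WH

/-- the Sylow `2`-subgroup -/
abbrev A8 (t v w : G) : Subgroup G := zpowers t ⊔ V4 v w

namespace WU

variable (h : WU t E L U v w x q)
include h

theorem Uab (hu : u ∈ U) (ha : a ∈ U) : u * a = a * u := (Cyc.abel h.cyc).comm hu ha

theorem oU' (hu : u ∈ U) : Odd (orderOf u) := h.oU.of_dvd_nat (orderOf_dvd hu)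

theorem EL (ha : a ∈ E) (hb : b ∈ E) : a⁻¹ * (b * a * b⁻¹) ∈ L := by
  obtain ⟨k, hk, u, hu, rfl⟩ := h.dec a ha
  obtain ⟨k', hk', u', hu', rfl⟩ := h.dec b hb
  have e : (k * u)⁻¹ * (k' * u' * (k * u) * (k' * u')⁻¹) =
      u⁻¹ * (k⁻¹ * k' * (u' * k * u'⁻¹)) * u * k'⁻¹ := by
    calc _ = u⁻¹ * (k⁻¹ * k' * (u' * k * u'⁻¹)) * (u' * u) * u'⁻¹ * k'⁻¹ := by group
      _ = _ := by rw [h.Uab hu' hu]; group
  rw [e]
  exact mul_mem (conj_mem_of_norm' (h.nm (h.UE hu)) (mul_mem (mul_mem (inv_mem hk) hk')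
    (conj_mem_of_norm (h.nm (h.UE hu')) hk))) (inv_mem hk')

theorem EL' (ha : a ∈ E) (hg : g * t = t * g) : a⁻¹ * (g * a * g⁻¹) ∈ L := by
  obtain ⟨k, hk, rfl | rfl⟩ := h.exE hg
  · exact h.EL ha hk
  · rw [h.conj_tk hk (h.cm a ha)]; exact h.EL ha hk

theorem RL0 (ha : a ∈ E) (hg : g * t = t * g) (e : g * a * g⁻¹ = a⁻¹) : a ∈ L := by
  have := h.EL' ha hg
  rw [e, ← mul_inv_rev, inv_mem_iff] at this
  exact h.memL2 ha this

theorem VL : V4 v w ≤ L := closure_pair_le h.vL h.wL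

theorem VU : V4 v w ≤ 𝒞 U := closure_pair_le h.vU h.wU

theorem tU : t ∈ 𝒞 U := mem_cent.2 fun u hu => h.cm u (h.UE hu)

theorem riL : L.relIndex E = ♯U := by
  have e : E = L ⊔ U := le_antisymm (fun g hg => by
    obtain ⟨k, hk, u, hu, rfl⟩ := h.dec g hg
    exact mul_mem (mem_sup_left hk) (mem_sup_right hu)) (sup_le h.LE h.UE)
  rw [e]
  exact ri_eq_of_sd (h.UE.trans h.nm) (eq_bot_iff.2 fun u hu => h.dis u hu.2 hu.1)

theorem sylL : IsSyl 2 (V4 v w) L := by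
  refine ⟨h.VL, h.kp.p2, ?_⟩
  rintro ⟨c, hc⟩
  have e := card_mul_ri h.VL
  have e1 := h.cL
  have e2 := h.q8
  rw [← e, card_V4 h.kp, hc] at e1
  have e3 : q ^ 2 % 16 = 9 := by
    have : q % 16 = 3 ∨ q % 16 = 5 ∨ q % 16 = 11 ∨ q % 16 = 13 := by omega
    rcases this with e | e | e | e <;> simp [Nat.pow_mod, e]
  have e4 : Nat.Coprime 16 q := Nat.Coprime.pow_left 4 (Nat.coprime_two_left.2 (Nat.odd_iff.2 (by omega)))
  have := e4.dvd_of_dvd_mul_left (⟨c, by rw [← e1]; ring⟩ : 16 ∣ q * (q ^ 2 - 1))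
  omega

theorem two : Two G := fun y j hy => by
  have : Fact (Nat.Prime 2) := ⟨Nat.prime_two⟩
  have key : ∀ k ∈ E, ∀ j, k ^ 2 ^ j = 1 → k * k = 1 := fun k hk j e => by
    obtain ⟨g, -, hg⟩ := h.sylL.exists_conj_mem (h.memL hk (e ▸ one_mem _)) ⟨j, e⟩
    simpa [mul_assoc] using conj_sq (V_sq h.kp hg) g⁻¹
  obtain ⟨P, hP⟩ := exists_isSyl 2 (𝒞₁ t)
  obtain ⟨g, -, hg⟩ := (hP.trans le_top (by
    rw [relIndex_top_right]; exact h.od.not_two_dvd_nat)).exists_conj_mem (mem_top y) ⟨j, hy⟩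
  have e := conj_pow_one hy g
  suffices g * y * g⁻¹ * (g * y * g⁻¹) = 1 by simpa [mul_assoc] using conj_sq this g⁻¹
  obtain ⟨k, hk, e1 | e1⟩ := h.exE (mem_c1.1 (hP.le hg)) <;> rw [e1] at e ⊢
  · exact key k hk j e
  · rw [h.tk_sq hk]
    refine key k hk (j + 1) ?_
    rw [pow_succ', pow_mul, sq, ← h.tk_sq hk, ← sq, ← pow_mul, mul_comm, pow_mul, e, one_pow]

theorem xvw : x * (v * w) * x⁻¹ = v := by
  calc _ = x * v * x⁻¹ * (x * w * x⁻¹) := by group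
    _ = _ := by rw [h.xv, h.xw, ← h.kp.comm, h.kp.symm.sl]

theorem xx : x * x = x⁻¹ := by rw [← mul_eq_one_iff_eq_inv, ← pow_three', h.x3]

theorem xxv : x * x * v * (x * x)⁻¹ = v * w := by rw [← h.xw, ← h.xv]; group

theorem cycV (ha : a ∈ V4 v w) (a1 : a ≠ 1) : ∃ g ∈ zpowers x, g * a * g⁻¹ = v := by
  rcases (memV h.kp).1 ha with rfl | rfl | rfl | rfl
  · exact absurd rfl a1
  · exact ⟨1, one_mem _, by simp⟩
  · exact ⟨x⁻¹, inv_mem (mem_zpowers x), by rw [← h.xv]; group⟩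
  · exact ⟨x, mem_zpowers x, h.xvw⟩

theorem icL (hk : k ∈ L) (h2 : k * k = 1) (k1 : k ≠ 1) : ∃ l ∈ L, l * k * l⁻¹ = v := by
  have : Fact (Nat.Prime 2) := ⟨Nat.prime_two⟩
  obtain ⟨g, hg, e⟩ := h.sylL.exists_conj_mem hk ⟨1, by rw [pow_one, sq, h2]⟩
  obtain ⟨y, hy, e1⟩ := h.cycV e (by simpa using k1)
  exact ⟨y * g, mul_mem (zpowers_le.2 h.xL hy) hg, by rw [← e1]; group⟩

theorem icL' (hk : k ∈ L) (h2 : k * k = 1) (k1 : k ≠ 1) : ∃ l ∈ L, l * k * l⁻¹ = w := by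
  obtain ⟨l, hl, e⟩ := h.icL hk h2 k1
  exact ⟨x * l, mul_mem h.xL hl, by rw [← h.xv, ← e]; group⟩

/-- an involution commuting with `t` -/
theorem ic (hs : Iv s) (e : s * t = t * s) (n : s ≠ t) :
    ∃ l ∈ L, l * s * l⁻¹ = v ∨ l * s * l⁻¹ = t * v := by
  obtain ⟨k, hk, k2, rfl | rfl⟩ := h.exL e hs.ss
  · obtain ⟨l, hl, e1⟩ := h.icL hk k2 hs.ne
    exact ⟨l, hl, Or.inl e1⟩
  · obtain ⟨l, hl, e1⟩ := h.icL hk k2 (by simpa using n)
    exact ⟨l, hl, Or.inr (by rw [← e1, ← mul_assoc, h.cmL hl]; group)⟩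

theorem kp_conj (k : KP s j) :
    ∃ g, g * s * g⁻¹ = t ∧ (g * j * g⁻¹ = w ∨ g * j * g⁻¹ = t * w) := by
  obtain ⟨g, rfl⟩ := h.one s k.iv
  have k' := k.conj g⁻¹
  rw [show g⁻¹ * (g * t * g⁻¹) * g⁻¹⁻¹ = t by group] at k'
  obtain ⟨l, hl, e⟩ := h.ic k'.symm.iv k'.comm k'.ne
  have c := conj_of_cm (h.cmL (mul_mem h.xL hl))
  refine ⟨x * l * g⁻¹, Eq.trans (by group) c, e.imp (fun e => ?_) fun e => ?_⟩
  · rw [← h.xv, ← e]; group
  · calc _ = x * (l * (g⁻¹ * j * g⁻¹⁻¹) * l⁻¹) * x⁻¹ := by group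
      _ = _ := by rw [e, ← h.xv, ← mul_assoc, h.cmL h.xL]; group

theorem memA : a ∈ A8 t v w ↔ ∃ b ∈ V4 v w, a = b ∨ a = t * b := by
  rw [mem_sup_r (zpowers_le.2 (h.tU |> fun _ => cent_le_norm _ (mem_cent.2 fun k hk => h.cmL (h.VL hk))))]
  constructor
  · rintro ⟨c, hc, b, hb, rfl⟩
    rcases (mem_zp_inv h.iv.ss).1 hc with rfl | rfl
    exacts [⟨b, hb, Or.inl (one_mul b)⟩, ⟨b, hb, Or.inr rfl⟩]
  · rintro ⟨b, hb, rfl | rfl⟩
    exacts [⟨1, one_mem _, a, hb, one_mul a⟩, ⟨t, mem_zpowers t, b, hb, rfl⟩]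

omit h in
theorem tA : t ∈ A8 t v w := mem_sup_left (mem_zpowers t)

omit h in
theorem vA : v ∈ A8 t v w := mem_sup_right (V_left v w)

omit h in
theorem wA : w ∈ A8 t v w := mem_sup_right (V_right v w)

omit h in
theorem cA_iff : g ∈ 𝒞 (A8 t v w) ↔ g * t = t * g ∧ g * v = v * g ∧ g * w = w * g :=
  ⟨fun e => ⟨(mem_cent.1 e t tA).symm, (mem_cent.1 e v vA).symm, (mem_cent.1 e w wA).symm⟩,
    fun e => le_cent1_iff.1 (sup_le (zpowers_le.2 (mem_c1.2 e.1.symm))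
      (closure_pair_le (mem_c1.2 e.2.1.symm) (mem_c1.2 e.2.2.symm)))⟩

theorem AU : A8 t v w ≤ 𝒞 U := sup_le (zpowers_le.2 h.tU) h.VU

theorem abA : Abel (A8 t v w) := sup_le (zpowers_le.2 (cA_iff.2 ⟨rfl, (h.cmL h.vL).symm, (h.cmL h.wL).symm⟩))
  (closure_pair_le (cA_iff.2 ⟨h.cmL h.vL, rfl, h.kp.comm.symm⟩) (cA_iff.2 ⟨h.cmL h.wL, h.kp.comm, rfl⟩))

theorem A_sq (ha : a ∈ A8 t v w) : a * a = 1 := by
  obtain ⟨b, hb, rfl | rfl⟩ := h.memA.1 ha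
  · exact V_sq h.kp hb
  · rw [h.tk_sq (h.LE (h.VL hb)), V_sq h.kp hb]

theorem p2A : IsPGroup 2 (A8 t v w) :=
  isPGroup_iff_forall.2 fun a ha => ⟨1, by rw [pow_one, sq, h.A_sq ha]⟩

theorem cA (hg : g ∈ 𝒞 (A8 t v w)) : ∃ a ∈ A8 t v w, ∃ u ∈ U, g = a * u := by
  obtain ⟨g1, g2, g3⟩ := cA_iff.1 hg
  have key : ∀ k ∈ E, k * v = v * k → k * w = w * k → ∃ a ∈ V4 v w, ∃ u ∈ U, k = a * u := by
    intro k hk k1 k2
    obtain ⟨l, hl, u, hu, rfl⟩ := h.dec k hk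
    rw [mul_assoc, mem_cent.1 h.vU u hu, ← mul_assoc, ← mul_assoc, mul_right_cancel_iff] at k1
    rw [mul_assoc, mem_cent.1 h.wU u hu, ← mul_assoc, ← mul_assoc, mul_right_cancel_iff] at k2
    exact ⟨l, h.cV l hl k1 k2, u, hu, rfl⟩
  obtain ⟨k, hk, rfl | rfl⟩ := h.exE g1
  · obtain ⟨a, ha, u, hu, e⟩ := key g hk g2 g3
    exact ⟨a, mem_sup_right ha, u, hu, e⟩
  · rw [← mul_assoc, h.cmL h.vL, mul_assoc, mul_assoc, mul_left_cancel_iff] at g2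
    rw [← mul_assoc, h.cmL h.wL, mul_assoc, mul_assoc, mul_left_cancel_iff] at g3
    obtain ⟨a, ha, u, hu, rfl⟩ := key k hk g2 g3
    exact ⟨t * a, mul_mem tA (mem_sup_right ha), u, hu, (mul_assoc _ _ _).symm⟩

theorem UA : U ≤ 𝒞 (A8 t v w) := cent_symm h.AU

theorem cA_odd (hg : g ∈ 𝒞 (A8 t v w)) (o : Odd (orderOf g)) : g ∈ U := by
  obtain ⟨a, ha, u, hu, rfl⟩ := h.cA hg
  refine mem_of_sq_mem o ?_
  rw [mul_assoc, ← mul_assoc u, mem_cent.1 (h.AU ha) u hu, mul_assoc, ← mul_assoc, h.A_sq ha, one_mul]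
  exact mul_mem hu hu

theorem cA_two (hg : g ∈ 𝒞 (A8 t v w)) (o : g * g = 1) : g ∈ A8 t v w := by
  obtain ⟨a, ha, u, hu, rfl⟩ := h.cA hg
  rw [mul_assoc, ← mul_assoc u, mem_cent.1 (h.AU ha) u hu, mul_assoc, ← mul_assoc, h.A_sq ha,
    one_mul] at o
  rwa [eq_one_of_odd (h.oU' hu) o, mul_one]

theorem sylA : IsSyl 2 (A8 t v w) ⊤ := by
  have : Fact (Nat.Prime 2) := ⟨Nat.prime_two⟩
  exact isSyl_of_maximal le_top h.p2A fun Q a b _ y hy =>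
    h.cA_two (mem_cent.2 fun z hz => h.two.ab2 a (b hz) hy) (h.two.sq2 a hy)

theorem cardA : ♯(A8 t v w) = 8 := by
  have : Fact (Nat.Prime 2) := ⟨Nat.prime_two⟩
  rw [A8, sup_comm, card_sup_of_inf (zpowers_le.2 (cent_le_norm _ (mem_cent.2 fun k hk =>
    h.cmL (h.VL hk)))), card_V4 h.kp, card_zpow, orderOf_eq_prime ((sq t).trans h.iv.ss) h.iv.ne]
  refine eq_bot_iff.2 fun y hy => ((mem_zp_inv h.iv.ss).1 hy.2).resolve_right ?_
  rintro rfl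
  exact h.tE (h.LE (h.VL hy.1))

theorem xA : x ∈ 𝒩 (A8 t v w) := by
  refine mem_norm_of_cj_le ((cj_le_iff _).2 (sup_le (zpowers_le.2 ?_) (closure_pair_le ?_ ?_))) <;>
    rw [mem_cj, inv_inv]
  · rw [conj_of_cm (h.cmL h.xL)]; exact tA
  · rw [h.xv]; exact wA
  · rw [h.xw]; exact mul_mem vA wA

theorem x_fix (ha : a ∈ A8 t v w) (a1 : a ≠ 1) (e : x * a * x⁻¹ = a) : a = t := by
  have key : ∀ b ∈ V4 v w, x * b * x⁻¹ = b → b = 1 := fun b hb e => by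
    rcases (memV h.kp).1 hb with rfl | rfl | rfl | rfl
    · rfl
    · exact absurd (h.xv.symm.trans e) h.kp.ne
    · exact absurd (h.xw.symm.trans e) (by simpa using h.kp.s1)
    · exact absurd (h.xvw.symm.trans e) h.kp.mul.ne.symm
  obtain ⟨b, hb, rfl | rfl⟩ := h.memA.1 ha
  · exact absurd (key a hb e) a1
  · rw [← mul_assoc, h.cmL h.xL, mul_assoc, mul_assoc, mul_left_cancel_iff, ← mul_assoc] at e
    rw [key b hb e, mul_one]

end WU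

end Cfsg.GW2
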