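import Cfsg.Agent.GS.WZ1

/-! The fusion facts `ZF`. -/

set_option autoImplicit false
set_option linter.unusedSectionVars false

namespace Cfsg.GW2

open Subgroup Cfsg.L0 Cfsg.H8 Cfsg.FT Cfsg.GJ

variable {G : Type} [Group G] [Finite G]
variable {t v w x s j a b c g k l u y z : G} {E L U U1 : Subgroup G} {q : ℕ}

namespace WU

variable (h : WU t E L U v w x q)
include h

theorem NU : 𝒩 (A8 t v w) ≤ 𝒩 U := fun g hg => mem_normalizer_of_forall fun u hu =>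
  h.cA_odd (conj_mem_of_norm (norm_le_norm_cent _ hg) (h.UA hu)) (by rw [orderOf_conj']; exact h.oU' hu)

theorem cAU : 𝒞 (A8 t v w) ≤ 𝒞 U := fun g hg => by
  obtain ⟨a, ha, u, hu, rfl⟩ := h.cA hg
  exact mul_mem (h.AU ha) (Cyc.abel h.cyc hu)

theorem burn (ha : a ∈ A8 t v w) (a1 : a ≠ 1) : ∃ n ∈ 𝒩 (A8 t v w), n * t * n⁻¹ = a := by
  have : Fact (Nat.Prime 2) := ⟨Nat.prime_two⟩
  obtain ⟨g, rfl⟩ := h.one a ⟨h.A_sq ha, a1⟩
  obtain ⟨n, -, hn, e⟩ := h.sylA.burnside_centralizer (A := {t}) (mem_top g)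
    (fun y hy => mem_c1.2 (h.abA.comm hy tA)) (by rintro _ rfl y hy; exact h.abA.comm ha hy)
  exact ⟨n, hn, e t rfl⟩

theorem ncA : {a | a ∈ A8 t v w ∧ a ≠ 1}.ncard = 7 := by
  have := Set.ncard_sdiff_singleton_of_mem (s := (A8 t v w : Set G)) (one_mem _)
  rw [← card_ncard, h.cardA] at this
  exact this

theorem ri_N : (𝒞₁ t).relIndex (𝒩 (A8 t v w)) = 7 := by
  rw [← ncard_class, ← h.ncA]
  congr 1
  ext a
  exact ⟨by rintro ⟨g, hg, rfl⟩; exact ⟨conj_mem_of_norm hg tA, (h.iv.conj g).ne⟩,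
    fun ha => h.burn ha.1 ha.2⟩

/-- a normal subgroup of `N(A)` containing `x` is transitive on `A#` -/
theorem trans_of {K : Subgroup G} (hK : K ⊴ 𝒩 (A8 t v w)) (hx : x ∈ K) :
    (𝒞₁ t).relIndex K = 7 ∧ ∀ a ∈ A8 t v w, a ≠ 1 → ∃ n ∈ K, n * t * n⁻¹ = a := by
  have e : (𝒞₁ t).relIndex K = 7 := by
    have n1 : 𝒞₁ t ⊓ 𝒩 (A8 t v w) ≤ 𝒩 K := inf_le_right.trans hK.norm
    have e1 : (𝒞₁ t).relIndex K ∣ 7 := by
      have e2 := card_sup_mul n1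
      have e3 := card_inf_mul_ri (𝒞₁ t) K
      have e4 := card_mul_ri (le_sup_right : 𝒞₁ t ⊓ 𝒩 (A8 t v w) ≤ K ⊔ 𝒞₁ t ⊓ 𝒩 (A8 t v w))
      have e5 := ri_mul (le_sup_right : 𝒞₁ t ⊓ 𝒩 (A8 t v w) ≤ K ⊔ 𝒞₁ t ⊓ 𝒩 (A8 t v w))
        (sup_le hK.le inf_le_right)
      rw [inf_relIndex_right, h.ri_N] at e5
      rw [show K ⊓ (𝒞₁ t ⊓ 𝒩 (A8 t v w)) = 𝒞₁ t ⊓ K from le_antisymm (fun y hy => ⟨hy.2.1, hy.1⟩)
        fun y hy => ⟨hy.2, hy.1, hK.le hy.2⟩, ← e4, ← e3] at e2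
      have p1 := card_pos' (𝒞₁ t ⊓ K)
      have p2 := card_pos' (𝒞₁ t ⊓ 𝒩 (A8 t v w))
      refine ⟨_, e5.symm.trans (congrArg (· * _) (Nat.eq_of_mul_eq_mul_left (Nat.mul_pos p1 p2) ?_))⟩
      linarith
    refine ((Nat.dvd_prime (by norm_num)).1 e1).resolve_left fun e2 => ?_
    obtain ⟨n, hn, e3⟩ := h.burn vA h.kp.s1
    have := conj_comm (mem_c1.1 (relIndex_eq_one.1 e2 (hK.conj_mem (inv_mem hn) hx))) n
    rw [e3, show n * (n⁻¹ * x * n⁻¹⁻¹) * n⁻¹ = x by group] at this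
    exact h.kp.ne (h.xv.symm.trans (conj_of_cm this))
  refine ⟨e, fun a ha a1 => ?_⟩
  have e1 : {y | ∃ g ∈ K, g * t * g⁻¹ = y} = {a | a ∈ A8 t v w ∧ a ≠ 1} :=
    Set.eq_of_subset_of_ncard_le (by
      rintro _ ⟨g, hg, rfl⟩; exact ⟨conj_mem_of_norm (hK.le hg) tA, (h.iv.conj g).ne⟩)
      (by rw [ncard_class, e, h.ncA])
  exact e1.ge ⟨ha, a1⟩

theorem KN : 𝒩 (A8 t v w) ⊓ 𝒞 U ⊴ 𝒩 (A8 t v w) := (Nrm.refl _).inf_cent h.NU

theorem tr (hU : U1 ≤ U) (hs : s ∈ 𝒞 U1) (i : Iv s) : ∃ g ∈ 𝒞 U1, g * t * g⁻¹ = s := by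
  have : Fact (Nat.Prime 2) := ⟨Nat.prime_two⟩
  obtain ⟨g, hg, e⟩ := (h.sylA.mono (h.AU.trans (cent_anti hU)) le_top).exists_conj_mem hs
    ⟨1, by rw [pow_one, sq, i.ss]⟩
  obtain ⟨n, hn, e1⟩ := (h.trans_of h.KN ⟨h.xA, h.xU⟩).2 _ e (i.conj g).ne
  exact ⟨g⁻¹ * n, mul_mem (inv_mem hg) (cent_anti hU hn.2), by
    rw [show g⁻¹ * n * t * (g⁻¹ * n)⁻¹ = g⁻¹ * (n * t * n⁻¹) * g by group, e1]; group⟩

theorem NCt (hg : g ∈ 𝒩 (A8 t v w)) (e : g * t = t * g) : g ∈ 𝒞 (A8 t v w) ⊔ zpowers x := by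
  have : Fact (Nat.Prime 2) := ⟨Nat.prime_two⟩
  have AL : ∀ a ∈ A8 t v w, a ∈ L → a ∈ V4 v w := fun a ha hL => by
    obtain ⟨b, hb, rfl | rfl⟩ := h.memA.1 ha
    exacts [hb, (h.ntE (h.LE (h.VL hb)) (h.LE hL)).elim]
  have key : ∀ g ∈ 𝒩 (A8 t v w), g * t = t * g → g * v * g⁻¹ = v → g ∈ 𝒞 (A8 t v w) := by
    intro g hg e e1
    refine cA_iff.2 ⟨e, cm_of_conj e1, ?_⟩
    have k := h.kp.conj g
    rw [e1] at k
    rcases (memV h.kp).1 (AL _ (conj_mem_of_norm hg wA) (h.cjL e h.wL)) with e2 | e2 | e2 | e2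
    · exact absurd e2 k.w1
    · exact absurd e2 k.ne
    · exact cm_of_conj e2
    obtain ⟨i, ⟨i, rfl⟩, hi⟩ := h.two.exists_odd g
    have e3 := h.abA.comm (h.sylA.mem_of_mem_normalizer (mem_top _) ⟨1, by rw [pow_one, sq, hi]⟩
      (pow_mem hg (2 * i + 1))) wA
    have e4 : g ^ 2 * w = w * g ^ 2 := cm_of_conj (by
      calc _ = g * (g * w * g⁻¹) * g⁻¹ := by rw [sq]; group
        _ = g * (v * w) * g⁻¹ := by rw [e2]
        _ = g * v * g⁻¹ * (g * w * g⁻¹) := by group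
        _ = _ := by rw [e1, e2, h.kp.sl])
    rwa [pow_succ, pow_mul, ← mul_assoc, comm_pow e4.symm, mul_assoc, mul_assoc,
      mul_left_cancel_iff] at e3
  obtain ⟨y, hy, e1⟩ := h.cycV (AL _ (conj_mem_of_norm hg vA) (h.cjL e h.vL)) (h.kp.iv.conj g).ne
  have := key (y * g) (mul_mem (zpowers_le.2 h.xA hy) hg) (by
    rw [mul_assoc, e, ← mul_assoc, h.cmL (zpowers_le.2 h.xL hy), mul_assoc]) (Eq.trans (by group) e1)
  simpa using mul_mem (inv_mem (mem_sup_right hy)) (mem_sup_left this)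

theorem s7 : ∃ s d, orderOf s = 7 ∧ s ∉ U ∧ s ∈ 𝒞 U ∧ d ∈ 𝒞 U ∧ d ∈ 𝒩 (zpowers s) ∧ d ∉ 𝒞₁ s ∧
    Odd (orderOf d) := by
  have : Fact (Nat.Prime 7) := ⟨by norm_num⟩
  set A := A8 t v w with hA
  set K := 𝒩 A ⊓ 𝒞 U with hK
  have xK : x ∈ K := ⟨h.xA, h.xU⟩
  have CK : 𝒞 A ≤ K := le_inf (cent_le_norm A) h.cAU
  have nC : K ≤ 𝒩 (𝒞 A) := inf_le_left.trans (norm_le_norm_cent A)
  have Ct : 𝒞 A ≤ 𝒞₁ t := cent_le_cent1 tA
  have r7 : (𝒞₁ t).relIndex K = 7 := (h.trans_of h.KN xK).1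
  have r21 : (𝒞 A).relIndex K ∣ 3 * 7 := by
    rw [← ri_mul (le_inf Ct CK) inf_le_right, inf_relIndex_right, r7]
    refine Nat.mul_dvd_mul_right ((ri_dvd_of_le (K := 𝒞 A ⊔ zpowers x) (fun g (hg : g ∈ 𝒞₁ t ⊓ K) =>
      h.NCt hg.2.1 (mem_c1.1 hg.1)) (sup_le (le_norm _) (zpowers_le.2 (nC xK)))).trans ?_) 7
    rw [ri_sup (zpowers_le.2 (nC xK))]
    exact (ri_dvd_card _ _).trans (card_zpow x ▸ orderOf_dvd_of_pow_eq_one h.x3)
  obtain ⟨S, hS⟩ := exists_isSyl 7 K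
  obtain ⟨σ, hσ, σt⟩ : ∃ σ ∈ S, σ ∉ 𝒞₁ t := by
    by_contra! e
    exact hS.not_dvd_of_le e (r7 ▸ dvd_rfl)
  have MK : 𝒞 A ⊔ S ≤ K := sup_le CK hS.le
  have r3 : (𝒞 A ⊔ S).relIndex K ∣ 3 := Nat.Coprime.dvd_of_dvd_mul_right
    ((Nat.coprime_comm.1 ((Nat.Prime.coprime_iff_not_dvd this.out).2 (hS.not_dvd_of_le le_sup_right))))
    ((ri_dvd_of_le_left le_sup_left K).trans r21)
  have nM : K ≤ 𝒩 (𝒞 A ⊔ S) := fun g hg => by
    refine inv_mem_iff.1 (mem_norm_of_cj_le (le_cj_iff.1 (sup_le ((cj_eq_of_mem_norm (nC hg)).ge.trans (cj_mono g le_sup_left)) ?_)))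
    obtain ⟨i, hi⟩ := exists_relIndex_eq_pow hS.isPGroup (cj g (𝒞 A ⊔ S))
    have e := relIndex_le_of_le_right (H := cj g (𝒞 A ⊔ S)) hS.le (relIndex_pos _ _).ne'
    have e0 := relIndex_cj g (𝒞 A ⊔ S) K
    rw [cj_eq_of_mem hg] at e0
    rw [e0, hi] at e
    have := e.trans (Nat.le_of_dvd (by norm_num) r3)
    rcases i with _ | i
    · exact relIndex_eq_one.1 hi
    · have := pow_pos (show 0 < 7 by norm_num) i
      omega
  have r7' : (𝒞 A).relIndex S = 7 := by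
    obtain ⟨i, hi⟩ := exists_relIndex_eq_pow hS.isPGroup (𝒞 A)
    have e := (ri_dvd_of_le hS.le nC).trans r21
    rw [hi] at e
    have := (Nat.Coprime.pow_left i (by norm_num)).dvd_of_dvd_mul_left e
    rw [← hi] at this
    exact ((Nat.dvd_prime (by norm_num)).1 this).resolve_left fun e => σt (Ct (relIndex_eq_one.1 e hσ))
  have oS : ∀ y ∈ S, Odd (orderOf y) := fun y hy =>
    let ⟨i, hi⟩ := isPGroup_iff_forall.1 hS.isPGroup y hy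
    odd_of_pow' (Odd.pow (by decide)) hi
  have SU : S ≤ zpowers σ ⊔ U := by
    have e := ri_mul (le_sup_right : 𝒞 A ⊓ S ≤ zpowers σ ⊔ 𝒞 A ⊓ S)
      (sup_le (zpowers_le.2 hσ) inf_le_right)
    rw [inf_relIndex_right, r7'] at e
    rcases (Nat.dvd_prime this.out).1 ⟨_, e.symm⟩ with e1 | e1
    · exact (σt (Ct (relIndex_eq_one.1 e1 (mem_sup_left (mem_zpowers σ))).1)).elim
    · rw [e1] at e
      exact (relIndex_eq_one.1 (show (zpowers σ ⊔ 𝒞 A ⊓ S).relIndex S = 1 by omega)).trans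
        (sup_le_sup_left (fun y (hy : y ∈ 𝒞 A ⊓ S) => h.cA_odd hy.1 (oS y hy.2)) _)
  have σU : σ ∈ 𝒞 U := (hS.le hσ).2
  have abS : ∀ y ∈ S, y * σ = σ * y := fun y hy => mem_c1.1 (sup_le (cent_zpowers σ ▸ Cyc.abel (cyc_zpowers σ))
    (le_cent1_iff.2 σU) (SU hy))
  obtain ⟨m, hm, n, hn, e⟩ := (hS.mono le_sup_right MK).frattini (nM (mul_mem xK xK))
  have nK : n ∈ K := by
    rw [← inv_mul_eq_iff_eq_mul] at e
    exact e ▸ mul_mem (inv_mem (MK hm)) (mul_mem xK xK)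
  have e1 : n * n * x⁻¹ ∈ 𝒞 A ⊔ S := by
    have e2 : n * n * x⁻¹ = m⁻¹ * (x * x * m⁻¹ * (x * x)⁻¹) * x ^ 3 := by
      rw [show n = m⁻¹ * (x * x) by rw [e]; group, pow_three']; group
    rw [e2, h.x3, mul_one]
    exact mul_mem (inv_mem hm) (conj_mem_of_norm (nM (mul_mem xK xK)) (inv_mem hm))
  obtain ⟨c, hc, y, hy, e2⟩ := (mem_sup_l (hS.le.trans nC)).1 e1
  suffices e3 : n * n * σ * (n * n)⁻¹ * σ⁻¹ ∉ U by
    obtain ⟨s, hs, s1, s2, s3, s4⟩ := split_lemma (d := n * n) this.out σU (mul_mem nK nK).2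
      (h.cA_odd (r7' ▸ pow_relIndex_mem (hS.le.trans nC) hσ) (oS _ (pow_mem hσ 7)))
      (SU (conj_mem_of_norm (mul_mem hn hn) hσ)) e3
    obtain ⟨i, hi, e3⟩ := h.two.exists_odd n
    exact ⟨s, n * n, s1, s2, sup_le (zpowers_le.2 σU) (Cyc.abel h.cyc) hs, (mul_mem nK nK).2, s3, s4,
      odd_of_pow' hi (by rw [Commute.mul_pow rfl, e3])⟩
  refine fun e3 => σt ?_
  have a1 : σ * t * σ⁻¹ ∈ A := conj_mem_of_norm (hS.le hσ).1 tA
  have a2 : y * t * y⁻¹ ∈ A := conj_mem_of_norm (hS.le hy).1 tA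
  have a3 : σ * (y * t * y⁻¹) * σ⁻¹ ∈ A := conj_mem_of_norm (hS.le hσ).1 a2
  refine mem_c1.2 (cm_of_conj (h.x_fix a1 (h.iv.conj σ).ne ?_))
  have e4 : n * n = c * y * x := by rw [e2]; group
  have e5 : n * n * t * (n * n)⁻¹ = y * t * y⁻¹ := by
    rw [e4, ← conj_of_cm (mem_cent.1 hc _ a2).symm, ← conj_of_cm (h.cmL h.xL)]
    rw [conj_of_cm (h.cmL h.xL)]
    calc _ = c * (y * (x * t * x⁻¹) * y⁻¹) * c⁻¹ := by group
      _ = _ := by rw [conj_of_cm (h.cmL h.xL)]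
  have e6 : n * n * (σ * t * σ⁻¹) * (n * n)⁻¹ = σ * (y * t * y⁻¹) * σ⁻¹ := by
    rw [← conj_of_cm (mem_cent.1 (h.UA e3) _ a3).symm, ← e5]; group
  calc _ = y⁻¹ * (c⁻¹ * (n * n * (σ * t * σ⁻¹) * (n * n)⁻¹) * c) * y := by rw [e4]; group
    _ = y⁻¹ * (σ * y) * t * (y⁻¹ * (σ * y))⁻¹ := by
      rw [e6, mul_assoc c⁻¹, mem_cent.1 hc _ a3]; group
    _ = _ := by rw [← abS y hy]; group

theorem fz (hz : z ∈ E) (o : Odd (orderOf z)) (hg : g * z * g⁻¹ ∈ E) : z⁻¹ * (g * z * g⁻¹) ∈ L := by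
  have : Fact (Nat.Prime 2) := ⟨Nat.prime_two⟩
  have k1 : ∀ z ∈ E, Odd (orderOf z) → ∀ g, g * z * g⁻¹ ∈ E → (g⁻¹ * t * g = v ∨ g⁻¹ * t * g = t * v) →
      z⁻¹ * (g * z * g⁻¹) ∈ L := by
    intro z hz o g hg e
    have c : z * (g⁻¹ * t * g) = g⁻¹ * t * g * z := by simpa [mul_assoc] using conj_comm (h.cm _ hg) g⁻¹
    have sA : g⁻¹ * t * g ∈ A8 t v w := e.elim (· ▸ vA) (· ▸ mul_mem tA vA)
    have zv : z * v = v * z := by
      rcases e with e | e <;> rw [e] at c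
      · exact c
      · rwa [← mul_assoc, h.cm z hz, mul_assoc, mul_assoc, mul_left_cancel_iff] at c
    obtain ⟨g₀, hg₀, e₀⟩ := h.tr le_rfl (h.AU sA) (by simpa using h.iv.conj g⁻¹)
    obtain ⟨k, hk, u, hu, rfl⟩ := h.dec z hz
    rw [mul_assoc, mem_cent.1 h.vU u hu, ← mul_assoc, ← mul_assoc, mul_right_cancel_iff] at zv
    have ct : ∀ y, y * (g⁻¹ * t * g) = g⁻¹ * t * g * y → g₀⁻¹ * y * g₀ * t = t * (g₀⁻¹ * y * g₀) :=
      fun y e => by rw [← e₀] at e; simpa [mul_assoc] using conj_comm e g₀⁻¹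
    have e1 : g₀⁻¹ * (k * u) * g₀ = g₀⁻¹ * k * g₀ * u := by
      rw [mul_assoc (g₀⁻¹ * k), ← mem_cent.1 hg₀ u hu]; group
    have m1 : g₀⁻¹ * k * g₀ * u ∈ E := e1 ▸ h.odd_mem (ct _ c) (by
      rwa [← orderOf_conj' g₀⁻¹, inv_inv] at o)
    have m2 : g₀⁻¹ * k * g₀ ∈ E := by simpa using mul_mem m1 (inv_mem (h.UE hu))
    obtain ⟨i, hi, e2⟩ := h.two.exists_odd k
    have e3 := h.di _ (mul_mem hk hk) (comm_mul zv.symm zv.symm).symm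
      (odd_of_pow' hi (by rw [Commute.mul_pow rfl, e2]))
    have m3 : g₀⁻¹ * k * g₀ ∈ L := h.memL2 m2 (h.RL0 (mul_mem m2 m2) (ct w (h.abA.comm wA sA)) (by
      calc _ = g₀⁻¹ * (w * (k * k) * w⁻¹) * g₀ := by group
        _ = _ := by rw [h.kp.symm.iv.inv, e3]; group))
    have c1 : g * g₀ * t = t * (g * g₀) := cm_of_conj (by
      rw [show g * g₀ * t * (g * g₀)⁻¹ = g * (g₀ * t * g₀⁻¹) * g⁻¹ by group, e₀]; group)
    have := mul_mem (conj_mem_of_norm' (h.nm (h.UE hu)) (mul_mem (inv_mem hk) m3)) (h.EL' m1 c1)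
    rw [← e1] at this
    convert this using 1
    rw [mul_assoc u⁻¹, mul_assoc k⁻¹, ← e1]; group
  have c : z * (g⁻¹ * t * g) = g⁻¹ * t * g * z := by simpa [mul_assoc] using conj_comm (h.cm _ hg) g⁻¹
  have is : Iv (g⁻¹ * t * g) := by simpa using h.iv.conj g⁻¹
  obtain ⟨R, hR, tR⟩ := exists_isSyl_ge (p2_zp h.iv.ss) (zpowers_le.2 (mem_c1.2 (h.cm z hz).symm))
  obtain ⟨c, hc, e⟩ := hR.exists_conj_mem (mem_c1.2 c.symm) ⟨1, by rw [pow_one, sq, is.ss]⟩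
  have e1 := h.two.ab2 hR.isPGroup e (tR (mem_zpowers t))
  have e2 : g * c⁻¹ * z * (g * c⁻¹)⁻¹ = g * z * g⁻¹ := by
    rw [mul_assoc g, mem_c1.1 (inv_mem hc)]; group
  rw [← e2] at hg ⊢
  by_cases e3 : c * (g⁻¹ * t * g) * c⁻¹ = t
  · exact h.EL' hz (cm_of_conj (by nth_rewrite 1 [← e3]; group))
  obtain ⟨l, hl, e4⟩ := h.ic (is.conj c) e1 e3
  have m := h.cjE (h.cmL hl) hz
  have := mul_mem (h.EL hz (h.LE hl)) (k1 _ m (by rwa [orderOf_conj']) (g * c⁻¹ * l⁻¹)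
    (by convert hg using 1; group) (e4.imp (Eq.trans (by group)) (Eq.trans (by group))))
  convert this using 1
  group

theorem dv (gi : GI G) : ♯U ∣ (𝒞₁ t).index := by
  have n1 : zpowers t ≤ 𝒩 L := zpowers_le.2 (h.nL rfl)
  obtain ⟨Q, iQ, _, ν, sj, ker⟩ := exists_quo (K := L ⊔ zpowers t) (M := 𝒞₁ t)
    ⟨sup_le (h.LE.trans h.EC) (zpowers_le.2 (mem_c1.2 rfl)), le_norm_sup (fun g hg => h.nL (mem_c1.1 hg))
      (le_norm_of_le_cent (cent_zpowers t).ge)⟩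
  have k1 : ∀ y : 𝒞₁ t, ν y = 1 ↔ (y : G) ∈ L ⊔ zpowers t := fun y => by
    rw [← ker, coe_mem_up, mem_bot]
  have k2 : ∀ a : Q, ∃ u, ∃ hu : u ∈ U, ν ⟨u, h.EC (h.UE hu)⟩ = a := fun a => by
    obtain ⟨y, rfl⟩ := sj a
    obtain ⟨k, hk, e⟩ := h.exE (mem_c1.1 y.2)
    obtain ⟨l, hl, u, hu, rfl⟩ := h.dec k hk
    refine ⟨u, hu, ?_⟩
    rw [eq_comm, ← mul_inv_eq_one, ← map_inv, ← map_mul, k1]
    rcases e with e | e <;> simp only [coe_mul, coe_inv, e, mul_assoc, mul_inv_cancel, mul_one]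
    exacts [mem_sup_left hl, mul_mem (mem_sup_right (mem_zpowers t)) (mem_sup_left hl)]
  let _ : CommGroup Q := { iQ with
    mul_comm := fun a b => by
      obtain ⟨u, hu, rfl⟩ := k2 a
      obtain ⟨u', hu', rfl⟩ := k2 b
      rw [← map_mul, ← map_mul]
      exact congrArg ν (Subtype.ext (h.Uab hu hu')) }
  have k3 : ∀ g, MonoidHom.transfer ν g = 1 := fun g => by
    refine MonoidHom.mem_ker.1 ((closure_le _).2 (fun s hs => ?_) (gi.ge (mem_top g)))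
    obtain ⟨u, hu, e⟩ := k2 (MonoidHom.transfer ν s)
    refine MonoidHom.mem_ker.2 (eq_one_of_odd ?_ (by rw [← map_mul, Iv.ss hs, map_one]))
    rw [← e]
    exact (h.oU' hu).of_dvd_nat ((orderOf_map_dvd ν _).trans (by rw [Subgroup.orderOf_mk]))
  obtain ⟨u, hu, e⟩ := Cyc.exists_zpowers h.cyc
  have e1 := transfer_eq_pow_elt ν ⟨u, h.EC (h.UE hu)⟩ fun g i hy => by
    have o := h.oU' (pow_mem hu i)
    rw [← map_pow, eq_comm, ← inv_mul_eq_one, ← map_inv, ← map_mul, k1]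
    simpa using mem_sup_left (h.fz (g := g⁻¹) (h.UE (pow_mem hu i)) o (h.odd_mem
      (by simpa using mem_c1.1 hy) (by rwa [orderOf_conj'])))
  rw [k3, eq_comm, ← map_pow, k1] at e1
  obtain ⟨l, hl, c, hc, e2⟩ := (mem_sup_l n1).1 e1
  rw [← e, card_zpow, orderOf_dvd_iff_pow_eq_one]
  simp only [SubmonoidClass.mk_pow] at e2
  rcases (mem_zp_inv h.iv.ss).1 hc with rfl | rfl
  · exact h.dis _ (pow_mem hu _) (by rwa [← e2, mul_one])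
  · exact (h.ntE (h.LE hl) (by rw [← h.cmL hl, e2]; exact h.UE (pow_mem hu _))).elim

theorem zf : ZF t E L U :=
  ⟨h.two, fun _ => h.inv, fun _ hU _ => h.tr hU, fun _ hz o _ => h.fz hz o, h.cnt, h.s7, h.dv⟩

end WU

theorem taskZ : TaskZ := fun _ _ _ _ _ _ _ _ _ _ _ h => h.zf

end Cfsg.GW2
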