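import Cfsg.Agent.GS.X3
import Cfsg.Agent.GS.G2

/-! Local data at an involution of `C(A) \ A`, lines, and the number of points. -/

set_option autoImplicit false

namespace Cfsg.GS.Xx

open Subgroup Cfsg.L0 Cfsg.H8 Cfsg.FT Cfsg.BS Cfsg.BS.R Cfsg.GS.T3 Cfsg.GS.T4 Cfsg.GS.Ax MulAction
open Cfsg.GS.Nx Cfsg.GS.Gx
open scoped commutatorElement

section
variable {G : Type} [Group G] {A H P P' R R' S S2 T T' T1 M : Subgroup G} {a k k' r s t u v x y : G}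

theorem card_proj [Finite G] (h1 : T ≤ T' ⊔ R) (h2 : T' ≤ 𝒩 R) (h3 : T ⊓ R = ⊥) : ♯T ≤ ♯T' := by
  have a := card_inf_mul_relIndex R T
  have b := card_inf_mul_relIndex R T'
  have c := relIndex_le_of_le_right (H := R) h1 (relIndex_pos _ _).ne'
  rw [relIndex_sup_of_le_normalizer h2] at c
  rw [inf_comm, h3, card_bot, one_mul] at a
  exact a ▸ c.trans (b ▸ Nat.le_mul_of_pos_left _ Nat.card_pos)

theorem ty_inf (h : Ty A T k) (h1 : A ⊓ R = ⊥) : T ⊓ R = ⊥ := eq_bot_iff.2 fun x hx =>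
  eq_one_of_mem h1 ⟨ty_mem h hx.1 (eq_one_of_mem h1 ⟨ty_sq h hx.1, R.mul_mem hx.2 hx.2⟩), hx.2⟩

theorem ty_card_le [Finite G] (h : Ty A T k) : ♯T ≤ ♯A ^ 3 := by
  have : 1 ≤ ♯A := Nat.card_pos
  rcases ty_card h with e | e | e <;> rw [e]
  · exact Nat.le_self_pow (by omega) _
  · exact Nat.pow_le_pow_right this (by omega)

namespace Lc
variable (l : T4.Loc A P T R v k)
include l

theorem TP : T ≤ P := l.sup ▸ le_sup_left
theorem RP : R ≤ P := l.sup ▸ le_sup_right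
theorem AT : A ≤ T := ty_le l.ty
theorem AP : A ≤ P := (AT l).trans (TP l)
theorem rr (hr : r ∈ R) : r * r = 1 := mul_self_of_elem l.el hr
theorem vv : v * v = 1 := rr l l.vR
theorem ivo : Ivo v := ⟨l.v1, vv l⟩
theorem infA : A ⊓ R = ⊥ := eq_bot_of_le l.inf (inf_le_inf_right _ (AT l))
theorem rA (hr : r ∈ R) (h1 : r ≠ 1) : r ∉ A := fun e => h1 (eq_one_of_mem (infA l) ⟨e, hr⟩)
theorem vA : v ∉ A := rA l l.vR l.v1
theorem RcP : R ≤ 𝒞 P := cent_symm (l.sup ▸ sup_le (cent_symm l.cm) l.el.abel)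
theorem RcA : R ≤ 𝒞 A := l.cm.trans (cent_anti (AT l))
theorem Pr (hr : r ∈ R) : P ≤ 𝒞₁ r := le_cent1_iff.2 (RcP l hr)
theorem PA (he : Elem 2 A) : P ≤ 𝒞 A := l.sup ▸ sup_le (ty_cA l.ty he) (RcA l)
theorem nR : T ≤ 𝒩 R := (cent_symm l.cm).trans (cent_le_norm R)
theorem pg (he : Elem 2 A) : IsPGroup 2 P :=
  l.sup ▸ sup_comm R T ▸ IsPGroup.to_sup_of_normal_left' l.el.pgroup (ty_pg l.ty he) (nR l)
theorem mem (hx : x ∈ P) : ∃ t ∈ T, ∃ r ∈ R, t * r = x := (mem_sup_r (nR l)).1 (l.sup ▸ hx)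
theorem kv : k * v = v * k := (mem_cent.1 l.kR v l.vR).symm
theorem kA : k ∈ 𝒩 A := l.ty.1.kA

theorem sqe (ht : t ∈ T) (hr : r ∈ R) : t * r * (t * r) = t * t := by
  rw [mul_assoc, ← mul_assoc r, ← mem_cent.1 (l.cm hr) t ht, mul_assoc, rr l hr, mul_one]

theorem memV (hx : x ∈ P) (h2 : x * x = 1) : ∃ a ∈ A, ∃ r ∈ R, a * r = x := by
  obtain ⟨t, ht, r, hr, rfl⟩ := mem l hx
  exact ⟨t, ty_mem l.ty ht (sqe l ht hr ▸ h2), r, hr, rfl⟩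

/-- if the type is not `U₃`, `P` is a Sylow `2`-subgroup of `C(v) ∩ C(A)` -/
theorem max [Finite G] (he : Elem 2 A) (hn : ¬ U3G A T k) (hp : IsPGroup 2 H) (h1 : P ≤ H)
    (h2 : H ≤ 𝒞₁ v ⊓ 𝒞 A) : H = P := by
  by_contra e
  obtain ⟨x, x1, x2, x3⟩ := exists_mem_normalizer_not_mem hp h1 (Ne.symm e)
  exact (l.top x ⟨h2 x1, x2⟩ (isPGroup_iff_forall.1 hp x x1)).elim x3 fun q => hn q.1

end Lc

end

section
variable {G Ω : Type} [Group G] [Finite G] [MulAction G Ω]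
  {A B H P P' R R' R1 S S2 T T' T0 T1 X Y : Subgroup G} {a g k k' k1 r s t u v v' x y z : G} {α β : Ω}

omit [Finite G] in
theorem ln_top (n : Gx.Ln H T B T1 R k α) (hx : x ∈ T) (h1 : x ∈ 𝒞 B) : x ∈ T1 ⊔ R ∨ Gr B T1 k x :=
  n.top x ⟨⟨n.syl.le hx, h1⟩, le_norm_sup n.nT n.nR hx⟩ (isPGroup_iff_forall.1 n.syl.isPGroup x hx)

omit [Finite G] in
theorem ln_inf (n : Gx.Ln H T B T1 R k α) : B ⊓ R = ⊥ :=
  eq_bot_of_le n.inf (inf_le_inf_right _ (ty_le n.ty))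

/-- the group `T` of the local data has the order of the group `T₁` of the line -/
theorem card_loc (he : Elem 2 A) (l : T4.Loc A P T R v k) (n : Gx.Ln (𝒞₁ v) T0 A T1 R1 k1 α)
    (h : P ≤ T0) : ♯T = ♯T1 := by
  refine le_antisymm ?_ ?_
  · by_cases e : U3G A T1 k1
    · exact u3g_card e ▸ ty_card_le l.ty
    exact card_proj (fun x hx => (ln_top n (h (Lc.TP l hx)) (ty_cA l.ty he hx)).resolve_right
      fun q => e q.1) (n.TS.trans n.nR) (ty_inf l.ty (ln_inf n))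
  · by_cases e : U3G A T k
    · exact u3g_card e ▸ ty_card_le n.ty
    refine card_proj ?_ (Lc.nR l) (ty_inf n.ty (Lc.infA l))
    rw [l.sup, ← Lc.max l he e (H := T0 ⊓ 𝒞 A) n.syl.isPGroup.to_inf_left (le_inf h (Lc.PA l he))
      (inf_le_inf_right _ n.syl.le)]
    exact le_inf n.TS (ty_cA n.ty he)

/-- a subgroup of odd order normalized by a group covering `T₁` -/
theorem oddY {Q : Type} [Group Q] [Finite Q] {f : H →* Q} {L : Subgroup Q} {κ : Q}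
    (h : Gx.Orb H T B α f L κ) (h1 : X ≤ H) (ho : Odd ♯X) (hB : B ≤ Y) (hn : Y ≤ 𝒩 X)
    (h2 : T ⊓ up f L ≤ Y ⊔ (T ⊓ up f (𝒞 L))) (h3 : Y ≤ T) : X ≤ up f (𝒞 L) := by
  have := h.nrm
  have o := odd_down f ho
  have n1 := h.ben.odd_le o Ax.top_le_norm (h.om ▸ down_le_norm f (hB.trans hn))
  refine (down_le_iff' h1).1 (h.ben.oddT o Ax.top_le_norm (le_trans (cent_symm fun x hx =>
    mem_cent.2 fun t ht => ?_) (cent_le_norm _)))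
  obtain ⟨t', t1, rfl⟩ := mem_down.1 (show t ∈ down f (T ⊓ up f L) by rwa [down_inf_up])
  obtain ⟨y, hy, c, hc, e⟩ := (mem_sup_r (le_norm_inf (h3.trans (le_norm T))
    ((h3.trans h.syl.le).trans (le_normalizer_up f _)))).1 (h2 t1)
  obtain ⟨c1, c2⟩ := mem_up.1 hc.2
  have e' : f t' = f ⟨y, h.syl.le (h3 hy)⟩ * f ⟨c, c1⟩ := by
    rw [← map_mul]; exact congrArg f (Subtype.ext e.symm)
  have y1 : f ⟨y, h.syl.le (h3 hy)⟩ ∈ 𝒩 (down f X) :=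
    down_le_norm f hn (mem_down_of_mem (x := ⟨y, _⟩) hy)
  generalize f ⟨y, h.syl.le (h3 hy)⟩ = y' at *
  generalize f ⟨c, c1⟩ = c' at *
  generalize f t' = t at *
  have w1 : x * t * x⁻¹ * t⁻¹ ∈ down f T ⊓ L := mul_mem (conj_mem_of_norm (n1 hx) ht) (inv_mem ht)
  have w2 : y' * (x * c' * x⁻¹ * c'⁻¹) * y'⁻¹ ∈ 𝒞 L := conj_mem_of_norm
    (norm_le_norm_cent L (Ax.top_le_norm (mem_top _))) (mul_mem (conj_mem_of_norm
      (norm_le_norm_cent L (Ax.top_le_norm (mem_top _))) c2) (inv_mem c2))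
  have w3 : x * t * x⁻¹ * t⁻¹ * (y' * (x * c' * x⁻¹ * c'⁻¹) * y'⁻¹)⁻¹ ∈ down f X := by
    have := mul_mem hx (conj_mem_of_norm y1 (inv_mem hx))
    convert this using 1; rw [e']; group
  have cm : Commute (x * t * x⁻¹ * t⁻¹) (y' * (x * c' * x⁻¹ * c'⁻¹) * y'⁻¹)⁻¹ :=
    mem_cent.1 (inv_mem w2) _ w1.2
  have i := pow_orderOf_eq_one (x * t * x⁻¹ * t⁻¹ * (y' * (x * c' * x⁻¹ * c'⁻¹) * y'⁻¹)⁻¹)
  rw [cm.mul_pow, mul_eq_one_iff_eq_inv] at i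
  obtain ⟨j, hj⟩ := isPGroup_iff_forall.1 h.ben.syl.isPGroup _ w1
  have := eq_one_of_pow_coprime ((Nat.coprime_two_right.2 (odd_of_mem o w3)).pow_right j)
    (h.ben.smp.eq_one (pow_mem w1.2 _) (i ▸ inv_mem (pow_mem (inv_mem w2) _))) hj
  rw [mul_inv_eq_one, mul_inv_eq_iff_eq_mul] at this
  exact this.symm

namespace GB
variable (h : GB S A α)
include h

omit [Finite G] in
theorem gg : GG S A α := ⟨h.toUG, h.tr⟩

theorem nI (hu : u * u = 1) (uA : u ∉ A) (hc : u ∈ 𝒞 A) : ¬ InI A u := fun e =>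
  uA (h.mem_of (IsPGroup.to_sup_of_normal_left' h.elem.pgroup (card_zp2 hu)
    (zpowers_le.2 (cent_le_norm A hc))) le_sup_left (mem_sup_right (mem_zpowers u)) e)

theorem ncard_fix' (hz : z * z = 1) (h1 : z • β = β) :
    {γ : Ω | z • γ = γ}.ncard = (𝒮 β).relIndex (𝒞₁ z) := by
  rw [← ncard_orbit]
  congr 1
  ext γ
  refine ⟨fun e => h.tr_fix hz h1 e, ?_⟩
  rintro ⟨g, hg, rfl⟩
  show z • g • β = g • β
  rw [← mul_smul, ← mem_cent1.1 hg, mul_smul, h1]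

/-- `Ln` with the stronger statement on subgroups of odd order -/
theorem lnY (hH : H ≠ ⊤) (hT : IsSyl 2 T H) (hA : A ≤ T) (hn : ¬ H ≤ 𝒮 α) :
    ∃ T1 R k, Gx.Ln H T A T1 R k α ∧ ∀ X Y, X ≤ H → Odd ♯X → A ≤ Y → Y ≤ 𝒩 X → T1 ≤ Y ⊔ R → Y ≤ T →
      ∀ x ∈ X, ∀ g ∈ H, x • g • α = g • α := by
  obtain ⟨Q, _, _, f, L, k, q⟩ := h.gg.orbA kG hH hT hA hn
  obtain ⟨k', -, q'⟩ := q.ln
  exact ⟨_, _, _, q', fun X Y h1 ho h2 h3 h4 h5 x hx g hg => q.fixC (oddY q h1 ho h2 h3 h4 h5 hx) hg⟩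

/-- the line of an involution of `C(A) \ A` -/
theorem lnu (hu : u * u = 1) (uA : u ∉ A) (hc : u ∈ 𝒞 A) (hP : IsPGroup 2 P) (h1 : A ≤ P)
    (h2 : P ≤ 𝒞₁ u) : ∃ T T1 R k, P ≤ T ∧ Gx.Ln (𝒞₁ u) T A T1 R k α ∧ ∀ X Y, X ≤ 𝒞₁ u → Odd ♯X →
      A ≤ Y → Y ≤ 𝒩 X → T1 ≤ Y ⊔ R → Y ≤ T → ∀ x ∈ X, ∀ g ∈ 𝒞₁ u, x • g • α = g • α := by
  obtain ⟨T, t1, t2⟩ := exists_isSyl_ge hP h2
  have u1 : u ≠ 1 := fun e => uA (e ▸ one_mem _)
  obtain ⟨T1, R, k, q⟩ := h.lnY (h.cent1_ne u1) t1 (h1.trans t2)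
    (h.cent_not_le ⟨u1, hu⟩ (h.nI hu uA hc) α)
  exact ⟨T, T1, R, k, t2, q⟩

theorem card_line (l : T4.Loc A P T R v k) : {γ : Ω | v • γ = γ}.ncard = ♯T + 1 := by
  have c := Lc.RcA l l.vR
  obtain ⟨T0, T1, R1, k1, q1, q2, -⟩ := h.lnu (Lc.vv l) (Lc.vA l) c (Lc.pg l h.elem) (Lc.AP l)
    (Lc.Pr l l.vR)
  rw [h.ncard_fix' (Lc.vv l) (h.CM c), q2.idx, card_loc h.elem l q2 q1]

/-- **the number of points** in terms of the local data -/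
theorem card_pts (mo : 𝒮 α ≤ O2 (𝒮 α) ⊔ 𝒩 A) (l : T4.Loc2 A P T R S2 v k) :
    Nat.card Ω = ♯T * (♯T + 1) * (♯A - 1) + (♯T + 1) := by
  have := h.finite
  have c := Lc.RcA l.toLoc l.vR
  obtain ⟨a, ha, a1⟩ := h.exA
  obtain ⟨s, -, e⟩ := l.onto a ha
  have q := h.cnt mo (Lc.ivo l.toLoc) (h.nI (Lc.vv l.toLoc) (Lc.vA l.toLoc) c) (cent_le_norm A c)
    ha a1 (mem_cent.1 c a ha) e
  rw [inf_eq_left.2 (le_cent1_iff.2 c), h.card_line l.toLoc, Nat.add_sub_cancel, sq,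
    ← mul_assoc] at q
  rw [← Nat.eq_of_mul_eq_mul_right (by have := h.four; omega) q, ← h.card_line l.toLoc,
    ← Set.ncard_add_ncard_compl {γ : Ω | v • γ = γ}, add_comm]
  rfl

theorem same (mo : 𝒮 α ≤ O2 (𝒮 α) ⊔ 𝒩 A) (a2 : AllL2 A) (l : T4.Loc A P T R v k)
    (l' : T4.Loc A P' T' R' v' k') : ♯T = ♯T' := by
  obtain ⟨_, _, q⟩ := a2 _ _ _ _ _ l
  obtain ⟨_, _, q'⟩ := a2 _ _ _ _ _ l'
  have e := (h.card_pts mo q).symm.trans (h.card_pts mo q')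
  rcases lt_trichotomy ♯T ♯T' with r | r | r
  · have := Nat.mul_le_mul_right (♯A - 1) (Nat.mul_le_mul r.le (Nat.succ_le_succ r.le))
    simp only [Nat.succ_eq_add_one] at this; omega
  · exact r
  · have := Nat.mul_le_mul_right (♯A - 1) (Nat.mul_le_mul r.le (Nat.succ_le_succ r.le))
    simp only [Nat.succ_eq_add_one] at this; omega

end GB

/-- all involutions of `C(A) \ A` have the same type -/
theorem same {M : Subgroup G} (u : U2 S A M) (a2 : AllL2 A) (l : T4.Loc A P T R v k)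
    (l' : T4.Loc A P' T' R' v' k') : ♯T = ♯T' := by
  obtain ⟨h, e⟩ := gb_of u.toUG
  exact h.same (e.symm ▸ u.mo) a2 l l'

end

end Cfsg.GS.Xx
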