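import Cfsg.Agent.GS.X4
import Cfsg.Agent.GS.XA

/-! Type `L₂`: the counting argument reduces to `|R| = 2`. -/

set_option autoImplicit false

namespace Cfsg.GS.Xx

open Subgroup Cfsg.L0 Cfsg.H8 Cfsg.FT Cfsg.BS Cfsg.BS.R Cfsg.GS.T3 Cfsg.GS.T4 Cfsg.GS.Ax MulAction
open Cfsg.GS.Nx
open scoped commutatorElement

section
variable {G : Type} [Group G] {A P R S2 T : Subgroup G} {a k s v x y : G}

theorem commute_of_sq (hx : x * x = 1) (hy : y * y = 1) (h : x * y * (x * y) = 1) : Commute x y := by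
  have := inv_eq_of_mul_eq_one_right h
  rw [mul_inv_rev, inv_eq_of_mul_eq_one_right hx, inv_eq_of_mul_eq_one_right hy] at this
  exact this.symm

namespace L2
variable (l : T4.Loc2 A P T R S2 v k)
include l

theorem CP : 𝒞₁ v ⊓ S2 = P :=
  le_antisymm (inf_comm S2 _ ▸ l.cv) (le_inf (Lc.Pr l.toLoc l.vR) l.le)

theorem vS : v ∈ S2 := l.le (Lc.RP l.toLoc l.vR)

theorem AS : A ≤ S2 := (Lc.AP l.toLoc).trans l.le

theorem ri [Finite G] : (𝒞₁ v).relIndex S2 = ♯A := by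
  rw [← Bx.ncard_coset v A]
  refine Bx.card_orbit _ _ _ fun z => ⟨?_, fun hz => ?_⟩
  · rintro ⟨y, hy, rfl⟩
    have := l.comm y hy v⁻¹ (inv_mem l.vR)
    rw [commutatorElement_def, inv_inv] at this
    show _ ∈ A
    convert this using 1; group
  · obtain ⟨s, hs, e⟩ := l.onto _ hz
    exact ⟨s, hs, by simpa using e⟩

theorem card [Finite G] : ♯S2 = ♯T * ♯R * ♯A := by
  have := card_sup_mul_card_inf (Lc.nR l.toLoc)
  rw [l.sup, l.inf, card_bot, mul_one] at this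
  rw [← card_inf_mul_relIndex (𝒞₁ v) S2, ri l, CP l, this]

theorem mem_of (hx : x ∈ S2) (hy : y ∈ S2) (e : ⁅v, x⁆ = ⁅v, y⁆) : x⁻¹ * y ∈ P :=
  l.cv ⟨S2.mul_mem (S2.inv_mem hx) hy, mem_cent1.2 (by
    simp only [commutatorElement_def, mul_assoc, mul_right_inj] at e
    calc _ = x⁻¹ * (y * (v⁻¹ * y⁻¹))⁻¹ * y := by group
      _ = _ := by rw [← e]; group)⟩

theorem phi (hs : s ∈ S2) (e : s * v * s⁻¹ = v * a) : ⁅v, s⁆ = a := by
  have vv := Lc.vv l.toLoc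
  rw [commutatorElement_def, inv_eq_of_mul_eq_one_right vv, mul_assoc, mul_assoc, ← mul_assoc s, e,
    ← mul_assoc, vv, one_mul]

theorem phi_k (n : ℕ) : ⁅v, k ^ n * x * (k ^ n)⁻¹⁆ = k ^ n * ⁅v, x⁆ * (k ^ n)⁻¹ := by
  have : k ^ n * v * (k ^ n)⁻¹ = v :=
    mul_inv_eq_iff_eq_mul.2 (Commute.pow_left (Lc.kv l.toLoc) n)
  rw [conjugate_commutatorElement, this]

end L2
end

/-- all involutions of `C(A) \ A` are of type `L₂` -/
structure C2 {G Ω : Type} [Group G] [MulAction G Ω] (S A : Subgroup G) (α : Ω) : Prop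
    extends GB S A α where
  all : AllL A
  a2 : AllL2 A
  fld : ∀ z ∈ 𝒩 A, z * z = 1 → z ∈ 𝒞 A ∨ ♯A = ♯(A ⊓ 𝒞₁ z) ^ 2
  l2 : ∀ P T R v k, T4.Loc A P T R v k → T = A
  pts : Nat.card Ω = ♯A ^ 3 + 1

namespace C2
variable {G Ω : Type} [Group G] [Finite G] [MulAction G Ω] {A P R S S2 T X : Subgroup G}
  {a k s u v x y : G} {α β : Ω} (h : C2 S A α)
include h

omit [Finite G] in
theorem loc (hu : u * u = 1) (uA : u ∉ A) (hc : u ∈ 𝒞 A) (hX : IsPGroup 2 X)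
    (h1 : X ≤ 𝒞₁ u ⊓ 𝒞 A) : ∃ R k, T4.Loc A (A ⊔ R) A R u k ∧ X ≤ A ⊔ R := by
  obtain ⟨P, T, R, k, l, n⟩ := h.all u X ⟨fun e => uA (e ▸ one_mem _), hu⟩ uA hc hX
    (h1.trans (inf_le_inf_left _ (cent_le_norm A)))
  obtain rfl := h.l2 _ _ _ _ _ l
  obtain rfl := l.sup
  refine ⟨R, k, l, fun x hx => (l.top x ⟨h1 hx, n hx⟩
    (isPGroup_iff_forall.1 hX x hx)).resolve_right fun ⟨_, a, ha, q⟩ => q ?_⟩
  rw [← mem_cent.1 (h1 hx).2 a ha, mul_inv_cancel_right, mul_inv_cancel]; exact one_mem _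

omit [Finite G] in
theorem sqV (l : T4.Loc A (A ⊔ R) A R v k) (hx : x ∈ A ⊔ R) : x * x = 1 := by
  obtain ⟨t, ht, r, hr, rfl⟩ := Lc.mem l hx
  rw [Lc.sqe l ht hr, mul_self_of_elem h.elem ht]

omit [Finite G] in
theorem sq1 (hu : u * u = 1) (uA : u ∉ A) (hc : u ∈ 𝒞 A) (hX : IsPGroup 2 X) (h1 : X ≤ 𝒞 A)
    (hx : x ∈ X) (e : x * u = u * x) : x * x = 1 := by
  obtain ⟨R, k, l, q⟩ := h.loc hu uA hc (X := zpowers x) (hX.to_le (zpowers_le.2 hx))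
    (zpowers_le.2 ⟨mem_cent1.2 e, h1 hx⟩)
  exact h.sqV l (q (mem_zpowers x))

theorem line (hu : u * u = 1) (uA : u ∉ A) (hc : u ∈ 𝒞 A) :
    {γ : Ω | u • γ = γ}.ncard = ♯A + 1 :=
  let ⟨_, _, l, _⟩ := h.loc hu uA hc (X := ⊥) IsPGroup.of_bot bot_le; h.card_line l

theorem fix1 (hX : IsPGroup 2 X) (h1 : X ≤ 𝒞 A) (hx : x ∈ X) (x1 : x ≠ 1) (e : x • β = β)
    (ne : β ≠ α) : x * x = 1 ∧ x ∉ A := by
  obtain ⟨z, hz, z1, z2⟩ := exists_ivo_zpowers (x := x) fun e => by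
    obtain ⟨m, hm⟩ := isPGroup_iff_forall.1 hX x hx
    exact x1 (eq_one_of_pElt_of_coprime ⟨m, hm⟩ (Nat.coprime_two_right.2 e))
  refine ⟨h.sq1 z2 (fun q => ne (h.uq0 q z1 (zpowers_le.2 (mem_St.2 e) hz)))
    (h1 (zpowers_le.2 hx hz)) hX h1 hx ?_, fun q => ne (h.uq0 q x1 e)⟩
  obtain ⟨i, rfl⟩ := hz
  exact (Commute.refl x).zpow_right i

theorem dvd (hX : IsPGroup 2 X) (h1 : X ≤ 𝒞 A) :
    ♯X ∣ ♯A ^ 3 + ♯A * {x | x ∈ X ∧ x * x = 1 ∧ x ∉ A}.ncard := by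
  have := h.finite
  refine burn X _ _ _ h.pts (fun x hx => ⟨hx.1, fun e => hx.2.2 (e ▸ one_mem _),
    h.line hx.2.1 hx.2.2 (h1 hx.1)⟩) fun x hx x1 n => Set.ncard_eq_one.2 ⟨α, ?_⟩
  exact Set.eq_singleton_iff_unique_mem.2 ⟨h.CM (h1 hx), fun β e => by_contra fun q =>
    n ⟨hx, h.fix1 hX h1 hx x1 e q⟩⟩

/-- the result of the count -/
theorem gam (l : T4.Loc2 A (A ⊔ R) A R S2 v k) :
    ♯R = 2 ∧ ∀ a ∈ A, a ≠ 1 → ∃ x ∈ S2, x * x = 1 ∧ ⁅v, x⁆ = a := by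
  have d := h.dvd l.p2 l.cA
  have vv := Lc.vv l.toLoc
  have cV : ♯(A ⊔ R : Subgroup G) = ♯A * ♯R := by
    have := card_sup_mul_card_inf (Lc.nR l.toLoc)
    rwa [l.inf, card_bot, mul_one] at this
  have e1 : {x | x ∈ S2 ∧ x * x = 1 ∧ x ∉ A} =
      ((A ⊔ R : Subgroup G) : Set G) \ A ∪ {x | x ∈ S2 ∧ x * x = 1 ∧ x ∉ A ⊔ R} := by
    ext x
    refine ⟨fun ⟨a, b, c⟩ => ?_, ?_⟩
    · by_cases e : x ∈ A ⊔ R
      exacts [Or.inl ⟨e, c⟩, Or.inr ⟨a, b, e⟩]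
    · rintro (⟨a, b⟩ | ⟨a, b, c⟩)
      exacts [⟨l.le a, h.sqV l.toLoc a, b⟩, ⟨a, b, fun q => c (mem_sup_left q)⟩]
  rw [e1, Set.ncard_union_eq (Set.disjoint_left.2 fun x a b => b.2.2 a.1),
    Set.ncard_sdiff (show (A : Set G) ⊆ (A ⊔ R : Subgroup G) from le_sup_left (a := A)),
    ncard_sub, ncard_sub, cV, L2.card l] at d
  obtain ⟨n, hn⟩ := IsPGroup.iff_card.1 h.elem.pgroup
  obtain ⟨m, hm⟩ := IsPGroup.iff_card.1 l.el.pgroup
  have n2 : 4 ∣ ♯A := by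
    have := h.four
    rw [hn] at this ⊢
    exact pow_dvd_pow 2 ((Nat.pow_le_pow_iff_right (by omega)).1 (show 2 ^ 2 ≤ 2 ^ n from this))
  have m1 : m ≠ 0 := fun e => ne_bot_of_mem l.vR l.v1 (eq_bot_of_card_eq _ (by rw [hm, e]; rfl))
  have w2 : 2 ∣ ♯R := hm ▸ dvd_pow_self 2 m1
  have p : 0 < ♯A := Nat.card_pos
  have key : ∀ μ, {x | x ∈ S2 ∧ x * x = 1 ∧ x ∉ A ⊔ R}.ncard = ♯A * μ → ♯R ∣ ♯A - 1 + μ :=
    fun μ e => by
      obtain ⟨w, hw⟩ : ∃ w, ♯R = w + 1 := ⟨♯R - 1, by have : 0 < ♯R := Nat.card_pos; omega⟩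
      rw [e, hw, mul_right_comm, mul_add (♯A) w, mul_one, Nat.add_sub_cancel,
        show ♯A ^ 3 + ♯A * (♯A * w + ♯A * μ) = ♯A * ♯A * (♯A + w + μ) by ring,
        Nat.mul_dvd_mul_iff_left (by positivity),
        show ♯A + w + μ = w + 1 + (♯A - 1 + μ) by omega] at d
      exact hw ▸ (Nat.dvd_add_right dvd_rfl).1 d
  by_cases e : ∃ x ∈ S2, x * x = 1 ∧ x ∉ A ⊔ R
  swap
  · have := w2.trans (key 0 (by
      rw [mul_zero, Set.ncard_eq_zero]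
      exact Set.eq_empty_iff_forall_notMem.2 fun x q => e ⟨x, q⟩))
    omega
  obtain ⟨x, x1, x2, x3⟩ := e
  have ne : ∀ x ∈ S2, x ∉ A ⊔ R → ⁅v, x⁆ ≠ 1 := fun x hx n q =>
    n (l.cv ⟨hx, mem_cent1.2 (commutatorElement_eq_one_iff_mul_comm.1 q).symm⟩)
  have on : ∀ a ∈ A, a ≠ 1 → ∃ x ∈ S2, x * x = 1 ∧ ⁅v, x⁆ = a := fun a ha a1 => by
    obtain ⟨n, e⟩ := l.ty.1.tr _ (l.comm x x1 v l.vR) a ha (ne x x1 x3) a1
    exact ⟨_, conj_mem_of_norm (pow_mem l.kS n) x1, by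
      rw [← _root_.sq, conj_pow, _root_.sq, x2]; group, (L2.phi_k l n).trans e⟩
  refine ⟨?_, on⟩
  have := key (♯A - 1) (by
    rw [← ncard_sharp A]
    refine card_fib _ _ (fun x a => ⁅v, x⁆ = a) _
      (fun x hx => ⟨_, ⟨l.comm x hx.1 v l.vR, ne x hx.1 hx.2.2⟩, rfl⟩)
      (fun _ _ _ _ _ _ a b => a.symm.trans b) fun a ha => ?_
    obtain ⟨y, y1, y2, rfl⟩ := on a ha.1 ha.2
    rw [← Bx.ncard_coset y A]
    congr 1
    ext z
    refine ⟨fun ⟨⟨z1, z2, z3⟩, z4⟩ => ?_, fun q => ?_⟩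
    · obtain ⟨b, hb, r, hr, e⟩ := Lc.mem l.toLoc (L2.mem_of l y1 z1 z4.symm)
      by_cases r1 : r = 1
      · show y⁻¹ * z ∈ A
        rw [← e, r1, mul_one]; exact hb
      have rS := l.le (Lc.RP l.toLoc hr)
      have sq := fun x => h.sq1 (x := x) (Lc.rr l.toLoc hr) (Lc.rA l.toLoc hr r1)
        (Lc.RcA l.toLoc hr) l.p2 l.cA
      have c1 : Commute y r := by
        have c2 : Commute y (b * r) := by
          rw [e]
          exact ((Commute.refl y).inv_right).mul_right (commute_of_sq y2 z2 (by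
            have := h.sqV l.toLoc (L2.mem_of l y1 z1 z4.symm)
            rwa [inv_eq_of_mul_eq_one_right y2] at this))
        have c3 : Commute y b := (mem_cent.1 (l.cA y1) b hb).symm
        simpa using c3.inv_right.mul_right c2
      have c4 : v * r = r * v := mem_cent.1 (l.el.abel hr) v l.vR
      exact absurd (commutatorElement_eq_one_iff_mul_comm.2 (commute_of_sq vv y2
        (sq _ (mul_mem (L2.vS l) y1) (Commute.mul_left c4 c1)))) ha.2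
    · have q' : y⁻¹ * z ∈ A := q
      obtain ⟨b, hb, rfl⟩ : ∃ b ∈ A, z = y * b := ⟨_, q', by group⟩
      have c : Commute b y := mem_cent.1 (l.cA y1) b hb
      have e : ⁅v, y * b⁆ = ⁅v, y⁆ := by
        rw [commutatorElement_def, commutatorElement_def, mul_inv_rev, mul_assoc (v * _),
          ← mul_assoc v⁻¹, ← mem_cent.1 (inv_mem (Lc.RcA l.toLoc l.vR)) _ (inv_mem hb)]
        group
      exact ⟨⟨mul_mem y1 (L2.AS l hb), by
        rw [mul_assoc, ← mul_assoc b, c.eq, mul_assoc, mul_self_of_elem h.elem hb, mul_one, y2],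
        fun r => ha.2 (e ▸ commutatorElement_eq_one_iff_mul_comm.2
          (mem_cent1.1 (Lc.Pr l.toLoc l.vR r)).symm)⟩, e⟩)
  rw [hm] at this ⊢
  rcases m with _ | _ | m
  · exact absurd rfl m1
  · rfl
  · have : 4 ∣ ♯A - 1 + (♯A - 1) := (Dvd.intro_left (2 ^ m) (by ring)).trans this
    omega

omit [Finite G] h in
theorem mem2 (l : T4.Loc A (A ⊔ R) A R v k) (w : ♯R = 2) (hx : x ∈ A ⊔ R) : x ∈ A ∨ x * v ∈ A := by
  obtain ⟨t, ht, r, hr, rfl⟩ := Lc.mem l hx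
  obtain ⟨y, -, hy⟩ := (Nat.card_eq_two_iff' (1 : R)).1 w
  by_cases r1 : r = 1
  · left; rwa [r1, mul_one]
  · right
    rwa [show r = v from congrArg Subtype.val ((hy ⟨r, hr⟩ fun e => r1 (congrArg Subtype.val e)).trans
      (hy ⟨v, l.vR⟩ fun e => l.v1 (congrArg Subtype.val e)).symm), mul_assoc, Lc.vv l, mul_one]

theorem c2 (hu : u * u = 1) (uA : u ∉ A) (hc : u ∈ 𝒞 A) (hX : IsPGroup 2 X) (h1 : X ≤ 𝒞 A)
    (hx : x ∈ X) (e : x * u = u * x) : x ∈ A ∨ x * u ∈ A := by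
  obtain ⟨R, k, l, q⟩ := h.loc hu uA hc (X := zpowers x) (hX.to_le (zpowers_le.2 hx))
    (zpowers_le.2 ⟨mem_cent1.2 e, h1 hx⟩)
  obtain ⟨S2, k', l'⟩ := h.a2 _ _ _ _ _ l
  exact mem2 l (h.gam l').1 (q (mem_zpowers x))

/-- a `2`-subgroup of `C(A)` fixing a second point has order at most `2` -/
theorem st2 (hX : IsPGroup 2 X) (h1 : X ≤ 𝒞 A) (ne : β ≠ α) (hu : u ∈ X) (u1 : u ≠ 1)
    (e : u • β = β) (hx : x ∈ X) (e' : x • β = β) : x = 1 ∨ x = u := by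
  have p : IsPGroup 2 ↥(X ⊓ 𝒮 β) := hX.to_inf_left
  obtain ⟨z, hz, z1⟩ := exists_ne_one (inf_cent_ne_bot_of_pgroup Nat.prime_two p p (le_norm _)
    (ne_bot_of_mem (x := u) ⟨hu, e⟩ u1))
  obtain ⟨z2, zA⟩ := h.fix1 hX h1 hz.1.1 z1 hz.1.2 ne
  have k : ∀ y ∈ X, y • β = β → y = 1 ∨ y = z := fun y hy q =>
    (h.c2 z2 zA (h1 hz.1.1) hX h1 hy (mem_cent.1 hz.2 y ⟨hy, q⟩)).imp
      (fun r => by_contra fun y1 => ne (h.uq0 r y1 q)) fun r => by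
        rw [← inv_eq_of_mul_eq_one_right z2]
        exact eq_inv_of_mul_eq_one_left (by_contra fun y1 => ne (h.uq0 r y1 (by
          rw [mul_smul, show z • β = β from hz.1.2, q])))
  rw [(k u hu e).resolve_left u1]
  exact k x hx e'

end C2

end Cfsg.GS.Xx
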