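import Cfsg.Agent.GS.X5

/-! Graph automorphisms of a Sylow `2`-subgroup of `U₃(q)`. -/

set_option autoImplicit false

namespace Cfsg.GS.Xx

open Subgroup Cfsg.L0 Cfsg.H8 Cfsg.FT Cfsg.BS Cfsg.BS.R Cfsg.GS.T3 Cfsg.GS.T4 Cfsg.GS.Ax MulAction
open Cfsg.GS.Nx Cfsg.GS.Gx
open scoped commutatorElement

section field
variable {G F : Type} [Group G] [Field F] [Fintype F] {A T : Subgroup G} {g g' k x y z : G}
  {π ι : G → F} {l : F} (c : Co3 A T k π ι l)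
include c

theorem co_iff (h1 : g ∈ 𝒩 T) (hx : x ∈ T) :
    g * x * g⁻¹ * x⁻¹ ∈ A ↔ π (g * x * g⁻¹) + π x = 0 := by
  have := c.charP
  rw [← c.eq_iff (conj_mem_of_norm h1 hx) hx, CharTwo.add_eq_zero]

theorem co_perp (h1 : g ∈ 𝒩 T) (h2 : g ∈ 𝒞 A) (hy : y ∈ T) (e : π (g * y * g⁻¹) + π y = 0)
    (hx : x ∈ T) : (π (g * x * g⁻¹) + π x) ^ ♯A * π y = (π (g * x * g⁻¹) + π x) * π y ^ ♯A := by
  have := c.charP
  have e1 := c.ι_comm (conj_mem_of_norm h1 hx) (conj_mem_of_norm h1 hy)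
  rw [← conjugate_commutatorElement, ← mem_cent.1 h2 _ (c.comm_mem hx hy), mul_inv_cancel_right,
    c.ι_comm hx hy, CharTwo.add_eq_zero.1 e] at e1
  rw [c.add_pow]
  linear_combination (exp := 1) e1 + c.add_self (π (g * x * g⁻¹) ^ ♯A * π y) -
    c.add_self (π x * π y ^ ♯A)

/-- a graph automorphism acts as a reflection -/
theorem co_refl (h1 : g ∈ 𝒩 T) (h2 : g ∈ 𝒞 A) (hy : y ∈ T) (e : π (g * y * g⁻¹) + π y = 0)
    (hz : z ∈ T) (n : π (g * z * g⁻¹) + π z ≠ 0) (hx : x ∈ T) :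
    (π (g * x * g⁻¹) + π x) * π y ^ ♯A = π x ^ ♯A * π y + π x * π y ^ ♯A := by
  have := c.charP
  have k : ∀ x ∈ T, π (g * x * g⁻¹) + π x ≠ 0 →
      (π (g * x * g⁻¹) + π x) * π y ^ ♯A = π x ^ ♯A * π y + π x * π y ^ ♯A := fun x hx n => by
    have e1 := c.isq _ (conj_mem_of_norm h1 hx)
    rw [show g * x * g⁻¹ * (g * x * g⁻¹) = g * (x * x) * g⁻¹ by group,
      ← mem_cent.1 h2 _ (c.sq x hx), mul_inv_cancel_right, c.isq x hx] at e1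
    have e2 := co_perp c h1 h2 hy e hx
    obtain ⟨d, hd⟩ : ∃ d, π (g * x * g⁻¹) = d + π x :=
      ⟨π (g * x * g⁻¹) + π x, by rw [add_assoc, c.add_self, add_zero]⟩
    rw [hd, add_assoc, c.add_self, add_zero] at n e2 ⊢
    rw [hd, pow_succ, pow_succ, c.add_pow] at e1
    refine mul_left_cancel₀ n ?_
    linear_combination (-π y) * e1 - (d + π x) * e2 -
      c.add_self (d * π x ^ ♯A * π y + d * π x * π y ^ ♯A)
  by_cases e0 : π (g * x * g⁻¹) + π x = 0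
  swap
  · exact k x hx e0
  have e1 : π (g * (x * z) * g⁻¹) + π (x * z) = π (g * z * g⁻¹) + π z := by
    rw [show g * (x * z) * g⁻¹ = g * x * g⁻¹ * (g * z * g⁻¹) by group,
      c.add _ (conj_mem_of_norm h1 hx) _ (conj_mem_of_norm h1 hz), c.add x hx z hz]
    linear_combination e0
  have e2 := k _ (mul_mem hx hz) (e1 ▸ n)
  rw [e1, k z hz n, c.add x hx z hz, c.add_pow] at e2
  rw [e0]; linear_combination e2

theorem co_tri [Finite G] (ht : Tor A k) (h4 : 4 ≤ ♯A) (p : G → Prop) {e : F}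
    (hp : ∀ x ∈ T, ∀ y ∈ T, (∃ m, m ^ ♯A = m ∧ π x = m * e) → (∃ m, m ^ ♯A = m ∧ π y = m * e) →
      ¬ p x → ¬ p y → p (x * y)) : ∃ x ∈ T, p x ∧ ∃ m, m ^ ♯A = m ∧ m ≠ 0 ∧ π x = m * e := by
  obtain ⟨a, ha, a1, -⟩ := Bx.exists_third (A := A) (by omega) 1 1
  obtain ⟨b, hb, b1, b2⟩ := Bx.exists_third (A := A) (by omega) 1 a
  obtain ⟨x, hx, e1⟩ := c.onto (ι a * e)
  obtain ⟨y, hy, e2⟩ := c.onto (ι b * e)
  by_cases p1 : p x
  · exact ⟨x, hx, p1, _, c.ι_fix ht ha, fun q => a1 (c.iinj a ha q), e1⟩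
  by_cases p2 : p y
  · exact ⟨y, hy, p2, _, c.ι_fix ht hb, fun q => b1 (c.iinj b hb q), e2⟩
  have := c.charP
  exact ⟨x * y, mul_mem hx hy, hp x hx y hy ⟨_, c.ι_fix ht ha, e1⟩ ⟨_, c.ι_fix ht hb, e2⟩ p1 p2,
    ι a + ι b, by rw [c.add_pow, c.ι_fix ht ha, c.ι_fix ht hb],
    fun q => b2 (c.ι_inj ha hb (CharTwo.add_eq_zero.1 q)).symm, by rw [c.add x hx y hy, e1, e2, add_mul]⟩

theorem co_comm (hx : x ∈ T) (hy : y ∈ T) :
    x * y = y * x ↔ π x ^ ♯A * π y + π x * π y ^ ♯A = 0 := by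
  rw [← c.ι_comm hx hy, ← commutatorElement_eq_one_iff_mul_comm]
  exact ⟨fun e => by rw [e, c.ι_one], c.iinj _ (c.comm_mem hx hy)⟩

end field

section
variable {G : Type} [Group G] [Finite G] {A B R T X : Subgroup G} {g g' k x y z : G}

theorem exists_mid (hR : IsPGroup 2 R) (hA : A ⊴ R) (hB : B ⊴ R) (h : ¬ B ≤ A) :
    ∃ y ∈ B, y ∉ A ∧ ∀ g ∈ R, ⁅g, y⁆ ∈ A := by
  obtain ⟨Q, _, _, f, hf, rfl⟩ := exists_quo hA
  obtain ⟨z, hz, z1⟩ := exists_ne_one (inf_cent_ne_bot_of_pgroup Nat.prime_two (isPGroup_down f hR)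
    (isPGroup_down f (hR.to_le hB.le)) (hB.down f).norm fun e => h ((down_eq_bot_iff hB.le).1 e))
  obtain ⟨y, hy, rfl⟩ := mem_down.1 hz.1
  refine ⟨y, hy, fun e => z1 (mem_bot.1 (coe_mem_up.1 e)), fun g hg => ?_⟩
  refine (coe_mem_up (x := ⁅(⟨g, hg⟩ : R), y⁆)).2 (mem_bot.2 ?_)
  rw [map_commutatorElement, commutatorElement_eq_one_iff_mul_comm]
  exact hz.2 _ (mem_down_of_mem hg)

omit [Finite G] in
/-- the elements fixed modulo `A` by a graph automorphism commute -/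
theorem gr1 (h : Gr A T k g) (h1 : g ∈ 𝒩 T) (h2 : g ∈ 𝒞 A) (hx : x ∈ T) (hy : y ∈ T)
    (x1 : g * x * g⁻¹ * x⁻¹ ∈ A) (y1 : g * y * g⁻¹ * y⁻¹ ∈ A) : x * y = y * x := by
  obtain ⟨u, z, hz, n⟩ := h
  obtain ⟨F, _, _, π, ι, l, c⟩ := co3_of u
  rw [co_iff c h1 hz] at n
  rw [co_comm c hx hy, ← co_refl c h1 h2 hy ((co_iff c h1 hy).1 y1) hz n hx, (co_iff c h1 hx).1 x1,
    zero_mul]

/-- the product of two graph automorphisms in a `2`-group is no graph automorphism -/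
theorem gr3 (h : Gr A T k g) (h' : Gr A T k g') (hX : IsPGroup 2 X) (h1 : X ≤ 𝒩 T) (h2 : X ≤ 𝒞 A)
    (hg : g ∈ X) (hg' : g' ∈ X) : ¬ Gr A T k (g * g') := by
  rintro ⟨-, x, hx, m⟩
  obtain ⟨u, z, hz, n⟩ := h
  obtain ⟨-, z', hz', n'⟩ := h'
  obtain ⟨F, _, _, π, ι, l, c⟩ := co3_of u
  obtain ⟨y, hy, y0, y1⟩ := exists_mid (R := T ⊔ X) (A := A) (B := T)
    (IsPGroup.to_sup_of_normal_left' c.pg hX h1)
    ⟨c.le.trans le_sup_left, (sup_le c.cA h2).trans (cent_le_norm A)⟩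
    ⟨le_sup_left, sup_le (le_norm T) h1⟩ fun e => n (by
      rw [← mem_cent.1 (h2 hg) z (e hz), mul_inv_cancel_right, mul_inv_cancel]; exact one_mem _)
  rw [co_iff c (h1 hg) hz] at n
  rw [co_iff c (h1 hg') hz'] at n'
  have f := (co_iff c (h1 hg) hy).1 (y1 g (mem_sup_right hg))
  have f' := (co_iff c (h1 hg') hy).1 (y1 g' (mem_sup_right hg'))
  have e1 := co_refl c (h1 hg') (h2 hg') hy f' hz' n' hx
  have e2 := co_refl c (h1 hg) (h2 hg) hy f hz n (conj_mem_of_norm (h1 hg') hx)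
  have e3 := co_perp c (h1 hg') (h2 hg') hy f' hx
  rw [c.add_pow] at e3
  refine m ((co_iff c (mul_mem (h1 hg) (h1 hg')) hx).2 (mul_right_cancel₀
    (pow_ne_zero (♯A) fun q => y0 ((c.ker y hy).1 q)) ?_))
  rw [show g * g' * x * (g * g')⁻¹ = g * (g' * x * g'⁻¹) * g⁻¹ by group]
  linear_combination e1 + e2 + e3 + c.add_self (π x * π y ^ ♯A)

omit [Finite G] in
/-- a graph automorphism of order two centralizes only `A` -/
theorem gr4 (h : Gr A T k g) (h1 : g ∈ 𝒩 T) (h2 : g ∈ 𝒞 A) (h3 : g * g ∈ 𝒞 T) (hy : y ∈ T)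
    (e : g * y = y * g) : y ∈ A := by
  obtain ⟨u, z, hz, n⟩ := h
  obtain ⟨F, _, _, π, ι, l, c⟩ := co3_of u
  have := c.charP
  rw [co_iff c h1 hz] at n
  by_contra y0
  have y1 : π y ≠ 0 := fun q => y0 ((c.ker y hy).1 q)
  have f : π (g * y * g⁻¹) + π y = 0 := by rw [e, mul_inv_cancel_right, c.add_self]
  have e1 := co_refl c h1 h2 hy f hz n hz
  have e2 := co_perp c h1 h2 hy f hz
  obtain ⟨x, hx, ex⟩ := c.onto (π y / (π (g * z * g⁻¹) + π z) * π z)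
  have e3 := co_refl c h1 h2 hy f hz n hx
  generalize π (g * z * g⁻¹) + π z = d at *
  have e4 : (π y / d) ^ ♯A = π y / d := by
    rw [div_pow, div_eq_div_iff (pow_ne_zero _ n) n]; linear_combination -e2
  have m : g * x * g⁻¹ * x⁻¹ ∈ T := mul_mem (conj_mem_of_norm h1 hx) (inv_mem hx)
  have e5 : π y = π (g * x * g⁻¹ * x⁻¹) := by
    rw [c.add _ (conj_mem_of_norm h1 hx) _ (inv_mem hx), c.π_inv hx]
    refine mul_right_cancel₀ (pow_ne_zero (♯A) y1) ?_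
    rw [e3, ex, mul_pow, e4, mul_assoc, mul_assoc, ← mul_add, ← e1, ← mul_assoc, div_mul_cancel₀ _ n]
  have a := (c.eq_iff hy m).1 e5
  have i : g * (g * x * g⁻¹ * x⁻¹) * g⁻¹ = (g * x * g⁻¹ * x⁻¹)⁻¹ := by
    calc _ = g * g * x * (g * g)⁻¹ * (g * x⁻¹ * g⁻¹) := by group
      _ = _ := by rw [← mem_cent.1 h3 x hx]; group
  generalize g * x * g⁻¹ * x⁻¹ = j at *
  refine y0 ((mul_mem_cancel_right (inv_mem (c.mem_of_sq m ?_))).1 a)
  have e6 := mem_cent.1 h2 _ a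
  rw [← mul_assoc, e, mul_assoc, mul_assoc, mul_right_inj] at e6
  rw [← (Commute.inv_left_iff.1 e6).eq, mul_inv_cancel_right] at i
  exact mul_eq_one_iff_eq_inv.2 i

theorem nab (h : U3G A T k) (ht : Tor A k) (h4 : 4 ≤ ♯A) (p : G → Prop)
    (hp : ∀ x ∈ T, ∀ y ∈ T, ¬ p x → ¬ p y → p (x * y)) :
    ∃ x ∈ T, ∃ y ∈ T, p x ∧ p y ∧ x * y ≠ y * x := by
  obtain ⟨F, _, _, π, ι, l, c⟩ := co3_of h
  have := c.charP
  obtain ⟨θ, hθ⟩ := c.exists_ne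
  obtain ⟨x, hx, x1, m, m1, m2, m3⟩ := co_tri c ht h4 p (e := 1) fun x hx y hy _ _ => hp x hx y hy
  obtain ⟨y, hy, y1, n, n1, n2, n3⟩ := co_tri c ht h4 p (e := θ) fun x hx y hy _ _ => hp x hx y hy
  refine ⟨x, hx, y, hy, x1, y1, fun e => hθ ?_⟩
  rw [co_comm c hx hy, m3, n3, mul_one, mul_pow, m1, n1, ← mul_add, ← mul_add] at e
  exact (CharTwo.add_eq_zero.1 ((mul_eq_zero.1 ((mul_eq_zero.1 e).resolve_left m2)).resolve_left n2)).symm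

/-- a maximal abelian subgroup of `T` -/
theorem ab0 (h : U3G A T k) (ht : Tor A k) (h4 : 4 ≤ ♯A) : ∃ U : Set G, (∀ x ∈ U, x ∈ T) ∧
    (∀ x ∈ U, ∀ y ∈ U, x * y = y * x) ∧ (∀ a ∈ A, ∃ x ∈ U, x * x = a) ∧ ∀ p : G → Prop,
      (∀ x ∈ U, ∀ y ∈ U, ¬ p x → ¬ p y → p (x * y)) → ∃ x ∈ U, p x ∧ x ∉ A := by
  obtain ⟨F, _, _, π, ι, l, c⟩ := co3_of h
  have := c.charP
  refine ⟨{x | x ∈ T ∧ π x ^ ♯A = π x}, fun x hx => hx.1, fun x hx y hy => by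
    rw [co_comm c hx.1 hy.1, hx.2, hy.2, c.add_self], fun a ha => ?_, fun p hp => ?_⟩
  · obtain ⟨m, hm⟩ := (frobeniusEquiv F 2).surjective (ι a)
    rw [frobeniusEquiv_def] at hm
    have m1 : m ^ ♯A = m := (frobeniusEquiv F 2).injective (by
      rw [frobeniusEquiv_def, frobeniusEquiv_def, ← pow_mul, mul_comm, pow_mul, hm, c.ι_fix ht ha])
    obtain ⟨x, hx, rfl⟩ := c.onto m
    exact ⟨x, ⟨hx, m1⟩, c.ι_inj (c.sq x hx) ha (by rw [c.isq x hx, pow_succ, m1, ← hm, _root_.sq])⟩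
  · obtain ⟨x, hx, x1, m, m1, m2, m3⟩ := co_tri c ht h4 p (e := 1)
      fun x hx y hy ⟨m, m1, m2⟩ ⟨n, n1, n2⟩ => hp x ⟨hx, by rw [m2, mul_one, m1]⟩ y
        ⟨hy, by rw [n2, mul_one, n1]⟩
    rw [mul_one] at m3
    exact ⟨x, ⟨hx, by rw [m3, m1]⟩, x1, fun q => m2 (m3 ▸ (c.ker x hx).2 q)⟩

end

end Cfsg.GS.Xx
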