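import Cfsg.Agent.GS.X7

/-! Type `U₃`, `|R| ≥ 4`: subgroups of odd order normalized by `P` are trivial. -/

set_option autoImplicit false

namespace Cfsg.GS.Xx

open Subgroup Cfsg.L0 Cfsg.H8 Cfsg.FT Cfsg.BS Cfsg.BS.R Cfsg.GS.T3 Cfsg.GS.T4 Cfsg.GS.Ax MulAction
open Cfsg.GS.Nx Cfsg.GS.Gx
open scoped commutatorElement

section
variable {G Ω : Type} [Group G] [Finite G] [MulAction G Ω]
  {A H P R R1 S T T0 T1 X : Subgroup G} {a c g k k1 l r s u v x y : G} {α β : Ω}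

omit [Finite G] in
theorem ln_mem (n : Gx.Ln H T0 A T1 R1 k1 α) (hx : x ∈ T1 ⊔ R1) : ∃ l ∈ T1, ∃ c ∈ R1, l * c = x :=
  (mem_sup_r (n.TS.trans n.nR)).1 hx

omit [Finite G] in
theorem ln_dp (n : Gx.Ln H T0 A T1 R1 k1 α) (hg : g ∈ T0) (hl : l ∈ T1) (hc : c ∈ R1)
    (e : g * (l * c) * g⁻¹ * (l * c)⁻¹ ∈ A) : g * l * g⁻¹ * l⁻¹ ∈ A ∧ g * c = c * g := by
  have m1 : g * l * g⁻¹ * l⁻¹ ∈ T1 := mul_mem (conj_mem_of_norm (n.nT hg) hl) (inv_mem hl)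
  have m2 : g * c * g⁻¹ * c⁻¹ ∈ R1 := mul_mem (conj_mem_of_norm (n.nR hg) hc) (inv_mem hc)
  have e1 : g * (l * c) * g⁻¹ * (l * c)⁻¹ = g * l * g⁻¹ * l⁻¹ * (g * c * g⁻¹ * c⁻¹) := by
    rw [mul_assoc _ l⁻¹, mem_cent.1 (n.cm m2) _ (inv_mem hl)]; group
  rw [e1] at e
  have e2 := eq_one_of_mem n.inf ⟨(mul_mem_cancel_left m1).1 (ty_le n.ty e), m2⟩
  rw [e2, mul_one] at e
  exact ⟨e, mul_inv_eq_iff_eq_mul.1 (mul_inv_eq_one.1 e2)⟩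

omit [Finite G] in
theorem ln_inv (n : Gx.Ln H T0 A T1 R1 k1 α) (hl : l ∈ T1) (hc : c ∈ R1)
    (e : l * c * (l * c) = 1) : l ∈ A := by
  rw [mul_assoc, ← mul_assoc c, ← mem_cent.1 (n.cm hc) l hl, mul_assoc, ← mul_assoc,
    mul_eq_one_iff_eq_inv] at e
  exact ty_mem n.ty hl (eq_one_of_mem n.inf ⟨T1.mul_mem hl hl, e ▸ R1.inv_mem (R1.mul_mem hc hc)⟩)

omit [Finite G] in
theorem ln_comm (n : Gx.Ln H T0 A T1 R1 k1 α) (hr : r ∈ T1 ⊔ R1) (r2 : r * r = 1) (hs : s ∈ T0)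
    (h1 : s ∈ 𝒞 A) (e : s * r * s⁻¹ * r⁻¹ ∈ A) : s * r = r * s := by
  obtain ⟨l, hl, c, hc, rfl⟩ := ln_mem n hr
  exact Commute.mul_right (mem_cent.1 h1 l (ln_inv n hl hc r2)).symm (ln_dp n hs hl hc e).2

/-- an element centralizing `T/A` is no graph automorphism -/
theorem ln_ng (n : Gx.Ln H T0 A T1 R1 k1 α) (h4 : 4 ≤ ♯A) (u : U3G A T k) (ht : Tor A k)
    (h1 : T ≤ T0) (hg : g ∈ T0) (h2 : g ∈ 𝒞 A) (h3 : ∀ t ∈ T, g * t * g⁻¹ * t⁻¹ ∈ A) :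
    g ∈ T1 ⊔ R1 := by
  refine (ln_top n hg h2).resolve_right fun q => ?_
  obtain ⟨x, hx, y, hy, x1, y1, ne⟩ := nab u ht h4 (fun x => x ∈ T1 ⊔ R1) fun x hx y hy x1 y1 =>
    (ln_top n (h1 (mul_mem hx hy)) (u.cA (mul_mem hx hy))).resolve_right
      (gr3 ((ln_top n (h1 hx) (u.cA hx)).resolve_left x1) ((ln_top n (h1 hy) (u.cA hy)).resolve_left y1)
        (u.pg) (h1.trans n.nT) u.cA hx hy)
  obtain ⟨l, hl, c, hc, rfl⟩ := ln_mem n x1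
  obtain ⟨l', hl', c', hc', rfl⟩ := ln_mem n y1
  have e1 := gr1 q (n.nT hg) h2 hl hl' (ln_dp n hg hl hc (h3 _ hx)).1 (ln_dp n hg hl' hc' (h3 _ hy)).1
  refine ne (Commute.mul_right (Commute.mul_left e1 (mem_cent.1 (n.cm hc) l' hl').symm) ?_)
  exact (ln_dp n (h1 hx) hl' hc' (ty_comm ⟨ht, Or.inr (Or.inr u)⟩ hx hy)).2

theorem ln_cover (n : Gx.Ln H T0 A T1 R1 k1 α) (u : U3G A T k) (ht : Tor A k) (h1 : T ≤ T0)
    (h2 : T ≤ T1 ⊔ R1) : T1 ≤ T ⊔ R1 := by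
  have a := card_sup_mul_card_inf (h1.trans n.nR)
  have b := card_sup_mul_card_inf (n.TS.trans n.nR)
  rw [ty_inf ⟨ht, Or.inr (Or.inr u)⟩ (ln_inf n), card_bot, mul_one, u3g_card u] at a
  rw [n.inf, card_bot, mul_one] at b
  exact le_sup_left.trans (eq_of_card_le (sup_le h2 le_sup_right)
    (by rw [a, b]; exact Nat.mul_le_mul_right _ (ty_card_le n.ty))).ge

theorem norm_fixing {s : Set Ω} (h : ∀ γ ∈ s, g⁻¹ • γ ∈ s) : g ∈ 𝒩 (fixingSubgroup G s) :=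
  mem_normalizer_of_forall fun x hx => (mem_fixingSubgroup_iff G).2 fun γ hγ => by
    rw [mul_smul, mul_smul, (mem_fixingSubgroup_iff G).1 hx _ (h γ hγ), smul_inv_smul]

theorem cent_le_fixing : 𝒞₁ u ≤ 𝒩 (fixingSubgroup G {γ : Ω | u • γ = γ}) := fun g hg =>
  norm_fixing fun γ hγ => by
    show u • g⁻¹ • γ = g⁻¹ • γ
    rw [← mul_smul, ← mem_cent1.1 (inv_mem hg), mul_smul, show u • γ = γ from hγ]

end

section
variable {G Ω : Type} [Group G] [Finite G] [MulAction G Ω]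
  {A H P R R1 S T T0 T1 X : Subgroup G} {a c g k k1 r s u v x y : G} {α β : Ω}

namespace GB
variable (h : GB S A α)
include h

/-- `A` acts on the pointwise stabilizer of a line modulo its odd core -/
theorem comm_line (mo : 𝒮 α ≤ O2 (𝒮 α) ⊔ 𝒩 A) (hu : u * u = 1) (uA : u ∉ A) (hc : u ∈ 𝒞 A)
    (ha : a ∈ A) (hy : y ∈ fixingSubgroup G {γ : Ω | u • γ = γ}) :
    a * y * a⁻¹ * y⁻¹ ∈ O2 (fixingSubgroup G {γ : Ω | u • γ = γ}) := by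
  have le : fixingSubgroup G {γ : Ω | u • γ = γ} ≤ 𝒮 α := fun x hx =>
    (mem_fixingSubgroup_iff G).1 hx α (h.CM hc)
  have nO : A ≤ 𝒩 (O2 (𝒮 α)) := h.AM.trans (Op_nrm _ _).norm
  have n : 𝒮 α ≤ 𝒩 (O2 (𝒮 α) ⊔ A) := mo.trans (sup_le (le_sup_left.trans (le_norm _))
    (le_norm_sup (h.nA.trans (Op_nrm _ _).norm) le_rfl))
  refine le_O2 (Y := fixingSubgroup G {γ : Ω | u • γ = γ} ⊓ (O2 (𝒮 α) ⊔ A)) ?_
    ⟨inf_le_left, le_norm_inf (le_norm _) (le.trans n)⟩ ⟨Subgroup.mul_mem _ (conj_mem_of_norm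
      (cent_le_fixing (mem_cent1.2 (mem_cent.1 hc a ha))) hy) (Subgroup.inv_mem _ hy), ?_⟩
  · refine Nat.odd_iff.2 (Nat.two_dvd_ne_zero.1 fun e => ?_)
    obtain ⟨z, hz, z1⟩ := exists_orderOf_eq_of_dvd_card e
    have z2 : z ^ 2 ^ 1 = 1 := by rw [pow_one, ← z1, pow_orderOf_eq_one]
    obtain ⟨g, -, q⟩ := ((IsSyl.self h.elem.pgroup).trans le_sup_right fun e =>
      (odd_O2 (𝒮 α)).not_two_dvd_nat ((ri_sup' nO ▸ e).trans (ri_dvd_card _ _))).exists_conj_mem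
        hz.2 ⟨1, z2⟩
    obtain ⟨β, b1, b2⟩ := h.two_fix (⟨fun e => uA (e ▸ one_mem _), hu⟩ : Ivo u) (h.nI hu uA hc) α
    exact b1 (h.uq ⟨fun e => by simp [e] at z1, g, q⟩ ((mem_fixingSubgroup_iff G).1 hz.1 β b2) (le hz.1))
  · rw [mul_assoc, mul_assoc]
    exact mul_mem (mem_sup_right ha) (by
      rw [← mul_assoc]; exact conj_mem_of_norm (n (le hy)) (mem_sup_right (inv_mem ha)))

variable (l : T4.Loc A P T R v k) (u3 : U3G A T k)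
include l u3

theorem ln3 (hu : u ∈ A ⊔ R) (uA : u ∉ A) : ∃ T0 T1 R1 k1, Gx.Ln (𝒞₁ u) T0 A T1 R1 k1 α ∧
    A ⊔ R ≤ T0 ∧ A ⊔ R ≤ T1 ⊔ R1 ∧ ∀ X, X ≤ 𝒞₁ u → Odd ♯X → P ≤ 𝒩 X →
      X ≤ fixingSubgroup G {γ : Ω | u • γ = γ} := by
  have VP : A ⊔ R ≤ P := sup_le (Lc.AP l) (Lc.RP l)
  have VC : A ⊔ R ≤ 𝒞 P := sup_le (cent_symm (Lc.PA l h.elem)) (Lc.RcP l)
  have uu : u * u = 1 := by
    obtain ⟨a, ha, r, hr, rfl⟩ := (mem_sup_r ((Lc.AT l).trans (Lc.nR l))).1 hu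
    rw [Lc.sqe l (Lc.AT l ha) hr, mul_self_of_elem h.elem ha]
  obtain ⟨T0, T1, R1, k1, q1, n, q2⟩ := h.lnu uu uA (Lc.PA l h.elem (VP hu)) (Lc.pg l h.elem)
    (Lc.AP l) (le_cent1_iff.2 (VC hu))
  have t0 := (Lc.TP l).trans q1
  refine ⟨T0, T1, R1, k1, n, VP.trans q1, fun x hx => ln_ng n h.four u3 l.ty.1 t0 (q1 (VP hx))
    (Lc.PA l h.elem (VP hx)) fun t ht => ?_, fun X x1 x2 x3 x hx =>
    (mem_fixingSubgroup_iff G).2 fun γ hγ => ?_⟩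
  · rw [← mem_cent.1 (VC hx) t (Lc.TP l ht), mul_inv_cancel_right, mul_inv_cancel]; exact one_mem _
  · obtain ⟨g, hg, rfl⟩ := h.tr_fix uu (h.CM (Lc.PA l h.elem (VP hu))) hγ
    exact q2 X T x1 x2 (Lc.AT l) ((Lc.TP l).trans x3) (ln_cover n u3 l.ty.1 t0 fun x hx =>
      ln_ng n h.four u3 l.ty.1 t0 (t0 hx) (u3.cA hx) fun t ht => ty_comm l.ty hx ht) t0 x hx g hg

theorem odd_fix (w4 : 4 ≤ ♯R) (ho : Odd ♯X) (hn : P ≤ 𝒩 X) (hu : u ∈ A ⊔ R) (uA : u ∉ A) :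
    X ≤ fixingSubgroup G {γ : Ω | u • γ = γ} := by
  have VP : A ⊔ R ≤ P := sup_le (Lc.AP l) (Lc.RP l)
  have VC : A ⊔ R ≤ 𝒞 P := sup_le (cent_symm (Lc.PA l h.elem)) (Lc.RcP l)
  have sq : ∀ u ∈ A ⊔ R, u * u = 1 := fun u hu => by
    obtain ⟨a, ha, r, hr, rfl⟩ := (mem_sup_r ((Lc.AT l).trans (Lc.nR l))).1 hu
    rw [Lc.sqe l (Lc.AT l ha) hr, mul_self_of_elem h.elem ha]
  obtain ⟨T0, T1, R1, k1, n, q1, q2, -⟩ := h.ln3 l u3 hu uA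
  have el : Elem 2 ((A ⊔ R) ⊓ R1) := elem_of_sq fun x hx => sq x hx.1
  have c : ♯R ≤ ♯((A ⊔ R) ⊓ R1 : Subgroup G) := card_proj (R := A) (fun r hr => by
    obtain ⟨a, ha, c, hc, rfl⟩ := ln_mem n (q2 (mem_sup_right hr))
    have aA := ln_inv n ha hc (Lc.rr l hr)
    exact mul_mem (mem_sup_right aA) (mem_sup_left
      ⟨(mul_mem_cancel_left (mem_sup_left aA)).1 (mem_sup_right hr), hc⟩))
    ((inf_le_left.trans (VP.trans (Lc.PA l h.elem))).trans (cent_le_norm A))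
    (inf_comm A R ▸ Lc.infA l)
  refine gen_cent1 el.abel (Kx.not_cyc el (w4.trans c)) (inf_le_left.trans (VP.trans hn))
    (cop_of_pgroup Nat.prime_two el.pgroup ho.not_two_dvd_nat).symm fun b hb b1 => ?_
  obtain ⟨_, _, _, _, -, -, -, q⟩ := h.ln3 l u3 hb.1 fun e => b1 (eq_one_of_mem (ln_inf n) ⟨e, hb.2⟩)
  refine (q _ inf_le_right (odd_of_le ho inf_le_left)
    (le_norm_inf hn ((le_cent1_iff.2 (VC hb.1)).trans (le_norm _)))).trans fun x hx =>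
    (mem_fixingSubgroup_iff G).2 fun γ hγ => (mem_fixingSubgroup_iff G).1 hx γ ?_
  obtain ⟨g, hg, rfl⟩ := h.tr_fix (sq u hu) (h.CM (Lc.PA l h.elem (VP hu))) hγ
  exact n.fix b hb.2 g hg

/-- `M = N(A)` -/
theorem MN (mo : 𝒮 α ≤ O2 (𝒮 α) ⊔ 𝒩 A) (w4 : 4 ≤ ♯R) : 𝒮 α ≤ 𝒩 A := by
  have := h.finite
  have VP : A ⊔ R ≤ P := sup_le (Lc.AP l) (Lc.RP l)
  have VC : A ⊔ R ≤ 𝒞 P := sup_le (cent_symm (Lc.PA l h.elem)) (Lc.RcP l)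
  have PA := Lc.PA l h.elem
  have sq : ∀ u ∈ A ⊔ R, u * u = 1 := fun u hu => by
    obtain ⟨a, ha, r, hr, rfl⟩ := (mem_sup_r ((Lc.AT l).trans (Lc.nR l))).1 hu
    rw [Lc.sqe l (Lc.AT l ha) hr, mul_self_of_elem h.elem ha]
  let Γ := fixingSubgroup G {γ : Ω | ∃ u ∈ A ⊔ R, u ∉ A ∧ u • γ = γ}
  have od : ∀ X : Subgroup G, Odd ♯X → P ≤ 𝒩 X → X ≤ Γ := fun X ho hn x hx =>
    (mem_fixingSubgroup_iff G).2 fun γ ⟨u, u1, u2, u3'⟩ =>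
      (mem_fixingSubgroup_iff G).1 (h.odd_fix l u3 w4 ho hn u1 u2 hx) γ u3'
  suffices e : Γ = ⊥ by
    have e2 : O2 (𝒮 α) = ⊥ :=
      eq_bot_iff.2 ((od _ (odd_O2 _) ((PA.trans h.CM).trans (Op_nrm _ _).norm)).trans e.le)
    rwa [e2, bot_sup_eq] at mo
  by_contra e
  have vV : v ∈ A ⊔ R := mem_sup_right l.vR
  have orb : ∀ u ∈ A ⊔ R, u ∉ A → ∀ γ, u • γ = γ → ∃ g ∈ 𝒩 Γ, g • α = γ := fun u hu uA γ hγ => by
    have uc := PA (VP hu)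
    have key : ∀ g ∈ 𝒞₁ u, ∀ a ∈ A, g * a * g⁻¹ ∈ 𝒩 Γ := fun g hg a ha =>
      mem_normalizer_of_forall fun x hx => by
        have x1 : x ∈ fixingSubgroup G {γ : Ω | u • γ = γ} := (mem_fixingSubgroup_iff G).2
          fun γ q => (mem_fixingSubgroup_iff G).1 hx γ ⟨u, hu, uA, q⟩
        have nn := (cent_le_fixing (Ω := Ω) (u := u)).trans (norm_le_norm_Op {2}ᶜ _)
        have := mul_mem (od _ (odd_O2 _) ((le_cent1_iff.2 (VC hu)).trans nn) (conj_mem_of_norm (nn hg)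
          (h.comm_line mo (sq u hu) uA uc ha (conj_mem_of_norm' (cent_le_fixing hg) x1)))) hx
        convert this using 1; group
    by_cases q : α = γ
    · exact ⟨1, one_mem _, by rw [one_smul, q]⟩
    obtain ⟨g, hg, rfl⟩ := h.tr_fix (sq u hu) (h.CM uc) hγ
    obtain ⟨a, ha, a1⟩ := h.exA
    obtain ⟨s, s1, -, s2⟩ := h.conj_ne (inI_of_mem ha a1) (inI_conj (inI_of_mem ha a1) g) (h.AM ha)
      (conj_fix (h.AM ha) g) q (by simpa using key 1 (one_mem _) a ha) (key g hg a ha)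
    exact ⟨s, s1, s2⟩
  have PH : P ≤ 𝒩 Γ := fun g hg => norm_fixing fun γ ⟨u, u1, u2, u3⟩ => ⟨u, u1, u2, by
    rw [← mul_smul, ← mem_cent.1 (VC u1) _ (inv_mem hg), mul_smul, u3]⟩
  obtain ⟨T0, t1, t2⟩ := exists_isSyl_ge (Lc.pg l h.elem) PH
  obtain ⟨a, ha, a1⟩ := h.exA
  have m : v * a ∈ A ⊔ R := mul_mem vV (mem_sup_left ha)
  have m1 : v * a ∉ A := fun q => Lc.vA l ((mul_mem_cancel_right ha).1 q)
  obtain ⟨β, b1, b2⟩ := h.two_fix (⟨fun q => m1 (q ▸ one_mem _), sq _ m⟩ : Ivo (v * a))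
    (h.nI (sq _ m) m1 (PA (VP m))) α
  obtain ⟨T1, R1, k1, n, -⟩ := h.lnY (H := 𝒩 Γ) (fun q => h.ne (eq_top_iff.2 fun x _ =>
    (mem_fixingSubgroup_iff G).1 (((Fx.eq_or h.simple q.ge).resolve_left e).ge (mem_top x)) α
      ⟨v, vV, Lc.vA l, h.CM (PA (VP vV))⟩)) t1 ((Lc.AP l).trans t2) fun q => by
    obtain ⟨g, g1, g2⟩ := orb _ m m1 β b2
    exact b1 (g2.symm.trans (q g1))
  have c1 := Set.ncard_le_ncard (s := insert β {γ : Ω | v • γ = γ})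
    (t := {γ | ∃ g ∈ 𝒩 Γ, g • α = γ}) (by
      rintro γ (rfl | q)
      exacts [orb _ m m1 _ b2, orb v vV (Lc.vA l) γ q])
  rw [Set.ncard_insert_of_notMem fun q => b1 (h.uq0 ha a1 (smul_left_cancel v (by
    rw [← mul_smul, b2]; exact q.symm))), h.card_line l, ncard_orbit, n.idx, u3g_card u3] at c1
  have := ty_card_le n.ty
  omega

end GB

end

end Cfsg.GS.Xx
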