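import Cfsg.Agent.GS.T4

/-! The uniqueness case of Goldschmidt's theorem, 1: linear algebra. -/

set_option autoImplicit false

namespace Cfsg.GS.Yx

open Subgroup Cfsg.L0 Cfsg.H8 Cfsg.FT Cfsg.BS Cfsg.BS.R Cfsg.GS.T3
open scoped commutatorElement

/-- handshake lemma -/
theorem hand {α : Type} [Finite α] (s : Set α) (R : α → α → Prop)
    (h1 : ∀ x ∈ s, ∀ y ∈ s, R x y → R y x) (h2 : ∀ x ∈ s, ¬ R x x)
    (h3 : ∀ x ∈ s, Odd {y | y ∈ s ∧ R x y}.ncard) : Even s.ncard := by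
  classical
  have := Fintype.ofFinite s
  let Γ : SimpleGraph s := ⟨fun x y => R x y, ⟨fun x y => h1 x x.2 y y.2⟩, ⟨fun x => h2 x x.2⟩⟩
  have e := Γ.even_card_odd_degree_vertices
  rw [Finset.filter_true_of_mem, Finset.card_univ, ← Nat.card_eq_fintype_card] at e
  · exact e
  intro x _
  have := h3 x x.2
  rwa [show {y | y ∈ s ∧ R x y} = Subtype.val '' (Γ.neighborFinset x : Set s) by
      ext y; simp [Γ]; exact ⟨fun h => ⟨h.2, h.1⟩, fun ⟨a, b⟩ => ⟨b, a⟩⟩,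
    Set.ncard_image_of_injective _ Subtype.val_injective, Set.ncard_coe_finset] at this

theorem prop6 {a b c d e f : Prop} (h1 : ¬ c ↔ (¬ a ↔ ¬ b)) (h2 : ¬ f ↔ (¬ d ↔ ¬ e))
    (h3 : ¬ (c ↔ f) ↔ (¬ (a ↔ d) ↔ ¬ (b ↔ e))) : False := by
  by_cases a <;> by_cases b <;> by_cases d <;> by_cases e <;> simp_all

variable {G : Type} [Group G]

/-- the canonical complement -/
def Cc (A P : Subgroup G) : Subgroup G := ⁅A, 𝒩 A ⊓ 𝒞 P⁆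

/-- an orbit of good members -/
structure Fam (A : Subgroup G) (𝓟 : Subgroup G → Prop) : Prop where
  el : Elem 2 A
  irr : Irr A
  cnj : ∀ P, 𝓟 P → ∀ n ∈ 𝒩 A, 𝓟 (cj n P)
  trans : ∀ P P', 𝓟 P → 𝓟 P' → ∃ n ∈ 𝒩 A, cj n P = P'
  dp : ∀ P, 𝓟 P → DP P (Cc A P) A
  ne : ∀ P, 𝓟 P → P ≠ ⊥
  four : ∀ P, 𝓟 P → 4 ≤ ♯(Cc A P)
  tr : ∀ P, 𝓟 P → ∀ x ∈ Cc A P, ∀ y ∈ Cc A P, x ≠ 1 → y ≠ 1 → ∃ d ∈ 𝒩 A ⊓ 𝒞 P, d * x * d⁻¹ = y
  dich : ∀ P P', 𝓟 P → 𝓟 P' → P' = P ∨ Cc A P ≤ P' ∨ P ⊓ P' = ⊥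

/-- the configuration of rank `3` -/
structure Tn (A : Subgroup G) (𝓟 : Subgroup G → Prop) : Prop where
  card : ♯A = 8
  mem : ∀ x ∈ A, x ≠ 1 → 𝓟 (zpowers x)
  tour : ∀ x ∈ A, ∀ y ∈ A, x ≠ 1 → y ≠ 1 → x ≠ y → (y ∈ Cc A (zpowers x) ↔ x ∉ Cc A (zpowers y))
  odd : Odd ((𝒞 A).relIndex (𝒩 A))

variable {A P P' P₀ P₁ : Subgroup G} {𝓟 : Subgroup G → Prop} {a c c' d n x y : G}

theorem cj_Cc (hn : n ∈ 𝒩 A) (P : Subgroup G) : cj n (Cc A P) = Cc A (cj n P) := by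
  rw [Cc, cj_commutator, cj_inf, cj_norm, cj_cent, cj_eq_of_mem_norm hn, Cc]

theorem cj_Cc' (hd : d ∈ 𝒩 A ⊓ 𝒞 P) : cj d (Cc A P) = Cc A P := by
  rw [cj_Cc hd.1, cj_eq_of_mem_cent hd.2]

theorem Cc_le : Cc A P ≤ A := comm_le_left inf_le_left

variable [Finite G]

theorem odd_sharp (h : Elem 2 A) (h0 : A ≠ ⊥) : Odd (sharp A).ncard := by
  rw [ncard_sharp]
  exact Nat.Even.sub_odd (card_pos' A)
    (even_iff_two_dvd.2 (dvd_card_of_pgroup Nat.prime_two h.pgroup h0)) odd_one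

namespace Fam
variable (h : Fam A 𝓟)
include h

theorem le (p : 𝓟 P) : P ≤ A := (h.dp P p).le_left

theorem one (p : 𝓟 P) (h1 : x ∈ P) (h2 : x ∈ Cc A P) : x = 1 := eq_one_of_mem (h.dp P p).inf ⟨h1, h2⟩

theorem cne (p : 𝓟 P) : Cc A P ≠ ⊥ := ne_bot_of_card (by have := h.four P p; omega)

theorem nle (p : 𝓟 P) : ¬ P ≤ Cc A P := fun e =>
  h.ne P p (eq_bot_of_le (h.dp P p).inf (le_inf le_rfl e))

theorem card_eq (p : 𝓟 P) (p' : 𝓟 P') : ♯P = ♯P' ∧ ♯(Cc A P) = ♯(Cc A P') := by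
  obtain ⟨n, hn, rfl⟩ := h.trans P P' p p'
  rw [← cj_Cc hn, card_cj, card_cj]
  exact ⟨rfl, rfl⟩

theorem cover (p : 𝓟 P) (p' : 𝓟 P') (h0 : P' ⊓ Cc A P = ⊥) (ha : a ∈ P) :
    ∃ c ∈ Cc A P, a * c ∈ P' := by
  have n := h.el.abel.le_norm (h.le p')
  have e : P' ⊔ Cc A P = A := eq_of_card_le (sup_le (h.le p') Cc_le) (by
    rw [card_sup_of_inf (Cc_le.trans n) h0, (h.dp P p).card, (h.card_eq p p').1])
  obtain ⟨u, hu, v, hv, e⟩ := (mem_sup_l (Cc_le.trans n)).1 (e.ge (h.le p ha))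
  exact ⟨v⁻¹, inv_mem hv, by rwa [← e, mul_inv_cancel_right]⟩

theorem orb (p : 𝓟 P) (ha : a ∈ P) (hc : c ∈ Cc A P) (hc' : c' ∈ Cc A P) (c1 : c ≠ 1)
    (c2 : c' ≠ 1) (e : a * c ∈ P') : ∃ d ∈ 𝒩 A ⊓ 𝒞 P, a * c' ∈ cj d P' := by
  obtain ⟨d, hd, rfl⟩ := h.tr P p c hc c' hc' c1 c2
  refine ⟨d, hd, ?_⟩
  have := conj_mem_cj (g := d) e
  rwa [← mul_assoc, ← mem_cent.1 hd.2 a ha, mul_assoc a, mul_assoc a] at this

variable (p0 : 𝓟 P₀) (p1 : 𝓟 P₁) (n0 : P₁ ≠ P₀) (n1 : ¬ Cc A P₀ ≤ P₁)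
include p0 p1 n0 n1

theorem spread (p : 𝓟 P) (p' : 𝓟 P') (ne : P' ≠ P) : P ⊓ P' = ⊥ := by
  refine ((h.dich P P' p p').resolve_left ne).elim (fun e => by_contra fun e' => ?_) id
  have a := h.el.abel
  have h1 := card_le (sup_le (h.le p0) (h.le p1))
  rw [card_sup_of_inf ((h.le p1).trans (a.le_norm (h.le p0)))
    (((h.dich _ _ p0 p1).resolve_left n0).resolve_left n1), (h.dp _ p0).card] at h1
  have h2 := card_le (sup_le (inf_le_right : P ⊓ P' ≤ P') e)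
  rw [card_sup_of_inf (Cc_le.trans (a.le_norm (inf_le_left.trans (h.le p))))
    (eq_bot_of_le (h.dp P p).inf (inf_le_inf_right _ inf_le_left)), (h.card_eq p' p1).1,
    (h.card_eq p p0).2] at h2
  have := Nat.le_of_mul_le_mul_left h1 (card_pos' _)
  have := one_lt_card e'
  have := card_pos' P₁
  nlinarith

theorem uniq (p : 𝓟 P) (p' : 𝓟 P') (h1 : x ∈ P) (h2 : x ∈ P') (x1 : x ≠ 1) : P' = P :=
  by_contra fun e => x1 (eq_one_of_mem (h.spread p0 p1 n0 n1 p p' e) ⟨h1, h2⟩)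

theorem fill (p : 𝓟 P) (p' : 𝓟 P') (ne : P' ≠ P) (h0 : P' ⊓ Cc A P = ⊥) (ha : a ∈ P) (a1 : a ≠ 1)
    (hc : c ∈ Cc A P) (c1 : c ≠ 1) : ∃ d ∈ 𝒩 A ⊓ 𝒞 P, a * c ∈ cj d P' := by
  obtain ⟨c', hc', e⟩ := h.cover p p' h0 ha
  exact h.orb p ha hc' hc (fun i => ne (h.uniq p0 p1 n0 n1 p p' ha (by simpa [i] using e) a1)) c1 e

theorem cx (p : 𝓟 P) (hc : c ∈ Cc A P) (c1 : c ≠ 1) : ∃ P', 𝓟 P' ∧ c ∈ P' := by
  by_contra! e
  have k : ∀ P', 𝓟 P' → ∀ x ∈ P', x ∈ Cc A P → x = 1 := fun P' p' x h1 h2 => by_contra fun x1 => by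
    obtain ⟨d, hd, i⟩ := h.orb (P' := P') p (one_mem _) h2 hc x1 c1 (by rwa [one_mul])
    exact e _ (h.cnj _ p' d hd.1) (by rwa [one_mul] at i)
  obtain ⟨P', p', ne⟩ : ∃ P', 𝓟 P' ∧ P' ≠ P := by
    by_cases i : P₀ = P
    exacts [⟨_, p1, i ▸ n0⟩, ⟨_, p0, i⟩]
  refine (h.irr _ Cc_le fun n hn => mem_normalizer_of_forall fun x hx => ?_).elim (h.cne p)
    fun i => h.nle p (i.symm ▸ h.le p)
  obtain ⟨u, hu, v, hv, i⟩ := (h.dp P p).sd.mem (conj_mem_of_norm hn (Cc_le hx))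
  by_cases u1 : u = 1
  · rwa [← i, u1, one_mul]
  obtain ⟨P₂, p2, j⟩ : ∃ P₂, 𝓟 P₂ ∧ u * v ∈ P₂ := by
    by_cases v1 : v = 1
    · exact ⟨P, p, by rwa [v1, mul_one]⟩
    obtain ⟨d, hd, j⟩ := h.fill p0 p1 n0 n1 p p' ne
      (eq_bot_iff.2 fun y hy => k _ p' y hy.1 hy.2) hu u1 hv v1
    exact ⟨_, h.cnj _ p' d hd.1, j⟩
  rw [k _ (h.cnj _ p2 _ (inv_mem hn)) x (by rwa [mem_cj, inv_inv, ← i]) hx]
  simp

theorem le_or (p : 𝓟 P) (p' : 𝓟 P') (ne : P' ≠ P) : P' ≤ Cc A P ∨ P' ⊓ Cc A P = ⊥ := by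
  by_contra! e
  obtain ⟨x, hx, x1⟩ := SetLike.not_le_iff_exists.1 e.1
  obtain ⟨a, ha, c, hc, rfl⟩ := (h.dp P p).sd.mem (h.le p' hx)
  have a1 : a ≠ 1 := fun i => x1 (by rwa [i, one_mul])
  have c1 : c ≠ 1 := fun i => ne (h.uniq p0 p1 n0 n1 p p' ha (by simpa [i] using hx) a1)
  have := hand ((a * ·) '' sharp (Cc A P)) (fun y z => y ≠ z ∧ ∃ X, 𝓟 X ∧ y ∈ X ∧ z ∈ X)
    (fun _ _ _ _ ⟨i, X, j, k, l⟩ => ⟨i.symm, X, j, l, k⟩) (fun _ _ i => i.1 rfl) ?_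
  · rw [Set.ncard_image_of_injective _ (mul_right_injective a)] at this
    exact Nat.not_even_iff_odd.2 (odd_sharp (h.el.mono Cc_le) (h.cne p)) this
  rintro _ ⟨u, ⟨hu : u ∈ Cc A P, u1⟩, rfl⟩
  obtain ⟨d, hd, i⟩ := h.orb p ha hc hu c1 u1 hx
  have q := h.cnj _ p' d hd.1
  have ne' : cj d P' ≠ P := fun j => ne ((cj_inj d).1 (j.trans (cj_eq_of_mem_cent hd.2).symm))
  have : {z | z ∈ (a * ·) '' sharp (Cc A P) ∧ a * u ≠ z ∧ ∃ X, 𝓟 X ∧ a * u ∈ X ∧ z ∈ X} =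
      (a * u * ·) '' sharp (cj d P' ⊓ Cc A P) := by
    ext z
    constructor
    · rintro ⟨⟨v, ⟨hv : v ∈ Cc A P, -⟩, rfl⟩, j, X, k, l, m⟩
      rw [h.uniq p0 p1 n0 n1 q k i l fun o => a1 (h.one p ha
        (eq_inv_of_mul_eq_one_left o ▸ inv_mem hu))] at m
      refine ⟨u⁻¹ * v, ⟨mem_inf.2 ⟨?_, mul_mem (inv_mem hu) hv⟩, fun o => j ?_⟩, by simp [mul_assoc]⟩
      · simpa [mul_assoc] using mul_mem (inv_mem i) m
      · rw [inv_mul_eq_one.1 o]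
    · rintro ⟨v, ⟨hv, v1⟩, rfl⟩
      refine ⟨⟨u * v, ⟨mul_mem hu hv.2, fun o => ne' (h.uniq p0 p1 n0 n1 p q ha ?_ a1)⟩,
        (mul_assoc _ _ _).symm⟩, by simpa using v1, _, q, i, mul_mem i hv.1⟩
      simpa [mul_assoc, o] using mul_mem i hv.1
  rw [this, Set.ncard_image_of_injective _ (mul_right_injective _)]
  refine odd_sharp (h.el.mono (inf_le_right.trans Cc_le)) ?_
  rw [← cj_Cc' hd, ← cj_inf, Ne, cj_eq_bot_iff]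
  exact e.2

theorem le_of_mem (p : 𝓟 P) (p' : 𝓟 P') (h1 : x ∈ P') (h2 : x ∈ Cc A P) (x1 : x ≠ 1) :
    P' ≤ Cc A P := (h.le_or p0 p1 n0 n1 p p' fun e => x1 (h.one p (e ▸ h1) h2)).resolve_right
  (ne_bot_of_mem ⟨h1, h2⟩ x1)

theorem full (hx : x ∈ A) (x1 : x ≠ 1) : ∃ P, 𝓟 P ∧ x ∈ P := by
  obtain ⟨P, p, ne, e⟩ : ∃ P, 𝓟 P ∧ P ≠ P₀ ∧ ¬ P ≤ Cc A P₀ := by
    by_contra! e
    obtain ⟨n, hn, i⟩ := h.trans _ _ p0 p1
    have e' : ∀ P, 𝓟 P → P ≠ P₁ → P ≤ Cc A P₁ := fun P p ne => by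
      rw [← i, ← cj_Cc hn, le_cj_iff]
      exact e _ (h.cnj _ p _ (inv_mem hn)) fun j => ne (by rw [← i, ← j, cj_cj_inv])
    have k : ∀ c ∈ Cc A P₀, c ∉ P₁ → c ∈ Cc A P₁ := fun c hc c1 => by
      obtain ⟨P, p, j⟩ := h.cx p0 p1 n0 n1 p0 hc fun o => c1 (o ▸ one_mem _)
      exact e' P p (fun o => c1 (o ▸ j)) j
    obtain ⟨c, hc, c1⟩ := SetLike.not_le_iff_exists.1 n1
    refine h.nle p0 ((e' _ p0 n0.symm).trans (eq_of_card_le (fun u hu => ?_)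
      (h.card_eq p0 p1).2.ge).ge)
    by_cases o : u ∈ P₁
    · exact (mul_mem_cancel_left (k c hc c1)).1
        (k _ (mul_mem hc hu) fun j => c1 ((mul_mem_cancel_right o).1 j))
    · exact k u hu o
  obtain ⟨a, ha, c, hc, rfl⟩ := (h.dp _ p0).sd.mem hx
  by_cases a1 : a = 1
  · rw [a1, one_mul] at x1 ⊢
    exact h.cx p0 p1 n0 n1 p0 hc x1
  by_cases c1 : c = 1
  · exact ⟨_, p0, by rwa [c1, mul_one]⟩
  obtain ⟨d, hd, i⟩ := h.fill p0 p1 n0 n1 p0 p ne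
    ((h.le_or p0 p1 n0 n1 p0 p ne).resolve_left e) ha a1 hc c1
  exact ⟨_, h.cnj _ p d hd.1, i⟩

theorem nsym (p : 𝓟 P) (p' : 𝓟 P') (e : P' ≤ Cc A P) : ¬ P ≤ Cc A P' := fun e' => by
  have := hand (sharp A) (fun x y => ∃ X, 𝓟 X ∧ x ∈ X ∧ y ∈ Cc A X) ?_
    (fun x hx ⟨X, i, j, k⟩ => hx.2 (h.one i j k)) fun x hx => ?_
  · exact Nat.not_even_iff_odd.2 (odd_sharp h.el (ne_bot_of_le (h.ne P p) (h.le p))) this
  · rintro x - y hy ⟨X, i, j, k⟩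
    obtain ⟨Y, l, m⟩ := h.full p0 p1 n0 n1 hy.1 hy.2
    obtain ⟨n, hn, rfl⟩ := h.trans _ _ p i
    obtain ⟨u, hu, u1⟩ := exists_ne_one (h.ne _ (h.cnj _ p' n hn))
    obtain ⟨d, hd, o⟩ := h.orb i (one_mem _) (cj_Cc hn P ▸ cj_mono n e hu) k u1 hy.2
      (by rwa [one_mul])
    rw [one_mul] at o
    refine ⟨Y, l, m, ?_⟩
    rw [h.uniq p0 p1 n0 n1 (h.cnj _ (h.cnj _ p' n hn) d hd.1) l o m hy.2, ← cj_Cc hd.1, ← cj_Cc hn]
    exact cj_mono d (cj_mono n e') ((cj_eq_of_mem_cent hd.2).ge j)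
  · obtain ⟨X, i, j⟩ := h.full p0 p1 n0 n1 hx.1 hx.2
    convert odd_sharp (h.el.mono Cc_le) (h.cne i) using 2
    ext y
    exact ⟨fun ⟨k, Y, l, m, o⟩ => ⟨h.uniq p0 p1 n0 n1 i l j m hx.2 ▸ o, k.2⟩,
      fun k => ⟨⟨Cc_le k.1, k.2⟩, X, i, j, k.1⟩⟩

theorem tour (p : 𝓟 P) (p' : 𝓟 P') (ne : P' ≠ P) (e : ¬ P' ≤ Cc A P) : P ≤ Cc A P' := by
  obtain ⟨c, hc, c1⟩ := exists_ne_one (h.cne p)
  obtain ⟨X, i, j⟩ := h.cx p0 p1 n0 n1 p hc c1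
  obtain ⟨n, hn, k⟩ := h.trans _ _ i p
  have q := h.cnj _ p n hn
  have l : P ≤ Cc A (cj n P) := by
    rw [← cj_Cc hn]
    exact k.ge.trans (cj_mono n (h.le_of_mem p0 p1 n0 n1 p i j hc c1))
  have m : cj n P ≠ P := fun o => h.nle p (by rwa [o] at l)
  obtain ⟨a, ha, a1⟩ := exists_ne_one (h.ne P p)
  obtain ⟨u, hu, o⟩ := h.cover p p' ((h.le_or p0 p1 n0 n1 p p' ne).resolve_left e) ha
  obtain ⟨d, hd, r⟩ := h.fill p0 p1 n0 n1 p q m ((h.le_or p0 p1 n0 n1 p q m).resolve_left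
    (h.nsym p0 p1 n0 n1 q p l)) ha a1 hu
    fun s => ne (h.uniq p0 p1 n0 n1 p p' ha (by simpa [s] using o) a1)
  rw [h.uniq p0 p1 n0 n1 (h.cnj _ q d hd.1) p' r o fun s => a1 (h.one p ha
    (eq_inv_of_mul_eq_one_left s ▸ inv_mem hu)), ← cj_Cc hd.1]
  exact (cj_eq_of_mem_cent hd.2).ge.trans (cj_mono d l)

theorem two (p : 𝓟 P) (hx : x ∈ P) (hy : y ∈ P) (x1 : x ≠ 1) (y1 : y ≠ 1) : x = y := by
  obtain ⟨c, hc, c1⟩ := exists_ne_one (h.cne p)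
  have k : ∀ x ∈ P, x ≠ 1 → x * c ≠ 1 ∧ ∃ X, 𝓟 X ∧ x * c ∈ X ∧ X ≠ P ∧ P ≤ Cc A X :=
    fun x hx x1 => by
    have i : x * c ≠ 1 := fun s => x1 (h.one p hx (eq_inv_of_mul_eq_one_left s ▸ inv_mem hc))
    obtain ⟨X, j, l⟩ := h.full p0 p1 n0 n1 (mul_mem (h.le p hx) (Cc_le hc)) i
    have m : X ≠ P := fun o => c1 (h.one p ((mul_mem_cancel_left hx).1 (o ▸ l)) hc)
    exact ⟨i, X, j, l, m, h.tour p0 p1 n0 n1 p j m fun o =>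
      x1 (h.one p hx ((mul_mem_cancel_right hc).1 (o l)))⟩
  obtain ⟨i, X, j, l, m, o⟩ := k x hx x1
  obtain ⟨i', Y, j', l', m', o'⟩ := k y hy y1
  by_cases e : Y = X
  · subst e
    by_contra ne
    exact m (h.uniq p0 p1 n0 n1 p j (mul_mem hx (inv_mem hy))
      (by simpa [mul_assoc] using mul_mem l (inv_mem l')) (by rwa [Ne, mul_inv_eq_one]))
  by_cases e' : Y ≤ Cc A X
  · exact (i (h.one j l (mul_mem (o hx) ((mul_mem_cancel_left (o hy)).1 (e' l'))))).elim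
  · exact (i' (h.one j' l' (mul_mem (o' hy)
      ((mul_mem_cancel_left (o' hx)).1 (h.tour p0 p1 n0 n1 j j' e e' l))))).elim

theorem tn : Tn A 𝓟 := by
  have el := h.el
  have m : ∀ x ∈ A, x ≠ 1 → 𝓟 (zpowers x) := fun x hx x1 => by
    obtain ⟨P, p, i⟩ := h.full p0 p1 n0 n1 hx x1
    convert p
    refine le_antisymm (zpowers_le.2 i) fun y hy => ?_
    by_cases y1 : y = 1
    exacts [y1 ▸ one_mem _, h.two p0 p1 n0 n1 p i hy x1 y1 ▸ mem_zpowers x]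
  have t : ∀ x ∈ A, ∀ y ∈ A, x ≠ 1 → y ≠ 1 → x ≠ y →
      (y ∈ Cc A (zpowers x) ↔ x ∉ Cc A (zpowers y)) := fun x hx y hy x1 y1 ne => by
    rw [← zpowers_le, ← zpowers_le]
    exact ⟨h.nsym p0 p1 n0 n1 (m x hx x1) (m y hy y1), h.tour p0 p1 n0 n1 (m y hy y1) (m x hx x1)
      fun e => ne (h.two p0 p1 n0 n1 (m y hy y1) (e ▸ mem_zpowers x) (mem_zpowers y) x1 y1)⟩
  have cz : ∀ x ∈ A, x ≠ 1 → ♯(zpowers x) = 2 := fun x hx x1 => by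
    rw [card_zpow, el.orderOf_eq Nat.prime_two hx x1]
  have hy : ∀ e ∈ A, e ≠ 1 → ∀ u ∈ A, ∀ v ∈ A,
      (u * v ∈ Cc A (zpowers e) ↔ (u ∈ Cc A (zpowers e) ↔ v ∈ Cc A (zpowers e))) :=
    fun e he e1 u hu v hv => by
    have y := SFx.hy_of_dvd (Cc_le (A := A) (P := zpowers e))
      (by rw [(h.dp _ (m e he e1)).sd.ri', cz e he e1])
    by_cases i : u ∈ Cc A (zpowers e)
    · simp [i, mul_mem_cancel_left i]
    by_cases j : v ∈ Cc A (zpowers e)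
    · simp [i, j, mul_mem_cancel_right j]
    · simp [i, j, y.mul u hu v hv i j]
  have ext : ∀ V, V ≤ A → ♯V < ♯A → ∃ x ∈ A, x ∉ V ∧ x ≠ 1 ∧ ♯(V ⊔ zpowers x) ≤ ♯V * 2 :=
    fun V i j => by
    obtain ⟨x, hx, k⟩ := SetLike.not_le_iff_exists.1 fun e : A ≤ V => (card_le e).not_gt j
    have x1 : x ≠ 1 := fun e => k (e ▸ one_mem _)
    exact ⟨x, hx, k, x1, cz x hx x1 ▸ Nat.le_of_dvd (Nat.mul_pos (card_pos' _) (card_pos' _))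
      (card_sup_dvd ((zpowers_le.2 hx).trans (el.abel.le_norm i)))⟩
  obtain ⟨a, ha, a1⟩ := exists_ne_one (h.ne _ p0)
  replace ha := h.le p0 ha
  refine ⟨le_antisymm (not_lt.1 fun e => ?_) ?_, m, t, Nat.not_even_iff_odd.1 fun e => ?_⟩
  · have z := zpowers_le.2 ha
    obtain ⟨b, hb, b0, b1, b2⟩ := ext _ z (by rw [cz a ha a1]; omega)
    rw [cz a ha a1] at b2
    replace z := sup_le z (zpowers_le.2 hb)
    obtain ⟨x, hx, x0, x1, x2⟩ := ext _ z (by omega)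
    obtain ⟨y, hy', y0, y1, -⟩ := ext _ (sup_le z (zpowers_le.2 hx)) (by omega)
    have ma : a ∈ zpowers a ⊔ zpowers b := mem_sup_left (mem_zpowers a)
    have mb : b ∈ zpowers a ⊔ zpowers b := mem_sup_right (mem_zpowers b)
    have ab : a * b ≠ 1 := fun i => b0 (eq_inv_of_mul_eq_one_right i ▸ inv_mem (mem_zpowers a))
    have y2 : y ∉ zpowers a ⊔ zpowers b := fun i => y0 (mem_sup_left i)
    have y3 : x * y ∉ zpowers a ⊔ zpowers b := fun i => y0 ((mul_mem_cancel_left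
      (mem_sup_right (mem_zpowers x))).1 (mem_sup_left i))
    have k : ∀ w ∈ A, w ∉ zpowers a ⊔ zpowers b → (w ∉ Cc A (zpowers (a * b)) ↔
        (w ∉ Cc A (zpowers a) ↔ w ∉ Cc A (zpowers b))) := fun w hw w0 => by
      have w1 : w ≠ 1 := fun i => w0 (i ▸ one_mem _)
      rw [← t w hw a ha w1 a1 fun i => w0 (i ▸ ma), ← t w hw b hb w1 b1 fun i => w0 (i ▸ mb),
        ← t w hw _ (mul_mem ha hb) w1 ab fun i => w0 (i ▸ mul_mem ma mb)]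
      exact hy w hw w1 a ha b hb
    have := k _ (mul_mem hx hy') y3
    rw [hy a ha a1 x hx y hy', hy b hb b1 x hx y hy', hy _ (mul_mem ha hb) ab x hx y hy'] at this
    exact prop6 (k x hx x0) (k y hy' y2) this
  · have := h.four _ (m a ha a1)
    rw [(h.dp _ (m a ha a1)).card, cz a ha a1]
    omega
  · obtain ⟨n, hn, i, j⟩ := exists_pow_mem_of_dvd_relIndex (norm_le_norm_cent A) e.two_dvd
    simp only [mem_cent, not_forall] at i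
    obtain ⟨x, hx, i⟩ := i
    have x1 : x ≠ 1 := fun o => i (by simp [o])
    have := t x hx _ (conj_mem_of_norm hn hx) x1 (conj_ne_one x1 n) fun o => i (by
      conv_lhs => rw [o, inv_mul_cancel_right])
    rw [← cj_zpowers', ← cj_Cc hn, mem_cj, show n⁻¹ * x * n = n * x * n⁻¹ by
      rw [eq_mul_inv_iff_mul_eq, mul_assoc, mul_assoc, ← sq, mem_cent.1 j x hx]; group] at this
    exact iff_not_self this

end Fam

/-- **Lin** -/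
theorem Fam.lin (h : Fam A 𝓟) : (∀ P P', 𝓟 P → 𝓟 P' → P' = P ∨ Cc A P ≤ P') ∨ Tn A 𝓟 := by
  refine or_iff_not_imp_left.2 fun e => ?_
  simp only [not_forall, not_or] at e
  obtain ⟨P, P', p, p', i, j⟩ := e
  exact h.tn p p' i j

end Cfsg.GS.Yx
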