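import Cfsg.Agent.GS.Y2
import Cfsg.Agent.GS.N3

/-! The uniqueness case of Goldschmidt's theorem, 3: components not centralized by `A`. -/

set_option autoImplicit false

namespace Cfsg.GS.Yx

open Subgroup Cfsg.L0 Cfsg.H8 Cfsg.FT Cfsg.BS Cfsg.BS.R Cfsg.GS.T3 Cfsg.GS.T4 Cfsg.GS.Kx
open scoped commutatorElement

/-- a component modulo its centralizer -/
structure CD {X Q : Type} [Group X] [Group Q] (S A L : Subgroup X) (f : 𝒩 L →* Q) : Prop where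
  ker : up f ⊥ = 𝒞 L
  c0 : 𝒞 (down f L) = ⊥
  n0 : ⊤ ≤ 𝒩 (down f L)
  om : down f A = Om 2 (down f (S ⊓ L))
  gd : GD (down f L) (down f (S ⊓ L))
  gb : GB (down f L)
  lift : ∀ g : 𝒩 L, f g ∈ 𝒩 (down f (S ⊓ L)) → (g : X) ∈ 𝒩 (S ⊓ L)
  mem : ∀ x : 𝒩 L, (x : X) ∈ S ⊓ L → (f x ∈ Om 2 (down f (S ⊓ L)) ↔ (x : X) ∈ A)

variable {X : Type} [Group X] [Finite X] {A B D E H K L M S T Y : Subgroup X} {a g k s t x y : X}

omit [Finite X] in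
theorem CD.one {Q : Type} [Group Q] {f : 𝒩 L →* Q} (h : CD S A L f) (x : 𝒩 L) :
    f x = 1 ↔ (x : X) ∈ 𝒞 L := by rw [← h.ker, coe_mem_up, mem_bot]

theorem odd_lift {Q : Type} [Group Q] (f : H →* Q) (g : H) (ho : Odd (orderOf (f g))) :
    ∃ v : H, (v : X) ∈ zpowers (g : X) ∧ Odd (orderOf (v : X)) ∧ f v = f g := by
  obtain ⟨j, hj⟩ := exists_pow_coprime 2 (g : X)
  obtain ⟨n, hn⟩ := exists_pow_eq_self_of_coprime (x := f g) (n := 2 ^ j)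
    ((Nat.coprime_two_left.2 ho).pow_left j)
  exact ⟨(g ^ 2 ^ j) ^ n, pow_mem (pow_mem (mem_zpowers _) _) n,
    (Nat.coprime_two_right.1 hj).of_dvd_nat (orderOf_pow_dvd n), by rw [map_pow, map_pow, hn]⟩

theorem quoN (hL : Cp L H) (hG : GoldIn H) (h1 : L ≤ M) (h2 : M ≤ 𝒩 L) :
    ∃ (Q : Type) (_ : Group Q) (_ : Finite Q) (f : M →* Q), Function.Surjective f ∧
      up f ⊥ = M ⊓ 𝒞 L ∧ 𝒞 (down f L) = ⊥ ∧ Smp (down f L) ∧ GB (down f L) := by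
  obtain ⟨Q, _, _, f, hf, hk⟩ := exists_quo0 ((Nrm.refl M).inf_cent h2)
  have c : 𝒞 (down f L) = ⊥ := by
    rw [← down_up hf (𝒞 _), down_eq_bot_iff (up_le _ _), hk]
    exact le_inf (up_le _ _) (cent_of_down hL.qs.perfect h1 (hk.le.trans inf_le_right) (up_le _ _)
      (down_up_le _ _))
  have q := (Cp.mk .refl hL.qs).down f h1 fun e => hL.not_cent (e.trans (hk.le.trans inf_le_right))
  have sm := Nx.smp_of_qs q.qs (by rw [c, inf_bot_eq]) q.even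
  exact ⟨Q, _, ‹_›, f, hf, hk, c, sm,
    hG.hg Q _ sm (involves_trans (involves_down f h1) (involves_of_le hL.le))⟩

omit [Finite X] in
theorem comm_onto {F : Type} [Field F] [Fintype F] {π ι : X → F} {l : F} (u : Nx.Co3 A T k π ι l)
    (ht : Tor A k) (hx : x ∈ T) (x1 : x ∉ A) (ha : a ∈ A) : ∃ t ∈ T, ⁅x, t⁆ = a := by
  obtain ⟨c, hc⟩ := u.exists_ne
  have p := mt (u.ker x hx).1 x1
  have s : c + c ^ ♯A ≠ 0 := fun e => hc (by
    rw [← add_zero (c ^ _), ← u.add_self c, ← add_assoc, add_comm (c ^ _), e, zero_add])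
  obtain ⟨t, t1, e⟩ := u.onto (ι a * c / ((c + c ^ ♯A) * π x ^ ♯A))
  refine ⟨t, t1, u.ι_inj (u.comm_mem hx t1) ha ?_⟩
  rw [u.ι_comm hx t1, e, div_pow, mul_pow, mul_pow, u.ι_fix ht ha, u.add_pow, u.pow_pow, u.pow_pow,
    add_comm (c ^ _)]
  field_simp

section
variable (h : St H S A) (hL : Cp L H) (n : ¬ A ≤ 𝒞 L)
include h hL n

theorem memA (hx : x ∈ S ⊓ L) (h2 : x * x ∈ 𝒞 L) : x ∈ A := by
  have l := (h.le_iff hL).2 n
  obtain ⟨z, hz, e⟩ := (Op_single_eq Nat.prime_two _).le ((hL.mono l h.nrm.le).ctr_le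
    (eq_bot_of_le h.o (Op_le_Op_of_nrm _ h.nrm)) ⟨mul_mem hx.2 hx.2, h2⟩)
  refine sup_le le_rfl h.l2.le (mem_sup_ker (x := ⟨x, l hx.2⟩) ((h.l2.l1.mem _).2
    ⟨mem_map_of_mem _ hx.1, ?_⟩))
  rw [← map_pow, ← MonoidHom.mem_ker, QuotientGroup.ker_mk', pow_two]
  exact (Subtype.ext e : z = ⟨x, l hx.2⟩ * ⟨x, l hx.2⟩) ▸ hz

theorem zA : 𝒵 L ≤ A := fun _ hz => memA h hL n
  ⟨Op_le_syl Nat.prime_two h.syl (hL.ctr_le h.o hz), hz.1⟩ (mul_mem hz.2 hz.2)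

theorem splitA (he : Elem 2 A) (ha : a ∈ A) : ∃ l ∈ A ⊓ L, ∃ c ∈ A ⊓ 𝒞 L, l * c = a := by
  obtain ⟨l, l1, c, c1, rfl⟩ := h.split hL (h.sc.le ha) (le_ncl H A ha)
  have e := he.pow ha
  rw [(show Commute l c from mem_cent.1 c1.2 l l1.2).mul_pow, mul_eq_one_iff_eq_inv] at e
  have := memA h hL n l1 (by rw [← pow_two, e]; exact inv_mem (pow_mem (mem_inf.1 c1).2 2))
  exact ⟨l, ⟨this, l1.2⟩, c, ⟨(mul_mem_cancel_left this).1 ha, c1.2⟩, rfl⟩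

theorem cd (he : Elem 2 A) :
    ∃ (Q : Type) (_ : Group Q) (_ : Finite Q) (f : 𝒩 L →* Q), CD S A L f := by
  obtain ⟨Q, _, _, f, hf, hk, c, sm, gb⟩ := quoN hL h.gold (le_norm L) le_rfl
  rw [inf_eq_right.2 (cent_le_norm L)] at hk
  have s := hL.syl h.syl
  have e : down f (A ⊓ L) = down f A := le_antisymm (down_mono f inf_le_left) (by
    rw [← down_sup_ker f (inf_le_right.trans (le_norm L)), hk]
    refine down_mono f fun a ha => ?_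
    obtain ⟨l, l1, c, c1, rfl⟩ := splitA h hL n he ha
    exact mul_mem_sup l1 c1.2)
  obtain ⟨i, j⟩ := gd Nx.kB sm gb (s.down f (le_norm L))
    (e ▸ (h.sc.inf hL.le).down s f (le_norm L))
    (fun i => n (hk ▸ (down_eq_bot_iff (h.normA hL)).1 i)) (h.ab.down f)
  refine ⟨Q, _, ‹_›, f, hk, c, down_top hf ▸ down_le_norm f le_rfl, i, j, gb,
    fun g hn => mem_normalizer_of_forall fun x hx => ?_, fun x hx => ⟨fun a => memA h hL n hx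
      (hk.le ((coe_mem_up (x := x * x)).2 (by rw [map_mul, ← pow_two]; exact j.el.pow a))),
      fun a => i ▸ mem_down_of_mem a⟩⟩
  have b : _ ∈ S ⊓ L ⊔ up f ⊥ := (up_down f (s.le.trans (le_norm L))).le (coe_mem_up.2
    (show f (g * ⟨x, le_norm L hx.2⟩ * g⁻¹) ∈ _ by
      rw [map_mul, map_mul, map_inv]
      exact conj_mem_of_norm hn (mem_down_of_mem (x := ⟨x, _⟩) hx)))
  have := mem_inf.2 ⟨b, conj_mem_of_norm g.2 hx.2⟩
  rwa [dedekind_l inf_le_right (s.le.trans ((le_norm L).trans (le_norm_ker f le_rfl))), hk,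
    inf_comm (𝒞 L), sup_eq_left.2 (le_inf ((zA h hL n).trans h.sc.le) inf_le_left)] at this

theorem trA (he : Elem 2 A) (hx : x ∈ A) (hy : y ∈ A) (x1 : x ∉ 𝒞 L) (y1 : y ∉ 𝒞 L) :
    ∃ g ∈ L ⊓ 𝒩 A, g * x * g⁻¹ * y⁻¹ ∈ 𝒞 L := by
  obtain ⟨Q, _, _, f, c⟩ := cd h hL n he
  have N := h.normA hL
  obtain ⟨_, ⟨⟨g, g1, rfl⟩, g2⟩, e⟩ := c.gd.tr (f ⟨x, N hx⟩) (c.om ▸ mem_down_of_mem hx)
    (f ⟨y, N hy⟩) (c.om ▸ mem_down_of_mem hy) (mt (c.one _).1 x1) (mt (c.one _).1 y1)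
  exact ⟨g, ⟨g1, h.mem_norm hL g1 (c.lift g g2)⟩, (c.one (g * ⟨x, N hx⟩ * g⁻¹ * ⟨y, N hy⟩⁻¹)).1
    (by rw [map_mul, map_mul, map_mul, map_inv, map_inv, e, mul_inv_cancel])⟩

omit hL n in
theorem CD.ri {Q : Type} [Group Q] {f : 𝒩 L →* Q} (c : CD S A L f) (hL : Cp L H) :
    (𝒞 L).relIndex A = ♯(Om 2 (down f (S ⊓ L))) := by
  rw [← c.ker, ri_up f ⊥ (h.normA hL), relIndex_bot_left, c.om]

theorem fourA (he : Elem 2 A) : 4 ≤ (𝒞 L).relIndex A := by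
  obtain ⟨Q, _, _, f, c⟩ := cd h hL n he
  exact c.ri h hL ▸ c.gd.four

/-- a component is determined by its centralizer in `A` -/
theorem uniq (he : Elem 2 A) (hM : Cp M H) (e : A ⊓ 𝒞 M ≤ 𝒞 L) : M = L := by
  by_contra i
  by_cases m : A ≤ 𝒞 M
  · exact n ((le_inf le_rfl m).trans e)
  refine n fun a ha => ?_
  obtain ⟨l, l1, c, c1, rfl⟩ := splitA h hM m he ha
  exact mul_mem (hM.cent hL i l1.2) (e c1)

/-- the centre is trivial if the Sylow subgroup centralizes `A` -/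
theorem z0 (he : Elem 2 A) (hT : S ⊓ L ≤ 𝒞 A) : 𝒵 L = ⊥ := by
  obtain ⟨Q, _, _, f, c⟩ := cd h hL n he
  have s := hL.syl h.syl
  have s' := s.mono (le_inf s.le (le_norm _)) inf_le_left
  obtain ⟨D, hD⟩ := exists_sd (⟨s'.le, inf_le_right⟩ : S ⊓ L ⊴ L ⊓ 𝒩 (S ⊓ L))
    (cop_of_pgroup Nat.prime_two s.isPGroup s'.not_dvd)
  have DA : L ⊓ 𝒩 (S ⊓ L) ≤ 𝒩 A := fun g hg => h.mem_norm hL hg.1 hg.2
  have dp := he.abel.dp_comm_cent (hD.le_right.trans DA)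
    (cop_of_pgroup Nat.prime_two he.pgroup (hD.ri ▸ s'.not_dvd))
  have CT : ⁅A, D⁆ ≤ S ⊓ L := le_inf (dp.le_left.trans h.sc.le)
    (comm_le_of_le_of_norm (hD.le_right.trans inf_le_left) (h.normA hL))
  have N := s.le.trans (le_norm L)
  have der : ⁅S ⊓ L, S ⊓ L⁆ ≤ ⁅A, D⁆ := Ux.der_le_of_sq fun u hu => by
    by_cases e : u ∈ A
    · rw [← pow_two, he.pow e]; exact one_mem _
    have e' := mt (c.mem ⟨u, N hu⟩ hu).1 e
    have m := mem_down_of_mem (f := f) (x := ⟨u, N hu⟩) hu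
    have r : RB (down f L) (down f (S ⊓ L)) := by
      rcases c.gd.ty with ⟨_, -, r | r, -⟩ | r | r
      exacts [(e' (r m)).elim, r, (e' (r.2.1 m)).elim, (e' (r.2.1 m)).elim]
    have u2 : u * u ∈ A := (c.mem (⟨u, N hu⟩ * ⟨u, N hu⟩) (mul_mem hu hu)).1
      (mem_Om (map_mul f _ _ ▸ mul_mem m m) (by rw [map_mul, ← pow_two, ← pow_mul, r.four _ m]))
    obtain ⟨R, _, _, φ, hφ, hk⟩ := exists_quo0 (show ⁅A, D⁆ ⊴ S ⊓ L from
      ⟨CT, le_norm_of_cent hT dp.le_left⟩)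
    have m1 : ∀ x : ↥(S ⊓ L), φ x = 1 ↔ (x : X) ∈ ⁅A, D⁆ := fun x => by
      rw [← hk, coe_mem_up, mem_bot]
    have key : ∀ v : ↥(S ⊓ L), Fus (down f L) (down f (S ⊓ L)) (f ⟨u, N hu⟩) (f ⟨v, N v.2⟩) →
        φ v ^ 2 = φ ⟨u, hu⟩ ^ 2 := by
      rintro v ⟨_, ⟨g, g1, rfl⟩, z, z1, z2, i⟩
      have g2 := c.lift g (r.ti _ (mem_down_of_mem g1) _ m (fun j => e' (j ▸ one_mem _))
        ((mul_mem_cancel_right z1).1 (i ▸ mem_down_of_mem v.2)))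
      have a := (c.mem ((g * ⟨u, N hu⟩ * g⁻¹)⁻¹ * ⟨v, N v.2⟩)
        (mul_mem (inv_mem (conj_mem_of_norm g2 hu)) v.2)).1 (by
          rw [map_mul, map_inv, map_mul, map_mul, map_inv, i, inv_mul_cancel_left]
          exact mem_Om z1 z2)
      obtain ⟨d, d1, t, t1, j⟩ := hD.mem' (x := (g : X)) (mem_inf.2 ⟨g1, g2⟩)
      rw [← mul_inv_eq_one, ← map_pow, ← map_pow, ← map_inv, ← map_mul, m1]
      obtain ⟨b, hb⟩ : ∃ b, (v : X) = g * u * (g : X)⁻¹ * b := ⟨(g * u * (g : X)⁻¹)⁻¹ * v, by group⟩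
      have a' : b ∈ A := by simpa [hb, mul_assoc] using a
      have := inv_mem (commutator_mem_commutator u2 d1)
      rw [commutatorElement_inv, commutatorElement_def] at this
      convert this using 1
      simp only [coe_mul, coe_inv, pow_two, hb]
      rw [mul_assoc _ b, ← mul_assoc b, mem_cent.1 (hT (conj_mem_of_norm g2 hu)) b a',
        mul_assoc _ b b, ← pow_two b, he.pow a', mul_one, Ux.conj_mul_self, ← j, mul_assoc d,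
        ← mem_cent.1 (hT t1) _ u2]
      group
    obtain ⟨_, ⟨y, hy, rfl⟩, _, ⟨w, hw, rfl⟩, f1, f2, f3, f4, f5, f6⟩ := r.seven _ m
      fun j => e' (mem_Om m j)
    simp only [← map_mul] at f3 f4 f5 f6
    have sv := sq_seven (c := φ ⟨u, hu⟩ ^ 2) (x := φ ⟨u, hu⟩) (y := φ ⟨y, hy⟩) (w := φ ⟨w, hw⟩)
      (fun d => by
        obtain ⟨d, rfl⟩ := hφ d
        rw [← map_pow, ← map_mul, ← map_mul, pow_two]
        exact congrArg φ (Subtype.ext (mem_cent.1 (hT d.2) _ u2)))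
      (by
        rw [← map_pow, ← map_pow, ← map_one φ, pow_two (⟨u, hu⟩ : ↥(S ⊓ L))]
        exact congrArg φ (Subtype.ext (he.pow u2))) rfl (key _ f1) (key _ f2)
      (map_mul φ _ _ ▸ key _ f3) (map_mul φ _ _ ▸ key _ f4) (map_mul φ _ _ ▸ key _ f5)
    rw [← map_mul, ← map_mul, key _ f6, ← map_pow, m1] at sv
    simpa [pow_two] using sv
  refine eq_bot_iff.2 fun z hz => ?_
  have zT : z ∈ S ⊓ L := ⟨h.sc.le (zA h hL n hz), hz.1⟩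
  have h1 := mem_der_of_central s.subgroupOf_top (z := ⟨z, hz.1⟩) zT
    (mem_center_iff.2 fun g => Subtype.ext (mem_cent.1 hz.2 g g.2)) (by
      have := hL.qs.perfect.ge hz.1
      rw [← map_subtype_commutator] at this
      exact (mem_map_iff_mem L.subtype_injective).1 this)
  have h2 := mem_map_of_mem L.subtype h1
  rw [map_commutator, map_subgroupOf_eq_of_le s.le] at h2
  exact dp.inf.le ⟨der h2, zA h hL n hz, cent_anti (hD.le_right.trans inf_le_left) hz.2⟩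

/-- the Sylow subgroup centralizes `A` unless `L` is a cover of a Suzuki group -/
theorem cent_or (he : Elem 2 A) : S ⊓ L ≤ 𝒞 A ∨
    ((∀ x ∈ 𝒩 L ⊓ 𝒩 A, (∃ m, x ^ 2 ^ m = 1) → ∀ a ∈ A, ⁅x, a⁆ ∈ 𝒞 L) ∧
      ∀ a ∈ A, a ∉ 𝒞 L → ∃ x ∈ S ⊓ L, x * a = a * x ∧ x ∉ 𝒞 A) := by
  refine or_iff_not_imp_left.2 fun hT => ?_
  obtain ⟨Q, _, _, f, c⟩ := cd h hL n he
  have N := (hL.syl h.syl).le.trans (le_norm L)
  have NA := h.normA hL
  have TA : S ⊓ L ≤ 𝒩 A := inf_le_left.trans (h.sc.le_norm h.syl.le)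
  have e : ¬ down f (S ⊓ L) ≤ Om 2 (down f (S ⊓ L)) := fun e => hT fun x hx =>
    h.ab ((c.mem ⟨x, N hx⟩ hx).1 (e (mem_down_of_mem hx)))
  obtain ⟨_, b, -⟩ := c.gd.ty.resolve_right fun i => i.elim (fun i => e i.2.1) fun i => e i.2.1
  obtain ⟨k0, k1, rfl⟩ := mem_down.1 b.kL
  obtain ⟨k, k2, ko, i⟩ := odd_lift f k0 b.ty.1.odd
  rw [← i] at b
  have kL := zpowers_le.2 k1 k2
  have kT := c.lift k b.kT
  have kA := h.mem_norm hL kL kT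
  rcases b.iso with ⟨_, _, _, -, j, -⟩ | ⟨-, s⟩ | ⟨_, _, _, -, u, -⟩
  · exact (e j.le).elim
  · have s2 := b.ctr ▸ s.s2g
    refine ⟨fun x hx ⟨m, hm⟩ a ha => (c.one ⁅(⟨x, hx.1⟩ : 𝒩 L), ⟨a, NA ha⟩⁆).1 ?_, fun a ha a1 => ?_⟩
    · have p : ∃ m, f ⟨x, hx.1⟩ ^ 2 ^ m = 1 :=
        ⟨m, by rw [← map_pow, ← map_one f]; exact congrArg f (Subtype.ext hm)⟩
      have j := s.aut2 _ (c.n0 (mem_top _)) p
      rw [c.c0, sup_bot_eq] at j
      rw [map_commutatorElement, commutatorElement_eq_one_iff_mul_comm]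
      exact (mem_cent.1 (b.cA (b.syl.mem_of_mem_normalizer j p (b.nA ⟨c.n0 (mem_top _),
        c.om ▸ down_le_norm f le_rfl (mem_down_of_mem hx.2)⟩))) _
        (c.om ▸ mem_down_of_mem ha)).symm
    · obtain ⟨l, l1, d, d1, rfl⟩ := splitA h hL n he ha
      obtain ⟨_, ⟨x, hx, rfl⟩, j⟩ := Ux.S2.exists_sq s2 (by have := b.four; omega)
        (c.om ▸ mem_down_of_mem (x := ⟨l, NA l1.1⟩) l1.1)
      replace hx : (x : X) ∈ S ⊓ L := hx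
      have z := (c.one ((x * x)⁻¹ * ⟨l, NA l1.1⟩)).1 (by rw [map_mul, map_inv, map_mul, j, inv_mul_cancel])
      have xA : (x : X) ∉ A := fun q => a1 (mul_mem ((c.one ⟨l, NA l1.1⟩).1
        (by rw [← j, ← pow_two]; exact b.el.pow ((c.mem x hx).2 q))) d1.2)
      refine ⟨x, hx, mem_cent1.1 (mem_cent1_comm.1 (mul_mem ?_ (cent_le_cent1 hx.2 d1.2))),
        fun q => hT fun y hy => by_contra fun y1 => ?_⟩
      · exact (mul_mem_cancel_left (inv_mem (mul_mem (self_mem_cent1 _) (self_mem_cent1 _)))).1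
          (cent_le_cent1 hx.2 z)
      obtain ⟨m, j⟩ := Ux.S2.trT s2 (mem_down_of_mem hx) (mem_down_of_mem (x := ⟨y, N hy⟩) hy)
        (mt (c.mem x hx).1 xA) (mt (c.mem _ hy).1 fun q => y1 (h.ab q))
      rw [← map_pow, ← map_inv, ← map_inv, ← map_mul, ← map_mul, ← map_mul,
        c.mem _ (mul_mem (Ux.pow_conj_mem kT hx m) (inv_mem hy))] at j
      exact y1 (inv_mem_iff.1 ((mul_mem_cancel_left
        (Ux.pow_conj_mem (norm_le_norm_cent A kA) q m)).1 (h.ab j)))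
  refine (hT fun y hy => ?_).elim
  obtain ⟨F, _, _, π, ι, l, u⟩ := Nx.co3_of u
  obtain ⟨_, ⟨x, hx, rfl⟩, a, ha, j⟩ := u.w_onto b.four (mem_down_of_mem (x := ⟨y, N hy⟩) hy)
  replace hx : (x : X) ∈ S ⊓ L := hx
  have wc := u.w_cent
  rw [← map_pow] at j wc
  have o : Odd (orderOf ((k : X) ^ (♯(Om 2 (down f (S ⊓ L))) - 1))) :=
    ko.of_dvd_nat (orderOf_pow_dvd _)
  have wL := pow_mem kL (♯(Om 2 (down f (S ⊓ L))) - 1)
  have wT := pow_mem kT (♯(Om 2 (down f (S ⊓ L))) - 1)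
  rw [← coe_pow] at o wL wT
  generalize k ^ (♯(Om 2 (down f (S ⊓ L))) - 1) = w at j wc o wL wT
  have wA : (w : X) ∈ 𝒞 A := zpowers_le.1 (cent_of_stable (zpowers_le.2 (h.mem_norm hL wL wT))
    (cop_of_pgroup Nat.prime_two he.pgroup (by rw [card_zpow]; exact o.not_two_dvd_nat))
    (((down_le_cent_iff (zpowers_le.2 w.2) NA).1 (by
      rw [down_zpowers, c.om]; exact zpowers_le.2 wc)).trans c.ker.le)
    ((zpowers_le.2 wL).trans (cent_symm le_rfl)))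
  have := (c.mem (⟨y, N hy⟩ * (w * x * w⁻¹ * x⁻¹)⁻¹) (mul_mem hy (inv_mem
    (mul_mem (conj_mem_of_norm wT hx) (inv_mem hx))))).1 (by
      rwa [map_mul, map_inv, map_mul, map_mul, map_mul, map_inv, map_inv, j, mul_inv_cancel_right])
  refine (mul_mem_cancel_right (inv_mem ?_)).1 (h.ab this)
  rw [coe_mul, coe_mul, coe_mul, mul_assoc, mul_assoc, ← mul_assoc (x : X)]
  exact mul_mem wA (conj_mem_of_norm (norm_le_norm_cent A (TA hx)) (inv_mem wA))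

/-- balance for components of type I and III -/
theorem bal1 (he : Elem 2 A) (h8 : 8 ≤ (𝒞 L).relIndex A) (ha : a ∈ A) : O2 (H ⊓ 𝒞₁ a) ≤ 𝒞 L := by
  have o := odd_O2 (H ⊓ 𝒞₁ a)
  have nr := Op_nrm {2}ᶜ (H ⊓ 𝒞₁ a)
  by_cases e : a ∈ 𝒞 L
  · exact (hL.mono (le_inf hL.le (le_cent1_iff.2 e)) inf_le_left).cent_of_sol nr.sn
      (solvable_of_odd _ o)
  obtain ⟨Q, _, _, f, c⟩ := cd h hL n he
  have a2 := SFx.sq1 he ha
  have N : O2 (H ⊓ 𝒞₁ a) ≤ 𝒩 L := by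
    obtain ⟨l, l1, d, d1, rfl⟩ := splitA h hL n he ha
    exact hL.norm_of (h.le ha) a2 (mem_cent1.2 (h.ab.comm l1.1 ha)) (mem_sup_left l1.2)
      (fun i => e (mul_mem i d1.2)) ⟨1, he.pow l1.1⟩
  have NA := h.normA hL
  have s := hL.syl h.syl
  have m : f ⟨a, NA ha⟩ ∈ down f (S ⊓ L) := Om_le 2 _ (c.om ▸ mem_down_of_mem ha)
  have m1 := mt (c.one ⟨a, NA ha⟩).1 e
  have m2 : down f (O2 (H ⊓ 𝒞₁ a)) ≤ 𝒞₁ (f ⟨a, NA ha⟩) := by
    rw [← cent_zpowers (f _), ← down_zpowers]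
    exact down_le_cent f (by rw [cent_zpowers]; exact nr.le.trans inf_le_right)
  refine cent_of_down hL.qs.perfect (le_norm L) c.ker.le N ?_
  rcases c.gd.ty with ⟨k, b, -⟩ | ⟨r, -⟩ | ⟨-, r, t⟩
  · refine b.oddT (odd_down f o) (le_top.trans c.n0) (le_norm_of_le_cent (cent_symm
      (down_le_cent f (axb s.isPGroup (s.le.trans hL.le) a2
        (le_norm_inf (le_norm_of_le h.sc.le) NA ha) fun x hx => c.lift ⟨x, N hx⟩ ?_))))
    exact b.cz m m1 ⟨c.n0 (mem_top _), m2 (mem_down_of_mem hx)⟩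
  · have := card_le (Om_le 2 (down f (S ⊓ L)))
    rw [c.ri h hL] at h8
    omega
  have z := z0 h hL n he fun x hx =>
    h.ab ((c.mem ⟨x, le_norm L hx.2⟩ hx).1 (r (mem_down_of_mem hx)))
  refine t _ m m1 _ (odd_down f o) (le_top.trans c.n0) m2 (le_trans ?_ (down_le_norm f nr.norm))
  rintro _ ⟨⟨g, hg, rfl⟩, i⟩
  refine mem_down_of_mem ⟨hL.le hg, mem_cent1.2 (commutatorElement_eq_one_iff_mul_comm.1
    (eq_one_of_mem z ⟨?_, (c.one ⁅g, ⟨a, NA ha⟩⁆).1 ?_⟩))⟩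
  · exact comm_le_left NA (commutator_mem_commutator hg ha)
  · rw [map_commutatorElement, commutatorElement_eq_one_iff_mul_comm]
    exact mem_cent1.1 i

/-- components of index `4` -/
theorem four_ty (he : Elem 2 A) (hS : S ≤ 𝒞 A) (hN : S ≤ 𝒩 L) (h4 : ♯(A ⊓ L) = 4) :
    (Two L ∧ S ⊓ L ≤ A ∧ ∀ s ∈ S, ∃ l ∈ A ⊓ L, ∃ c ∈ S ⊓ 𝒞 L, l * c = s) ∨
      ((∀ b ∈ A ⊓ L, ∃ t ∈ S ⊓ L, t * t = b) ∧
        ∀ D, D ≤ S → S ≤ 𝒩 D → ¬ A ⊓ L ≤ D → ∀ t ∈ D, t * t ∈ 𝒞 L) := by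
  have sm := Nx.smp_of_qs hL.qs (z0 h hL n he (inf_le_left.trans hS)) hL.even
  have s := hL.syl h.syl
  obtain ⟨e, g⟩ := gd Nx.kB sm (h.gold.hg X L sm (involves_of_le hL.le)) s (h.sc.inf hL.le)
    (ne_bot_of_card (by omega)) (h.ab.mono inf_le_left)
  have sp : ∀ x ∈ S, x ∈ S ⊓ L ⊔ 𝒞 L → ∃ l ∈ S ⊓ L, ∃ c ∈ S ⊓ 𝒞 L, l * c = x := fun x hx i => by
    obtain ⟨l, l1, c, c1, rfl⟩ := (mem_sup_r (s.le.trans (le_norm_cent (le_norm L)))).1 i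
    exact ⟨l, l1, c, ⟨(mul_mem_cancel_left (mem_inf.1 l1).1).1 hx, c1⟩, rfl⟩
  rcases g.ty with ⟨k, b, -, i | u⟩ | ⟨-, r, t⟩ | ⟨r, i, -⟩
  · rw [← e] at i; omega
  · obtain ⟨F, _, _, π, ι, l, u⟩ := Nx.co3_of u
    refine .inr ⟨fun c hc => u.exists_sq b.ty.1 (e ▸ hc), fun D d1 d2 d3 t ht => ?_⟩
    have key : ∀ j ∈ S ⊓ L, (∀ x ∈ S ⊓ L, ⁅j, x⁆ ∈ D) → j ∈ A ⊓ L := fun j hj i =>
      by_contra fun j1 => d3 fun c hc => by
        obtain ⟨x, hx, rfl⟩ := comm_onto u b.ty.1 hj (e ▸ j1) (e ▸ hc)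
        exact i x hx
    have cm : ∀ j ∈ D, ∀ x ∈ S ⊓ L, ⁅j, x⁆ ∈ D := fun j hj x hx =>
      comm_le_left (inf_le_left.trans d2) (commutator_mem_commutator hj hx)
    obtain ⟨j, hj, c, hc, rfl⟩ := sp t (d1 ht) ((b.aut2 t (hN (d1 ht))
      (isPGroup_iff_forall.1 h.syl.isPGroup t (d1 ht)) (e ▸ cent_anti inf_le_left (hS (d1 ht)))
      ).resolve_right fun ⟨_, x, hx, i⟩ => i (e ▸ key ⁅t, x⁆ (comm_le_right (d1.trans
        (le_norm_inf (le_norm S) hN)) (commutator_mem_commutator ht hx)) (cm _ (cm t ht x hx))))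
    have cj := mem_cent.1 hc.2 j hj.2
    rw [mul_assoc, ← mul_assoc c, ← cj, ← mul_assoc, ← mul_assoc, SFx.sq1 he (key j hj fun x hx => by
      have := cm _ ht x hx
      rwa [commutatorElement_def, mul_assoc j, ← mem_cent.1 hc.2 x hx.2, mul_inv_rev, mul_assoc j,
        mul_assoc x, mul_inv_cancel_left, ← mul_assoc] at this).1, one_mul]
    exact mul_mem (mem_inf.1 hc).2 hc.2
  swap
  · have := card_le i
    rw [← e] at this; omega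
  rw [← e] at r
  refine .inl ⟨t, r.trans inf_le_left, fun x hx => ?_⟩
  have z := zpowers_le.2 hx
  obtain ⟨Q, _, _, f, hf, hk, c, sm, gb⟩ := quoN hL h.gold (M := L ⊔ zpowers x) le_sup_left
    (sup_le (le_norm L) (z.trans hN))
  have p := h.syl.isPGroup.to_le (sup_le (inf_le_left : S ⊓ L ≤ S) z)
  have s1 := (isSyl_sup s (z.trans hN) p).down f le_rfl
  have l := sup_le_sup_right s.le (zpowers x)
  rw [down_top hf] at s1
  have := (s.down f le_sup_left).eq_of_le s1.isPGroup (down_mono f le_sup_left) (le_of_gb sm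
    (down_top hf ▸ down_le_norm f (sup_le (le_norm L) (z.trans hN))) c s1
    ⟨le_rfl, fun _ _ _ _ => id⟩ ((abel_sup (h.ab.mono (r.trans inf_le_left)) (cyc_zpowers x).abel
      (cent_symm (z.trans (hS.trans (cent_anti (r.trans inf_le_left)))))).down f) gb)
  obtain ⟨l, l1, c, c1, i⟩ := sp x hx (((down_le_down_iff l (s.le.trans le_sup_left)).1 this.le).trans
    (sup_le_sup_left (hk.le.trans inf_le_right) _) (mem_sup_right (mem_zpowers x)))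
  exact ⟨l, r l1, c, c1, i⟩

end

/-- balance -/
theorem balE (h : St H S A) (he : Elem 2 A) (hE : E ≤ A) (h0 : E ≠ ⊥)
    (h1 : ∀ e ∈ E, e ≠ 1 → Y ≤ O2 (H ⊓ 𝒞₁ e))
    (h2 : ∀ L, Cp L H → ¬ A ≤ 𝒞 L → E ⊓ 𝒞 L = ⊥ → 8 ≤ (𝒞 L).relIndex A) : Y = ⊥ := by
  obtain ⟨e, e0, e1⟩ := exists_ne_one h0
  have p := Op_pgroup Nat.prime_two H
  have n := (Op_le {2}ᶜ (H ⊓ 𝒞₁ e)).trans inf_le_left
  refine eq_bot_of_le (inf_eq_bot_of_cop (cop_of_pgroup Nat.prime_two p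
    (not_dvd_Op_compl Nat.prime_two (H ⊓ 𝒞₁ e)))) (le_inf (le_Op_of_cent h.o ((h1 e e0 e1).trans n)
      ((h1 e e0 e1).trans (axb p (Op_le _ H) (SFx.sq1 he (hE e0)) ((Op_nrm _ H).norm (h.le (hE e0)))
        (n.trans (Op_nrm _ H).norm))) fun L hL => ?_) (h1 e e0 e1))
  by_cases i : E ⊓ 𝒞 L = ⊥
  · have n : ¬ A ≤ 𝒞 L := fun j => h0 (eq_bot_of_le i (le_inf le_rfl (hE.trans j)))
    exact (h1 e e0 e1).trans (bal1 h hL n he (h2 L hL n i) (hE e0))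
  obtain ⟨d, d0, d1⟩ := exists_ne_one i
  exact (h1 d d0.1 d1).trans ((hL.mono (le_inf hL.le (le_cent1_iff.2 d0.2)) inf_le_left).cent_of_sol
    (Op_nrm _ _).sn (solvable_of_odd _ (odd_O2 _)))

theorem genA (h : St H S A) (he : Elem 2 A) (h1 : A ⊓ 𝒞 (ncl H A) ≤ D)
    (h2 : ∀ L, Cp L H → ¬ A ≤ 𝒞 L → A ⊓ L ≤ D) : A ≤ D := by
  by_contra hn
  obtain ⟨a, ⟨ha, a1⟩, m⟩ := Set.exists_max_image {a | a ∈ A ∧ a ∉ D}
    (fun a => ♯(sSup {L | Cp L H ∧ a ∈ 𝒞 L})) (Set.toFinite _) (SetLike.not_le_iff_exists.1 hn)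
  refine a1 (h1 ⟨ha, le_cent1_iff.1 (h.gen (inf_le_left.trans (h.ab.trans (cent_le_cent1 ha)))
    fun L hL l => by_contra fun i => ?_)⟩)
  have n := (h.le_iff hL).1 l
  obtain ⟨l, l1, c, c1, rfl⟩ := splitA h hL n he ha
  refine (m c ⟨c1.1, fun e => a1 (mul_mem (h2 L hL n l1) e)⟩).not_gt (card_lt (lt_of_le_of_ne
    (sSup_le_sSup fun M hM => ⟨hM.1, ?_⟩) fun e => i ?_))
  · by_cases e : L = M
    · exact e ▸ c1.2
    · exact (mul_mem_cancel_left (hL.cent hM.1 e l1.2)).1 hM.2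
  · exact (le_sSup (s := {L | Cp L H ∧ c ∈ 𝒞 L}) ⟨hL, c1.2⟩).trans
      (e.ge.trans (sSup_le fun M hM => le_cent1_iff.2 hM.2))

end Cfsg.GS.Yx
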