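import Cfsg.Agent.GS.Y4

/-! The uniqueness case of Goldschmidt's theorem, 5: commuting members. -/

set_option autoImplicit false

namespace Cfsg.GS.Yx

open Subgroup Cfsg.L0 Cfsg.H8 Cfsg.FT Cfsg.BS Cfsg.BS.R Cfsg.GS.T3 Cfsg.GS.T4 Cfsg.GS.Kx
open scoped commutatorElement

variable {G : Type} [Group G]

/-- `⋂ O(C(e))` -/
def Dl (E : Subgroup G) : Subgroup G := ⨅ e ∈ sharp E, O2 (𝒞₁ e)

/-- `⟨Δ(E) : D ≤ E ≤ A, |E| ≥ 8⟩` -/
def Th (A D : Subgroup G) : Subgroup G := sSup {Y | ∃ E, D ≤ E ∧ E ≤ A ∧ 8 ≤ ♯E ∧ Dl E = Y}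

/-- the normal closure of the complement -/
def Lb (A P : Subgroup G) : Subgroup G := ncl (𝒞 P) (Cc A P)

variable {A B D D' E E' H K M P S W X : Subgroup G} {a b d e g n : G}

theorem Dl_le (he : e ∈ E) (e1 : e ≠ 1) : Dl E ≤ O2 (𝒞₁ e) := iInf₂_le e ⟨he, e1⟩

theorem le_Dl (h : ∀ e ∈ E, e ≠ 1 → X ≤ O2 (𝒞₁ e)) : X ≤ Dl E := le_iInf₂ fun e he => h e he.1 he.2

theorem Dl_anti (h : E ≤ E') : Dl E' ≤ Dl E := le_Dl fun _ he => Dl_le (h he)

theorem Dl_cent : Dl E ≤ 𝒞 E := cent_symm fun e he => by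
  by_cases e1 : e = 1
  exacts [e1 ▸ one_mem _, le_cent1_iff.1 ((Dl_le he e1).trans (Op_le _ _))]

theorem cj_Dl (n : G) (E : Subgroup G) : cj n (Dl E) ≤ Dl (cj n E) := le_Dl (by
  rintro _ ⟨e, he, rfl⟩ e1
  refine (cj_mono n (Dl_le he fun i => e1 (by simp [i]))).trans_eq ?_
  rw [cj_Op, cj_cent1]; rfl)

theorem le_Th (h1 : D ≤ E) (h2 : E ≤ A) (h3 : 8 ≤ ♯E) : Dl E ≤ Th A D := le_sSup ⟨E, h1, h2, h3, rfl⟩

theorem Th_le (h : ∀ E, D ≤ E → E ≤ A → 8 ≤ ♯E → Dl E ≤ X) : Th A D ≤ X :=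
  sSup_le fun _ ⟨E, a, b, c, d⟩ => d ▸ h E a b c

theorem Th_Dl : Th A D ≤ Dl D := Th_le fun _ a _ _ => Dl_anti a

theorem Th_anti (h : D ≤ D') : Th A D' ≤ Th A D := Th_le fun _ a => le_Th (h.trans a)

theorem cj_Th (hn : n ∈ 𝒩 A) (D : Subgroup G) : Th A (cj n D) = cj n (Th A D) := by
  have k : ∀ n ∈ 𝒩 A, ∀ D, cj n (Th A D) ≤ Th A (cj n D) := fun n hn D =>
    (cj_le_iff n).2 (Th_le fun E a b c => (cj_le_iff n).1 ((cj_Dl n E).trans
      (le_Th (cj_mono n a) (cj_le_of_le b hn) (by rwa [card_cj]))))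
  refine le_antisymm (le_cj_iff.2 ?_) (k n hn D)
  simpa only [cj_inv_cj] using k n⁻¹ (inv_mem hn) (cj n D)

theorem cj_ncl (n : G) (H X : Subgroup G) : cj n (ncl H X) = ncl (cj n H) (cj n X) := by
  refine le_antisymm ((cj_le_iff n).2 (ncl_le_iff.2 fun g hg => (cj_le_iff n).1 ?_))
    (ncl_le_iff.2 ?_)
  · refine le_trans (le_of_eq ?_) (cj_le_ncl _ (conj_mem_cj (g := n) hg))
    rw [cj_mul, cj_mul, cj_inv_cj]
  · rintro _ ⟨g, hg, rfl⟩
    refine le_trans (le_of_eq ?_) (cj_mono n (cj_le_ncl X hg))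
    rw [show (MulAut.conj n).toMonoidHom g = n * g * n⁻¹ from rfl, cj_mul, cj_mul, cj_inv_cj]

theorem cj_Lb (hn : n ∈ 𝒩 A) (P : Subgroup G) : cj n (Lb A P) = Lb A (cj n P) := by
  rw [Lb, cj_ncl, cj_cent, cj_Cc hn, Lb]

variable [Finite G]

theorem Th_inv (h : Abel A) (hD : D ≤ A) : A ≤ 𝒩 (Th A D) := fun g hg => cj_eq_iff.1 (by
  rw [← cj_Th (le_norm A hg), cj_eq_of_mem_norm (h.le_norm hD hg)])

theorem card_le_ri (h : Abel A) (hE : E ≤ A) (hB : B ≤ A) (h0 : E ⊓ B = ⊥) :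
    ♯E ≤ B.relIndex A := by
  have := card_le (sup_le hE hB)
  rw [card_sup_of_inf (hB.trans (h.le_norm hE)) h0, ← card_mul_ri hB, mul_comm] at this
  exact Nat.le_of_mul_le_mul_left this (card_pos' B)

theorem fratG (h : Mg S A) (h1 : A ≤ H) (h2 : ncl H A ≤ K) (h3 : H ⊓ 𝒩 A ≤ K) : H ≤ K :=
  fun g hg => by
    obtain ⟨P, p1, p2⟩ := exists_isSyl_ge h.elem.pgroup h1
    obtain ⟨k, k1, n, n1, rfl⟩ := sc_frat p1 ((Ux.sc_of_le h.syl h.sc p1.isPGroup p2).mono p2 le_rfl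
      le_top) (ncl_nrm h1) (le_ncl H A) hg
    exact mul_mem (h2 k1) (h3 n1)

section
variable (h : Mg S A) (h64 : 64 ≤ ♯A)
include h h64

theorem bal3 (hE : E ≤ A) (h8 : 8 ≤ ♯E) (h1 : H ≠ ⊤) (h2 : A ≤ H) : Dl E ⊓ H ≤ O2 H :=
  balG h (by omega) h1 h2 hE (ne_bot_of_card (by omega)) (fun _ => Dl_le)
    fun _ hB e => h8.trans (card_le_ri h.elem.abel hE hB.le e)

theorem Th_cent1 (hD : D ≤ A) (h0 : D ≠ ⊥) (ha : a ∈ A) :
    Th A D ⊓ 𝒞₁ a ≤ Th A (D ⊔ zpowers a) := by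
  induction D using WellFoundedGT.induction generalizing a with | _ D ih
  have l : ∀ a ∈ A, D ⊔ zpowers a ≤ A := fun a ha => sup_le hD (zpowers_le.2 ha)
  by_cases h8 : 8 ≤ ♯D
  · refine le_trans (le_Dl fun e he e1 => le_trans (le_inf (inf_le_left.trans Th_Dl) ?_)
      (bal3 h h64 hD h8 (Fx.cent1_ne h.simple h.nab e1) (h.elem.abel.trans (cent_le_cent1
        (l a ha he))))) (le_Th le_rfl (l a ha) (h8.trans (card_le le_sup_left)))
    refine le_trans ?_ (cent_le_cent1 he)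
    rw [cent_sup, cent_zpowers]
    exact inf_le_inf_right _ (Th_Dl.trans Dl_cent)
  by_cases i : a ∈ D
  · rw [sup_eq_left.2 (zpowers_le.2 i)]; exact inf_le_left
  obtain ⟨d, hd, d1⟩ := exists_ne_one h0
  obtain ⟨W, -, -, w, -⟩ := SFx.complete_ker (θ := fun a => Th A (D ⊔ zpowers a)) FT.oddOrder h.elem
    hD (by omega) (fun a _ _ => (Th_Dl.trans Dl_cent).trans (cent_le_cent1
      (mem_sup_right (mem_zpowers a)))) (fun a ha _ => Th_inv h.elem.abel (l a ha))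
    (fun a ha b hb a1 _ => (ih _ (lt_of_le_of_ne le_sup_left fun e => a1 (e.ge (mem_sup_right
      (mem_zpowers a)))) (l a ha) (ne_bot_of_le h0 le_sup_left) hb).trans
      (Th_anti (sup_le_sup_right le_sup_left _)))
    (odd_O2 (𝒞₁ d)) fun a _ _ => Th_Dl.trans (Dl_le (mem_sup_left hd) d1)
  refine (inf_le_inf_right _ (Th_le fun E e1 e2 e3 => ?_)).trans (w a ha i).le
  obtain ⟨b, hb, b1⟩ := SetLike.not_le_iff_exists.1 fun e : E ≤ D => h8 (e3.trans (card_le e))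
  exact (le_Th (sup_le e1 (zpowers_le.2 hb)) e2 e3).trans ((w b (e2 hb) b1).ge.trans inf_le_left)

theorem Th_cent (hD : D ≤ A) (h0 : D ≠ ⊥) (hE : E ≤ A) : Th A D ⊓ 𝒞 E ≤ Dl E := by
  induction D using WellFoundedGT.induction with | _ D ih
  by_cases i : E ≤ D
  · exact inf_le_left.trans (Th_Dl.trans (Dl_anti i))
  obtain ⟨a, ha, a1⟩ := SetLike.not_le_iff_exists.1 i
  exact (le_inf ((inf_le_inf_left _ (cent_le_cent1 ha)).trans (Th_cent1 h h64 hD h0 (hE ha)))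
    inf_le_right).trans (ih _ (lt_of_le_of_ne le_sup_left fun e => a1 (e.ge (mem_sup_right
      (mem_zpowers a)))) (sup_le hD (zpowers_le.2 (hE ha))) (ne_bot_of_le h0 le_sup_left))

theorem exW : ∃ W, Odd ♯W ∧ 𝒩 A ≤ 𝒩 W ∧ ∀ E, E ≤ A → 8 ≤ ♯E → W ⊓ 𝒞 E = Dl E := by
  have o : ∀ a, a ≠ 1 → Th A (zpowers a) ≤ O2 (𝒞₁ a) := fun a a1 =>
    Th_Dl.trans (Dl_le (mem_zpowers a) a1)
  obtain ⟨W, w1, w2, w3⟩ := SFx.sf' G A (fun a => Th A (zpowers a)) FT.oddOrder h.simple h.elem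
    (by omega) h.irr (fun a _ a1 => ⟨odd_of_le (odd_O2 _) (o a a1), (o a a1).trans (Op_le _ _)⟩)
    (fun n hn a _ _ => by rw [← cj_Th hn, cj_zpowers'])
    (fun a ha b hb a1 _ => (Th_cent1 h h64 (zpowers_le.2 ha) (zpowers_ne_bot.2 a1) hb).trans
      (Th_anti le_sup_right))
    fun H h1 h2 => ⟨_, odd_O2 H, fun a ha a1 => SFx.genH h.elem
      (odd_of_le (odd_O2 _) (inf_le_left.trans (o a a1)))
      (le_norm_inf (Th_inv h.elem.abel (zpowers_le.2 ha)) (le_norm_of_le h2)) fun B hB => by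
        rw [inf_right_comm]
        exact (inf_le_inf_right _ (Th_cent h h64 (zpowers_le.2 ha) (zpowers_ne_bot.2 a1) hB.le)).trans
          (bal3 h h64 hB.le (by have := hB.card; omega) h1 h2)⟩
  refine ⟨W, w1, w2, fun E e1 e2 => ?_⟩
  obtain ⟨a, ha, a1⟩ := exists_ne_one (ne_bot_of_card (by omega : ♯E ≠ 1))
  exact le_antisymm ((le_inf ((inf_le_inf_left _ (cent_le_cent1 ha)).trans (w3 a (e1 ha) a1).le)
    inf_le_right).trans (Th_cent h h64 (zpowers_le.2 (e1 ha)) (zpowers_ne_bot.2 a1) e1))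
    (le_inf ((le_Th (zpowers_le.2 ha) e1 e2).trans ((w3 a (e1 ha) a1).ge.trans inf_le_left)) Dl_cent)

end

section
variable {Q : Type} [Group Q] [Finite Q] {f : H →* Q} {L : Subgroup Q}

theorem Lo.normK (l : Lo A B f L) (h : Mg S A) : ncl H A ≤ 𝒩 (up f L) := by
  obtain ⟨P, -, -, s⟩ := l.exP h
  refine le_norm_up (ncl_le' l.le) ?_
  rw [dncl f le_rfl l.le, down_top l.surj]
  exact s.norm l.cp

theorem Lo.normC (l : Lo A B f L) (h : Mg S A) (h1 : 𝒞 B ≤ H) : 𝒞 B ≤ 𝒩 (up f L) :=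
  fratG h (h.elem.abel.trans (cent_anti l.le')) ((ncl_mono h1 le_rfl).trans (l.normK h))
    (le_trans (le_inf (inf_le_inf_right _ h1) (inf_le_left.trans (cent_le_norm B))) (l.norm h))

theorem Lo.Lb_le (l : Lo A B f L) (h : Mg S A) (h1 : 𝒞 B ≤ H) : Lb A B ≤ up f L :=
  ncl_le (l.Cc_le h h1) (l.normC h h1)

theorem Lo.le_Lb (l : Lo A B f L) (h : Mg S A) (h1 : 𝒞 B ≤ H) : up f L ≤ Lb A B ⊔ O2 H := by
  have c := (down_le_iff' (Yx.Cc_le.trans l.le)).2 (l.Cc_le h h1)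
  have : L ≤ down f (Lb A B) := by
    rw [Lb, dncl f h1 (Yx.Cc_le.trans l.le)]
    refine le_trans ((l.cp.qs.2.2 _ (ncl_le' c) (le_normalizer_ncl L _)).resolve_right fun e => ?_).ge
      (ncl_mono ((l.cent h.elem).trans (down_mono f inf_le_right)) le_rfl)
    exact l.nA (le_antisymm l.le' ((l.sup h).trans (sup_le le_rfl ((le_inf Yx.Cc_le ((down_le_iff'
      (Yx.Cc_le.trans l.le)).1 ((le_ncl L _).trans (comm_eq_bot_iff'.1 e)))).trans l.eq.le))))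
  exact (up_mono f this).trans (l.ker ▸ (up_down f ((l.Lb_le h h1).trans (up_le _ _))).le)

end

theorem Gd.normLb (g : Gd A B) (h : Mg S A) (h16 : 16 ≤ ♯B)
    (h0 : ∀ E, E ≤ A → 8 ≤ ♯E → Dl E = ⊥) (hb : b ∈ B) (b1 : b ≠ 1) :
    ncl (𝒞₁ b) A ≤ 𝒩 (Lb A B) := by
  have el := h.elem.mono g.me.le
  have c : O2 (𝒞₁ b) ≤ 𝒞 (Lb A B) := SFx.genH el (odd_O2 _)
    ((el.abel.trans (cent_le_cent1 hb)).trans (Op_nrm _ _).norm) fun E hE =>
      comm_eq_bot_iff'.1 (eq_bot_of_le (h0 E (hE.le.trans g.me.le) (by have := hE.card; omega))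
        (le_Dl fun e he e1 => by
          obtain ⟨Q, _, _, f, L, l⟩ := g.ex' h (hE.le he) e1
          have k := cent_le_cent1 (hE.le he)
          have j := l.Lb_le h k
          refine ((down_le_cent_iff' (inf_le_right.trans (cent_le_cent1 he))
            (j.trans (up_le _ _))).1 (le_trans ?_ (cent_anti ((down_le_iff'
              (j.trans (up_le _ _))).2 j)))).trans l.ker.le
          refine le_trans ((down_mono f ((inf_le_inf_left _ (cent_le_cent1 he)).trans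
            ((le_inf inf_le_left (inf_le_inf_right _ (Op_le _ _))).trans
            (Op_inf_le _ inf_le_left)))).trans (down_Op_le f _ _)) ((l.cp.mono ((l.cent h.elem).trans
              (down_mono f (le_inf (inf_le_right.trans (cent_le_cent1 hb)) inf_le_left))) le_top
              ).cent_of_sol (Op_nrm _ _).sn (solvable_of_odd _ (odd_O2 _)))))
  obtain ⟨Q, _, _, f, L, l⟩ := g.ex' h hb b1
  have k := cent_le_cent1 hb
  have n := le_norm_of_le_cent c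
  refine fun x hx => mem_norm_of_cj_le ((cj_le_iff x).2 (ncl_le_iff.2 fun y hy => (cj_le_iff x).1 ?_))
  rw [← cj_mul]
  refine le_of_cop_ri (sup_le (le_norm _) n) ((cj_le_of_le (l.Cc_le h k)
    (mul_mem (l.normK h hx) (l.normC h k hy))).trans (l.le_Lb h k)) ?_
  rw [card_cj, ri_sup n]
  exact ((SFx.cop2 (h.elem.mono Cc_le) (odd_O2 _)).coprime_dvd_left (ri_dvd_card _ _)).symm

/-- commuting members -/
theorem case4 (h : Mg S A) (g : Gd A B) (com : ∀ P P', (∃ n ∈ 𝒩 A, cj n B = P) →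
    (∃ n ∈ 𝒩 A, cj n B = P') → P' = P ∨ Cc A P ≤ P') : ∃ M, UG S A M := by
  have F := g.fam h
  have p0 : ∃ n ∈ 𝒩 A, cj n B = B := ⟨1, one_mem _, cj_one B⟩
  obtain ⟨m, hm, m1⟩ := SetLike.not_le_iff_exists.1 fun e : 𝒩 A ≤ 𝒩 B =>
    (h.irr B g.me.le e).elim g.me.1 g.me.nA
  obtain ⟨n, hn, n1, n2⟩ : ∃ n ∈ 𝒩 A, cj n B ≠ B ∧ cj n B ≠ cj m B := by
    by_contra! e
    refine h.two (𝒩 A ⊓ 𝒩 B) inf_le_left (relIndex_eq_two_iff.2 ⟨m, hm, fun b hb => ?_⟩)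
    by_cases e' : b ∈ 𝒩 B
    · exact .inr ⟨⟨hb, e'⟩, fun e => m1 ((mul_mem_cancel_left e').1 e.2)⟩
    refine .inl ⟨⟨mul_mem hb hm, cj_eq_iff.1 ?_⟩, fun e => e' e.2⟩
    rw [cj_mul, ← e b⁻¹ (inv_mem hb) fun e => e' (inv_mem_iff.1 (cj_eq_iff.1 e)), cj_cj_inv]
  have r4 := F.four B p0
  have cA := (g.dp h).card
  have big : ♯(Cc A B) * ♯(Cc A B) ≤ ♯B := by
    have i := card_le (sup_le ((com _ B ⟨m, hm, rfl⟩ p0).resolve_left fun e => m1 (cj_eq_iff.1 e.symm))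
      ((com _ B ⟨n, hn, rfl⟩ p0).resolve_left n1.symm))
    rwa [card_sup_of_inf (Cc_le.trans (h.elem.abel.le_norm Cc_le)) (eq_bot_of_le ((g.cj hn).inf h)
      (inf_le_inf_right _ ((com _ _ ⟨m, hm, rfl⟩ ⟨n, hn, rfl⟩).resolve_left n2))), ← cj_Cc hm,
      ← cj_Cc hn, card_cj, card_cj] at i
  have h16 : 16 ≤ ♯B := by nlinarith
  have fin : ∀ M, M ≠ ⊤ → 𝒩 A ≤ M → (∀ D, D ≤ A → ♯B ≤ ♯D → 𝒞 D ≤ M) → ∃ M, UG S A M :=
    fun M a b c => ⟨M, ug h a b (fun x hx _ => SFx.genH h.elem (odd_O2 _)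
      ((h.elem.abel.trans (cent_le_cent1 hx)).trans (Op_nrm _ _).norm) fun D hD =>
        inf_le_right.trans (c D hD.le (by have := hD.card; nlinarith)))
      fun D hD => c D hD.le (g.min D hD)⟩
  obtain ⟨W, w1, w2, w3⟩ := exW h (by nlinarith)
  by_cases e : W = ⊥
  swap
  · refine fin _ (Mg.no h e w1) w2 fun D d1 d2 x hx => mem_norm_of_cj_le ((cj_le_iff x).2
      (SFx.genH (h.elem.mono d1) w1 (d1.trans ((le_norm A).trans w2)) fun E hE => ?_))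
    have i := w3 E (hE.le.trans d1) (by have := hE.card; omega)
    rw [i, ← cj_le_iff]
    refine (cj_Dl x E).trans ?_
    rw [cj_eq_of_mem_cent (cent_anti hE.le hx), ← i]
    exact inf_le_left
  have key : ∀ D, D ≤ A → ♯B ≤ ♯D → ∀ n ∈ 𝒩 A, ncl (𝒞 D) A ≤ 𝒩 (Lb A (cj n B)) := fun D d1 d2 n hn => by
    have g' := g.cj hn
    obtain ⟨b, hb, b1⟩ := exists_ne_one fun i => by
      have := card_le_ri h.elem.abel d1 g'.me.le i
      rw [(g'.dp h).sd.ri, ← cj_Cc hn, card_cj] at this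
      nlinarith
    exact (ncl_mono (cent_le_cent1 hb.1) le_rfl).trans (g'.normLb h (by rwa [card_cj])
      (fun E a b => by rw [← w3 E a b, e, bot_inf_eq]) hb.2 b1)
  have N : 𝒩 A ≤ 𝒩 (sSup {Y | ∃ n ∈ 𝒩 A, Lb A (cj n B) = Y}) :=
    le_normalizer_sSup fun x hx Y ⟨n, hn, i⟩ => ⟨x * n, mul_mem hx hn, by rw [← i, cj_Lb hx, cj_mul]⟩
  have ne : Lb A B ≠ ⊥ := ne_bot_of_le (F.cne p0) (le_ncl _ _)
  obtain ⟨b, hb, b1⟩ := exists_ne_one g.me.1
  refine fin (𝒩 (sSup {Y | ∃ n ∈ 𝒩 A, Lb A (cj n B) = Y})) (GW.Mx.norm_ne_top' h.simple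
    (ne_bot_of_le ne (le_sSup ⟨1, one_mem _, by rw [cj_one]⟩))
    (ne_top_of_le_ne_top (Mg.nn h ne ((ncl_le' (Cc_le.trans (h.elem.abel.trans
      (cent_anti g.me.le)))).trans (cent_le_cent1 hb)) b1) (sSup_le fun Y ⟨n, hn, i⟩ => ?_))) N
    fun D d1 d2 => fratG h (h.elem.abel.trans (cent_anti d1)) (le_normalizer_sSup
      fun x hx Y ⟨n, hn, i⟩ => ⟨n, hn, by rw [← i, cj_eq_of_mem_norm (key D d1 d2 n hn hx)]⟩)
      (inf_le_right.trans N)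
  have := key _ (g.cj hn).me.le (card_cj n B).ge 1 (one_mem _)
  rw [cj_one] at this
  exact i ▸ (ncl_mono le_rfl Cc_le).trans this

end Cfsg.GS.Yx
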