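import Cfsg.Agent.GS.T5

/-! Bender's theorem on maximal subgroups without solvability. -/

set_option autoImplicit false
set_option linter.unusedSectionVars false

namespace Cfsg.GS.Zx

open Subgroup Cfsg.L0 Cfsg.H8 Cfsg.FT Cfsg.GW.Mx
open scoped commutatorElement

variable {G : Type} [Group G] [Finite G] {A L : Subgroup G} {p : ℕ}

theorem b3_le (h : Inf A L) (h' : Inf L A) (hs : IsSimpleGroup G) (hA : IsCoatom A) (hL : IsCoatom L)
    (cA : CC A) (cL : CC L) (h2 : Two A) (hp : p.Prime) : Op {p} L ≤ Op {p} A := by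
  have LA : ∀ r, r.Prime → Op {r} L ≤ A ⊓ 𝒞 (Op {r}ᶜ (Fit A)) := fun r hr => by
    by_cases e : Op {r} L = ⊥
    · simp [e]
    · have := h.two hs hA h2 hr (h'.ne_bot h cA hr e)
      exact le_inf this ((le_inf le_rfl this).trans (h.one hr))
  have dn : ∀ r : ℕ, A ⊓ 𝒞 (Op {r}ᶜ (Fit A)) ⊴ A := fun r => ((Fit_nrm A).Op _).cent
  obtain ⟨q, hq, ne, q0⟩ := h2.ex p
  have y : ncl A (Op {p} L) ≤ 𝒞 (Op {q} L) := ncl_le_iff.2 fun g hg => by
    have x1 := (cj_mono g (LA p hp)).trans (cj_eq_of_mem_norm ((dn p).norm hg)).le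
    have x2 := isPGroup_cj (Op_pgroup hp L) g
    generalize cj g (Op {p} L) = X at x1 x2
    have u1 := LA q hq
    have u2 := Op_pgroup hq L
    generalize Op {q} L = U at u1 u2
    have uA := u1.trans inf_le_left
    have c1 := comm_le_of_le_of_norm' u1 ((x1.trans inf_le_left).trans (dn q).norm)
    have c2 : ⁅U, X⁆ ≤ 𝒞 (Fit A) := cent_symm (Fit_le_of_forall fun r hr => cent_symm (by
      by_cases e : r = q
      · exact (comm_le_of_le_of_norm x1 (uA.trans (dn p).norm)).trans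
          (inf_le_right.trans (cent_anti (Op_le_compl hr hp (e ▸ ne.symm) A)))
      · exact c1.trans (inf_le_right.trans (cent_anti (Op_le_compl hr hq e A)))))
    have c3 := (le_inf (c1.trans inf_le_left) c2).trans cA
    have nF := (Fit_nrm A).norm
    have k : X ≤ 𝒩 (Op {q} (U ⊔ Fit A)) := le_norm_Op _ fun g hg => mem_norm_of_cj_le (by
      rw [cj_sup, cj_eq_of_mem_norm (nF (x1 hg).1)]
      refine sup_le (fun x hx => ?_) le_sup_right
      simpa [commutatorElement_def, mul_assoc] using mul_mem_sup (mem_cj.1 hx)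
        (c3 (commutator_mem_commutator (inv_mem (mem_cj.1 hx)) hg)))
    have l : U ≤ Op {q} (U ⊔ Fit A) := le_sup_left.trans (le_Op_p hq
      ((piG_single hq).1 (((piG_single hq).2 u2).sup' (Op_pi _ A) (uA.trans (Op_nrm _ A).norm)))
      ⟨sup_le_sup_left (Op_le_Fit hq A) U, sup_le (le_norm_of_le le_sup_left) (by
        rw [← ((Fit_nil A).dp {q}).sup, Op_Fit hq]
        exact sup_le (le_norm_of_le le_sup_right) (le_norm_of_le_cent (cent_symm (sup_le
          (u1.trans inf_le_right) (Op_Fit hq A ▸ Op_cent disjoint_compl_right _)))))⟩)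
    have w1 := (Op_pgroup hq _).to_le (comm_le_of_le_of_norm' l k)
    have w2 : ⁅U, X⁆ ≤ 𝒞 X := cent_symm (x1.trans (inf_le_right.trans (cent_anti
      ((Fit_nil A).le_Op (piG_of_pgroup hq w1 ne.symm) c3))))
    have e := sup_comm_of_cent (K := U) w2 (le_norm _)
    exact (cent_of_stable (le_norm_of_comm_le (e.le.trans le_sup_right)) (cop_of_pgroups hq hp ne.symm
      ((piG_single hq).1 (((piG_single hq).2 u2).sup' ((piG_single hq).2 w1) (left_le_norm_comm _ _)))
      x2) e.le (cent_symm w2)).trans (cent_anti le_sup_left)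
  exact le_Op_of_sn (Op_pi _ L) (((Op_nrm _ L).mono (le_ncl _ _) (y.trans ((cent_le_norm _).trans
    (norm_eq hs hL (h.ne_bot h' cL hq q0) (Op_nrm _ L)).le))).sn.trans
    (Nrm.sn ⟨ncl_le ((LA p hp).trans inf_le_left) (le_norm A), le_normalizer_ncl _ _⟩))

theorem b3 : T4.B3 := fun _ _ _ A L h h' hs hA hL cA cL h2 => by
  obtain ⟨p, q, hp, hq, ne, a, b⟩ := id h2
  rw [← norm_eq hs hL (h.ne_bot h' cL hp a) (Op_nrm _ L), le_antisymm (b3_le h h' hs hA hL cA cL h2 hp)
    (b3_le h' h hs hL hA cL cA ⟨p, q, hp, hq, ne, h.ne_bot h' cL hp a, h.ne_bot h' cL hq b⟩ hp),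
    norm_eq hs hA a (Op_nrm _ A)]

end Cfsg.GS.Zx
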