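import Cfsg.Agent.GS.Y4
import Cfsg.Agent.GS.Z0
import Cfsg.Agent.BS.All

/-! Elementary abelian Sylow `2`-subgroups of order `8`, 1: the lemma K1 and general tools. -/

set_option autoImplicit false
set_option linter.unusedSectionVars false

namespace Cfsg.GS.Zx

open Subgroup Cfsg.L0 Cfsg.H8 Cfsg.FT Cfsg.BS Cfsg.BS.R Cfsg.GS.T3 Cfsg.GS.T4 Cfsg.GS.Kx
open Cfsg.GW.Mx (CC ca2 odd_p cop_two)
open scoped commutatorElement MatrixGroups

theorem g4 (n : ℕ) : GW.GW4LT n :=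
  GW.gw4lt_of (GW.maxH oddOrder (GW.se4 BS.bender) (GW.dg oddOrder) (GW.k1 oddOrder GW.l2bw))
    (GW.step3 oddOrder GW.linT GW.thmC GW.alpha) (GW.bsw GW.bwOrd) n

variable {X : Type} [Group X] [Finite X] {A B D H K O R Y : Subgroup X} {a b c n s w x y : X} {p : ℕ}

theorem scA (A H : Subgroup X) : SC A A H := ⟨le_rfl, fun _ _ _ _ => id⟩

theorem fix_of_sq (hS : IsSyl 2 A H) (ha : Abel A) (h1 : n ∈ H) (h2 : n ∈ 𝒩 A) (hx : x ∈ A)
    (h : n ^ 2 ∈ 𝒞₁ x) : n ∈ 𝒞₁ x := by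
  have := Fact.mk Nat.prime_two
  obtain ⟨m, k, a, b⟩ := exists_pow_pElt 2 n
  exact mem_of_pow_mem a (cent_le_cent1 hx (ha (hS.mem_of_mem_normalizer (pow_mem h1 m) ⟨k, b⟩
    (pow_mem h2 m)))) h

theorem no_swap (hS : IsSyl 2 A H) (ha : Abel A) (h1 : n ∈ H) (h2 : n ∈ 𝒩 A) (hx : x ∈ A)
    (e1 : n * x * n⁻¹ = y) (e2 : n * y * n⁻¹ = x) : x = y := by
  have := mem_cent1.1 (fix_of_sq hS ha h1 h2 hx (mem_cent1.2 (by
    rw [← mul_inv_eq_iff_eq_mul]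
    calc n ^ 2 * x * (n ^ 2)⁻¹ = n * (n * x * n⁻¹) * n⁻¹ := by rw [sq]; group
      _ = x := by rw [e1, e2])))
  rw [← e1, this, mul_inv_cancel_right]

theorem czp (he : Elem 2 A) (ha : a ∈ A) : ♯(zpowers a) ≤ 2 := by
  rw [card_zpow]; exact orderOf_le_of_pow_eq_one two_pos (he.pow ha)

theorem ex_out (he : Elem 2 A) (h8 : 4 < ♯A) (hb : b ∈ A) (hc : c ∈ A) :
    ∃ s ∈ A, s ∉ zpowers b ⊔ zpowers c := by
  refine SetLike.not_le_iff_exists.1 fun e => ?_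
  have i := card_le e
  have j := Nat.le_of_dvd (Nat.mul_pos (card_pos' _) (card_pos' _))
    (card_sup_dvd ((zpowers_le.2 hc).trans (he.abel.le_norm (zpowers_le.2 hb))))
  have := Nat.mul_le_mul (czp he hb) (czp he hc)
  omega

/-- K1 in the centralizer of an involution -/
theorem q1 (hS : IsSyl 2 A H) (he : Elem 2 A) (h8 : ♯A = 8) (hc : c ∈ A) (c1 : c ≠ 1)
    (hH : H ≤ 𝒞₁ c) (hb : b ∈ A) (hp : p.Prime) (p2 : p ≠ 2) (hY : IsPGroup p Y) (h1 : Y ≤ H)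
    (h2 : H ⊓ 𝒞₁ b ≤ 𝒩 Y) : ⁅Y, zpowers b⁆ ≤ O2 H := by
  have := Fact.mk Nat.prime_two
  have hH' : H ≤ 𝒞 (zpowers c) := cent_zpowers c ▸ hH
  by_cases e : b ∈ zpowers c
  · rw [comm_eq_bot_iff'.2 (h1.trans (hH'.trans (cent_anti (zpowers_le.2 e))))]; exact bot_le
  have cz : ♯(zpowers c) = 2 := by rw [card_zpow, he.orderOf_eq Nat.prime_two hc c1]
  have nr : zpowers c ⊴ H := ⟨zpowers_le.2 (hS.le hc), le_norm_of_le_cent hH'⟩
  obtain ⟨Q, _, _, f, hf, hk⟩ := exists_quo nr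
  obtain ⟨s, hs, s1⟩ := ex_out he (by omega) hb hc
  have one : ∀ x : H, f x = 1 ↔ (x : X) ∈ zpowers c := fun x => by rw [← hk, coe_mem_up, mem_bot]
  have eq : ∀ {x y : H}, (x : X) = y → f x = f y := fun e => congrArg f (Subtype.ext e)
  have bH := hS.le hb
  have k : GW.K4 (f ⟨b, bH⟩) (f ⟨s, hS.le hs⟩) := by
    refine ⟨?_, ?_, fun i => e ((one _).1 i), fun i => s1 (mem_sup_right ((one _).1 i)),
      fun i => s1 ?_, ?_, fun i => hS.not_dvd ?_⟩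
    · rw [← map_mul, ← map_one f]; exact eq (SFx.sq1 he hb)
    · rw [← map_mul, ← map_one f]; exact eq (SFx.sq1 he hs)
    · have := (one ((⟨b, bH⟩ : H)⁻¹ * ⟨s, hS.le hs⟩)).1 (by rw [map_mul, map_inv, i, inv_mul_cancel])
      simpa using mul_mem_sup (mem_zpowers b) this
    · rw [← map_mul, ← map_mul]; exact eq (he.abel.comm hb hs)
    · have j := card_down_mul' (f := f) le_rfl (up_le _ _)
      have l := card_mul_ri hS.le
      rw [hk, cz, down_top hf, card_top] at j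
      rw [h8] at l
      omega
  have zb := zpowers_le.2 bH
  have n1 : zpowers b ≤ 𝒩 Y := zpowers_le.2 (h2 ⟨bH, self_mem_cent1 b⟩)
  have a := GW.k1 oddOrder GW.l2bw _ Q ⊤ (down f Y) _ _ p (g4 _) k (Nat.lt_succ_self _) trivial
    trivial hp p2 (isPGroup_down f hY) le_top (by
      rintro q ⟨-, hq⟩
      obtain ⟨g, rfl⟩ := hf q
      refine down_le_norm f h2 (mem_down_of_mem ⟨g.2, mem_cent1.2 ?_⟩)
      have i := (one (g * ⟨b, bH⟩ * g⁻¹ * (⟨b, bH⟩ : H)⁻¹)).1 (by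
        rw [map_mul, map_mul, map_mul, map_inv, map_inv, mem_cent1.1 hq]; group)
      rcases Ux.zpow_cases (he.pow hc) i with j | j
      · simpa [mul_inv_eq_one, mul_inv_eq_iff_eq_mul] using j
      have j : (g : X) * b * (g : X)⁻¹ = c * b := by simpa [mul_inv_eq_iff_eq_mul] using j
      obtain ⟨n, hn, l⟩ := (scA A H).fusion hS he.abel hb g.2 (j ▸ mul_mem hc hb)
      exact (c1 (by simpa using (no_swap hS he.abel hn.1 hn.2 hb (l.trans j) (by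
        rw [← conj_mul, l, j, mem_cent1.1 (hH hn.1), mul_inv_cancel_right, ← mul_assoc,
          SFx.sq1 he hc, one_mul])).symm)).elim)
  rw [← down_zpowers, ← down_commutator f h1 zb,
    down_le_iff' (comm_le_of_le_of_norm zb (le_norm_of_le h1))] at a
  have w : up f (Op {p} ⊤) ⊴ H := nrm_up le_rfl (up_le _ _) (down_top hf ▸ Op_nrm _ _)
  have s : IsSyl 2 (zpowers c) (up f (Op {p} ⊤)) := ⟨hk ▸ ker_le_up f _,
    he.pgroup.to_le (zpowers_le.2 hc), by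
      rw [← hk, ri_up_up (H := H) (le_top.trans (down_top hf).ge), relIndex_bot_left]
      exact (odd_p hp p2 (Op_pgroup hp ⊤)).not_two_dvd_nat⟩
  exact (npc_le_Op Nat.prime_two (burnside Nat.prime_two s (inf_le_left.trans (w.le.trans hH'))) a
    (odd_of_le (odd_p hp p2 hY) (comm_le_left n1)).not_two_dvd_nat).trans (Op_le_Op_of_nrm _ w)

theorem cent_of_comm (b2 : b * b = 1) (ho : Odd ♯Y) (hn : b ∈ 𝒩 Y) (h : ⁅Y, zpowers b⁆ ≤ 𝒞₁ b) :
    Y ≤ 𝒞₁ b := le_cent1_iff.2 (zpowers_le.1 (cent_of_comm_cent (zpowers_le.2 hn)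
  (cop_two ho (GW.Mx.p2 b2)) (zpowers_le.2 (le_cent1_iff.1 h))))

theorem kq (h : St H A A) (he : Elem 2 A) (h8 : ♯A = 8) (hb : b ∈ A) (hp : p.Prime) (p2 : p ≠ 2)
    (hY : IsPGroup p Y) (h1 : Y ≤ H) (h2 : H ⊓ 𝒞₁ b ≤ 𝒩 Y) : Y ≤ 𝒞₁ b := by
  have := Fact.mk Nat.prime_two
  rw [← cent_zpowers]
  by_cases ex : ∃ L, Cp L H ∧ ¬ A ≤ 𝒞 L ∧ A ⊓ 𝒞 L ≠ ⊥
  · obtain ⟨L, hL, n, e⟩ := ex
    obtain ⟨d, hd, d1⟩ := exists_ne_one e
    have c2 : ♯(A ⊓ 𝒞 L) = 2 := by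
      have i := Yx.fourA h hL n he
      have j := card_inf_mul_ri (𝒞 L) A
      have := one_lt_card e
      rw [inf_comm, h8] at j
      nlinarith
    have z : A ⊓ 𝒞 L ≤ zpowers d := fun x hx => by
      by_cases i : x = 1
      exacts [i ▸ one_mem _, eq_of_card_two c2 hd hx d1 i ▸ mem_zpowers d]
    have c : H ≤ 𝒞₁ d := fun g hg => mem_cent1.2 (commutatorElement_eq_one_iff_mul_comm.1
      (mem_bot.1 (h.o ▸ h.sc.zstar h.syl h.ab hd.1 (fun m hm => ?_) g hg)))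
    · exact comm_eq_bot_iff'.1 (eq_bot_of_le h.o (q1 h.syl he h8 hd.1 d1 c hb hp p2 hY h1 h2))
    have l := hL.cj (le_norm H hm.1)
    have i : cj m (A ⊓ 𝒞 L) = A ⊓ 𝒞 (cj m L) := by rw [cj_inf, cj_cent, cj_eq_of_mem_norm hm.2]
    by_cases j : cj m L = L
    · rw [j] at i
      exact mem_cent1.2 (mul_inv_eq_iff_eq_mul.1
        (eq_of_card_two c2 (i ▸ conj_mem_cj hd) hd (conj_ne_one d1 m) d1))
    obtain ⟨s, hs, s1⟩ := ex_out he (by omega) hd.1 (conj_mem_of_norm hm.2 hd.1)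
    obtain ⟨u, u1, v, v1, rfl⟩ := Yx.splitA h l (fun k => n ((cj_le_cj_iff m).1 (by
      rwa [cj_cent, cj_eq_of_mem_norm hm.2]))) he hs
    refine (s1 (mul_mem_sup (z ⟨u1.1, l.cent hL j u1.2⟩) ?_)).elim
    rw [← cj_zpowers]
    exact cj_mono m z (i ▸ v1)
  push Not at ex
  have o := odd_p hp p2 hY
  have nA : A ≤ 𝒩 Y := (le_inf h.le (h.ab.trans (cent_le_cent1 hb))).trans h2
  refine SFx.gen1 he (by omega) o nA fun v hv => comm_eq_bot_iff'.1 (Yx.balE h he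
    (zpowers_le.2 hv.1) (zpowers_ne_bot.2 hv.2) (fun e e1 e2 => ?_) fun L hL n _ => ?_)
  · rw [(Ux.zpow_cases (he.pow hv.1) e1).resolve_left e2]
    exact q1 (h.syl.mono (le_inf h.le (h.ab.trans (cent_le_cent1 hv.1))) inf_le_left) he h8 hv.1 hv.2
      inf_le_right hb hp p2 hY.to_inf_left (inf_le_inf_right _ h1) (le_norm_inf
        ((inf_le_inf_right _ inf_le_left).trans h2) (le_norm_of_le (inf_le_left.trans inf_le_right)))
  · rw [← inf_relIndex_right, inf_comm, ex L hL n, relIndex_bot_left, h8]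

/-- K1 in a proper subgroup -/
theorem kk (h : Mg A A) (h8 : ♯A = 8) (hK : K ≠ ⊤) (hA : A ≤ K) (hb : b ∈ A) (hp : p.Prime)
    (p2 : p ≠ 2) (hY : IsPGroup p Y) (h1 : Y ≤ K) (h2 : K ⊓ 𝒞₁ b ≤ 𝒩 Y) :
    ⁅Y, zpowers b⁆ ≤ Op {p} K := by
  obtain ⟨Q, _, _, f, r⟩ := Yx.exBr hK hA
  have b2 := SFx.sq1 h.elem hb
  have zb := zpowers_le.2 (hA hb)
  have n1 : zpowers b ≤ 𝒩 Y := zpowers_le.2 (h2 ⟨hA hb, self_mem_cent1 b⟩)
  have a : ⁅Y, zpowers b⁆ ≤ O2 K := by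
    rw [← r.ker, ← down_le_cent_iff' h1 zb, down_zpowers f ⟨b, hA hb⟩, cent_zpowers]
    refine kq (r.st h (h.syl.mono hA le_top) le_rfl) (h.elem.down f)
      ((card_down_eq hA (r.k0 h.elem.pgroup)).trans h8) (mem_down_of_mem hb) hp p2
      (isPGroup_down f hY) le_top ?_
    rw [← down_top r.surj, ← down_cent1 r.ker b2]
    exact down_le_norm f h2
  rw [← comm_comm n1 (cop_two (odd_p hp p2 hY) (GW.Mx.p2 b2))]
  exact (SFx.k1 (solvable_of_odd _ (odd_O2 K)) (odd_O2 K) b2 ((Op_nrm _ K).norm (hA hb)) hp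
    (hY.to_le (comm_le_left n1)) a (right_le_norm_comm _ _ (mem_zpowers b)) (le_norm_comm
      ((inf_le_inf_right _ (Op_le _ K)).trans h2) (le_norm_of_le_cent (cent_zpowers b ▸ inf_le_right)))
    ).trans (Op_le_Op_of_nrm _ (Op_nrm _ K))

theorem mem_of_inv (b2 : b * b = 1) (ho : Odd (orderOf y)) (e : b * y * b = y⁻¹) (hy : y ∈ Y)
    (h : ⁅Y, zpowers b⁆ ≤ D) : y ∈ D := H8.mem_of_sq_mem ho (by
  have := h (commutator_mem_commutator hy (mem_zpowers b))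
  rwa [commutatorElement_def, inv_eq_of_mul_eq_one_right b2, mul_assoc y, mul_assoc y, ← e,
    ← mul_assoc b, ← mul_assoc b, b2, one_mul, mul_assoc y b b, b2, mul_one] at this)

theorem inv_ne (ho : Odd (orderOf y)) (b2 : b * b = 1) (e : b * y * b = y⁻¹) (h : y ∈ 𝒞₁ b) : y = 1 :=
  eq_one_of_odd ho (by
    rw [← mem_cent1.1 h, mul_assoc, b2, mul_one] at e
    exact mul_eq_one_iff_eq_inv.2 e)

theorem inv_tr (he : Elem 2 A) (hx : x ∈ A) (hb : b ∈ A) (h1 : w ∈ 𝒞₁ (x * b))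
    (i : b * w * b = w⁻¹) : x * w * x = w⁻¹ := by
  have v2 := SFx.sq1 he (mul_mem hx hb)
  have e1 : x = x * b * b := by rw [mul_assoc, SFx.sq1 he hb, mul_one]
  have e2 : x = b * (x * b) := by rw [he.abel.comm hx hb, ← mul_assoc, SFx.sq1 he hb, one_mul]
  generalize x * b = v at *
  calc x * w * x = v * b * w * (b * v) := by rw [← e1, ← e2]
    _ = v * (b * w * b) * v := by group
    _ = _ := by rw [i, ← mem_cent1.1 (inv_mem h1), mul_assoc, v2, mul_one]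

theorem cen_of (b2 : b * b = 1) (ho : Odd (orderOf y)) (e : b * y * b = y⁻¹) (hy : y ∈ 𝒩 Y)
    (h : (∀ u ∈ Y, b * u * b = u) ∨ ∀ u ∈ Y, b * u * b = u⁻¹) : y ∈ 𝒞 Y := by
  have k : ∀ u, b * (y * u * y⁻¹) * b = y⁻¹ * (b * u * b) * y := fun u => by
    have e' : b * y⁻¹ * b = y := by
      rw [← e, ← mul_assoc, ← mul_assoc, b2, one_mul, mul_assoc, b2, mul_one]
    calc _ = (b * y * b) * (b * u * b) * (b * y⁻¹ * b) := by
          simp only [mul_assoc, ← mul_assoc b b, b2, one_mul]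
      _ = _ := by rw [e, e']
  have l : ∀ u, y * u * y⁻¹ = y⁻¹ * u * y → u * (y * y) = y * y * u := fun u i => by
    calc _ = y * (y⁻¹ * u * y) * y := by group
      _ = _ := by rw [← i]; group
  refine H8.mem_of_sq_mem ho (mem_cent.2 fun u hu => ?_)
  rcases h with h | h
  · exact l u (by rw [← h _ (conj_mem_of_norm hy hu), k, h u hu])
  · refine l u (inv_injective ?_)
    rw [← h _ (conj_mem_of_norm hy hu), k, h u hu]
    group

theorem two_lt' (hx : x ∈ sharp D) (hy : y ∈ sharp D) (ne : x ≠ y) : 2 < ♯D := by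
  have := one_lt_card (ne_bot_of_mem hx.1 hx.2)
  by_contra i
  exact ne (eq_of_card_two (by omega) hx.1 hy.1 hx.2 hy.2)

/-- (Λ) -/
theorem lam (ho : Odd ♯O) (he : Elem 2 B) (h2 : 2 < ♯B) (hn : B ≤ 𝒩 O) (hp : p.Prime) (hw : w ∈ O)
    (h : ∀ b ∈ sharp B, ∃ R : Subgroup X, IsPGroup p R ∧ w ∈ R ∧ O ⊓ 𝒞₁ b ≤ 𝒩 R) : w ∈ Op {p} O := by
  obtain ⟨Q, _, _, f, hf, e⟩ := exists_quo ((nrm_sup_left hn).Op {p})
  have l : O ≤ O ⊔ B := le_sup_left
  have zw := zpowers_le.2 hw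
  have c : ∀ Z : Subgroup X, IsPGroup p Z → Z ≤ O → down f Z ≤ Fit (down f O) → Z ≤ Op {p} O := fun Z a b d =>
    e ▸ (down_eq_bot_iff (b.trans l)).1 (eq_bot_of_le (Op_down_eq_bot l e)
      (le_Op_of_le_Fit ((piG_single hp).2 (isPGroup_down f a)) d))
  obtain ⟨b, hb, b1⟩ := exists_ne_one (ne_bot_of_card (by omega : ♯B ≠ 1))
  obtain ⟨R, r1, r2, -⟩ := h b ⟨hb, b1⟩
  have nF : up f (Fit (down f O)) ⊴ O := nrm_up l (e ▸ Op_le _ _) (Fit_nrm _)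
  refine zpowers_le.1 (c _ (r1.to_le (zpowers_le.2 r2)) zw ((le_inf (down_mono f zw)
    (cent_symm ?_)).trans (cent_Fit_le ((show Sol O from solvable_of_odd _ ho).down f))))
  rw [← down_up hf (Fit _), down_le_iff' (up_le _ _)]
  refine SFx.gen1 he h2 (odd_of_le ho nF.le) (le_norm_up le_sup_right
    ((down_le_norm f hn).trans (norm_le_norm_Fit _))) fun b hb => ?_
  obtain ⟨R, r1, r2, r3⟩ := h b hb
  rw [← down_le_iff' (inf_le_left.trans (up_le _ _)),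
    down_le_cent_iff' (inf_le_left.trans (up_le _ _)) (zw.trans l), e]
  exact (le_inf (comm_le_of_le_of_norm (zpowers_le.2 r2) ((inf_le_inf_right _ nF.le).trans r3))
    (comm_le_of_le_of_norm' inf_le_left (zw.trans nF.norm))).trans (c _ r1.to_inf_left
      (inf_le_right.trans nF.le) ((down_mono f inf_le_right).trans (down_up_le _ _)))

theorem comp (hS : IsSyl 2 A K) (h : ¬ CC K) :
    IsSyl 2 (A ⊓ 𝒞 (Fit K)) (K ⊓ 𝒞 (Fit K)) ∧
      ∃ n ∈ K ⊓ 𝒞 (Fit K) ⊓ 𝒩 (A ⊓ 𝒞 (Fit K)), n ∉ 𝒞 (A ⊓ 𝒞 (Fit K)) := by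
  have := Fact.mk Nat.prime_two
  have nr : K ⊓ 𝒞 (Fit K) ⊴ K := (Fit_nrm K).cent
  have s : IsSyl 2 (A ⊓ 𝒞 (Fit K)) (K ⊓ 𝒞 (Fit K)) := by
    have := hS.inf nr.le (hS.le.trans nr.norm)
    rwa [← inf_assoc, inf_eq_left.2 hS.le] at this
  refine ⟨s, ?_⟩
  by_contra! e
  have sd := npc_sd Nat.prime_two (burnside Nat.prime_two s e) s
  have so : Sol (K ⊓ 𝒞 (Fit K)) := sd.sup ▸ sol_sup (solvable_of_odd _ (odd_O2 _))
    (sol_of_pgroup Nat.prime_two s.isPGroup) sd.norm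
  exact h ((le_inf le_rfl (inf_le_right.trans (cent_anti (Fit_le_Fit_of_nrm nr)))).trans
    ((cent_Fit_le so).trans (Fit_le_Fit_of_nrm nr)))

theorem two_lt (h1 : n ∈ 𝒩 D) (h2 : n ∉ 𝒞 D) : 2 < ♯D := by
  obtain ⟨d, hd, e⟩ : ∃ d ∈ D, d * n ≠ n * d := by simpa [mem_cent] using h2
  have d1 : d ≠ 1 := fun i => e (by simp [i])
  have := one_lt_card (ne_bot_of_mem hd d1)
  by_contra i
  exact e (mul_inv_eq_iff_eq_mul.1 (eq_of_card_two (by omega) (conj_mem_of_norm h1 hd) hd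
    (conj_ne_one d1 n) d1)).symm

theorem meet (he : Elem 2 A) (h8 : ♯A = 8) (hB : B ≤ A) (hD : D ≤ A) (h4 : ♯B = 4) (h2 : 2 < ♯D) :
    ∃ b ∈ sharp B, b ∈ D := by
  obtain ⟨b, hb, b1⟩ := exists_ne_one (show B ⊓ D ≠ ⊥ from fun e => by
    have := card_le (sup_le hB hD)
    rw [card_sup_of_inf (hD.trans (he.abel.le_norm hB)) e] at this
    nlinarith)
  exact ⟨b, ⟨hb.1, b1⟩, hb.2⟩

theorem kl_of (he : Elem 2 D) (h4 : ♯D = 4) (hx : x ∈ sharp D) (hy : y ∈ sharp D) (ne : x ≠ y) :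
    Kl D x y := by
  obtain ⟨i, j⟩ := four_le_card hx.1 hy.1 (SFx.sq1 he hx.1) hx.2 hy.2 ne
  have := Set.eq_of_subset_of_ncard_le i (by rw [j, ← h4, ← Nat.card_coe_set_eq]; rfl)
  exact ⟨hx.1, hy.1, SFx.sq1 he hx.1, SFx.sq1 he hy.1, hx.2, hy.2, ne, he.abel.comm hy.1 hx.1,
    fun z hz => by simpa using this.ge hz⟩

theorem ex_ne (he : Elem 2 D) (h4 : 2 < ♯D) (hx : x ∈ D) : ∃ y ∈ sharp D, x ≠ y := by
  obtain ⟨y, hy, e⟩ := SetLike.not_le_iff_exists.1 fun e : D ≤ zpowers x => by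
    have := card_le e
    have := czp he hx
    omega
  exact ⟨y, ⟨hy, fun i => e (i ▸ one_mem _)⟩, fun i => e (i ▸ mem_zpowers x)⟩

/-- an element acting nontrivially and with odd order on a four-group -/
structure Tri (D : Subgroup X) (n : X) : Prop where
  fix : ∀ x ∈ sharp D, n ∉ 𝒞₁ x
  cube : n ^ 3 ∈ 𝒞 D
  tr : ∀ x ∈ sharp D, ∀ y ∈ sharp D, ∃ m ∈ zpowers n, m * x * m⁻¹ = y

theorem tri (hS : IsSyl 2 A H) (ha : Abel A) (hD : D ≤ A) (he : Elem 2 D) (h4 : ♯D = 4)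
    (h1 : n ∈ H) (h2 : n ∈ 𝒩 A) (h3 : n ∈ 𝒩 D) (h5 : n ∉ 𝒞 D) : Tri D n := by
  have k : ∀ x ∈ sharp D, n * x * n⁻¹ ≠ x ∧ n ^ 3 ∈ 𝒞 D := fun x hx => by
    obtain ⟨y, hy, e⟩ := ex_ne he (by omega) hx.1
    exact ((kl_of he h4 hx hy e).pow_cases h3).resolve_left fun i => h5 (mem_cent.2 fun z hz =>
      (mem_cent1.1 (fix_of_sq hS ha h1 h2 (hD hz) (cent_le_cent1 hz i))).symm)
  obtain ⟨x, hx, -⟩ := ex_ne he (by omega) (one_mem D)
  refine ⟨fun x hx e => (k x hx).1 (by rw [mem_cent1.1 e, mul_inv_cancel_right]), (k x hx).2,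
    fun x hx y hy => ?_⟩
  by_cases e : x = y
  · exact ⟨1, one_mem _, by simpa⟩
  have l := kl_of he h4 hx hy e
  have z := SFx.conj_sharp h3 hx
  rcases l.cases _ z.1 with i | i | i | i
  · exact (z.2 i).elim
  · exact ((k x hx).1 i).elim
  · exact ⟨n, mem_zpowers n, i⟩
  have z' := SFx.conj_sharp h3 z
  rcases l.cases _ z'.1 with j | j | j | j
  · exact (z'.2 j).elim
  · exact ((k x hx).1 (no_swap hS ha h1 h2 (hD hx.1) rfl j).symm).elim
  · exact ⟨n * n, mul_mem (mem_zpowers n) (mem_zpowers n), by rw [← j]; group⟩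
  · exact ((k _ z).1 (j.trans i.symm)).elim

theorem qdf (hS : IsSyl 2 A ⊤) (he : Elem 2 A) (hp : p.Prime) (p2 : p ≠ 2) (H : Subgroup X) :
    ¬ Involves (qd p) H := by
  have := Fact.mk hp
  have := Fact.mk Nat.prime_two
  intro e
  obtain ⟨K, f, hf⟩ := involves_iff.1 (involves_trans involves_SL2_qd e)
  have z : (-1 : SL(2, ZMod p)) ≠ 1 := fun e => by
    have : (-1 : ZMod p) = 1 := by simpa using congrArg (fun M : SL(2, ZMod p) => M 0 0) e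
    exact p2 ((Nat.prime_dvd_prime_iff_eq hp Nat.prime_two).1 ((ZMod.natCast_eq_zero_iff 2 p).1
      (by push_cast; linear_combination -this)))
  obtain ⟨x, hx⟩ := hf (H3.U 1 * H3.Lo (-1) * H3.U 1)
  have w : f x * f x = -1 := by
    rw [hx]
    refine Subtype.ext ?_
    simp only [Matrix.SpecialLinearGroup.coe_mul, H3.U_coe, H3.Lo_coe]
    ext i j
    fin_cases i <;> fin_cases j <;> simp
  obtain ⟨m, k, a, b⟩ := exists_pow_pElt 2 ((x : H) : X)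
  obtain ⟨g, -, i⟩ := hS.exists_conj_mem (mem_top _) ⟨k, b⟩
  have j : (x ^ m) ^ 2 = 1 := Subtype.ext (Subtype.ext (by
    have := he.pow i
    rw [conj_pow] at this
    simpa using this))
  have := congrArg f j
  rw [← pow_mul, mul_comm, pow_mul, map_pow, map_pow, sq, w, map_one,
    (Nat.coprime_two_right.1 a).neg_one_pow] at this
  exact z this

theorem zj {M : Subgroup X} (hs : IsSimpleGroup X) (hS : IsSyl 2 A ⊤) (he : Elem 2 A) (hp : p.Prime)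
    (p2 : p ≠ 2) (hM : IsCoatom M) (r0 : Op {p} M ≠ ⊥) (c : CC M) (f : Fit M ≤ Op {p} M) :
    ∃ P, IsSyl p P ⊤ ∧ 𝒩 (ZJ 0 P) = M := by
  have := Fact.mk hp
  obtain ⟨P, hP⟩ := exists_syl hp M
  have rp := Op_le_syl hp hP
  have n : 𝒩 (ZJ 0 P) = M := GW.Mx.norm_eq hs hM (ZJ_ne_bot hP.isPGroup (dvd_zero p)
    (ne_bot_of_le r0 rp)) ⟨(ZJ_le 0 P).trans hP.le, fun x hx => by
      obtain ⟨m, m1, m2⟩ := ctrl_ZJ_of_qd_free p2 (dvd_zero p) hP (sc_self P) (qdf hS he hp p2 M) _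
        rp x hx (((Op_nrm _ M).cj_eq hx).le.trans rp)
      rw [mem_inf] at m1
      refine (mul_mem_cancel_left (inv_mem m1.2)).1 (normalizer_le_normalizer_ZJ 0 P (le_norm P
        (rp (f (c ⟨M.mul_mem (inv_mem m1.1) hx, cent_anti f fun y hy => ?_⟩)))))
      calc y * (m⁻¹ * x) = m⁻¹ * (m * y * m⁻¹) * x := by group
        _ = _ := by rw [← m2 y hy]; group⟩
  exact ⟨P, .of_normalizer (hP.mono (le_inf le_top (le_norm P))
    (inf_le_right.trans (n ▸ normalizer_le_normalizer_ZJ 0 P))), n⟩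

/-- facts on `L₂(q)`, `q ≡ ±3 (8)` -/
theorem two_facts {L T : Subgroup X} (h : Yx.Two L) (hT : IsSyl 2 T L) (he : Elem 2 T) :
    Smp L ∧ ♯T = 4 ∧ ∀ x ∈ L, x ∈ 𝒞 T → Odd (orderOf x) → x = 1 := by
  have := Fact.mk Nat.prime_two
  obtain ⟨F, _, _, q5, q8, ⟨e⟩⟩ := h
  have c := H3.card_PSL2_mul (F := F)
  have n8 := not8_psl q8
  rw [(H3.gcd_two_cases _).2 (by omega), ← Nat.card_congr e.toEquiv] at c
  rw [← Nat.card_congr e.toEquiv] at n8
  have o : Odd (Fintype.card F) := Nat.odd_iff.2 (by omega)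
  have d4 : 4 ∣ ♯L := by
    have := (Nat.eight_dvd_sq_sub_one_of_odd o).mul_left (Fintype.card F)
    omega
  have := Matrix.ProjectiveSpecialLinearGroup.rank_two_simple (F := F)
    (by rw [Nat.card_eq_fintype_card]; omega)
  have := e.isSimpleGroup
  have c4 : ♯T = 4 := by
    obtain ⟨m, hm⟩ := he.exists_card Nat.prime_two
    have i := card_mul_ri hT.le
    have j := hT.not_dvd
    have : ¬ 8 ∣ ♯T := fun j => n8 (j.trans (card_dvd hT.le))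
    rw [hm] at this i ⊢
    rcases m with _ | _ | _ | m <;> omega
  refine ⟨⟨fun N a => a.normal.eq_bot_or_eq_top.imp (fun j => (inf_eq_left.2 a.le).symm.trans
    (disjoint_iff.1 (subgroupOf_eq_bot.1 j))) fun j => le_antisymm a.le (subgroupOf_eq_top.1 j),
    fun a => ?_, by omega⟩, c4, fun x hx xT ox => ?_⟩
  · let _ : CommGroup L := { mul_comm := fun x y => Subtype.ext (a.comm x.2 y.2) }
    have := (IsSimpleGroup.prime_card (α := L)).eq_one_or_self_of_dvd 2 (by omega)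
    omega
  obtain ⟨t, ht, -⟩ := ex_ne he (by omega) (one_mem T)
  obtain ⟨s, hs, ne⟩ := ex_ne he (by omega) ht.1
  have k : GW.K4 (⟨t, hT.le ht.1⟩ : L) ⟨s, hT.le hs.1⟩ := ⟨Subtype.ext (SFx.sq1 he ht.1),
    Subtype.ext (SFx.sq1 he hs.1), fun i => ht.2 (congrArg Subtype.val i),
    fun i => hs.2 (congrArg Subtype.val i), fun i => ne (congrArg Subtype.val i),
    Subtype.ext (he.abel.comm ht.1 hs.1), n8⟩
  obtain ⟨U, -, b⟩ := GW.l2bw L ⊤ _ _ ⟨F, _, _, o, ⟨topEquiv.trans e⟩⟩ k trivial trivial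
  have := congrArg Subtype.val (b.inv _ (GW.Mx.bw_odd b (x := ⟨x, hx⟩) trivial
    (Subtype.ext (mem_cent.1 xT t ht.1).symm) (by rwa [← orderOf_coe])))
  exact inv_ne ox (SFx.sq1 he hs.1) this (cent_le_cent1 hs.1 xT)

end Cfsg.GS.Zx
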