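import Cfsg.Agent.GS.Z1

/-! Elementary abelian Sylow `2`-subgroups of order `8`, 2: the tournament on `A#`. -/

set_option autoImplicit false
set_option linter.unusedSectionVars false

namespace Cfsg.GS.Zx

open Subgroup Cfsg.L0 Cfsg.H8 Cfsg.FT Cfsg.BS Cfsg.BS.R Cfsg.GS.T3 Cfsg.GS.T4 Cfsg.GS.Kx
open Cfsg.GW.Mx (CC ca2 odd_p cop_two)
open scoped commutatorElement

variable {G : Type} [Group G]

/-- the four-group attached to `a` -/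
def VV (A : Subgroup G) (a : G) : Subgroup G := A ⊓ ⁅𝒞₁ a, 𝒞₁ a⁆

/-- `ρ` fixes `a` and moves the four-group attached to `a` -/
structure Rh (A : Subgroup G) (a ρ : G) : Prop where
  nA : ρ ∈ 𝒩 A
  ca : ρ ∈ 𝒞₁ a
  nc : ρ ∉ 𝒞 (VV A a)

/-- no uniqueness subgroup -/
structure Zc (A : Subgroup G) : Prop extends W8 A A ⊥ where
  nu : ¬ ∃ M, UG A A M

variable {A B C D H : Subgroup G} {a b c e m n w x y z ρ : G}

theorem VV_le : VV A a ≤ A := inf_le_left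

theorem cjV (hn : n ∈ 𝒩 A) (a : G) : cj n (VV A a) = VV A (n * a * n⁻¹) := by
  rw [VV, cj_inf, cj_commutator, cj_cent1, cj_eq_of_mem_norm hn, VV]

theorem mV (hn : n ∈ 𝒩 A) (hx : x ∈ VV A a) : n * x * n⁻¹ ∈ VV A (n * a * n⁻¹) :=
  cjV hn a ▸ conj_mem_cj hx

theorem mV' (hn : n ∈ 𝒩 A) (hx : x ∈ VV A a) (e1 : n * x * n⁻¹ = y) (e2 : n * a * n⁻¹ = b) :
    y ∈ VV A b := e1 ▸ e2 ▸ mV hn hx

theorem cj_fix (h : n ∈ 𝒞₁ a) : n * a * n⁻¹ = a := by rw [mem_cent1.1 h, mul_inv_cancel_right]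

theorem nV : 𝒩 A ⊓ 𝒞₁ a ≤ 𝒩 (VV A a) := fun n hn => cj_eq_iff.1 (by rw [cjV hn.1, cj_fix hn.2])

theorem Rh.zp (r : Rh A a ρ) : zpowers ρ ≤ 𝒩 A ⊓ 𝒞₁ a := zpowers_le.2 ⟨r.nA, r.ca⟩

theorem shV (hx : x ∈ sharp (VV A a)) : x ∈ sharp A := ⟨VV_le hx.1, hx.2⟩

variable [Finite G]

namespace Zc
variable (h : Zc A)
include h

theorem cA (ha : a ∈ sharp A) : A ≤ 𝒞₁ a := h.elem.abel.trans (cent_le_cent1 ha.1)
theorem sq (ha : a ∈ sharp A) : a * a = 1 := SFx.sq1 h.elem ha.1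
theorem sy (h1 : A ≤ H) : IsSyl 2 A H := h.syl.mono h1 le_top
theorem cne (ha : a ∈ sharp A) : 𝒞₁ a ≠ ⊤ := Fx.cent1_ne h.simple h.nab ha.2
theorem eV : Elem 2 (VV A a) := h.elem.mono VV_le

theorem aV (ha : a ∈ sharp A) : a ∉ VV A a := fun e => ha.2 (eq_one_of_mem (abel_syl_inf_der_cent
  Nat.prime_two (h.sy (h.cA ha)) h.elem.abel) ⟨e, le_cent1_iff.1 inf_le_left⟩)

theorem le4 (hB : B ≤ A) (he : e ∈ A) (e1 : e ∉ B) : ♯B ≤ 4 := by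
  have i := card_mul_ri hB
  have : B.relIndex A ≠ 1 := fun j => e1 (relIndex_eq_one.1 j he)
  rw [h.card] at i
  rcases hk : B.relIndex A with _ | _ | k <;> rw [hk] at i this
  · omega
  · omega
  · nlinarith

theorem hy4 (hB : B ≤ A) (h4 : ♯B = 4) : SFx.Hy A B := SFx.hy_of_dvd hB (by
  have i := card_mul_ri hB
  rw [h.card, h4] at i
  exact ⟨1, by omega⟩)

theorem loc2 (ha : a ∈ sharp A) : ∃ L, L ⊴ 𝒞₁ a ∧ A ⊓ L = VV A a ∧ ♯(VV A a) = 4 ∧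
    (∀ C, C ⊴ 𝒞₁ a → A ≤ C → ∃ ρ ∈ C ⊓ L, Rh A a ρ) ∧
    (∀ x ∈ L, x ∈ 𝒞 A → Odd (orderOf x) → x ∈ O2 (𝒞₁ a)) ∧ (O2 (𝒞₁ a) = ⊥ → Yx.Two L) := by
  have := Fact.mk Nat.prime_two
  obtain ⟨Q, _, _, f, L, F, _, _, hf, hk, nL, q5, q8, ⟨φ⟩, s, -⟩ := h.loc a ha.1 ha.2
  have cA := h.cA ha
  have r : Yx.Br A f := ⟨h.cne ha, cA, hf, hk⟩
  obtain ⟨sm, c4, cv⟩ := two_facts ⟨F, _, _, q5, q8, ⟨φ⟩⟩ s ((h.elem.down f).mono inf_le_left)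
  have nr : up f L ⊴ 𝒞₁ a := nrm_up le_rfl (up_le _ _) (down_top hf ▸ nrm_top_iff.2 nL)
  have c5 : ♯(A ⊓ up f L) = 4 := by
    rw [← card_down_eq (f := f) (inf_le_left.trans cA) (r.k0 h.elem.pgroup.to_inf_left),
      down_inf_up, c4]
  have e : A ⊓ up f L = VV A a := eq_of_card_le (le_inf inf_le_left (le_of_cop_ri
    (K := ⁅𝒞₁ a, 𝒞₁ a⁆ ⊔ up f ⊥) (sup_le (le_norm _) ((up_le _ _).trans (der_nrm _).norm))
    ((down_le_down_iff (inf_le_left.trans cA) (der_le _)).1 (by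
      rw [down_inf_up, down_commutator f le_rfl le_rfl, down_top hf]
      exact inf_le_right.trans (sm.perfect.ge.trans (der_mono le_top)))) (by
      rw [ri_sup ((up_le _ _).trans (der_nrm _).norm), hk]
      exact (cop_two (odd_O2 _) h.elem.pgroup.to_inf_left).symm.coprime_dvd_right
        (ri_dvd_card _ _)))) (c5 ▸ h.le4 VV_le ha.1 (h.aV ha))
  rw [e] at c5
  refine ⟨_, nr, e, c5, fun C hC AC => ?_, fun x hx xA o => ?_, fun o => ?_⟩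
  · have n := hC.inf nr
    have s' : IsSyl 2 (VV A a) (C ⊓ up f L) := by
      have := (h.sy cA).inf n.le (cA.trans n.norm)
      rwa [← inf_assoc, inf_eq_left.2 AC, e] at this
    obtain ⟨ρ, ⟨r1, r2⟩, r3⟩ := SetLike.not_le_iff_exists.1 fun i => by
      have j := npc_down Nat.prime_two (burnside Nat.prime_two s' i) f n.le
      have k : down f C ⊓ L ⊴ L := (down_top hf ▸ hC.down f).inf_le le_top
      rw [down_inf_up, (sm.simple _ k).resolve_left (ne_bot_of_le (ne_bot_of_card (by omega))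
        (inf_le_inf_right L (down_mono f AC)))] at j
      have l := (npc_sd Nat.prime_two j s).sup
      rw [sm.Op', bot_sup_eq] at l
      exact sm.not_norm s (l.ge.trans (le_norm _))
    refine ⟨ρ, r1, mem_normalizer_of_forall fun x hx => ?_, n.le r1, r3⟩
    by_cases i : x ∈ VV A a
    · exact VV_le (conj_mem_of_norm r2 i)
    have := mul_mem (VV_le (conj_mem_of_norm r2 ((h.hy4 VV_le c5).mul x hx a ha.1 i (h.aV ha))))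
      (inv_mem ha.1)
    rwa [← conj_mul, cj_fix (n.le r1), mul_inv_cancel_right] at this
  · exact hk ▸ (coe_mem_up (x := ⟨x, nr.le hx⟩)).2 (cv _ (coe_mem_up.1 hx) (cent_anti inf_le_left
      (down_le_cent f le_rfl (mem_down_of_mem xA)))
      (o.of_dvd_nat ((orderOf_map_dvd f _).trans (orderOf_coe _).symm.dvd)))
  · exact ⟨F, _, _, q5, q8, ⟨((equivMapOfInjective _ _ (subtype_injective _)).symm.trans (.ofBijective
      (f.subgroupComap L) ⟨(injective_iff_map_eq_one _).2 fun x hx => Subtype.ext (Subtype.ext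
        (eq_one_of_mem (hk.trans o) (coe_mem_up.2 (congrArg Subtype.val hx)))),
      f.subgroupComap_surjective_of_surjective L hf⟩)).trans φ⟩⟩

theorem cV (ha : a ∈ sharp A) : ♯(VV A a) = 4 := let ⟨_, _, _, i, _⟩ := h.loc2 ha; i

theorem exR (ha : a ∈ sharp A) : ∃ ρ, Rh A a ρ :=
  let ⟨_, _, _, _, i, _⟩ := h.loc2 ha
  let ⟨ρ, _, j⟩ := i _ (Nrm.refl _) (h.cA ha)
  ⟨ρ, j⟩

theorem mulV (ha : a ∈ sharp A) (hx : x ∈ A) (hy : y ∈ A) (x1 : x ∉ VV A a) (y1 : y ∉ VV A a)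
    (ne : x ≠ y) : x * y ∈ sharp (VV A a) :=
  ⟨(h.hy4 VV_le (h.cV ha)).mul x hx y hy x1 y1, fun e => ne
    (mul_right_cancel (e.trans (SFx.sq1 h.elem hy).symm))⟩

theorem tri (ha : a ∈ sharp A) (r : Rh A a ρ) : Tri (VV A a) ρ :=
  Zx.tri h.syl h.elem.abel VV_le h.eV (h.cV ha) trivial r.nA (nV ⟨r.nA, r.ca⟩) r.nc

theorem tr1 (ha : a ∈ sharp A) (hx : x ∈ sharp (VV A a)) (hy : y ∈ sharp (VV A a)) :
    ∃ m ∈ 𝒩 A ⊓ 𝒞₁ a, m * x * m⁻¹ = y := by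
  obtain ⟨ρ, r⟩ := h.exR ha
  obtain ⟨m, hm, e⟩ := (h.tri ha r).tr x hx y hy
  exact ⟨m, r.zp hm, e⟩

theorem tr2 (ha : a ∈ sharp A) (hx : x ∈ A) (hy : y ∈ A) (x1 : x ∉ VV A a) (y1 : y ∉ VV A a)
    (x2 : x ≠ a) (y2 : y ≠ a) : ∃ m ∈ 𝒩 A ⊓ 𝒞₁ a, m * x * m⁻¹ = y := by
  obtain ⟨m, hm, e⟩ := h.tr1 ha (h.mulV ha hx ha.1 x1 (h.aV ha) x2)
    (h.mulV ha hy ha.1 y1 (h.aV ha) y2)
  rw [← conj_mul, cj_fix hm.2] at e
  exact ⟨m, hm, mul_right_cancel e⟩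

theorem fix (ha : a ∈ sharp A) (r : Rh A a ρ) (hc : c ∈ sharp A) (e : ρ ∈ 𝒞₁ c) : c = a := by
  by_contra i
  by_cases j : c ∈ VV A a
  · exact (h.tri ha r).fix c ⟨j, hc.2⟩ e
  · exact (h.tri ha r).fix _ (h.mulV ha hc.1 ha.1 j (h.aV ha) i)
      (mem_cent1_comm.1 (mul_mem (mem_cent1_comm.1 e) (mem_cent1_comm.1 r.ca)))

theorem t1a (hx : x ∈ sharp A) (hy : y ∈ sharp A) (e : x ∈ VV A y) : y ∉ VV A x := fun e' => by
  obtain ⟨n, hn, i⟩ := h.tr y hy.1 x hx.1 hy.2 hx.2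
  obtain ⟨m, hm, j⟩ := h.tr1 hx ⟨mV' hn e rfl i, conj_ne_one hx.2 n⟩ ⟨e', hy.2⟩
  refine h.aV hx (no_swap h.syl h.elem.abel trivial (mul_mem hm.1 hn) hx.1 (y := y) ?_ ?_ ▸ e)
  · rw [← j]; group
  · rw [← cj_fix hm.2, ← i]; group

theorem exV (ha : a ∈ sharp A) : ∃ u, u ∈ sharp (VV A a) :=
  exists_ne_one (ne_bot_of_card (by rw [h.cV ha]; omega))

theorem t1b (hx : x ∈ sharp A) (hy : y ∈ sharp A) (ne : x ≠ y) (e : x ∉ VV A y) : y ∈ VV A x := by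
  obtain ⟨u, hu⟩ := h.exV hy
  obtain ⟨n, hn, i⟩ := h.tr u (shV hu).1 y hy.1 hu.2 hy.2
  have z := SFx.conj_sharp hn hy
  have k := mV' hn hu.1 i rfl
  obtain ⟨m, hm, j⟩ := h.tr2 hy z.1 hx.1 (h.t1a hy z k) e (fun l => h.aV hy (by rwa [l] at k)) ne
  exact mV' hm.1 k (cj_fix hm.2) j

theorem meetV (ha : a ∈ sharp A) (hD : D ≤ A) (h2 : 2 < ♯D) : ∃ b ∈ sharp (VV A a), b ∈ D :=
  meet h.elem h.card VV_le hD (h.cV ha) h2

theorem t2 (hx : x ∈ sharp A) (hy : y ∈ sharp A) (ne : y ≠ x) :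
    ∃ c ∈ sharp A, x ∈ VV A c ∧ y ∈ VV A c := by
  have k : ∀ y ∈ sharp (VV A x), ∃ c ∈ sharp A, x ∈ VV A c ∧ y ∈ VV A c := fun y hy => by
    obtain ⟨u, hu⟩ := h.exV hx
    have c1 : x * u ∉ VV A x := fun i => h.aV hx ((mul_mem_cancel_right hu.1).1 i)
    have c2 : x * u ∈ sharp A := ⟨mul_mem hx.1 (VV_le hu.1), fun i => c1 (i ▸ one_mem _)⟩
    obtain ⟨z, hz, i⟩ := h.meetV hx (VV_le (a := x * u)) (by rw [h.cV c2]; omega)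
    obtain ⟨m, hm, j⟩ := h.tr1 hx hz hy
    exact ⟨_, SFx.conj_sharp hm.1 c2, mV' hm.1 (h.t1b c2 hx (by simpa using hu.2) c1) (cj_fix hm.2) rfl,
      mV' hm.1 i j rfl⟩
  by_cases e : y ∈ VV A x
  · exact k y ⟨e, hy.2⟩
  obtain ⟨c, hc, i, j⟩ := k _ (h.mulV hx hy.1 hx.1 e (h.aV hx) ne)
  exact ⟨c, hc, i, (mul_mem_cancel_right i).1 j⟩

theorem line (hB : B ≤ A) (h4 : ♯B = 4) : ∃ c ∈ sharp A, VV A c = B := by
  have e := h.elem.mono hB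
  obtain ⟨x, hx, -⟩ := ex_ne e (by omega) (one_mem B)
  obtain ⟨y, hy, ne⟩ := ex_ne e (by omega) hx.1
  obtain ⟨c, hc, i, j⟩ := h.t2 ⟨hB hx.1, hx.2⟩ ⟨hB hy.1, hy.2⟩ ne.symm
  refine ⟨c, hc, (eq_of_card_le (fun z hz => ?_) (by rw [h.cV hc, h4])).symm⟩
  rcases (kl_of e h4 hx hy ne).cases z hz with rfl | rfl | rfl | rfl
  exacts [one_mem _, i, j, mul_mem i j]

theorem invV (ha : a ∈ sharp A) (hD : D ≤ A) (h2 : 2 < ♯D) (hn : 𝒩 A ⊓ 𝒞₁ a ≤ 𝒩 D) :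
    VV A a ≤ D := fun x hx => by
  obtain ⟨b, hb, i⟩ := h.meetV ha hD h2
  by_cases e : x = 1
  · exact e ▸ one_mem _
  obtain ⟨m, hm, rfl⟩ := h.tr1 ha hb ⟨hx, e⟩
  exact conj_mem_of_norm (hn hm) i

theorem supV (ha : a ∈ sharp A) (h1 : a ∈ D) (h2 : VV A a ≤ D) : A ≤ D := fun x hx => by
  by_cases e : x ∈ VV A a
  · exact h2 e
  · exact (mul_mem_cancel_right h1).1 (h2 ((h.hy4 VV_le (h.cV ha)).mul x hx a ha.1 e (h.aV ha)))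

theorem nug (ha : a ∈ sharp A) (hH : H ≠ ⊤) (h1 : 𝒞₁ a ≤ H) : ¬ 𝒩 A ≤ H := fun e =>
  h.nu ⟨H, h.toMg, hH, e, fun b hb b1 => by
    obtain ⟨n, hn, rfl⟩ := h.tr a ha.1 b hb ha.2 b1
    exact cj_cent1 n a ▸ cj_le_of_mem (e hn) h1⟩

theorem mx (ha : a ∈ sharp A) (hH : H ≠ ⊤) (h1 : 𝒞₁ a ≤ H) : H ⊓ 𝒩 A ≤ 𝒞₁ a := fun n hn => by
  by_contra e
  let O : G → Prop := fun x => ∃ m ∈ H ⊓ 𝒩 A, m * a * m⁻¹ = x
  have sh : ∀ {x}, O x → x ∈ sharp A := fun ⟨m, hm, i⟩ => i ▸ SFx.conj_sharp hm.2 ha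
  have cl : ∀ {x y m}, O x → O y → m ∈ 𝒩 A ⊓ 𝒞₁ x → O (m * y * m⁻¹) :=
    fun ⟨k, hk, i⟩ ⟨l, hl, j⟩ hm => ⟨_, mul_mem ⟨cj_le_of_mem hk.1 h1 (by rw [cj_cent1, i]; exact hm.2),
      hm.1⟩ hl, by rw [← j]; group⟩
  have s1 : ∀ {x y z}, O x → O y → y ∈ VV A x → z ∈ sharp (VV A x) → O z := fun i j k l => by
    obtain ⟨m, hm, rfl⟩ := h.tr1 (sh i) ⟨k, (sh j).2⟩ l
    exact cl i j hm
  have s2 : ∀ {x y}, O x → O y → y ∈ VV A x → ∀ z ∈ sharp A, O z := fun {x y} i j k z hz => by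
    by_cases l : z ∈ VV A y
    · obtain ⟨u, hu, o⟩ := h.meetV (sh j) (VV_le (a := x)) (by rw [h.cV (sh i)]; omega)
      exact s1 j (s1 i j k ⟨o, hu.2⟩) hu.1 ⟨l, hz.2⟩
    by_cases o : z = y
    · exact o ▸ j
    obtain ⟨m, hm, rfl⟩ := h.tr2 (sh j) (sh i).1 hz.1 (h.t1a (sh j) (sh i) k) l
      (fun q => h.aV (sh i) (q ▸ k)) o
    exact cl j i hm
  have oa : O a := ⟨1, one_mem _, by simp⟩
  have ob : O (n * a * n⁻¹) := ⟨n, hn, rfl⟩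
  have all : ∀ z ∈ sharp A, O z := by
    by_cases i : n * a * n⁻¹ ∈ VV A a
    · exact s2 oa ob i
    · exact s2 ob oa (h.t1b (sh ob) ha (fun j => e (mem_cent1.2 (mul_inv_eq_iff_eq_mul.1 j))) i)
  refine h.nug ha hH h1 fun g hg => ?_
  obtain ⟨m, hm, i⟩ := all _ (SFx.conj_sharp hg ha)
  refine (H.mul_mem_cancel_left (H.inv_mem hm.1)).1 (h1 (mem_cent1.2 ?_))
  calc m⁻¹ * g * a = m⁻¹ * (g * a * g⁻¹) * g := by group
    _ = _ := by rw [← i]; group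

/-- an inverted element lies in the core -/
theorem zs (ha : a ∈ sharp A) (hH : H ≠ ⊤) (h1 : 𝒞₁ a ≤ H) : ⁅H, zpowers a⁆ ≤ O2 H :=
  commutator_le.2 fun g hg x hx => by
    rcases Ux.zpow_cases (h.elem.pow ha.1) hx with rfl | rfl
    · simp
    · exact (scA A H).zstar (h.sy ((h.cA ha).trans h1)) h.elem.abel ha.1 (h.mx ha hH h1) g hg

/-- eigen-elements -/
theorem eig (ho : Odd ♯D) (hn : A ≤ 𝒩 D) (he : e ∈ sharp A) (h1 : ¬ D ≤ 𝒞₁ e) :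
    ∃ c ∈ sharp A, e ∉ VV A c ∧ ∃ w ∈ D ⊓ 𝒞 (VV A c), w ≠ 1 ∧
      ∀ x ∈ A, x ∉ VV A c → x * w * x = w⁻¹ := by
  obtain ⟨B, b1, b2⟩ : ∃ B, SFx.Hy A B ∧ ¬ D ⊓ 𝒞 B ≤ 𝒞₁ e := by
    by_contra! i
    exact h1 (SFx.genH h.elem ho hn i)
  have eB : e ∉ B := fun i => b2 (inf_le_right.trans (cent_le_cent1 i))
  obtain ⟨c, hc, rfl⟩ := h.line b1.le (by
    have := b1.card
    have := h.le4 b1.le he.1 eB
    rw [h.card] at *
    omega)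
  obtain ⟨w, hw, w1, i⟩ := exists_inv (odd_of_le ho inf_le_left) (h.sq he)
    (le_norm_inf hn (le_norm_cent (h.elem.abel.le_norm VV_le)) he.1) b2
  exact ⟨c, hc, eB, w, hw, w1, fun x hx x1 =>
    inv_tr h.elem hx he.1 (cent_le_cent1 (b1.mul x hx e he.1 x1 eB) hw.2) i⟩

end Zc

end Cfsg.GS.Zx
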