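import Cfsg.Agent.GS.Z2

/-! Elementary abelian Sylow `2`-subgroups of order `8`, 3: the centralizers are maximal. -/

set_option autoImplicit false
set_option linter.unusedSectionVars false

namespace Cfsg.GS.Zx

open Subgroup Cfsg.L0 Cfsg.H8 Cfsg.FT Cfsg.BS Cfsg.BS.R Cfsg.GS.T3 Cfsg.GS.T4 Cfsg.GS.Kx
open Cfsg.GW.Mx (CC ca2 odd_p cop_two inf_of inf_of_le exists_coatom_norm')
open scoped commutatorElement

variable {G : Type} [Group G]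

/-- maximal subgroups containing the centralizers properly -/
structure C2 (A : Subgroup G) (H : G → Subgroup G) (r : ℕ) : Prop extends Zc A where
  pr : r.Prime
  r2 : r ≠ 2
  co : ∀ b ∈ sharp A, IsCoatom (H b)
  le : ∀ b ∈ sharp A, 𝒞₁ b ≤ H b
  eqv : ∀ n ∈ 𝒩 A, ∀ b ∈ sharp A, cj n (H b) = H (n * b * n⁻¹)
  nc : ∀ b ∈ sharp A, ¬ Op {r} (H b) ≤ 𝒞₁ b
  ny : ∀ b ∈ sharp A, 𝒩 ⁅Op {r} (H b), zpowers b⁆ ≤ H b

/-- intersections of the `O_r(H b)` -/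
def RI (H : G → Subgroup G) (r : ℕ) (S : Set G) : Subgroup G := ⨅ b ∈ S, Op {r} (H b)

variable {A D K T : Subgroup G} {H : G → Subgroup G} {S : Set G} {a b c d e m n w x y : G} {r s : ℕ}

theorem mem_RI : w ∈ RI H r S ↔ ∀ b ∈ S, w ∈ Op {r} (H b) := by simp only [RI, mem_iInf]

theorem RI_le (h : b ∈ S) : RI H r S ≤ Op {r} (H b) := fun _ hw => mem_RI.1 hw b h

variable [Finite G]

namespace C2
variable (h : C2 A H r)
include h

theorem AH (hb : b ∈ sharp A) : A ≤ H b := (h.cA hb).trans (h.le b hb)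
theorem pg : IsPGroup r (Op {r} K) := Op_pgroup h.pr K
theorem od : Odd ♯(Op {r} K) := odd_p h.pr h.r2 h.pg
theorem oo (hw : w ∈ Op {r} K) : Odd (orderOf w) := h.od.of_dvd_nat (orderOf_dvd hw)
theorem nR (hb : b ∈ sharp A) : 𝒞₁ b ≤ 𝒩 (Op {r} (H b)) := (h.le b hb).trans (Op_nrm _ _).norm

theorem kK (hK : K ≠ ⊤) (hA : A ≤ K) (hb : b ∈ sharp A) :
    ⁅Op {r} (H b) ⊓ K, zpowers b⁆ ≤ Op {r} K :=
  kk h.toMg h.card hK hA hb.1 h.pr h.r2 h.pg.to_inf_left inf_le_right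
    (le_norm_inf (inf_le_right.trans (h.nR hb)) (le_norm_of_le inf_le_left))

theorem e1 (he : e ∈ sharp A) (hc : c ∈ sharp A) (h1 : w ∈ Op {r} (H e)) (h2 : w ∈ H c)
    (i : e * w * e = w⁻¹) : w ∈ Op {r} (H c) :=
  mem_of_inv (h.sq he) (h.oo h1) i (mem_inf.2 ⟨h1, h2⟩) (h.kK (h.co c hc).1 (h.AH hc) he)

theorem lam (hd : d ∈ sharp A) (hc : c ∈ sharp A) (h1 : w ∈ RI H r (sharp (VV A d))) (h2 : w ∈ H c)
    (i : c * w * c = w⁻¹) : w ∈ Op {r} (H c) := by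
  obtain ⟨u, hu⟩ := h.exV hd
  exact Op_le_Op_of_nrm _ (Op_nrm _ _) (Zx.lam (odd_O2 (H c)) h.eV (by rw [h.cV hd]; omega)
    (VV_le.trans ((h.AH hc).trans (Op_nrm _ _).norm)) h.pr
    (mem_of_inv (h.sq hc) (h.oo (RI_le hu h1)) i h2 (h.zs hc (h.co c hc).1 (h.le c hc)))
    fun b hb => ⟨_, h.pg, RI_le hb h1, inf_le_right.trans (h.nR (shV hb))⟩)

theorem cjO (hn : n ∈ 𝒩 A) (hb : b ∈ sharp A) (s : ℕ) :
    cj n (Op {s} (H b)) = Op {s} (H (n * b * n⁻¹)) := by rw [cj_Op, h.eqv n hn b hb]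

theorem cent_R (hb : b ∈ sharp A) (e : Op {r} (H b) ⊓ 𝒞 (Op {r} (H b) ⊓ 𝒞₁ b) ≤ 𝒞₁ b) : False :=
  h.nc b hb (le_cent1_iff.2 (zpowers_le.1 ((nil_of_pgroup h.pr h.pg).cent_of_cent_stab
    (zpowers_le.2 (h.nR hb (self_mem_cent1 b))) (cop_two h.od (GW.Mx.p2 (h.sq hb)))
    (by rwa [cent_zpowers]))))

theorem nVc (ha : a ∈ sharp A) : ¬ ⁅Op {r} (H a), zpowers a⁆ ≤ 𝒞 (VV A a) := fun e => by
  obtain ⟨b, hb⟩ := h.exV ha
  have b1 := shV hb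
  have eb : ⁅Op {r} (H b), zpowers b⁆ ≤ 𝒞 (VV A b) := by
    obtain ⟨n, hn, rfl⟩ := h.tr a ha.1 b b1.1 ha.2 b1.2
    rw [← h.cjO hn ha, ← cj_zpowers', ← cj_commutator, ← cjV hn, ← cj_cent]
    exact cj_mono n e
  have k : ∀ {c}, c ∈ sharp A → zpowers c ≤ 𝒩 (Op {r} (H c)) := fun hc =>
    zpowers_le.2 (h.nR hc (self_mem_cent1 _))
  have l1 := comm_le_left (k ha)
  have l2 := comm_le_left (k b1)
  have c1 := e.trans (cent_le_cent1 hb.1)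
  have c2 : ⁅Op {r} (H a), zpowers a⁆ ≤ Op {r} (H b) := by
    rw [← comm_comm (k ha) (cop_two h.od (GW.Mx.p2 (h.sq ha)))]
    exact (comm_mono (le_inf l1 (c1.trans (h.le b b1))) le_rfl).trans
      (h.kK (h.co b b1).1 (h.AH b1) ha)
  have c3 := le_cent1_iff.1 c1
  obtain ⟨y, hy, y1, i⟩ := exists_inv (odd_of_le (odd_of_le h.od l2) inf_le_left) (h.sq b1)
    (le_norm_inf (right_le_norm_comm _ _) (le_norm_cent (le_norm_of_le_cent (zpowers_le.2 c3)))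
      (mem_zpowers b)) fun i => h.nc b b1 (cent_of_comm (h.sq b1) h.od (k b1 (mem_zpowers b))
      (le_cent1_iff.2 (zpowers_le.1 (AxB h.pr (fun d => h.r2 ((Nat.prime_dvd_prime_iff_eq h.pr
        Nat.prime_two).1 (GW.Mx.card_zp (h.sq b1) b1.2 ▸ d))) (h.pg.to_le l2) (h.pg.to_le l1)
        (right_le_norm_comm _ _) (c2.trans (left_le_norm_comm _ _)) (zpowers_le.2 c3)
        (cent_zpowers b ▸ i)))))
  have o := h.oo (l2 hy.1)
  exact y1 (inv_ne o (h.sq b1) i (c1 (mem_of_inv (h.sq ha) o (inv_tr h.elem ha.1 b1.1 (cent_le_cent1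
    ((h.hy4 VV_le (h.cV b1)).mul a ha.1 b b1.1 (h.t1a b1 ha hb.1) (h.aV b1)) (eb hy.1)) i)
    (h.e1 b1 ha (l2 hy.1) (h.ny a ha (cent_le_norm _ hy.2)) i) le_rfl)))

theorem ccH (ha : a ∈ sharp A) : CC (H a) := by
  by_contra e
  obtain ⟨-, n, n1, n2⟩ := comp (h.sy (h.AH ha)) e
  exact h.nVc ha (((comm_le_left (zpowers_le.2 (h.nR ha (self_mem_cent1 a)))).trans
    (Op_le_Fit h.pr _)).trans (cent_symm ((h.invV ha inf_le_left (two_lt n1.2 n2) (le_norm_inf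
      inf_le_left (le_norm_cent (inf_le_right.trans ((h.le a ha).trans (Fit_nrm _).norm))))).trans
      inf_le_right)))

theorem f1 (hd : d ∈ sharp A) (h0 : T ≠ ⊥) (h1 : T ≤ RI H r (sharp (VV A d))) (h2 : A ≤ 𝒩 T) :
    ∃ c ∈ sharp A, 𝒩 T ≤ H c := by
  have := Fact.mk Nat.prime_two
  have := Fact.mk h.pr
  obtain ⟨b, hb⟩ := h.exV hd
  have b1 := shV hb
  obtain ⟨K, k1, k2⟩ := exists_coatom_norm' h.simple h0
    (ne_top_of_le' (h.co b b1).1 (h1.trans ((RI_le hb).trans (Op_le _ _))))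
  have AK := h2.trans k2
  have i : ∀ b ∈ sharp (VV A d), GW.Mx.Inf (H b) K := fun b hb =>
    inf_of (h1.trans ((RI_le hb).trans (Op_le_Fit h.pr _))) k2
  have cK : CC K := by
    by_contra e
    obtain ⟨-, n, n1, n2⟩ := comp (h.sy AK) e
    obtain ⟨u, hu, j⟩ := h.meetV hd inf_le_left (two_lt n1.2 n2)
    have u1 := shV hu
    have c := cent_of_comm (h.sq u1) (odd_of_le h.od inf_le_left) (le_norm_inf
      ((h.cA u1).trans (h.nR u1)) (le_norm_of_le AK) u1.1) ((h.kK k1.1 AK u1).trans ((Op_le_Fit h.pr K).trans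
        (le_cent1_iff.2 j.2)))
    have pt := (i u hu).part {r}
    rw [Op_Fit h.pr] at pt
    exact h.cent_R u1 ((le_inf inf_le_left ((inf_le_inf_left _ (cent_anti
      (le_inf inf_le_left c))).trans pt)).trans c)
  have z : ∀ s, s.Prime → Op {s} (H b) = ⊥ → Op {s} K = ⊥ := fun s hs e => by
    have j : ∀ u ∈ sharp (VV A d), Op {s} K ⊓ H u = ⊥ := fun u hu => by
      obtain ⟨n, hn, rfl⟩ := h.tr b b1.1 u (shV hu).1 b1.2 hu.2
      exact (i _ hu).one' (h.ccH (shV hu)) hs (by rw [← h.cjO hn b1, e, cj_bot])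
    by_cases s2 : s = 2
    · exact eq_bot_of_le (j b hb) (le_inf le_rfl (s2 ▸ (Op_le_syl Nat.prime_two (h.sy AK)).trans
        (h.AH b1)))
    · exact eq_bot_iff.2 (SFx.gen1 h.eV (by rw [h.cV hd]; omega) (odd_p hs s2 (Op_pgroup hs K))
        (VV_le.trans (AK.trans (Op_nrm _ _).norm)) fun u hu =>
          (inf_le_inf_left _ (h.le u (shV hu))).trans (j u hu).le)
  by_cases t : GW.Mx.Two (H b)
  · refine ⟨b, b1, b3 G _ K (i b hb) (inf_of_le cK (Fit_le_of_forall fun q hq => ?_)) h.simple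
      (h.co b b1) k1 (h.ccH b1) cK t ▸ k2⟩
    by_cases e : Op {q} (H b) = ⊥
    · exact (z q hq e).le.trans bot_le
    · exact (i b hb).two h.simple (h.co b b1) t hq e
  have r0 : Op {r} (H b) ≠ ⊥ := fun e => h.nc b b1 (e.le.trans bot_le)
  have o : ∀ q, q.Prime → q ≠ r → Op {q} (H b) = ⊥ := fun q hq e =>
    by_contra fun a => t ⟨q, r, hq, h.pr, e, a, r0⟩
  have f : ∀ M : Subgroup G, (∀ q, q.Prime → q ≠ r → Op {q} M = ⊥) → Fit M ≤ Op {r} M := fun M a =>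
    Fit_le_of_forall fun q hq => by
      by_cases e : q = r
      exacts [by rw [e], (a q hq e).le.trans bot_le]
  have fK := f K fun q hq e => z q hq (o q hq e)
  obtain ⟨P, p1, p2⟩ := zj h.simple h.syl h.elem h.pr h.r2 (h.co b b1) r0 (h.ccH b1) (f _ o)
  obtain ⟨P', q1, q2⟩ := zj h.simple h.syl h.elem h.pr h.r2 k1 (fun e => b1.2 (mem_bot.1 (e ▸ fK
    (cK ⟨AK b1.1, by rw [eq_bot_of_le e fK, cent_bot]; trivial⟩)))) cK fK
  obtain ⟨g, -, rfl⟩ := p1.exists_cj_eq q1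
  rw [← cj_ZJ, ← cj_norm, p2] at q2
  obtain ⟨m, m1, m2⟩ := (h.sy (h.AH b1)).exists_cj_le (isPGroup_cj h.elem.pgroup g⁻¹)
    (le_cj_iff.1 (q2 ▸ AK))
  have n := inv_mem (mem_norm_of_cj_le (cj_mul m g⁻¹ A ▸ m2))
  refine ⟨_, SFx.conj_sharp n b1, ?_⟩
  rw [← h.eqv _ n b b1, mul_inv_rev, inv_inv, cj_mul, cj_eq_of_mem (inv_mem m1), q2]
  exact k2

theorem f2 (hd : d ∈ sharp A) (hx : x ∈ sharp A) (h0 : T ≠ ⊥) (h1 : T ≤ RI H r (sharp (VV A d)))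
    (h2 : 𝒩 A ⊓ 𝒞₁ x ≤ 𝒩 T) : 𝒩 T ≤ H x := by
  obtain ⟨c, hc, e⟩ := h.f1 hd h0 h1 ((le_inf (le_norm A) (h.cA hx)).trans h2)
  obtain ⟨ρ, q⟩ := h.exR hx
  exact h.fix hx q hc (h.mx hc (h.co c hc).1 (h.le c hc) ⟨e (h2 ⟨q.nA, q.ca⟩), q.nA⟩) ▸ e

theorem mRI {S' : Set G} (hn : n ∈ 𝒩 A) (hS : S ⊆ sharp A) (e : ∀ b ∈ S', n⁻¹ * b * n⁻¹⁻¹ ∈ S)
    (hw : w ∈ RI H r S) : n * w * n⁻¹ ∈ RI H r S' := mem_RI.2 fun b hb => by
  have := conj_mem_cj (g := n) (RI_le (e b hb) hw)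
  rwa [h.cjO hn (hS (e b hb)), show n * (n⁻¹ * b * n⁻¹⁻¹) * n⁻¹ = b by group] at this

theorem g1 (hw : w ∈ RI H r (sharp A)) : w = 1 := by
  by_contra e
  obtain ⟨d, hd, -⟩ := ex_ne h.elem (by rw [h.card]; omega) (one_mem A)
  have n : 𝒩 A ≤ 𝒩 (RI H r (sharp A)) := fun n hn => mem_normalizer_of_forall fun _ =>
    h.mRI hn le_rfl fun b => SFx.conj_sharp (inv_mem hn)
  obtain ⟨c, hc, i⟩ := h.f1 hd (ne_bot_of_mem hw e)
    (fun u hu => mem_RI.2 fun b hb => RI_le (shV hb) hu) ((le_norm A).trans n)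
  exact h.nug hc (h.co c hc).1 (h.le c hc) (n.trans i)

theorem mPi (hn : n ∈ 𝒩 A) (e : n * c * n⁻¹ = d)
    (hw : w ∈ 𝒞 (VV A c) ⊓ RI H r (sharp (VV A c))) :
    n * w * n⁻¹ ∈ 𝒞 (VV A d) ⊓ RI H r (sharp (VV A d)) :=
  ⟨by rw [← e, ← cjV hn, ← cj_cent]; exact conj_mem_cj hw.1, h.mRI hn (fun _ => shV)
    (fun b hb => ⟨mV' (inv_mem hn) hb.1 rfl (by rw [← e]; group), conj_ne_one hb.2 _⟩) hw.2⟩

theorem inPi (he : e ∈ sharp A) (h1 : w ∈ Op {r} (H e)) (h2 : w ∈ 𝒞 (VV A c))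
    (i : e * w * e = w⁻¹) : w ∈ 𝒞 (VV A c) ⊓ RI H r (sharp (VV A c)) :=
  ⟨h2, mem_RI.2 fun b hb => h.e1 he (shV hb) h1 (h.le b (shV hb) (cent_le_cent1 hb.1 h2)) i⟩

theorem nPi (hx : x ∈ sharp A) : 𝒩 (𝒞 (VV A x) ⊓ RI H r (sharp (VV A x))) ≤ H x := by
  obtain ⟨c, hc, e, w, hw, w1, i⟩ := h.eig h.od ((h.cA hx).trans (h.nR hx)) hx (h.nc x hx)
  obtain ⟨n, hn, j⟩ := h.tr c hc.1 x hx.1 hc.2 hx.2
  exact h.f2 hx hx (ne_bot_of_mem (h.mPi hn j (h.inPi hx hw.1 hw.2 (i x hx.1 e))) (conj_ne_one w1 n))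
    inf_le_right fun m hm => mem_normalizer_of_forall fun _ => h.mPi hm.1 (cj_fix hm.2)

theorem elim : False := by
  obtain ⟨e, he, -⟩ := ex_ne h.elem (by rw [h.card]; omega) (one_mem A)
  have n := (h.cA he).trans (h.nR he)
  obtain ⟨c, hc, e1, w, ⟨⟨w1, w2⟩, w3⟩, w4, i⟩ := h.eig (odd_of_le h.od inf_le_left) (le_norm_inf n
    (le_norm_cent (le_norm_inf n (le_norm_of_le (h.cA he))))) he (h.cent_R he)
  have p := h.inPi he w1 w3 (i e he.1 e1)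
  have miss : ∀ x ∈ sharp A, w ∉ Op {r} (H x) → x ∈ VV A e ∧ x ∉ VV A c ∧ x ≠ c := fun x hx q =>
    ⟨h.t1b he hx (fun j => q (j ▸ w1)) fun j => q (h.e1 he hx w1 (h.nPi hx (cent_le_norm _
      (cent_anti (le_inf (inf_le_right.trans (RI_le (b := e) (S := sharp _) ⟨j, he.2⟩)) (inf_le_left.trans (cent_le_cent1 j)))
        w2))) (i e he.1 e1)), fun j => q (RI_le (b := x) (S := sharp _) ⟨j, hx.2⟩ p.2), fun j => q (j ▸ h.lam hc hc p.2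
      (h.nPi hc (le_norm _ p)) (i c hc.1 (h.aV hc)))⟩
  refine w4 (h.g1 (mem_RI.2 fun x hx => by_contra fun q => ?_))
  obtain ⟨x1, x2, x3⟩ := miss x hx q
  have ce : c ∈ VV A e := h.t1b he hc (fun j => x2 (j ▸ x1)) e1
  have u : w ∈ RI H r {z | z ∈ sharp A ∧ z ≠ x} := mem_RI.2 fun y hy => by_contra fun q' => by
    obtain ⟨y1, y2, y3⟩ := miss y hy.1 q'
    rcases (kl_of h.eV (h.cV he) ⟨x1, hx.2⟩ ⟨ce, hc.2⟩ x3).cases y y1 with j | j | j | j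
    exacts [hy.1.2 j, hy.2 j, y3 j, y2 (j ▸ (h.mulV hc hx.1 hc.1 x2 (h.aV hc) x3).1)]
  exact q (h.lam hc hx p.2 (h.f2 hx hx (ne_bot_of_mem u w4) (fun z hz => mem_RI.2 fun b hb =>
    RI_le (S := {z | z ∈ sharp A ∧ z ≠ x}) ⟨shV hb, fun j => h.aV hx (j ▸ hb.1)⟩ hz)
    (fun m hm => mem_normalizer_of_forall fun _ => h.mRI hm.1 (fun _ a => a.1) fun b hb =>
      ⟨SFx.conj_sharp (inv_mem hm.1) hb.1, fun j => hb.2 (by rw [← cj_fix hm.2, ← j]; group)⟩)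
    (le_norm _ u)) (i x hx.1 x2))

end C2

theorem Zc.co (h : Zc A) (ha : a ∈ sharp A) : IsCoatom (𝒞₁ a) := by
  by_contra nc
  obtain ⟨M, m1, m2⟩ := exists_coatom (h.cne ha)
  have a2 := h.sq ha
  have am : zpowers a ≤ M := zpowers_le.2 (m2 (self_mem_cent1 a))
  obtain ⟨r, hr, r2, b⟩ : ∃ r : ℕ, r.Prime ∧ r ≠ 2 ∧ ¬ Op {r} (O2 M) ≤ 𝒞₁ a := by
    by_contra! b
    have c : O2 M ≤ 𝒞₁ a := le_cent1_iff.2 (zpowers_le.1 (cent_of_cent_Fit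
      (solvable_of_odd _ (odd_O2 M)) (am.trans (Op_nrm _ M).norm)
      (cop_two (odd_O2 M) (GW.Mx.p2 a2)) (cent_symm (cent_zpowers a ▸ Fit_le_of_forall fun q hq => by
        by_cases e : q = 2
        · rw [e, eq_bot_of_le (inf_eq_bot_of_cop (cop_two (odd_O2 M) (Op_pgroup Nat.prime_two _)))
            (le_inf (Op_le _ _) le_rfl)]
          exact bot_le
        · exact b q hq e))))
    refine nc (le_antisymm m2 (fun g hg => mem_cent1.2 (commutatorElement_eq_one_iff_mul_comm.1 ?_))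
      ▸ m1)
    have i := h.zs ha m1.1 m2 (commutator_mem_commutator hg (mem_zpowers a))
    refine inv_ne ((odd_O2 M).of_dvd_nat (orderOf_dvd i)) a2 ?_ (c i)
    rw [commutatorElement_inv, commutatorElement_def, commutatorElement_def,
      inv_eq_of_mul_eq_one_right a2, mul_assoc a, mul_assoc _ a a, a2]
    group
  have k : ∀ R : Subgroup G, IsPGroup r R → 𝒞₁ a ≤ 𝒩 R → IsPGroup r ↥⁅R, zpowers a⁆ ∧
      𝒞₁ a ≤ 𝒩 ⁅R, zpowers a⁆ ∧ ⁅⁅R, zpowers a⁆, zpowers a⁆ = ⁅R, zpowers a⁆ := fun R i j =>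
    have z := zpowers_le.2 (j (self_mem_cent1 a))
    ⟨i.to_le (comm_le_left z), le_norm_comm j (le_norm_of_le_cent (cent_zpowers a).ge),
      comm_comm z (cop_two (odd_p hr r2 i) (GW.Mx.p2 a2))⟩
  obtain ⟨Y, y0, ⟨y1, y2, y3⟩, y4⟩ := exists_maximal_ge (S := fun Y : Subgroup G => IsPGroup r Y ∧
    𝒞₁ a ≤ 𝒩 Y ∧ ⁅Y, zpowers a⁆ = Y) (k _ (Op_pgroup hr _) (m2.trans ((Op_nrm _ M).Op {r}).norm))
  have y5 : Y ≠ ⊥ := fun e => b (cent_zpowers a ▸ comm_eq_bot_iff'.1 (eq_bot_of_le e y0))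
  obtain ⟨K, k1, k2⟩ := exists_coatom (Yx.Mg.no h.toMg y5 (odd_p hr r2 y1))
  have cK := y2.trans k2
  have yR : Y ≤ Op {r} K := y3 ▸ kk h.toMg h.card k1.1 ((h.cA ha).trans cK) ha.1 hr r2 y1
    ((le_norm Y).trans k2) (inf_le_right.trans y2)
  have eY := y4 _ (k _ (Op_pgroup hr K) (cK.trans (Op_nrm _ K).norm))
    (y3.ge.trans (comm_mono yR le_rfl))
  have : ∀ b, ∃ n, b ∈ sharp A → n ∈ 𝒩 A ∧ n * a * n⁻¹ = b := fun b => by
    by_cases e : b ∈ sharp A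
    · obtain ⟨n, i, j⟩ := h.tr a ha.1 b e.1 ha.2 e.2
      exact ⟨n, fun _ => ⟨i, j⟩⟩
    · exact ⟨1, fun i => (e i).elim⟩
  choose n hn using this
  refine C2.elim (H := fun b => cj (n b) K) ⟨h, hr, r2, fun b _ => coatom_cj k1 _, fun b hb => ?_,
    fun m hm b hb => ?_, fun b hb e => y5 ?_, fun b hb => ?_⟩
  · rw [← (hn b hb).2, ← cj_cent1, (hn b hb).2]
    exact cj_mono _ cK
  · have i := (hn _ (SFx.conj_sharp hm hb)).2
    have j := (hn b hb).2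
    generalize n (m * b * m⁻¹) = u, n b = v at i j
    rw [← cj_mul, ← mul_inv_cancel_left u (m * v), cj_mul, cj_eq_of_mem (cK (mem_cent1.2 ?_))]
    calc u⁻¹ * (m * v) * a = u⁻¹ * (m * (v * a * v⁻¹) * m⁻¹) * (m * v) := by group
      _ = _ := by rw [j, ← i]; group
  · rw [← (hn b hb).2, ← cj_cent1, (hn b hb).2, ← cj_Op, cj_le_cj_iff] at e
    rw [← eY, comm_eq_bot_iff', cent_zpowers]
    exact e
  · have := cj_mono (n b) (eY ▸ k2)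
    rwa [cj_norm, cj_commutator, cj_Op, cj_zpowers', (hn b hb).2] at this

end Cfsg.GS.Zx
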